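import Cfsg.Statements.S0536
import Cfsg.Agent.Lib.TransferApps
import Cfsg.Agent.Lib.CoreEqTop
import Cfsg.Agent.Lib.CharCN3

set_option autoImplicit false
set_option maxHeartbeats 400000
open Cfsg

namespace Cfsg.Agent.S0536

open CfsgLib.Core in
/-- Structure of minimal non-nilpotent groups. -/
theorem structure' {G : Type*} [Group G] [Finite G] (hG : Cfsg.IsMinimalNonNilpotent G) :
    ∃ p q : ℕ, ∃ _ : Fact p.Prime, ∃ _ : Fact q.Prime, p ≠ q ∧ ∃ (P : Sylow p G) (Q : Sylow q G) (y : G),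
      (P : Subgroup G) = Subgroup.zpowers y ∧ (Q : Subgroup G).Normal ∧ (P : Subgroup G) ⊔ Q = ⊤ ∧
      y ∉ Subgroup.centralizer ((Q : Subgroup G) : Set G) := by
  classical
  obtain ⟨hn, hsub⟩ := hG
  obtain ⟨q, hq, hnpc⟩ : ∃ q : ℕ, ∃ _ : Fact q.Prime, ¬ Cfsg.HasNormalPComplement q G := by
    by_contra hne
    push Not at hne
    apply hn
    have hch : ∀ r : (Nat.card G).primeFactors, ∃ N : Subgroup G, ∃ _ : N.Normal,
        (Nat.card N).Coprime (r : ℕ) ∧ ∃ k, N.index = (r : ℕ) ^ k := fun r => by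
      haveI := Fact.mk (Nat.prime_of_mem_primeFactors r.2)
      obtain ⟨N, hN, h1, h2⟩ := hasNormalPComplement_iff.1 (hne r inferInstance)
      exact ⟨N, hN, h1, h2⟩
    choose N hNn hNc k hk using hch
    haveI : ∀ r, Group.IsNilpotent (G ⧸ N r) := fun r => by
      haveI := Fact.mk (Nat.prime_of_mem_primeFactors r.2)
      exact (IsPGroup.of_card (n := k r) (by rw [← Subgroup.index_eq_card, hk])).isNilpotent
    let f : G →* (∀ r, G ⧸ N r) := MonoidHom.mk' (fun g r => (g : G ⧸ N r)) fun a b => rfl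
    have hinj : Function.Injective f := (injective_iff_map_eq_one f).2 fun g hg => by
      rw [← orderOf_eq_one_iff]
      by_contra h1
      obtain ⟨r, hr, hd⟩ := Nat.exists_prime_and_dvd h1
      have hmem : r ∈ (Nat.card G).primeFactors :=
        Nat.mem_primeFactors.2 ⟨hr, hd.trans (orderOf_dvd_natCard g), Nat.card_pos.ne'⟩
      have hgN : g ∈ N ⟨r, hmem⟩ := (QuotientGroup.eq_one_iff g).1 (congrFun hg ⟨r, hmem⟩)
      have h2 : r ∣ Nat.card (N ⟨r, hmem⟩) := hd.trans (Subgroup.orderOf_dvd_natCard _ hgN)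
      exact hr.ne_one (Nat.eq_one_of_dvd_coprimes (hNc ⟨r, hmem⟩) h2 dvd_rfl)
    exact Group.nilpotent_of_mulEquiv (MonoidHom.ofInjective hinj).symm
  haveI := hq
  have hsubnpc : ∀ H : Subgroup G, H ≠ ⊤ → Cfsg.HasNormalPComplement q H := fun H hH => by
    haveI := hsub H hH
    refine hasNormalPComplement_of_local fun R hR w hw hwc => Subgroup.mem_centralizer_iff.2 fun r hr => ?_
    obtain ⟨j, hj⟩ := IsPGroup.iff_orderOf.1 hR ⟨r, hr⟩
    rw [Subgroup.orderOf_mk] at hj
    exact CfsgLib.CN.commute_of_coprime_orderOf r w (hj ▸ hwc.symm.pow_left j)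
  obtain ⟨-, -, hnorm⟩ := CfsgLib.Transfer.minimal_non_pNilpotent hnpc hsubnpc
  obtain ⟨Q⟩ : Nonempty (Sylow q G) := inferInstance
  haveI hQn := hnorm Q
  have hco : Nat.Coprime (Nat.card (Q : Subgroup G)) (Q : Subgroup G).index := by
    obtain ⟨k, hk⟩ := IsPGroup.iff_card.1 Q.2
    rw [hk]
    exact (hq.out.coprime_iff_not_dvd.2 Q.not_dvd_index).pow_left k
  obtain ⟨H, hH⟩ := Subgroup.exists_right_complement'_of_coprime hco
  have hHcard : Nat.card H = (Q : Subgroup G).index := hH.symm.index_eq_card.symm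
  have hQ1 : (Q : Subgroup G) ≠ ⊥ := fun e => hnpc ⟨Q, ⊤, inferInstance, by
    rw [e]; exact Subgroup.isComplement'_top_bot⟩
  have hHne : H ≠ ⊤ := fun e => hQ1 (by
    rw [← inf_top_eq (Q : Subgroup G), ← e]; exact disjoint_iff.1 hH.disjoint)
  haveI := hsub H hHne
  obtain ⟨y, hyH, p, hp, b, hb, hyC⟩ : ∃ y ∈ H, ∃ p : ℕ, p.Prime ∧ ∃ b, orderOf y = p ^ b ∧
      y ∉ Subgroup.centralizer ((Q : Subgroup G) : Set G) := by
    by_contra hne
    push Not at hne
    apply hn
    have hHC : H ≤ Subgroup.centralizer ((Q : Subgroup G) : Set G) := fun z hz =>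
      mem_of_prime_power_zpowers_mem _ fun r w hw hr ⟨b, hb⟩ =>
        hne w ((Subgroup.zpowers_le.2 hz) hw) r hr b hb
    haveI := Q.2.isNilpotent
    let f : ↥(Q : Subgroup G) × ↥H →* G := MonoidHom.noncommCoprod (Q : Subgroup G).subtype H.subtype fun a b =>
      Subgroup.mem_centralizer_iff.1 (hHC b.2) a a.2
    refine Group.nilpotent_of_surjective f fun g => ?_
    obtain ⟨⟨⟨a, ha⟩, ⟨c, hc⟩⟩, h2, -⟩ := Subgroup.IsComplement.existsUnique hH g
    exact ⟨(⟨a, ha⟩, ⟨c, hc⟩), h2⟩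
  haveI := Fact.mk hp
  have hpq : p ≠ q := fun e => by
    subst e
    have h1 : orderOf y ∣ (Q : Subgroup G).index := hHcard ▸ H.orderOf_dvd_natCard hyH
    rcases Nat.eq_zero_or_pos b with rfl | hb0
    · rw [pow_zero, orderOf_eq_one_iff] at hb
      exact hyC (hb ▸ one_mem _)
    · exact Q.not_dvd_index ((hb ▸ dvd_pow_self p hb0.ne').trans h1)
  have htop : (Q : Subgroup G) ⊔ Subgroup.zpowers y = ⊤ := by
    by_contra hne
    haveI := hsub _ hne
    refine hyC (Subgroup.mem_centralizer_iff.2 fun u hu => ?_)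
    obtain ⟨j, hj⟩ := IsPGroup.iff_orderOf.1 Q.2 ⟨u, hu⟩
    rw [Subgroup.orderOf_mk] at hj
    exact congrArg Subtype.val (CfsgLib.CN.commute_of_coprime_orderOf
      (⟨u, Subgroup.mem_sup_left hu⟩ : ((Q : Subgroup G) ⊔ Subgroup.zpowers y : Subgroup G))
      ⟨y, Subgroup.mem_sup_right (Subgroup.mem_zpowers y)⟩
      (by rw [Subgroup.orderOf_mk, Subgroup.orderOf_mk, hj, hb]
          exact Nat.Coprime.pow _ _ ((Nat.coprime_primes hq.out hp).2 hpq.symm)))
  have hyp : IsPGroup p (Subgroup.zpowers y) := IsPGroup.of_card (by rw [Nat.card_zpowers, hb])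
  have hidx : ¬ p ∣ (Subgroup.zpowers y).index := by
    intro hd
    have h1 : (Subgroup.zpowers y).index = (Subgroup.zpowers y).relIndex (Q : Subgroup G) := by
      have e1 := Subgroup.card_mul_index (Subgroup.zpowers y)
      have hinf : (Q : Subgroup G) ⊓ Subgroup.zpowers y = ⊥ := inf_eq_bot_of_coprime (by
        obtain ⟨j, hj⟩ := IsPGroup.iff_card.1 Q.2
        rw [hj, Nat.card_zpowers, hb]
        exact Nat.Coprime.pow _ _ ((Nat.coprime_primes hq.out hp).2 hpq.symm))
      have e2 : Nat.card (Subgroup.zpowers y) = (Q : Subgroup G).index := by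
        rw [(Subgroup.isComplement'_of_disjoint_and_mul_eq_univ (disjoint_iff.2 hinf)
          (by rw [← Subgroup.normal_mul, htop, Subgroup.coe_top])).symm.index_eq_card]
      rw [e2] at e1
      have e3 := (Q : Subgroup G).card_mul_index
      rw [← Subgroup.inf_relIndex_right, inf_comm, hinf, Subgroup.relIndex_bot_left]
      exact Nat.eq_of_mul_eq_mul_left (Nat.pos_of_ne_zero (Subgroup.index_ne_zero_of_finite (H := (Q : Subgroup G))))
        (e1.trans (e3.symm.trans (mul_comm _ _)))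
    rw [h1, ← Subgroup.inf_relIndex_right] at hd
    obtain ⟨j, hj⟩ := IsPGroup.iff_card.1 Q.2
    have h2 := hd.trans (Subgroup.relIndex_dvd_card _ _)
    rw [hj] at h2
    exact hpq ((Nat.prime_dvd_prime_iff_eq hp hq.out).1 (hp.dvd_of_dvd_pow h2))
  exact ⟨p, q, inferInstance, hq, hpq, hyp.toSylow hidx, Q, y, rfl, hQn, by rw [sup_comm]; exact htop, hyC⟩

/-- Structure of minimal non-nilpotent groups: if a finite group is not nilpotent but all its proper subgroups are, then there are distinct primes p and q, a cyclic Sylow p-subgroup P and a normal Sylow q-subgroup Q with G generated by P and Q. -/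
theorem result {G : Type*} [Group G] [Finite G] (hG : Cfsg.IsMinimalNonNilpotent G) : ∃ p q : ℕ, p.Prime ∧ q.Prime ∧ p ≠ q ∧ ∃ (P : Sylow p G) (Q : Sylow q G), IsCyclic P ∧ (Q : Subgroup G).Normal ∧ (P : Subgroup G) ⊔ Q = ⊤ := by
  obtain ⟨p, q, hp, hq, hpq, P, Q, y, hP, hQ, hsup, -⟩ := structure' hG
  exact ⟨p, q, hp.out, hq.out, hpq, P, Q, hP ▸ inferInstance, hQ, hsup⟩

end Cfsg.Agent.S0536
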