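import Cfsg.Statements.S0071
import Cfsg.Agent.Lib.CoreTransfer

set_option autoImplicit false
open Cfsg

namespace Cfsg.Agent.S0071

/-- The Frobenius normal p-complement Theorem states that a Sylow p-subgroup has a normal complement exactly when, for each of its subgroups Q, every element of the normalizer of Q of order prime to p centralizes Q. -/
theorem result {G : Type*} [Group G] [Finite G] {p : ℕ} [Fact p.Prime] (P : Sylow p G) : (∃ N : Subgroup G, N.Normal ∧ N.IsComplement' (P : Subgroup G)) ↔ ∀ Q : Subgroup G, Q ≤ (P : Subgroup G) → ∀ g ∈ Subgroup.normalizer (Q : Set G), Nat.Coprime (orderOf g) p → g ∈ Subgroup.centralizer (Q : Set G) := by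
  constructor
  · rintro ⟨N, hN, hc⟩ Q hQ g hg hcop
    exact CfsgLib.Core.centralizes_of_hasNormalPComplement ⟨P, N, hN, hc⟩ (P.2.to_le hQ) hg hcop
  · intro h
    obtain ⟨N, hN, hcop, k, hk⟩ := CfsgLib.Core.hasNormalPComplement_iff.mp
      (CfsgLib.Core.hasNormalPComplement_of_local_le P h)
    refine ⟨N, hN, Subgroup.isComplement'_of_coprime ?_ ?_⟩
    · haveI := hN
      obtain ⟨j, hj⟩ := IsPGroup.iff_card.mp P.2
      have h2 : Nat.card (P : Subgroup G) = N.index := by
        refine Nat.dvd_antisymm ?_ ?_
        · have hd := Subgroup.card_subgroup_dvd_card (P : Subgroup G)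
          rw [← Subgroup.card_mul_index N, hj] at hd
          rw [hj]
          exact (hcop.symm.pow_left j).dvd_of_dvd_mul_left hd
        · rw [hk]
          refine P.pow_dvd_card_of_pow_dvd_card ?_
          rw [← hk]
          exact Subgroup.index_dvd_card N
      rw [h2, Subgroup.card_mul_index]
    · obtain ⟨j, hj⟩ := IsPGroup.iff_card.mp P.2
      rw [hj]; exact hcop.pow_right j

end Cfsg.Agent.S0071
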