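import Cfsg.Statements.S2331
import Cfsg.Agent.Lib.ClassicalCompanionTwo

set_option autoImplicit false
open Cfsg

namespace Cfsg.Agent.S2331

/-- Over a finite field with q elements, q even, the special linear group SL₂ has exactly q + 1 conjugacy classes. -/
theorem result {F : Type*} [Field F] [Fintype F] [CharP F 2] :
    Nat.card (ConjClasses (Matrix.SpecialLinearGroup (Fin 2) F)) = Fintype.card F + 1 := by
  classical
  let G := Matrix.SpecialLinearGroup (Fin 2) F
  have h2 : (2 : F) = 0 := by exact_mod_cast CharP.cast_eq_zero F 2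
  let cm : F → G := fun t => ⟨!![0, -1; 1, t], by simp [Matrix.det_fin_two]⟩
  have hcm : ∀ t, (cm t : Matrix (Fin 2) (Fin 2) F) = !![0, -1; 1, t] := fun t => rfl
  let f : Option F → ConjClasses G := fun o => o.elim (ConjClasses.mk 1) (fun t => ConjClasses.mk (cm t))
  have hone : ∀ t, ¬ IsConj 1 (cm t) := by
    intro t h
    have := congrArg (fun y : G => (y : Matrix (Fin 2) (Fin 2) F) 1 0) (isConj_one_right.1 h)
    simp [hcm] at this
  have hf : Function.Bijective f := by
    constructor
    · rintro (_ | s) (_ | t) e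
      rotate_left
      all_goals try simp only [f, Option.elim, ConjClasses.mk_eq_mk_iff_isConj] at e
      rotate_right
      · rfl
      · exact absurd e (hone t)
      · exact absurd e.symm (hone s)
      · obtain ⟨c, hc⟩ := isConj_iff.1 e
        have h1 : ((c : Matrix (Fin 2) (Fin 2) F) * (cm s : Matrix (Fin 2) (Fin 2) F) * ((c⁻¹ : G) : Matrix (Fin 2) (Fin 2) F)).trace = (cm t : Matrix (Fin 2) (Fin 2) F).trace :=
          congrArg (fun y : G => (y : Matrix (Fin 2) (Fin 2) F).trace) hc
        rw [Matrix.trace_mul_cycle, ← Matrix.SpecialLinearGroup.coe_mul c⁻¹, inv_mul_cancel, Matrix.SpecialLinearGroup.coe_one, one_mul, hcm, hcm] at h1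
        simp [Matrix.trace_fin_two] at h1
        rw [h1]
    · intro C
      obtain ⟨g, rfl⟩ := ConjClasses.mk_surjective C
      by_cases h : CfsgLib.CompanionTwo.IsScalarTwo (g : Matrix (Fin 2) (Fin 2) F)
      · refine ⟨none, congrArg ConjClasses.mk (Subtype.ext ?_)⟩
        have hd := g.2
        rw [CfsgLib.CompanionTwo.eq_smul_one h] at hd
        rw [Matrix.det_smul, Matrix.det_one, mul_one, Fintype.card_fin] at hd
        have h1 : (g : Matrix (Fin 2) (Fin 2) F) 0 0 = 1 :=
          sub_eq_zero.1 (mul_self_eq_zero.1 (show ((g : Matrix (Fin 2) (Fin 2) F) 0 0 - 1) * ((g : Matrix (Fin 2) (Fin 2) F) 0 0 - 1) = 0 by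
            linear_combination hd + (1 - (g : Matrix (Fin 2) (Fin 2) F) 0 0) * h2))
        rw [Matrix.SpecialLinearGroup.coe_one, CfsgLib.CompanionTwo.eq_smul_one h, h1, one_smul]
      · obtain ⟨P, hP, hMP⟩ := CfsgLib.CompanionTwo.exists_frame _ h
        rw [g.2] at hMP
        obtain ⟨s, hs⟩ := FiniteField.isSquare_of_char_two (ringChar.eq F 2) P.det⁻¹
        obtain ⟨Q, hQ⟩ : ∃ Q : G, (Q : Matrix (Fin 2) (Fin 2) F) = s • P :=
          ⟨⟨s • P, by rw [Matrix.det_smul, Fintype.card_fin, pow_two, ← hs, inv_mul_cancel₀ hP]⟩, rfl⟩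
        refine ⟨some ((g : Matrix (Fin 2) (Fin 2) F) 0 0 + (g : Matrix (Fin 2) (Fin 2) F) 1 1), ?_⟩
        refine ConjClasses.mk_eq_mk_iff_isConj.2 (isConj_iff.2 ⟨Q, ?_⟩)
        rw [mul_inv_eq_iff_eq_mul]
        apply Subtype.ext
        rw [Matrix.SpecialLinearGroup.coe_mul, Matrix.SpecialLinearGroup.coe_mul, hQ, hcm]
        rw [Matrix.mul_smul, hMP, Matrix.smul_mul]
  rw [← Nat.card_congr (Equiv.ofBijective f hf), Nat.card_eq_fintype_card, Fintype.card_option]

end Cfsg.Agent.S2331
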