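import Cfsg.Statements.S2325


set_option autoImplicit false
open Cfsg

namespace Cfsg.Agent.S2325

/-- Over a finite field with q elements, q odd, the special linear group SL₂ has exactly q + 4 conjugacy classes. -/
theorem result {F : Type*} [Field F] [Fintype F] (hodd : Odd (Fintype.card F)) :
    Nat.card (ConjClasses (Matrix.SpecialLinearGroup (Fin 2) F)) = Fintype.card F + 4 := by
  classical
  have hchar : ringChar F ≠ 2 := fun h => by
    have := FiniteField.even_card_of_char_two h
    rw [Nat.odd_iff] at hodd; omega
  have h2 : (2 : F) ≠ 0 := Ring.two_ne_zero hchar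
  obtain ⟨ν, hν⟩ := FiniteField.exists_nonsquare hchar
  have hν0 : ν ≠ 0 := by rintro rfl; exact hν ⟨0, by simp⟩
  let sg : Bool → F := fun b => if b then 1 else -1
  have hsg : ∀ b, sg b * sg b = 1 := fun b => by cases b <;> simp [sg]
  have hsginj : Function.Injective sg := by
    intro a b h
    cases a <;> cases b <;> simp [sg] at h <;> first | rfl | exact absurd (by linear_combination h) h2 | exact absurd (by linear_combination -h) h2
  let kk : Fin 3 → F := ![0, 1, ν]
  let mkU : Bool → Fin 3 → Matrix.SpecialLinearGroup (Fin 2) F := fun b i =>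
    ⟨!![sg b, sg b * kk i; 0, sg b], by simp [Matrix.det_fin_two, hsg]⟩
  let mkT : F → Matrix.SpecialLinearGroup (Fin 2) F := fun t =>
    ⟨!![0, -1; 1, t], by simp [Matrix.det_fin_two]⟩
  let R : {t : F // t ^ 2 ≠ 4} ⊕ (Bool × Fin 3) → ConjClasses (Matrix.SpecialLinearGroup (Fin 2) F) :=
    Sum.elim (fun t => ConjClasses.mk (mkT t.1)) (fun p => ConjClasses.mk (mkU p.1 p.2))
  have htr : ∀ a b : Matrix.SpecialLinearGroup (Fin 2) F, ConjClasses.mk a = ConjClasses.mk b →
      (a : Matrix (Fin 2) (Fin 2) F).trace = (b : Matrix (Fin 2) (Fin 2) F).trace := by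
    intro a b h
    obtain ⟨g, rfl⟩ := isConj_iff.1 (ConjClasses.mk_eq_mk_iff_isConj.1 h)
    rw [Matrix.SpecialLinearGroup.coe_mul, Matrix.SpecialLinearGroup.coe_mul, Matrix.trace_mul_cycle, ← Matrix.SpecialLinearGroup.coe_mul, inv_mul_cancel]
    simp
  have hconj : ∀ (M N : Matrix.SpecialLinearGroup (Fin 2) F) (G : Matrix (Fin 2) (Fin 2) F), G.det = 1 →
      (M : Matrix (Fin 2) (Fin 2) F) * G = G * (N : Matrix (Fin 2) (Fin 2) F) → ConjClasses.mk N = ConjClasses.mk M := by
    intro M N G hG h
    refine ConjClasses.mk_eq_mk_iff_isConj.2 (isConj_iff.2 ⟨⟨G, hG⟩, mul_inv_eq_iff_eq_mul.2 (Subtype.ext ?_)⟩)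
    exact h.symm
  have hR : Function.Bijective R := by
    constructor
    · rintro (⟨t, ht⟩ | ⟨b, i⟩) (⟨t', ht'⟩ | ⟨b', i'⟩) h <;> simp only [R, Sum.elim_inl, Sum.elim_inr] at h
      · have := htr _ _ h
        simp [mkT, Matrix.trace_fin_two] at this
        simp [this]
      · have := htr _ _ h
        simp [mkT, mkU, Matrix.trace_fin_two] at this
        exact absurd (by linear_combination (t + (sg b' + sg b')) * this + 4 * hsg b') ht
      · have := htr _ _ h
        simp [mkT, mkU, Matrix.trace_fin_two] at this
        exact absurd (by linear_combination (t' + (sg b + sg b)) * this.symm + 4 * hsg b) ht'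
      · have h1 := htr _ _ h
        simp [mkU, Matrix.trace_fin_two] at h1
        have hb : b = b' := hsginj (mul_left_cancel₀ h2 (by linear_combination h1))
        subst hb
        obtain ⟨g, hg⟩ := isConj_iff.1 (ConjClasses.mk_eq_mk_iff_isConj.1 h)
        rw [mul_inv_eq_iff_eq_mul] at hg
        have hg' : (g : Matrix (Fin 2) (Fin 2) F) * (mkU b i : Matrix (Fin 2) (Fin 2) F) = (mkU b i' : Matrix (Fin 2) (Fin 2) F) * (g : Matrix (Fin 2) (Fin 2) F) := congrArg Subtype.val hg
        have e00 := congrFun (congrFun hg' 0) 0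
        have e01 := congrFun (congrFun hg' 0) 1
        have e11 := congrFun (congrFun hg' 1) 1
        simp [mkU, Matrix.mul_apply, Fin.sum_univ_two] at e00 e01 e11
        have hs0 : sg b ≠ 0 := fun e => by simpa [e] using hsg b
        have hdet : (g : Matrix (Fin 2) (Fin 2) F) 0 0 * (g : Matrix (Fin 2) (Fin 2) F) 1 1 - (g : Matrix (Fin 2) (Fin 2) F) 0 1 * (g : Matrix (Fin 2) (Fin 2) F) 1 0 = 1 := by
          rw [← Matrix.det_fin_two]; exact g.2
        have hk : (g : Matrix (Fin 2) (Fin 2) F) 0 0 * kk i = kk i' * (g : Matrix (Fin 2) (Fin 2) F) 1 1 := mul_left_cancel₀ hs0 (by linear_combination e01)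
        have hk1 : kk i' * (g : Matrix (Fin 2) (Fin 2) F) 1 0 = 0 := mul_left_cancel₀ hs0 (by linear_combination -e00)
        have hk2 : kk i * (g : Matrix (Fin 2) (Fin 2) F) 1 0 = 0 := mul_left_cancel₀ hs0 (by linear_combination e11)
        suffices hii : i = i' by rw [hii]
        by_contra hne
        have h10 : (g : Matrix (Fin 2) (Fin 2) F) 1 0 = 0 := by
          fin_cases i <;> fin_cases i' <;> simp [kk, hν0] at hk1 hk2 hne ⊢ <;> assumption
        rw [h10, mul_zero, sub_zero] at hdet
        have hg00 : (g : Matrix (Fin 2) (Fin 2) F) 0 0 ≠ 0 := left_ne_zero_of_mul_eq_one hdet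
        have hg11 : (g : Matrix (Fin 2) (Fin 2) F) 1 1 ≠ 0 := right_ne_zero_of_mul_eq_one hdet
        fin_cases i <;> fin_cases i' <;> simp [kk, hν0, hg00, hg11, eq_comm] at hk hne
        all_goals first
          | exact hg11 hk.symm
          | exact hg00 hk
          | exact hν ⟨(g : Matrix (Fin 2) (Fin 2) F) 0 0, by linear_combination (-ν) * hdet + (-(g : Matrix (Fin 2) (Fin 2) F) 0 0) * hk⟩
          | exact hν ⟨ν * (g : Matrix (Fin 2) (Fin 2) F) 0 0, by linear_combination (-ν) * hdet + (-ν * (g : Matrix (Fin 2) (Fin 2) F) 0 0) * hk⟩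
    · intro C
      obtain ⟨M, rfl⟩ := ConjClasses.exists_rep C
      have hdet : (M : Matrix (Fin 2) (Fin 2) F) 0 0 * (M : Matrix (Fin 2) (Fin 2) F) 1 1 - (M : Matrix (Fin 2) (Fin 2) F) 0 1 * (M : Matrix (Fin 2) (Fin 2) F) 1 0 = 1 := by
        rw [← Matrix.det_fin_two]; exact M.2
      obtain ⟨a, b, c, d, hM⟩ : ∃ a b c d, (M : Matrix (Fin 2) (Fin 2) F) = !![a, b; c, d] := ⟨_, _, _, _, Matrix.eta_fin_two _⟩
      simp [hM] at hdet
      by_cases ht : (a + d) ^ 2 = 4
      · obtain ⟨bs, hbs⟩ : ∃ bs, a + d = 2 * sg bs := by
          rcases mul_eq_zero.1 (show (a + d - 2) * (a + d + 2) = 0 by linear_combination ht) with h | h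
          · exact ⟨true, by simp [sg]; linear_combination h⟩
          · exact ⟨false, by simp [sg]; linear_combination h⟩
        by_cases hsc : a = sg bs ∧ b = 0 ∧ c = 0
        · refine ⟨Sum.inr (bs, 0), ?_⟩
          obtain ⟨ha, hb, hc⟩ := hsc
          show ConjClasses.mk (mkU bs 0) = ConjClasses.mk M
          congr 1
          refine Subtype.ext ?_
          rw [hM]
          ext i j; fin_cases i <;> fin_cases j <;> simp [mkU, kk, ha, hb, hc]
          linear_combination -hbs + ha
        · obtain ⟨w0, w1, hw⟩ : ∃ w0 w1 : F, ((a - sg bs) * w0 + b * w1) * w1 - (c * w0 + (d - sg bs) * w1) * w0 ≠ 0 := by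
            by_contra! h
            have hc0 : c = 0 := by have := h 1 0; linear_combination -this
            have hb0 : b = 0 := by have := h 0 1; linear_combination this
            have had := h 1 1
            rw [hc0, hb0] at had
            exact hsc ⟨mul_left_cancel₀ h2 (by linear_combination had + hbs), hb0, hc0⟩
          set A0 := (a - sg bs) * w0 + b * w1 with hA0
          set A1 := c * w0 + (d - sg bs) * w1 with hA1
          set D := A0 * w1 - A1 * w0 with hD
          have hs0 : sg bs ≠ 0 := fun e => by simpa [e] using hsg bs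
          have hMA0 : a * A0 + b * A1 = sg bs * A0 := by
            rw [hA0, hA1]; linear_combination (a * w0 + b * w1) * hbs + (-w0) * hdet + w0 * hsg bs
          have hMA1 : c * A0 + d * A1 = sg bs * A1 := by
            rw [hA0, hA1]; linear_combination (c * w0 + d * w1) * hbs + (-w1) * hdet + w1 * hsg bs
          obtain ⟨i, hi0, hi⟩ : ∃ i : Fin 3, kk i ≠ 0 ∧ IsSquare ((sg bs * kk i * D)⁻¹) := by
            by_cases hsq : IsSquare (sg bs * D)⁻¹
            · exact ⟨1, by simp [kk], by simpa [kk] using hsq⟩
            · refine ⟨2, by simpa [kk] using hν0, ?_⟩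
              obtain ⟨r, hr⟩ : IsSquare ((sg bs * D)⁻¹ * ν) :=
                (FiniteField.isSquare_iff hchar (mul_ne_zero (inv_ne_zero (mul_ne_zero hs0 hw)) hν0)).2 (by
                  rw [mul_pow]
                  rcases FiniteField.pow_dichotomy hchar (inv_ne_zero (mul_ne_zero hs0 hw)) with h | h
                  · exact absurd ((FiniteField.isSquare_iff hchar (inv_ne_zero (mul_ne_zero hs0 hw))).2 h) hsq
                  rcases FiniteField.pow_dichotomy hchar hν0 with h' | h'
                  · exact absurd ((FiniteField.isSquare_iff hchar hν0).2 h') hν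
                  · rw [h, h']; ring)
              refine ⟨r / ν, ?_⟩
              simp [kk]
              field_simp at hr ⊢
              linear_combination hr
          obtain ⟨l, hl⟩ := hi
          refine ⟨Sum.inr (bs, i), ?_⟩
          have hl1 : l * l * (sg bs * kk i * D) = 1 := by
            rw [← hl, inv_mul_cancel₀ (mul_ne_zero (mul_ne_zero hs0 hi0) hw)]
          refine hconj M (mkU bs i) !![l * A0, sg bs * kk i * l * w0; l * A1, sg bs * kk i * l * w1] ?_ ?_
          · rw [Matrix.det_fin_two]; simp
            linear_combination hl1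
          · rw [hM]
            show !![a, b; c, d] * _ = _ * !![sg bs, sg bs * kk i; 0, sg bs]
            rw [Matrix.mul_fin_two, Matrix.mul_fin_two]
            ext p q; fin_cases p <;> fin_cases q <;> simp
            · linear_combination l * hMA0
            · rw [hA0]; linear_combination (l * sg bs * kk i * w0) * (hsg bs) + (-l * sg bs * kk i * w0) * (hsg bs)
            · linear_combination l * hMA1
            · rw [hA1]; linear_combination (l * sg bs * kk i * w0) * (hsg bs) + (-l * sg bs * kk i * w0) * (hsg bs)
      · obtain ⟨x, y, hxy⟩ : ∃ x y : F, c * x ^ 2 + (d - a) * x * y - b * y ^ 2 = 1 := by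
          by_cases hc : c = 0
          · have hda : d - a ≠ 0 := fun e => ht (by
              rw [hc] at hdet
              linear_combination 4 * hdet + (d - a) * e)
            exact ⟨(1 + b) / (d - a), 1, by rw [hc]; field_simp; ring⟩
          · have hE : (4 * c * (-b) - (d - a) ^ 2) / (4 * c) ≠ 0 := by
              refine div_ne_zero (fun e => ht ?_) (mul_ne_zero (by rw [show (4 : F) = 2 * 2 by norm_num]; exact mul_ne_zero h2 h2) hc)
              linear_combination 4 * hdet - e
            obtain ⟨u, y, huy⟩ := FiniteField.exists_root_sum_quadratic (f := Polynomial.C c * Polynomial.X ^ 2)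
              (g := Polynomial.C ((4 * c * (-b) - (d - a) ^ 2) / (4 * c)) * Polynomial.X ^ 2 - Polynomial.C 1)
              (Polynomial.degree_C_mul_X_pow 2 hc)
              (by rw [Polynomial.degree_sub_C (by rw [Polynomial.degree_C_mul_X_pow 2 hE]; norm_num),
                Polynomial.degree_C_mul_X_pow 2 hE]; norm_num)
              (FiniteField.odd_card_of_char_ne_two hchar)
            simp only [Polynomial.eval_sub, Polynomial.eval_mul, Polynomial.eval_pow, Polynomial.eval_C, Polynomial.eval_X] at huy
            refine ⟨u - (d - a) * y / (2 * c), y, ?_⟩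
            have h4 : (4 : F) ≠ 0 := by rw [show (4 : F) = 2 * 2 by norm_num]; exact mul_ne_zero h2 h2
            field_simp at huy ⊢
            linear_combination huy
        refine ⟨Sum.inl ⟨a + d, ht⟩, ?_⟩
        refine hconj M (mkT (a + d)) !![x, a * x + b * y; y, c * x + d * y] ?_ ?_
        · rw [Matrix.det_fin_two]; simp
          linear_combination hxy
        · rw [hM]
          show !![a, b; c, d] * _ = _ * !![(0 : F), -1; 1, a + d]
          rw [Matrix.mul_fin_two, Matrix.mul_fin_two]
          ext p q; fin_cases p <;> fin_cases q <;> simp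
          · linear_combination (-x) * hdet
          · linear_combination (-y) * hdet
  rw [← Nat.card_congr (Equiv.ofBijective R hR), Nat.card_sum, Nat.card_prod, Nat.card_eq_fintype_card, Fintype.card_subtype_compl, Fintype.card_subtype]
  rw [show (Finset.univ.filter fun t : F => t ^ 2 = 4) = ({2, -2} : Finset F) from ?_]
  · have hne : (2 : F) ≠ -2 := fun e => mul_ne_zero h2 h2 (by linear_combination e)
    have := Fintype.one_lt_card (α := F)
    rw [Finset.card_pair hne]
    simp
    rw [Nat.odd_iff] at hodd
    omega
  · ext t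
    simp
    constructor
    · intro h
      rcases mul_eq_zero.1 (show (t - 2) * (t + 2) = 0 by linear_combination h) with h | h
      · exact Or.inl (by linear_combination h)
      · exact Or.inr (by linear_combination h)
    · rintro (rfl | rfl) <;> norm_num

end Cfsg.Agent.S2325
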