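import Cfsg.Statements.S0048
import Cfsg.Agent.Lib.CoreSZ
import Cfsg.Agent.Lib.CoreFitting

set_option autoImplicit false
open Cfsg

namespace Cfsg.Agent.S0048

/-- In a finite solvable group every maximal subgroup has index a prime power. -/
theorem result {G : Type*} [Group G] [Finite G] [Group.IsSolvable G]
    (M : Subgroup G) (hM : IsCoatom M) : IsPrimePow M.index := by
  set C := M.normalCore with hC
  let π := QuotientGroup.mk' C
  have hπ : Function.Surjective π := QuotientGroup.mk'_surjective C
  have hCM : C ≤ M := M.normalCore_le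
  have hker : π.ker ≤ M := by rw [QuotientGroup.ker_mk']; exact hCM
  set M' := M.map π with hM'
  have hidx : M'.index = M.index := Subgroup.index_map_eq M hπ hker
  have hne : M.index ≠ 1 := fun h => hM.1 (Subgroup.index_eq_one.mp h)
  have hback : M'.comap π = M := Subgroup.comap_map_eq_self hker
  haveI : Nontrivial (G ⧸ C) := QuotientGroup.nontrivial_iff.mpr
    fun h => hM.1 (top_le_iff.mp (h ▸ hCM))
  obtain ⟨N, hN, hN0, -, hmin⟩ :=
    CfsgLib.Core.exists_minimal_normal_le (G := G ⧸ C) (N := ⊤) top_ne_bot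
  haveI := hN
  obtain ⟨p, hp, hNp⟩ := CfsgLib.Core.exists_isPGroup_of_minimal_normal hN0 hmin
  haveI := Fact.mk hp
  have hnot : ¬ N ≤ M' := by
    intro hle
    have h1 : N.comap π ≤ M := (Subgroup.comap_mono hle).trans hback.le
    have h2 : N.comap π ≤ C := Subgroup.normal_le_normalCore.mpr h1
    apply hN0
    rw [← Subgroup.map_comap_eq_self_of_surjective hπ N, eq_bot_iff]
    refine (Subgroup.map_mono h2).trans ?_
    rw [QuotientGroup.map_mk'_self]
  have htop : M' ⊔ N = ⊤ := by
    apply top_le_iff.mp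
    have h1 : M ≤ (M' ⊔ N).comap π := by
      exact hback.ge.trans (Subgroup.comap_mono le_sup_left)
    rcases lt_or_eq_of_le h1 with h | h
    · have := hM.2 _ h
      rw [← Subgroup.map_comap_eq_self_of_surjective hπ (M' ⊔ N), this,
        Subgroup.map_top_of_surjective π hπ]
    · exfalso
      apply hnot
      have := congrArg (Subgroup.map π) h
      rw [Subgroup.map_comap_eq_self_of_surjective hπ] at this
      rw [hM', this]; exact le_sup_right
  have hcard := CfsgLib.Core.card_sup_mul_card_inf (A := M') (K := N)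
    (by rw [Subgroup.normalizer_eq_top (H := N)]; exact le_top)
  rw [htop, Subgroup.card_top, ← Subgroup.index_mul_card M'] at hcard
  have hdvd : M'.index ∣ Nat.card N := by
    refine ⟨Nat.card (M' ⊓ N : Subgroup (G ⧸ C)), ?_⟩
    apply Nat.eq_of_mul_eq_mul_left (Nat.card_pos : 0 < Nat.card M')
    rw [← hcard]; ring
  obtain ⟨k, hk⟩ := hNp.exists_card_eq
  rw [hk, hidx] at hdvd
  obtain ⟨i, -, hi⟩ := (Nat.dvd_prime_pow hp).mp hdvd
  refine ⟨p, i, hp.prime, ?_, hi.symm⟩
  rcases Nat.eq_zero_or_pos i with h | h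
  · exact absurd (by rw [hi, h, pow_zero]) hne
  · exact h

end Cfsg.Agent.S0048
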