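import Cfsg.Statements.S0190
import Cfsg.Agent.Lib.CharInd

set_option autoImplicit false
open Cfsg

namespace Cfsg.Agent.S0190

/-- For a transitive action of a finite group on X, the permutation character g ↦ (number of fixed points of g) is the function induced from the principal character of the stabilizer of any point. -/
theorem result {G : Type*} [Group G] [Fintype G] (X : Type*) [MulAction G X] [Finite X] [MulAction.IsPretransitive G X] (x : X) : (fun g : G => (Nat.card (MulAction.fixedBy X g) : ℂ)) = Cfsg.indFun (MulAction.stabilizer G x) (fun _ => 1) := by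
  classical
  funext g
  rw [CfsgLib.Char.indFun_apply]
  have h : ∀ y : G, Cfsg.extendByZero (MulAction.stabilizer G x) (fun _ => (1 : ℂ)) (y⁻¹ * g * y) =
      if y • x ∈ MulAction.fixedBy X g then 1 else 0 := fun y => by
    have hiff : y⁻¹ * g * y ∈ MulAction.stabilizer G x ↔ y • x ∈ MulAction.fixedBy X g := by
      rw [MulAction.mem_stabilizer_iff, MulAction.mem_fixedBy, mul_smul, mul_smul, inv_smul_eq_iff]
    split_ifs with e
    · rw [CfsgLib.Char.extendByZero_mem _ (hiff.mpr e)]
    · rw [CfsgLib.Char.extendByZero_not_mem _ (fun e' => e (hiff.mp e'))]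
  rw [Finset.sum_congr rfl fun y _ => h y, Finset.sum_boole]
  have hcard : (Finset.univ.filter fun y : G => y • x ∈ MulAction.fixedBy X g).card =
      Nat.card (MulAction.fixedBy X g) * Nat.card (MulAction.stabilizer G x) := by
    rw [← Fintype.card_subtype, ← Nat.card_eq_fintype_card, ← Nat.card_prod]
    refine Nat.card_congr (Equiv.symm ?_)
    exact
      { toFun := fun p => ⟨Function.surjInv (MulAction.surjective_smul G x) p.1 * p.2, by
          rw [mul_smul, MulAction.mem_stabilizer_iff.mp p.2.2, Function.surjInv_eq (f := fun y : G => y • x) (MulAction.surjective_smul G x)]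
          exact p.1.2⟩
        invFun := fun y => (⟨y.1 • x, y.2⟩,
          ⟨(Function.surjInv (MulAction.surjective_smul G x) (y.1 • x))⁻¹ * y.1, by
            rw [MulAction.mem_stabilizer_iff, mul_smul, inv_smul_eq_iff, Function.surjInv_eq (f := fun y : G => y • x) (MulAction.surjective_smul G x)]⟩)
        left_inv := fun p => by
          have e : (Function.surjInv (MulAction.surjective_smul G x) p.1 * (p.2 : G)) • x = p.1 := by
            rw [mul_smul, MulAction.mem_stabilizer_iff.mp p.2.2, Function.surjInv_eq (f := fun y : G => y • x) (MulAction.surjective_smul G x)]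
          refine Prod.ext (Subtype.ext e) (Subtype.ext ?_)
          simp only [e]
          group
        right_inv := fun y => by simp }
  rw [hcard, Nat.cast_mul]
  rw [mul_comm (Nat.card (MulAction.fixedBy X g) : ℂ), ← mul_assoc, inv_mul_cancel₀ (CfsgLib.Char.natCard_ne_zero _), one_mul]

end Cfsg.Agent.S0190
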