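import Cfsg.Statements.S0157
import Cfsg.Agent.Lib.CharInd
import Cfsg.Agent.S0190

set_option autoImplicit false
open Cfsg
open scoped ComplexConjugate

namespace Cfsg.Agent.S0157

/-- For a transitive action of a finite group on a finite set with at least two points: the action is 2-transitive if and only if the function sending g to (number of fixed points of g) − 1 is an irreducible character. -/
theorem result {G : Type*} [Group G] [Finite G] (X : Type*) [MulAction G X] [Finite X] [MulAction.IsPretransitive G X] (hX : 2 ≤ Nat.card X) : Cfsg.IsIrrCharacter G (fun g => (Nat.card (MulAction.fixedBy X g) : ℂ) - 1) ↔ MulAction.IsMultiplyPretransitive G X 2 := by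
  classical
  haveI := Fintype.ofFinite G
  haveI := Fintype.ofFinite X
  haveI : Nonempty X := Finite.card_pos_iff.mp (by omega)
  obtain ⟨x₀⟩ := ‹Nonempty X›
  obtain ⟨a₀, b₀, hab₀⟩ : ∃ a b : X, a ≠ b := by
    rw [Nat.card_eq_fintype_card] at hX
    exact Fintype.exists_pair_of_one_lt_card hX
  set π : G → ℂ := fun g => (Nat.card (MulAction.fixedBy X g) : ℂ) with hπdef
  have hπ := Cfsg.Agent.S0190.result (G := G) X x₀
  have hone : Cfsg.IsIrrCharacter (MulAction.stabilizer G x₀) (fun _ => (1 : ℂ)) :=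
    CfsgLib.Char.isIrrCharacter_one
  have hπchar : Cfsg.IsCharacter G π := by
    rw [hπdef, hπ]; exact CfsgLib.Char.isCharacter_indFun hone.isCharacter'
  have hπ1 : Cfsg.classInner π (fun _ => 1) = 1 := by
    rw [hπdef, hπ, CfsgLib.Char.frobenius _ _ (fun _ _ => rfl)]
    exact CfsgLib.Char.irr_inner_self hone
  set ψ : G → ℂ := fun g => (Nat.card (MulAction.fixedBy X g) : ℂ) - 1 with hψ
  have hψe : ψ = π - fun _ => 1 := rfl
  have hψchar : Cfsg.IsCharacter G ψ := by
    rw [hψe]
    refine CfsgLib.Char.isCharacter_iff_nat.mpr ⟨fun g y => ?_, fun χ hχ => ?_⟩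
    · simp only [Pi.sub_apply, CfsgLib.Char.isCharacter_classFunction hπchar g y]
    · rw [CfsgLib.Char.inner_sub_left]
      by_cases he : χ = fun _ => 1
      · subst he
        exact ⟨0, by rw [hπ1, CfsgLib.Char.irr_inner_self hχ, sub_self, Nat.cast_zero]⟩
      · obtain ⟨m, hm⟩ := CfsgLib.Char.inner_character_nat hπchar hχ.isCharacter'
        exact ⟨m, by
          rw [hm, CfsgLib.Char.irr_inner_ne CfsgLib.Char.isIrrCharacter_one hχ (Ne.symm he),
            sub_zero]⟩
  let Ω := Quotient (MulAction.orbitRel G (X × X))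
  haveI : Fintype Ω := Fintype.ofFinite _
  have hburn : Cfsg.classInner π π = (Nat.card Ω : ℂ) := by
    have h : ∀ g : G, π g * conj (π g) = (Fintype.card (MulAction.fixedBy (X × X) g) : ℂ) := fun g => by
      simp only [hπdef, Complex.conj_natCast]
      rw [← Nat.cast_mul, ← Nat.card_prod, ← Nat.card_eq_fintype_card]
      congr 1
      exact Nat.card_congr
        { toFun := fun p => ⟨(p.1.1, p.2.1), Prod.ext p.1.2 p.2.2⟩
          invFun := fun q => (⟨q.1.1, congrArg Prod.fst q.2⟩, ⟨q.1.2, congrArg Prod.snd q.2⟩)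
          left_inv := fun p => rfl
          right_inv := fun q => rfl }
    rw [Cfsg.classInner, Finset.sum_congr rfl fun g _ => h g, ← Nat.cast_sum,
      MulAction.sum_card_fixedBy_eq_card_orbits_mul_card_group G (X × X), Nat.cast_mul,
      ← Nat.card_eq_fintype_card, ← Nat.card_eq_fintype_card, mul_comm (Nat.card Ω : ℂ),
      inv_mul_cancel_left₀ (CfsgLib.Char.natCard_ne_zero G)]
  have hnorm : Cfsg.classInner ψ ψ = (Nat.card Ω : ℂ) - 1 := by
    rw [hψe, CfsgLib.Char.inner_sub_left, CfsgLib.Char.inner_sub_right, CfsgLib.Char.inner_sub_right,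
      hburn, hπ1, ← CfsgLib.Char.inner_conj_symm π, hπ1, map_one,
      CfsgLib.Char.irr_inner_self CfsgLib.Char.isIrrCharacter_one]
    ring
  have hiff : Cfsg.IsIrrCharacter G ψ ↔ Nat.card Ω = 2 := by
    rw [CfsgLib.Char.isIrrCharacter_iff, hnorm]
    constructor
    · intro h
      have : (Nat.card Ω : ℂ) = 2 := by linear_combination h.2
      exact_mod_cast this
    · intro h
      exact ⟨hψchar, by rw [h]; norm_num⟩
  rw [hiff, MulAction.is_two_pretransitive_iff]
  let cls : X × X → Ω := Quotient.mk _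
  have hcls : ∀ p q : X × X, cls p = cls q ↔ ∃ g : G, g • q = p := fun p q => by
    rw [show (cls p = cls q) ↔ _ from Quotient.eq, MulAction.orbitRel_apply, MulAction.mem_orbit_iff]
  have hdiag : ∀ a b c : X, cls (a, a) = cls (b, c) → b = c := by
    intro a b c h
    obtain ⟨g, hg⟩ := (hcls _ _).mp h
    exact MulAction.injective g ((congrArg Prod.fst hg).trans (congrArg Prod.snd hg).symm)
  constructor
  · intro h2 a b c d hab hcd
    rw [Nat.card_eq_two_iff' (cls (x₀, x₀))] at h2
    obtain ⟨u, -, huniq⟩ := h2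
    have h3 : cls (c, d) = cls (a, b) :=
      (huniq _ fun e => hcd (hdiag _ _ _ e.symm)).trans (huniq _ fun e => hab (hdiag _ _ _ e.symm)).symm
    obtain ⟨g, hg⟩ := (hcls _ _).mp h3
    exact ⟨g, congrArg Prod.fst hg, congrArg Prod.snd hg⟩
  · intro h
    rw [Nat.card_eq_two_iff' (cls (x₀, x₀))]
    refine ⟨cls (a₀, b₀), fun e => hab₀ (hdiag _ _ _ e.symm), fun u hu => ?_⟩
    obtain ⟨⟨c, d⟩, rfl⟩ := Quotient.mk_surjective u
    have hcd : c ≠ d := fun e => hu (by
      subst e
      obtain ⟨g, hg⟩ := MulAction.exists_smul_eq G x₀ c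
      exact (hcls _ _).mpr ⟨g, Prod.ext hg hg⟩)
    obtain ⟨g, hg1, hg2⟩ := h hab₀ hcd
    exact (hcls _ _).mpr ⟨g, Prod.ext hg1 hg2⟩

end Cfsg.Agent.S0157
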