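import Cfsg.Statements.S1009
import Mathlib
import Cfsg.Agent.Lib.PermSylow

set_option autoImplicit false
open Cfsg

namespace Cfsg.Agent.S1009

/-- Brodkey's Theorem: if a finite group has abelian Sylow p-subgroups, then there are two Sylow p-subgroups whose intersection equals the intersection of all Sylow p-subgroups. -/
theorem result {G : Type*} [Group G] [Finite G] (p : ℕ) [Fact p.Prime] (hab : ∀ P : Sylow p G, IsMulCommutative ↥(P : Subgroup G)) : ∃ P Q : Sylow p G, (P : Subgroup G) ⊓ (Q : Subgroup G) = ⨅ R : Sylow p G, (R : Subgroup G) := by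
  classical
  obtain ⟨⟨P, Q⟩, -, hmin⟩ := Set.exists_min_image (Set.univ : Set (Sylow p G × Sylow p G))
    (fun x => Nat.card ↥((x.1 : Subgroup G) ⊓ (x.2 : Subgroup G))) (Set.toFinite _) Set.univ_nonempty
  refine ⟨P, Q, le_antisymm (le_iInf fun R => ?_) (le_inf (iInf_le _ P) (iInf_le _ Q))⟩
  set D : Subgroup G := (P : Subgroup G) ⊓ (Q : Subgroup G) with hD
  set K : Subgroup G := Subgroup.normalizer (D : Set G) with hK
  have hle : ∀ S : Sylow p G, D ≤ (S : Subgroup G) → (S : Subgroup G) ≤ K := by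
    intro S hS x hx
    rw [hK, Subgroup.mem_normalizer_iff]
    have hc := (hab S).is_comm.comm
    intro z
    constructor <;> intro hz
    · have : x * z = z * x := congrArg Subtype.val (hc ⟨x, hx⟩ ⟨z, hS hz⟩)
      rw [this, mul_inv_cancel_right]; exact hz
    · have : x * (x * z * x⁻¹) = (x * z * x⁻¹) * x := congrArg Subtype.val (hc ⟨x, hx⟩ ⟨_, hS hz⟩)
      rw [inv_mul_cancel_right] at this
      rwa [mul_left_cancel this] at hz
  have hPK := hle P inf_le_left
  have hQK := hle Q inf_le_right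
  obtain ⟨T, hT⟩ := (R.isPGroup'.comap_subtype (K := K)).exists_le_sylow
  obtain ⟨k, hk⟩ := MulAction.exists_smul_eq K (P.subtype hPK) T
  rw [Sylow.smul_subtype hPK k] at hk
  set k' : G := (k : G) with hk'
  have hQ' : D ≤ ((k' • Q : Sylow p G) : Subgroup G) := by
    intro z hz
    refine ⟨k'⁻¹ * z * k', ((Subgroup.mem_normalizer_iff.mp (inv_mem k.2) z).mp hz |> fun h => by
      rw [inv_inv] at h; exact h.2), ?_⟩
    simp [mul_assoc]
  have hsub : (R : Subgroup G) ⊓ ((k' • Q : Sylow p G) : Subgroup G) ≤ D := by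
    rintro z ⟨hzR, hzQ⟩
    obtain ⟨q, hq, rfl⟩ := hzQ
    have hzK : (MulAut.conj k').toMonoidHom q ∈ K := by
      change k' * q * k'⁻¹ ∈ K
      exact mul_mem (mul_mem k.2 (hQK hq)) (inv_mem k.2)
    have hzT : (⟨_, hzK⟩ : K) ∈ (T : Subgroup K) := hT hzR
    rw [← hk] at hzT
    obtain ⟨q', hq', he⟩ := (hzT : (MulAut.conj k').toMonoidHom q ∈ ((k • P : Sylow p G) : Subgroup G))
    have hqq : q' = q := (MulAut.conj k').injective he
    subst hqq
    exact (Subgroup.mem_normalizer_iff.mp k.2 q').mp ⟨hq', hq⟩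
  have heq : (R : Subgroup G) ⊓ ((k' • Q : Sylow p G) : Subgroup G) = D :=
    Subgroup.eq_of_le_of_card_ge hsub (hmin (R, k' • Q) trivial)
  rw [← heq]
  exact inf_le_left

end Cfsg.Agent.S1009
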