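import Cfsg.Statements.S1153
import Cfsg.Agent.Lib.LieTwistG2Small

set_option autoImplicit false
open Cfsg

namespace Cfsg.Agent.S1153

/-- In the small Ree group ²G₂(q), q = 3^(2m+1), realised as G¹ inside the Chevalley group G₂ over the field with q elements, with `B¹ = G¹ ∩ B`: in the action of `G¹` on the cosets of `B¹`, the joint stabiliser of any three distinct cosets has order at most 2, and for some three distinct cosets it has order exactly 2. -/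
theorem result {K : Type*} [Field K] [Fintype K] {m : ℕ} (hK : Fintype.card K = 3 ^ (2 * m + 1)) :
    (∀ x y z : ↥(Cfsg.Lie.twistedG2 K (3 ^ m)) ⧸ ((Cfsg.Lie.chevG2.borelSubgroup K ⊓ Cfsg.Lie.twistedG2 K (3 ^ m))).subgroupOf (Cfsg.Lie.twistedG2 K (3 ^ m)), x ≠ y → x ≠ z → y ≠ z →
        Nat.card ↥(MulAction.stabilizer ↥(Cfsg.Lie.twistedG2 K (3 ^ m)) x ⊓ MulAction.stabilizer ↥(Cfsg.Lie.twistedG2 K (3 ^ m)) y ⊓ MulAction.stabilizer ↥(Cfsg.Lie.twistedG2 K (3 ^ m)) z) ≤ 2) ∧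
      ∃ x y z : ↥(Cfsg.Lie.twistedG2 K (3 ^ m)) ⧸ ((Cfsg.Lie.chevG2.borelSubgroup K ⊓ Cfsg.Lie.twistedG2 K (3 ^ m))).subgroupOf (Cfsg.Lie.twistedG2 K (3 ^ m)), x ≠ y ∧ x ≠ z ∧ y ≠ z ∧
        Nat.card ↥(MulAction.stabilizer ↥(Cfsg.Lie.twistedG2 K (3 ^ m)) x ⊓ MulAction.stabilizer ↥(Cfsg.Lie.twistedG2 K (3 ^ m)) y ⊓ MulAction.stabilizer ↥(Cfsg.Lie.twistedG2 K (3 ^ m)) z) = 2 := by
  classical
  obtain ⟨_, _, θ, P, h3⟩ := CfsgLib.Lie.ree_setup hK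
  have hq : Fintype.card K = 3 * 3 ^ m * 3 ^ m := by rw [hK]; ring
  have hG := CfsgLib.Lie.genG2 P h3
  set G := Cfsg.Lie.twistedG2 K (3 ^ m)
  set B : Subgroup ↥G := (Cfsg.Lie.chevG2.borelSubgroup K ⊓ G).subgroupOf G
  have hst : ∀ s g : ↥G, s ∈ MulAction.stabilizer ↥G (g : ↥G ⧸ B) ↔
      (g : GL Cfsg.Lie.chevG2.Idx K)⁻¹ * s * g ∈ Cfsg.Lie.chevG2.borelSubgroup K := fun s g => by
    rw [MulAction.mem_stabilizer_iff, ← QuotientGroup.mk_mul_of_mem g (one_mem B), mul_one]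
    show ((s * g : ↥G) : ↥G ⧸ B) = (g : ↥G ⧸ B) ↔ _
    rw [eq_comm, QuotientGroup.eq, Subgroup.mem_subgroupOf, Subgroup.mem_inf, Subgroup.coe_mul, Subgroup.coe_inv,
      Subgroup.coe_mul, mul_assoc]
    exact and_iff_left (mul_mem (inv_mem g.2) (mul_mem s.2 g.2))
  have hne : ∀ a b : ↥G, (a : ↥G ⧸ B) ≠ (b : ↥G ⧸ B) →
      (a : GL Cfsg.Lie.chevG2.Idx K)⁻¹ * b ∉ Cfsg.Lie.chevG2.borelSubgroup K := fun a b h hb =>
    h (QuotientGroup.eq.2 (Subgroup.mem_subgroupOf.2 (Subgroup.mem_inf.2 ⟨hb, mul_mem (inv_mem a.2) b.2⟩)))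
  have hsig : ((CfsgLib.Lie.torG2 θ) (-1) : GL Cfsg.Lie.chevG2.Idx K) ∈ G :=
    (Subgroup.mem_inf.1 (CfsgLib.Lie.torG2_mem P h3 (-1))).2
  have hle : ∀ x y z : ↥G ⧸ B, x ≠ y → x ≠ z → y ≠ z →
      Nat.card ↥(MulAction.stabilizer ↥G x ⊓ MulAction.stabilizer ↥G y ⊓ MulAction.stabilizer ↥G z) ≤ 2 := by
    intro x y z hxy hxz hyz
    induction x using QuotientGroup.induction_on with | H g1 => ?_
    induction y using QuotientGroup.induction_on with | H g2 => ?_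
    induction z using QuotientGroup.induction_on with | H g3 => ?_
    obtain ⟨v2, hv2, m2, hm2, ha2, hm2G, c2, hc2, e2⟩ :=
      CfsgLib.Lie.G2_cell P h3 (mul_mem (inv_mem g1.2) g2.2) (hne g1 g2 hxy)
    obtain ⟨v3, hv3, m3, hm3, ha3, hm3G, c3, hc3, e3⟩ :=
      CfsgLib.Lie.G2_cell P h3 (mul_mem (inv_mem g1.2) g3.2) (hne g1 g3 hxz)
    have hvv : v2⁻¹ * v3 ≠ 1 := by
      intro h
      rw [inv_mul_eq_one] at h
      refine hne g2 g3 hyz ?_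
      have hd : m2⁻¹ * m3 ∈ Cfsg.Lie.chevG2.diagonalSubgroup K := by
        refine (CfsgLib.Lie.Tab.toPerm_eq_one_iff CfsgLib.Lie.checkedG2 ⟨_, mul_mem (inv_mem hm2) hm3⟩).1
          (CfsgLib.Lie.Tab.toPerm_eq CfsgLib.Lie.checkedG2 ?_)
        have := (ha2.inv CfsgLib.Lie.checkedG2).mul CfsgLib.Lie.checkedG2 ha3
        rwa [inv_mul_cancel] at this
      have e : (g2 : GL Cfsg.Lie.chevG2.Idx K)⁻¹ * g3 = c2⁻¹ * (m2⁻¹ * m3) * c3 := by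
        calc (g2 : GL Cfsg.Lie.chevG2.Idx K)⁻¹ * g3 =
            ((g1 : GL Cfsg.Lie.chevG2.Idx K)⁻¹ * g2)⁻¹ * ((g1 : GL Cfsg.Lie.chevG2.Idx K)⁻¹ * g3) := by group
          _ = _ := by rw [e2, e3, h]; group
      rw [e]
      exact mul_mem (mul_mem (inv_mem (Subgroup.mem_sup_left (Subgroup.mem_inf.1 hc2).1)) (Subgroup.mem_sup_right hd))
        (Subgroup.mem_sup_left (Subgroup.mem_inf.1 hc3).1)
    have key : ∀ s ∈ MulAction.stabilizer ↥G (g1 : ↥G ⧸ B) ⊓ MulAction.stabilizer ↥G (g2 : ↥G ⧸ B) ⊓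
        MulAction.stabilizer ↥G (g3 : ↥G ⧸ B), (s : GL Cfsg.Lie.chevG2.Idx K) = 1 ∨ (s : GL Cfsg.Lie.chevG2.Idx K) =
          g1 * v2 * CfsgLib.Lie.torG2 θ (-1) * v2⁻¹ * (g1 : GL Cfsg.Lie.chevG2.Idx K)⁻¹ := by
      intro s hs
      simp only [Subgroup.mem_inf, hst] at hs
      obtain ⟨⟨s1, s2⟩, s3⟩ := hs
      have opp : ∀ (g : ↥G) (v m c : GL Cfsg.Lie.chevG2.Idx K), v ∈ Cfsg.Lie.chevG2.posUnipotent K ⊓ G →
          m ∈ Cfsg.Lie.chevG2.monomialSubgroup K →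
          CfsgLib.Lie.Tab.Acts CfsgLib.Lie.checkedG2 m ((CfsgLib.Lie.orbsG2 θ).wO (CfsgLib.Lie.oG2 θ)) →
          c ∈ Cfsg.Lie.chevG2.posUnipotent K ⊓ G → (g1 : GL Cfsg.Lie.chevG2.Idx K)⁻¹ * g = v * m * c →
          (g : GL Cfsg.Lie.chevG2.Idx K)⁻¹ * s * g ∈ Cfsg.Lie.chevG2.borelSubgroup K →
          v⁻¹ * ((g1 : GL Cfsg.Lie.chevG2.Idx K)⁻¹ * s * g1) * v ∈ Cfsg.Lie.chevG2.diagonalSubgroup K := by
        intro g v m c hv hm ha hc e hs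
        have hai : CfsgLib.Lie.Tab.Acts CfsgLib.Lie.checkedG2 m⁻¹
            ((CfsgLib.Lie.orbsG2 θ).wO (CfsgLib.Lie.oG2 θ)) := by
          have hi : ((CfsgLib.Lie.orbsG2 θ).wO (CfsgLib.Lie.oG2 θ))⁻¹ = (CfsgLib.Lie.orbsG2 θ).wO (CfsgLib.Lie.oG2 θ) :=
            inv_eq_of_mul_eq_one_left ((CfsgLib.Lie.orbsG2 θ).wl_sq (CfsgLib.Lie.oG2 θ))
          exact hi ▸ ha.inv CfsgLib.Lie.checkedG2
        refine CfsgLib.Lie.G2_opp (inv_mem hm) hai (mul_mem (mul_mem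
          (inv_mem (Subgroup.mem_sup_left (Subgroup.mem_inf.1 hv).1)) s1)
          (Subgroup.mem_sup_left (Subgroup.mem_inf.1 hv).1)) ?_
        have := mul_mem (mul_mem (Subgroup.mem_sup_left (Subgroup.mem_inf.1 hc).1 :
          c ∈ Cfsg.Lie.chevG2.borelSubgroup K) hs) (inv_mem (Subgroup.mem_sup_left (Subgroup.mem_inf.1 hc).1))
        have hg : (g : GL Cfsg.Lie.chevG2.Idx K) = g1 * (v * m * c) := by rw [← e, mul_inv_cancel_left]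
        rw [show m⁻¹ * (v⁻¹ * ((g1 : GL Cfsg.Lie.chevG2.Idx K)⁻¹ * s * g1) * v) * m⁻¹⁻¹ =
          c * ((g : GL Cfsg.Lie.chevG2.Idx K)⁻¹ * s * g) * c⁻¹ by rw [hg]; group]
        exact this
      have d2 := opp g2 v2 m2 c2 hv2 hm2 ha2 hc2 e2 s2
      have d3 := opp g3 v3 m3 c3 hv3 hm3 ha3 hc3 e3 s3
      set s' := (g1 : GL Cfsg.Lie.chevG2.Idx K)⁻¹ * s * g1
      have hs'G : s' ∈ G := mul_mem (mul_mem (inv_mem g1.2) s.2) g1.2
      set t2 := v2⁻¹ * s' * v2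
      set t3 := v3⁻¹ * s' * v3
      set w := v2⁻¹ * v3 with hw
      have hwU : w ∈ Cfsg.Lie.chevG2.posUnipotent K ⊓ G := mul_mem (inv_mem hv2) hv3
      have hd3 : t3 * w⁻¹ * t3⁻¹ ∈ Cfsg.Lie.chevG2.posUnipotent K :=
        (Subgroup.mem_normalizer_iff.1 (CfsgLib.Lie.Tab.diagonal_le_normalizer_pos CfsgLib.Lie.checkedG2 d3) _).1
          (inv_mem (Subgroup.mem_inf.1 hwU).1)
      have e : t2 * 1 = (w * (t3 * w⁻¹ * t3⁻¹)) * t3 := by simp only [t2, t3, w]; group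
      have h12 := CfsgLib.Lie.Tab.borel_unique CfsgLib.Lie.checkedG2 (one_mem _)
        (mul_mem (Subgroup.mem_inf.1 hwU).1 hd3) d2 d3 (by rw [one_mul, ← e, mul_one])
      obtain ⟨a, ha⟩ := CfsgLib.Lie.torG2_surj P (Subgroup.mem_inf.2 ⟨d2,
        mul_mem (mul_mem (inv_mem (Subgroup.mem_inf.1 hv2).2) hs'G) (Subgroup.mem_inf.1 hv2).2⟩)
      have hcomm : t2 * w = w * t2 := by
        have h := h12.1
        rw [eq_comm, mul_eq_one_iff_inv_eq] at h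
        rw [h12.2] at *
        calc t3 * w = t3 * (w⁻¹)⁻¹ := by rw [inv_inv]
          _ = (t3 * w⁻¹ * t3⁻¹)⁻¹ * t3 := by group
          _ = w * t3 := by rw [← h, inv_inv]
      have ha2' : a ^ 2 = 1 := by
        by_contra hne2
        exact hvv (CfsgLib.Lie.G2_centralized P hq hne2 hwU (ha ▸ hcomm))
      have hsEq : (s : GL Cfsg.Lie.chevG2.Idx K) = g1 * v2 * t2 * v2⁻¹ * (g1 : GL Cfsg.Lie.chevG2.Idx K)⁻¹ := by
        simp only [t2, s']; group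
      rcases sq_eq_one_iff.1 (show (a : K) ^ 2 = 1 by rw [← Units.val_pow_eq_pow_val, ha2', Units.val_one]) with h | h
      · left
        rw [hsEq, ha, show a = 1 from Units.ext h, map_one]; group
      · right
        rw [hsEq, ha, show a = -1 from Units.ext h]
    let σ : ↥G := ⟨g1 * v2 * CfsgLib.Lie.torG2 θ (-1) * v2⁻¹ * (g1 : GL Cfsg.Lie.chevG2.Idx K)⁻¹,
      mul_mem (mul_mem (mul_mem (mul_mem g1.2 (Subgroup.mem_inf.1 hv2).2) hsig) (inv_mem (Subgroup.mem_inf.1 hv2).2))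
        (inv_mem g1.2)⟩
    refine (Set.ncard_le_ncard (t := ({1, σ} : Set ↥G)) ?_).trans ((Set.ncard_insert_le _ _).trans (by simp))
    intro s hs
    rcases key s hs with h | h
    · exact Or.inl (Subtype.ext h)
    · exact Or.inr (Subtype.ext h)
  refine ⟨hle, ?_⟩
  obtain ⟨⟨n, hn, hnG, hnf, hna⟩, -⟩ := hG.exists_of_WF ((CfsgLib.Lie.orbsG2 θ).wO_mem (CfsgLib.Lie.oG2 θ))
  obtain ⟨hcom, hv0⟩ := CfsgLib.Lie.G2_involution_centralizes P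
  set v0 := CfsgLib.Lie.wordU (3 ^ m) (0 : K) 1 0
  have hv0m := CfsgLib.Lie.wordU_pos P (0 : K) 1 0
  set t := CfsgLib.Lie.torG2 θ (-1)
  have htd : t ∈ Cfsg.Lie.chevG2.diagonalSubgroup K := (Subgroup.mem_inf.1 (CfsgLib.Lie.torG2_mem P h3 (-1))).1
  have hnB : n ∉ Cfsg.Lie.chevG2.borelSubgroup K := fun h => by
    have h1 := CfsgLib.Lie.Tab.acts_diagonal CfsgLib.Lie.checkedG2
      ((CfsgLib.Lie.Tab.borel_inf_monomial CfsgLib.Lie.checkedG2).le (Subgroup.mem_inf.2 ⟨h, hn⟩))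
    have h2 := hna.unique CfsgLib.Lie.checkedG2 h1
    have h4 : ∀ r, CfsgLib.Lie.tabG2.Pos r →
        ¬ CfsgLib.Lie.tabG2.Pos ((CfsgLib.Lie.orbsG2 θ).wO (CfsgLib.Lie.oG2 θ) r) := fun r hr => by
      have := ((CfsgLib.Lie.orbsG2 θ).negSet_wO (CfsgLib.Lie.oG2 θ)).symm.le
        ⟨hr, fun i hi => absurd (CfsgLib.Lie.G2_allO (CfsgLib.Lie.oG2 θ) i) hi⟩
      exact this.2
    have hp := CfsgLib.Lie.Tab.pos_p CfsgLib.Lie.checkedG2 (CfsgLib.Lie.n0G2)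
    exact h4 _ hp (by rw [h2]; exact hp)
  have hnv : n⁻¹ * v0 * n ∉ Cfsg.Lie.chevG2.borelSubgroup K := by
    intro h
    have hai : CfsgLib.Lie.Tab.Acts CfsgLib.Lie.checkedG2 n⁻¹ ((CfsgLib.Lie.orbsG2 θ).wO (CfsgLib.Lie.oG2 θ)) := by
      have hi : ((CfsgLib.Lie.orbsG2 θ).wO (CfsgLib.Lie.oG2 θ))⁻¹ = (CfsgLib.Lie.orbsG2 θ).wO (CfsgLib.Lie.oG2 θ) :=
        inv_eq_of_mul_eq_one_left ((CfsgLib.Lie.orbsG2 θ).wl_sq (CfsgLib.Lie.oG2 θ))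
      exact hi ▸ hna.inv CfsgLib.Lie.checkedG2
    have h1 := CfsgLib.Lie.G2_opp (inv_mem hn) hai (Subgroup.mem_sup_left (Subgroup.mem_inf.1 hv0m).1)
      (by simpa using h)
    exact hv0 (Subgroup.mem_bot.1 ((CfsgLib.Lie.Tab.pos_inf_diagonal CfsgLib.Lie.checkedG2).le
      (Subgroup.mem_inf.2 ⟨(Subgroup.mem_inf.1 hv0m).1, h1⟩)))
  let gn : ↥G := ⟨n, hnG⟩
  let gv : ↥G := ⟨v0 * n, mul_mem (Subgroup.mem_inf.1 hv0m).2 hnG⟩
  have x1 : ((1 : ↥G) : ↥G ⧸ B) ≠ (gn : ↥G ⧸ B) := fun h => hnB (by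
    simpa [gn] using (Subgroup.mem_inf.1 (Subgroup.mem_subgroupOf.1 (QuotientGroup.eq.1 h))).1)
  have x2 : ((1 : ↥G) : ↥G ⧸ B) ≠ (gv : ↥G ⧸ B) := fun h => hnB (by
    have h1 := (Subgroup.mem_inf.1 (Subgroup.mem_subgroupOf.1 (QuotientGroup.eq.1 h))).1
    simp only [inv_one, one_mul, gv] at h1
    have h2 := mul_mem (inv_mem (Subgroup.mem_sup_left (Subgroup.mem_inf.1 hv0m).1 :
      v0 ∈ Cfsg.Lie.chevG2.borelSubgroup K)) h1
    rwa [inv_mul_cancel_left] at h2)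
  have x3 : (gn : ↥G ⧸ B) ≠ (gv : ↥G ⧸ B) := fun h => hnv (by
    simpa [gn, gv, mul_assoc] using (Subgroup.mem_inf.1 (Subgroup.mem_subgroupOf.1 (QuotientGroup.eq.1 h))).1)
  refine ⟨_, _, _, x1, x2, x3, le_antisymm (hle _ _ _ x1 x2 x3) ?_⟩
  have hsd : n⁻¹ * t * n ∈ Cfsg.Lie.chevG2.borelSubgroup K := by
    have := CfsgLib.Lie.Tab.diagonal_normal_monomial CfsgLib.Lie.checkedG2 (inv_mem hn) htd
    rw [inv_inv] at this
    exact Subgroup.mem_sup_right this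
  have hs : (⟨t, hsig⟩ : ↥G) ∈ MulAction.stabilizer ↥G ((1 : ↥G) : ↥G ⧸ B) ⊓
      MulAction.stabilizer ↥G (gn : ↥G ⧸ B) ⊓ MulAction.stabilizer ↥G (gv : ↥G ⧸ B) := by
    simp only [Subgroup.mem_inf, hst]
    refine ⟨⟨?_, hsd⟩, ?_⟩
    · show (1 : GL Cfsg.Lie.chevG2.Idx K)⁻¹ * t * 1 ∈ _
      rw [inv_one, one_mul, mul_one]
      exact Subgroup.mem_sup_right htd
    convert hsd using 1
    show (v0 * n)⁻¹ * t * (v0 * n) = n⁻¹ * t * n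
    calc (v0 * n)⁻¹ * t * (v0 * n) = n⁻¹ * v0⁻¹ * (t * v0) * n := by group
      _ = _ := by rw [hcom]; group
  haveI : Nontrivial ↥(MulAction.stabilizer ↥G ((1 : ↥G) : ↥G ⧸ B) ⊓ MulAction.stabilizer ↥G (gn : ↥G ⧸ B) ⊓
      MulAction.stabilizer ↥G (gv : ↥G ⧸ B)) := by
    refine ⟨⟨⟨_, hs⟩, 1, fun h => ?_⟩⟩
    have h1 : t = 1 := congrArg (fun s => ((s.1 : ↥G) : GL Cfsg.Lie.chevG2.Idx K)) h
    have h2 : ((-1 : Kˣ) : K) = 1 := congrArg Units.val (CfsgLib.Lie.torG2_inj (h1.trans (map_one _).symm))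
    rw [Units.val_neg, Units.val_one, neg_eq_iff_add_eq_zero, one_add_one_eq_two] at h2
    have h32 : (3 : K) = 0 := by exact_mod_cast CharP.cast_eq_zero K 3
    exact one_ne_zero (by linear_combination h32 - h2 : (1 : K) = 0)
  exact Finite.one_lt_card

end Cfsg.Agent.S1153
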