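import Cfsg.Statements.S1302
import Cfsg.Agent.Lib.FgsTransitivity
import Cfsg.Agent.Lib.TransferPGroups
import Cfsg.Agent.Lib.CoreOmega
import Cfsg.Agent.Lib.LocalBase

set_option autoImplicit false
open Cfsg

namespace Cfsg.Agent.S1302

open Subgroup
open scoped commutatorElement Pointwise
open CfsgLib.Transitivity (sylow_map_range lift_centralizes)

universe v

private theorem main {H : Type v} [Group H] [Finite H] {p : ℕ} [Fact p.Prime] (hp : p ≠ 2)
    (hcon : Cfsg.IsPConstrained p H) {E X : Subgroup H} (hE : IsPGroup p E)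
    (hX : (Nat.card X).Coprime p) (hEX : E ≤ normalizer (X : Set H))
    (hΩ : ∀ x ∈ centralizer (E : Set H), orderOf x = p → x ∈ E) :
    X ≤ Cfsg.pPrimeCore p H := by
  set W := Cfsg.pPrimeCore p H with hWd
  haveI hWn : W.Normal := CfsgLib.Core.normal_pPrimeCore p
  have hWc : (Nat.card W).Coprime p := CfsgLib.Core.coprime_card_pPrimeCore p
  set π := QuotientGroup.mk' W with hπ
  have hπs : Function.Surjective π := QuotientGroup.mk'_surjective W
  have hWN : ∀ K : Subgroup H, K ≤ normalizer (W : Set H) := fun K => by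
    rw [normalizer_eq_top]; exact le_top
  set P := Cfsg.pCore p (H ⧸ W) with hPd
  haveI : P.Normal := CfsgLib.Core.normal_pCore p
  have hPp : IsPGroup p P := CfsgLib.Core.isPGroup_pCore p
  set L := Cfsg.pPrimePCore p H with hLd
  have hLmem : ∀ y, y ∈ L ↔ π y ∈ P := fun y => Iff.rfl
  -- lifting a `p`-subgroup of the quotient
  have hlift : ∀ R : Subgroup (H ⧸ W), IsPGroup p R →
      ∃ R0 : Subgroup H, IsPGroup p R0 ∧ R0.map π = R := by
    intro R hR
    let S : Sylow p (R.comap π) := Classical.arbitrary _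
    refine ⟨(S : Subgroup (R.comap π)).map (R.comap π).subtype, S.2.map _, ?_⟩
    have hrange : (π.comp (R.comap π).subtype).range = R := by
      rw [MonoidHom.range_comp, Subgroup.range_subtype, map_comap_eq_self_of_surjective hπs]
    rw [map_map, sylow_map_range _ (by rw [hrange]; exact hR), hrange]
  have hcop : ∀ {K : Subgroup (H ⧸ W)}, IsPGroup p K → K ⊓ X.map π = ⊥ := by
    intro K hK
    obtain ⟨j, hj⟩ := IsPGroup.iff_card.mp hK
    refine CfsgLib.Core.inf_eq_bot_of_coprime ?_
    rw [hj]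
    exact ((hX.coprime_dvd_left (card_map_dvd X π)).pow_right j).symm
  have hPn : ∀ K : Subgroup (H ⧸ W), K ≤ normalizer (P : Set (H ⧸ W)) := fun K => by
    rw [normalizer_eq_top]; exact le_top
  have hEX' : E.map π ≤ normalizer ((X.map π : Subgroup (H ⧸ W)) : Set (H ⧸ W)) :=
    (map_mono hEX).trans (le_normalizer_map π)
  have hC : ∀ y ∈ P, y ^ p = 1 → y ∈ centralizer ((E.map π : Subgroup (H ⧸ W)) : Set (H ⧸ W)) →
      y ∈ centralizer ((X.map π : Subgroup (H ⧸ W)) : Set (H ⧸ W)) := by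
    intro y hyP hyp hyC
    obtain ⟨k, rfl⟩ := hπs y
    obtain ⟨n, hn, hnk⟩ := lift_centralizes hE hWc (hWN E) (hWN ⊤ (mem_top k)) fun a ha => by
      refine (QuotientGroup.eq_one_iff _).mp ?_
      show π (k * a * k⁻¹ * a⁻¹) = 1
      rw [map_mul, map_mul, map_mul, map_inv, map_inv, ← mem_centralizer_iff.mp hyC (π a) ⟨a, ha, rfl⟩]
      group
    have hc : π (n * k) = π k := by
      rw [map_mul, show π n = 1 from (QuotientGroup.eq_one_iff n).mpr hn, one_mul]
    let S : Sylow p (zpowers (n * k)) := Classical.arbitrary _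
    have hrange : (π.comp (zpowers (n * k)).subtype).range ≤ P := by
      rw [MonoidHom.range_comp, Subgroup.range_subtype, MonoidHom.map_zpowers, hc, zpowers_le]
      exact hyP
    have hmap := sylow_map_range (π.comp (zpowers (n * k)).subtype) (hPp.to_le hrange) S
    have hmem : π k ∈ (π.comp (zpowers (n * k)).subtype).range := ⟨⟨_, mem_zpowers _⟩, hc⟩
    rw [← hmap] at hmem
    obtain ⟨⟨s, hs⟩, hsS, hse⟩ := hmem
    have hsC : s ∈ centralizer (E : Set H) := zpowers_le.mpr hnk hs
    have hsE : s ∈ E := by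
      rcases eq_or_ne s 1 with rfl | hs1
      · exact one_mem E
      have hsp : s ^ p = 1 := by
        have hw : s ^ p ∈ W := (QuotientGroup.eq_one_iff _).mp (by
          show π (s ^ p) = 1
          rw [map_pow, show π s = π k from hse, hyp])
        obtain ⟨j, hj⟩ := (S.2.map (zpowers (n * k)).subtype) ⟨s, ⟨s, hs⟩, hsS, rfl⟩
        have hj' : s ^ p ^ j = 1 := congrArg Subtype.val hj
        have h1 : orderOf (s ^ p) ∣ p ^ j := (orderOf_pow_dvd p).trans (orderOf_dvd_of_pow_eq_one hj')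
        have h2 : orderOf (s ^ p) ∣ Nat.card W := Subgroup.orderOf_dvd_natCard W hw
        exact orderOf_eq_one_iff.mp (Nat.eq_one_of_dvd_coprimes (hWc.symm.pow_left j) h1 h2)
      exact hΩ s hsC (orderOf_eq_prime hsp hs1)
    refine mem_centralizer_iff.mpr fun x hx => ?_
    have hy : π k ∈ E.map π := ⟨s, hsE, hse⟩
    have h1 : x * π k * x⁻¹ * (π k)⁻¹ ∈ P ⊓ X.map π := by
      refine ⟨P.mul_mem (‹P.Normal›.conj_mem _ hyP x) (P.inv_mem hyP), ?_⟩
      have := (mem_normalizer_iff.mp (hEX' hy) x⁻¹).mp (inv_mem hx)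
      have h2 := (X.map π).mul_mem hx this
      rwa [show x * (π k * x⁻¹ * (π k)⁻¹) = x * π k * x⁻¹ * (π k)⁻¹ by group] at h2
    rw [hcop hPp, mem_bot, mul_inv_eq_one] at h1
    exact mul_inv_eq_iff_eq_mul.mp h1
  have hXP : X.map π ≤ centralizer (P : Set (H ⧸ W)) := by
    obtain ⟨D₀, hDchar, hDfr, hDc, hDcent⟩ := CfsgLib.Transfer.exists_critical (G := P) hPp
    haveI := hDchar
    set D := D₀.map P.subtype with hD
    have hDP : D ≤ P := map_subtype_le D₀
    have hDn : D.Normal := by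
      rw [hD]; infer_instance
    have hDN : ∀ K : Subgroup (H ⧸ W), K ≤ normalizer (D : Set (H ⧸ W)) := fun K => by
      haveI := hDn
      rw [normalizer_eq_top]; exact le_top
    have hcomm : ∀ a b c : D, ⁅a, b⁆ * c = c * ⁅a, b⁆ := by
      rintro ⟨_, a, ha, rfl⟩ ⟨_, b, hb, rfl⟩ ⟨_, c, hc, rfl⟩
      apply Subtype.ext
      have h1 : ⁅a, b⁆ ∈ centralizer (D₀ : Set P) :=
        (hDc (commutator_mem_commutator ha (mem_top b))).2
      have h2 := mem_centralizer_iff.mp h1 c hc
      simpa [commutatorElement_def] using (congrArg P.subtype h2).symm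
    have hDfr' : ∀ a : D, ∀ c : D, a ^ p * c = c * a ^ p := by
      rintro ⟨_, a, ha, rfl⟩ ⟨_, c, hc, rfl⟩
      apply Subtype.ext
      have h1 : a ^ p ∈ centralizer (D₀ : Set P) := hDfr ⟨(⟨a, ha⟩ : D₀) ^ p,
        CfsgLib.Core.pgroup_pow_mem_frattini (hPp.to_subgroup D₀) ⟨a, ha⟩, rfl⟩
      simpa using (congrArg P.subtype (mem_centralizer_iff.mp h1 c hc)).symm
    have hDZ : _root_.commutator D ≤ Subgroup.center D := by
      rw [_root_.commutator_def, commutator_le]
      intro a _ b _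
      exact mem_center_iff.mpr fun c => (hcomm a b c).symm
    let U : Subgroup (H ⧸ W) :=
      { carrier := {y | y ∈ D ∧ y ^ p = 1}
        one_mem' := ⟨one_mem D, one_pow p⟩
        mul_mem' := fun {x z} hx hz => ⟨mul_mem hx.1 hz.1, by
          have h := CfsgLib.Transfer.mul_pow_class_two (p := p) hp hDZ ⟨x, hx.1⟩ ⟨z, hz.1⟩ (by
            rw [show (⟨z, hz.1⟩ : D) ^ p = 1 from Subtype.ext hz.2, commutatorElement_one_left])
          simpa [hx.2, hz.2] using congrArg Subtype.val h⟩
        inv_mem' := fun {x} hx => ⟨inv_mem hx.1, by rw [inv_pow, hx.2, inv_one]⟩ }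
    have hUP : U ≤ P := fun y hy => hDP hy.1
    have hUn : U.Normal := ⟨fun y hy g => ⟨hDn.conj_mem y hy.1 g, by
      rw [conj_pow, hy.2]; group⟩⟩
    have hUN : ∀ K : Subgroup (H ⧸ W), K ≤ normalizer (U : Set (H ⧸ W)) := fun K => by
      haveI := hUn
      rw [normalizer_eq_top]; exact le_top
    have hXc : (Nat.card (X.map π)).Coprime p := hX.coprime_dvd_left (card_map_dvd X π)
    have hXU : X.map π ≤ centralizer (U : Set (H ⧸ W)) :=
      CfsgLib.InvRigid.rigid (hE.map π) hXc hEX' _ U le_rfl (hPp.to_le hUP)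
        (hUN _) (hUN _) (fun y hy => hC y (hUP hy.1) hy.1.2 hy.2) (Or.inl hp)
    intro x hx
    have hxcop : (orderOf x).Coprime p := hXc.coprime_dvd_left (Subgroup.orderOf_dvd_natCard _ hx)
    have hxD : x ∈ centralizer (D : Set (H ⧸ W)) := by
      refine CfsgLib.Core.mem_centralizer_of_fixes_omega (hPp.to_le hDP) (hDN _ hx) hxcop
        fun y hy hyp => ?_
      rcases hyp with hyp | ⟨e, -⟩
      · rw [← mem_centralizer_iff.mp (hXU hx) y ⟨hy, hyp⟩, mul_inv_cancel_right]
      · exact absurd e hp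
    rw [mem_centralizer_iff]
    intro r hr
    refine (CfsgLib.Local.thompson_AxB' hPp le_rfl hDP (hPn _) (T := P) ?_ hxcop ?_ ?_ r hr).symm
    · exact fun r hr => (‹P.Normal›).conj_mem r hr x
    · exact fun q hq => (mem_centralizer_iff.mp hxD q hq).symm
    · intro r hr hrC
      have hrD : (⟨r, hr⟩ : P) ∈ D₀ := hDcent (mem_centralizer_iff.mpr fun d hd =>
        Subtype.ext (hrC d ⟨d, hd, rfl⟩))
      exact (mem_centralizer_iff.mp hxD r ⟨⟨r, hr⟩, hrD, rfl⟩).symm
  let S : Sylow p L := Classical.arbitrary _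
  have hS : IsPGroup p ((S : Subgroup L).map L.subtype) := S.2.map _
  have hSP : ((S : Subgroup L).map L.subtype).map π = P := by
    have hrange : (π.comp L.subtype).range = P := by
      rw [MonoidHom.range_comp, Subgroup.range_subtype]
      exact map_comap_eq_self_of_surjective hπs P
    rw [map_map, sylow_map_range _ (by rw [hrange]; exact hPp), hrange]
  intro x hx
  obtain ⟨n, hn, hnx⟩ := lift_centralizes hS hWc (hWN _) (hWN ⊤ (mem_top x)) fun a ha => by
    refine (QuotientGroup.eq_one_iff _).mp ?_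
    show π (x * a * x⁻¹ * a⁻¹) = 1
    rw [map_mul, map_mul, map_mul, map_inv, map_inv,
      ← mem_centralizer_iff.mp (hXP ⟨x, hx, rfl⟩) (π a) (hSP.le ⟨a, ha, rfl⟩)]
    group
  have h1 : π x ∈ P ⊓ X.map π := by
    refine ⟨?_, x, hx, rfl⟩
    have := (hLmem _).mp (hcon S hnx)
    rwa [map_mul, show π n = 1 from (QuotientGroup.eq_one_iff n).mpr hn, one_mul] at this
  rw [hcop hPp, mem_bot] at h1
  exact (QuotientGroup.eq_one_iff x).mp h1



/-- Let X be a finite p-constrained group, p an odd prime, and A an abelian p-subgroup of X containing every element of order p of C_X(A). Then every subgroup of X of order prime to p that is normalized by A lies in O_{p'}(X). -/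
theorem result {X : Type*} [Group X] [Finite X] (p : ℕ) [Fact p.Prime] (hp : p ≠ 2) (hX : Cfsg.IsPConstrained p X) (A : Subgroup X) (hA : IsMulCommutative ↥A) (hAp : IsPGroup p ↥A) (hΩ : ∀ x ∈ Subgroup.centralizer (A : Set X), orderOf x = p → x ∈ A) (Q : Subgroup X) (hQ : ¬ p ∣ Nat.card ↥Q) (hAQ : A ≤ Subgroup.normalizer (Q : Set X)) : Q ≤ Cfsg.pPrimeCore p X := by
  exact main hp hX hAp ((Nat.Prime.coprime_iff_not_dvd Fact.out).mpr hQ).symm hAQ hΩ

end Cfsg.Agent.S1302
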