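import Cfsg.Statements.S1313
import Cfsg.Agent.Lib.CoreLayer

set_option autoImplicit false
open Cfsg

namespace Cfsg.Agent.S1313

/-- For a finite group H, |H| ≤ |F*(H)|!. -/
theorem result {H : Type*} [Group H] [Finite H] : Nat.card H ≤ Nat.factorial (Nat.card ↥(Cfsg.generalizedFittingSubgroup H)) := by
  classical
  set F := Cfsg.generalizedFittingSubgroup H with hF
  haveI : F.Normal := CfsgLib.Core.normal_generalizedFittingSubgroup
  let ψ : H →* Equiv.Perm {x : ↥F // x ≠ 1} :=
    { toFun := fun h => Equiv.Perm.subtypePerm (MulAut.conjNormal h : MulAut ↥F).toEquiv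
        (fun x => by simp)
      map_one' := by ext; simp
      map_mul' := fun a b => by ext; simp }
  have hker : ψ.ker ≤ F := by
    refine le_trans (fun h hh => ?_) (CfsgLib.Core.centralizer_generalizedFitting_le (G := H))
    rw [Subgroup.mem_centralizer_iff]
    intro x hx
    by_cases hx1 : x = 1
    · subst hx1; simp
    have := congrArg (fun e : Equiv.Perm {x : ↥F // x ≠ 1} =>
      (((e ⟨⟨x, hx⟩, fun h' => hx1 (congrArg Subtype.val h')⟩ : {x : ↥F // x ≠ 1}) : ↥F) : H))
      (MonoidHom.mem_ker.mp hh)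
    have h' : h * x * h⁻¹ = x := by simpa [ψ] using this
    exact (mul_inv_eq_iff_eq_mul.mp h').symm
  have h1 : Nat.card ↥ψ.range ≤ (Nat.card ↥F - 1).factorial := by
    refine le_trans (Subgroup.card_le_card_group _) ?_
    rw [Nat.card_perm]
    apply le_of_eq
    congr 1
    haveI := Fintype.ofFinite ↥F
    simp [Nat.card_eq_fintype_card, Fintype.card_subtype_compl]
  have h2 : Nat.card ↥ψ.ker ≤ Nat.card ↥F := Subgroup.card_le_of_le hker
  calc Nat.card H = Nat.card ↥ψ.ker * Nat.card ↥ψ.range := by
        rw [← Subgroup.index_ker, Subgroup.card_mul_index]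
    _ ≤ Nat.card ↥F * (Nat.card ↥F - 1).factorial := Nat.mul_le_mul h2 h1
    _ = (Nat.card ↥F).factorial := Nat.mul_factorial_pred Nat.card_pos.ne'

end Cfsg.Agent.S1313
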