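import Cfsg.Statements.S1892
import Cfsg.Agent.Lib.CorePSolvable
import Cfsg.Agent.Lib.CoreCoprime2
import Cfsg.Agent.Lib.CoreOmega

set_option autoImplicit false
open Cfsg
open scoped commutatorElement

namespace Cfsg.Agent.S1892

/-- Let S be a finite p-solvable group with no nontrivial normal subgroup of order prime to p, A a p-subgroup of S, and Q a nontrivial A-invariant subgroup of order prime to p with [A, Q] = Q. Then the commutator [O_p(S), A, Q] is nontrivial. -/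
theorem result {S : Type*} [Group S] [Finite S] {p : ℕ} [Fact p.Prime]
    (hS : Cfsg.IsPSolvable p S) (hred : Cfsg.pPrimeCore p S = ⊥)
    (A Q : Subgroup S) (hA : IsPGroup p A) (hQ : ¬ p ∣ Nat.card Q) (hQ1 : Q ≠ ⊥)
    (hinv : ∀ a ∈ A, ∀ x ∈ Q, a * x * a⁻¹ ∈ Q) (hAQ : ⁅A, Q⁆ = Q) :
    ⁅⁅Cfsg.pCore p S, A⁆, Q⁆ ≠ ⊥ := by
  set R := Cfsg.pCore p S with hR
  haveI hRn : R.Normal := CfsgLib.Core.normal_pCore p
  have hRp : IsPGroup p ↥R := CfsgLib.Core.isPGroup_pCore p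
  intro h0
  set F := (frattini ↥R).map R.subtype with hF
  have hnR : ∀ g : S, g ∈ Subgroup.normalizer (R : Set S) := fun g => by
    rw [Subgroup.normalizer_eq_top_iff.mpr hRn]; exact Subgroup.mem_top g
  have hnF : ∀ g : S, g ∈ Subgroup.normalizer (F : Set S) := fun g =>
    CfsgLib.Core.le_normalizer_map_of_characteristic (A := ⊤) (fun x _ => hnR x) (frattini ↥R) (Subgroup.mem_top g)
  have hconjF : ∀ (g x : S), x ∈ F → g * x * g⁻¹ ∈ F := fun g x hx =>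
    (Subgroup.mem_normalizer_iff.mp (hnF g) x).mp hx
  set C := R ⊓ Subgroup.centralizer (Q : Set S) with hC
  set W := F ⊔ C with hW
  have hAC : ∀ a ∈ A, ∀ c ∈ C, a * c * a⁻¹ ∈ C := by
    intro a ha c hc
    obtain ⟨hcR, hcQ⟩ := Subgroup.mem_inf.mp hc
    refine Subgroup.mem_inf.mpr ⟨hRn.conj_mem c hcR a, Subgroup.mem_centralizer_iff.mpr fun q hq => ?_⟩
    have h := Subgroup.mem_centralizer_iff.mp hcQ _ (hinv a⁻¹ (inv_mem ha) q hq)
    calc q * (a * c * a⁻¹) = a * ((a⁻¹ * q * a⁻¹⁻¹) * c) * a⁻¹ := by group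
      _ = a * (c * (a⁻¹ * q * a⁻¹⁻¹)) * a⁻¹ := by rw [h]
      _ = a * c * a⁻¹ * q := by group
  have hWn : ∀ g : S, (∀ c ∈ C, g * c * g⁻¹ ∈ W) → ∀ w ∈ W, g * w * g⁻¹ ∈ W := by
    intro g hg w hw
    have hle : W ≤ W.comap (MulAut.conj g).toMonoidHom :=
      sup_le (fun x hx => Subgroup.mem_sup_left (hconjF g x hx)) hg
    exact hle hw
  have hWA : ∀ a ∈ A, ∀ w ∈ W, a * w * a⁻¹ ∈ W := fun a ha =>
    hWn a fun c hc => Subgroup.mem_sup_right (hAC a ha c hc)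
  have hWQ : ∀ q ∈ Q, ∀ w ∈ W, q * w * q⁻¹ ∈ W := fun q hq => hWn q fun c hc => by
    rw [Subgroup.mem_centralizer_iff.mp (Subgroup.mem_inf.mp hc).2 q hq, mul_inv_cancel_right]
    exact Subgroup.mem_sup_right hc
  -- elements acting trivially on `R / W`
  let T : Subgroup S :=
    { carrier := {g | (∀ w ∈ W, g * w * g⁻¹ ∈ W) ∧ (∀ w ∈ W, g⁻¹ * w * g ∈ W) ∧
        ∀ r ∈ R, g * r * g⁻¹ * r⁻¹ ∈ W}
      one_mem' := by simp
      mul_mem' := by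
        rintro g h ⟨g1, g2, g3⟩ ⟨h1, h2, h3⟩
        refine ⟨fun w hw => ?_, fun w hw => ?_, fun r hr => ?_⟩
        · rw [show g * h * w * (g * h)⁻¹ = g * (h * w * h⁻¹) * g⁻¹ by group]
          exact g1 _ (h1 w hw)
        · rw [show (g * h)⁻¹ * w * (g * h) = h⁻¹ * (g⁻¹ * w * g) * h by group]
          exact h2 _ (g2 w hw)
        · rw [show g * h * r * (g * h)⁻¹ * r⁻¹ =
            g * (h * r * h⁻¹ * r⁻¹) * g⁻¹ * (g * r * g⁻¹ * r⁻¹) by group]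
          exact mul_mem (g1 _ (h3 r hr)) (g3 r hr)
      inv_mem' := by
        rintro g ⟨g1, g2, g3⟩
        refine ⟨fun w hw => by rw [inv_inv]; exact g2 w hw,
          fun w hw => by rw [inv_inv]; exact g1 w hw, fun r hr => ?_⟩
        rw [show g⁻¹ * r * g⁻¹⁻¹ * r⁻¹ = g⁻¹ * (g * r * g⁻¹ * r⁻¹)⁻¹ * g by group]
        exact g2 _ (inv_mem (g3 r hr)) }
  have hAT : ∀ a ∈ A, a ∈ T := by
    intro a ha
    refine ⟨hWA a ha, fun w hw => by simpa using hWA a⁻¹ (inv_mem ha) w hw, fun r hr => ?_⟩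
    refine Subgroup.mem_sup_right (Subgroup.mem_inf.mpr
      ⟨mul_mem (hRn.conj_mem r hr a) (inv_mem hr), ?_⟩)
    rw [show a * r * a⁻¹ * r⁻¹ = (r * a * r⁻¹ * a⁻¹)⁻¹ by group]
    refine inv_mem (Subgroup.mem_centralizer_iff.mpr fun q hq => ?_)
    have hm : ⁅r * a * r⁻¹ * a⁻¹, q⁆ ∈ ⁅⁅R, A⁆, Q⁆ := Subgroup.commutator_mem_commutator (by
      have := Subgroup.commutator_mem_commutator hr ha
      rwa [commutatorElement_def] at this) hq
    rw [h0, Subgroup.mem_bot, commutatorElement_eq_one_iff_mul_comm] at hm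
    exact hm.symm
  have hQT : Q ≤ T := by
    rw [← hAQ, Subgroup.commutator_le]
    intro a ha q hq
    rw [commutatorElement_def, show a * q * a⁻¹ * q⁻¹ = a * (q * a⁻¹ * q⁻¹) by group]
    refine mul_mem (hAT a ha) ?_
    obtain ⟨a1, a2, a3⟩ := inv_mem (hAT a ha)
    refine ⟨fun w hw => ?_, fun w hw => ?_, fun r hr => ?_⟩
    · rw [show q * a⁻¹ * q⁻¹ * w * (q * a⁻¹ * q⁻¹)⁻¹ = q * (a⁻¹ * (q⁻¹ * w * q⁻¹⁻¹) * a⁻¹⁻¹) * q⁻¹ by group]
      exact hWQ q hq _ (a1 _ (hWQ q⁻¹ (inv_mem hq) w hw))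
    · rw [show (q * a⁻¹ * q⁻¹)⁻¹ * w * (q * a⁻¹ * q⁻¹) = q * (a⁻¹⁻¹ * (q⁻¹ * w * q⁻¹⁻¹) * a⁻¹) * q⁻¹ by group]
      exact hWQ q hq _ (a2 _ (hWQ q⁻¹ (inv_mem hq) w hw))
    · rw [show q * a⁻¹ * q⁻¹ * r * (q * a⁻¹ * q⁻¹)⁻¹ * r⁻¹ =
        q * (a⁻¹ * (q⁻¹ * r * q⁻¹⁻¹) * a⁻¹⁻¹ * (q⁻¹ * r * q⁻¹⁻¹)⁻¹) * q⁻¹ by group]
      exact hWQ q hq _ (a3 _ (hRn.conj_mem r hr q⁻¹))
  have hQR : Q ≤ Subgroup.normalizer (R : Set S) := fun q _ => hnR q
  have hcop : (Nat.card ↥Q).Coprime (Nat.card ↥R) := by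
    obtain ⟨n, hn⟩ := IsPGroup.iff_card.mp hRp
    rw [hn]
    exact ((Fact.out : p.Prime).coprime_iff_not_dvd.mpr hQ).symm.pow_right n
  haveI : Group.IsNilpotent ↥R := hRp.isNilpotent
  have hRQ : ⁅R, Q⁆ ≤ W := by
    rw [Subgroup.commutator_le]
    intro r hr q hq
    rw [commutatorElement_def, show r * q * r⁻¹ * q⁻¹ = (q * r * q⁻¹ * r⁻¹)⁻¹ by group]
    exact inv_mem ((hQT hq).2.2 r hr)
  have hWQF : ⁅W, Q⁆ ≤ F := by
    rw [Subgroup.commutator_le]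
    intro w hw q hq
    have hCn : C ≤ Subgroup.normalizer (F : Set S) := fun c _ => hnF c
    obtain ⟨f, hf, c, hc, rfl⟩ : ∃ f ∈ F, ∃ c ∈ C, w = f * c := by
      have h1 : w ∈ ((F ⊔ C : Subgroup S) : Set S) := hw
      rw [Subgroup.coe_mul_of_right_le_normalizer_left F C hCn] at h1
      obtain ⟨f, hf, c, hc, e⟩ := h1
      exact ⟨f, hf, c, hc, e.symm⟩
    rw [commutatorElement_def, show f * c * q * (f * c)⁻¹ * q⁻¹ = f * (c * q * c⁻¹) * f⁻¹ * q⁻¹ by group,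
      ← Subgroup.mem_centralizer_iff.mp (Subgroup.mem_inf.mp hc).2 q hq, mul_inv_cancel_right,
      show f * q * f⁻¹ * q⁻¹ = f * (q * f⁻¹ * q⁻¹) by group]
    exact mul_mem hf (hconjF q _ (inv_mem hf))
  have hRQF : ⁅R, Q⁆ ≤ F := by
    rw [← CfsgLib.Core.commutator_commutator_eq hQR hcop (Or.inr inferInstance)]
    exact (Subgroup.commutator_mono hRQ le_rfl).trans hWQF
  have hQC := CfsgLib.Core.le_centralizer_of_trivial_mod_frattini hQR
    (hcop.coprime_dvd_right (Subgroup.card_subgroup_dvd_card _)) (fun q hq k hk => by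
      rw [show q * k * q⁻¹ * k⁻¹ = ⁅k, q⁆⁻¹ by rw [commutatorElement_def]; group]
      exact inv_mem (hRQF (Subgroup.commutator_mem_commutator hk hq)))
  have hle := hQC.trans (CfsgLib.Core.centralizer_pCore_le_of_isPSolvable hS hred)
  exact hQ1 (by
    have := (Subgroup.disjoint_of_coprime_natCard hcop).eq_bot
    rwa [inf_eq_left.mpr hle] at this)


end Cfsg.Agent.S1892
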