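import Cfsg.Statements.S1894


set_option autoImplicit false
open Cfsg
open scoped Pointwise commutatorElement
set_option maxHeartbeats 800000

namespace Cfsg.Agent.S1894

/-- Let P be a finite p-group, A a normal subgroup of P and B an abelian subgroup of A that is normal in P. Then some subgroup C of A containing B is normal in P and is self-centralizing and normal in A (C ∈ SCN(A)). -/
theorem result {P : Type*} [Group P] [Finite P] {p : ℕ} [Fact p.Prime] (hP : IsPGroup p P)
    (A : Subgroup P) [A.Normal] (B : Subgroup P) [B.Normal] (hBA : B ≤ A) (hB : IsMulCommutative B) :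
    ∃ C : Subgroup P, C.Normal ∧ B ≤ C ∧ Cfsg.IsSCN A C := by
  haveI : Finite (Subgroup P) := Finite.of_injective _ SetLike.coe_injective
  haveI : Nonempty {C : Subgroup P // C.Normal ∧ B ≤ C ∧ C ≤ A ∧ IsMulCommutative C} :=
    ⟨⟨B, inferInstance, le_rfl, hBA, hB⟩⟩
  obtain ⟨⟨C, hCn, hBC, hCA, hCc⟩, hmax⟩ := Finite.exists_max
    (fun C : {C : Subgroup P // C.Normal ∧ B ≤ C ∧ C ≤ A ∧ IsMulCommutative C} => Nat.card ↥C.1)
  haveI := hCn
  have hCcent : C ≤ Subgroup.centralizer (C : Set P) := fun x hx =>
    Subgroup.mem_centralizer_iff.2 fun y hy =>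
      congrArg Subtype.val (hCc.is_comm.comm ⟨y, hy⟩ ⟨x, hx⟩)
  refine ⟨C, hCn, hBC, hCA, by rw [Subgroup.normalizer_eq_top]; exact le_top, ?_⟩
  refine le_antisymm ?_ (le_inf hCA hCcent)
  set D := A ⊓ Subgroup.centralizer (C : Set P) with hD
  have hDn : ∀ d ∈ D, ∀ g : P, g * d * g⁻¹ ∈ D := fun d hd g =>
    (Subgroup.Normal.conj_mem (inferInstance : D.Normal) d hd g)
  haveI : Group.IsNilpotent P := hP.isNilpotent
  obtain ⟨N, hN⟩ := Subgroup.nilpotent_iff_lowerCentralSeries.1 (inferInstance : Group.IsNilpotent P)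
  have main : ∀ k, D ⊓ (⊤ : Subgroup P).lowerCentralSeries (N - k) ≤ C := by
    intro k
    induction k with
    | zero => simp [hN]
    | succ k ih =>
      by_cases hk : N - (k + 1) = N - k
      · rwa [hk]
      rintro u ⟨huD, huL⟩
      have hgu : ∀ g : P, g * u * g⁻¹ * u⁻¹ ∈ C := fun g => by
        refine ih ⟨D.mul_mem (hDn u huD g) (D.inv_mem huD), ?_⟩
        rw [show N - k = (N - (k + 1)) + 1 by omega, Subgroup.lowerCentralSeries_succ]
        have := Subgroup.inv_mem _ (Subgroup.commutator_mem_commutator huL (Subgroup.mem_top g))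
        simpa [commutatorElement_def, mul_assoc] using this
      set C' := C ⊔ Subgroup.zpowers u with hC'
      have hn : C'.Normal := by
        refine ⟨fun x hx g => ?_⟩
        have : C' ≤ C'.comap (MulAut.conj g).toMonoidHom := by
          refine sup_le (fun y hy => Subgroup.mem_sup_left (by simpa using hCn.conj_mem y hy g)) ?_
          rw [Subgroup.zpowers_le]
          show g * u * g⁻¹ ∈ C'
          have h := C'.mul_mem (Subgroup.mem_sup_left (hgu g))
            (Subgroup.mem_sup_right (Subgroup.mem_zpowers u))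
          simpa [mul_assoc] using h
        simpa using this hx
      have hc : IsMulCommutative C' := by
        rw [hC', Subgroup.zpowers_eq_closure, ← Subgroup.closure_eq C, ← Subgroup.closure_union]
        refine Subgroup.isMulCommutative_closure ?_
        rintro a (ha | ha) b (hb | hb)
        · exact Subgroup.mem_centralizer_iff.1 (hCcent hb) a ha
        · rw [Set.mem_singleton_iff.1 hb]
          exact Subgroup.mem_centralizer_iff.1 huD.2 a ha
        · rw [Set.mem_singleton_iff.1 ha]
          exact (Subgroup.mem_centralizer_iff.1 huD.2 b hb).symm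
        · rw [Set.mem_singleton_iff.1 ha, Set.mem_singleton_iff.1 hb]
      have hle : C' ≤ A := sup_le hCA (Subgroup.zpowers_le.2 huD.1)
      have := Subgroup.eq_of_le_of_card_ge (le_sup_left : C ≤ C')
        (hmax ⟨C', hn, hBC.trans le_sup_left, hle, hc⟩)
      exact this.ge (Subgroup.mem_sup_right (Subgroup.mem_zpowers u))
  intro d hd
  exact main N ⟨hd, by rw [Nat.sub_self]; exact Subgroup.mem_top d⟩

end Cfsg.Agent.S1894
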