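import Cfsg.Statements.S1896
import Cfsg.Agent.Lib.MetacyclicTwoShape
import Cfsg.Agent.Lib.FgsHomocyclicTwo
import Mathlib.GroupTheory.Exponent

set_option autoImplicit false
open Cfsg

namespace Cfsg.Agent.S1896

/-- A finite metacyclic 2-group whose automorphism group is not a 2-group is isomorphic to the quaternion group of order 8 or to a homocyclic abelian group Z_{2^n} × Z_{2^n}. -/
theorem result {X : Type*} [Group X] [Finite X] (hX : IsPGroup 2 X)
    (hm : Cfsg.IsMetacyclic X) (hA : ¬ IsPGroup 2 (MulAut X)) :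
    Nonempty (X ≃* QuaternionGroup 2) ∨
      ∃ n : ℕ, Nonempty (X ≃* Multiplicative (ZMod (2 ^ n)) × Multiplicative (ZMod (2 ^ n))) := by
  classical
  haveI : Fact (Nat.Prime 2) := ⟨Nat.prime_two⟩
  obtain ⟨α, hα1, hodd⟩ : ∃ α : MulAut X, α ≠ 1 ∧ Odd (orderOf α) := by
    by_contra h
    push Not at h
    refine hA fun φ => ?_
    obtain ⟨k, m, hm2, hkm⟩ := Nat.exists_eq_two_pow_mul_odd (orderOf_pos φ).ne'
    refine ⟨k, ?_⟩
    by_contra h1
    have := h _ h1
    rw [orderOf_pow, hkm, Nat.gcd_mul_right_left, Nat.mul_div_cancel_left _ (pow_pos two_pos k)] at this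
    exact this hm2
  by_cases hab : IsMulCommutative X
  swap
  · exact Or.inl (CfsgLib.MetacyclicTwo.quaternion_of_aut hX hm hab hα1 hodd)
  right
  have hc : ∀ a b : X, a * b = b * a := fun a b => hab.is_comm.comm a b
  obtain ⟨hidx, hcos⟩ := CfsgLib.MetacyclicTwo.cosets hX
    (CfsgLib.MetacyclicNilp.two_generated hm (MonoidHom.id X) Function.injective_id) hα1 hodd
  haveI : Nontrivial X := by
    rcases subsingleton_or_nontrivial X with h | h
    · exact absurd (MulEquiv.ext fun u => Subsingleton.elim _ _) hα1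
    · exact h
  obtain ⟨N, hN⟩ := IsPGroup.iff_card.mp hX
  obtain ⟨n, -, hn⟩ := (Nat.dvd_prime_pow Nat.prime_two).mp (hN ▸ Group.exponent_dvd_nat_card (G := X))
  have hn1 : 1 ≤ n := by
    by_contra h
    rw [show n = 0 by omega, pow_zero] at hn
    exact not_subsingleton X (Monoid.exp_eq_one_iff.mp hn)
  obtain ⟨x, hx⟩ : ∃ x : X, x ∉ frattini X := by
    by_contra h
    push Not at h
    rw [Subgroup.eq_top_iff' (frattini X) |>.mpr h, Subgroup.index_top] at hidx
    omega
  obtain ⟨h1, -, h3, hall⟩ := hcos x hx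
  set y := α x with hy
  have hsq : ∀ u : X, u * u ∈ frattini X := fun u => by
    rw [← pow_two]; exact CfsgLib.Core.pgroup_pow_mem_frattini hX u
  have hyΦ : y ∉ frattini X := by
    intro h
    have := frattini_le_comap_frattini_of_surjective (φ := (α⁻¹).toMonoidHom) (α⁻¹).surjective h
    exact hx (by simpa [hy] using this)
  have hxy : x * y ∉ frattini X := by
    intro h
    refine h1 ?_
    have := mul_mem (inv_mem (hsq x)) h
    rwa [show (x * x)⁻¹ * (x * y) = x⁻¹ * y by group] at this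
  let ψ : X →* X := MonoidHom.mk' (fun g => g ^ 2 ^ (n - 1)) fun a b => (Commute.mul_pow (hc a b) _)
  have htop : ∀ u : X, u ∉ frattini X → ∀ M : Subgroup X, u ∈ M → α u ∈ M → α (α u) ∈ M → M = ⊤ := by
    intro u hu M a b c
    refine CfsgLib.Core.eq_top_of_sup_frattini (eq_top_iff.mpr fun v _ => ?_)
    have key : ∀ w : X, w ∈ M → w⁻¹ * v ∈ frattini X → v ∈ M ⊔ frattini X := fun w hw h => by
      simpa using Subgroup.mul_mem_sup hw h
    rcases (hcos u hu).2.2.2 v with h | h | h | h
    · exact Subgroup.mem_sup_right h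
    · exact key u a h
    · exact key _ b h
    · exact key _ c h
  have hne : ∀ u : X, u ∉ frattini X → ψ u ≠ 1 := by
    intro u hu h
    have hk : ∀ w : X, ψ w = 1 → ψ (α w) = 1 := fun w hw => by
      show α w ^ 2 ^ (n - 1) = 1
      rw [← map_pow, show w ^ 2 ^ (n - 1) = 1 from hw, map_one]
    have := htop u hu ψ.ker h (hk u h) (hk _ (hk u h))
    have hd : Monoid.exponent X ∣ 2 ^ (n - 1) :=
      Monoid.exponent_dvd_of_forall_pow_eq_one fun w => this.ge (Subgroup.mem_top w)
    rw [hn] at hd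
    have := (Nat.pow_dvd_pow_iff_le_right (by norm_num : 1 < 2)).mp hd
    omega
  have hpn : ∀ u : X, u ^ 2 ^ n = 1 := fun u => hn ▸ Monoid.pow_exponent_eq_one u
  let f : Multiplicative (ZMod (2 ^ n)) × Multiplicative (ZMod (2 ^ n)) →* X :=
    MonoidHom.mk' (fun ij => x ^ (Multiplicative.toAdd ij.1).val * y ^ (Multiplicative.toAdd ij.2).val)
      (by
        rintro ⟨a, b⟩ ⟨c, d⟩
        haveI : NeZero (2 ^ n) := ⟨(pow_pos two_pos n).ne'⟩
        have hmod : ∀ (u : X) (i j : ZMod (2 ^ n)), u ^ (i + j).val = u ^ i.val * u ^ j.val := by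
          intro u i j
          rw [ZMod.val_add, ← pow_add, eq_comm, ← Nat.div_add_mod (i.val + j.val) (2 ^ n), pow_add,
            pow_mul, hpn, one_pow, one_mul, Nat.div_add_mod]
        simp only [Prod.mk_mul_mk, toAdd_mul, hmod]
        rw [mul_assoc, mul_assoc, ← mul_assoc (x ^ _) (y ^ _), hc (x ^ _) (y ^ _), mul_assoc])
  refine ⟨n, ⟨(MulEquiv.ofBijective f ⟨?_, ?_⟩).symm⟩⟩
  · haveI : NeZero (2 ^ n) := ⟨(pow_pos two_pos n).ne'⟩
    rw [← MonoidHom.ker_eq_bot_iff, Subgroup.eq_bot_iff_forall]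
    by_contra h
    push Not at h
    obtain ⟨w, hw, hw1⟩ := h
    have hD : IsPGroup 2 (Multiplicative (ZMod (2 ^ n)) × Multiplicative (ZMod (2 ^ n))) := by
      refine IsPGroup.of_card (n := n + n) ?_
      rw [Nat.card_prod, Nat.card_congr Multiplicative.toAdd, Nat.card_zmod, pow_add]
    haveI : Nontrivial f.ker := ⟨⟨w, hw⟩, 1, fun e => hw1 (congrArg Subtype.val e)⟩
    obtain ⟨z, hz⟩ := exists_prime_orderOf_dvd_card' (G := f.ker) 2
      (((hD.to_subgroup _).card_eq_or_dvd).resolve_left Finite.one_lt_card.ne')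
    have hz2 := pow_orderOf_eq_one z
    rw [hz, pow_two] at hz2
    obtain ⟨⟨i, j⟩, hzk⟩ := z
    have hz1 : ¬ ((Multiplicative.toAdd i).val = 0 ∧ (Multiplicative.toAdd j).val = 0) := by
      rintro ⟨hi, hj⟩
      have hii : i = 1 := (ZMod.val_eq_zero _).mp hi
      have hjj : j = 1 := (ZMod.val_eq_zero _).mp hj
      subst hii hjj
      exact absurd hz (by rw [show (⟨((1 : Multiplicative (ZMod (2 ^ n))), 1), hzk⟩ : f.ker) = 1 from rfl, orderOf_one]; norm_num)
    have hz2' := congrArg Subtype.val hz2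
    have hij := Prod.ext_iff.mp hz2'
    have hi := CfsgLib.HomocyclicTwo.two_torsion hn1 (Multiplicative.toAdd i) (congrArg Multiplicative.toAdd hij.1)
    have hj := CfsgLib.HomocyclicTwo.two_torsion hn1 (Multiplicative.toAdd j) (congrArg Multiplicative.toAdd hij.2)
    have hz0 : x ^ (Multiplicative.toAdd i).val * y ^ (Multiplicative.toAdd j).val = 1 := hzk
    rcases hi with hi | hi <;> rcases hj with hj | hj <;> rw [hi, hj] at hz0
    · exact hz1 ⟨hi, hj⟩
    · exact hne y hyΦ (by simpa [ψ] using hz0)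
    · exact hne x hx (by simpa [ψ] using hz0)
    · exact hne _ hxy ((map_mul ψ x y).trans hz0)
  · haveI : Fact (1 < 2 ^ n) := ⟨Nat.one_lt_pow (by omega) (by norm_num)⟩
    have hxR : x ∈ f.range := ⟨(Multiplicative.ofAdd 1, 1), by simp [f, ZMod.val_one]⟩
    have hyR : y ∈ f.range := ⟨(1, Multiplicative.ofAdd 1), by simp [f, ZMod.val_one]⟩
    refine MonoidHom.range_eq_top.mp (CfsgLib.Core.eq_top_of_sup_frattini (eq_top_iff.mpr fun v _ => ?_))
    have key : ∀ w : X, w ∈ f.range ⊔ frattini X → w⁻¹ * v ∈ frattini X → v ∈ f.range ⊔ frattini X := by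
      intro w hw h
      simpa using mul_mem hw (Subgroup.mem_sup_right (S := f.range) h)
    have h4 : α y ∈ f.range ⊔ frattini X := by
      rcases hall (x * y) with h | h | h | h
      · exact absurd h hxy
      · exact absurd (by simpa using h) hyΦ
      · rw [hc x y, inv_mul_cancel_left] at h
        exact absurd h hx
      · have := mul_mem (Subgroup.mem_sup_left (T := frattini X) (mul_mem hxR hyR))
          (inv_mem (Subgroup.mem_sup_right (S := f.range) h))
        simpa [mul_assoc] using this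
    rcases hall v with h | h | h | h
    · exact Subgroup.mem_sup_right h
    · exact key x (Subgroup.mem_sup_left hxR) h
    · exact key y (Subgroup.mem_sup_left hyR) h
    · exact key _ h4 h

end Cfsg.Agent.S1896
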