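import Cfsg.Statements.S1898
import Cfsg.Agent.Lib.TransferPGroups
import Cfsg.Agent.Lib.CoreOmega

set_option autoImplicit false
open Cfsg

namespace Cfsg.Agent.S1898

open Subgroup
open scoped commutatorElement IsMulCommutative

private theorem aut_four {G : Type*} [Group G] [Finite G] [Fact (Nat.Prime 2)] (hG : IsPGroup 2 G) (a : MulAut G)
    (ha : Nat.Coprime (orderOf a) 2) (h : ∀ x : G, x ^ 4 = 1 → a x = x) : a = 1 := by
  let L := SemidirectProduct G (zpowers a) (zpowers a).subtype
  haveI : Finite (MulAut G) := Finite.of_injective _ DFunLike.coe_injective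
  haveI : Finite L := Finite.of_equiv _ SemidirectProduct.equivProd.symm
  let inl : G →* L := SemidirectProduct.inl
  let g : L := SemidirectProduct.inr ⟨a, mem_zpowers a⟩
  have hconj : ∀ x, g * inl x * g⁻¹ = inl (a x) := fun x =>
    ((SemidirectProduct.inl_aut (φ := (zpowers a).subtype) ⟨a, mem_zpowers a⟩ x).trans
      (by rw [map_inv])).symm
  have hord : orderOf g = orderOf a := by
    rw [orderOf_injective _ SemidirectProduct.inr_injective, ← Subgroup.orderOf_coe]
  have hinj : Function.Injective inl := SemidirectProduct.inl_injective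
  haveI : inl.range.Normal := SemidirectProduct.range_inl_eq_ker_rightHom (φ := (zpowers a).subtype) ▸ MonoidHom.normal_ker _
  have hgN : g ∈ normalizer (inl.range : Set L) :=
    (normalizer_eq_top (H := inl.range)).ge (mem_top _)
  have hC := CfsgLib.Core.mem_centralizer_of_fixes_omega (Q := inl.range)
    (hG.of_surjective inl.rangeRestrict inl.rangeRestrict_surjective) hgN (hord ▸ ha) (by
      rintro _ ⟨x, rfl⟩ hx
      rw [hconj]
      refine congrArg inl (h x ?_)
      rcases hx with hx | ⟨-, hx⟩
      · exact hinj (by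
          rw [map_pow, map_one, show (4 : ℕ) = 2 * 2 by norm_num, pow_mul, hx, one_pow])
      · exact hinj (by rw [map_pow, map_one, hx]))
  refine MulEquiv.ext fun x => hinj ?_
  show inl (a x) = inl x
  rw [← hconj, ← mem_centralizer_iff.mp hC (inl x) ⟨x, rfl⟩, mul_inv_cancel_right]



/-- Let X be a finite 2-group whose derived subgroup is elementary abelian and central. Then the subgroup generated by the elements of order dividing 4 has exponent dividing 4, and every automorphism of X fixing each element of order dividing 4 has 2-power order. -/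
theorem result {X : Type*} [Group X] [Finite X] (hX : IsPGroup 2 X)
    (hel : Cfsg.IsElementaryAbelian 2 (commutator X)) (hcen : commutator X ≤ Subgroup.center X) :
    (∀ x ∈ Subgroup.closure {g : X | g ^ 4 = 1}, x ^ 4 = 1) ∧
      ∀ φ : MulAut X, (∀ g : X, g ^ 4 = 1 → φ g = g) → ∃ k : ℕ, φ ^ (2 ^ k) = 1 := by
  haveI : Fact (Nat.Prime 2) := ⟨Nat.prime_two⟩
  refine ⟨fun x hx => ?_, fun φ hφ => ?_⟩
  · induction hx using Subgroup.closure_induction with
    | mem y hy => exact hy
    | one => exact one_pow _
    | mul y z _ _ hy hz =>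
      have hc : ⁅z, y⁆ ∈ Subgroup.center X :=
        hcen (Subgroup.commutator_mem_commutator (Subgroup.mem_top z) (Subgroup.mem_top y))
      have h2 : ⁅z, y⁆ ^ 2 = 1 := hel.2 _ (Subgroup.commutator_mem_commutator (Subgroup.mem_top z) (Subgroup.mem_top y))
      rw [CfsgLib.Core.mul_pow_of_central (Subgroup.mem_center_iff.mp hc y).symm (Subgroup.mem_center_iff.mp hc z).symm,
        hy, hz, show Nat.choose 4 2 = 2 * 3 by decide, pow_mul, h2]
      simp
    | inv y _ hy => rw [inv_pow, hy, inv_one]
  · obtain ⟨k, m, hm, he⟩ := Nat.exists_eq_pow_mul_and_not_dvd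
      (orderOf_pos φ).ne' 2 (by norm_num)
    refine ⟨k, aut_four hX _ ?_ fun x hx => ?_⟩
    · rw [orderOf_pow' _ (pow_ne_zero _ (by norm_num)), he, Nat.gcd_eq_right (dvd_mul_right _ _),
        Nat.mul_div_cancel_left _ (pow_pos (by norm_num) k)]
      exact ((Nat.Prime.coprime_iff_not_dvd Nat.prime_two).mpr hm).symm
    · have hfix : ∀ n : ℕ, (φ ^ n) x = x := by
        intro n
        induction n with
        | zero => rfl
        | succ n ih => rw [pow_succ, MulAut.mul_apply, hφ x hx, ih]
      exact hfix _

end Cfsg.Agent.S1898
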