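import Cfsg.Statements.S1899


set_option autoImplicit false
open Cfsg

namespace Cfsg.Agent.S1899

/-- Let a dihedral group of order 2n, n odd and n > 1, act on a finite abelian 2-group A through automorphisms d and t with d^n = 1, t² = 1 and t d t⁻¹ = d⁻¹, and suppose that d fixes only the identity. Then A is the internal direct product of C_A(t) and its image under d. -/
theorem result {A : Type*} [CommGroup A] [Finite A] (hA : IsPGroup 2 A)
    {n : ℕ} (hn : Odd n) (hn1 : 1 < n) (d t : MulAut A) (hd : d ^ n = 1) (ht : t ^ 2 = 1) (hdt : t * d * t⁻¹ = d⁻¹)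
    (hfix : ∀ a : A, d a = a → a = 1) :
    (MulEquiv.toMonoidHom t).eqLocus (MonoidHom.id A) ⊓ ((MulEquiv.toMonoidHom t).eqLocus (MonoidHom.id A)).map d.toMonoidHom = ⊥ ∧
      (MulEquiv.toMonoidHom t).eqLocus (MonoidHom.id A) ⊔ ((MulEquiv.toMonoidHom t).eqLocus (MonoidHom.id A)).map d.toMonoidHom = ⊤ := by
  set C := (MulEquiv.toMonoidHom t).eqLocus (MonoidHom.id A) with hC
  have hmemC : ∀ a : A, a ∈ C ↔ t a = a := fun a => Iff.rfl
  have ht2 : ∀ a : A, t (t a) = a := fun a => by
    have := congrArg (fun f : MulAut A => f a) ht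
    simpa [pow_two] using this
  have htd : ∀ a : A, t (d a) = d⁻¹ (t a) := fun a => by
    have := congrArg (fun f : MulAut A => f (t a)) hdt
    simpa [MulAut.mul_apply, ht2] using this
  have hd2 : ∀ a : A, d (d a) = a → a = 1 := by
    intro a ha
    obtain ⟨k, hk⟩ := hn
    refine hfix a ?_
    have h1 : ∀ i : ℕ, (d ^ (2 * i)) a = a := by
      intro i
      induction i with
      | zero => simp
      | succ i ih => rw [mul_add, mul_one, pow_add, MulAut.mul_apply, pow_two, MulAut.mul_apply, ha, ih]
    have h2 := congrArg (fun f : MulAut A => f a) hd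
    rw [hk, pow_succ', MulAut.mul_apply, h1 k] at h2
    simpa using h2
  constructor
  · rw [eq_bot_iff]
    rintro _ ⟨ha, a, hca, rfl⟩
    have h1 : t (d a) = d a := ha
    rw [htd, show t a = a from hca] at h1
    have h2 : d (d a) = a := by
      conv_lhs => arg 2; rw [← h1]
      simp
    exact Subgroup.mem_bot.mpr (by rw [hd2 a h2]; exact map_one d)
  · rw [eq_top_iff]
    intro a _
    let φ : A →* A :=
      { toFun := fun x => x * (d (d x))⁻¹
        map_one' := by simp
        map_mul' := fun x y => by simp only [map_mul, mul_inv_rev]; ac_rfl }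
    have hinj : Function.Injective φ := by
      refine (injective_iff_map_eq_one φ).mpr fun x hx => hd2 x ?_
      have : x * (d (d x))⁻¹ = 1 := hx
      exact (mul_inv_eq_one.mp this).symm
    obtain ⟨y, hy⟩ := (Finite.injective_iff_surjective.mp hinj) a
    set x := t y
    have h1 : x * t x ∈ C := (hmemC _).mpr (by rw [map_mul, ht2, mul_comm])
    have h2 : x⁻¹ * (d (d (t x)))⁻¹ ∈ C.map d.toMonoidHom := by
      refine ⟨d⁻¹ x⁻¹ * (d (t x))⁻¹, (hmemC _).mpr ?_, ?_⟩
      · have e1 : t (d⁻¹ x⁻¹) = (d (t x))⁻¹ := by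
          have := htd (d⁻¹ x⁻¹)
          rw [MulAut.apply_inv_self, map_inv, eq_comm] at this
          rw [← map_inv (d : A ≃* A), ← this, MulAut.apply_inv_self]
        have e2 : t ((d (t x))⁻¹) = d⁻¹ x⁻¹ := by rw [map_inv, htd, ht2, map_inv]
        rw [map_mul, e1, e2, mul_comm]
      · simp [MulEquiv.coe_toMonoidHom]
    have e : a = (x * t x) * (x⁻¹ * (d (d (t x)))⁻¹) := by
      rw [← hy]
      show y * (d (d y))⁻¹ = _
      rw [show t x = y from ht2 y]
      rw [mul_comm x y, mul_assoc, mul_inv_cancel_left]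
    rw [e]
    exact mul_mem (Subgroup.mem_sup_left h1) (Subgroup.mem_sup_right h2)


end Cfsg.Agent.S1899
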