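import Cfsg.Statements.S1900
import Cfsg.Agent.Lib.CoreGen

set_option autoImplicit false
open Cfsg

namespace Cfsg.Agent.S1900

open Subgroup
open scoped commutatorElement


/-- Let S = PQ be a finite group with P a normal Sylow p-subgroup and Q elementary abelian of order q², q a prime different from p. If exactly two subgroups X₁, X₂ of order q in Q have a nontrivial centralizer in P, then P is the internal direct product of C_P(X₁) and C_P(X₂): they commute elementwise, meet trivially and generate P. -/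
theorem result {S : Type*} [Group S] [Finite S] {p q : ℕ} [Fact p.Prime] [Fact q.Prime] (hpq : p ≠ q)
    (P : Sylow p S) [(P : Subgroup S).Normal] (Q : Subgroup S) (hQ : Cfsg.IsElementaryAbelian q Q) (hQc : Nat.card Q = q ^ 2)
    (hS : (P : Subgroup S) ⊔ Q = ⊤)
    (X₁ X₂ : Subgroup S) (h₁ : X₁ ≤ Q) (h₂ : X₂ ≤ Q) (h₁₂ : X₁ ≠ X₂) (hc₁ : Nat.card X₁ = q) (hc₂ : Nat.card X₂ = q)
    (hf₁ : (P : Subgroup S) ⊓ Subgroup.centralizer (X₁ : Set S) ≠ ⊥)
    (hf₂ : (P : Subgroup S) ⊓ Subgroup.centralizer (X₂ : Set S) ≠ ⊥)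
    (honly : ∀ X : Subgroup S, X ≤ Q → Nat.card X = q →
      (P : Subgroup S) ⊓ Subgroup.centralizer (X : Set S) ≠ ⊥ → X = X₁ ∨ X = X₂) :
    ⁅(P : Subgroup S) ⊓ Subgroup.centralizer (X₁ : Set S), (P : Subgroup S) ⊓ Subgroup.centralizer (X₂ : Set S)⁆ = ⊥ ∧
      ((P : Subgroup S) ⊓ Subgroup.centralizer (X₁ : Set S)) ⊓ ((P : Subgroup S) ⊓ Subgroup.centralizer (X₂ : Set S)) = ⊥ ∧
      ((P : Subgroup S) ⊓ Subgroup.centralizer (X₁ : Set S)) ⊔ ((P : Subgroup S) ⊓ Subgroup.centralizer (X₂ : Set S)) = P := by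
  have hp : p.Prime := Fact.out
  have hq : q.Prime := Fact.out
  haveI := hQ.1
  have hcomm : ∀ a ∈ Q, ∀ b ∈ Q, a * b = b * a := fun a ha b hb => mul_comm_of_mem_isMulCommutative Q ha hb
  have hncyc : ¬ IsCyclic Q := by
    intro hcy
    obtain ⟨g, hg⟩ := hcy.exists_generator
    have h1 : orderOf g = Nat.card Q := orderOf_eq_card_of_forall_mem_zpowers hg
    have h2 : orderOf g ∣ q := orderOf_dvd_of_pow_eq_one (Subtype.ext (by simpa using hQ.2 g g.2))
    rw [h1, hQc] at h2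
    have h3 := Nat.le_of_dvd hq.pos h2
    nlinarith [hq.two_le]
  have hQN : ∀ K : Subgroup S, K.Normal → Q ≤ Subgroup.normalizer (K : Set S) := fun K hK => by
    haveI := hK
    rw [Subgroup.normalizer_eq_top]; exact le_top
  have hgen : ∀ X : Subgroup S, Nat.card X = q → ∀ x ∈ X, x ≠ 1 →
      Subgroup.centralizer {x} = Subgroup.centralizer (X : Set S) := by
    intro X hX x hx hx1
    haveI : Fact (Nat.card X).Prime := ⟨hX.symm ▸ hq⟩
    have : Subgroup.zpowers x = X := by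
      refine (Subgroup.eq_bot_or_eq_top_of_prime_card ((Subgroup.zpowers x).subgroupOf X)).elim
        (fun h => ?_) (fun h => ?_)
      · exfalso
        apply hx1
        have h2 : (⟨x, hx⟩ : X) ∈ (Subgroup.zpowers x).subgroupOf X :=
          Subgroup.mem_subgroupOf.mpr (Subgroup.mem_zpowers x)
        rw [h, Subgroup.mem_bot] at h2
        exact congrArg Subtype.val h2
      · exact le_antisymm (Subgroup.zpowers_le.mpr hx) (Subgroup.subgroupOf_eq_top.mp h)
    rw [← this, ← Subgroup.centralizer_closure, Subgroup.zpowers_eq_closure]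
  have hcycl : ∀ a ∈ Q, a ≠ 1 → Nat.card (Subgroup.zpowers a) = q := fun a ha ha1 => by
    rw [Nat.card_zpowers]; exact orderOf_eq_prime (hQ.2 a ha) ha1
  have hcases : ∀ a ∈ Q, a ≠ 1 → (P : Subgroup S) ⊓ Subgroup.centralizer {a} ≠ ⊥ →
      a ∈ X₁ ∨ a ∈ X₂ := by
    intro a ha ha1 hne
    rw [hgen _ (hcycl a ha ha1) a (Subgroup.mem_zpowers a) ha1] at hne
    rcases honly _ (Subgroup.zpowers_le.mpr ha) (hcycl a ha ha1) hne with h | h
    · exact .inl (h ▸ Subgroup.mem_zpowers a)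
    · exact .inr (h ▸ Subgroup.mem_zpowers a)
  have hdec : ∀ K : Subgroup S, K.Normal → K ≤ P →
      K ≤ (K ⊓ Subgroup.centralizer (X₁ : Set S)) ⊔ (K ⊓ Subgroup.centralizer (X₂ : Set S)) := by
    intro K hK hKP
    have hcop : (Nat.card Q).Coprime (Nat.card K) := by
      obtain ⟨k, hk⟩ := (P.isPGroup'.to_le hKP).exists_card_eq
      rw [hQc, hk]
      exact Nat.Coprime.pow _ _ ((Nat.coprime_primes hq hp).mpr (Ne.symm hpq))
    conv_lhs => rw [← CfsgLib.Core.generated_by_centralizers hncyc (hQN K hK) hcop]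
    refine iSup₂_le fun a ha => ?_
    rcases eq_or_ne (K ⊓ Subgroup.centralizer {a}) ⊥ with h0 | h0
    · rw [h0]; exact bot_le
    · rcases hcases a ha.1 ha.2 (fun h => h0 (eq_bot_mono (inf_le_inf_right _ hKP) h)) with h | h
      · rw [hgen X₁ hc₁ a h ha.2]; exact le_sup_left
      · rw [hgen X₂ hc₂ a h ha.2]; exact le_sup_right
  have hfix : ∀ g ∈ (P : Subgroup S), g ∈ Subgroup.centralizer (X₁ : Set S) →
      g ∈ Subgroup.centralizer (X₂ : Set S) → g = 1 := by
    intro g hg g1 g2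
    by_contra hg1
    have hC : X₁ ⊔ X₂ ≤ Q := sup_le h₁ h₂
    have hQC : Q ≤ X₁ ⊔ X₂ := by
      haveI : Fact (Nat.card X₁).Prime := ⟨hc₁.symm ▸ hq⟩
      have hne : Nat.card X₁ ≠ Nat.card (X₁ ⊔ X₂ : Subgroup S) := by
        intro h
        have h12 : X₁ = X₁ ⊔ X₂ := Subgroup.eq_of_le_of_card_ge le_sup_left h.ge
        exact h₁₂ (Subgroup.eq_of_le_of_card_ge (le_sup_right.trans h12.ge) (by rw [hc₁, hc₂])).symm
      have hd1 : Nat.card X₁ ∣ Nat.card (X₁ ⊔ X₂ : Subgroup S) := Subgroup.card_dvd_of_le le_sup_left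
      have hd2 := Subgroup.card_dvd_of_le hC
      rw [hQc] at hd2
      obtain ⟨i, hi, hieq⟩ := (Nat.dvd_prime_pow hq).mp hd2
      refine (Subgroup.eq_of_le_of_card_ge hC (le_of_eq ?_)).ge
      rw [hieq, hQc]
      rw [hc₁, hieq] at hne hd1
      have hi0 : i ≠ 0 := fun h => by
        rw [h, pow_zero] at hd1
        exact hq.one_lt.ne' (Nat.dvd_one.mp hd1)
      have hi1 : i ≠ 1 := fun h => hne (by rw [h, pow_one])
      rw [show i = 2 by omega]
    have hgQ : g ∈ Subgroup.centralizer (Q : Set S) := by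
      refine fun a ha => ?_
      have h : X₁ ⊔ X₂ ≤ Subgroup.centralizer {g} := by
        refine sup_le (fun x hx => ?_) (fun x hx => ?_) <;> rw [Subgroup.mem_centralizer_singleton_iff]
        · exact g1 x hx
        · exact g2 x hx
      exact Subgroup.mem_centralizer_singleton_iff.mp (h (hQC ha))
    have hall : ∀ a ∈ Q, a ∈ X₁ ∨ a ∈ X₂ := by
      intro a ha
      by_cases ha1 : a = 1
      · exact .inl (ha1 ▸ one_mem _)
      refine hcases a ha ha1 fun h => hg1 ?_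
      rw [eq_bot_iff] at h
      exact h ⟨hg, Subgroup.mem_centralizer_singleton_iff.mpr (hgQ a ha).symm⟩
    obtain ⟨u, hu, hu2⟩ : ∃ u ∈ X₁, u ∉ X₂ := by
      by_contra! h
      exact h₁₂ (Subgroup.eq_of_le_of_card_ge h (by rw [hc₁, hc₂]))
    obtain ⟨v, hv, hv1⟩ : ∃ v ∈ X₂, v ∉ X₁ := by
      by_contra! h
      exact h₁₂ (Subgroup.eq_of_le_of_card_ge h (by rw [hc₁, hc₂])).symm
    rcases hall (u * v) (mul_mem (h₁ hu) (h₂ hv)) with h | h
    · exact hv1 ((X₁.mul_mem_cancel_left hu).mp h)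
    · exact hu2 ((X₂.mul_mem_cancel_right hv).mp h)
  refine ⟨?_, ?_, le_antisymm (sup_le inf_le_left inf_le_left) (hdec P inferInstance le_rfl)⟩
  swap
  · rw [eq_bot_iff]
    rintro g ⟨⟨hg, g1⟩, -, g2⟩
    exact hfix g hg g1 g2
  obtain ⟨x, hx, hx1⟩ := (Subgroup.bot_or_exists_ne_one X₁).resolve_left fun h => by
    rw [h, Subgroup.card_bot] at hc₁; exact hq.one_lt.ne hc₁
  obtain ⟨y, hy, hy1⟩ := (Subgroup.bot_or_exists_ne_one X₂).resolve_left fun h => by
    rw [h, Subgroup.card_bot] at hc₂; exact hq.one_lt.ne hc₂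
  have hxy : x * y = y * x := hcomm x (h₁ hx) y (h₂ hy)
  have hc1 : ∀ a, a ∈ Subgroup.centralizer (X₁ : Set S) ↔ x * a = a * x := fun a => by
    rw [← hgen X₁ hc₁ x hx hx1, Subgroup.mem_centralizer_singleton_iff, eq_comm]
  have hc2 : ∀ a, a ∈ Subgroup.centralizer (X₂ : Set S) ↔ y * a = a * y := fun a => by
    rw [← hgen X₂ hc₂ y hy hy1, Subgroup.mem_centralizer_singleton_iff, eq_comm]
  set A := (P : Subgroup S) ⊓ Subgroup.centralizer (X₁ : Set S) with hA
  set B := (P : Subgroup S) ⊓ Subgroup.centralizer (X₂ : Set S) with hB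
  have hPn : (P : Subgroup S).Normal := inferInstance
  have hsurj : ∀ (u w : S) (A B : Subgroup S),
      (∀ a ∈ A, u * a * u⁻¹ ∈ A) → (∀ a ∈ A, u * a = a * u → a = 1) →
      ∀ a' ∈ A, ∃ a ∈ A, a' = ⁅u, a⁆ := by
    intro u _ A _ hinv hf a' ha'
    let φ : A → A := fun a => ⟨⁅u, (a : S)⁆, by
      rw [commutatorElement_def]; exact mul_mem (hinv a a.2) (inv_mem a.2)⟩
    have hinj : Function.Injective φ := by
      intro a b h
      have h' : u * a * u⁻¹ * (a : S)⁻¹ = u * b * u⁻¹ * (b : S)⁻¹ := congrArg Subtype.val h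
      have h'' : u * ((b : S)⁻¹ * a) = ((b : S)⁻¹ * a) * u := by
        calc u * ((b : S)⁻¹ * a) = (u * b * u⁻¹)⁻¹ * (u * a * u⁻¹ * (a : S)⁻¹) * a * u := by group
          _ = (u * b * u⁻¹)⁻¹ * (u * b * u⁻¹ * (b : S)⁻¹) * a * u := by rw [h']
          _ = _ := by group
      exact Subtype.ext (inv_mul_eq_one.mp (hf _ (mul_mem (inv_mem b.2) a.2) h'')).symm
    obtain ⟨a, ha⟩ := (Finite.injective_iff_surjective.mp hinj) ⟨a', ha'⟩
    exact ⟨a, a.2, (congrArg Subtype.val ha).symm⟩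
  have hinvA : ∀ a ∈ A, y * a * y⁻¹ ∈ A := by
    rintro a ⟨ha, ha1⟩
    refine ⟨hPn.conj_mem a ha y, (hc1 _).mpr ?_⟩
    have := (hc1 a).mp ha1
    calc x * (y * a * y⁻¹) = (x * y) * a * y⁻¹ := by group
      _ = (y * x) * a * y⁻¹ := by rw [hxy]
      _ = y * (x * a) * y⁻¹ := by group
      _ = y * (a * x) * y⁻¹ := by rw [this]
      _ = y * a * (x * y⁻¹) := by group
      _ = y * a * (y⁻¹ * x) := by rw [(Commute.inv_right (show Commute x y from hxy)).eq]
      _ = _ := by group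
  have hinvB : ∀ a ∈ B, x * a * x⁻¹ ∈ B := by
    rintro a ⟨ha, ha1⟩
    refine ⟨hPn.conj_mem a ha x, (hc2 _).mpr ?_⟩
    have := (hc2 a).mp ha1
    calc y * (x * a * x⁻¹) = (y * x) * a * x⁻¹ := by group
      _ = (x * y) * a * x⁻¹ := by rw [hxy]
      _ = x * (y * a) * x⁻¹ := by group
      _ = x * (a * y) * x⁻¹ := by rw [this]
      _ = x * a * (y * x⁻¹) := by group
      _ = x * a * (x⁻¹ * y) := by rw [(Commute.inv_right (show Commute y x from hxy.symm)).eq]
      _ = _ := by group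
  suffices H : ∀ k, ⁅A, B⁆ ≤ (P : Subgroup S).lowerCentralSeries k by
    haveI := P.isPGroup'.isNilpotent
    obtain ⟨k, hk⟩ := (Subgroup.isNilpotent_iff_lowerCentralSeries (P : Subgroup S)).mp inferInstance
    exact le_bot_iff.mp (hk ▸ H k)
  intro k
  induction k with
  | zero =>
    rw [Subgroup.lowerCentralSeries_zero]
    exact (Subgroup.commutator_mono inf_le_left inf_le_left).trans (Subgroup.commutator_le_right _ _)
  | succ k ih =>
    set N := (P : Subgroup S).lowerCentralSeries k with hN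
    have hNn : ∀ j, ((P : Subgroup S).lowerCentralSeries j).Normal := by
      intro j
      induction j with
      | zero => exact hPn
      | succ j hj =>
        haveI := hj
        rw [Subgroup.lowerCentralSeries_succ]; infer_instance
    have hNP : N ≤ P := (Subgroup.lowerCentralSeries_antitone (S := (P : Subgroup S))) (Nat.zero_le k)
    haveI : N.Normal := hNn k
    haveI : ((P : Subgroup S).lowerCentralSeries (k + 1)).Normal := hNn (k + 1)
    let π := QuotientGroup.mk' ((P : Subgroup S).lowerCentralSeries (k + 1))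
    have hcent : ∀ c ∈ N, ∀ g ∈ (P : Subgroup S), π c * π g = π g * π c := by
      intro c hc g hg
      rw [← commutatorElement_eq_one_iff_mul_comm, ← map_commutatorElement]
      exact (QuotientGroup.eq_one_iff _).mpr (Subgroup.commutator_mem_commutator hc hg)
    have hNc : ∀ c ∈ N, ∀ g : S, ⁅g, c⁆ ∈ N := fun c hc g => by
      rw [commutatorElement_def]
      exact mul_mem (Subgroup.Normal.conj_mem inferInstance c hc g) (inv_mem hc)
    have hlin : ∀ g c d : S, c ∈ N → d ∈ N → π ⁅(g : S), c * d⁆ = π ⁅g, c⁆ * π ⁅g, d⁆ := by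
      intro g c d hc hd
      have e : ⁅g, c * d⁆ = ⁅g, c⁆ * (c * ⁅g, d⁆ * c⁻¹) := by
        simp only [commutatorElement_def]; group
      rw [e, map_mul, map_mul, map_mul, map_inv, hcent c hc _ (hNP (hNc d hd g))]
      group
    let T : Subgroup S :=
      { carrier := {c | c ∈ N ∧ π ⁅x, ⁅y, c⁆⁆ = 1}
        one_mem' := ⟨one_mem _, by simp only [commutatorElement_one_right, map_one]⟩
        mul_mem' := fun {c d} hc hd => ⟨mul_mem hc.1 hd.1, by
          have e1 : π (⁅y, c⁆ * ⁅y, d⁆) = π ⁅y, c * d⁆ := by rw [map_mul, hlin y c d hc.1 hd.1]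
          have e2 : π ⁅x, ⁅y, c * d⁆⁆ = π ⁅x, ⁅y, c⁆ * ⁅y, d⁆⁆ := by
            rw [map_commutatorElement π x, map_commutatorElement π x, e1]
          rw [e2, hlin x _ _ (hNc c hc.1 y) (hNc d hd.1 y), hc.2, hd.2, mul_one]⟩
        inv_mem' := fun {c} hc => ⟨inv_mem hc.1, by
          have h1 : π ⁅y, c⁻¹⁆ = (π ⁅y, c⁆)⁻¹ := by
            refine eq_inv_of_mul_eq_one_left ?_
            rw [← hlin y c⁻¹ c (inv_mem hc.1) hc.1, inv_mul_cancel, commutatorElement_one_right, map_one]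
          have h2 : π ⁅x, ⁅y, c⁻¹⁆⁆ = π ⁅x, ⁅y, c⁆⁻¹⁆ := by
            rw [map_commutatorElement π x, map_commutatorElement π x, h1, map_inv]
          have h3 := hlin x ⁅y, c⁆⁻¹ ⁅y, c⁆ (inv_mem (hNc c hc.1 y)) (hNc c hc.1 y)
          rw [hc.2, mul_one] at h3
          rw [h2, ← h3, inv_mul_cancel, commutatorElement_one_right, map_one]⟩ }
    have hNT : N ≤ T := by
      refine (hdec N inferInstance hNP).trans (sup_le ?_ ?_) <;> rintro c ⟨hc, hc'⟩
      · refine ⟨hc, ?_⟩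
        have h1 := (hc1 c).mp hc'
        have h2 : ⁅x, ⁅y, c⁆⁆ = 1 := by
          rw [commutatorElement_eq_one_iff_mul_comm]
          exact ((show Commute x y from hxy).mul_right h1 |>.mul_right
            (Commute.inv_right hxy) |>.mul_right (Commute.inv_right h1)).eq
        rw [h2, map_one]
      · refine ⟨hc, ?_⟩
        rw [commutatorElement_eq_one_iff_mul_comm.mpr ((hc2 c).mp hc'), commutatorElement_one_right,
          map_one]
    rw [Subgroup.commutator_le]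
    intro a' ha' b' hb'
    obtain ⟨a, ha, rfl⟩ := hsurj y x A B hinvA
      (fun a ha h => hfix a ha.1 ha.2 ((hc2 a).mpr h)) a' ha'
    obtain ⟨b, hb, rfl⟩ := hsurj x y B A hinvB
      (fun a ha h => hfix a ha.1 ((hc1 a).mpr h) ha.2) b' hb'
    have hkey : ∀ a ∈ A, ∀ b ∈ B, ⁅a, b⁆ ∈ N :=
      fun a ha b hb => ih (Subgroup.commutator_mem_commutator ha hb)
    -- left slot
    have hl : ∀ b ∈ B, π ⁅⁅y, a⁆, b⁆ = π ⁅y, ⁅a, b⁆⁆ := by
      intro b hb
      have hyb := (hc2 b).mp hb.2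
      have hA' : y * a * y⁻¹ ∈ A := hinvA a ha
      have hc : ⁅a, b⁆ ∈ N := hkey a ha b hb
      have e1 : ⁅⁅y, a⁆, b⁆ =
          (y * a * y⁻¹) * ⁅a⁻¹, b⁆ * (y * a * y⁻¹)⁻¹ * ⁅y * a * y⁻¹, b⁆ := by
        simp only [commutatorElement_def]; group
      have e2 : ⁅y * a * y⁻¹, b⁆ = y * ⁅a, b⁆ * y⁻¹ := by
        have hb' : y * b * y⁻¹ = b := by rw [hyb]; group
        conv_lhs => rw [← hb']
        simp only [commutatorElement_def]; group
      have e3 : ⁅a⁻¹, b⁆ = a⁻¹ * ⁅a, b⁆⁻¹ * a := by simp only [commutatorElement_def]; group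
      have e4 : π ⁅a⁻¹, b⁆ = (π ⁅a, b⁆)⁻¹ := by
        have h5 := hcent _ (inv_mem hc) a ha.1
        rw [e3, map_mul, map_mul, mul_assoc, h5, ← mul_assoc, ← map_mul, inv_mul_cancel, map_one,
          one_mul, map_inv]
      have h6 := hcent _ (hkey a⁻¹ (inv_mem ha) b hb) (y * a * y⁻¹) hA'.1
      rw [e1, map_mul, map_mul, map_mul, ← h6, mul_assoc (π ⁅a⁻¹, b⁆), ← map_mul π (y * a * y⁻¹),
        mul_inv_cancel, map_one, mul_one, e4, e2]
      have hyc : y * ⁅a, b⁆ * y⁻¹ ∈ N := Subgroup.Normal.conj_mem inferInstance _ hc y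
      have h8 := hcent _ (inv_mem hc) _ (hNP hyc)
      rw [map_inv] at h8
      rw [h8, commutatorElement_def y, ← map_inv, ← map_mul]
    have hb1 : ⁅x, b⁆ ∈ B := by
      rw [commutatorElement_def]; exact mul_mem (hinvB b hb) (inv_mem hb)
    have ha1 : ⁅y, a⁆ ∈ A := by
      rw [commutatorElement_def]; exact mul_mem (hinvA a ha) (inv_mem ha)
    -- right slot
    have hr : π ⁅⁅y, a⁆, ⁅x, b⁆⁆ = π ⁅x, ⁅⁅y, a⁆, b⁆⁆ := by
      set a₀ := ⁅y, a⁆ with ha₀
      have hxa := (hc1 a₀).mp ha1.2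
      have hB' : x * b * x⁻¹ ∈ B := hinvB b hb
      have hc : ⁅a₀, b⁆ ∈ N := hkey a₀ ha1 b hb
      have e1 : ⁅a₀, ⁅x, b⁆⁆ =
          ⁅a₀, x * b * x⁻¹⁆ * ((x * b * x⁻¹) * ⁅a₀, b⁻¹⁆ * (x * b * x⁻¹)⁻¹) := by
        simp only [commutatorElement_def]; group
      have e2 : ⁅a₀, x * b * x⁻¹⁆ = x * ⁅a₀, b⁆ * x⁻¹ := by
        have ha' : x * a₀ * x⁻¹ = a₀ := by rw [hxa]; group
        conv_lhs => rw [← ha']
        simp only [commutatorElement_def]; group
      have e3 : ⁅a₀, b⁻¹⁆ = b⁻¹ * ⁅a₀, b⁆⁻¹ * b := by simp only [commutatorElement_def]; group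
      have e4 : π ⁅a₀, b⁻¹⁆ = (π ⁅a₀, b⁆)⁻¹ := by
        have h5 := hcent _ (inv_mem hc) b hb.1
        rw [e3, map_mul, map_mul, mul_assoc, h5, ← mul_assoc, ← map_mul, inv_mul_cancel, map_one,
          one_mul, map_inv]
      have h6 := hcent _ (hkey a₀ ha1 b⁻¹ (inv_mem hb)) (x * b * x⁻¹) hB'.1
      rw [e1, map_mul, map_mul, map_mul, ← h6, mul_assoc (π ⁅a₀, b⁻¹⁆), ← map_mul π (x * b * x⁻¹),
        mul_inv_cancel, map_one, mul_one, e4, e2, commutatorElement_def x, map_mul π _ ⁅a₀, b⁆⁻¹,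
        map_inv]
    have hfin : π ⁅⁅y, a⁆, ⁅x, b⁆⁆ = 1 := by
      rw [hr, map_commutatorElement π x, hl b hb, ← map_commutatorElement π x]
      exact (hNT (hkey a ha b hb)).2
    exact (QuotientGroup.eq_one_iff _).mp hfin

end Cfsg.Agent.S1900
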