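import Cfsg.Statements.S1901
import Cfsg.Agent.Lib.CorePSolvable
import Cfsg.Agent.Lib.CoreCoprime2

set_option autoImplicit false
open Cfsg

namespace Cfsg.Agent.S1901


universe u

/-- A `p`-element normalising a `p'`-group that normalises a Sylow subgroup centralises it. -/
theorem key {p : ℕ} [Fact p.Prime] : ∀ (n : ℕ) (G : Type u) [Group G] [Finite G], Nat.card G = n →
    Cfsg.IsPSolvable p G → ∀ (P : Sylow p G) (Q : Subgroup G), ¬ p ∣ Nat.card ↥Q →
    Q ≤ Subgroup.normalizer ((P : Subgroup G) : Set G) → ∀ a ∈ Subgroup.normalizer (Q : Set G),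
    ∀ k : ℕ, a ^ (p ^ k) = 1 → ∀ q ∈ Q, a * q = q * a := by
  intro n
  induction n using Nat.strong_induction_on with
  | _ n ih =>
  intro G _ _ hn hG P Q hQ hQP a ha k hak q hq
  by_cases hbot : (⊤ : Subgroup G) = ⊥
  · have : q = 1 := Subgroup.mem_bot.mp (hbot ▸ Subgroup.mem_top q)
    rw [this, mul_one, one_mul]
  obtain ⟨N, hNn, -, hN1, hNp⟩ := CfsgLib.Core.exists_normal_le_of_isPSolvable hG hbot
  haveI := hNn
  set f := QuotientGroup.mk' N with hf
  have hfs : Function.Surjective f := QuotientGroup.mk'_surjective N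
  have hlt : Nat.card (G ⧸ N) < n := by
    rw [← hn, Subgroup.card_eq_card_quotient_mul_card_subgroup N]
    exact lt_mul_of_one_lt_right Nat.card_pos ((Subgroup.one_lt_card_iff_ne_bot N).mpr hN1)
  have hz : ∀ x ∈ Q, a * x * a⁻¹ * x⁻¹ ∈ N ⊓ Q := by
    intro x hx
    refine Subgroup.mem_inf.mpr ⟨?_, mul_mem ((Subgroup.mem_normalizer_iff.mp ha x).mp hx) (inv_mem hx)⟩
    have h := ih _ hlt (G ⧸ N) rfl (CfsgLib.Core.isPSolvable_of_surjective f hfs hG)
      (P.mapSurjective hfs) (Q.map f) (fun hd => hQ (hd.trans (Q.card_map_dvd (f := f))))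
      (by
        rw [Sylow.coe_mapSurjective]
        exact (Subgroup.map_mono hQP).trans (Subgroup.le_normalizer_map f))
      (f a) (Subgroup.le_normalizer_map f ⟨a, ha, rfl⟩) k (by rw [← map_pow, hak, map_one])
      (f x) ⟨x, hx, rfl⟩
    rw [← QuotientGroup.eq_one_iff]
    show f (a * x * a⁻¹ * x⁻¹) = 1
    rw [map_mul, map_mul, map_mul, map_inv, map_inv, h]
    group
  rcases hNp with hNp | hNp
  · have hcop : (Nat.card ↥N).Coprime (Nat.card ↥Q) := by
      obtain ⟨m, hm⟩ := IsPGroup.iff_card.mp hNp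
      rw [hm]
      exact ((Fact.out : p.Prime).coprime_iff_not_dvd.mpr hQ).pow_left m
    have h := hz q hq
    rw [(Subgroup.disjoint_of_coprime_natCard hcop).eq_bot, Subgroup.mem_bot, mul_inv_eq_one,
      mul_inv_eq_iff_eq_mul] at h
    exact h
  · set Q₁ := N ⊓ Q with hQ₁
    have hPN : (P : Subgroup G) ⊓ N = ⊥ := by
      refine (Subgroup.disjoint_of_coprime_natCard ?_).eq_bot
      obtain ⟨m, hm⟩ := IsPGroup.iff_card.mp P.isPGroup'
      rw [hm]
      exact (hNp.symm).pow_left m
    have hPC : (P : Subgroup G) ≤ Subgroup.centralizer (Q₁ : Set G) := by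
      intro x hx
      rw [Subgroup.mem_centralizer_iff]
      intro y hy
      obtain ⟨hyN, hyQ⟩ := Subgroup.mem_inf.mp hy
      have h : y * x * y⁻¹ * x⁻¹ ∈ (P : Subgroup G) ⊓ N := by
        refine Subgroup.mem_inf.mpr ⟨mul_mem ((Subgroup.mem_normalizer_iff.mp (hQP hyQ) x).mp hx)
          (inv_mem hx), ?_⟩
        rw [show y * x * y⁻¹ * x⁻¹ = y * (x * y⁻¹ * x⁻¹) by group]
        exact mul_mem hyN (hNn.conj_mem _ (inv_mem hyN) x)
      rw [hPN, Subgroup.mem_bot, mul_inv_eq_one, mul_inv_eq_iff_eq_mul] at h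
      exact h
    set M := Subgroup.normalizer (Q₁ : Set G) with hM
    have haM : a ∈ M := Subgroup.mem_normalizer_iff.mpr fun y => by
      simp only [hQ₁, Subgroup.mem_inf]
      exact and_congr ⟨fun h => hNn.conj_mem y h a, fun h => by
        simpa [mul_assoc] using hNn.conj_mem _ h a⁻¹⟩ (Subgroup.mem_normalizer_iff.mp ha y)
    set C := (Subgroup.centralizer (Q₁ : Set G)).subgroupOf M with hC
    haveI : C.Normal := Subgroup.normal_subgroupOf_of_le_normalizer
      (CfsgLib.Core.le_normalizer_centralizer le_rfl)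
    have hidx : C.index.Coprime (p ^ k) := by
      refine Nat.Coprime.pow_right k (Nat.Coprime.symm ?_)
      refine (Fact.out : p.Prime).coprime_iff_not_dvd.mpr fun h => P.not_dvd_index ?_
      have h1 : (P : Subgroup G).subgroupOf M ≤ C := Subgroup.comap_mono hPC
      exact h.trans ((Subgroup.index_dvd_of_le h1).trans
        (Subgroup.relIndex_dvd_index_of_le
          (hPC.trans (Subgroup.centralizer_le_normalizer _) : (P : Subgroup G) ≤ M)))
    have haC : a ∈ Subgroup.centralizer (Q₁ : Set G) := by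
      have hmem : (⟨a, haM⟩ : ↥M) ∈ C := by
        rw [← QuotientGroup.eq_one_iff, ← orderOf_eq_one_iff]
        refine Nat.eq_one_of_dvd_coprimes hidx ?_ (orderOf_dvd_of_pow_eq_one ?_)
        · rw [Subgroup.index_eq_card]; exact orderOf_dvd_natCard _
        · rw [← QuotientGroup.mk_pow, show (⟨a, haM⟩ : ↥M) ^ (p ^ k) = 1 from Subtype.ext hak]
          rfl
      exact Subgroup.mem_subgroupOf.mp hmem
    set z := a * q * a⁻¹ * q⁻¹ with hzd
    have hzm := hz q hq
    have hza : a * z * a⁻¹ = z := by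
      rw [← Subgroup.mem_centralizer_iff.mp haC z hzm, mul_inv_cancel_right]
    have hpow : ∀ m : ℕ, a ^ m * q * (a ^ m)⁻¹ = z ^ m * q := by
      intro m
      induction m with
      | zero => simp
      | succ m hm =>
        calc a ^ (m + 1) * q * (a ^ (m + 1))⁻¹ = a * (a ^ m * q * (a ^ m)⁻¹) * a⁻¹ := by
              rw [pow_succ']; group
          _ = a * (z ^ m * q) * a⁻¹ := by rw [hm]
          _ = (a * z * a⁻¹) ^ m * (a * q * a⁻¹ * q⁻¹) * q := by rw [conj_pow]; group
          _ = z ^ (m + 1) * q := by rw [hza, ← hzd, pow_succ]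
    have h1 := hpow (p ^ k)
    rw [hak, one_mul, inv_one, mul_one] at h1
    have hz1 : z ^ (p ^ k) = 1 := mul_eq_right.mp h1.symm
    have hzQ : orderOf z ∣ Nat.card ↥Q := Subgroup.orderOf_dvd_natCard _ (Subgroup.mem_inf.mp hzm).2
    have hz1' : z = 1 := orderOf_eq_one_iff.mp (Nat.eq_one_of_dvd_coprimes
      (((Fact.out : p.Prime).coprime_iff_not_dvd.mpr hQ).pow_left k)
      (orderOf_dvd_of_pow_eq_one hz1) hzQ)
    rw [hzd, mul_inv_eq_one, mul_inv_eq_iff_eq_mul] at hz1'
    exact hz1'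


/-- Let G be a finite p-solvable group and Q a subgroup of order prime to p such that p divides the index of C_G(Q) in N_G(Q). Then Q normalizes no Sylow p-subgroup of G. -/
theorem result {G : Type*} [Group G] [Finite G] {p : ℕ} [Fact p.Prime]
    (hG : Cfsg.IsPSolvable p G) (Q : Subgroup G) (hQ : ¬ p ∣ Nat.card Q)
    (hA : p ∣ (Subgroup.centralizer (Q : Set G)).relIndex (Subgroup.normalizer (Q : Set G)))
    (P : Sylow p G) : ¬ Q ≤ Subgroup.normalizer ((P : Subgroup G) : Set G) := by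
  intro hQP
  set M := Subgroup.normalizer (Q : Set G) with hM
  set C := (Subgroup.centralizer (Q : Set G)).subgroupOf M with hC
  let T : Sylow p ↥M := default
  have hTC : (T : Subgroup ↥M) ≤ C := by
    intro a hat
    obtain ⟨k, hk⟩ := T.isPGroup' ⟨a, hat⟩
    refine Subgroup.mem_subgroupOf.mpr (Subgroup.mem_centralizer_iff.mpr fun q hq => ?_)
    exact (key _ G rfl hG P Q hQ hQP (a : G) a.2 k
      (congrArg (fun w : ↥(T : Subgroup ↥M) => ((w : ↥M) : G)) hk) q hq).symm
  exact T.not_dvd_index (hA.trans (Subgroup.index_dvd_of_le hTC))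


end Cfsg.Agent.S1901
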