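import Cfsg.Statements.S1902
import Cfsg.Agent.Lib.LocalClassTwo
import Cfsg.Agent.Lib.CorePSolvable
import Cfsg.Agent.S1302

set_option autoImplicit false
open Cfsg

namespace Cfsg.Agent.S1902

/-- Let p be an odd prime, G a finite p-solvable group, and B an elementary abelian subgroup of order p² such that B is the subgroup generated by the elements of order p of some Sylow p-subgroup of C_G(b₀), for some nontrivial b₀ ∈ B. Then every B-invariant subgroup of G of order prime to p lies in O_{p'}(G). -/
theorem result {G : Type*} [Group G] [Finite G] {p : ℕ} [Fact p.Prime] (hp : p ≠ 2)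
    (hG : Cfsg.IsPSolvable p G) (B : Subgroup G) (hB : Cfsg.IsElementaryAbelian p B) (hBc : Nat.card B = p ^ 2)
    (b₀ : G) (hb₀ : b₀ ∈ B) (hb₁ : b₀ ≠ 1) (P : Sylow p ↥(Subgroup.centralizer ({b₀} : Set G)))
    (hBP : B = Subgroup.closure {x : G | x ∈ ((P : Subgroup ↥(Subgroup.centralizer ({b₀} : Set G))).map
      (Subgroup.centralizer ({b₀} : Set G)).subtype : Subgroup G) ∧ orderOf x = p})
    (Q : Subgroup G) (hQ : ¬ p ∣ Nat.card Q) (hinv : ∀ b ∈ B, ∀ x ∈ Q, b * x * b⁻¹ ∈ Q) :
    Q ≤ Cfsg.pPrimeCore p G := by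
  have hp' : p.Prime := Fact.out
  have hcon : Cfsg.IsPConstrained p G := by
    intro R g hg
    haveI := CfsgLib.Core.normal_pPrimeCore (G := G) p
    show QuotientGroup.mk' (Cfsg.pPrimeCore p G) g ∈ Cfsg.pCore p (G ⧸ Cfsg.pPrimeCore p G)
    refine CfsgLib.Core.centralizer_pCore_le_of_isPSolvable
      (CfsgLib.Core.isPSolvable_of_surjective _ (QuotientGroup.mk'_surjective _) hG)
      (CfsgLib.Core.pPrimeCore_quotient_pPrimeCore p) ?_
    rw [← CfsgLib.Local.ClassTwo.sylow_pPrimePCore_map R, Subgroup.mem_centralizer_iff]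
    rintro _ ⟨x, hx, rfl⟩
    rw [← map_mul, ← map_mul, Subgroup.mem_centralizer_iff.1 hg x hx]
  have hBp : IsPGroup p B := IsPGroup.of_card hBc
  refine Cfsg.Agent.S1302.result p hp hcon B hB.1 hBp ?_ Q hQ (fun b hb => ?_)
  · intro x hx hxp
    have hxb : ∀ b ∈ B, b * x = x * b := fun b hb => Subgroup.mem_centralizer_iff.mp hx b hb
    haveI := hB.1
    set A := Subgroup.closure ((B : Set G) ∪ {x}) with hA
    have hAc : ∀ a ∈ A, ∀ b ∈ A, a * b = b * a := by
      have h1 : A ≤ Subgroup.centralizer ((B : Set G) ∪ {x}) := by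
        rw [hA, Subgroup.closure_le]
        rintro a (ha | ha) <;> rw [SetLike.mem_coe, Subgroup.mem_centralizer_iff] <;> rintro y (hy | hy)
        · exact Subgroup.mul_comm_of_mem_isMulCommutative B hy ha
        · rw [Set.mem_singleton_iff.mp hy]; exact (hxb a ha).symm
        · rw [Set.mem_singleton_iff.mp ha]; exact hxb y hy
        · rw [Set.mem_singleton_iff.mp ha, Set.mem_singleton_iff.mp hy]
      intro a ha b hb
      have h2 : A ≤ Subgroup.centralizer (A : Set G) := by
        rw [hA, Subgroup.centralizer_closure]; exact h1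
      exact Subgroup.mem_centralizer_iff.mp (h2 hb) a ha
    have hAe : ∀ a ∈ A, a ^ p = 1 := by
      intro a ha
      have ha' := ha
      rw [hA] at ha'
      induction ha' using Subgroup.closure_induction with
      | mem y hy =>
        rcases hy with hy | hy
        · exact hB.2 y hy
        · rw [Set.mem_singleton_iff.mp hy, ← hxp, pow_orderOf_eq_one]
      | one => exact one_pow p
      | mul y z hy hz h1 h2 =>
        rw [(show Commute y z from hAc y hy z hz).mul_pow, h1 hy, h2 hz, one_mul]
      | inv y hy h1 => rw [inv_pow, h1 hy, inv_one]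
    have hAC : A ≤ Subgroup.centralizer ({b₀} : Set G) := fun a ha => by
      rw [Subgroup.mem_centralizer_singleton_iff]
      exact hAc a ha b₀ (Subgroup.subset_closure (Or.inl hb₀))
    have hAp : IsPGroup p (A.subgroupOf (Subgroup.centralizer ({b₀} : Set G))) := by
      intro a
      exact ⟨1, Subtype.ext (Subtype.ext (by simpa using hAe _ a.2))⟩
    obtain ⟨R, hR⟩ := hAp.exists_le_sylow
    obtain ⟨c, hc⟩ := MulAction.exists_smul_eq (Subgroup.centralizer ({b₀} : Set G)) R P
    have hle : A.map (MulAut.conj (c : G)).toMonoidHom ≤ B := by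
      rintro _ ⟨a, ha, rfl⟩
      rcases eq_or_ne a 1 with rfl | ha1
      · simp [one_mem]
      rw [hBP]
      refine Subgroup.subset_closure ⟨⟨c * ⟨a, hAC ha⟩ * c⁻¹, ?_, by simp⟩, ?_⟩
      · rw [SetLike.mem_coe, ← hc, Sylow.smul_def]
        exact ⟨⟨a, hAC ha⟩, hR ha, rfl⟩
      · rw [orderOf_injective _ (MulAut.conj (c : G)).injective]
        exact orderOf_eq_prime (hAe a ha) ha1
    have hcard := Subgroup.card_le_of_le hle
    rw [Subgroup.card_map_of_injective (MulAut.conj (c : G)).injective] at hcard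
    have hBA : B ≤ A := fun b hb => Subgroup.subset_closure (Or.inl hb)
    exact (Subgroup.eq_of_le_of_card_ge hBA hcard) ▸ Subgroup.subset_closure (Or.inr rfl)
  · rw [Subgroup.mem_normalizer_iff]
    intro y
    refine ⟨hinv b hb y, fun hy => ?_⟩
    have := hinv b⁻¹ (inv_mem hb) _ hy
    simpa [mul_assoc] using this

end Cfsg.Agent.S1902
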