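import Cfsg.Statements.S1905
import Cfsg.Agent.Lib.LocalPReduced

set_option autoImplicit false
open Cfsg
open scoped commutatorElement Pointwise

namespace Cfsg.Agent.S1905

/-- Let M be a subgroup of even order of a finite group S such that M contains the centralizer in S of each of its involutions and the normal core of M in S has odd order. Then all involutions of S are conjugate. If moreover N_S(X) ≤ M for a Sylow 2-subgroup X of M and I is an involution in the centre of X, then all involutions of M are conjugate in M and M = M₀ C_M(I) for some subgroup M₀ of M of odd order. -/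
theorem result {S : Type*} [Group S] [Finite S] (M : Subgroup S) (hM : Even (Nat.card M))
    (hC : ∀ i ∈ M, orderOf i = 2 → Subgroup.centralizer ({i} : Set S) ≤ M) (hcore : Odd (Nat.card M.normalCore)) :
    (∀ x y : S, orderOf x = 2 → orderOf y = 2 → IsConj x y) ∧
      ∀ (X : Sylow 2 M) (I : M), I ∈ (Subgroup.center ↥(X : Subgroup ↥M)).map (X : Subgroup ↥M).subtype → orderOf I = 2 →
        Subgroup.normalizer (((X : Subgroup M).map M.subtype : Subgroup S) : Set S) ≤ M →
        (∀ x y : M, orderOf x = 2 → orderOf y = 2 → IsConj x y) ∧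
          ∃ M₀ : Subgroup M, Odd (Nat.card M₀) ∧
            ∀ m : M, ∃ a ∈ M₀, ∃ c ∈ Subgroup.centralizer ({I} : Set M), m = a * c := by
  classical
  have inv : ∀ {a : S}, orderOf a = 2 → a * a = 1 := by
    intro a ha; rw [← sq, ← ha, pow_orderOf_eq_one]
  have inv' : ∀ {a : S}, orderOf a = 2 → a⁻¹ = a := fun ha => inv_eq_of_mul_eq_one_right (inv ha)
  have hodd : ∀ a b : S, a ∈ M → orderOf a = 2 → orderOf b = 2 → b ∉ M →
      Odd (orderOf (a * b)) := by
    intro a b haM ha hb hbM
    rw [← Nat.not_even_iff_odd]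
    intro hev
    obtain ⟨m, hm⟩ := hev
    have hpos : 0 < orderOf (a * b) := orderOf_pos _
    set w := (a * b) ^ m with hw
    have hw2 : orderOf w = 2 := by
      refine orderOf_eq_prime ?_ ?_
      · rw [hw, ← pow_mul, show m * 2 = orderOf (a * b) by omega, pow_orderOf_eq_one]
      · rw [hw]
        intro h
        have := Nat.le_of_dvd (by omega) (orderOf_dvd_of_pow_eq_one h)
        omega
    have hconj : ∀ n : ℕ, a * (a * b) ^ n * a = ((a * b) ^ n)⁻¹ := by
      intro n
      have h1 : a * (a * b) * a⁻¹ = (a * b)⁻¹ := by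
        rw [mul_inv_rev, inv' ha, inv' hb, ← mul_assoc a a b, inv ha, one_mul]
      calc a * (a * b) ^ n * a = a * (a * b) ^ n * a⁻¹ := by rw [inv' ha]
        _ = (a * (a * b) * a⁻¹) ^ n := (conj_pow ..).symm
        _ = ((a * b) ^ n)⁻¹ := by rw [h1, inv_pow]
    have haw : a * w = w * a := by
      have h1 := hconj m
      rw [← hw, inv' hw2] at h1
      calc a * w = a * w * (a * a) := by rw [inv ha, mul_one]
        _ = a * w * a * a := by group
        _ = w * a := by rw [h1]
    have hwM : w ∈ M := hC a haM ha (Subgroup.mem_centralizer_iff.mpr fun y hy => by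
      rw [Set.mem_singleton_iff.mp hy]; exact haw)
    have hbw : b * w = w * b := by
      have h3 : Commute (a * b) w := (Commute.refl (a * b)).pow_right m
      have h4 : Commute a w := haw
      have := h4.inv_left.mul_left h3
      rw [inv_mul_cancel_left] at this
      exact this
    exact hbM (hC w hwM hw2 (Subgroup.mem_centralizer_iff.mpr fun y hy => by
      rw [Set.mem_singleton_iff.mp hy]; exact hbw.symm))
  have hmid : ∀ a b : S, a ∈ M → orderOf a = 2 → orderOf b = 2 → b ∉ M →
      ∃ g : S, g * g = 1 ∧ g * a * g = b := by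
    intro a b haM ha hb hbM
    obtain ⟨m, hm⟩ := hodd a b haM ha hb hbM
    have hab : a * (a * b) * a = (a * b)⁻¹ := by
      rw [mul_inv_rev, inv' ha, inv' hb, ← mul_assoc a a b, inv ha, one_mul]
    have hpow : a * (a * b) ^ (m + 1) * a = ((a * b) ^ (m + 1))⁻¹ := by
      have := congrArg (fun t => t ^ (m + 1)) hab
      simp only [inv_pow] at this
      rw [← this]
      conv_rhs => rw [show a * (a * b) * a = a * (a * b) * a⁻¹ by rw [inv' ha], conj_pow, inv' ha]
    refine ⟨a * (a * b) ^ (m + 1), ?_, ?_⟩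
    · rw [← mul_assoc, hpow, inv_mul_cancel]
    · calc a * (a * b) ^ (m + 1) * a * (a * (a * b) ^ (m + 1))
          = a * (a * b) ^ (m + 1) * (a * a) * (a * b) ^ (m + 1) := by group
        _ = a * ((a * b) ^ (m + 1) * (a * b) ^ (m + 1)) := by rw [inv ha]; group
        _ = a * (a * b) := by
            rw [← pow_add, show m + 1 + (m + 1) = orderOf (a * b) + 1 by omega, pow_succ,
              pow_orderOf_eq_one, one_mul]
        _ = b := by rw [← mul_assoc, inv ha, one_mul]
  obtain ⟨⟨a0, ha0M⟩, ha0'⟩ := exists_prime_orderOf_dvd_card' (G := ↥M) 2 hM.two_dvd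
  have ha0 : orderOf a0 = 2 := by rwa [← Subgroup.orderOf_coe] at ha0'
  obtain ⟨b0, hb0, hb0M⟩ : ∃ b0 : S, orderOf b0 = 2 ∧ b0 ∉ M := by
    by_contra h
    push Not at h
    have hle : ∀ g : S, g * a0 * g⁻¹ ∈ M := fun g => h _ (by
      rw [show g * a0 * g⁻¹ = MulAut.conj g a0 from rfl, MulEquiv.orderOf_eq, ha0])
    have hmem : a0 ∈ M.normalCore := fun g => hle g
    refine (Nat.not_even_iff_odd.mpr hcore) ?_
    rw [even_iff_two_dvd, ← ha0]
    exact (Subgroup.orderOf_coe (⟨a0, hmem⟩ : ↥M.normalCore)).symm ▸ orderOf_dvd_natCard _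
  have conj_of : ∀ a b : S, a ∈ M → orderOf a = 2 → orderOf b = 2 → b ∉ M → IsConj a b := by
    intro a b haM ha hb hbM
    obtain ⟨g, hg2, hg⟩ := hmid a b haM ha hb hbM
    rw [isConj_iff]
    exact ⟨g, by rw [inv_eq_of_mul_eq_one_right hg2]; exact hg⟩
  have hall : ∀ x : S, orderOf x = 2 → IsConj a0 x := by
    intro x hx
    by_cases hxM : x ∈ M
    · exact (conj_of a0 b0 ha0M ha0 hb0 hb0M).trans (conj_of x b0 hxM hx hb0 hb0M).symm
    · exact conj_of a0 x ha0M ha0 hx hxM
  have part1 : ∀ x y : S, orderOf x = 2 → orderOf y = 2 → IsConj x y :=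
    fun x y hx hy => (hall x hx).symm.trans (hall y hy)
  refine ⟨part1, fun X I hI hI2 hNX => ?_⟩
  set P := ((X : Subgroup ↥M).map M.subtype) with hP
  have hPM : P ≤ M := Subgroup.map_subtype_le _
  have hPp : IsPGroup 2 ↥P := X.isPGroup'.map _
  have hz : orderOf (I : S) = 2 := by rw [Subgroup.orderOf_coe]; exact hI2
  have hPc : P ≤ Subgroup.centralizer ({(I : S)} : Set S) := by
    obtain ⟨I', hI', hII'⟩ := hI
    rintro _ ⟨q, hq, rfl⟩
    refine Subgroup.mem_centralizer_iff.mpr fun y hy => ?_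
    rw [Set.mem_singleton_iff.mp hy]
    have h0 : ((⟨q, hq⟩ : ↥(X : Subgroup ↥M)) * I' : ↥(X : Subgroup ↥M)) = I' * ⟨q, hq⟩ :=
      Subgroup.mem_center_iff.mp hI' _
    have h1 := congrArg (fun t : ↥(X : Subgroup ↥M) => ((t : ↥M) : S)) h0
    rw [← hII']
    exact h1.symm
  have fix : ∀ i g : S, i ∈ M → orderOf i = 2 → g⁻¹ * i * g ∈ M → g ∈ M := by
    intro i g hiM hi hgi
    have hconjM : ∀ j : S, j ∈ M → orderOf j = 2 →
        Subgroup.centralizer ({g * j * g⁻¹} : Set S) ≤ MulAut.conj g • M := by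
      intro j hj hj2 c hc
      rw [CfsgLib.Core.mem_conj_smul]
      refine hC j hj hj2 (Subgroup.mem_centralizer_iff.mpr fun y hy => ?_)
      rw [Set.mem_singleton_iff.mp hy]
      have h1 := Subgroup.mem_centralizer_iff.mp hc _ rfl
      calc j * (g⁻¹ * c * g) = g⁻¹ * (g * j * g⁻¹ * c) * g := by group
        _ = g⁻¹ * (c * (g * j * g⁻¹)) * g := by rw [h1]
        _ = g⁻¹ * c * g * j := by group
    have hi' : orderOf (g⁻¹ * i * g) = 2 := by
      rw [show g⁻¹ * i * g = MulAut.conj g⁻¹ i by simp [MulAut.conj_apply]]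
      rw [show MulAut.conj g⁻¹ i = (MulAut.conj g⁻¹).toMonoidHom i from rfl,
        orderOf_injective _ (MulAut.conj g⁻¹).injective, hi]
    have hCi : Subgroup.centralizer ({i} : Set S) ≤ MulAut.conj g • M := by
      have := hconjM _ hgi hi'
      rwa [show g * (g⁻¹ * i * g) * g⁻¹ = i by group] at this
    obtain ⟨Q, hQ⟩ := (IsPGroup.of_card (p := 2) (n := 1)
      (by rw [Nat.card_zpowers, Subgroup.orderOf_mk, hi, pow_one]) :
        IsPGroup 2 ↥(Subgroup.zpowers (⟨i, hiM⟩ : ↥M))).exists_le_sylow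
    obtain ⟨m, hm⟩ := MulAction.exists_smul_eq ↥M X Q
    set P1 := MulAut.conj (m : S) • P with hP1
    have hiP1 : i ∈ P1 := by
      have h2 : (⟨i, hiM⟩ : ↥M) ∈ MulAut.conj m • (X : Subgroup ↥M) := by
        have h3 : (Q : Subgroup ↥M) = MulAut.conj m • (X : Subgroup ↥M) := by rw [← hm]; rfl
        exact h3 ▸ hQ (Subgroup.mem_zpowers _)
      have h4 := Subgroup.mem_map_of_mem M.subtype h2
      rw [CfsgLib.Core.map_conj_smul] at h4
      exact h4
    have hP1M : P1 ≤ M := by
      intro y hy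
      rw [hP1, CfsgLib.Core.mem_conj_smul] at hy
      have := M.mul_mem (M.mul_mem m.2 (hPM hy)) (M.inv_mem m.2)
      simpa [mul_assoc] using this
    set z1 := (m : S) * I * (m : S)⁻¹ with hz1
    have hz1o : orderOf z1 = 2 := by
      rw [hz1, show (m : S) * I * (m : S)⁻¹ = (MulAut.conj (m : S)).toMonoidHom I from rfl,
        orderOf_injective _ (MulAut.conj (m : S)).injective, hz]
    have hP1c : P1 ≤ Subgroup.centralizer ({z1} : Set S) := by
      intro y hy
      rw [hP1, CfsgLib.Core.mem_conj_smul] at hy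
      have h1 := Subgroup.mem_centralizer_iff.mp (hPc hy) (I : S) rfl
      refine Subgroup.mem_centralizer_iff.mpr fun t ht => ?_
      rw [Set.mem_singleton_iff.mp ht, hz1]
      calc (m : S) * I * (m : S)⁻¹ * y = (m : S) * ((I : S) * ((m : S)⁻¹ * y * m)) * (m : S)⁻¹ := by
            group
        _ = (m : S) * ((m : S)⁻¹ * y * m * I) * (m : S)⁻¹ := by rw [h1]
        _ = y * ((m : S) * I * (m : S)⁻¹) := by group
    have hz1g : z1 ∈ MulAut.conj g • M := by
      refine hCi (Subgroup.mem_centralizer_iff.mpr fun t ht => ?_)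
      rw [Set.mem_singleton_iff.mp ht]
      exact (Subgroup.mem_centralizer_iff.mp (hP1c hiP1) z1 rfl).symm
    have hP1g : P1 ≤ MulAut.conj g • M := by
      rw [CfsgLib.Core.mem_conj_smul] at hz1g
      have hz1' : orderOf (g⁻¹ * z1 * g) = 2 := by
        rw [show g⁻¹ * z1 * g = (MulAut.conj g⁻¹).toMonoidHom z1 by simp [MulAut.conj_apply],
          orderOf_injective _ (MulAut.conj g⁻¹).injective, hz1o]
      have := hconjM _ hz1g hz1'
      rw [show g * (g⁻¹ * z1 * g) * g⁻¹ = z1 by group] at this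
      exact hP1c.trans this
    set P2 := MulAut.conj (g⁻¹ * m) • P with hP2
    have hP2M : P2 ≤ M := by
      have : MulAut.conj g⁻¹ • P1 ≤ M := by
        intro y hy
        rw [CfsgLib.Core.mem_conj_smul] at hy
        have := CfsgLib.Core.mem_conj_smul.mp (hP1g hy)
        simpa [mul_assoc] using this
      rwa [hP1, CfsgLib.Core.conj_smul_conj_smul] at this
    have hP2p : IsPGroup 2 ↥P2 := by rw [hP2, CfsgLib.Core.conj_smul_eq_map]; exact hPp.map _
    obtain ⟨R, hR⟩ := (CfsgLib.Local.PRed.isPGroup_subgroupOf (L := M) hP2p).exists_le_sylow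
    obtain ⟨m', hm'⟩ := MulAction.exists_smul_eq ↥M X R
    have hPR : P2 = MulAut.conj (m' : S) • P := by
      refine CfsgLib.Core.eq_of_le_of_card_le ?_ (by
        rw [hP2, CfsgLib.Core.card_conj_smul, CfsgLib.Core.card_conj_smul])
      intro y hy
      have h3 : (R : Subgroup ↥M) = MulAut.conj m' • (X : Subgroup ↥M) := by rw [← hm']; rfl
      have h2 : (⟨y, hP2M hy⟩ : ↥M) ∈ MulAut.conj m' • (X : Subgroup ↥M) :=
        h3 ▸ hR (Subgroup.mem_subgroupOf.mpr hy)
      have h4 := Subgroup.mem_map_of_mem M.subtype h2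
      rw [CfsgLib.Core.map_conj_smul] at h4
      exact h4
    have hk : (m' : S)⁻¹ * (g⁻¹ * m) ∈ M := by
      refine hNX (CfsgLib.Core.conj_smul_eq_self_iff.mp ?_)
      rw [← CfsgLib.Core.conj_smul_conj_smul, ← hP2, hPR, CfsgLib.Core.conj_smul_conj_smul,
        inv_mul_cancel, CfsgLib.Core.conj_one_smul]
    have := M.mul_mem (M.mul_mem m'.2 hk) (M.inv_mem m.2)
    rw [mul_inv_cancel_left, mul_inv_cancel_right] at this
    exact M.inv_mem_iff.mp this
  have part2 : ∀ x y : ↥M, orderOf x = 2 → orderOf y = 2 → IsConj x y := by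
    intro x y hx hy
    rw [← Subgroup.orderOf_coe] at hx hy
    obtain ⟨g, hg⟩ := isConj_iff.mp (part1 _ _ hx hy)
    have hgM : g ∈ M := fix (y : S) g y.2 hy (by rw [← hg]; simp [mul_assoc])
    exact isConj_iff.mpr ⟨⟨g, hgM⟩, Subtype.ext hg⟩
  refine ⟨part2, ?_⟩
  set f := b0 with hf
  have hff : f * f = 1 := inv hb0
  let D : Subgroup S := M ⊓ MulAut.conj f • M
  have memD : ∀ d : S, d ∈ D ↔ d ∈ M ∧ f * d * f ∈ M := fun d => by
    show d ∈ M ⊓ MulAut.conj f • M ↔ _
    rw [Subgroup.mem_inf, CfsgLib.Core.mem_conj_smul, inv' hb0]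
  have hDodd : Odd (Nat.card ↥D) := by
    rw [← Nat.not_even_iff_odd]
    intro hev
    obtain ⟨⟨w, hw⟩, hw2⟩ := exists_prime_orderOf_dvd_card' (G := ↥D) 2 hev.two_dvd
    rw [← Subgroup.orderOf_coe] at hw2
    exact hb0M (fix w f ((memD w).mp hw).1 hw2 (by rw [inv' hb0]; exact ((memD w).mp hw).2))
  set z : S := (I : S) with hzdef
  set e := f * z * f with he
  have he2 : orderOf e = 2 := by
    rw [he, show f * z * f = (MulAut.conj f).toMonoidHom z by simp [MulAut.conj_apply, inv' hb0],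
      orderOf_injective _ (MulAut.conj f).injective, hz]
  have heM : e ∉ M := by
    intro h
    exact hb0M (fix z f I.2 hz (by rw [inv' hb0]; exact h))
  have huniq : ∀ a g h : S, a ∈ M → orderOf a = 2 → g * g = 1 → h * h = 1 →
      g * a * g = e → h * a * h = e → g = h := by
    intro a g h haM ha hg hh hga hha
    have hout : ∀ k : S, k * k = 1 → k * a * k = e → k ∉ M ∧ orderOf k = 2 := by
      intro k hk hka
      have hkM : k ∉ M := fun hkM => heM (hka ▸ M.mul_mem (M.mul_mem hkM haM) hkM)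
      exact ⟨hkM, orderOf_eq_prime (by rw [sq]; exact hk) fun h1 => hkM (h1 ▸ M.one_mem)⟩
    obtain ⟨hgM, hg2⟩ := hout g hg hga
    obtain ⟨hhM, hh2⟩ := hout h hh hha
    have hsq : (a * g) ^ 2 = (a * h) ^ 2 := by
      rw [sq, sq, show a * g * (a * g) = a * (g * a * g) by group, hga,
        show a * h * (a * h) = a * (h * a * h) by group, hha]
    have hogg := hodd a g haM ha hg2 hgM
    have hogh := hodd a h haM ha hh2 hhM
    obtain ⟨n, hn⟩ := hogg.mul hogh
    have h1 : ∀ y : S, y ^ (2 * n + 1) = 1 → y = (y ^ 2) ^ (n + 1) := by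
      intro y hy
      rw [← pow_mul, show 2 * (n + 1) = 2 * n + 1 + 1 by ring, pow_succ, hy, one_mul]
    have hy1 : (a * g) ^ (2 * n + 1) = 1 := by
      rw [← hn, pow_mul, pow_orderOf_eq_one, one_pow]
    have hy2 : (a * h) ^ (2 * n + 1) = 1 := by
      rw [← hn, mul_comm, pow_mul, pow_orderOf_eq_one, one_pow]
    have := (h1 _ hy1).trans ((congrArg (· ^ (n + 1)) hsq).trans (h1 _ hy2).symm)
    exact mul_left_cancel this
  let Iα := {a : S // a ∈ M ∧ orderOf a = 2}
  let Inv := {d : S // d ∈ D ∧ f * d * f = d⁻¹}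
  have hφmem : ∀ d : Inv, (d : S) * z * (d : S)⁻¹ ∈ M ∧ orderOf ((d : S) * z * (d : S)⁻¹) = 2 :=
    fun d => ⟨M.mul_mem (M.mul_mem ((memD _).mp d.2.1).1 I.2) (M.inv_mem ((memD _).mp d.2.1).1), by
      rw [show (d : S) * z * (d : S)⁻¹ = (MulAut.conj (d : S)).toMonoidHom z from rfl,
        orderOf_injective _ (MulAut.conj (d : S)).injective, hz]⟩
  let φ : Inv → Iα := fun d => ⟨(d : S) * z * (d : S)⁻¹, hφmem d⟩
  have hfd : ∀ d : Inv, ((d : S) * f) * ((d : S) * f) = 1 := fun d => by
    rw [show (d : S) * f * ((d : S) * f) = (d : S) * (f * d * f) by group, d.2.2,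
      mul_inv_cancel]
  have hφ : Function.Injective φ := by
    intro d d' hdd
    have hval : (d : S) * z * (d : S)⁻¹ = (d' : S) * z * (d' : S)⁻¹ :=
      congrArg Subtype.val hdd
    have key : ∀ d : Inv, (d : S) * f * ((d : S) * z * (d : S)⁻¹) * ((d : S) * f) = e := by
      intro d
      have h2 : f * (d : S) * f = (d : S)⁻¹ := d.2.2
      rw [he, show (d : S) * f * ((d : S) * z * (d : S)⁻¹) * ((d : S) * f) =
        (d : S) * (f * d * f) * (f⁻¹ * z) * f by group, h2, inv' hb0, mul_inv_cancel, one_mul]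
    have h2 := key d'
    rw [← hval] at h2
    exact Subtype.ext (mul_right_cancel (huniq _ _ _ (hφmem d).1 (hφmem d).2 (hfd d) (hfd d')
      (key d) h2))
  have hψ : ∀ a : Iα, ∃ d : Inv, (d : S) * f * (a : S) * ((d : S) * f) = e := by
    intro a
    obtain ⟨g, hg, hga⟩ := hmid (a : S) e a.2.1 a.2.2 he2 heM
    have hgi : g⁻¹ = g := inv_eq_of_mul_eq_one_right hg
    have hmem : ∀ b : S, b = g * f ∨ b = f * g → b ∈ M := by
      have h1 : g * f ∈ M := by
        refine fix (a : S) (g * f) a.2.1 a.2.2 ?_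
        rw [mul_inv_rev, hgi, inv' hb0, show f * g * (a : S) * (g * f) = f * (g * a * g) * f by
          group, hga, he, show f * (f * z * f) * f = (f * f) * z * (f * f) by group, hff]
        simp [hzdef]
      rintro b (rfl | rfl)
      · exact h1
      · simpa [mul_inv_rev, hgi, inv' hb0] using M.inv_mem h1
    refine ⟨⟨g * f, (memD _).mpr ⟨hmem _ (Or.inl rfl), ?_⟩, ?_⟩, ?_⟩
    · rw [show f * (g * f) * f = f * g * (f * f) by group, hff, mul_one]
      exact hmem _ (Or.inr rfl)
    · rw [mul_inv_rev, hgi, inv' hb0, show f * (g * f) * f = f * g * (f * f) by group, hff,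
        mul_one]
    · show g * f * f * (a : S) * (g * f * f) = e
      rw [mul_assoc g f f, hff, mul_one]
      exact hga
  choose ψ hψ' using hψ
  have hψi : Function.Injective ψ := by
    intro a a' h
    have h1 := hψ' a
    rw [h, ← hψ' a'] at h1
    exact Subtype.ext (mul_left_cancel (mul_right_cancel h1))
  haveI : Finite Iα := Subtype.finite
  haveI : Finite Inv := Subtype.finite
  have hsurj : Function.Surjective φ :=
    Function.Surjective.of_comp (Finite.injective_iff_surjective.mp (hφ.comp hψi))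
  refine ⟨D.subgroupOf M, ?_, fun m => ?_⟩
  · rwa [Nat.card_congr (Subgroup.subgroupOfEquivOfLe (inf_le_left : D ≤ M)).toEquiv]
  · obtain ⟨d, hd⟩ := hsurj ⟨(m : S) * z * (m : S)⁻¹, M.mul_mem (M.mul_mem m.2 I.2) (M.inv_mem m.2),
      by rw [show (m : S) * z * (m : S)⁻¹ = (MulAut.conj (m : S)).toMonoidHom z from rfl,
        orderOf_injective _ (MulAut.conj (m : S)).injective, hz]⟩
    have hd' : (d : S) * z * (d : S)⁻¹ = (m : S) * z * (m : S)⁻¹ := congrArg Subtype.val hd
    set d0 : ↥M := ⟨(d : S), ((memD _).mp d.2.1).1⟩ with hd0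
    refine ⟨d0, Subgroup.mem_subgroupOf.mpr d.2.1, d0⁻¹ * m,
      Subgroup.mem_centralizer_iff.mpr fun y hy => ?_, by group⟩
    rw [Set.mem_singleton_iff.mp hy]
    refine Subtype.ext ?_
    show z * ((d : S)⁻¹ * m) = (d : S)⁻¹ * m * z
    calc z * ((d : S)⁻¹ * m) = (d : S)⁻¹ * ((d : S) * z * (d : S)⁻¹) * m := by group
      _ = (d : S)⁻¹ * ((m : S) * z * (m : S)⁻¹) * m := by rw [hd']
      _ = (d : S)⁻¹ * m * z := by group

end Cfsg.Agent.S1905
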