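import Cfsg.Statements.S1907
import Cfsg.Agent.Lib.CoreBasic
import Cfsg.Agent.Lib.FgsSylowProduct

set_option autoImplicit false
open Cfsg

namespace Cfsg.Agent.S1907

/-- Let P be a Sylow p-subgroup of a finite group G, H = P ∩ O_{p',p}(G), N = N_G(H) and D = O_{p'}(G). (a) If y is an element of p-power order of N and d ∈ D with d⁻¹ y d ∈ N, then d = d₁ d₂ with d₁ ∈ C_D(y) and d₂ ∈ C_D(H). (b) Two elements of P that are conjugate in G are conjugate in N. -/
theorem result {G : Type*} [Group G] [Finite G] {p : ℕ} [Fact p.Prime] (P : Sylow p G) :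
    (∀ y ∈ Subgroup.normalizer (((P : Subgroup G) ⊓ Cfsg.pPrimePCore p G : Subgroup G) : Set G), (∃ k : ℕ, orderOf y = p ^ k) →
      ∀ d ∈ Cfsg.pPrimeCore p G, d⁻¹ * y * d ∈ Subgroup.normalizer (((P : Subgroup G) ⊓ Cfsg.pPrimePCore p G : Subgroup G) : Set G) →
        ∃ d₁ ∈ Cfsg.pPrimeCore p G ⊓ Subgroup.centralizer ({y} : Set G),
          ∃ d₂ ∈ Cfsg.pPrimeCore p G ⊓ Subgroup.centralizer (((P : Subgroup G) ⊓ Cfsg.pPrimePCore p G : Subgroup G) : Set G), d = d₁ * d₂) ∧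
    ∀ x y : G, x ∈ (P : Subgroup G) → y ∈ (P : Subgroup G) → IsConj x y →
      ∃ n ∈ Subgroup.normalizer (((P : Subgroup G) ⊓ Cfsg.pPrimePCore p G : Subgroup G) : Set G), n * x * n⁻¹ = y := by
  set D := Cfsg.pPrimeCore p G with hD
  haveI hDn : D.Normal := CfsgLib.Core.normal_pPrimeCore p
  have hDc : (Nat.card D).Coprime p := CfsgLib.Core.coprime_card_pPrimeCore p
  haveI : (Cfsg.pCore p (G ⧸ D)).Normal := CfsgLib.Core.normal_pCore p
  set L := Cfsg.pPrimePCore p G with hL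
  haveI hLn : L.Normal := by
    rw [hL]; exact Subgroup.Normal.comap inferInstance _
  set H := (P : Subgroup G) ⊓ L with hH
  have hHp : IsPGroup p H := P.isPGroup'.to_le inf_le_left
  set N := Subgroup.normalizer (H : Set G) with hN
  -- commutators of `D` and `N` centralise `H`
  have hDN : ∀ d ∈ D, d ∈ N → d ∈ Subgroup.centralizer (H : Set G) := by
    intro d hd hdN
    rw [Subgroup.mem_centralizer_iff]
    intro h hh
    have h1 : d * h * d⁻¹ * h⁻¹ ∈ H := mul_mem ((Subgroup.mem_normalizer_iff.mp hdN h).mp hh) (inv_mem hh)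
    have h2 : d * h * d⁻¹ * h⁻¹ ∈ D := by
      have := mul_mem hd (hDn.conj_mem _ (inv_mem hd) h)
      simpa [mul_assoc] using this
    obtain ⟨k, hk⟩ := hHp ⟨_, h1⟩
    have h3 : orderOf (d * h * d⁻¹ * h⁻¹) = 1 := Nat.eq_one_of_dvd_coprimes (hDc.pow_right k)
      (Subgroup.orderOf_dvd_natCard D h2) (orderOf_dvd_of_pow_eq_one (congrArg Subtype.val hk))
    have h4 := orderOf_eq_one_iff.mp h3
    rw [mul_inv_eq_one, mul_inv_eq_iff_eq_mul] at h4
    exact h4.symm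
  have hCN : Subgroup.centralizer (H : Set G) ≤ N := Subgroup.centralizer_le_normalizer _
  have parta : ∀ y ∈ N, (∃ k : ℕ, orderOf y = p ^ k) → ∀ d ∈ D, d⁻¹ * y * d ∈ N →
      ∃ d₁ ∈ D ⊓ Subgroup.centralizer ({y} : Set G),
        ∃ d₂ ∈ D ⊓ Subgroup.centralizer (H : Set G), d = d₁ * d₂ := by
    intro y hy hyp d hd hdy
    obtain ⟨k, hk⟩ := hyp
    set E := D ⊓ Subgroup.centralizer (H : Set G) with hE
    have heD : d⁻¹ * y * d * y⁻¹ ∈ D := by
      have := mul_mem (inv_mem hd) (hDn.conj_mem _ hd y)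
      simpa [mul_assoc] using this
    have heE : d⁻¹ * y * d * y⁻¹ ∈ E := ⟨heD, hDN _ heD (mul_mem hdy (inv_mem hy))⟩
    have hEinv : ∀ e ∈ E, ∀ z ∈ N, z * e * z⁻¹ ∈ E := fun e he z hz =>
      ⟨hDn.conj_mem e he.1 z, hDN _ (hDn.conj_mem e he.1 z) (mul_mem (mul_mem hz (hCN he.2)) (inv_mem hz))⟩
    have hyE : Subgroup.zpowers y ≤ Subgroup.normalizer (E : Set G) := by
      rw [Subgroup.zpowers_le, Subgroup.mem_normalizer_iff]
      refine fun e => ⟨fun he => hEinv e he y hy, fun he => ?_⟩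
      have := hEinv _ he y⁻¹ (inv_mem hy)
      simpa [mul_assoc] using this
    set Y := E ⊔ Subgroup.zpowers y with hY
    have hyY : y ∈ Y := Subgroup.mem_sup_right (Subgroup.mem_zpowers y)
    have hy'Y : d⁻¹ * y * d ∈ Y := by
      have := mul_mem (Subgroup.mem_sup_left heE : _ ∈ Y) hyY
      simpa [mul_assoc] using this
    have hcard : Nat.card E * p ^ k = Nat.card Y := by
      have h1 : Subgroup.zpowers y ⊓ E = ⊥ := by
        rw [eq_bot_iff]
        rintro z ⟨hz, hzE⟩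
        have h1 : orderOf z ∣ p ^ k := hk ▸ orderOf_dvd_of_mem_zpowers hz
        exact Subgroup.mem_bot.mpr (orderOf_eq_one_iff.mp (Nat.eq_one_of_dvd_coprimes (hDc.pow_right k)
          (Subgroup.orderOf_dvd_natCard D hzE.1) h1))
      haveI : (E.subgroupOf Y).Normal := (Subgroup.normal_subgroupOf_iff_le_normalizer le_sup_left).mpr
        (sup_le Subgroup.le_normalizer hyE)
      have h2 := Subgroup.relIndex_mul_relIndex ⊥ E Y bot_le le_sup_left
      rw [Subgroup.relIndex_bot_left, Subgroup.relIndex_bot_left] at h2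
      have e : (Subgroup.zpowers y).subgroupOf Y ⊔ E.subgroupOf Y = ⊤ := by
        rw [← Subgroup.subgroupOf_sup le_sup_right le_sup_left]
        exact Subgroup.subgroupOf_eq_top.mpr (sup_le le_sup_right le_sup_left)
      have h3 : E.relIndex Y = p ^ k := by
        show (E.subgroupOf Y).index = p ^ k
        rw [← Subgroup.relIndex_top_right, ← e, Subgroup.relIndex_sup_right,
          Subgroup.relIndex_subgroupOf le_sup_right, ← Subgroup.inf_relIndex_right, inf_comm, h1,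
          Subgroup.relIndex_bot_left, Nat.card_zpowers, hk]
      rw [← h2, h3]
    have hsyl : ∀ z : G, z ∈ Y → orderOf z = p ^ k →
        ∃ Q : Sylow p Y, (Q : Subgroup Y) = (Subgroup.zpowers z).subgroupOf Y := by
      intro z hz hzo
      have hc : Nat.card ((Subgroup.zpowers z).subgroupOf Y) = p ^ k := by
        rw [Nat.card_congr (Subgroup.subgroupOfEquivOfLe (Subgroup.zpowers_le.mpr hz)).toEquiv, Nat.card_zpowers, hzo]
      refine ⟨(IsPGroup.of_card hc).toSylow ?_, IsPGroup.toSylow_coe _ _⟩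
      have h3 := ((Subgroup.zpowers z).subgroupOf Y).card_mul_index
      rw [hc, ← hcard, mul_comm (Nat.card E)] at h3
      rw [mul_left_cancel₀ (pow_ne_zero k (Fact.out : p.Prime).ne_zero) h3]
      exact (Fact.out : p.Prime).coprime_iff_not_dvd.mp
        ((hDc.coprime_dvd_left (Subgroup.card_dvd_of_le inf_le_left)).symm)
    obtain ⟨Q₁, hQ₁⟩ := hsyl y hyY hk
    obtain ⟨Q₂, hQ₂⟩ := hsyl _ hy'Y (by
      rw [show d⁻¹ * y * d = MulAut.conj d⁻¹ y by simp, MulEquiv.orderOf_eq, hk])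
    obtain ⟨⟨c, hc⟩, hcQ⟩ := MulAction.exists_smul_eq Y Q₁ Q₂
    have hc' := hc
    rw [hY, sup_comm, ← SetLike.mem_coe,
      Subgroup.coe_mul_of_left_le_normalizer_right _ _ hyE] at hc'
    obtain ⟨a, ha, e, he, rfl⟩ := hc'
    have h4 : (⟨d⁻¹ * y * d, hy'Y⟩ : Y) ∈ (Q₂ : Subgroup Y) := by
      rw [hQ₂]; exact Subgroup.mem_zpowers (d⁻¹ * y * d)
    rw [← hcQ, Sylow.smul_def] at h4
    obtain ⟨⟨w, hwY⟩, hw, hwe⟩ := h4
    rw [SetLike.mem_coe, hQ₁, Subgroup.mem_subgroupOf] at hw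
    have hw' : a * e * w * (a * e)⁻¹ = d⁻¹ * y * d := congrArg Subtype.val hwe
    -- `w = y`
    obtain ⟨i, hi⟩ := Subgroup.mem_zpowers_iff.mp ha
    change w ∈ Subgroup.zpowers y at hw
    obtain ⟨j, hj⟩ := Subgroup.mem_zpowers_iff.mp hw
    have hwy : w = y := by
      have hπ := congrArg (QuotientGroup.mk' D) hw'
      have he1 : QuotientGroup.mk' D e = 1 := (QuotientGroup.eq_one_iff _).mpr he.1
      have hd1 : QuotientGroup.mk' D d = 1 := (QuotientGroup.eq_one_iff _).mpr hd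
      rw [← hi, ← hj] at hπ
      simp only [map_mul, map_inv, mul_inv_rev, he1, hd1, inv_one, one_mul, mul_one, map_zpow] at hπ
      rw [← zpow_neg, ← zpow_add, ← zpow_add, add_neg_cancel_comm] at hπ
      have hdy' : y ^ (j - 1) ∈ D := by
        refine (QuotientGroup.eq_one_iff _).mp ?_
        show QuotientGroup.mk' D (y ^ (j - 1)) = 1
        rw [map_zpow, zpow_sub_one, hπ, mul_inv_cancel]
      have h5 : orderOf (y ^ (j - 1)) = 1 := Nat.eq_one_of_dvd_coprimes (hDc.pow_right k)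
        (Subgroup.orderOf_dvd_natCard D hdy')
        (orderOf_dvd_of_pow_eq_one (by
          rw [← zpow_natCast, ← zpow_mul, mul_comm, zpow_mul, zpow_natCast, ← hk, pow_orderOf_eq_one,
            one_zpow]))
      have h6 := orderOf_eq_one_iff.mp h5
      rw [zpow_sub_one, mul_inv_eq_one] at h6
      rw [← hj, h6]
    subst hwy
    -- move `a` through `e`
    have hae : a * e * a⁻¹ ∈ E := by
      refine (Subgroup.mem_normalizer_iff.mp (hyE ha) e).mp he
    have hac : a * w = w * a := by rw [← hi, ← zpow_one w, ← zpow_mul, ← zpow_add, ← zpow_add]; congr 1; ring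
    have hkey : (a * e * a⁻¹) * w * (a * e * a⁻¹)⁻¹ = d⁻¹ * w * d := by
      rw [← hw']
      calc a * e * a⁻¹ * w * (a * e * a⁻¹)⁻¹ = a * e * a⁻¹ * (w * a) * e⁻¹ * a⁻¹ := by group
        _ = a * e * a⁻¹ * (a * w) * e⁻¹ * a⁻¹ := by rw [hac]
        _ = _ := by group
    refine ⟨d * (a * e * a⁻¹), ⟨mul_mem hd hae.1, ?_⟩, (a * e * a⁻¹)⁻¹, inv_mem hae, by group⟩
    show d * (a * e * a⁻¹) ∈ Subgroup.centralizer ({w} : Set G)
    rw [Subgroup.mem_centralizer_singleton_iff]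
    calc d * (a * e * a⁻¹) * w = d * ((a * e * a⁻¹) * w * (a * e * a⁻¹)⁻¹) * (a * e * a⁻¹) := by group
      _ = d * (d⁻¹ * w * d) * (a * e * a⁻¹) := by rw [hkey]
      _ = _ := by group
  refine ⟨parta, fun x y hx hy hxy => ?_⟩
  obtain ⟨g, hg⟩ := isConj_iff.mp hxy
  have hPN : (P : Subgroup G) ≤ N := fun q hq => by
    rw [hN, Subgroup.mem_normalizer_iff]
    intro h
    refine ⟨fun hh => ⟨(P : Subgroup G).mul_mem ((P : Subgroup G).mul_mem hq hh.1) ((P : Subgroup G).inv_mem hq), hLn.conj_mem h hh.2 q⟩, fun hh => ?_⟩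
    have h1 := (P : Subgroup G).mul_mem ((P : Subgroup G).mul_mem ((P : Subgroup G).inv_mem hq) hh.1) hq
    have h2 := hLn.conj_mem _ hh.2 q⁻¹
    have e1 : q⁻¹ * (q * h * q⁻¹) * q = h := by group
    have e2 : q⁻¹ * (q * h * q⁻¹) * q⁻¹⁻¹ = h := by group
    exact ⟨e1 ▸ h1, e2 ▸ h2⟩
  -- the group is `N D`
  have hfact : g ∈ N ⊔ D := by
    obtain ⟨Q, hQ⟩ : ∃ Q : Sylow p L, (Q : Subgroup L) = H.subgroupOf L := by
      obtain ⟨Q, hQ⟩ := CfsgLib.SylowProd.sylow_inf_normal L P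
      exact ⟨Q, hQ⟩
    have hfr := Sylow.normalizer_sup_eq_top Q
    rw [hQ, Subgroup.map_subgroupOf_eq_of_le (inf_le_right : H ≤ L)] at hfr
    have hLle : L ≤ N ⊔ D := by
      intro l hl
      have hpc := CfsgLib.Core.isPGroup_pCore (G := G ⧸ D) p
      have himg : Cfsg.pCore p (G ⧸ D) ≤ H.map (QuotientGroup.mk' D) := by
        intro z hz
        have h2 := CfsgLib.Core.pCore_le_sylow (P.mapSurjective (QuotientGroup.mk'_surjective D)) hz
        rw [Sylow.coe_mapSurjective] at h2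
        obtain ⟨q, hq, rfl⟩ := h2
        exact ⟨q, ⟨hq, hz⟩, rfl⟩
      obtain ⟨h, hh, he⟩ := himg (show QuotientGroup.mk' D l ∈ Cfsg.pCore p (G ⧸ D) from hl)
      have : h⁻¹ * l ∈ D := QuotientGroup.eq.mp he
      simpa using mul_mem (Subgroup.mem_sup_left (T := D) (Subgroup.le_normalizer hh : h ∈ N))
        (Subgroup.mem_sup_right (S := N) this)
    exact (sup_le le_sup_left hLle : N ⊔ L ≤ N ⊔ D) (hfr.ge (Subgroup.mem_top g))
  rw [← SetLike.mem_coe, Subgroup.mul_normal] at hfact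
  obtain ⟨n, hn, d, hd, rfl⟩ := hfact
  have hdx : d * x * d⁻¹ ∈ N := by
    have e : n⁻¹ * y * n = d * x * d⁻¹ := by rw [← hg]; group
    rw [← e]
    exact mul_mem (mul_mem (inv_mem hn) (hPN hy)) hn
  obtain ⟨d₁, hd₁, d₂, hd₂, hde⟩ := parta x (hPN hx)
    (by obtain ⟨k, hk⟩ := (IsPGroup.iff_orderOf.mp P.isPGroup') ⟨x, hx⟩; exact ⟨k, by rwa [Subgroup.orderOf_mk] at hk⟩)
    d⁻¹ (inv_mem hd) (by simpa using hdx)
  refine ⟨n * d₂⁻¹, mul_mem hn (inv_mem (hCN hd₂.2)), ?_⟩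
  have hd' : d = d₂⁻¹ * d₁⁻¹ := by
    have := congrArg (·⁻¹) hde
    simpa using this
  have hc1 : d₁⁻¹ * x * d₁ = x := by
    have h1 := Subgroup.mem_centralizer_singleton_iff.mp hd₁.2
    rw [mul_assoc, ← h1, inv_mul_cancel_left]
  rw [← hg, hd']
  calc n * d₂⁻¹ * x * (n * d₂⁻¹)⁻¹ = n * d₂⁻¹ * (d₁⁻¹ * x * d₁) * (n * d₂⁻¹)⁻¹ := by rw [hc1]
    _ = _ := by group

end Cfsg.Agent.S1907
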