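import Cfsg.Statements.S1924
import Cfsg.Agent.Lib.LocalTransferSemiregular
import Cfsg.Agent.Lib.FusionHyperfocal
import Mathlib.GroupTheory.SpecificGroups.Dihedral
import Mathlib.GroupTheory.Index

set_option autoImplicit false
set_option maxHeartbeats 1000000
open Cfsg

namespace Cfsg.Agent.S1924

/-- A consequence of Thompson's transfer lemma. Let G be a finite group, L a subgroup with O²(L) = L, T a Sylow 2-subgroup of L and S a Sylow 2-subgroup of G containing T. Suppose D ≤ S is a dihedral subgroup of order at least 4 (the four-group counts) with D ∩ T = 1 and S = TD as a set of products (so |S| = |T|·|D|), and C ≤ D is cyclic of index 2 in D. If no involution of D outside C is G-conjugate to an involution of the subgroup generated by T and C, and the involution of C is not G-conjugate to any involution of T, then G has a normal subgroup K, containing every Sylow 2-subgroup of L as a Sylow 2-subgroup, with G = KD. -/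
theorem result {G : Type*} [Group G] [Finite G] (L T S D C : Subgroup G) (hL : Cfsg.pResidual 2 ↥L = ⊤)
    (hTL : T ≤ L) (hT2 : IsPGroup 2 T) (hTsyl : ¬ 2 ∣ T.relIndex L)
    (hS2 : IsPGroup 2 S) (hSsyl : ¬ 2 ∣ S.index) (hTS : T ≤ S)
    (hDS : D ≤ S) (hDih : ∃ n : ℕ, 2 ≤ n ∧ Nonempty (↥D ≃* DihedralGroup n)) (hDT : D ⊓ T = ⊥) (hTD : T ⊔ D = S) (hTDc : Nat.card T * Nat.card D = Nat.card S)
    (hCD : C ≤ D) (hC : IsCyclic ↥C) (hCi : C.relIndex D = 2)
    (h1 : ∀ x ∈ D, x ∉ C → orderOf x = 2 → ∀ g : G, g * x * g⁻¹ ∈ T ⊔ C → False)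
    (h2 : ∀ c ∈ C, orderOf c = 2 → ∀ g : G, g * c * g⁻¹ ∈ T → False) :
    ∃ K : Subgroup G, K.Normal ∧ K ⊔ D = ⊤ ∧
      ∀ T' : Subgroup G, T' ≤ L → IsPGroup 2 T' → ¬ 2 ∣ T'.relIndex L → T' ≤ K ∧ ¬ 2 ∣ T'.relIndex K := by
  classical
  haveI : Fact (Nat.Prime 2) := ⟨Nat.prime_two⟩
  set R := Cfsg.pResidual 2 G with hR
  haveI hRn : R.Normal := CfsgLib.Local.pResidual_normal' 2 G
  have hLR : L ≤ R := by
    have h := CfsgLib.Fusion.pResidual_map_le (p := 2) L.subtype
    rwa [hL, ← MonoidHom.range_eq_map, Subgroup.range_subtype] at h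
  obtain ⟨n, hn, ⟨e⟩⟩ := hDih
  haveI : NeZero n := ⟨by omega⟩
  have hDcard : Nat.card D = 2 * n := by
    rw [Nat.card_congr e.toEquiv, DihedralGroup.nat_card]
  have hCcard : Nat.card C = n := by
    have h := Subgroup.relIndex_mul_relIndex ⊥ C D bot_le hCD
    rw [Subgroup.relIndex_bot_left, Subgroup.relIndex_bot_left, hCi, hDcard] at h
    omega
  obtain ⟨c₁, hc₁⟩ := hC.exists_generator
  set c : G := (c₁ : G) with hc
  have hCz : Subgroup.zpowers c = C := by
    refine le_antisymm (Subgroup.zpowers_le.mpr c₁.2) fun y hy => ?_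
    obtain ⟨i, hi⟩ := Subgroup.mem_zpowers_iff.mp (hc₁ ⟨y, hy⟩)
    exact ⟨i, by simpa [hc] using congrArg Subtype.val hi⟩
  have hco : orderOf c = n := by rw [← Nat.card_zpowers, hCz, hCcard]
  -- elements of `D` outside `C` are involutions
  have hinv : ∀ y ∈ D, y ∉ C → orderOf y = 2 := by
    intro y hy hyC
    refine orderOf_eq_prime ?_ (fun h => hyC (h ▸ one_mem C))
    suffices h : (e ⟨y, hy⟩) ^ 2 = 1 by
      rw [← map_pow, ← e.map_one] at h
      exact congrArg Subtype.val (e.injective h)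
    rcases hy' : e ⟨y, hy⟩ with i | i
    swap
    · rw [pow_two, DihedralGroup.sr_mul_self]
    rcases eq_or_lt_of_le hn with hn2 | hn2
    · subst hn2
      rw [pow_two, DihedralGroup.r_mul_r, CharTwo.add_self_eq_zero i]
      rfl
    · exfalso
      obtain ⟨k, hk⟩ : ∃ k, e ⟨c, hCD c₁.2⟩ = DihedralGroup.r k := by
        rcases hk : e ⟨c, hCD c₁.2⟩ with k | k
        · exact ⟨k, rfl⟩
        · exfalso
          have h2 := congrArg orderOf hk
          rw [MulEquiv.orderOf_eq, DihedralGroup.orderOf_sr, ← Subgroup.orderOf_coe] at h2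
          rw [show ((⟨c, hCD c₁.2⟩ : D) : G) = c from rfl, hco] at h2
          omega
      have hsub : Subgroup.zpowers (e ⟨c, hCD c₁.2⟩) ≤ Subgroup.zpowers (DihedralGroup.r (1 : ZMod n)) := by
        rw [Subgroup.zpowers_le, hk]
        exact ⟨(k.val : ℤ), by simp⟩
      have heq := Subgroup.eq_of_le_of_card_ge hsub (by
        rw [Nat.card_zpowers, Nat.card_zpowers, DihedralGroup.orderOf_r_one, MulEquiv.orderOf_eq,
          ← Subgroup.orderOf_coe]
        exact hco.ge)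
      obtain ⟨j, hj⟩ := Subgroup.mem_zpowers_iff.mp
        (heq.ge (show e ⟨y, hy⟩ ∈ Subgroup.zpowers (DihedralGroup.r (1 : ZMod n)) from
          ⟨(i.val : ℤ), by rw [hy']; simp⟩))
      rw [← map_zpow] at hj
      refine hyC ?_
      rw [← hCz]
      exact ⟨j, by simpa using congrArg Subtype.val (e.injective hj)⟩
  obtain ⟨x, hxD, hxC⟩ : ∃ x ∈ D, x ∉ C := by
    by_contra h
    push Not at h
    have := Subgroup.card_le_of_le (show D ≤ C from h)
    omega
  have hxo : orderOf x = 2 := hinv x hxD hxC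
  set U := T ⊔ C with hU
  have hUS : U ≤ S := sup_le hTS (hCD.trans hDS)
  have hout : ∀ y ∈ D, y ∉ C → ∀ g : G, g⁻¹ * y * g ∉ U := fun y hy hyC g h =>
    h1 y hy hyC (hinv y hy hyC) g⁻¹ (by simpa using h)
  have hxU : x ∉ U := fun h => hout x hxD hxC 1 (by simpa using h)
  have hTC : Nat.card T * Nat.card C ≤ Nat.card U := CfsgLib.Local.Semiregular.card_mul_le_sup
    fun y hy hyT => Subgroup.mem_bot.mp (hDT ▸ ⟨hCD hy, hyT⟩)
  have hUi : U.relIndex S = 2 := by
    have h := Subgroup.relIndex_mul_relIndex ⊥ U S bot_le hUS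
    rw [Subgroup.relIndex_bot_left, Subgroup.relIndex_bot_left, ← hTDc, hDcard] at h
    have hne : U.relIndex S ≠ 1 := fun h1 => hxU ((Subgroup.relIndex_eq_one.mp h1) (hDS hxD))
    have hle : U.relIndex S ≤ 2 := by
      rw [hCcard] at hTC
      have hpos : 0 < Nat.card T * n := Nat.mul_pos Nat.card_pos (by omega)
      by_contra h3
      nlinarith
    have hne0 : U.relIndex S ≠ 0 := Subgroup.index_ne_zero_of_finite
    omega
  have hUc : Nat.card U = Nat.card T * n := by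
    have h := Subgroup.relIndex_mul_relIndex ⊥ U S bot_le hUS
    rw [Subgroup.relIndex_bot_left, Subgroup.relIndex_bot_left, ← hTDc, hDcard, hUi] at h
    linarith
  -- index two subgroups omitting an element of `D \\ C`
  have hM : ∀ y ∈ D, y ∉ C → ∃ M : Subgroup G, M.index = 2 ∧ y ∉ M ∧ R ≤ M := by
    intro y hy hyC
    have hyo := hinv y hy hyC
    obtain ⟨N, -, hN2, hyN, hNodd⟩ := CfsgLib.Local.Semiregular.exists_index_two ⊤ U le_top
      (Subgroup.mem_top y) (by rw [hyo]; exact even_two) (fun g _ j h => by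
        rcases Nat.even_or_odd j with ⟨i, rfl⟩ | ⟨i, rfl⟩
        · rw [← two_mul, pow_mul, ← hyo, pow_orderOf_eq_one, one_pow]
        · rw [pow_succ, pow_mul, ← hyo, pow_orderOf_eq_one, one_pow, one_mul] at h
          exact absurd h (hout y hy hyC g))
      ⟨S.index, Nat.not_even_iff_odd.mp fun h => hSsyl (even_iff_two_dvd.mp h), by
        rw [Subgroup.relIndex_top_right, hyo, ← Subgroup.relIndex_mul_index hUS, hUi]⟩
    exact ⟨N, by rwa [Subgroup.relIndex_top_right] at hN2, hyN,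
      (Subgroup.closure_le _).mpr fun g hg => hNodd g (Subgroup.mem_top g) (Nat.coprime_two_right.mp hg)⟩
  obtain ⟨M, hM2, hxM, hRM, hcM⟩ : ∃ M : Subgroup G, M.index = 2 ∧ x ∉ M ∧ R ≤ M ∧ c ∈ M := by
    obtain ⟨M₁, hi₁, hx₁, hR₁⟩ := hM x hxD hxC
    by_cases hc₁M : c ∈ M₁
    · exact ⟨M₁, hi₁, hx₁, hR₁, hc₁M⟩
    have hxc : x * c ∉ C := fun h => hxC (by
      have := mul_mem h (inv_mem c₁.2)
      simpa [hc] using this)
    obtain ⟨M₂, hi₂, hx₂, hR₂⟩ := hM (x * c) (mul_mem hxD (hCD c₁.2)) hxc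
    by_cases hc₂M : c ∈ M₂
    · refine ⟨M₂, hi₂, fun h => hx₂ (mul_mem h hc₂M), hR₂, hc₂M⟩
    have m₁ := fun a b : G => Subgroup.mul_mem_iff_of_index_two hi₁ (a := a) (b := b)
    have m₂ := fun a b : G => Subgroup.mul_mem_iff_of_index_two hi₂ (a := a) (b := b)
    let M₃ : Subgroup G :=
      { carrier := {g | g ∈ M₁ ↔ g ∈ M₂}
        mul_mem' := fun {a b} ha hb => by
          simp only [Set.mem_setOf_eq, m₁ a b, m₂ a b] at *
          rw [ha, hb]
        one_mem' := by simp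
        inv_mem' := fun {a} ha => by simpa using ha }
    have hx₂' : x ∈ M₂ := by
      rw [m₂] at hx₂
      tauto
    have hx₃ : x ∉ M₃ := fun h => hx₁ ((show x ∈ M₁ ↔ x ∈ M₂ from h).mpr hx₂')
    refine ⟨M₃, ?_, hx₃, fun g hg => iff_of_true (hR₁ hg) (hR₂ hg), iff_of_false hc₁M hc₂M⟩
    refine Subgroup.index_eq_two_iff.mpr ⟨x, fun b => ?_⟩
    show Xor' (b * x ∈ M₁ ↔ b * x ∈ M₂) (b ∈ M₁ ↔ b ∈ M₂)
    rw [m₁, m₂]
    unfold Xor'
    tauto
  have hSM : S ⊓ M = U := by
    have hle : U ≤ S ⊓ M := le_inf hUS (sup_le ((hTL.trans hLR).trans hRM)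
      (hCz ▸ Subgroup.zpowers_le.mpr hcM))
    refine (Subgroup.eq_of_le_of_card_ge hle ?_).symm
    have h := Subgroup.relIndex_mul_relIndex ⊥ (S ⊓ M) S bot_le inf_le_left
    rw [Subgroup.relIndex_bot_left, Subgroup.relIndex_bot_left, ← hTDc, hDcard,
      Subgroup.inf_relIndex_left, CfsgLib.Local.Semiregular.relIndex_two_inter (A := S)
        (H := ⊤) (by rw [Subgroup.relIndex_top_right]; exact hM2) le_top (hDS hxD) hxM] at h
    rw [hUc]
    linarith
  have hfree : ∀ g : G, ∀ j : ℕ, g⁻¹ * c ^ j * g ∈ T → c ^ j = 1 := by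
    intro g j h
    by_contra hne
    obtain ⟨k, hk⟩ := IsPGroup.iff_orderOf.mp hS2 ⟨c ^ j, pow_mem (hDS (hCD c₁.2)) j⟩
    rw [Subgroup.orderOf_mk] at hk
    rcases k with _ | k
    · exact hne (orderOf_eq_one_iff.mp hk)
    have ho : orderOf ((c ^ j) ^ 2 ^ k) = 2 := by
      rw [orderOf_pow' _ (by positivity), hk, Nat.gcd_eq_right (pow_dvd_pow 2 k.le_succ),
        Nat.pow_div k.le_succ two_pos]
      simp
    refine h2 _ (pow_mem (pow_mem c₁.2 j) _) ho g⁻¹ ?_
    have := pow_mem h (2 ^ k)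
    rwa [show g⁻¹ * c ^ j * g = g⁻¹ * c ^ j * g⁻¹⁻¹ by rw [inv_inv], conj_pow] at this
  have hRle : S ⊓ R ≤ T := by
    refine CfsgLib.Local.Semiregular.residual_inter_le S T hS2 hTS (hTL.trans hLR) n c M hco
      (hDS (hCD c₁.2)) hRM (by rw [hSM, hCz]) ?_ hfree (by rw [hSM, hUc, hco])
    intro h
    refine hSsyl ?_
    have h3 := Subgroup.relIndex_mul_index (inf_le_right : S ⊓ M ≤ M)
    have h4 := Subgroup.relIndex_mul_index (inf_le_left : S ⊓ M ≤ S)
    rw [hM2] at h3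
    rw [hSM, hUi] at h4
    rw [hSM] at h3
    obtain ⟨t, ht⟩ := h
    rw [hSM] at ht
    exact ⟨t, by rw [ht] at h3; linarith⟩
  have hTR : S ⊓ R = T := le_antisymm hRle (le_inf hTS (hTL.trans hLR))
  have hRS : R ⊔ S = ⊤ := by
    rw [← Subgroup.index_eq_one]
    obtain ⟨k, hk⟩ : ∃ k, R.index = 2 ^ k := by
      refine (IsPGroup.iff_card (p := 2) (G := G ⧸ R)).mp fun y => ?_
      obtain ⟨g, rfl⟩ := QuotientGroup.mk'_surjective R y
      obtain ⟨k, m, hm, hkm⟩ :=
        Nat.exists_eq_pow_mul_and_not_dvd (orderOf_pos g).ne' 2 (by norm_num)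
      refine ⟨k, ?_⟩
      rw [← map_pow]
      refine (QuotientGroup.eq_one_iff _).mpr (Subgroup.subset_closure ?_)
      show Nat.Coprime (orderOf (g ^ 2 ^ k)) 2
      rw [orderOf_pow, hkm, Nat.gcd_mul_right_left, Nat.mul_div_cancel_left _ (by positivity)]
      exact (Nat.prime_two.coprime_iff_not_dvd.mpr hm).symm
    exact Nat.eq_one_of_dvd_coprimes
      (hk ▸ ((Nat.prime_two.coprime_iff_not_dvd.mpr hSsyl).pow_left k))
      (Subgroup.index_dvd_of_le le_sup_left) (Subgroup.index_dvd_of_le le_sup_right)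
  have htop : R ⊔ D = ⊤ := by
    rw [← hRS, ← hTD, ← sup_assoc, sup_eq_left.mpr (hTL.trans hLR)]
  refine ⟨R, hRn, htop, fun T' hT'L hT'2 hT'o => ⟨hT'L.trans hLR, ?_⟩⟩
  have hTo : ¬ 2 ∣ T.relIndex R := by
    have h1 := Subgroup.relIndex_mul_index (inf_le_right : S ⊓ R ≤ R)
    have h2 := Subgroup.relIndex_mul_index (inf_le_left : S ⊓ R ≤ S)
    have h3 : R.relIndex S = R.index := by
      rw [← Subgroup.relIndex_sup_right, sup_comm, hRS, Subgroup.relIndex_top_right]
    rw [Subgroup.inf_relIndex_left, h3, mul_comm] at h2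
    rw [← hTR, Nat.eq_of_mul_eq_mul_right (Nat.pos_of_ne_zero Subgroup.index_ne_zero_of_finite) (h1.trans h2.symm)]
    exact hSsyl
  have hcardT : Nat.card T' = Nat.card T := by
    have h1 := Subgroup.relIndex_mul_relIndex ⊥ T' L bot_le hT'L
    have h2 := Subgroup.relIndex_mul_relIndex ⊥ T L bot_le hTL
    rw [Subgroup.relIndex_bot_left, Subgroup.relIndex_bot_left] at h1 h2
    obtain ⟨a, ha⟩ := IsPGroup.iff_card.mp hT'2
    obtain ⟨b, hb⟩ := IsPGroup.iff_card.mp hT2
    refine Nat.dvd_antisymm ?_ ?_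
    · rw [ha]
      refine Nat.Coprime.dvd_of_dvd_mul_right
        ((Nat.prime_two.coprime_iff_not_dvd.mpr hTsyl).pow_left a) ?_
      rw [h2, ← ha]
      exact Subgroup.card_dvd_of_le hT'L
    · rw [hb]
      refine Nat.Coprime.dvd_of_dvd_mul_right
        ((Nat.prime_two.coprime_iff_not_dvd.mpr hT'o).pow_left b) ?_
      rw [h1, ← hb]
      exact Subgroup.card_dvd_of_le hTL
  intro h
  refine hTo ?_
  have h1 := Subgroup.relIndex_mul_relIndex ⊥ T' R bot_le (hT'L.trans hLR)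
  have h2 := Subgroup.relIndex_mul_relIndex ⊥ T R bot_le (hTL.trans hLR)
  rw [Subgroup.relIndex_bot_left, Subgroup.relIndex_bot_left] at h1 h2
  rw [hcardT] at h1
  rwa [Nat.eq_of_mul_eq_mul_left Nat.card_pos (h2.trans h1.symm)]


end Cfsg.Agent.S1924
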