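import Cfsg.Statements.S1939


set_option autoImplicit false
open Cfsg
open scoped Pointwise commutatorElement
set_option maxHeartbeats 800000

namespace Cfsg.Agent.S1939

/-- Let S be a Sylow p-subgroup of the finite group G and a an element of S that is the only G-conjugate of a lying in S. Then every power of a has the same property: for every n, the only G-conjugate of a^n lying in S is a^n. -/
theorem result {G : Type*} [Group G] [Finite G] {p : ℕ} [Fact p.Prime] (S : Sylow p G) (a : G)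
    (haS : a ∈ (S : Subgroup G)) (hwc : ∀ g : G, g * a * g⁻¹ ∈ (S : Subgroup G) → g * a * g⁻¹ = a) (n : ℕ) :
    ∀ g : G, g * a ^ n * g⁻¹ ∈ (S : Subgroup G) → g * a ^ n * g⁻¹ = a ^ n := by
  intro g hg
  have haC : ∀ s ∈ (S : Subgroup G), s * a = a * s := fun s hs =>
    mul_inv_eq_iff_eq_mul.1 (hwc s (S.mul_mem (S.mul_mem hs haS) (S.inv_mem hs)))
  set b := g * a ^ n * g⁻¹ with hb
  set C := Subgroup.centralizer ({a ^ n} : Set G)
  have hSC : (S : Subgroup G) ≤ C := fun s hs => by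
    rw [Subgroup.mem_centralizer_iff]
    rintro _ rfl
    exact (Commute.pow_left (haC s hs).symm n).eq
  have hx : g⁻¹ * a * g ∈ C := by
    rw [Subgroup.mem_centralizer_iff]
    rintro _ rfl
    have h1 : b * a = a * b := haC b hg
    calc a ^ n * (g⁻¹ * a * g) = g⁻¹ * (b * a) * g := by rw [hb]; group
      _ = g⁻¹ * (a * b) * g := by rw [h1]
      _ = _ := by rw [hb]; group
  let SC : Sylow p ↥C := S.subtype hSC
  have hxp : IsPGroup p ↥(Subgroup.zpowers (⟨g⁻¹ * a * g, hx⟩ : ↥C)) := by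
    intro z
    obtain ⟨k, hk⟩ := S.isPGroup' ⟨a, haS⟩
    have hk' : a ^ p ^ k = 1 := by simpa using congrArg Subtype.val hk
    have h1 : (⟨g⁻¹ * a * g, hx⟩ : ↥C) ^ p ^ k = 1 := by
      apply Subtype.ext
      simp only [SubmonoidClass.coe_pow, OneMemClass.coe_one]
      have hcp := conj_pow (i := p ^ k) (a := g⁻¹) (b := a)
      rw [inv_inv, hk', mul_one, inv_mul_cancel] at hcp
      exact hcp
    obtain ⟨j, hj⟩ := Subgroup.mem_zpowers_iff.1 z.2
    refine ⟨k, Subtype.ext ?_⟩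
    simp only [SubmonoidClass.coe_pow, OneMemClass.coe_one, ← hj]
    rw [← zpow_natCast, ← zpow_mul, mul_comm, zpow_mul, zpow_natCast, h1, one_zpow]
  obtain ⟨R, hR⟩ := hxp.exists_le_sylow
  obtain ⟨c, hc⟩ := MulAction.exists_smul_eq ↥C R SC
  have hmem : (c : G) * (g⁻¹ * a * g) * (c : G)⁻¹ ∈ (S : Subgroup G) := by
    have h2 : c * ⟨g⁻¹ * a * g, hx⟩ * c⁻¹ ∈ (SC : Subgroup ↥C) := by
      rw [← hc, Sylow.coe_subgroup_smul, Subgroup.mem_pointwise_smul_iff_inv_smul_mem]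
      simpa [MulAut.smul_def, mul_assoc] using hR (Subgroup.mem_zpowers _)
    exact h2
  have h3 := hwc ((c : G) * g⁻¹) (by simpa [mul_assoc] using hmem)
  have h4 : Commute ((c : G) * g⁻¹) (a ^ n) :=
    Commute.pow_right (mul_inv_eq_iff_eq_mul.1 h3) n
  have h5 : a ^ n * c = c * a ^ n := Subgroup.mem_centralizer_iff.1 c.2 _ rfl
  have e : g = ((c : G) * g⁻¹)⁻¹ * c := by group
  rw [hb, e]
  calc ((c : G) * g⁻¹)⁻¹ * c * a ^ n * (((c : G) * g⁻¹)⁻¹ * c)⁻¹
      = ((c : G) * g⁻¹)⁻¹ * ((c * a ^ n) * (c : G)⁻¹) * ((c : G) * g⁻¹) := by group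
    _ = ((c : G) * g⁻¹)⁻¹ * (a ^ n * ((c : G) * g⁻¹)) := by rw [← h5]; group
    _ = a ^ n := by rw [← h4.eq, inv_mul_cancel_left]

end Cfsg.Agent.S1939
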