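import Cfsg.Statements.S1940


set_option autoImplicit false
open Cfsg
open scoped Pointwise commutatorElement
set_option maxHeartbeats 800000

namespace Cfsg.Agent.S1940

/-- Let the finite group L act by automorphisms on the finite abelian group M, and let N be an L-invariant subgroup of M such that M/N is a p-group on which L acts trivially (every l • m lies in the coset mN). If every element of M is a product of an element of N and an element fixed by a Sylow p-subgroup T of L, then every element of M is a product of an element of N and an element fixed by all of L. -/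
theorem result {L : Type*} [Group L] [Finite L] {M : Type*} [CommGroup M] [Finite M] [MulDistribMulAction L M]
    {p : ℕ} [Fact p.Prime] (N : Subgroup M) (hN : ∀ (l : L) (m : M), m ∈ N → l • m ∈ N)
    (hquot : IsPGroup p (M ⧸ N)) (htriv : ∀ (l : L) (m : M), (l • m) * m⁻¹ ∈ N) (T : Sylow p L)
    (hT : ∀ m : M, ∃ n ∈ N, ∃ c : M, (∀ t ∈ (T : Subgroup L), t • c = c) ∧ m = n * c) :
    ∀ m : M, ∃ n ∈ N, ∃ c : M, (∀ l : L, l • c = c) ∧ m = n * c := by
  intro m
  obtain ⟨a, ha, c, hc, rfl⟩ := hT m
  haveI : Fintype (L ⧸ (T : Subgroup L)) := Fintype.ofFinite _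
  let f : L ⧸ (T : Subgroup L) → M := Quotient.lift (fun l : L => l • c) (fun l l' h => by
    have h' : l⁻¹ * l' ∈ (T : Subgroup L) := QuotientGroup.leftRel_apply.1 h
    have : l' • c = l • ((l⁻¹ * l') • c) := by rw [← mul_smul, mul_inv_cancel_left]
    rw [this, hc _ h'])
  let c' := ∏ q, f q
  have hfix : ∀ l : L, l • c' = c' := by
    intro l
    simp only [c', Finset.smul_prod']
    refine Fintype.prod_equiv (MulAction.toPerm l) _ _ fun q => ?_
    induction q using QuotientGroup.induction_on with
    | _ x => exact (mul_smul l x c).symm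
  let π := QuotientGroup.mk' N
  have hq : π c' = π c ^ (T : Subgroup L).index := by
    rw [map_prod, Subgroup.index_eq_card, Nat.card_eq_fintype_card]
    refine Finset.prod_eq_pow_card fun q _ => ?_
    induction q using QuotientGroup.induction_on with
    | _ x =>
      show π (x • c) = π c
      rw [← mul_inv_eq_one, ← map_inv, ← map_mul, QuotientGroup.mk'_apply, QuotientGroup.eq_one_iff]
      exact htriv x c
  have hcop : (T : Subgroup L).index.Coprime (orderOf (π c)) := by
    obtain ⟨k, hk⟩ := hquot (π c)
    refine Nat.Coprime.coprime_dvd_right (orderOf_dvd_of_pow_eq_one hk) ?_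
    exact Nat.Coprime.pow_right k
      ((Nat.Prime.coprime_iff_not_dvd Fact.out).2 T.not_dvd_index).symm
  obtain ⟨j, hj⟩ := exists_pow_eq_self_of_coprime hcop
  refine ⟨a * (c * (c' ^ j)⁻¹), N.mul_mem ha ?_, c' ^ j,
    fun l => by rw [smul_pow', hfix], by group⟩
  rw [← QuotientGroup.eq_one_iff, ← QuotientGroup.mk'_apply]
  show π _ = 1
  rw [map_mul, map_inv, map_pow, hq, hj, mul_inv_cancel]

end Cfsg.Agent.S1940
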