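import Cfsg.Statements.S1941
import Cfsg.Agent.Lib.CoreLayer

set_option autoImplicit false
open Cfsg

namespace Cfsg.Agent.S1941

/-- Let G be a finite group with no nontrivial normal subgroup of order prime to p, T a Sylow p-subgroup of G and E(G) the layer of G (the subgroup generated by its components). An automorphism of G of p-power order that fixes T and E(G) elementwise is inner. -/
theorem result {G : Type*} [Group G] [Finite G] {p : ℕ} [Fact p.Prime] (hcore : Cfsg.pPrimeCore p G = ⊥)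
    (T : Sylow p G) (α : MulAut G) (hα : ∃ j : ℕ, orderOf α = p ^ j) (hfixT : ∀ x ∈ (T : Subgroup G), α x = x)
    (hfixE : ∀ x ∈ Cfsg.layer G, α x = x) : ∃ g : G, ∀ x : G, α x = g * x * g⁻¹ := by
  classical
  set F := Cfsg.generalizedFittingSubgroup G with hF
  have hfit : Cfsg.fittingSubgroup G = Cfsg.pCore p G :=
    CfsgLib.Core.fittingSubgroup_eq_pCore_of_pPrimeCore_eq_bot hcore
  have hfixF : ∀ x ∈ F, α x = x := by
    have hle : F ≤ MonoidHom.eqLocus α.toMonoidHom (MonoidHom.id G) := by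
      rw [hF, Cfsg.generalizedFittingSubgroup, hfit]
      exact sup_le hfixE fun x hx => hfixT x (CfsgLib.Core.pCore_le_sylow T hx)
    exact fun x hx => hle hx
  have hFn : F.Normal := by
    rw [hF, Cfsg.generalizedFittingSubgroup, hfit]
    haveI := CfsgLib.Core.normal_pCore (G := G) p
    haveI := CfsgLib.Core.normal_layer (G := G)
    infer_instance
  set Z := Subgroup.centralizer (F : Set G) with hZ
  haveI hZn : Z.Normal := by rw [hZ]; infer_instance
  have hZF : Z ≤ F := CfsgLib.Core.centralizer_generalizedFitting_le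
  have hZc : ∀ a ∈ Z, ∀ b ∈ Z, a * b = b * a := fun a ha b hb =>
    (Subgroup.mem_centralizer_iff.mp ha b (hZF hb)).symm
  haveI : IsMulCommutative Z := ⟨⟨fun a b => Subtype.ext (hZc a a.2 b b.2)⟩⟩
  have hZp : IsPGroup p Z := by
    let M : Subgroup G :=
      { carrier := {a | a ∈ Z ∧ (orderOf a).Coprime p}
        one_mem' := ⟨one_mem Z, by simp⟩
        mul_mem' := fun {a b} ha hb => ⟨mul_mem ha.1 hb.1,
          Nat.Coprime.coprime_dvd_left ((show Commute a b from hZc a ha.1 b hb.1).orderOf_mul_dvd_mul_orderOf)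
            (ha.2.mul_left hb.2)⟩
        inv_mem' := fun {a} ha => ⟨inv_mem ha.1, by rw [orderOf_inv]; exact ha.2⟩ }
    have hMn : M.Normal := ⟨fun a ha g => ⟨hZn.conj_mem a ha.1 g, by
      rw [show g * a * g⁻¹ = MulAut.conj g a from rfl, MulEquiv.orderOf_eq]; exact ha.2⟩⟩
    have hMc : (Nat.card M).Coprime p := by
      refine Nat.Coprime.symm ((Fact.out : p.Prime).coprime_iff_not_dvd.mpr fun hd => ?_)
      obtain ⟨⟨a, ha⟩, hao⟩ := exists_prime_orderOf_dvd_card' (G := M) p hd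
      rw [Subgroup.orderOf_mk] at hao
      have := ha.2
      rw [hao, Nat.coprime_self] at this
      exact (Fact.out : p.Prime).ne_one this
    have hM : M = ⊥ := le_bot_iff.mp (hcore ▸ CfsgLib.Core.le_pPrimeCore hMn hMc)
    intro a
    obtain ⟨i, m, hm, he⟩ := Nat.exists_eq_pow_mul_and_not_dvd (orderOf_pos (a : G)).ne' p
      (Fact.out : p.Prime).ne_one
    refine ⟨i, Subtype.ext ?_⟩
    push_cast
    have : (a : G) ^ p ^ i ∈ M := ⟨pow_mem a.2 _, by
      rw [orderOf_pow' _ (pow_ne_zero _ (Fact.out : p.Prime).ne_zero), he,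
        Nat.gcd_eq_right (dvd_mul_right _ _), Nat.mul_div_cancel_left _ (pow_pos (Fact.out : p.Prime).pos i)]
      exact ((Nat.Prime.coprime_iff_not_dvd Fact.out).mpr hm).symm⟩
    rw [hM, Subgroup.mem_bot] at this
    exact this
  have hδ : ∀ g : G, g⁻¹ * α g ∈ Z := by
    intro g
    rw [hZ, Subgroup.mem_centralizer_iff]
    intro x hx
    have h1 := hfixF _ (hFn.conj_mem x hx g)
    rw [map_mul, map_mul, map_inv, hfixF x hx] at h1
    calc x * (g⁻¹ * α g) = g⁻¹ * (g * x * g⁻¹) * α g := by group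
      _ = g⁻¹ * (α g * x * (α g)⁻¹) * α g := by rw [h1]
      _ = _ := by group
  let δ : G → Z := fun g => ⟨g⁻¹ * α g, hδ g⟩
  let c : G → Z → Z := fun h z => ⟨h⁻¹ * z * h, by
    simpa using hZn.conj_mem z z.2 h⁻¹⟩
  have hδmul : ∀ g h, δ (g * h) = c h (δ g) * δ h := fun g h => Subtype.ext (by
    show (g * h)⁻¹ * α (g * h) = h⁻¹ * (g⁻¹ * α g) * h * (h⁻¹ * α h)
    rw [map_mul]; group)
  have hδT : ∀ t ∈ (T : Subgroup G), δ t = 1 := fun t ht => Subtype.ext (by
    show t⁻¹ * α t = 1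
    rw [hfixT t ht, inv_mul_cancel])
  -- right cosets of `T`
  let Q := G ⧸ (T : Subgroup G)
  haveI : Fintype Q := Fintype.ofFinite _
  have hconst : ∀ a b : G, (a : Q) = b → δ a⁻¹ = δ b⁻¹ := by
    intro a b hab
    have ht := QuotientGroup.eq.mp hab
    have : b⁻¹ = (a⁻¹ * b)⁻¹ * a⁻¹ := by group
    rw [this, hδmul, hδT _ (inv_mem ht), show c a⁻¹ 1 = 1 from Subtype.ext (by simp [c]), one_mul]
  let d : Q → Z := fun x => Quotient.liftOn' x (fun a => δ a⁻¹) (fun a b hab => hconst a b (Quotient.sound' hab))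
  have hd : ∀ a : G, d (a : Q) = δ a⁻¹ := fun a => rfl
  letI : CommGroup Z := { (inferInstance : Group Z) with mul_comm := fun a b => Subtype.ext (hZc a a.2 b b.2) }
  have hc_hom : ∀ h, ∃ φ : Z →* Z, ∀ z, φ z = c h z := fun h =>
    ⟨MonoidHom.mk' (c h) (fun a b => Subtype.ext (by show h⁻¹ * ((a : G) * b) * h = h⁻¹ * a * h * (h⁻¹ * b * h); group)),
      fun _ => rfl⟩
  set z := ∏ x : Q, d x with hz
  set m := Fintype.card Q with hm
  have hkey : ∀ h : G, z = c h z * δ h ^ m := by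
    intro h
    obtain ⟨φ, hφ⟩ := hc_hom h
    calc z = ∏ x : Q, d (h⁻¹ • x) := (Fintype.prod_equiv (MulAction.toPerm (h⁻¹ : G)) _ _ (fun x => rfl)).symm
      _ = ∏ x : Q, φ (d x) * δ h := by
          refine Finset.prod_congr rfl fun x _ => ?_
          obtain ⟨a, rfl⟩ := QuotientGroup.mk_surjective x
          rw [MulAction.Quotient.smul_coe, hd, hd, smul_eq_mul, mul_inv_rev, inv_inv, hδmul, hφ]
      _ = φ z * δ h ^ m := by rw [Finset.prod_mul_distrib, Finset.prod_const, Finset.card_univ, map_prod]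
      _ = _ := by rw [hφ]
  have hmcop : (Nat.card Z).Coprime m := by
    obtain ⟨k, hk⟩ := IsPGroup.iff_card.mp hZp
    rw [hk, hm, ← Nat.card_eq_fintype_card, ← Subgroup.index_eq_card]
    exact ((Fact.out : p.Prime).coprime_iff_not_dvd.mpr T.not_dvd_index).pow_left k
  let e : Z ≃ Z := powCoprime hmcop
  set z' := e.symm z with hz'
  have hz'm : z' ^ m = z := e.apply_symm_apply z
  refine ⟨((z' : G))⁻¹, fun h => ?_⟩
  have h1 := hkey h
  obtain ⟨φ, hφ⟩ := hc_hom h
  rw [← hz'm, ← hφ, map_pow, hφ, ← mul_pow] at h1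
  have h2 : z' = c h z' * δ h := e.injective h1
  have h3 : (z' : G) = h⁻¹ * z' * h * (h⁻¹ * α h) := congrArg Subtype.val h2
  calc α h = h * (h⁻¹ * z' * h)⁻¹ * (h⁻¹ * z' * h * (h⁻¹ * α h)) := by group
    _ = h * (h⁻¹ * z' * h)⁻¹ * z' := by rw [← h3]
    _ = _ := by group

end Cfsg.Agent.S1941
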