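import Cfsg.Statements.S1944
import Cfsg.Agent.Lib.LocalPReducedParabolic
import Cfsg.Agent.Lib.LocalSylowJoin

set_option autoImplicit false
open Cfsg
open scoped commutatorElement Pointwise

namespace Cfsg.Agent.S1944

/-- Let S be a Sylow p-subgroup of the finite group G and suppose that the centre Z(S) lies in O_{p',p}(G). The elements of S each of which is its only G-conjugate in S form a subgroup W of Z(S); W is then a direct factor of Z(S): there is a subgroup K of Z(S) with W ∩ K = 1 and WK = Z(S). -/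
theorem result {G : Type*} [Group G] [Finite G] {p : ℕ} [Fact p.Prime] (S : Sylow p G)
    (hZ : ((S : Subgroup G) ⊓ Subgroup.centralizer ((S : Subgroup G) : Set G)) ≤ Cfsg.pPrimePCore p G) :
    ∃ W K : Subgroup G, (∀ x : G, x ∈ W ↔ (x ∈ (S : Subgroup G) ∧ ∀ g : G, g * x * g⁻¹ ∈ (S : Subgroup G) → g * x * g⁻¹ = x)) ∧
      K ≤ ((S : Subgroup G) ⊓ Subgroup.centralizer ((S : Subgroup G) : Set G)) ∧ W ⊓ K = ⊥ ∧ W ⊔ K = ((S : Subgroup G) ⊓ Subgroup.centralizer ((S : Subgroup G) : Set G)) := by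
  classical
  have hp : p.Prime := Fact.out
  set Z := (S : Subgroup G) ⊓ Subgroup.centralizer ((S : Subgroup G) : Set G) with hZdef
  set O := Cfsg.pPrimeCore p G with hO
  haveI hOn : O.Normal := CfsgLib.Core.normal_pPrimeCore p
  set X := Cfsg.pPrimePCore p G with hX
  haveI hXn : X.Normal :=
    haveI := CfsgLib.Local.pCore_normal' (G := G ⧸ O) p
    (inferInstance : ((Cfsg.pCore p (G ⧸ O)).comap (QuotientGroup.mk' O)).Normal)
  set R := (S : Subgroup G) ⊓ X with hR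
  set L := Subgroup.normalizer (R : Set G) with hL
  set V := R ⊓ Subgroup.centralizer (R : Set G) with hV
  have htop : ∀ (A : Subgroup G) [A.Normal], (⊤ : Subgroup G) ≤ Subgroup.normalizer (A : Set G) :=
    fun A _ => (Subgroup.normalizer_eq_top (H := A)).ge
  have hSL : (S : Subgroup G) ≤ L :=
    CfsgLib.Core.le_normalizer_inf Subgroup.le_normalizer (le_top.trans (htop X))
  have hLV : L ≤ Subgroup.normalizer (V : Set G) :=
    CfsgLib.Core.le_normalizer_inf le_rfl (CfsgLib.Core.le_normalizer_centralizer le_rfl)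
  have hZV : Z ≤ V := fun z hz => by
    obtain ⟨hz1, hz2⟩ := Subgroup.mem_inf.mp hz
    exact Subgroup.mem_inf.mpr ⟨Subgroup.mem_inf.mpr ⟨hz1, hZ hz⟩,
      Subgroup.mem_centralizer_iff.mpr fun r hr =>
        Subgroup.mem_centralizer_iff.mp hz2 r (Subgroup.mem_inf.mp hr).1⟩
  have hVS : V ≤ (S : Subgroup G) := inf_le_left.trans inf_le_left
  -- `G = O L`
  have hi : ¬ p ∣ R.relIndex X :=
    CfsgLib.Local.SylJoin.not_dvd_relIndex_inf_subnormal S hXn.isSubnormal
  have hXle : X ≤ R ⊔ O := by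
    refine CfsgLib.Local.PRed.le_of_index inf_le_right hi le_sup_left fun x hx hc =>
      Subgroup.mem_sup_right ?_
    obtain ⟨k, hk⟩ := CfsgLib.Local.pCore_isPGroup' (G := G ⧸ O) p ⟨_, hx⟩
    exact CfsgLib.Local.PRed.mem_of_pow_mem (p := p) (k := k) ((QuotientGroup.eq_one_iff _).mp
      (congrArg Subtype.val hk)) hc
  have hG : ∀ g : G, g ∈ L ⊔ O := fun g => by
    refine (CfsgLib.Local.PRed.frattini_rel (M := ⊤) (htop X) le_top inf_le_right
      (S.isPGroup'.to_le inf_le_left) hi).trans (sup_le ?_ ?_) (Subgroup.mem_top g)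
    · exact inf_le_right.trans le_sup_left
    · exact hXle.trans (sup_le_sup_right Subgroup.le_normalizer _)
  -- the transfer map
  set Q := ↥L ⧸ (S : Subgroup G).subgroupOf L with hQ
  haveI : Fintype Q := Fintype.ofFinite _
  haveI : IsMulCommutative ↥V := ⟨⟨fun a b => Subtype.ext
    ((Subgroup.mem_centralizer_iff.mp (Subgroup.mem_inf.mp b.2).2 a (Subgroup.mem_inf.mp a.2).1))⟩⟩
  letI : CommGroup ↥V := { (inferInstance : Group ↥V) with mul_comm := fun a b => mul_comm' a b }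
  let σ : Q → ↥Z → ↥V := fun c v =>
    ⟨((c.out : ↥L) : G) * v * ((c.out : ↥L) : G)⁻¹,
      CfsgLib.Local.PRed.conj_mem hLV c.out.2 (hZV v.2)⟩
  let ψ : ↥Z →* ↥V :=
    { toFun := fun v => ∏ c : Q, σ c v
      map_one' := Finset.prod_eq_one fun c _ => Subtype.ext (by simp [σ])
      map_mul' := fun a b => by
        rw [← Finset.prod_mul_distrib]
        exact Finset.prod_congr rfl fun c _ => Subtype.ext (by simp [σ, mul_assoc]) }
  have hσ : ∀ (v : ↥Z) (a b : ↥L), (QuotientGroup.mk a : Q) = QuotientGroup.mk b →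
      (a : G) * v * (a : G)⁻¹ = (b : G) * v * (b : G)⁻¹ := by
    intro v a b hab
    have h1 : (a : G)⁻¹ * b ∈ (S : Subgroup G) := Subgroup.mem_subgroupOf.mp (QuotientGroup.eq.mp hab)
    have h2 := Subgroup.mem_centralizer_iff.mp (Subgroup.mem_inf.mp v.2).2 _ h1
    calc (a : G) * v * (a : G)⁻¹ = (a : G) * (v * ((a : G)⁻¹ * b)) * (b : G)⁻¹ := by group
      _ = (a : G) * (((a : G)⁻¹ * b) * v) * (b : G)⁻¹ := by rw [h2]
      _ = (b : G) * v * (b : G)⁻¹ := by group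
  have hψ : ∀ (v : ↥Z) (l : G), l ∈ L → l * (ψ v : G) * l⁻¹ = (ψ v : G) := by
    intro v l hl
    let cl : ↥V →* ↥V :=
      { toFun := fun w => ⟨l * w * l⁻¹, CfsgLib.Local.PRed.conj_mem hLV hl w.2⟩
        map_one' := Subtype.ext (by simp)
        map_mul' := fun a b => Subtype.ext (by simp [mul_assoc]) }
    have h1 : cl (ψ v) = ψ v := by
      show cl (∏ c : Q, σ c v) = ∏ c : Q, σ c v
      rw [map_prod]
      refine Fintype.prod_equiv (MulAction.toPerm (⟨l, hl⟩ : ↥L) : Q ≃ Q) _ _ fun c => Subtype.ext ?_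
      show l * (((c.out : ↥L) : G) * v * ((c.out : ↥L) : G)⁻¹) * l⁻¹ = _
      have h2 : (QuotientGroup.mk (⟨l, hl⟩ * c.out : ↥L) : Q) =
          QuotientGroup.mk (((⟨l, hl⟩ : ↥L) • c : Q).out) := by
        rw [QuotientGroup.out_eq']
        conv_rhs => rw [← QuotientGroup.out_eq' c]
        rfl
      have h3 := hσ v _ _ h2
      refine Eq.trans ?_ h3
      simp [mul_assoc]
    exact congrArg Subtype.val h1
  let W : Subgroup G :=
    { carrier := {x | x ∈ Z ∧ ∀ l ∈ L, l * x * l⁻¹ = x}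
      one_mem' := ⟨Z.one_mem, fun l _ => by simp⟩
      mul_mem' := fun {a b} ha hb => ⟨Z.mul_mem ha.1 hb.1, fun l hl => by
        rw [show l * (a * b) * l⁻¹ = (l * a * l⁻¹) * (l * b * l⁻¹) by group, ha.2 l hl, hb.2 l hl]⟩
      inv_mem' := fun {a} ha => ⟨Z.inv_mem ha.1, fun l hl => by
        rw [show l * a⁻¹ * l⁻¹ = (l * a * l⁻¹)⁻¹ by group, ha.2 l hl]⟩ }
  have hψW : ∀ v : ↥Z, (ψ v : G) ∈ W := fun v =>
    ⟨Subgroup.mem_inf.mpr ⟨hVS (ψ v).2, Subgroup.mem_centralizer_iff.mpr fun s hs =>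
      mul_inv_eq_iff_eq_mul.mp (hψ v s (hSL hs))⟩, hψ v⟩
  have hψpow : ∀ v : ↥Z, (v : G) ∈ W → (ψ v : G) = (v : G) ^ Fintype.card Q := by
    intro v hv
    show ((∏ c : Q, σ c v : ↥V) : G) = _
    rw [show (∏ c : Q, σ c v) = ∏ _c : Q, (⟨v, hZV v.2⟩ : ↥V) from
      Finset.prod_congr rfl fun c _ => Subtype.ext (hv.2 _ c.out.2), Finset.prod_const,
      Finset.card_univ]
    rfl
  have hm : ∀ v : G, v ∈ Z → (orderOf v).Coprime (Fintype.card Q) := by
    intro v hv
    obtain ⟨k, hk⟩ := IsPGroup.iff_orderOf.mp S.isPGroup' ⟨v, (Subgroup.mem_inf.mp hv).1⟩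
    rw [Subgroup.orderOf_mk] at hk
    rw [hk, ← Nat.card_eq_fintype_card]
    exact Nat.Coprime.pow_left k
      (hp.coprime_iff_not_dvd.mpr (CfsgLib.Local.PRed.not_dvd_relIndex_of_le S hSL))
  refine ⟨W, ψ.ker.map Z.subtype, fun x => ⟨fun hx => ?_, fun hx => ?_⟩,
    Subgroup.map_subtype_le _, ?_, ?_⟩
  · refine ⟨(Subgroup.mem_inf.mp hx.1).1, fun g hg => ?_⟩
    obtain ⟨l, hl, o, ho, rfl⟩ :=
      (CfsgLib.Core.mem_sup_iff_of_le_normalizer (le_top.trans (htop O))).mp (hG g)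
    set y := o * x * o⁻¹ with hy
    have hxX : x ∈ X := hZ hx.1
    have h1 : l * o * x * (l * o)⁻¹ = l * y * l⁻¹ := by rw [hy]; group
    rw [h1] at hg ⊢
    have h2 : l * y * l⁻¹ ∈ R := Subgroup.mem_inf.mpr
      ⟨hg, hXn.conj_mem _ (hXn.conj_mem _ hxX o) l⟩
    have h3 : y ∈ R := (Subgroup.mem_normalizer_iff.mp hl y).mpr h2
    have h4 : y * x⁻¹ ∈ O := by
      have := O.mul_mem ho (hOn.conj_mem _ (O.inv_mem ho) x)
      simpa [hy, mul_assoc] using this
    have h5 : y * x⁻¹ = 1 := by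
      have h6 : y * x⁻¹ ∈ (S : Subgroup G) :=
        mul_mem (Subgroup.mem_inf.mp h3).1 (inv_mem (Subgroup.mem_inf.mp hx.1).1)
      obtain ⟨k, hk⟩ := IsPGroup.iff_orderOf.mp S.isPGroup' ⟨_, h6⟩
      rw [Subgroup.orderOf_mk] at hk
      have h7 := orderOf_dvd_natCard (⟨_, h4⟩ : ↥O)
      rw [Subgroup.orderOf_mk, hk] at h7
      exact orderOf_eq_one_iff.mp (hk ▸ Nat.eq_one_of_dvd_coprimes
        (Nat.Coprime.pow_right k (CfsgLib.Core.coprime_card_pPrimeCore p)) h7 dvd_rfl)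
    rw [mul_inv_eq_one.mp h5]
    exact hx.2 l hl
  · have hxc : x ∈ Z := Subgroup.mem_inf.mpr ⟨hx.1, Subgroup.mem_centralizer_iff.mpr fun s hs =>
      mul_inv_eq_iff_eq_mul.mp (hx.2 s (mul_mem (mul_mem hs hx.1) (inv_mem hs)))⟩
    exact ⟨hxc, fun l hl =>
      hx.2 l (hVS (CfsgLib.Local.PRed.conj_mem hLV hl (hZV hxc)))⟩
  · refine (Subgroup.eq_bot_iff_forall _).mpr fun x hx => ?_
    obtain ⟨hxW, v, hv, rfl⟩ := Subgroup.mem_inf.mp hx
    have h1 : (v : G) ^ Fintype.card Q = 1 := by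
      rw [← hψpow v hxW, MonoidHom.mem_ker.mp hv]; rfl
    exact orderOf_eq_one_iff.mp (Nat.eq_one_of_dvd_coprimes (hm v v.2) dvd_rfl
      (orderOf_dvd_of_pow_eq_one h1))
  · refine le_antisymm (sup_le (fun x hx => hx.1) (Subgroup.map_subtype_le _)) fun x hx => ?_
    set v : ↥Z := ⟨x, hx⟩ with hv
    set w : G := (ψ v : G) with hw
    have hwW : w ∈ W := hψW v
    obtain ⟨t, ht⟩ := exists_pow_eq_self_of_coprime (n := Fintype.card Q) (x := w)
      (hm w hwW.1).symm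
    set u : ↥Z := ⟨w, hwW.1⟩ ^ t with hu
    have huW : (u : G) ∈ W := by
      rw [hu, Subgroup.coe_pow]; exact W.pow_mem hwW t
    have hψu : ψ u = ψ v := Subtype.ext (by
      rw [hψpow u huW, hu, Subgroup.coe_pow]
      show (w ^ t) ^ Fintype.card Q = w
      rw [← pow_mul, mul_comm, pow_mul, ht])
    have hk : u⁻¹ * v ∈ ψ.ker := by
      rw [MonoidHom.mem_ker, map_mul, map_inv, hψu, inv_mul_cancel]
    have := mul_mem (Subgroup.mem_sup_left (T := ψ.ker.map Z.subtype) huW)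
      (Subgroup.mem_sup_right (S := W) (Subgroup.mem_map_of_mem Z.subtype hk))
    simpa [hv] using this

end Cfsg.Agent.S1944
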