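import Cfsg.Statements.S1947
import Cfsg.Agent.Lib.LocalOmegaFusion

set_option autoImplicit false
open Cfsg

namespace Cfsg.Agent.S1947

/-- Let G be a finite group and p a prime. If every element of G of order dividing p (dividing 4 when p = 2) lies in some fixed term Z_n(G) of the upper central series, then G has a normal p-complement. -/
theorem result {G : Type*} [Group G] [Finite G] {p : ℕ} [Fact p.Prime] (n : ℕ)
    (h : ∀ a : G, (a ^ p = 1 ∨ (p = 2 ∧ a ^ 4 = 1)) → a ∈ Subgroup.upperCentralSeries G n) : Cfsg.HasNormalPComplement p G := by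
  refine CfsgLib.Core.hasNormalPComplement_of_local fun Q hQ g hg hcop => ?_
  refine CfsgLib.Core.mem_centralizer_of_fixes_omega hQ hg hcop fun x hx hx' => ?_
  refine CfsgLib.Local.OmegaFusion.fixes_of_depth hQ hg hcop
    (fun i => Subgroup.upperCentralSeries G (n - i)) n ?_ ?_ ?_ ?_ x ⟨hx, h x hx'⟩ hx'
  · show Subgroup.upperCentralSeries G (n - n) = ⊥
    rw [Nat.sub_self, Subgroup.upperCentralSeries_zero]
  · exact fun i => Subgroup.upperCentralSeries_mono G (by omega)
  · intro i
    rw [Subgroup.normalizer_eq_top]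
    exact le_top
  · intro i a ha _
    show g * a * g⁻¹ * a⁻¹ ∈ Subgroup.upperCentralSeries G (n - (i + 1))
    have h2 : a ∈ Subgroup.upperCentralSeries G (n - (i + 1) + 1) :=
      Subgroup.upperCentralSeries_mono G (by omega) ha.2
    have h1 := inv_mem ((Subgroup.mem_upperCentralSeries_succ_iff).1 h2 g)
    rwa [commutatorElement_inv, commutatorElement_def] at h1

end Cfsg.Agent.S1947
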