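import Cfsg.Statements.S1948
import Cfsg.Agent.Lib.LocalFactor
import Cfsg.Agent.Lib.CoreTransfer

set_option autoImplicit false
open Cfsg

namespace Cfsg.Agent.S1948

/-- Let S be a Sylow p-subgroup of the finite group G. Then G = N_G(S)·O_{p'}(G) if and only if G is p-constrained and N_G(S) controls fusion in S, in the sense that whenever a subgroup Q of S has a conjugate g Q g⁻¹ inside S, the element g is a product n c with n normalizing S and c centralizing Q. -/
theorem result {G : Type*} [Group G] [Finite G] {p : ℕ} [Fact p.Prime] (S : Sylow p G) :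
    Subgroup.normalizer ((S : Subgroup G) : Set G) ⊔ Cfsg.pPrimeCore p G = ⊤ ↔
      (Cfsg.IsPConstrained p G ∧
        ∀ Q : Subgroup G, Q ≤ (S : Subgroup G) → ∀ g : G, Q.map (MulAut.conj g).toMonoidHom ≤ (S : Subgroup G) →
          ∃ n ∈ Subgroup.normalizer ((S : Subgroup G) : Set G), ∃ c ∈ Subgroup.centralizer (Q : Set G), g = n * c) := by
  haveI hOn : (Cfsg.pPrimeCore p G).Normal := CfsgLib.Core.normal_pPrimeCore p
  rw [CfsgLib.LocalFactor.constrained_iff]
  set O := Cfsg.pPrimeCore p G with hO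
  set f := QuotientGroup.mk' O with hf
  have hfs : Function.Surjective f := QuotientGroup.mk'_surjective _
  set Q₀ := Cfsg.pCore p (G ⧸ O) with hQ0
  haveI hQn : Q₀.Normal := CfsgLib.Core.normal_pCore p
  have hSO : (S : Subgroup G) ⊓ O = ⊥ := by
    refine CfsgLib.Core.inf_eq_bot_of_coprime ?_
    obtain ⟨k, hk⟩ := IsPGroup.iff_card.1 S.2
    rw [hk]
    exact (CfsgLib.Core.coprime_card_pPrimeCore p).symm.pow_left k
  constructor
  · intro htop
    have hSbar : ((S : Subgroup G).map f).Normal := by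
      refine ⟨fun z hz w => ?_⟩
      obtain ⟨s, hs, rfl⟩ := hz
      obtain ⟨g, rfl⟩ := hfs w
      have hg : g ∈ Subgroup.normalizer ((S : Subgroup G) : Set G) ⊔ O := by rw [htop]; trivial
      obtain ⟨n, hn, o, ho, rfl⟩ := Subgroup.mem_sup_of_normal_right.1 hg
      refine ⟨n * s * n⁻¹, (Subgroup.mem_normalizer_iff.1 hn s).1 hs, ?_⟩
      have hfo : f o = 1 := (QuotientGroup.eq_one_iff o).2 ho
      simp [map_mul, hfo]
    let Sb : Sylow p (G ⧸ O) := S.mapSurjective hfs
    have hQ : Q₀ = (Sb : Subgroup (G ⧸ O)) :=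
      le_antisymm (CfsgLib.Core.pCore_le_sylow Sb) (CfsgLib.Core.le_pCore hSbar Sb.2)
    refine ⟨?_, ?_⟩
    · set C := Subgroup.centralizer (Q₀ : Set (G ⧸ O)) with hC
      haveI hCn : C.Normal := inferInstance
      have hcomp : Cfsg.HasNormalPComplement p C := CfsgLib.Core.hasNormalPComplement_of_local fun P hP g _ _ => by
        refine Subgroup.mem_centralizer_iff.2 fun q hq => Subtype.ext ?_
        have hqS : (q : G ⧸ O) ∈ Q₀ := by
          obtain ⟨P', hP'⟩ := (hP.map C.subtype).exists_le_sylow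
          obtain ⟨a, ha⟩ := MulAction.exists_smul_eq (G ⧸ O) Sb P'
          have hPQ : (P' : Subgroup (G ⧸ O)) = Q₀ := by
            rw [hQ, ← ha, Sylow.smul_eq_of_normal (h := hSbar)]
          exact hPQ ▸ hP' ⟨q, hq, rfl⟩
        exact Subgroup.mem_centralizer_iff.1 g.2 _ hqS
      obtain ⟨N, hN, hNc, k, hk⟩ := CfsgLib.Core.hasNormalPComplement_iff.1 hcomp
      have hNbot : N = ⊥ := by
        have h1 := CfsgLib.Core.le_pPrimeCore hN hNc
        have h2 := (Subgroup.map_mono h1).trans (CfsgLib.Core.pPrimeCore_map_subtype_le (p := p) hCn)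
        have hq : Cfsg.pPrimeCore p (G ⧸ O) = ⊥ := CfsgLib.Core.pPrimeCore_quotient_pPrimeCore p
        rw [hq, le_bot_iff, Subgroup.map_eq_bot_iff_of_injective _ C.subtype_injective] at h2
        exact h2
      rw [hNbot, Subgroup.index_bot] at hk
      exact CfsgLib.Core.le_pCore hCn (IsPGroup.of_card hk)
    · intro Q hQS g hg
      have hmem : g ∈ Subgroup.normalizer ((S : Subgroup G) : Set G) ⊔ O := by rw [htop]; trivial
      obtain ⟨n, hn, o, ho, rfl⟩ := Subgroup.mem_sup_of_normal_right.1 hmem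
      refine ⟨n, hn, o, Subgroup.mem_centralizer_iff.2 fun q hq => ?_, rfl⟩
      have h1 : n * o * q * (n * o)⁻¹ ∈ (S : Subgroup G) := hg ⟨q, hq, rfl⟩
      have h2 : o * q * o⁻¹ ∈ (S : Subgroup G) :=
        (Subgroup.mem_normalizer_iff.1 hn _).2 (by
          rwa [show n * (o * q * o⁻¹) * n⁻¹ = n * o * q * (n * o)⁻¹ by group])
      have h3 : o * q * o⁻¹ * q⁻¹ ∈ (S : Subgroup G) ⊓ O :=
        ⟨(S : Subgroup G).mul_mem h2 ((S : Subgroup G).inv_mem (hQS hq)), by
          rw [show o * q * o⁻¹ * q⁻¹ = o * (q * o⁻¹ * q⁻¹) by group]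
          exact mul_mem ho (hOn.conj_mem _ (inv_mem ho) q)⟩
      rw [hSO, Subgroup.mem_bot] at h3
      exact (mul_inv_eq_iff_eq_mul.1 (mul_inv_eq_one.1 h3)).symm
  · rintro ⟨hcon, hfus⟩
    set M := Q₀.comap f with hM
    haveI hMn : M.Normal := inferInstance
    set R := (S : Subgroup G) ⊓ M with hR
    have hRf : R.map f = Q₀ := by
      refine le_antisymm ?_ fun z hz => ?_
      · rintro _ ⟨r, hr, rfl⟩; exact hr.2
      · obtain ⟨s, hs, rfl⟩ := CfsgLib.Core.pCore_le_sylow (S.mapSurjective hfs) hz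
        exact ⟨s, ⟨hs, hz⟩, rfl⟩
    have hMsup : R ⊔ O = M := by
      rw [hM, ← hRf, Subgroup.comap_map_eq, hf, QuotientGroup.ker_mk']
    have hRnorm : R ≤ Subgroup.normalizer (O : Set G) := by rw [Subgroup.normalizer_eq_top]; exact le_top
    have hcardM : Nat.card M = Nat.card R * Nat.card O := by
      rw [← hMsup]
      exact CfsgLib.Core.card_sup_of_disjoint hRnorm (le_bot_iff.1 ((inf_le_inf_right _ inf_le_left).trans hSO.le))
    have hRM : R ≤ M := inf_le_right
    have hidx : ¬ p ∣ (R.subgroupOf M).index := by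
      have h := (R.subgroupOf M).card_mul_index
      rw [Nat.card_congr (Subgroup.subgroupOfEquivOfLe hRM).toEquiv, hcardM] at h
      rw [Nat.eq_of_mul_eq_mul_left Nat.card_pos h]
      exact CfsgLib.Core.not_dvd_card_pPrimeCore p
    have hRp : IsPGroup p R := S.2.to_le inf_le_left
    let P : Sylow p M := (hRp.of_equiv (Subgroup.subgroupOfEquivOfLe hRM).symm).toSylow hidx
    have hfr := Sylow.normalizer_sup_eq_top P
    have hPmap : ((P : Subgroup M).map M.subtype) = R := Subgroup.map_subgroupOf_eq_of_le hRM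
    rw [hPmap] at hfr
    refine top_le_iff.1 (hfr ▸ sup_le (fun g hg => ?_) ?_)
    · obtain ⟨n, hn, c, hc, rfl⟩ := hfus R inf_le_left g (by
        rintro _ ⟨r, hr, rfl⟩
        exact ((Subgroup.mem_normalizer_iff.1 hg r).1 hr).1)
      refine mul_mem (Subgroup.mem_sup_left hn) ?_
      have hcQ : f c ∈ Subgroup.centralizer (Q₀ : Set (G ⧸ O)) := by
        refine Subgroup.mem_centralizer_iff.2 ?_
        intro z hz
        rw [← hRf] at hz
        obtain ⟨r, hr, rfl⟩ := hz
        rw [← map_mul, ← map_mul, Subgroup.mem_centralizer_iff.1 hc r hr]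
      have hcM : c ∈ R ⊔ O := hMsup ▸ hcon hcQ
      exact sup_le_sup_right (inf_le_left.trans Subgroup.le_normalizer) _ hcM
    · rw [← hMsup]
      exact sup_le_sup_right (inf_le_left.trans Subgroup.le_normalizer) _

end Cfsg.Agent.S1948
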