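import Cfsg.Statements.S2001
import Cfsg.Agent.Lib.LocalTransferPair

set_option autoImplicit false
open Cfsg

namespace Cfsg.Agent.S2001

/-- Let p be a prime dividing the order of the finite group G, P a Sylow p-subgroup, W a conjugacy functor for p on G with Z(H) ≤ W(H) for every nontrivial p-subgroup H, and V a central functor: a conjugacy functor with V(H) ≤ Z(H), and V(H) ≤ V(K) whenever Z(H) ≤ Z(K), for nontrivial p-subgroups H, K. Say that W with V controls transfer in a subgroup L when some Sylow p-subgroup Q of L satisfies Q ∩ L' = (Q ∩ (N_L(W(Q)))')·(Q ∩ (C_L(V(Q)))') as a product of two subgroups. If W with V controls transfer in N_G(H) for every subgroup H with Z(P) ≤ H ≤ P, then W with V controls transfer in G. -/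
theorem result {G : Type*} [Group G] [Finite G] {p : ℕ} [Fact p.Prime] (hdiv : p ∣ Nat.card G) (P : Sylow p G) (W V : Subgroup G → Subgroup G) (hW : Cfsg.IsConjugacyFunctor p W) (hV : Cfsg.IsConjugacyFunctor p V) (hWZ : ∀ H : Subgroup G, IsPGroup p ↥H → H ⊓ Subgroup.centralizer ((H : Subgroup G) : Set G) ≤ W H) (hVZ : ∀ H : Subgroup G, IsPGroup p ↥H → V H ≤ H ⊓ Subgroup.centralizer ((H : Subgroup G) : Set G)) (hVmono : ∀ H K : Subgroup G, IsPGroup p ↥H → IsPGroup p ↥K → H ≠ ⊥ → K ≠ ⊥ → H ⊓ Subgroup.centralizer ((H : Subgroup G) : Set G) ≤ K ⊓ Subgroup.centralizer ((K : Subgroup G) : Set G) → V H ≤ V K) (hloc : ∀ H : Subgroup G, (P : Subgroup G) ⊓ Subgroup.centralizer (((P : Subgroup G) : Subgroup G) : Set G) ≤ H → H ≤ (P : Subgroup G) → ∃ Q : Subgroup G, Q ≤ Subgroup.normalizer ((H : Subgroup G) : Set G) ∧ IsPGroup p ↥Q ∧ ¬ p ∣ (Q).relIndex (Subgroup.normalizer ((H : Subgroup G) : Set G)) ∧ ∀ x : G, x ∈ Q ⊓ ⁅Subgroup.normalizer ((H : Subgroup G) :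 Set G), Subgroup.normalizer ((H : Subgroup G) : Set G)⁆ ↔ ∃ a ∈ Q ⊓ ⁅Subgroup.normalizer ((H : Subgroup G) : Set G) ⊓ Subgroup.normalizer ((W Q : Subgroup G) : Set G), Subgroup.normalizer ((H : Subgroup G) : Set G) ⊓ Subgroup.normalizer ((W Q : Subgroup G) : Set G)⁆, ∃ b ∈ Q ⊓ ⁅Subgroup.normalizer ((H : Subgroup G) : Set G) ⊓ Subgroup.centralizer ((V Q : Subgroup G) : Set G), Subgroup.normalizer ((H : Subgroup G) : Set G) ⊓ Subgroup.centralizer ((V Q : Subgroup G) : Set G)⁆, x = a * b) : ∃ Q : Subgroup G, IsPGroup p ↥Q ∧ ¬ p ∣ Q.index ∧ ∀ x : G, x ∈ Q ⊓ commutator G ↔ ∃ a ∈ Q ⊓ ⁅Subgroup.normalizer ((W Q : Subgroup G) : Set G), Subgroup.normalizer ((W Q : Subgroup G) : Set G)⁆, ∃ b ∈ Q ⊓ ⁅Subgroup.centralizer ((V Q : Subgroup G) : Set G), Subgroup.centralizer ((V Q : Subgroup G) : Set G)⁆, x = a * b := by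
  have hP := P.isPGroup'
  have hVmono' : ∀ R : Subgroup G, R ≤ (P : Subgroup G) →
      (P : Subgroup G) ⊓ Subgroup.centralizer ((P : Subgroup G) : Set G) ≤ R → V (P : Subgroup G) ≤ V R := by
    intro R hR hZR
    have hPb : (P : Subgroup G) ≠ ⊥ := fun e => by
      have h1 := P.dvd_card_of_dvd_card hdiv
      rw [e, Subgroup.card_bot, Nat.dvd_one] at h1
      exact (Fact.out : p.Prime).ne_one h1
    have hRb : R ≠ ⊥ := fun e => by
      have h1 := (hV _ hP).2.1 hPb
      exact h1 (le_bot_iff.mp (((hVZ _ hP).trans hZR).trans e.le))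
    exact hVmono _ _ hP (hP.to_le hR) hPb hRb (le_inf hZR (inf_le_right.trans (Subgroup.centralizer_le hR)))
  have hmain := CfsgLib.Local.TransferLocal.controlsTransfer_pair P W V hW hV hWZ hVmono'
    (fun H h1 h2 => by
      obtain ⟨Q, hQN, hQp, hQi, hQ⟩ := hloc H h1 h2
      refine ⟨Q, hQN, hQp, hQi, fun x hx => ?_⟩
      obtain ⟨a, ha, b, hb, rfl⟩ := (hQ x).mp hx
      exact mul_mem (Subgroup.mem_sup_left ⟨ha.1, Subgroup.commutator_mono inf_le_right inf_le_right ha.2⟩)
        (Subgroup.mem_sup_right ⟨hb.1, Subgroup.commutator_mono inf_le_right inf_le_right hb.2⟩))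
  refine ⟨P, hP, P.not_dvd_index, fun x => ⟨fun hx => ?_, ?_⟩⟩
  · set A := (P : Subgroup G) ⊓ ⁅Subgroup.normalizer ((W P : Subgroup G) : Set G), Subgroup.normalizer ((W P : Subgroup G) : Set G)⁆
    set B := (P : Subgroup G) ⊓ ⁅Subgroup.centralizer ((V P : Subgroup G) : Set G), Subgroup.centralizer ((V P : Subgroup G) : Set G)⁆
    have hPC : (P : Subgroup G) ≤ Subgroup.centralizer ((V P : Subgroup G) : Set G) :=
      Subgroup.le_centralizer_iff.mp ((hVZ _ hP).trans inf_le_right)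
    have hAB : A ≤ Subgroup.normalizer (B : Set G) := fun a ha => by
      set C := Subgroup.centralizer ((V P : Subgroup G) : Set G) with hC
      have hCa : C.map (MulAut.conj a).toMonoidHom = C :=
        Subgroup.mem_normalizer_iff_map_conj_eq.1 (Subgroup.le_normalizer (hPC ha.1))
      have hPa : (P : Subgroup G).map (MulAut.conj a).toMonoidHom = P :=
        Subgroup.mem_normalizer_iff_map_conj_eq.1 (Subgroup.le_normalizer ha.1)
      rw [Subgroup.mem_normalizer_iff_map_conj_eq]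
      show B.map (MulAut.conj a).toMonoidHom = B
      rw [show B = (P : Subgroup G) ⊓ ⁅C, C⁆ from rfl,
        Subgroup.map_inf _ _ _ (MulAut.conj a).injective, Subgroup.map_commutator, hPa, hCa]
    have h := hmain hx
    rw [← SetLike.mem_coe, Subgroup.coe_mul_of_left_le_normalizer_right A B hAB] at h
    obtain ⟨a, ha, b, hb, rfl⟩ := h
    exact ⟨a, ha, b, hb, rfl⟩
  · rintro ⟨a, ha, b, hb, rfl⟩
    have hle : ∀ H : Subgroup G, ⁅H, H⁆ ≤ commutator G := fun H =>
      (Subgroup.commutator_mono le_top le_top).trans (commutator_def G).ge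
    exact ⟨mul_mem ha.1 hb.1, mul_mem (hle _ ha.2) (hle _ hb.2)⟩

end Cfsg.Agent.S2001
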