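import Cfsg.Statements.S2002
import Cfsg.Agent.Lib.LocalFusionPair

set_option autoImplicit false
open Cfsg

namespace Cfsg.Agent.S2002

/-- Let p be a prime dividing the order of the finite group G, P a Sylow p-subgroup, W a conjugacy functor for p on G with Z(H) ≤ W(H) for every nontrivial p-subgroup H, and V a central functor (a conjugacy functor with V(H) ≤ Z(H), and V(H) ≤ V(K) whenever Z(H) ≤ Z(K)). Say that W with V controls strong fusion in a subgroup L when some Sylow p-subgroup Q of L has the property: whenever X ⊆ Q and a ∈ L with a⁻¹Xa ⊆ Q, then a = c b with c ∈ C_L(X) and b = b₁ ⋯ bₙ a product of elements each in N_L(W(Q)) or in C_L(V(Q)) such that every partial conjugate (b₁ ⋯ bₖ)⁻¹ X (b₁ ⋯ bₖ) lies in Q. If W with V controls strong fusion in N_G(H) for every subgroup H with Z(P) ≤ H ≤ P, then W with V controls strong fusion in G. -/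
theorem result {G : Type*} [Group G] [Finite G] {p : ℕ} [Fact p.Prime] (hdiv : p ∣ Nat.card G) (P : Sylow p G) (W V : Subgroup G → Subgroup G) (hW : Cfsg.IsConjugacyFunctor p W) (hV : Cfsg.IsConjugacyFunctor p V) (hWZ : ∀ H : Subgroup G, IsPGroup p ↥H → H ⊓ Subgroup.centralizer ((H : Subgroup G) : Set G) ≤ W H) (hVZ : ∀ H : Subgroup G, IsPGroup p ↥H → V H ≤ H ⊓ Subgroup.centralizer ((H : Subgroup G) : Set G)) (hVmono : ∀ H K : Subgroup G, IsPGroup p ↥H → IsPGroup p ↥K → H ≠ ⊥ → K ≠ ⊥ → H ⊓ Subgroup.centralizer ((H : Subgroup G) : Set G) ≤ K ⊓ Subgroup.centralizer ((K : Subgroup G) : Set G) → V H ≤ V K) (hloc : ∀ H : Subgroup G, (P : Subgroup G) ⊓ Subgroup.centralizer (((P : Subgroup G) : Subgroup G) : Set G) ≤ H → H ≤ (P : Subgroup G) → ∃ Q : Subgroup G, Q ≤ Subgroup.normalizer ((H : Subgroup G) : Set G) ∧ IsPGroup p ↥Q ∧ ¬ p ∣ (Q).relIndex (Subgroup.normalizer ((H : Subgroup G) : Set G)) ∧ ∀ (X : Set G)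 (a : G), X ⊆ Q → a ∈ Subgroup.normalizer ((H : Subgroup G) : Set G) → (fun x => a⁻¹ * x * a) '' X ⊆ Q → ∃ c ∈ Subgroup.normalizer ((H : Subgroup G) : Set G) ⊓ Subgroup.centralizer X, ∃ (n : ℕ) (b : Fin n → G), (∀ i, b i ∈ Subgroup.normalizer ((H : Subgroup G) : Set G) ⊓ Subgroup.normalizer ((W Q : Subgroup G) : Set G) ∨ b i ∈ Subgroup.normalizer ((H : Subgroup G) : Set G) ⊓ Subgroup.centralizer ((V Q : Subgroup G) : Set G)) ∧ a = c * (List.ofFn b).prod ∧ ∀ k : ℕ, k ≤ n → (fun x => (((List.ofFn b).take k).prod)⁻¹ * x * ((List.ofFn b).take k).prod) '' ((fun x => c⁻¹ * x * c) '' X) ⊆ Q) : ∃ Q : Subgroup G, IsPGroup p ↥Q ∧ ¬ p ∣ Q.index ∧ ∀ (X : Set G) (a : G), X ⊆ Q → (fun x => a⁻¹ * x * a) '' X ⊆ Q → ∃ c ∈ Subgroup.centralizer X, ∃ (n : ℕ) (b : Fin n → G), (∀ i, b i ∈ ⊤ ⊓ Subgroup.normalizer ((W Q : Subgroup G) : Set G) ∨ b i ∈ ⊤ ⊓ Subgroup.centralizer ((V Q : Subgroup G) : Set G)) ∧ a = c * (List.ofFn b).prod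 ∧ ∀ k : ℕ, k ≤ n → (fun x => (((List.ofFn b).take k).prod)⁻¹ * x * ((List.ofFn b).take k).prod) '' ((fun x => c⁻¹ * x * c) '' X) ⊆ Q := by
  have hP := P.isPGroup'
  have hVmono' : ∀ R : Subgroup G, R ≤ (P : Subgroup G) →
      (P : Subgroup G) ⊓ Subgroup.centralizer ((P : Subgroup G) : Set G) ≤ R → V (P : Subgroup G) ≤ V R := by
    intro R hR hZR
    have hPb : (P : Subgroup G) ≠ ⊥ := fun e => by
      have h1 := P.dvd_card_of_dvd_card hdiv
      rw [e, Subgroup.card_bot, Nat.dvd_one] at h1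
      exact (Fact.out : p.Prime).ne_one h1
    have hRb : R ≠ ⊥ := fun e =>
      (hV _ hP).2.1 hPb (le_bot_iff.mp (((hVZ _ hP).trans hZR).trans e.le))
    exact hVmono _ _ hP (hP.to_le hR) hPb hRb (le_inf hZR (inf_le_right.trans (Subgroup.centralizer_le hR)))
  have hloc' : ∀ H : Subgroup G, (P : Subgroup G) ⊓ Subgroup.centralizer ((P : Subgroup G) : Set G) ≤ H →
      H ≤ (P : Subgroup G) → ∃ Q : Subgroup G, Q ≤ Subgroup.normalizer (H : Set G) ∧ IsPGroup p ↥Q ∧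
        ¬ p ∣ Q.relIndex (Subgroup.normalizer (H : Set G)) ∧
        ∀ (B : Set G) (y : G), B ⊆ Q → y ∈ Subgroup.normalizer (H : Set G) → CfsgLib.Local.rc y B ⊆ Q →
          CfsgLib.Local.FusionPair.Chain W V Q B y := by
    intro H h1 h2
    obtain ⟨Q, hQN, hQp, hQi, hQ⟩ := hloc H h1 h2
    refine ⟨Q, hQN, hQp, hQi, fun B y hB hy hyB => ?_⟩
    obtain ⟨c, hc, n, b, hb, hyc, hpre⟩ := hQ B y hB hy hyB
    have hcB : ∀ a ∈ B, c⁻¹ * a * c = a := fun a ha => by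
      rw [mul_assoc, Subgroup.mem_centralizer_iff.mp hc.2 a ha, inv_mul_cancel_left]
    refine ⟨List.ofFn b, fun x hx => ?_, fun k _ hk => ?_, fun a ha => ?_⟩
    · obtain ⟨i, rfl⟩ := List.mem_ofFn.mp hx
      exact (hb i).imp (fun h => h.2) (fun h => h.2)
    · rintro _ ⟨a, ha, rfl⟩
      exact hpre k (by simpa using hk) ⟨a, ⟨a, ha, hcB a ha⟩, rfl⟩
    · calc y⁻¹ * a * y = (List.ofFn b).prod⁻¹ * (c⁻¹ * a * c) * (List.ofFn b).prod := by rw [hyc]; group
        _ = _ := by rw [hcB a ha]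
  refine ⟨P, hP, P.not_dvd_index, fun X a hX haX => ?_⟩
  obtain ⟨l, hl1, hl2, hl3⟩ :=
    CfsgLib.Local.FusionPair.chain_of_local P W V hW hV hWZ hVmono' hloc' X a hX haX
  have hc : a * l.prod⁻¹ ∈ Subgroup.centralizer X := by
    rw [Subgroup.mem_centralizer_iff]
    intro x hx
    calc x * (a * l.prod⁻¹) = a * (a⁻¹ * x * a) * l.prod⁻¹ := by group
      _ = a * (l.prod⁻¹ * x * l.prod) * l.prod⁻¹ := by rw [hl3 x hx]
      _ = _ := by group
  refine ⟨_, hc, l.length, fun i => l[i.val], fun i => ?_, ?_, fun k hk => ?_⟩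
  · simpa [top_inf_eq] using hl1 _ (List.getElem_mem i.2)
  · rw [List.ofFn_getElem]; group
  · rw [List.ofFn_getElem]
    rintro _ ⟨_, ⟨x, hx, rfl⟩, rfl⟩
    have e : (a * l.prod⁻¹)⁻¹ * x * (a * l.prod⁻¹) = x := by
      rw [mul_assoc, Subgroup.mem_centralizer_iff.mp hc x hx, inv_mul_cancel_left]
    simp only [e]
    rcases Nat.eq_zero_or_pos k with rfl | hpos
    · simpa using hX hx
    · exact hl2 k hpos hk ⟨x, hx, rfl⟩

end Cfsg.Agent.S2002
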