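import Cfsg.Statements.S2015
import Cfsg.Agent.Lib.LocalKInfApps

set_option autoImplicit false
universe u
open Cfsg

namespace Cfsg.Agent.S2015

/-- For p ≥ 5, every finite p-group P has a characteristic subgroup K containing Z(P), depending only on P, whose normalizer controls transfer wherever P is a Sylow subgroup: for every finite group G and every embedding ι of P onto a Sylow p-subgroup of G, the intersection of ι(P) with the derived subgroup of G equals its intersection with the derived subgroup of N_G(ι(K)). -/
theorem result (p : ℕ) [Fact p.Prime] (hp : 5 ≤ p) (P : Type u) [Group P] [Finite P] (hP : IsPGroup p P) : ∃ K : Subgroup P, K.Characteristic ∧ Subgroup.center P ≤ K ∧ ∀ (G : Type u) [Group G] [Finite G] (ι : P →* G), Function.Injective ι → (∃ T : Sylow p G, (T : Subgroup G) = ι.range) → ι.range ⊓ commutator G = ι.range ⊓ (commutator ↥(Subgroup.normalizer ((K.map ι : Subgroup G) : Set G))).map (Subgroup.normalizer ((K.map ι : Subgroup G) : Set G)).subtype := by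
  refine ⟨Cfsg.kInfLower P, ?_, ?_, ?_⟩
  · refine Subgroup.characteristic_iff_map_eq.2 fun φ => ?_
    exact (CfsgLib.Local.KInf.isCharPFunctor_kInfLower p).2 P P hP φ
  · rw [← CfsgLib.Local.KInf.lowerInf_top]
    refine le_trans ?_ (CfsgLib.Local.KInf.center_le_lowerInf (⊤ : Subgroup P))
    exact fun z hz => ⟨trivial, Subgroup.mem_centralizer_iff.2 fun a _ => Subgroup.mem_center_iff.1 hz a⟩
  · rintro G _ _ ι hι ⟨T, hT⟩
    have hK : Cfsg.inducedFunctor Cfsg.kInfLower ι.range = (Cfsg.kInfLower P).map ι := by
      rw [CfsgLib.Local.KInf.inducedFunctor_kInfLower, MonoidHom.range_eq_map,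
        CfsgLib.Local.KInf.lowerInf_map ι hι, CfsgLib.Local.KInf.lowerInf_top]
    have h := CfsgLib.Local.TransferCtl.controlsTransfer_of_ctl
      (CfsgLib.Local.KInf.ctl_kInfLower hp) T
    rw [hT] at h
    rw [Subgroup.map_subtype_commutator, ← hK]
    exact h

end Cfsg.Agent.S2015
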