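import Cfsg.Statements.S2162
import Cfsg.Agent.Lib.LieGLUnipotent

set_option autoImplicit false
open Cfsg CfsgLib.Lie.GLUnipotent

namespace Cfsg.Agent.S2162

section

variable {F : Type*} [Field F]

open Polynomial in
/-- Scaling one Jordan component gives a commuting map of prescribed determinant. -/
theorem exists_commute_det {V : Type*} [AddCommGroup V] [Module F V] (f : Module.End F V) {ι : Type*}
    [Fintype ι] [DecidableEq ι] {e : ι → ℕ} (φ : Module.AEval' f ≃ₗ[F[X]] (∀ i, J F (e i))) (i₀ : ι) (c : F) :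
    ∃ z : Module.End F V, z * f = f * z ∧ LinearMap.det z = c ^ e i₀ := by
  classical
  haveI : ∀ i, Module.Finite F (J F (e i)) := fun i => finite_J (e i)
  let d : ι → F := fun i => if i = i₀ then c else 1
  let s : Module.End F (∀ i, J F (e i)) := LinearMap.pi fun i => d i • LinearMap.proj i
  let L : V ≃ₗ[F] (∀ i, J F (e i)) := (Module.AEval'.of f).trans (φ.restrictScalars F)
  refine ⟨L.symm.conj s, ?_, ?_⟩
  · refine LinearMap.ext fun x => L.injective ?_
    have hf : ∀ y, L (f y) = (X : F[X]) • L y := by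
      intro y
      show φ (Module.AEval'.of f (f y)) = _
      rw [← Module.AEval'.X_smul_of, map_smul]
      rfl
    rw [Module.End.mul_apply, Module.End.mul_apply, LinearEquiv.conj_apply_apply, hf,
      LinearEquiv.conj_apply_apply, LinearEquiv.symm_symm, L.apply_symm_apply, L.apply_symm_apply, hf]
    refine funext fun i => ?_
    show d i • ((X : F[X]) • L x i) = (X : F[X]) • (d i • L x i)
    exact smul_comm _ _ _
  · let bs : ∀ i, Module.Basis (Fin (e i)) F (J F (e i)) := fun i =>
      (Module.finBasisOfFinrankEq F (J F (e i)) (finrank_J (e i)))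
    let b := Pi.basis bs
    rw [LinearEquiv.conj_apply, LinearMap.comp_assoc, LinearMap.det_conj, ← LinearMap.det_toMatrix b]
    have hs : LinearMap.toMatrix b b s = Matrix.diagonal (fun j : Σ i, Fin (e i) => d j.1) := by
      ext i j
      have hsj : s (b j) = d j.1 • b j := by
        refine funext fun k => ?_
        show d k • b j k = d j.1 • b j k
        by_cases hk : k = j.1
        · rw [hk]
        · simp [b, Pi.basis_apply, Pi.single_eq_of_ne hk]
      rw [LinearMap.toMatrix_apply, hsj, map_smul, Module.Basis.repr_self, Matrix.diagonal_apply,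
        Finsupp.smul_apply, Finsupp.single_apply]
      by_cases hij : i = j
      · subst hij; simp
      · simp [hij, Ne.symm hij]
    rw [hs, Matrix.det_diagonal, Fintype.prod_sigma]
    simp [d]

end

/-- Conjugacy of involutions in the special linear group over a finite field of characteristic two, in dimension at least 3: two elements of order 2 of SL_n(F) are conjugate in SL_n(F) exactly when the matrices a − 1 and b − 1 have the same rank (the rank of a − 1 is the dimension of the commutator space [V, a]). -/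
theorem result {F : Type*} [Field F] [Fintype F] [CharP F 2] {n : ℕ} (hn : 3 ≤ n) (a b : Matrix.SpecialLinearGroup (Fin n) F) (ha : orderOf a = 2) (hb : orderOf b = 2) :
    IsConj a b ↔ ((a : Matrix (Fin n) (Fin n) F) - 1).rank = ((b : Matrix (Fin n) (Fin n) F) - 1).rank := by
  classical
  constructor
  · intro h
    obtain ⟨u, hu⟩ := isConj_iff.1 h
    have hconj : (b : Matrix (Fin n) (Fin n) F) - 1 = (u : Matrix (Fin n) (Fin n) F) *
        ((a : Matrix (Fin n) (Fin n) F) - 1) * ((u⁻¹ : Matrix.SpecialLinearGroup (Fin n) F) : Matrix (Fin n) (Fin n) F) := by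
      rw [← hu, mul_sub, sub_mul, mul_one, ← Matrix.SpecialLinearGroup.coe_mul, ← Matrix.SpecialLinearGroup.coe_mul,
        ← Matrix.SpecialLinearGroup.coe_mul, mul_inv_cancel, Matrix.SpecialLinearGroup.coe_one]
    rw [hconj, Matrix.rank_mul_eq_left_of_isUnit_det _ _ (by rw [Matrix.SpecialLinearGroup.det_coe]; exact isUnit_one),
      Matrix.rank_mul_eq_right_of_isUnit_det _ _ (by rw [Matrix.SpecialLinearGroup.det_coe]; exact isUnit_one)]
  intro hrank
  haveI : Nonempty (Fin n) := ⟨⟨0, by omega⟩⟩
  haveI : CharP (Module.End F (Fin n → F)) 2 :=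
    charP_of_injective_ringHom (algebraMap F (Module.End F (Fin n → F))).injective 2
  have hsq : ∀ x : Matrix.SpecialLinearGroup (Fin n) F, orderOf x = 2 →
      ((Matrix.toLinAlgEquiv' (x : Matrix (Fin n) (Fin n) F)) - 1) ^ 2 = 0 := by
    intro x hx
    have h1 : (Matrix.toLinAlgEquiv' (x : Matrix (Fin n) (Fin n) F)) ^ 2 = 1 := by
      rw [← map_pow, ← Matrix.SpecialLinearGroup.coe_pow, ← hx, pow_orderOf_eq_one,
        Matrix.SpecialLinearGroup.coe_one, map_one]
    rw [sub_pow_char_of_commute (p := 2) (Commute.one_right _), one_pow, h1, sub_self]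
  obtain ⟨ι, _, e, hpos, ⟨φ⟩⟩ := exists_type _ (hsq a ha)
  obtain ⟨κ, _, e', hpos', hg⟩ := exists_type _ (hsq b hb)
  have hf : HasType (Matrix.toLinAlgEquiv' (a : Matrix (Fin n) (Fin n) F)) ι e := ⟨φ⟩
  have hr1 : ∀ M : Matrix (Fin n) (Fin n) F,
      Module.finrank F (LinearMap.range (Matrix.toLinAlgEquiv' M - 1)) = (M - 1).rank := by
    intro M
    rw [show Matrix.toLinAlgEquiv' M - 1 = Matrix.toLinAlgEquiv' (M - 1) by rw [map_sub, map_one]]
    rfl
  have hr : ∀ k, Module.finrank F (LinearMap.range ((Matrix.toLinAlgEquiv' (a : Matrix (Fin n) (Fin n) F) - 1) ^ k)) =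
      Module.finrank F (LinearMap.range ((Matrix.toLinAlgEquiv' (b : Matrix (Fin n) (Fin n) F) - 1) ^ k)) := by
    intro k
    match k with
    | 0 => rw [pow_zero, pow_zero]
    | 1 => rw [pow_one, pow_one, hr1, hr1, hrank]
    | k + 2 => rw [pow_eq_zero_of_le (by omega : 2 ≤ k + 2) (hsq a ha), pow_eq_zero_of_le (by omega : 2 ≤ k + 2) (hsq b hb)]
  have hmap : (Finset.univ : Finset ι).val.map e = (Finset.univ : Finset κ).val.map e' := by
    refine Multiset.ext.2 fun k => ?_
    rcases Nat.eq_zero_or_pos k with rfl | hk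
    · rw [Multiset.count_eq_zero.2 fun h => by obtain ⟨i, _, hi⟩ := Multiset.mem_map.1 h; exact (hpos i).ne' hi,
        Multiset.count_eq_zero.2 fun h => by obtain ⟨i, _, hi⟩ := Multiset.mem_map.1 h; exact (hpos' i).ne' hi]
    · have h1 := count_of_rank e k hk
      have h2 := count_of_rank e' k hk
      simp only [← finrank_range_pow hf, hr] at h1
      simp only [← finrank_range_pow hg] at h2
      omega
  obtain ⟨P, hP⟩ := conj_of_type hf hg hmap
  have hne : Nonempty ι := by
    by_contra h
    rw [not_nonempty_iff] at h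
    have h0 := finrank_range_pow hf 0
    rw [Finset.sum_of_isEmpty, pow_zero, Module.End.one_eq_id, LinearMap.range_id, finrank_top,
      Module.finrank_fin_fun] at h0
    omega
  obtain ⟨i₀⟩ := hne
  have hPdet : LinearMap.det P.toLinearMap ≠ 0 := P.isUnit_det'.ne_zero
  have he2 : e i₀ = 1 ∨ e i₀ = 2 := by
    have h2 := finrank_range_pow hf 2
    rw [hsq a ha, LinearMap.range_zero, finrank_bot] at h2
    have h3 := Finset.sum_eq_zero_iff.1 h2.symm i₀ (Finset.mem_univ _)
    have := hpos i₀
    omega
  obtain ⟨c, hc⟩ : ∃ c : F, c ^ e i₀ = (LinearMap.det P.toLinearMap)⁻¹ := by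
    rcases he2 with h | h
    · exact ⟨_, by rw [h, pow_one]⟩
    · obtain ⟨c, hc⟩ := FiniteField.isSquare_of_char_two (ringChar.eq F 2) (LinearMap.det P.toLinearMap)⁻¹
      exact ⟨c, by rw [h, sq, hc]⟩
  obtain ⟨z, hz, hzd⟩ := exists_commute_det _ φ i₀ c
  have hdet : LinearMap.det (P.toLinearMap * z) = 1 := by
    rw [map_mul, hzd, hc, mul_inv_cancel₀ hPdet]
  let U : Matrix.SpecialLinearGroup (Fin n) F :=
    ⟨LinearMap.toMatrix' (P.toLinearMap * z), by rw [LinearMap.det_toMatrix']; exact hdet⟩
  refine isConj_iff.2 ⟨U, mul_inv_eq_iff_eq_mul.2 ?_⟩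
  refine Subtype.ext ?_
  refine Matrix.toLin'.injective (LinearMap.ext fun x => ?_)
  show Matrix.toLin' (LinearMap.toMatrix' (P.toLinearMap * z) * _) x =
    Matrix.toLin' (_ * LinearMap.toMatrix' (P.toLinearMap * z)) x
  rw [Matrix.toLin'_mul_apply, Matrix.toLin'_mul_apply, Matrix.toLin'_toMatrix', Module.End.mul_apply,
    Module.End.mul_apply]
  have hzx := LinearMap.congr_fun hz x
  simp only [Module.End.mul_apply] at hzx
  show P (z (Matrix.toLinAlgEquiv' (a : Matrix (Fin n) (Fin n) F) x)) = _
  rw [hzx, hP]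
  rfl

end Cfsg.Agent.S2162
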