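import Cfsg.Statements.S2163

set_option autoImplicit false
open Cfsg

namespace Cfsg.Agent.S2163

/-- Over a finite field of characteristic two and for n ≥ 3: for every ℓ with 1 ≤ ℓ and 2ℓ ≤ n, the matrix j_ℓ that is the identity plus the entries 1 in positions (n − ℓ + i, i) for i < ℓ (an identity block of size ℓ in the lower left corner) lies in SL_n(F), has order 2, and j_ℓ − 1 has rank ℓ. Together with the conjugacy criterion by rank, these matrices represent the conjugacy classes of involutions of SL_n(F). -/
theorem result {F : Type*} [Field F] [Fintype F] [CharP F 2] {n : ℕ} (hn : 3 ≤ n) (ℓ : ℕ) (h1 : 1 ≤ ℓ) (h2 : 2 * ℓ ≤ n) :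
    ∃ a : Matrix.SpecialLinearGroup (Fin n) F, (a : Matrix (Fin n) (Fin n) F) = 1 + Matrix.of (fun i j : Fin n => if j.val < ℓ ∧ i.val = j.val + (n - ℓ) then (1 : F) else 0) ∧ orderOf a = 2 ∧ ((a : Matrix (Fin n) (Fin n) F) - 1).rank = ℓ := by
  classical
  set N : Matrix (Fin n) (Fin n) F :=
    Matrix.of (fun i j : Fin n => if j.val < ℓ ∧ i.val = j.val + (n - ℓ) then (1 : F) else 0) with hN
  have hNN : N * N = 0 := by
    ext i k
    rw [Matrix.mul_apply]
    refine Finset.sum_eq_zero fun j _ => ?_
    simp only [hN, Matrix.of_apply]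
    split_ifs with h1' h2' <;> simp
    omega
  have hdet : (1 + N).det = 1 := by
    rw [Matrix.det_of_lowerTriangular]
    · refine Finset.prod_eq_one fun i _ => ?_
      simp only [hN, Matrix.add_apply, Matrix.one_apply_eq, Matrix.of_apply]
      rw [if_neg (by omega), add_zero]
    · intro i j hij
      have hij' : i < j := hij
      simp only [hN, Matrix.add_apply, Matrix.one_apply_ne hij'.ne, Matrix.of_apply, zero_add]
      rw [if_neg]
      rintro ⟨-, h⟩
      rw [Fin.lt_def] at hij'
      omega
  refine ⟨⟨1 + N, hdet⟩, rfl, ?_, ?_⟩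
  · have hne : N ≠ 0 := fun e => by
      have := congrFun (congrFun e ⟨n - ℓ, by omega⟩) ⟨0, by omega⟩
      simp [hN] at this
      omega
    refine orderOf_eq_prime (Subtype.ext ?_) (fun e => hne ?_)
    · show (1 + N) ^ 2 = 1
      rw [sq]
      rw [add_mul, mul_add, mul_add, one_mul, one_mul, mul_one, hNN, add_zero, add_assoc,
        ← two_smul F N, CharTwo.two_eq_zero, zero_smul, add_zero]
    · have := congrArg (fun a : Matrix.SpecialLinearGroup (Fin n) F => (a : Matrix (Fin n) (Fin n) F)) e
      simpa using this
  · show ((1 + N) - 1).rank = ℓ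
    rw [add_sub_cancel_left]
    let r : Fin ℓ → Fin n := fun t => ⟨n - ℓ + t.val, by have := t.isLt; omega⟩
    let c : Fin ℓ → Fin n := fun t => ⟨t.val, by have := t.isLt; omega⟩
    refine le_antisymm ?_ ?_
    · refine (Matrix.rank_le_card_of_support_subset N (Finset.univ.image r) ?_).trans
        (Finset.card_image_le.trans (by simp))
      intro i hi
      by_contra hni
      refine hi (funext fun j => ?_)
      show N i j = 0
      simp only [hN, Matrix.of_apply]
      rw [if_neg]
      rintro ⟨hj, he⟩
      exact hni (Finset.mem_coe.2 (Finset.mem_image.2 ⟨⟨j.val, hj⟩, Finset.mem_univ _, Fin.ext (by simp [r]; omega)⟩))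
    · have h : N.submatrix r c = 1 := by
        ext s t
        simp only [Matrix.submatrix_apply, hN, Matrix.of_apply, r, c, Matrix.one_apply, Fin.ext_iff]
        have := t.isLt
        by_cases h : s.val = t.val
        · rw [if_pos h, if_pos ⟨this, by omega⟩]
        · rw [if_neg h, if_neg (fun hh => h (by omega))]
      have := Matrix.rank_submatrix_le N r c
      rwa [h, Matrix.rank_one, Fintype.card_fin] at this

end Cfsg.Agent.S2163
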