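import Cfsg.Statements.S2165

set_option autoImplicit false
open Cfsg

namespace Cfsg.Agent.S2165

open scoped Matrix

/-- In SU_n(q), q even, n ≥ 3 (matrices of determinant 1 over the field with q² elements preserving Σ u_i v_i^q): for every ℓ with 1 ≤ ℓ and 2ℓ ≤ n, the permutation matrix of the involution of {0, …, n−1} exchanging i and n − ℓ + i for each i < ℓ lies in SU_n(q), has order 2, and differs from the identity by a matrix of rank ℓ. So every rank between 1 and n/2 occurs for involutions of SU_n(q). -/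
theorem result {F : Type*} [Field F] [Fintype F] [CharP F 2] {n q : ℕ} (hF : Fintype.card F = q ^ 2) (hn : 3 ≤ n) (ℓ : ℕ) (h1 : 1 ≤ ℓ) (h2 : 2 * ℓ ≤ n) :
    ∃ a : ↥(Cfsg.SU n F q), (((a : Matrix.SpecialLinearGroup (Fin n) F) : Matrix (Fin n) (Fin n) F) = Matrix.of (fun i j : Fin n => if (j.val < ℓ ∧ i.val = j.val + (n - ℓ)) ∨ (i.val < ℓ ∧ j.val = i.val + (n - ℓ)) ∨ (i = j ∧ ℓ ≤ i.val ∧ i.val < n - ℓ) then (1 : F) else 0)) ∧ orderOf a = 2 ∧ ((((a : Matrix.SpecialLinearGroup (Fin n) F) : Matrix (Fin n) (Fin n) F)) - 1).rank = ℓ := by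
  classical
  have hq0 : q ≠ 0 := by
    rintro rfl
    exact absurd hF (by simp)
  let f : Fin n → Fin n := fun i => if h : i.val < ℓ then ⟨i.val + (n - ℓ), by omega⟩
    else if h' : n - ℓ ≤ i.val then ⟨i.val - (n - ℓ), by omega⟩ else i
  have hfv : ∀ i, (f i).val = if i.val < ℓ then i.val + (n - ℓ) else if n - ℓ ≤ i.val then i.val - (n - ℓ) else i.val := by
    intro i
    simp only [f]
    split_ifs <;> rfl
  have hf : ∀ i, f (f i) = i := by
    intro i
    have := i.isLt
    refine Fin.ext ?_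
    rw [hfv, hfv]
    split_ifs <;> omega
  let σ : Equiv.Perm (Fin n) := Function.Involutive.toPerm f hf
  set M : Matrix (Fin n) (Fin n) F := Matrix.of (fun i j : Fin n =>
    if (j.val < ℓ ∧ i.val = j.val + (n - ℓ)) ∨ (i.val < ℓ ∧ j.val = i.val + (n - ℓ)) ∨ (i = j ∧ ℓ ≤ i.val ∧ i.val < n - ℓ)
      then (1 : F) else 0) with hM
  have hMσ : M = σ.permMatrix F := by
    ext i j
    have hi := i.isLt
    have hj := j.isLt
    have key : ((j.val < ℓ ∧ i.val = j.val + (n - ℓ)) ∨ (i.val < ℓ ∧ j.val = i.val + (n - ℓ)) ∨ (i = j ∧ ℓ ≤ i.val ∧ i.val < n - ℓ)) ↔ f i = j := by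
      rw [Fin.ext_iff (a := f i), hfv, Fin.ext_iff]
      split_ifs <;> omega
    simp only [hM, Matrix.of_apply, Equiv.Perm.permMatrix, PEquiv.toMatrix_apply, Equiv.toPEquiv_apply,
      Option.mem_def, Option.some_inj, key]
    rfl
  have hact : ∀ v : Fin n → F, M *ᵥ v = v ∘ f := fun v => by
    funext i
    rw [hMσ, Matrix.permMatrix_mulVec]; rfl
  have hdet : M.det = 1 := by
    rw [hMσ, Matrix.det_permutation]
    rcases Int.units_eq_one_or (Equiv.Perm.sign σ) with h | h <;> simp [h, CharTwo.neg_eq]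
  have hmem : (⟨M, hdet⟩ : Matrix.SpecialLinearGroup (Fin n) F) ∈ Cfsg.SU n F q := by
    show ∀ u v, _ = _
    intro u v
    show Cfsg.hermForm n F q (M *ᵥ u) (M *ᵥ v) = _
    rw [hact, hact]
    exact Equiv.sum_comp σ (fun i => u i * v i ^ q)
  have hMM : M * M = 1 := by
    refine Matrix.toLin'.injective (LinearMap.ext fun v => ?_)
    rw [Matrix.toLin'_apply, Matrix.toLin'_apply, ← Matrix.mulVec_mulVec, hact, hact, Matrix.one_mulVec]
    funext i; exact congrArg v (hf i)
  refine ⟨⟨⟨M, hdet⟩, hmem⟩, rfl, orderOf_eq_prime (Subtype.ext (Subtype.ext (by rw [sq]; exact hMM))) ?_, ?_⟩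
  · intro e
    have h := congrArg (fun a : ↥(Cfsg.SU n F q) => ((a : Matrix.SpecialLinearGroup (Fin n) F) : Matrix (Fin n) (Fin n) F) ⟨0, by omega⟩ ⟨0, by omega⟩) e
    simp [hM] at h
    omega
  · show (M - 1).rank = ℓ
    let r : Fin ℓ → Fin n := fun t => ⟨n - ℓ + t.val, by have := t.isLt; omega⟩
    let c : Fin ℓ → Fin n := fun t => ⟨t.val, by have := t.isLt; omega⟩
    refine le_antisymm ?_ ?_
    · let U : Matrix (Fin n) (Fin ℓ) F := Matrix.of fun i t => if i = r t ∨ i = c t then 1 else 0
      have e : M - 1 = U * U.transpose := by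
        ext i j
        have hi := i.isLt
        have hj := j.isLt
        rw [Matrix.sub_apply, CharTwo.sub_eq_add, Matrix.mul_apply]
        simp only [ hM, Matrix.of_apply, Matrix.one_apply, Matrix.transpose_apply, U, r, c, Fin.ext_iff]
        by_cases hb : i.val < ℓ ∨ n - ℓ ≤ i.val
        · let t : Fin ℓ := if h : i.val < ℓ then ⟨i.val, h⟩ else ⟨i.val - (n - ℓ), by omega⟩
          have ht : (i.val < ℓ ∧ t.val = i.val) ∨ (¬ i.val < ℓ ∧ t.val = i.val - (n - ℓ)) := by
            simp only [t]; split_ifs with h <;> simp [h]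
          rw [Finset.sum_eq_single t (fun s _ hs => by
            rw [if_neg (fun h => hs (Fin.ext (by have := s.isLt; have := t.isLt; omega))), zero_mul]) (fun h => absurd (Finset.mem_univ _) h),
            if_pos (show i.val = n - ℓ + t.val ∨ i.val = t.val by rcases ht with ⟨_, h⟩ | ⟨_, h⟩ <;> omega), one_mul]
          have := t.isLt
          split_ifs <;> first | (exfalso; omega) | simp
        · rw [Finset.sum_eq_zero fun s _ => by rw [if_neg (by have := s.isLt; omega), zero_mul]]
          split_ifs <;> first | (exfalso; omega) | simp [CharTwo.add_self_eq_zero]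
      rw [e]
      exact (Matrix.rank_mul_le_left _ _).trans (Matrix.rank_le_width _)
    · have h : (M - 1).submatrix r c = 1 := by
        ext s t
        have := t.isLt
        have := s.isLt
        simp only [Matrix.submatrix_apply, Matrix.sub_apply, hM, Matrix.of_apply, r, c, Matrix.one_apply, Fin.ext_iff]
        split_ifs <;> first | (exfalso; omega) | simp
      have := Matrix.rank_submatrix_le (M - 1) r c
      rwa [h, Matrix.rank_one, Fintype.card_fin] at this

end Cfsg.Agent.S2165
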