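import Cfsg.Statements.S2167
import Cfsg.Agent.Lib.ClassicalAlt

set_option autoImplicit false
open Cfsg

namespace Cfsg.Agent.S2167

open scoped Matrix

/-- For an involution t of the symplectic group Sp_{2m}(F), m ≥ 2, F a finite field of characteristic two (matrices A with A J Aᵀ = J acting on column vectors, alternating form f(u, v) = u ⬝ (J v)): the set V(t) of vectors v with f(v, t v) = 0 has either q^{2m} or q^{2m−1} elements, q the order of F (it is a subspace of codimension at most 1), and if it is the whole space then t − 1 has even rank. -/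
theorem result {F : Type*} [Field F] [Fintype F] [CharP F 2] {m : ℕ} (hm : 2 ≤ m) (a : ↥(Matrix.symplecticGroup (Fin m) F)) (ha : orderOf a = 2) :
    (Nat.card {v : Fin m ⊕ Fin m → F // Cfsg.sympForm m F v (Matrix.mulVec ((a : ↥(Matrix.symplecticGroup (Fin m) F)) : Matrix (Fin m ⊕ Fin m) (Fin m ⊕ Fin m) F) v) = 0} = Fintype.card F ^ (2 * m) ∨ Nat.card {v : Fin m ⊕ Fin m → F // Cfsg.sympForm m F v (Matrix.mulVec ((a : ↥(Matrix.symplecticGroup (Fin m) F)) : Matrix (Fin m ⊕ Fin m) (Fin m ⊕ Fin m) F) v) = 0} * Fintype.card F = Fintype.card F ^ (2 * m)) ∧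
    ((∀ v : Fin m ⊕ Fin m → F, Cfsg.sympForm m F v (Matrix.mulVec ((a : ↥(Matrix.symplecticGroup (Fin m) F)) : Matrix (Fin m ⊕ Fin m) (Fin m ⊕ Fin m) F) v) = 0) → Even (((a : ↥(Matrix.symplecticGroup (Fin m) F)) : Matrix (Fin m ⊕ Fin m) (Fin m ⊕ Fin m) F) - 1).rank) := by
  classical
  set A : Matrix (Fin m ⊕ Fin m) (Fin m ⊕ Fin m) F := (a : Matrix (Fin m ⊕ Fin m) (Fin m ⊕ Fin m) F) with hA
  set f := Cfsg.sympForm m F with hf
  have hAA : A * A = 1 := by
    have h := congrArg (fun x : ↥(Matrix.symplecticGroup (Fin m) F) => (x : Matrix (Fin m ⊕ Fin m) (Fin m ⊕ Fin m) F))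
      (ha ▸ pow_orderOf_eq_one a : a ^ 2 = 1)
    simpa [sq] using h
  have hiso : ∀ u v, f (A *ᵥ u) (A *ᵥ v) = f u v := fun u v => by
    simp only [hf, Cfsg.sympForm]
    conv_rhs => rw [← (SymplecticGroup.mem_iff').1 a.2]
    rw [← Matrix.mulVec_mulVec, ← Matrix.mulVec_mulVec, Matrix.dotProduct_mulVec u Aᵀ, Matrix.vecMul_transpose]
  have haddl : ∀ u u' v, f (u + u') v = f u v + f u' v := fun u u' v => add_dotProduct _ _ _
  have haddr : ∀ u v v', f u (v + v') = f u v + f u v' := fun u v v' => by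
    simp only [hf, Cfsg.sympForm]; rw [Matrix.mulVec_add, dotProduct_add]
  have hsymm : ∀ u v, f u v = f v u := fun u v => by
    simp only [hf, Cfsg.sympForm]
    rw [Matrix.dotProduct_mulVec, dotProduct_comm, ← Matrix.mulVec_transpose, Matrix.J_transpose, Matrix.neg_mulVec,
      dotProduct_neg, CharTwo.neg_eq]
  have hself : ∀ v, f v v = 0 := fun v => by
    simp [hf, Cfsg.sympForm, dotProduct, Matrix.mulVec, Matrix.J, Fintype.sum_sum_type, Matrix.one_apply, mul_comm]
  have hback : ∀ v, A *ᵥ (A *ᵥ v) = v := fun v => by rw [Matrix.mulVec_mulVec, hAA, Matrix.one_mulVec]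
  have hswap : ∀ u v, f u (A *ᵥ v) = f v (A *ᵥ u) := fun u v => by
    rw [← hiso u (A *ᵥ v), hback, hsymm]
  haveI : Nonempty (Fin m ⊕ Fin m) := ⟨Sum.inl ⟨0, by omega⟩⟩
  constructor
  · let φ : (Fin m ⊕ Fin m → F) →+ F :=
      AddMonoidHom.mk' (fun v => f v (A *ᵥ v)) fun u v => by
        show f (u + v) (A *ᵥ (u + v)) = f u (A *ᵥ u) + f v (A *ᵥ v)
        rw [Matrix.mulVec_add, haddl, haddr, haddr, hswap v u]
        linear_combination CharTwo.two_eq_zero (R := F) * f u (A *ᵥ v)
    have hker : Nat.card {v : Fin m ⊕ Fin m → F // f v (A *ᵥ v) = 0} = Nat.card φ.ker :=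
      Nat.card_congr (Equiv.subtypeEquivRight fun v => Iff.rfl)
    have hcard : Nat.card φ.range * Nat.card φ.ker = Fintype.card F ^ (2 * m) := by
      rw [← Nat.card_congr (QuotientAddGroup.quotientKerEquivRange φ).toEquiv, ← AddSubgroup.card_eq_card_quotient_mul_card_addSubgroup,
        Nat.card_eq_fintype_card, Fintype.card_fun, Fintype.card_sum, Fintype.card_fin, two_mul]
    rw [hker]
    by_cases h0 : ∀ v, φ v = 0
    · left
      rw [← hcard]
      have : φ.range = ⊥ := (AddSubgroup.eq_bot_iff_forall _).2 (by rintro _ ⟨v, rfl⟩; exact h0 v)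
      rw [this, AddSubgroup.card_bot, one_mul]
    · right
      push Not at h0
      obtain ⟨v, hv⟩ := h0
      have : φ.range = ⊤ := by
        refine (AddSubgroup.eq_top_iff' _).2 fun x => ?_
        haveI : ExpChar F 2 := ExpChar.prime Nat.prime_two
        obtain ⟨c, hc⟩ := (bijective_frobenius F 2).2 (x / φ v)
        refine ⟨c • v, ?_⟩
        show f (c • v) (A *ᵥ (c • v)) = x
        rw [frobenius_def] at hc
        have : f (c • v) (A *ᵥ (c • v)) = c ^ 2 * φ v := by
          show _ = c ^ 2 * f v (A *ᵥ v)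
          simp only [hf, Cfsg.sympForm, Matrix.mulVec_smul, smul_dotProduct, dotProduct_smul, smul_eq_mul]
          ring
        rw [this, hc, div_mul_cancel₀ x hv]
      rw [← hcard, this, Nat.card_congr AddSubgroup.topEquiv.toEquiv]
      simp [Nat.card_eq_fintype_card, mul_comm]
  · intro h0
    set B : LinearMap.BilinForm F (Fin m ⊕ Fin m → F) := Matrix.toBilin' (Matrix.J (Fin m) F * (A - 1)) with hB
    have hBf : ∀ u v, B u v = f u ((A - 1) *ᵥ v) := fun u v => by
      rw [hB, Matrix.toBilin'_apply', ← Matrix.mulVec_mulVec]; rfl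
    have hBs : ∀ u v, B u v = f u (A *ᵥ v) + f u v := fun u v => by
      rw [hBf, CharTwo.sub_eq_add, Matrix.add_mulVec, Matrix.one_mulVec, haddr]
    have hBA : B.IsAlt := fun v => by rw [hBs, h0, hself, add_zero]
    obtain ⟨W, hW⟩ := (LinearMap.ker (Matrix.mulVecLin (A - 1))).exists_isCompl
    have hND : CfsgLib.Classical.NondegOn B W := by
      intro w hw hw0
      have hNw : (A - 1) *ᵥ w ≠ 0 := fun e => hw0
        (Submodule.disjoint_def.1 hW.disjoint w (LinearMap.mem_ker.2 e) hw)
      by_contra hcon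
      push Not at hcon
      refine hNw ?_
      have hz : ∀ x, B x w = 0 := fun x => by
        obtain ⟨z, hz, y, hy, rfl⟩ := Submodule.mem_sup.1 (hW.sup_eq_top ▸ Submodule.mem_top : x ∈ _ ⊔ W)
        have hz' : (A - 1) *ᵥ z = 0 := hz
        have e : B z w = 0 := by
          rw [hBs, hswap, hsymm z w, ← hBs, hBf, hz']
          simp [hf, Cfsg.sympForm]
        rw [map_add, LinearMap.add_apply, e, hcon y hy, add_zero]
      have hJ : Matrix.J (Fin m) F *ᵥ ((A - 1) *ᵥ w) = 0 := dotProduct_eq_zero _ fun x => by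
        rw [dotProduct_comm]
        exact (hBf x w).symm.trans (hz x)
      exact (Matrix.mulVec_injective_iff_isUnit.2 ((Matrix.isUnit_iff_isUnit_det _).2 (Matrix.isUnit_det_J (l := Fin m) (R := F))))
        (hJ.trans (Matrix.mulVec_zero _).symm)
    obtain ⟨k, -, -, -, -, -, hk⟩ := CfsgLib.Classical.exists_hypFamily hBA W hND
    refine ⟨k, ?_⟩
    have h1 := Submodule.finrank_add_eq_of_isCompl hW
    have h2 := (Matrix.mulVecLin (A - 1)).finrank_range_add_finrank_ker
    show Module.finrank F (LinearMap.range (Matrix.mulVecLin (A - 1))) = k + k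
    omega

end Cfsg.Agent.S2167
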