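import Cfsg.Statements.S2186
import Cfsg.Agent.Lib.LieChevTypes
import Cfsg.Agent.Lib.LieChevRigid

set_option autoImplicit false
set_option maxHeartbeats 400000
open Cfsg

namespace Cfsg.Agent.S2186

/-- Let G be the Chevalley group of type G₂ (over a field with at least four elements), D₄, E₆, E₇ or E₈ over a finite field F of characteristic two, and let X be the root subgroup of the highest root (the last root index) — a long root subgroup, of order |F|. For every g in G, the subgroup generated by X and its conjugate g X g⁻¹ is either a 2-group or is conjugate by an element of G to the subgroup generated by X and the root subgroup of the lowest root (index 0, the negative of the highest root), which is a copy of SL₂(F). -/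
theorem result {F : Type*} [Field F] [Fintype F] [CharP F 2] (D : Cfsg.Lie.ChevalleyDatum) (hD : D ∈ [Cfsg.Lie.chevG2, Cfsg.Lie.chevD4, Cfsg.Lie.chevE6, Cfsg.Lie.chevE7, Cfsg.Lie.chevE8]) (hF : D = Cfsg.Lie.chevG2 → 4 ≤ Fintype.card F) (g : GL D.Idx F) (hg : g ∈ D.group F) :
    IsPGroup 2 ↥(D.rootSubgroup F (D.nroots - 1) ⊔ (D.rootSubgroup F (D.nroots - 1)).map (MulAut.conj g).toMonoidHom) ∨
    ∃ h ∈ D.group F, (D.rootSubgroup F (D.nroots - 1) ⊔ (D.rootSubgroup F (D.nroots - 1)).map (MulAut.conj g).toMonoidHom).map (MulAut.conj h).toMonoidHom = D.rootSubgroup F (D.nroots - 1) ⊔ D.rootSubgroup F 0 := by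
  have hD' : D ∈ [Cfsg.Lie.chevG2, Cfsg.Lie.chevB2, Cfsg.Lie.chevD4, Cfsg.Lie.chevF4, Cfsg.Lie.chevE6, Cfsg.Lie.chevE7, Cfsg.Lie.chevE8] := by
    simp only [List.mem_cons] at hD ⊢
    tauto
  obtain ⟨T, hG⟩ := CfsgLib.Lie.exists_good hD'
  have hT := hG.checked
  have hE := hG.extra
  have h0 : 0 < D.nroots ∧ D.neg (D.nroots - 1) = 0 ∧ D.nroots ≤ 2 * (D.nroots - 1) := by
    simp only [List.mem_cons, List.not_mem_nil, or_false] at hD
    rcases hD with rfl | rfl | rfl | rfl | rfl <;> decide +kernel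
  set θ : Fin D.nroots := ⟨D.nroots - 1, by omega⟩ with hθdef
  have hθ : T.Pos θ := h0.2.2
  have hng : (T.ng θ).val = 0 := by rw [← CfsgLib.Lie.Tab.neg_eq hT θ]; exact h0.2.1
  have hpair : ∀ r s : Fin D.nroots,
      D.rootSubgroup F r ⊔ D.rootSubgroup F s = CfsgLib.Lie.Tab.Ugrp hT F {r, s} := by
    intro r s
    rw [CfsgLib.Lie.Tab.rootSubgroup_eq hT r, CfsgLib.Lie.Tab.rootSubgroup_eq hT s]
    refine le_antisymm (sup_le (CfsgLib.Lie.Tab.Ugrp_mono hT (by simp)) (CfsgLib.Lie.Tab.Ugrp_mono hT (by simp))) ?_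
    refine CfsgLib.Lie.Tab.Ugrp_le hT fun x hx t => ?_
    rcases hx with rfl | rfl
    · exact Subgroup.mem_sup_left (CfsgLib.Lie.Tab.u_mem_Ugrp hT (Set.mem_singleton _) t)
    · exact Subgroup.mem_sup_right (CfsgLib.Lie.Tab.u_mem_Ugrp hT (Set.mem_singleton _) t)
  have hinv : ∀ b ∈ D.borelSubgroup F,
      (D.rootSubgroup F θ).map (MulAut.conj b).toMonoidHom = D.rootSubgroup F θ := by
    have hB : D.borelSubgroup F ≤ Subgroup.normalizer (D.rootSubgroup F θ : Set (GL D.Idx F)) := by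
      rw [CfsgLib.Lie.Tab.rootSubgroup_eq hT θ]
      refine sup_le ?_ (CfsgLib.Lie.Tab.diagonal_le_normalizer_Ugrp hT {θ})
      rw [CfsgLib.Lie.Tab.posUnipotent_eq hT]
      refine CfsgLib.Lie.Tab.Ugrp_le hT fun r hr t =>
        CfsgLib.Lie.Tab.u_mem_normalizer hT hE (fun h => ?_) (fun s hs k hk => ?_) t
      · exact (CfsgLib.Lie.Tab.pos_ng hT).1 (h.symm ▸ hθ) hr
      · exfalso
        obtain ⟨i, j, hi, hj, e⟩ := hk.key
        obtain rfl : s = θ := hs
        have hkr := CfsgLib.Lie.Tab.key_pos hT hr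
        have hks := CfsgLib.Lie.Tab.key_pos hT hθ
        have h1 : T.key r ≤ (i : ℤ) * T.key r := le_mul_of_one_le_left hkr.le (by exact_mod_cast hi)
        have h2 : T.key θ ≤ (j : ℤ) * T.key θ := le_mul_of_one_le_left hks.le (by exact_mod_cast hj)
        have h3 := (CfsgLib.Lie.Tab.key_strictMono hT).monotone (show k ≤ θ by
          rw [Fin.le_def]; have := k.isLt; simp [hθdef]; omega)
        omega
    intro b hb
    ext x
    constructor
    · rintro ⟨y, hy, rfl⟩
      exact (Subgroup.mem_normalizer_iff.1 (hB hb) y).1 hy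
    · intro hx
      refine ⟨b⁻¹ * x * b, ?_, by simp [mul_assoc]⟩
      have := (Subgroup.mem_normalizer_iff.1 (hB (inv_mem hb)) x).1 hx
      simpa using this
  obtain ⟨b, hb, n, hn, L, hL, c, hc, rfl⟩ := CfsgLib.Lie.Tab.canonical_exists hT hE hg
  have hgX : (D.rootSubgroup F θ).map (MulAut.conj (b * n * c)).toMonoidHom =
      (D.rootSubgroup F (CfsgLib.Lie.Tab.pw hT L θ)).map (MulAut.conj b).toMonoidHom := by
    rw [show (MulAut.conj (b * n * c)).toMonoidHom =
      ((MulAut.conj b).toMonoidHom.comp (MulAut.conj n).toMonoidHom).comp (MulAut.conj c).toMonoidHom from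
        MonoidHom.ext fun x => by simp [mul_assoc],
      ← Subgroup.map_map, hinv c (Subgroup.mem_sup_left (CfsgLib.Lie.Tab.negSet_sub_pos hT hc)),
      ← Subgroup.map_map]
    congr 1
    rw [CfsgLib.Lie.Tab.rootSubgroup_eq hT θ, CfsgLib.Lie.Tab.rootSubgroup_eq hT (CfsgLib.Lie.Tab.pw hT L θ),
      CfsgLib.Lie.Tab.map_Ugrp hT hL, Set.image_singleton]
  have hwhole : D.rootSubgroup F (D.nroots - 1) ⊔ (D.rootSubgroup F (D.nroots - 1)).map (MulAut.conj (b * n * c)).toMonoidHom =
      (D.rootSubgroup F θ ⊔ D.rootSubgroup F (CfsgLib.Lie.Tab.pw hT L θ)).map (MulAut.conj b).toMonoidHom := by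
    rw [Subgroup.map_sup, ← hgX]
    exact congrArg₂ _ (hinv b hb).symm rfl
  rw [hwhole]
  by_cases hs : CfsgLib.Lie.Tab.pw hT L θ = T.ng θ
  · refine Or.inr ⟨b⁻¹, inv_mem (CfsgLib.Lie.Tab.borel_le_group hT hb), ?_⟩
    rw [Subgroup.map_map, show (MulAut.conj b⁻¹).toMonoidHom.comp (MulAut.conj b).toMonoidHom = MonoidHom.id _ from
      MonoidHom.ext fun x => by simp [mul_assoc], Subgroup.map_id, hs, hng]
  · refine Or.inl ?_
    rw [hpair]
    exact (CfsgLib.Lie.Tab.isPGroup_pair hT hE 2 hs).map _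

end Cfsg.Agent.S2186
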