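import Cfsg.Statements.S2214
import Cfsg.Agent.Lib.LieChevTypes
import Cfsg.Agent.Lib.LieChevRigid

set_option autoImplicit false
open Cfsg

namespace Cfsg.Agent.S2214

/-- Let k be an algebraically closed field of prime characteristic p, G the adjoint Chevalley group of type G₂, B₂, D₄, F₄, E₆, E₇ or E₈ over k (the matrix group generated by the root elements x_s(t), t ∈ k, acting on the Lie algebra), q = p^a with a ≥ 1, and K a subgroup of G containing every root element x_s(t) with t^q = t and consisting of matrices all of whose entries c satisfy c^q = c. Then the centralizer of K in G is trivial, and the normalizer of K in G is exactly the set of elements of G all of whose entries c satisfy c^q = c. -/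
theorem result {k : Type*} [Field k] [IsAlgClosed k] (p : ℕ) [Fact p.Prime] [CharP k p] (D : Cfsg.Lie.ChevalleyDatum) (hD : D ∈ [Cfsg.Lie.chevG2, Cfsg.Lie.chevB2, Cfsg.Lie.chevD4, Cfsg.Lie.chevF4, Cfsg.Lie.chevE6, Cfsg.Lie.chevE7, Cfsg.Lie.chevE8]) (a : ℕ) (ha : 1 ≤ a) (K : Subgroup (GL D.Idx k)) (hKG : K ≤ D.group k)
    (hLK : Subgroup.closure {g : GL D.Idx k | ∃ (s : ℕ) (t : k), t ^ (p ^ a) = t ∧ (g : Matrix D.Idx D.Idx k) = D.x k s t} ≤ K)
    (hKfix : ∀ g ∈ K, ∀ i j : D.Idx, ((g : Matrix D.Idx D.Idx k) i j) ^ (p ^ a) = (g : Matrix D.Idx D.Idx k) i j) :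
    D.group k ⊓ Subgroup.centralizer (K : Set (GL D.Idx k)) = ⊥ ∧
    ∀ g : GL D.Idx k, g ∈ D.group k → (g ∈ Subgroup.normalizer (K : Set (GL D.Idx k)) ↔ ∀ i j : D.Idx, ((g : Matrix D.Idx D.Idx k) i j) ^ (p ^ a) = (g : Matrix D.Idx D.Idx k) i j) := by
  obtain ⟨T, hG⟩ := CfsgLib.Lie.exists_good hD
  have hT := hG.checked
  have hE := hG.extra
  let σ : k →+* k := iterateFrobenius k p a
  have hσ : ∀ x, σ x = x ^ (p ^ a) := fun x => iterateFrobenius_def p a x
  have hfix : ∀ g : GL D.Idx k, (∀ i j : D.Idx, ((g : Matrix D.Idx D.Idx k) i j) ^ (p ^ a) =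
      (g : Matrix D.Idx D.Idx k) i j) ↔ CfsgLib.Lie.Tab.fmap D σ g = g := fun g => by
    rw [CfsgLib.Lie.Tab.fmap_eq_self_iff]
    exact forall_congr' fun i => forall_congr' fun j => by rw [hσ]
  have huK : ∀ (r : Fin D.nroots) (t : k), σ t = t → CfsgLib.Lie.Tab.u hT r t ∈ K := fun r t ht =>
    hLK (Subgroup.subset_closure ⟨r, t, (hσ t).symm.trans ht, CfsgLib.Lie.Tab.coe_u_eq_x hT r t⟩)
  have hcent : ∀ g ∈ D.group k, g ∈ Subgroup.centralizer (K : Set (GL D.Idx k)) → g = 1 := fun g hg hgc =>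
    CfsgLib.Lie.Tab.eq_one_of_commute hT hE hg fun r =>
      ((Subgroup.mem_centralizer_iff.1 hgc) _ (huK r 1 (map_one σ))).symm
  refine ⟨eq_bot_iff.2 fun g hg => Subgroup.mem_bot.2 (hcent g hg.1 hg.2), fun g hg => ?_⟩
  rw [hfix]
  constructor
  · intro hn
    have hz : g⁻¹ * CfsgLib.Lie.Tab.fmap D σ g = 1 := by
      refine hcent _ (mul_mem (inv_mem hg) (CfsgLib.Lie.Tab.fmap_group hT σ hg)) ?_
      rw [Subgroup.mem_centralizer_iff]
      intro x hx
      have hx' : CfsgLib.Lie.Tab.fmap D σ x = x := (hfix x).1 (hKfix x hx)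
      have h2 := (hfix _).1 (hKfix _ ((Subgroup.mem_normalizer_iff.1 hn x).1 hx))
      simp only [map_mul, map_inv, hx'] at h2
      calc x * (g⁻¹ * CfsgLib.Lie.Tab.fmap D σ g) = g⁻¹ * (g * x * g⁻¹) * CfsgLib.Lie.Tab.fmap D σ g := by group
        _ = _ := by rw [← h2]; group
    exact (inv_mul_eq_one.1 hz).symm
  · intro hσg
    obtain ⟨u₁, u₂, h, L, hh, hhfix, h1, h2, rfl⟩ := CfsgLib.Lie.Tab.fixed_decomp hT hE σ hg hσg
    have hup : ∀ f : Fin D.nroots → k, (∀ r ∈ CfsgLib.Lie.Tab.posFrom T 0, σ (f r) = f r) →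
        CfsgLib.Lie.Tab.uprod hT (CfsgLib.Lie.Tab.posFrom T 0) f ∈ K := by
      intro f hf
      refine Subgroup.list_prod_mem _ fun x hx => ?_
      simp only [List.mem_map] at hx
      obtain ⟨r, hr, rfl⟩ := hx
      exact huK r _ (hf r hr)
    have hgw : ∀ M, CfsgLib.Lie.Tab.gw (F := k) hT M ∈ K := by
      intro M
      refine Subgroup.list_prod_mem _ fun x hx => ?_
      simp only [List.mem_map] at hx
      obtain ⟨i, -, rfl⟩ := hx
      rw [CfsgLib.Lie.Tab.sg_eq]
      exact mul_mem (mul_mem (huK _ _ (map_one σ)) (huK _ _ (by rw [map_neg, map_one]))) (huK _ _ (map_one σ))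
    have key : ∀ h : GL D.Idx k, h ∈ D.diagonalSubgroup k → CfsgLib.Lie.Tab.fmap D σ h = h →
        ∀ x ∈ K, h * x * h⁻¹ ∈ K := by
      intro h hh hhf x hx
      obtain ⟨w₁, w₂, d, M, hd, -, e1, e2, rfl⟩ :=
        CfsgLib.Lie.Tab.fixed_decomp hT hE σ (hKG hx) ((hfix x).1 (hKfix x hx))
      have hdK : d ∈ K := by
        have := mul_mem (mul_mem (inv_mem (hup w₁ e1)) hx) (inv_mem (mul_mem (hgw M) (hup w₂ e2)))
        convert this using 1
        group
      obtain ⟨f, hf, rfl⟩ := CfsgLib.Lie.Tab.exists_of_mem_diagonal hT hh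
      have hcu : ∀ (r : Fin D.nroots) (t : k), σ t = t →
          CfsgLib.Lie.Tab.dg (D := D) f * CfsgLib.Lie.Tab.u hT r t * (CfsgLib.Lie.Tab.dg (D := D) f)⁻¹ ∈ K := by
        intro r t ht
        rw [CfsgLib.Lie.Tab.dg_conj_u hT hf]
        refine huK r _ ?_
        rw [map_mul, ht]
        congr 1
        have hh' := congrArg Units.val (congrFun (CfsgLib.Lie.Tab.dg_injective
          ((CfsgLib.Lie.Tab.fmap_dg (D := D) σ f).symm.trans hhf)) r)
        exact hh'
      have hcup : ∀ w : Fin D.nroots → k, (∀ r ∈ CfsgLib.Lie.Tab.posFrom T 0, σ (w r) = w r) →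
          CfsgLib.Lie.Tab.dg (D := D) f * CfsgLib.Lie.Tab.uprod hT (CfsgLib.Lie.Tab.posFrom T 0) w *
            (CfsgLib.Lie.Tab.dg (D := D) f)⁻¹ ∈ K := by
        intro w hw
        have hle : Subgroup.closure {g : GL D.Idx k | ∃ (r : Fin D.nroots) (t : k), σ t = t ∧ g = CfsgLib.Lie.Tab.u hT r t} ≤
            K.comap (MulAut.conj (CfsgLib.Lie.Tab.dg (D := D) f)).toMonoidHom := by
          refine (Subgroup.closure_le _).2 ?_
          rintro _ ⟨r, t, ht, rfl⟩
          exact hcu r t ht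
        refine hle (Subgroup.list_prod_mem _ fun y hy => ?_)
        simp only [List.mem_map] at hy
        obtain ⟨r, hr, rfl⟩ := hy
        exact Subgroup.subset_closure ⟨r, _, hw r hr, rfl⟩
      have hcgw : CfsgLib.Lie.Tab.dg (D := D) f * CfsgLib.Lie.Tab.gw hT M * (CfsgLib.Lie.Tab.dg (D := D) f)⁻¹ ∈ K := by
        show CfsgLib.Lie.Tab.gw hT M ∈ K.comap (MulAut.conj (CfsgLib.Lie.Tab.dg (D := D) f)).toMonoidHom
        refine Subgroup.list_prod_mem _ fun y hy => ?_
        simp only [List.mem_map] at hy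
        obtain ⟨i, -, rfl⟩ := hy
        rw [CfsgLib.Lie.Tab.sg_eq]
        exact mul_mem (mul_mem (hcu _ _ (map_one σ)) (hcu _ _ (by rw [map_neg, map_one]))) (hcu _ _ (map_one σ))
      have hcd : CfsgLib.Lie.Tab.dg (D := D) f * d * (CfsgLib.Lie.Tab.dg (D := D) f)⁻¹ ∈ K := by
        rw [CfsgLib.Lie.Tab.diagonal_comm hT hh hd, mul_inv_cancel_right]
        exact hdK
      have := mul_mem (mul_mem (mul_mem (hcup w₁ e1) hcd) hcgw) (hcup w₂ e2)
      convert this using 1
      group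
    have hN : h ∈ Subgroup.normalizer (K : Set (GL D.Idx k)) := by
      rw [Subgroup.mem_normalizer_iff]
      refine fun x => ⟨key h hh hhfix x, fun hx => ?_⟩
      have := key h⁻¹ (inv_mem hh) (by rw [map_inv, hhfix]) _ hx
      convert this using 1
      group
    exact mul_mem (mul_mem (mul_mem (Subgroup.le_normalizer (hup u₁ h1)) hN) (Subgroup.le_normalizer (hgw L)))
      (Subgroup.le_normalizer (hup u₂ h2))

end Cfsg.Agent.S2214
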