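import Cfsg.Statements.S2231
import Cfsg.Agent.Lib.LocalQdModel
import Cfsg.Agent.Lib.ClassicalGLTwo
import Mathlib.GroupTheory.Sylow

set_option autoImplicit false
open Cfsg

namespace Cfsg.Agent.S2231

open Matrix CfsgLib.Classical

/-- Two elements of a `p`-subgroup of `PSL₂(K)` commute. -/
theorem psl_comm {p : ℕ} [Fact p.Prime] {K : Type*} [Field K] [Fintype K] [CharP K p]
    {S : Subgroup (ProjectiveSpecialLinearGroup (Fin 2) K)} (hS : IsPGroup p S)
    {a b : ProjectiveSpecialLinearGroup (Fin 2) K} (ha : a ∈ S) (hb : b ∈ S) : a * b = b * a := by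
  classical
  obtain ⟨T, hT⟩ := hS.exists_le_sylow
  have hmk := QuotientGroup.mk'_surjective (Subgroup.center (SpecialLinearGroup (Fin 2) K))
  obtain ⟨P, rfl⟩ := Sylow.mapSurjective_surjective hmk p T
  obtain ⟨x, hx, rfl⟩ := hT ha
  obtain ⟨y, hy, rfl⟩ := hT hb
  rw [← map_mul, ← map_mul]
  congr 1
  obtain ⟨g, hg⟩ := Two.exists_conj_upperU_sl p P
  refine SpecialLinearGroup.toGL_injective ?_
  have hx' := Subgroup.mem_map_of_mem SpecialLinearGroup.toGL hx
  have hy' := Subgroup.mem_map_of_mem SpecialLinearGroup.toGL hy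
  rw [hg] at hx' hy'
  obtain ⟨_, ⟨u, rfl⟩, hu⟩ := hx'
  obtain ⟨_, ⟨v, rfl⟩, hv⟩ := hy'
  rw [map_mul, map_mul, ← hu, ← hv, ← map_mul, ← map_mul, ← map_mul, ← map_mul, mul_comm]

/-- Let p be an odd prime and K a finite field of characteristic p. Then Qd(p) (the natural semidirect product of an elementary abelian group of order p² by SL₂(p)) is not involved in the projective special linear group PSL₂(K). -/
theorem result {p : ℕ} [Fact p.Prime] (hp : p ≠ 2) {K : Type*} [Field K] [Fintype K] [CharP K p] : ¬ Cfsg.Involves ↥(Cfsg.qd p) (Matrix.ProjectiveSpecialLinearGroup (Fin 2) K) := by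
  rintro ⟨H, R, hn, ⟨e⟩⟩
  classical
  haveI := hn
  set f : H →* ↥(Cfsg.qd p) := e.toMonoidHom.comp (QuotientGroup.mk' (R.subgroupOf H))
  have hf : Function.Surjective f := e.surjective.comp (QuotientGroup.mk'_surjective _)
  set T : Subgroup ↥(Cfsg.qd p) := (CfsgLib.Local.Qd.trans p).subgroupOf (Cfsg.qd p) with hTdef
  have hT : IsPGroup p T := fun x => ⟨1, Subtype.ext (Subtype.ext (by
    simpa using CfsgLib.Local.Qd.trans_exp _ x.2))⟩
  haveI : T.Normal := ⟨fun x hx g => CfsgLib.Local.Qd.conj_tau_mem g.2 hx⟩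
  have hem : ∀ n : ℕ, (CfsgLib.Local.Qd.em (1 : ZMod p)) ^ n = CfsgLib.Local.Qd.em (n : ZMod p) := by
    intro n
    induction n with
    | zero =>
      refine Subtype.ext ?_
      ext i j; fin_cases i <;> fin_cases j <;> simp
    | succ n ih =>
      rw [pow_succ, ih]
      refine Subtype.ext ?_
      ext i j; fin_cases i <;> fin_cases j <;> simp [Matrix.mul_apply, Fin.sum_univ_three, add_comm]
  set E : ↥(Cfsg.qd p) := ⟨_, CfsgLib.Local.Qd.em_mem (1 : ZMod p)⟩ with hEdef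
  have hEp : E ^ p = 1 := Subtype.ext (by
    rw [SubgroupClass.coe_pow, hEdef]
    show CfsgLib.Local.Qd.em (1 : ZMod p) ^ p = 1
    rw [hem, ZMod.natCast_self]
    refine Subtype.ext ?_
    ext i j; fin_cases i <;> fin_cases j <;> simp)
  have hE : IsPGroup p (Subgroup.zpowers E) := by
    rintro ⟨x, k, rfl⟩
    refine ⟨1, Subtype.ext ?_⟩
    show (E ^ k) ^ (p ^ 1) = 1
    rw [pow_one, ← zpow_natCast, ← _root_.zpow_mul, mul_comm, _root_.zpow_mul, zpow_natCast, hEp,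
      _root_.one_zpow]
  obtain ⟨Q, hQ⟩ := (IsPGroup.to_sup_of_normal_left hT hE).exists_le_sylow
  obtain ⟨P, rfl⟩ := Sylow.mapSurjective_surjective hf p Q
  have hcomm : ∀ {a b : ↥(Cfsg.qd p)}, a ∈ (P : Subgroup H).map f → b ∈ (P : Subgroup H).map f →
      a * b = b * a := by
    rintro _ _ ⟨x, hx, rfl⟩ ⟨y, hy, rfl⟩
    rw [← map_mul, ← map_mul]
    congr 1
    exact Subtype.ext (psl_comm (P.2.map H.subtype) ⟨x, hx, rfl⟩ ⟨y, hy, rfl⟩)
  have hc := congrArg Subtype.val (hcomm (hQ (Subgroup.mem_sup_right (Subgroup.mem_zpowers E)))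
    (hQ (Subgroup.mem_sup_left (show (⟨_, CfsgLib.Local.Qd.tau_mem (0 : ZMod p) 1⟩ : ↥(Cfsg.qd p)) ∈ T
      from ⟨0, 1, rfl⟩))))
  have h2 : CfsgLib.Local.Qd.em (1 : ZMod p) * CfsgLib.Local.Qd.tau 0 1 *
      (CfsgLib.Local.Qd.em 1)⁻¹ = CfsgLib.Local.Qd.tau 0 1 := mul_inv_eq_iff_eq_mul.2 hc
  rw [CfsgLib.Local.Qd.em_tau] at h2
  exact one_ne_zero (α := ZMod p) (by simpa using (CfsgLib.Local.Qd.tau_inj h2).1)

end Cfsg.Agent.S2231
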