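import Cfsg.Statements.S2241
import Cfsg.Agent.Lib.LieSuzukiSylow

set_option autoImplicit false
open Cfsg

namespace Cfsg.Agent.S2241

/-- Real 2-elements of the Suzuki group: with q = 2^(2m+1), m ≥ 1, and the group realised as the stabiliser in SL₄ of the Suzuki–Tits ovoid, a non-identity element of a Sylow 2-subgroup is conjugate to its inverse if and only if it is an involution; in particular no element of order 4 is conjugate to its inverse. -/
theorem result {F : Type*} [Field F] [Fintype F] {m : ℕ} (hm : 1 ≤ m) (hF : Fintype.card F = 2 ^ (2 * m + 1)) (P : Sylow 2 ↥(Cfsg.Sz F m)) (g : ↥(Cfsg.Sz F m)) (hg : g ∈ (P : Subgroup ↥(Cfsg.Sz F m))) (h1 : g ≠ 1) :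
    IsConj g g⁻¹ ↔ orderOf g = 2 := by
  classical
  have hp := CfsgLib.Lie.SzOvoid.par_mk hm hF
  haveI : Fact (Nat.Prime 2) := ⟨Nat.prime_two⟩
  constructor
  · intro hc
    obtain ⟨t, ht⟩ := CfsgLib.Lie.SzOvoid.sylow_conj hp P
    rw [ht] at hg
    obtain ⟨u, ⟨a, b, rfl⟩, hu⟩ := hg
    have hu' : MulAut.conj t (CfsgLib.Lie.SzOvoid.sU hp a b) = g := hu
    have hc' : IsConj (CfsgLib.Lie.SzOvoid.sU hp a b) (CfsgLib.Lie.SzOvoid.sU hp a b)⁻¹ := by
      have h1 : IsConj (CfsgLib.Lie.SzOvoid.sU hp a b) g := isConj_iff.2 ⟨t, hu'⟩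
      have h2 : IsConj (CfsgLib.Lie.SzOvoid.sU hp a b)⁻¹ g⁻¹ := isConj_iff.2 ⟨t, by rw [← hu']; simp [mul_assoc]⟩
      exact (h1.trans hc).trans h2.symm
    have ha : a = 0 := by
      by_contra ha
      exact CfsgLib.Lie.SzOvoid.not_real hp ha hc'
    refine orderOf_eq_prime ?_ h1
    rw [← hu', ← map_pow, ha, pow_two, CfsgLib.Lie.SzOvoid.sU_mul, CfsgLib.Lie.SzOvoid.add_self hp,
      CfsgLib.Lie.SzOvoid.add_self hp, zero_pow (CfsgLib.Lie.SzOvoid.ee_ne m), zero_mul, add_zero,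
      CfsgLib.Lie.SzOvoid.sU_zero, map_one]
  · intro ho
    have h2 : g * g = 1 := by rw [← pow_two, ← ho, pow_orderOf_eq_one]
    rw [inv_eq_of_mul_eq_one_left h2]

end Cfsg.Agent.S2241
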