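import Cfsg.Statements.S2268

set_option autoImplicit false
open Cfsg

namespace Cfsg.Agent.S2268

/-- Let G be a finite group with an abelian Sylow p-subgroup P and let Q ≤ P. Then N_G(Q) = (N_G(Q) ∩ N_G(P))·C_G(Q), so that N_G(Q)/C_G(Q) is a homomorphic image of the subgroup (N_G(Q) ∩ N_G(P))/C_G(P) of N_G(P)/C_G(P); in particular the order of N_G(Q)/C_G(Q) divides the order of N_G(P)/C_G(P). -/
theorem result {G : Type*} [Group G] [Finite G] {p : ℕ} [Fact p.Prime]
    (P : Sylow p G) (hP : IsMulCommutative (P : Subgroup G)) (Q : Subgroup G) (hQ : Q ≤ (P : Subgroup G)) :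
    Subgroup.normalizer (Q : Set G) =
      (Subgroup.normalizer (Q : Set G) ⊓ Subgroup.normalizer ((P : Subgroup G) : Set G)) ⊔ Subgroup.centralizer (Q : Set G) ∧
    ((Subgroup.centralizer (Q : Set G)).subgroupOf (Subgroup.normalizer (Q : Set G))).index ∣ ((Subgroup.centralizer ((P : Subgroup G) : Set G)).subgroupOf (Subgroup.normalizer ((P : Subgroup G) : Set G))).index := by
  set C := Subgroup.centralizer (Q : Set G) with hC
  set M := Subgroup.normalizer (Q : Set G) with hM
  set N := Subgroup.normalizer ((P : Subgroup G) : Set G) with hN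
  have hPC : (P : Subgroup G) ≤ C := fun x hx => Subgroup.mem_centralizer_iff.2 fun q hq =>
    congrArg Subtype.val (hP.is_comm.comm ⟨q, hQ hq⟩ ⟨x, hx⟩)
  have hCM : C ≤ M := fun c hc => Subgroup.mem_normalizer_iff.2 fun n => by
    have hcq : ∀ q ∈ Q, c * q * c⁻¹ = q := fun q hq => by
      rw [← Subgroup.mem_centralizer_iff.1 hc q hq, mul_inv_cancel_right]
    refine ⟨fun hn => by rw [hcq n hn]; exact hn, fun hn => ?_⟩
    have h := Subgroup.mem_centralizer_iff.1 hc _ hn
    have : c * n * c⁻¹ = n := by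
      simpa [mul_assoc] using h.symm
    exact this ▸ hn
  have heq : M = (M ⊓ N) ⊔ C := by
    refine le_antisymm (fun g hg => ?_) (sup_le inf_le_left hCM)
    have hgC : ((g • P : Sylow p G) : Subgroup G) ≤ C := by
      intro x hx
      rw [Sylow.coe_subgroup_smul, Subgroup.mem_pointwise_smul_iff_inv_smul_mem] at hx
      refine Subgroup.mem_centralizer_iff.2 fun q hq => ?_
      have hq' : g⁻¹ * q * g⁻¹⁻¹ ∈ Q := (Subgroup.mem_normalizer_iff.1 (inv_mem hg) q).1 hq
      have h := Subgroup.mem_centralizer_iff.1 (hPC hx) _ hq'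
      simp only [← MulAut.inv_def, MulAut.smul_def, MulAut.conj_inv_apply, inv_inv, MulEquiv.coe_mk] at h
      simp only [mul_assoc, mul_left_cancel_iff, mul_inv_cancel_left] at h
      rw [← mul_assoc, ← mul_assoc] at h
      exact mul_right_cancel h
    obtain ⟨c, hc⟩ := MulAction.exists_smul_eq ↥C (P.subtype hPC) ((g • P).subtype hgC)
    rw [Sylow.smul_subtype] at hc
    have hc' : (c : G) • P = g • P := Sylow.subtype_injective hc
    have hmem : (c : G)⁻¹ * g ∈ M ⊓ N := by
      refine Subgroup.mem_inf.2 ⟨mul_mem (inv_mem (hCM c.2)) hg, ?_⟩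
      refine Sylow.smul_eq_iff_mem_normalizer.1 ?_
      rw [mul_smul, ← hc', inv_smul_smul]
    have := mul_mem (Subgroup.mem_sup_right (S := M ⊓ N) c.2) (Subgroup.mem_sup_left hmem)
    rwa [mul_inv_cancel_left] at this
  refine ⟨heq, ?_⟩
  haveI : (C.subgroupOf M).Normal := by
    refine ⟨fun x hx g => ?_⟩
    rw [Subgroup.mem_subgroupOf] at hx ⊢
    refine Subgroup.mem_centralizer_iff.2 fun q hq => ?_
    have hq' : (g : G)⁻¹ * q * (g : G)⁻¹⁻¹ ∈ Q := (Subgroup.mem_normalizer_iff.1 (inv_mem g.2) q).1 hq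
    have h := congrArg (fun z => (g : G) * z * (g : G)⁻¹) (Subgroup.mem_centralizer_iff.1 hx _ hq')
    simpa [mul_assoc] using h
  haveI : ((Subgroup.centralizer ((P : Subgroup G) : Set G)).subgroupOf N).Normal := by
    refine ⟨fun x hx g => ?_⟩
    rw [Subgroup.mem_subgroupOf] at hx ⊢
    refine Subgroup.mem_centralizer_iff.2 fun q hq => ?_
    have hq' : (g : G)⁻¹ * q * (g : G)⁻¹⁻¹ ∈ (P : Subgroup G) := (Subgroup.mem_normalizer_iff.1 (inv_mem g.2) q).1 hq
    have h := congrArg (fun z => (g : G) * z * (g : G)⁻¹) (Subgroup.mem_centralizer_iff.1 hx _ hq')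
    simpa [mul_assoc] using h
  have h1 : (C.subgroupOf M).index = C.relIndex (M ⊓ N) := by
    rw [← Subgroup.relIndex_top_right, show (⊤ : Subgroup M) = (M ⊓ N).subgroupOf M ⊔ C.subgroupOf M from ?_,
      Subgroup.relIndex_sup_right, Subgroup.relIndex_subgroupOf inf_le_left]
    rw [← Subgroup.subgroupOf_sup inf_le_left hCM, ← heq, Subgroup.subgroupOf_self]
  rw [h1]
  refine (Subgroup.relIndex_dvd_of_le_left _ (Subgroup.centralizer_le hQ)).trans ?_
  rw [← Subgroup.relIndex_subgroupOf (inf_le_right : M ⊓ N ≤ N)]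
  exact Subgroup.relIndex_dvd_index_of_normal _ _

end Cfsg.Agent.S2268
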