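import Cfsg.Statements.S2270
import Mathlib


set_option autoImplicit false
open Cfsg
open scoped Pointwise

namespace Cfsg.Agent.S2270

/-- Let n ≥ 3, p an odd prime, and P an abelian Sylow p-subgroup of the symmetric group S_n (with p dividing n!, so that P ≠ 1). Then N(P)/C(P) has even order. -/
theorem result (n : ℕ) (hn : 3 ≤ n) {p : ℕ} [Fact p.Prime] (hp : p ≠ 2) (hpn : p ≤ n)
    (P : Sylow p (Equiv.Perm (Fin n))) (hP : IsMulCommutative (P : Subgroup (Equiv.Perm (Fin n)))) :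
    2 ∣ ((Subgroup.centralizer ((P : Subgroup (Equiv.Perm (Fin n))) : Set (Equiv.Perm (Fin n)))).subgroupOf (Subgroup.normalizer ((P : Subgroup (Equiv.Perm (Fin n))) : Set (Equiv.Perm (Fin n))))).index := by
  classical
  set N := Subgroup.normalizer ((P : Subgroup (Equiv.Perm (Fin n))) : Set (Equiv.Perm (Fin n))) with hN
  set C := (Subgroup.centralizer ((P : Subgroup (Equiv.Perm (Fin n))) : Set (Equiv.Perm (Fin n)))).subgroupOf N with hC
  haveI hnorm : C.Normal := by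
    refine ⟨fun c hc g => ?_⟩
    simp only [hC, Subgroup.mem_subgroupOf, Subgroup.mem_centralizer_iff] at hc ⊢
    intro h hh
    have h1 := (Subgroup.mem_normalizer_iff''.1 g.2 h).1 hh
    have h2 := hc _ h1
    simp only [Subgroup.coe_mul, Subgroup.coe_inv]
    calc h * (↑g * ↑c * (↑g)⁻¹) = ↑g * ((↑g)⁻¹ * h * ↑g * ↑c) * (↑g)⁻¹ := by group
      _ = ↑g * (↑c * ((↑g)⁻¹ * h * ↑g)) * (↑g)⁻¹ := by rw [h2]
      _ = _ := by group
  have hdvd : p ∣ Nat.card (Equiv.Perm (Fin n)) := by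
    rw [Nat.card_eq_fintype_card, Fintype.card_perm, Fintype.card_fin]
    exact (Fact.out : p.Prime).dvd_factorial.2 hpn
  obtain ⟨x₀, hx₀⟩ := exists_prime_orderOf_dvd_card' p hdvd
  obtain ⟨g, hg⟩ := MulAction.exists_smul_eq (Equiv.Perm (Fin n)) (Classical.choose ((IsPGroup.of_card (n := 1) (by rw [Nat.card_zpowers, hx₀, pow_one])).exists_le_sylow (P := Subgroup.zpowers x₀))) P
  set S := Classical.choose ((IsPGroup.of_card (n := 1) (by rw [Nat.card_zpowers, hx₀, pow_one])).exists_le_sylow (P := Subgroup.zpowers x₀))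
  have hS : Subgroup.zpowers x₀ ≤ (S : Subgroup (Equiv.Perm (Fin n))) := Classical.choose_spec ((IsPGroup.of_card (n := 1) (by rw [Nat.card_zpowers, hx₀, pow_one])).exists_le_sylow (P := Subgroup.zpowers x₀))
  set x := g * x₀ * g⁻¹ with hxdef
  have hx : x ∈ (P : Subgroup (Equiv.Perm (Fin n))) := by
    rw [← hg]
    show x ∈ MulAut.conj g • (S : Subgroup (Equiv.Perm (Fin n)))
    exact Subgroup.smul_mem_pointwise_smul x₀ _ _ (hS (Subgroup.mem_zpowers x₀))
  have hox : orderOf x = p := by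
    rw [← hx₀]; exact (MulAut.conj g).orderOf_eq x₀
  have hconj : IsConj x x⁻¹ := Equiv.Perm.isConj_of_cycleType_eq (Equiv.Perm.cycleType_inv x).symm
  obtain ⟨k, hk⟩ := isConj_iff.1 hconj
  obtain ⟨m, hm, hmx⟩ := P.conj_eq_normalizer_conj_of_mem x k⁻¹ hx (by
    rw [inv_inv, hk]; exact inv_mem hx)
  rw [inv_inv, hk] at hmx
  by_contra hodd
  rw [← even_iff_two_dvd, Nat.not_even_iff_odd] at hodd
  have h1 : (⟨m, hm⟩ : N) ^ C.index ∈ C := Subgroup.pow_index_mem C _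
  have h2 : x * m ^ C.index = m ^ C.index * x :=
    Subgroup.mem_centralizer_iff.1 (Subgroup.mem_subgroupOf.1 h1) x hx
  have h3 : ∀ j : ℕ, (m ^ j)⁻¹ * x * m ^ j = x ^ ((-1 : ℤ) ^ j) := by
    intro j
    induction j with
    | zero => simp
    | succ j ih =>
      calc (m ^ (j + 1))⁻¹ * x * m ^ (j + 1) = m⁻¹ * ((m ^ j)⁻¹ * x * m ^ j) * m⁻¹⁻¹ := by rw [pow_succ]; group
        _ = (m⁻¹ * x * m⁻¹⁻¹) ^ ((-1 : ℤ) ^ j) := by rw [ih]; exact conj_zpow.symm
        _ = _ := by rw [inv_inv, ← hmx, inv_zpow, ← _root_.zpow_neg]; congr 1; ring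
  have h4 := h3 C.index
  rw [mul_assoc, h2, inv_mul_cancel_left, hodd.neg_one_pow, zpow_neg_one] at h4
  have h5 : x ^ 2 = 1 := by rw [pow_two]; exact (eq_inv_iff_mul_eq_one.1 h4)
  have h6 := orderOf_dvd_of_pow_eq_one h5
  rw [hox] at h6
  exact hp ((Nat.prime_dvd_prime_iff_eq Fact.out Nat.prime_two).1 h6)

end Cfsg.Agent.S2270
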