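import Cfsg.Statements.S2299
import Cfsg.Agent.Lib.LieSLTwoTableCases

set_option autoImplicit false
open Cfsg

namespace Cfsg.Agent.S2299

set_option maxHeartbeats 1000000 in
/-- Over a finite field F with q elements, q odd, every irreducible complex character of SL₂ has degree 1, q, q + 1, q − 1, (q + 1)/2 or (q − 1)/2; and when q ≥ 5 (so that these six numbers are distinct) there are exactly one irreducible character of degree 1, one of degree q, (q − 3)/2 of degree q + 1, (q − 1)/2 of degree q − 1, two of degree (q + 1)/2 and two of degree (q − 1)/2. -/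
theorem result {F : Type*} [Field F] [Fintype F] (hodd : Odd (Fintype.card F)) :
    (∀ χ : Matrix.SpecialLinearGroup (Fin 2) F → ℂ, Cfsg.IsIrrCharacter (Matrix.SpecialLinearGroup (Fin 2) F) χ →
      χ 1 = 1 ∨ χ 1 = (Fintype.card F : ℂ) ∨ χ 1 = (Fintype.card F : ℂ) + 1 ∨ χ 1 = (Fintype.card F : ℂ) - 1 ∨
        χ 1 = (((Fintype.card F + 1) / 2 : ℕ) : ℂ) ∨ χ 1 = (((Fintype.card F - 1) / 2 : ℕ) : ℂ)) ∧
    (5 ≤ Fintype.card F →
      Nat.card {χ : Cfsg.IrrCharacter (Matrix.SpecialLinearGroup (Fin 2) F) // (χ : Matrix.SpecialLinearGroup (Fin 2) F → ℂ) 1 = 1} = 1 ∧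
      Nat.card {χ : Cfsg.IrrCharacter (Matrix.SpecialLinearGroup (Fin 2) F) // (χ : Matrix.SpecialLinearGroup (Fin 2) F → ℂ) 1 = (Fintype.card F : ℂ)} = 1 ∧
      Nat.card {χ : Cfsg.IrrCharacter (Matrix.SpecialLinearGroup (Fin 2) F) // (χ : Matrix.SpecialLinearGroup (Fin 2) F → ℂ) 1 = (Fintype.card F : ℂ) + 1} = (Fintype.card F - 3) / 2 ∧
      Nat.card {χ : Cfsg.IrrCharacter (Matrix.SpecialLinearGroup (Fin 2) F) // (χ : Matrix.SpecialLinearGroup (Fin 2) F → ℂ) 1 = (Fintype.card F : ℂ) - 1} = (Fintype.card F - 1) / 2 ∧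
      Nat.card {χ : Cfsg.IrrCharacter (Matrix.SpecialLinearGroup (Fin 2) F) // (χ : Matrix.SpecialLinearGroup (Fin 2) F → ℂ) 1 = (((Fintype.card F + 1) / 2 : ℕ) : ℂ)} = 2 ∧
      Nat.card {χ : Cfsg.IrrCharacter (Matrix.SpecialLinearGroup (Fin 2) F) // (χ : Matrix.SpecialLinearGroup (Fin 2) F → ℂ) 1 = (((Fintype.card F - 1) / 2 : ℕ) : ℂ)} = 2) := by
  classical
  have hm := Nat.odd_iff.1 hodd
  have hq1 : 1 < Fintype.card F := Fintype.one_lt_card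
  obtain ⟨ε, hε⟩ := CfsgLib.Lie.SLTwoTable.exists_eps hodd
  refine ⟨fun χ hχ => ?_, fun hq => ?_⟩
  · rw [CfsgLib.Lie.SLTwoTable.cast_q_add_one, CfsgLib.Lie.SLTwoTable.cast_q_sub_one]
    rcases CfsgLib.Lie.SLTwoTable.kinds_odd hodd ε hε χ hχ with ⟨-, h⟩ | ⟨-, h⟩ | ⟨-, h⟩ | ⟨h, -⟩ | ⟨h, -⟩ | ⟨h, -⟩
    · exact Or.inl (by rw [h, Nat.cast_one])
    · exact Or.inr (Or.inl h)
    · exact Or.inr (Or.inr (Or.inl h))
    · exact Or.inr (Or.inr (Or.inr (Or.inr (Or.inl h))))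
    · exact Or.inr (Or.inr (Or.inr (Or.inl h)))
    · exact Or.inr (Or.inr (Or.inr (Or.inr (Or.inr h))))
  rw [CfsgLib.Lie.SLTwoTable.cast_q_add_one, CfsgLib.Lie.SLTwoTable.cast_q_sub_one, ← Nat.cast_one (R := ℂ)]
  obtain ⟨η, η', ξ, ξ', C, hne, -, hne', -, hC2, -, -, d1, d2, d3, d4, hC, hall⟩ := CfsgLib.Lie.SLTwoTable.table_deg hodd ε hε
  have hP := CfsgLib.Lie.SLTwoTable.two_mul_card_psSet (F := F)
  have hP2 := CfsgLib.Lie.SLTwoTable.card_sq_ne_one (F := F) hodd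
  have hps : ∀ χ ∈ CfsgLib.Lie.SLTwoTable.psSet F, (χ : Matrix.SpecialLinearGroup (Fin 2) F → ℂ) 1 = ((Fintype.card F + 1 : ℕ) : ℂ) := fun χ hχ => by
    obtain ⟨α, -, e⟩ := (CfsgLib.Lie.SLTwoTable.mem_psSet χ).1 hχ
    rw [e, CfsgLib.Lie.SLTwoPS.ps_one, CfsgLib.Lie.SLTwoTable.cast_q_add_one]
  let o : Cfsg.IrrCharacter (Matrix.SpecialLinearGroup (Fin 2) F) := ⟨fun _ => 1, CfsgLib.Char.isIrrCharacter_one⟩
  let t : Cfsg.IrrCharacter (Matrix.SpecialLinearGroup (Fin 2) F) := ⟨CfsgLib.Lie.SLTwoTable.st, CfsgLib.Lie.SLTwoTable.isIrr_st⟩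
  have ho : (o : Matrix.SpecialLinearGroup (Fin 2) F → ℂ) 1 = ((1 : ℕ) : ℂ) := by simp [o]
  have ht : (t : Matrix.SpecialLinearGroup (Fin 2) F → ℂ) 1 = ((Fintype.card F : ℕ) : ℂ) := CfsgLib.Lie.SLTwoTable.st_one
  have key : ∀ (d : ℕ) (T : Finset (Cfsg.IrrCharacter (Matrix.SpecialLinearGroup (Fin 2) F))),
      (∀ χ ∈ T, (χ : Matrix.SpecialLinearGroup (Fin 2) F → ℂ) 1 = (d : ℂ)) →
      (d = 1 → o ∈ T) → (d = Fintype.card F → t ∈ T) → (d = Fintype.card F + 1 → CfsgLib.Lie.SLTwoTable.psSet F ⊆ T) →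
      (d = (Fintype.card F + 1) / 2 → η ∈ T ∧ η' ∈ T) → (d = Fintype.card F - 1 → C ⊆ T) →
      (d = (Fintype.card F - 1) / 2 → ξ ∈ T ∧ ξ' ∈ T) →
      Nat.card {χ : Cfsg.IrrCharacter (Matrix.SpecialLinearGroup (Fin 2) F) // (χ : Matrix.SpecialLinearGroup (Fin 2) F → ℂ) 1 = (d : ℂ)} = T.card := by
    intro d T hT a1 a2 a3 a4 a5 a6
    refine CfsgLib.Lie.SLTwoTable.card_deg_eq T fun χ => ⟨fun hd => ?_, hT χ⟩
    rcases hall χ with h | h | h | rfl | rfl | h | rfl | rfl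
    · obtain rfl : χ = o := Subtype.ext h
      exact a1 (Nat.cast_inj.1 (hd.symm.trans ho))
    · obtain rfl : χ = t := Subtype.ext h
      exact a2 (Nat.cast_inj.1 (hd.symm.trans ht))
    · exact a3 (Nat.cast_inj.1 (hd.symm.trans (hps χ h))) h
    · exact (a4 (Nat.cast_inj.1 (hd.symm.trans d1))).1
    · exact (a4 (Nat.cast_inj.1 (hd.symm.trans d2))).2
    · exact a5 (Nat.cast_inj.1 (hd.symm.trans (hC χ h))) h
    · exact (a6 (Nat.cast_inj.1 (hd.symm.trans d3))).1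
    · exact (a6 (Nat.cast_inj.1 (hd.symm.trans d4))).2
  refine ⟨(key 1 {o} ?_ ?_ ?_ ?_ ?_ ?_ ?_).trans (Finset.card_singleton _), (key _ {t} ?_ ?_ ?_ ?_ ?_ ?_ ?_).trans (Finset.card_singleton _),
    (key _ (CfsgLib.Lie.SLTwoTable.psSet F) hps ?_ ?_ ?_ ?_ ?_ ?_).trans (by omega), (key _ C hC ?_ ?_ ?_ ?_ ?_ ?_).trans (by omega),
    (key _ {η, η'} ?_ ?_ ?_ ?_ ?_ ?_ ?_).trans (Finset.card_pair hne), (key _ {ξ, ξ'} ?_ ?_ ?_ ?_ ?_ ?_ ?_).trans (Finset.card_pair hne')⟩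
  all_goals intro x
  all_goals first
    | omega
    | exact fun _ h => h
    | (intro hx; rw [Finset.mem_singleton] at hx; subst hx; assumption)
    | (intro hx; rw [Finset.mem_insert, Finset.mem_singleton] at hx; rcases hx with rfl | rfl <;> assumption)
    | exact Finset.mem_singleton_self _
    | simp

end Cfsg.Agent.S2299
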