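import Cfsg.Statements.S2300
import Cfsg.Agent.Lib.LieSLTwoTableCases

set_option autoImplicit false
open Cfsg

namespace Cfsg.Agent.S2300

/-- Over a finite field F with q elements, q even, every irreducible complex character of SL₂ has degree 1, q − 1, q or q + 1; and when q ≥ 4 (so that these four numbers are distinct) there are exactly one irreducible character of degree 1, one of degree q, (q − 2)/2 of degree q + 1 and q/2 of degree q − 1. -/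
theorem result {F : Type*} [Field F] [Fintype F] [CharP F 2] :
    (∀ χ : Matrix.SpecialLinearGroup (Fin 2) F → ℂ, Cfsg.IsIrrCharacter (Matrix.SpecialLinearGroup (Fin 2) F) χ →
      χ 1 = 1 ∨ χ 1 = (Fintype.card F : ℂ) - 1 ∨ χ 1 = (Fintype.card F : ℂ) ∨ χ 1 = (Fintype.card F : ℂ) + 1) ∧
    (4 ≤ Fintype.card F →
      Nat.card {χ : Cfsg.IrrCharacter (Matrix.SpecialLinearGroup (Fin 2) F) // (χ : Matrix.SpecialLinearGroup (Fin 2) F → ℂ) 1 = 1} = 1 ∧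
      Nat.card {χ : Cfsg.IrrCharacter (Matrix.SpecialLinearGroup (Fin 2) F) // (χ : Matrix.SpecialLinearGroup (Fin 2) F → ℂ) 1 = (Fintype.card F : ℂ)} = 1 ∧
      Nat.card {χ : Cfsg.IrrCharacter (Matrix.SpecialLinearGroup (Fin 2) F) // (χ : Matrix.SpecialLinearGroup (Fin 2) F → ℂ) 1 = (Fintype.card F : ℂ) + 1} = (Fintype.card F - 2) / 2 ∧
      Nat.card {χ : Cfsg.IrrCharacter (Matrix.SpecialLinearGroup (Fin 2) F) // (χ : Matrix.SpecialLinearGroup (Fin 2) F → ℂ) 1 = (Fintype.card F : ℂ) - 1} = Fintype.card F / 2) := by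
  classical
  have hm := CfsgLib.Lie.SLTwoTable.even_card (F := F)
  have hq1 : 1 < Fintype.card F := Fintype.one_lt_card
  refine ⟨fun χ hχ => ?_, fun hq => ?_⟩
  · rw [CfsgLib.Lie.SLTwoTable.cast_q_add_one, CfsgLib.Lie.SLTwoTable.cast_q_sub_one]
    rcases CfsgLib.Lie.SLTwoTable.kinds_even χ hχ with ⟨-, h⟩ | ⟨-, h⟩ | ⟨-, h⟩ | ⟨h, -⟩
    · exact Or.inl (by rw [h, Nat.cast_one])
    · exact Or.inr (Or.inr (Or.inl h))
    · exact Or.inr (Or.inr (Or.inr h))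
    · exact Or.inr (Or.inl h)
  rw [CfsgLib.Lie.SLTwoTable.cast_q_add_one, CfsgLib.Lie.SLTwoTable.cast_q_sub_one, ← Nat.cast_one (R := ℂ)]
  obtain ⟨hP, C, hC2, hC0, hall⟩ := CfsgLib.Lie.SLTwoTable.table_even (F := F)
  have hC : ∀ χ ∈ C, (χ : Matrix.SpecialLinearGroup (Fin 2) F → ℂ) 1 = ((Fintype.card F - 1 : ℕ) : ℂ) := fun χ hχ => by
    rw [← CfsgLib.Lie.SLTwoTable.cast_q_sub_one]; exact (hC0 χ hχ).1
  have hps : ∀ χ ∈ CfsgLib.Lie.SLTwoTable.psSet F, (χ : Matrix.SpecialLinearGroup (Fin 2) F → ℂ) 1 = ((Fintype.card F + 1 : ℕ) : ℂ) := fun χ hχ => by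
    obtain ⟨α, -, e⟩ := (CfsgLib.Lie.SLTwoTable.mem_psSet χ).1 hχ
    rw [e, CfsgLib.Lie.SLTwoPS.ps_one, CfsgLib.Lie.SLTwoTable.cast_q_add_one]
  let o : Cfsg.IrrCharacter (Matrix.SpecialLinearGroup (Fin 2) F) := ⟨fun _ => 1, CfsgLib.Char.isIrrCharacter_one⟩
  let t : Cfsg.IrrCharacter (Matrix.SpecialLinearGroup (Fin 2) F) := ⟨CfsgLib.Lie.SLTwoTable.st, CfsgLib.Lie.SLTwoTable.isIrr_st⟩
  have ho : (o : Matrix.SpecialLinearGroup (Fin 2) F → ℂ) 1 = ((1 : ℕ) : ℂ) := by simp [o]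
  have ht : (t : Matrix.SpecialLinearGroup (Fin 2) F → ℂ) 1 = ((Fintype.card F : ℕ) : ℂ) := CfsgLib.Lie.SLTwoTable.st_one
  have key : ∀ (d : ℕ) (T : Finset (Cfsg.IrrCharacter (Matrix.SpecialLinearGroup (Fin 2) F))),
      (∀ χ ∈ T, (χ : Matrix.SpecialLinearGroup (Fin 2) F → ℂ) 1 = (d : ℂ)) →
      (d = 1 → o ∈ T) → (d = Fintype.card F → t ∈ T) → (d = Fintype.card F + 1 → CfsgLib.Lie.SLTwoTable.psSet F ⊆ T) →
      (d = Fintype.card F - 1 → C ⊆ T) →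
      Nat.card {χ : Cfsg.IrrCharacter (Matrix.SpecialLinearGroup (Fin 2) F) // (χ : Matrix.SpecialLinearGroup (Fin 2) F → ℂ) 1 = (d : ℂ)} = T.card := by
    intro d T hT a1 a2 a3 a5
    refine CfsgLib.Lie.SLTwoTable.card_deg_eq T fun χ => ⟨fun hd => ?_, hT χ⟩
    rcases hall χ with h | h | h | h
    · obtain rfl : χ = o := Subtype.ext h
      exact a1 (Nat.cast_inj.1 (hd.symm.trans ho))
    · obtain rfl : χ = t := Subtype.ext h
      exact a2 (Nat.cast_inj.1 (hd.symm.trans ht))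
    · exact a3 (Nat.cast_inj.1 (hd.symm.trans (hps χ h))) h
    · exact a5 (Nat.cast_inj.1 (hd.symm.trans (hC χ h))) h
  refine ⟨(key 1 {o} ?_ ?_ ?_ ?_ ?_).trans (Finset.card_singleton _), (key _ {t} ?_ ?_ ?_ ?_ ?_).trans (Finset.card_singleton _),
    (key _ (CfsgLib.Lie.SLTwoTable.psSet F) hps ?_ ?_ ?_ ?_).trans (by omega), (key _ C hC ?_ ?_ ?_ ?_).trans (by omega)⟩
  all_goals intro x
  all_goals first
    | omega
    | exact fun _ h => h
    | simp_all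

end Cfsg.Agent.S2300
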