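import Cfsg.Statements.S2355
import Cfsg.Agent.Lib.LieLawClassical

set_option autoImplicit false
open Cfsg

namespace Cfsg.Agent.S2355

/-- A non-trivial law is satisfied by only finitely many finite simple groups that are alternating or classical, up to isomorphism: for every non-trivial element w of the free group on countably many generators there is a bound N such that every alternating group of degree ≥ 5 and every simple classical group (linear, symplectic, unitary or orthogonal, in this problem's sense) in which w is a law has order at most N. -/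
theorem result (w : FreeGroup ℕ) (hw : w ≠ 1) :
    ∃ N : ℕ, ∀ (G : Type*) [Group G] [Finite G],
      (Cfsg.IsAlternating G ∨ Cfsg.IsPSL G ∨ Cfsg.IsPSp G ∨ Cfsg.IsPSU G ∨ Cfsg.IsPOmegaOdd G ∨
          Cfsg.IsPOmegaPlus G ∨ Cfsg.IsPOmegaMinus G) →
      (∀ f : ℕ → G, FreeGroup.lift f w = 1) → Nat.card G ≤ N := by
  obtain ⟨Na, hNa⟩ := CfsgLib.Lie.LawFree.nc_alt hw
  obtain ⟨Ns, hNs⟩ := CfsgLib.Lie.LawFree.nc_sl hw
  obtain ⟨Nu, hNu⟩ := CfsgLib.Lie.LawFree.nc_su hw
  obtain ⟨M, hM⟩ : ∃ M, M = Na + Ns + Nu + 2 := ⟨_, rfl⟩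
  obtain ⟨K, hK⟩ : ∃ K, K = (2 * M + 2) ^ 2 := ⟨_, rfl⟩
  have hMK : 2 * M + 2 ≤ K := hK ▸ Nat.le_self_pow (by norm_num) _
  refine ⟨max (Nat.factorial Na) ((K + 1) ^ (K * K)), fun G _ _ hG hlaw => ?_⟩
  rcases hG with h | h | h | h | h | h | h
  · obtain ⟨n, -, ⟨e⟩⟩ := h
    by_cases hn : Na ≤ n
    · obtain ⟨f, hf⟩ := (hNa n hn).of_sub.ne_one
      refine absurd ?_ hf
      have h1 := hlaw (fun i => e.symm (f i))
      have h2 : FreeGroup.lift f w = (e.toMonoidHom.comp (FreeGroup.lift fun i => e.symm (f i))) w := by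
        congr 1
        exact FreeGroup.ext_hom _ _ fun i => by simp
      rw [h2, MonoidHom.comp_apply, h1, map_one]
    · refine le_max_of_le_left ?_
      rw [Nat.card_congr e.toEquiv]
      refine (Nat.card_le_card_of_injective Subtype.val Subtype.val_injective).trans ?_
      rw [Nat.card_perm, Nat.card_fin]
      exact Nat.factorial_le (by omega)
  all_goals refine le_max_of_le_right ?_
  · obtain ⟨F, _, _, m, hm, -, ⟨e⟩⟩ := h
    by_cases hb : Ns ≤ m ∨ Ns ≤ Fintype.card F
    · exact (CfsgLib.Lie.LawFree.law_bound e hlaw (hNs F m hm hb).of_sub).elim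
    · rw [not_or] at hb
      rw [Nat.card_congr e.toEquiv]
      exact CfsgLib.Lie.LawFree.card_quot_le (Γ := Matrix.SpecialLinearGroup (Fin m) F) Subtype.val Subtype.val_injective
        (by rw [Fintype.card_fin]; omega) (by omega) _
  · obtain ⟨F, _, _, m, hm, -, ⟨e⟩⟩ := h
    by_cases hb : Ns ≤ m ∨ Ns ≤ Fintype.card F
    · exact (CfsgLib.Lie.LawFree.law_bound e hlaw
        ((hNs F m hm hb).of_sub.map _ CfsgLib.Lie.LawFree.toSp_injective)).elim
    · rw [not_or] at hb
      rw [Nat.card_congr e.toEquiv]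
      exact CfsgLib.Lie.LawFree.card_quot_le Subtype.val Subtype.val_injective
        (by rw [Fintype.card_sum, Fintype.card_fin]; omega) (by omega) _
  · obtain ⟨F, _, _, n, q, hq, hn, -, ⟨e⟩⟩ := h
    by_cases hb : Nu ≤ n ∨ Nu ≤ q
    · exact (CfsgLib.Lie.LawFree.law_bound e hlaw (hNu F n q hq (by omega) hb)).elim
    · rw [not_or] at hb
      have hF : Fintype.card F ≤ K := by
        rw [hq, hK]
        exact Nat.pow_le_pow_left (by omega) 2
      rw [Nat.card_congr e.toEquiv]
      exact CfsgLib.Lie.LawFree.card_quot_le (Γ := ↥(Cfsg.SU n F q)) (fun g => g.1.1) (fun a b hab => Subtype.ext (Subtype.ext hab))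
        (by rw [Fintype.card_fin]; omega) hF _
  · obtain ⟨F, _, _, m, hm, -, ⟨e⟩⟩ := h
    by_cases hb : Ns ≤ m ∨ Ns ≤ Fintype.card F
    · exact (CfsgLib.Lie.LawFree.law_bound e hlaw
        ((hNs F m (by omega) hb).comm_map _ CfsgLib.Lie.LawFree.toOOdd_injective)).elim
    · rw [not_or] at hb
      rw [Nat.card_congr e.toEquiv]
      exact CfsgLib.Lie.LawFree.card_quot_le (fun g => g.1.1.1)
        (fun a b hab => Subtype.ext (Subtype.ext (Units.ext hab)))
        (by simp only [Fintype.card_sum, Fintype.card_fin, Fintype.card_unit]; omega) (by omega) _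
  · obtain ⟨F, _, _, m, hm, ⟨e⟩⟩ := h
    by_cases hb : Ns ≤ m ∨ Ns ≤ Fintype.card F
    · exact (CfsgLib.Lie.LawFree.law_bound e hlaw
        ((hNs F m (by omega) hb).comm_map _ CfsgLib.Lie.LawFree.toOPlus_injective)).elim
    · rw [not_or] at hb
      rw [Nat.card_congr e.toEquiv]
      exact CfsgLib.Lie.LawFree.card_quot_le (fun g => g.1.1.1)
        (fun a b hab => Subtype.ext (Subtype.ext (Units.ext hab)))
        (by simp only [Fintype.card_sum, Fintype.card_fin]; omega) (by omega) _
  · obtain ⟨F, _, _, m, a, b, hm, -, ⟨e⟩⟩ := h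
    by_cases hb : Ns ≤ m - 1 ∨ Ns ≤ Fintype.card F
    · exact (CfsgLib.Lie.LawFree.law_bound e hlaw
        ((hNs F (m - 1) (by omega) hb).comm_map _ (CfsgLib.Lie.LawFree.toOMinus_injective a b))).elim
    · rw [not_or] at hb
      rw [Nat.card_congr e.toEquiv]
      exact CfsgLib.Lie.LawFree.card_quot_le (fun g => g.1.1.1)
        (fun a b hab => Subtype.ext (Subtype.ext (Units.ext hab)))
        (by simp only [Fintype.card_sum, Fintype.card_fin]; omega) (by omega) _

end Cfsg.Agent.S2355
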