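import Cfsg.Statements.S2394

set_option autoImplicit false
open scoped MatrixGroups
open Cfsg

namespace Cfsg.Agent.S2394

section

open Matrix

variable {F : Type*} [Field F] {n : ℕ}

def emb0 (f : Fin n → Matrix.SpecialLinearGroup (Fin 2) F) :
    Matrix (Fin n ⊕ Fin n) (Fin n ⊕ Fin n) F :=
  Matrix.fromBlocks (Matrix.diagonal fun i => f i 0 0) (Matrix.diagonal fun i => f i 0 1)
    (Matrix.diagonal fun i => f i 1 0) (Matrix.diagonal fun i => f i 1 1)

theorem det2 (f : Matrix.SpecialLinearGroup (Fin 2) F) : f 0 0 * f 1 1 - f 0 1 * f 1 0 = 1 := by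
  have h := f.2
  rwa [Matrix.det_fin_two] at h

theorem diag_neg_one (a : Fin n → F) : -(Matrix.diagonal a) = Matrix.diagonal (-a) :=
  Matrix.diagonal_neg a

theorem emb0_mem (f : Fin n → Matrix.SpecialLinearGroup (Fin 2) F) :
    emb0 f ∈ Matrix.symplecticGroup (Fin n) F := by
  rw [SymplecticGroup.mem_iff, emb0, Matrix.J, fromBlocks_multiply, fromBlocks_transpose,
    fromBlocks_multiply]
  simp only [Matrix.mul_zero, Matrix.mul_one, zero_add, add_zero, Matrix.mul_neg,
    Matrix.diagonal_transpose, Matrix.neg_mul, Matrix.diagonal_mul_diagonal]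
  have e : ∀ a b : Fin n → F, Matrix.diagonal a + -Matrix.diagonal b = Matrix.diagonal fun i => a i - b i := by
    intro a b
    rw [diag_neg_one, Matrix.diagonal_add]
    simp [sub_eq_add_neg]
  rw [e, e, e, e, ← Matrix.diagonal_one, ← Matrix.diagonal_zero, diag_neg_one]
  congr 2 <;> funext i <;> have h := det2 (f i) <;> (try simp only [Pi.neg_apply]) <;> first | ring1 | linear_combination h | linear_combination -h

theorem emb0_mul (f g : Fin n → Matrix.SpecialLinearGroup (Fin 2) F) :
    emb0 (f * g) = emb0 f * emb0 g := by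
  rw [emb0, emb0, emb0, fromBlocks_multiply]
  simp only [Matrix.diagonal_mul_diagonal, Matrix.diagonal_add, Pi.mul_apply,
    Matrix.SpecialLinearGroup.coe_mul, Matrix.mul_apply, Fin.sum_univ_two]

def emb : (Fin n → Matrix.SpecialLinearGroup (Fin 2) F) →* ↥(Matrix.symplecticGroup (Fin n) F) :=
  MonoidHom.mk' (fun f => ⟨emb0 f, emb0_mem f⟩) fun f g => Subtype.ext (emb0_mul f g)

theorem emb_injective : Function.Injective (emb : (Fin n → Matrix.SpecialLinearGroup (Fin 2) F) →* _) := by
  intro f g h
  have h1 : emb0 f = emb0 g := congrArg Subtype.val h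
  rw [emb0, emb0, Matrix.fromBlocks_inj] at h1
  obtain ⟨a, b, c, d⟩ := h1
  funext i
  have a' := congrFun (Matrix.diagonal_injective a) i
  have b' := congrFun (Matrix.diagonal_injective b) i
  have c' := congrFun (Matrix.diagonal_injective c) i
  have d' := congrFun (Matrix.diagonal_injective d) i
  apply Matrix.SpecialLinearGroup.ext
  intro r s
  fin_cases r <;> fin_cases s <;> assumption

def pm (π : Equiv.Perm (Fin n)) : Matrix (Fin n ⊕ Fin n) (Fin n ⊕ Fin n) F :=
  Matrix.fromBlocks (π.permMatrix F) 0 0 (π.permMatrix F)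

theorem pm_mem (π : Equiv.Perm (Fin n)) :
    (pm π : Matrix _ _ F) ∈ Matrix.symplecticGroup (Fin n) F := by
  rw [SymplecticGroup.mem_iff, pm, Matrix.J, fromBlocks_multiply, fromBlocks_transpose,
    fromBlocks_multiply]
  have h : π.permMatrix F * (π.permMatrix F)ᵀ = 1 := by
    rw [Matrix.transpose_permMatrix, ← Matrix.permMatrix_mul, inv_mul_cancel, Matrix.permMatrix_one]
  have h' : π.permMatrix F * π⁻¹.permMatrix F = 1 := by
    rw [← Matrix.permMatrix_mul, inv_mul_cancel, Matrix.permMatrix_one]
  simp [h']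

theorem perm_diag (π : Equiv.Perm (Fin n)) (a : Fin n → F) :
    π.permMatrix F * Matrix.diagonal a = Matrix.diagonal (fun i => a (π i)) * π.permMatrix F := by
  ext i j
  rw [Matrix.mul_diagonal, Matrix.diagonal_mul]
  simp only [Equiv.Perm.permMatrix, PEquiv.toMatrix_apply, Equiv.toPEquiv_apply, Option.mem_def,
    Option.some.injEq]
  split_ifs with h
  · rw [h, one_mul, mul_one]
  · simp

theorem pm_emb (π : Equiv.Perm (Fin n)) (f : Fin n → Matrix.SpecialLinearGroup (Fin 2) F) :
    (⟨pm π, pm_mem π⟩ : ↥(Matrix.symplecticGroup (Fin n) F)) * emb f =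
      emb (fun i => f (π i)) * ⟨pm π, pm_mem π⟩ := by
  apply Subtype.ext
  show pm π * emb0 f = emb0 (fun i => f (π i)) * pm π
  rw [pm, emb0, emb0, fromBlocks_multiply, fromBlocks_multiply]
  simp [perm_diag]

/-- A torus element of SL2 and an element inverting it. -/
theorem exists_wu [Finite F] : ∃ (m : ℕ) (w u : Matrix.SpecialLinearGroup (Fin 2) F),
    (m : F) ≠ 0 ∧ w ^ m = 1 ∧ w ^ 2 ≠ 1 ∧ w * u = u * w⁻¹ := by
  by_cases h2 : (2 : F) = 0
  · haveI : CharP F 2 := CharTwo.of_one_ne_zero_of_two_eq_zero one_ne_zero h2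
    obtain ⟨W, hW⟩ : ∃ W : Matrix.SpecialLinearGroup (Fin 2) F,
        (W : Matrix (Fin 2) (Fin 2) F) = !![0, 1; 1, 1] :=
      ⟨⟨_, by simp [Matrix.det_fin_two_of, CharTwo.neg_eq]⟩, rfl⟩
    obtain ⟨U, hU⟩ : ∃ U : Matrix.SpecialLinearGroup (Fin 2) F,
        (U : Matrix (Fin 2) (Fin 2) F) = !![0, 1; 1, 0] :=
      ⟨⟨_, by simp [Matrix.det_fin_two_of, CharTwo.neg_eq]⟩, rfl⟩
    refine ⟨3, W, U, ?_, ?_, ?_, ?_⟩
    · have : ((3 : ℕ) : F) = 1 := by
        push_cast
        linear_combination h2
      rw [this]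
      exact one_ne_zero
    · apply Subtype.ext
      rw [Matrix.SpecialLinearGroup.coe_pow, hW, Matrix.SpecialLinearGroup.coe_one, pow_succ,
        pow_two]
      ext r s
      fin_cases r <;> fin_cases s <;> simp [CharTwo.add_self_eq_zero]
    · intro h
      have h1 := congrFun (congrFun (congrArg Subtype.val h) 0) 1
      rw [Matrix.SpecialLinearGroup.coe_pow, hW, pow_two] at h1
      simp at h1
    · rw [eq_mul_inv_iff_mul_eq]
      apply Subtype.ext
      simp only [Matrix.SpecialLinearGroup.coe_mul, hW, hU]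
      ext r s
      fin_cases r <;> fin_cases s <;> simp [CharTwo.add_self_eq_zero]
  · obtain ⟨a, b, hab⟩ : ∃ a b : F, a ^ 2 + b ^ 2 = -1 := by
      haveI := Fintype.ofFinite F
      obtain ⟨p, hp⟩ := CharP.exists F
      haveI : Fact p.Prime := ⟨CharP.char_is_prime F p⟩
      obtain ⟨a, b, hab⟩ := ZMod.sq_add_sq p (-1)
      refine ⟨ZMod.castHom dvd_rfl F a, ZMod.castHom dvd_rfl F b, ?_⟩
      rw [← map_pow, ← map_pow, ← map_add, hab, map_neg, map_one]
    obtain ⟨W, hW⟩ : ∃ W : Matrix.SpecialLinearGroup (Fin 2) F,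
        (W : Matrix (Fin 2) (Fin 2) F) = !![0, 1; -1, 0] :=
      ⟨⟨_, by simp [Matrix.det_fin_two_of]⟩, rfl⟩
    obtain ⟨U, hU⟩ : ∃ U : Matrix.SpecialLinearGroup (Fin 2) F,
        (U : Matrix (Fin 2) (Fin 2) F) = !![a, b; b, -a] :=
      ⟨⟨_, by rw [Matrix.det_fin_two_of]; linear_combination -hab⟩, rfl⟩
    refine ⟨4, W, U, ?_, ?_, ?_, ?_⟩
    · have : ((4 : ℕ) : F) = 2 * 2 := by norm_num
      rw [this]
      exact mul_ne_zero h2 h2
    · apply Subtype.ext
      rw [Matrix.SpecialLinearGroup.coe_pow, hW, Matrix.SpecialLinearGroup.coe_one, pow_succ,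
        pow_succ, pow_two]
      ext r s
      fin_cases r <;> fin_cases s <;> simp
    · intro h
      have h1 := congrFun (congrFun (congrArg Subtype.val h) 0) 0
      rw [Matrix.SpecialLinearGroup.coe_pow, hW, pow_two] at h1
      simp at h1
      exact h2 (by linear_combination -h1)
    · rw [eq_mul_inv_iff_mul_eq]
      apply Subtype.ext
      simp only [Matrix.SpecialLinearGroup.coe_mul, hW, hU]
      ext r s
      fin_cases r <;> fin_cases s <;> simp

noncomputable def toEnd (K : Type*) [Field K] [Algebra F K] (d : ℕ) :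
    GL (Fin d) F →* Module.End K (Fin d → K) where
  toFun g := Matrix.toLin' ((g : Matrix (Fin d) (Fin d) F).map (algebraMap F K))
  map_one' := by
    rw [Units.val_one, Matrix.map_one _ (map_zero _) (map_one _), Matrix.toLin'_one]
    rfl
  map_mul' g h := by
    rw [Units.val_mul, Matrix.map_mul, Matrix.toLin'_mul]
    rfl

theorem toEnd_injective (K : Type*) [Field K] [Algebra F K] (d : ℕ) :
    Function.Injective (toEnd (F := F) K d) := fun g h e =>
  Units.ext (Matrix.map_injective (algebraMap F K).injective (Matrix.toLin'.injective e))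

theorem common_eigen {K V ι : Type*} [Field K] [IsAlgClosed K] [AddCommGroup V] [Module K V]
    [FiniteDimensional K V] (T : ι → Module.End K V) (hT : ∀ i j, Commute (T i) (T j))
    (W : Submodule K V) (hW : W ≠ ⊥) (hWi : ∀ i, ∀ v ∈ W, T i v ∈ W) (S : Finset ι) :
    ∃ W' : Submodule K V, W' ≠ ⊥ ∧ W' ≤ W ∧ (∀ i, ∀ v ∈ W', T i v ∈ W') ∧
      ∀ i ∈ S, ∃ c : K, ∀ v ∈ W', T i v = c • v := by
  classical
  induction S using Finset.induction with
  | empty => exact ⟨W, hW, le_rfl, hWi, by simp⟩
  | insert j S hj ih =>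
    obtain ⟨W', h1, h2, h3, h4⟩ := ih
    haveI : Nontrivial W' := Submodule.nontrivial_iff_ne_bot.mpr h1
    obtain ⟨μ, hμ⟩ := Module.End.exists_eigenvalue ((T j).restrict (h3 j))
    obtain ⟨x, hx⟩ := hμ.exists_hasEigenvector
    refine ⟨W' ⊓ Module.End.eigenspace (T j) μ, ?_, inf_le_left.trans h2, ?_, ?_⟩
    · rw [Submodule.ne_bot_iff]
      refine ⟨x, ⟨x.2, ?_⟩, fun h => hx.2 (Subtype.ext h)⟩
      rw [SetLike.mem_coe, Module.End.mem_eigenspace_iff]
      exact congrArg Subtype.val hx.apply_eq_smul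
    · rintro i v ⟨hv1, hv2⟩
      refine ⟨h3 i v hv1, ?_⟩
      rw [SetLike.mem_coe, Module.End.mem_eigenspace_iff] at hv2 ⊢
      calc T j (T i v) = T i (T j v) := LinearMap.congr_fun (hT j i).eq v
        _ = μ • T i v := by rw [hv2, map_smul]
    · intro i hi
      rcases Finset.mem_insert.mp hi with rfl | hi
      · exact ⟨μ, fun v hv => Module.End.mem_eigenspace_iff.mp hv.2⟩
      · obtain ⟨c, hc⟩ := h4 i hi
        exact ⟨c, fun v hv => hc v hv.1⟩

theorem joint_eigen_card {K V ι α : Type*} [Field K] [AddCommGroup V] [Module K V]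
    [FiniteDimensional K V] [Fintype α] (T : ι → Module.End K V) (hT : ∀ i j, Commute (T i) (T j))
    (χ : α → ι → K) (hχ : Function.Injective χ)
    (h : ∀ a, ∃ v : V, v ≠ 0 ∧ ∀ i, T i v = χ a i • v) :
    Fintype.card α ≤ Module.finrank K V := by
  choose v hv0 hv using h
  have hind := Module.End.independent_iInf_maxGenEigenspace_of_forall_mapsTo T
    (fun i j φ => Module.End.mapsTo_maxGenEigenspace_of_comm (hT j i) φ)
  have hli : LinearIndependent K v := by
    refine (hind.comp hχ).linearIndependent _ (fun a => ?_) hv0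
    rw [Function.comp_apply, Submodule.mem_iInf]
    intro i
    exact Module.End.eigenspace_le_maxGenEigenspace (Module.End.mem_eigenspace_iff.mpr (hv a i))
  exact hli.fintype_card_le_finrank

end

set_option maxHeartbeats 1600000 in
/-- The smallest degree of a faithful representation of the symplectic group `Sp_{2n}(q)` over its own field `F_q` is `2n`: every injective homomorphism from `Sp_{2n}(F)` to `GL_d(F)`, `F` the field with `q` elements, has `d ≥ 2n`. -/
theorem result {F : Type*} [Field F] [Fintype F] (n : ℕ) {d : ℕ}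
    (ρ : ↥(Matrix.symplecticGroup (Fin n) F) →* GL (Fin d) F) (hρ : Function.Injective ρ) : 2 * n ≤ d := by
  classical
  rcases Nat.eq_zero_or_pos n with rfl | hn
  · simp
  obtain ⟨m, w, u, hm, hwm, hw2, hwu⟩ := exists_wu (F := F)
  let K := AlgebraicClosure F
  obtain ⟨R', hR'⟩ : ∃ R' : ↥(Matrix.symplecticGroup (Fin n) F) →* Module.End K (Fin d → K),
      Function.Injective R' :=
    ⟨(toEnd K d).comp ρ, (toEnd_injective K d).comp hρ⟩
  obtain ⟨R, hRR⟩ : ∃ R : (Fin n → Matrix.SpecialLinearGroup (Fin 2) F) →* Module.End K (Fin d → K),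
      ∀ f, R f = R' (emb f) := ⟨R'.comp emb, fun _ => rfl⟩
  have hR : Function.Injective R := by
    intro f g h
    rw [hRR, hRR] at h
    exact emb_injective (hR' h)
  let T : Fin n → Module.End K (Fin d → K) := fun i => R (Pi.mulSingle i w)
  have hT : ∀ i j, Commute (T i) (T j) := by
    intro i j
    rcases eq_or_ne i j with rfl | hij
    · exact Commute.refl _
    · exact (Pi.mulSingle_commute hij w w).map R
  let i0 : Fin n := ⟨0, hn⟩
  have hTm : ∀ i, T i ^ m = 1 := fun i => by
    rw [← map_pow, ← Pi.mulSingle_pow, hwm, Pi.mulSingle_one, map_one]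
  have hT2 : T i0 ^ 2 - 1 ≠ 0 := by
    intro h
    rw [sub_eq_zero, ← map_pow, ← map_one R] at h
    have := congrFun (hR h) i0
    simp at this
    exact hw2 this
  have hW : LinearMap.range (T i0 ^ 2 - 1) ≠ ⊥ := fun h => hT2 (LinearMap.range_eq_bot.mp h)
  obtain ⟨W, hW0, hWle, -, hWs⟩ := common_eigen T hT (LinearMap.range (T i0 ^ 2 - 1)) hW (by
    rintro i _ ⟨x, rfl⟩
    refine ⟨T i x, ?_⟩
    exact LinearMap.congr_fun (((hT i0 i).pow_left 2).sub_left (Commute.one_left _)).eq x) Finset.univ
  choose χ hχ using fun i => hWs i (Finset.mem_univ i)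
  obtain ⟨v, hvW, hv0⟩ := (Submodule.ne_bot_iff _).mp hW0
  have hχm : ∀ i, χ i ^ m = 1 := by
    intro i
    have hp : ∀ k : ℕ, (T i ^ k) v = χ i ^ k • v := by
      intro k
      induction k with
      | zero => simp
      | succ k ih => rw [pow_succ', Module.End.mul_apply, ih, map_smul, hχ i v hvW, smul_smul,
          ← pow_succ]
    have h := hp m
    rw [hTm, Module.End.one_apply] at h
    have h1 : (χ i ^ m - 1) • v = 0 := by rw [sub_smul, one_smul, ← h, sub_self]
    exact sub_eq_zero.mp ((smul_eq_zero.mp h1).resolve_right hv0)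
  have hm0 : m ≠ 0 := fun h => hm (by rw [h, Nat.cast_zero])
  have hχne : ∀ i, χ i ≠ 0 := fun i h => by
    have := hχm i
    rw [h, zero_pow hm0] at this
    exact zero_ne_one this
  have hkey : χ i0 ^ 2 ≠ 1 := by
    intro h
    obtain ⟨x, hx⟩ := hWle hvW
    have hTv : (T i0 ^ 2) v = v := by
      rw [pow_two, Module.End.mul_apply, hχ i0 v hvW, map_smul, hχ i0 v hvW, smul_smul, ← pow_two,
        h, one_smul]
    have hk : ∀ k : ℕ, ((T i0 ^ 2) ^ k) x = x + k • v := by
      intro k
      induction k with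
      | zero => simp
      | succ k ih =>
        rw [pow_succ', Module.End.mul_apply, ih, map_add, map_nsmul, hTv, succ_nsmul']
        have : (T i0 ^ 2) x = x + v := by
          rw [← hx, LinearMap.sub_apply, Module.End.one_apply]
          abel
        rw [this]
        abel
    have h1 := hk m
    rw [← pow_mul, mul_comm, pow_mul, hTm, one_pow, Module.End.one_apply] at h1
    have h2 : (m : K) • v = 0 := by
      rw [Nat.cast_smul_eq_nsmul]
      exact (add_eq_left.mp h1.symm)
    refine hv0 ((smul_eq_zero.mp h2).resolve_left ?_)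
    intro hh
    apply hm
    apply (algebraMap F K).injective
    rw [map_natCast, map_zero]
    exact hh
  -- flipped and permuted eigenvectors
  let U : Finset (Fin n) → (Fin n → Matrix.SpecialLinearGroup (Fin 2) F) := fun s i =>
    if i ∈ s then u else 1
  let ψ : Equiv.Perm (Fin n) → Finset (Fin n) → Fin n → K := fun π s i =>
    if π.symm i ∈ s then (χ (π.symm i))⁻¹ else χ (π.symm i)
  have hψ : ∀ π s, ∃ x : Fin d → K, x ≠ 0 ∧ ∀ i, T i x = ψ π s i • x := by
    intro π s
    let P : ↥(Matrix.symplecticGroup (Fin n) F) := ⟨pm π.symm, pm_mem π.symm⟩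
    refine ⟨R' P (R (U s) v), ?_, ?_⟩
    · intro h
      have hc : ∀ g : ↥(Matrix.symplecticGroup (Fin n) F), ∀ y, R' g y = 0 → y = 0 := by
        intro g y hy
        have := congrArg (R' g⁻¹) hy
        rwa [← Module.End.mul_apply, ← map_mul, inv_mul_cancel, map_one, Module.End.one_apply,
          map_zero] at this
      refine hv0 (hc (emb (U s)) v ?_)
      rw [← hRR]
      exact hc P _ h
    · intro i
      have h1 : emb (Pi.mulSingle i w) * P = P * emb (Pi.mulSingle (π.symm i) w) := by
        rw [pm_emb]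
        congr 2
        funext j
        simp only [Pi.mulSingle_apply, π.symm.injective.eq_iff]
      have h2 : T i (R' P (R (U s) v)) = R' P (T (π.symm i) (R (U s) v)) := by
        simp only [T, hRR]
        rw [← Module.End.mul_apply, ← map_mul, h1, map_mul, Module.End.mul_apply]
      have h3 : T (π.symm i) (R (U s) v) = ψ π s i • R (U s) v := by
        simp only [ψ]
        set j := π.symm i with hj
        show R (Pi.mulSingle j w) (R (U s) v) = _
        by_cases hjs : j ∈ s
        · have h4 : Pi.mulSingle j w * U s = U s * (Pi.mulSingle j w)⁻¹ := by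
            funext k
            rcases eq_or_ne k j with rfl | hk
            · simp [U, hjs, hwu]
            · simp [hk]
          have h5 : R (Pi.mulSingle j w)⁻¹ v = (χ j)⁻¹ • v := by
            have h6 : R (Pi.mulSingle j w)⁻¹ (T j v) = v := by
              rw [← Module.End.mul_apply, ← map_mul, inv_mul_cancel, map_one, Module.End.one_apply]
            rw [hχ j v hvW, map_smul] at h6
            conv_rhs => rw [← h6]
            rw [smul_smul, inv_mul_cancel₀ (hχne j), one_smul]
          rw [if_pos hjs, ← Module.End.mul_apply, ← map_mul, h4, map_mul, Module.End.mul_apply, h5,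
            map_smul]
        · have h4 : Pi.mulSingle j w * U s = U s * Pi.mulSingle j w := by
            funext k
            rcases eq_or_ne k j with rfl | hk
            · simp [U, hjs]
            · simp [hk]
          rw [if_neg hjs, ← Module.End.mul_apply, ← map_mul, h4, map_mul, Module.End.mul_apply]
          show R (U s) (T j v) = _
          rw [hχ j v hvW, map_smul]
      rw [h2, h3, map_smul]
  have hfin : Module.finrank K (Fin d → K) = d := Module.finrank_fin_fun K
  have hinv : ∀ x : K, x ≠ 0 → x ^ 2 ≠ 1 → x⁻¹ ≠ x := by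
    intro x hx h2 h
    apply h2
    rw [pow_two]
    conv_lhs => arg 1; rw [← h]
    exact inv_mul_cancel₀ hx
  have hflip : ∀ π s i, (ψ π s i) ^ 2 = 1 ↔ χ (π.symm i) ^ 2 = 1 := by
    intro π s i
    simp only [ψ]
    split_ifs
    · rw [inv_pow, inv_eq_one]
    · rfl
  have final : ∀ (Φ : Fin n × Bool → Equiv.Perm (Fin n) × Finset (Fin n)),
      Function.Injective (fun a => ψ (Φ a).1 (Φ a).2) → 2 * n ≤ d := by
    intro Φ hΦ
    have := joint_eigen_card T hT _ hΦ (fun a => hψ _ _)
    simp [hfin] at this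
    omega
  by_cases hall : ∀ i, χ i ^ 2 ≠ 1
  · refine final (fun a => (1, if a.2 then Finset.univ.filter (fun j => j < a.1)
      else Finset.univ.filter (fun j => ¬ j < a.1))) ?_
    intro a b h
    have hs : ∀ s t, ψ 1 s = ψ 1 t → s = t := by
      intro s t hst
      ext i
      have h1 := congrFun hst i
      simp only [ψ, Equiv.Perm.one_symm, Equiv.Perm.one_apply] at h1
      by_cases hi : i ∈ s <;> by_cases hi' : i ∈ t <;> simp only [hi, hi', if_true, if_false] at h1 ⊢
      · exact absurd h1 (hinv _ (hχne i) (hall i))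
      · exact absurd h1.symm (hinv _ (hχne i) (hall i))
    obtain ⟨i, bi⟩ := a
    obtain ⟨j, bj⟩ := b
    have h' := hs _ _ h
    have hi := Finset.ext_iff.mp h' i
    have hj := Finset.ext_iff.mp h' j
    have hlast := Finset.ext_iff.mp h' ⟨n - 1, by omega⟩
    clear h' h
    have bi' := i.isLt
    have bj' := j.isLt
    rcases bi with _ | _ <;> rcases bj with _ | _ <;>
      simp only [↓reduceIte, Bool.false_eq_true, Finset.mem_filter, Finset.mem_univ, true_and,
        Fin.lt_def] at hi hj hlast
    all_goals first | omega | exact Prod.ext (Fin.ext (show i.val = j.val by omega)) rfl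
  · push_neg at hall
    obtain ⟨j0, hj0⟩ := hall
    have hi0j0 : i0 ≠ j0 := fun h => hkey (h ▸ hj0)
    let π : Fin n → Equiv.Perm (Fin n) := fun i =>
      if i = i0 then 1 else if χ i ^ 2 = 1 then Equiv.swap i0 i else Equiv.swap i j0
    refine final (fun a => (π a.1, if a.2 then Finset.univ else ∅)) ?_
    rintro ⟨i, bi⟩ ⟨j, bj⟩ h
    have hp : ∀ k, χ ((π i).symm k) ^ 2 = 1 ↔ χ ((π j).symm k) ^ 2 = 1 := fun k => by
      rw [← hflip (π i) (if bi then Finset.univ else ∅), ← hflip (π j) (if bj then Finset.univ else ∅)]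
      exact iff_of_eq (by rw [show ψ (π i) _ k = ψ (π j) _ k from congrFun h k])
    have k0 : π i0 = 1 := if_pos rfl
    have kN : ∀ a, a ≠ i0 → χ a ^ 2 = 1 → π a = Equiv.swap i0 a := fun a h1 h2 => by
      simp only [π]
      rw [if_neg h1, if_pos h2]
    have kS : ∀ a, a ≠ i0 → ¬ χ a ^ 2 = 1 → π a = Equiv.swap a j0 := fun a h1 h2 => by
      simp only [π]
      rw [if_neg h1, if_neg h2]
    have hij : i = j := by
      by_contra hne
      have hA := hp i
      have hB := hp j
      have hC := hp i0
      by_cases a1 : i = i0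
      · subst a1
        have b1 : j ≠ i0 := Ne.symm hne
        rw [k0] at hB hC
        simp only [Equiv.Perm.one_symm, Equiv.Perm.one_apply] at hB hC
        by_cases b2 : χ j ^ 2 = 1
        · rw [kN j b1 b2, Equiv.symm_swap, Equiv.swap_apply_left] at hC
          exact hkey (hC.mpr b2)
        · rw [kS j b1 b2, Equiv.symm_swap, Equiv.swap_apply_left] at hB
          exact b2 (hB.mpr hj0)
      by_cases b1 : j = i0
      · subst b1
        rw [k0] at hA hC
        simp only [Equiv.Perm.one_symm, Equiv.Perm.one_apply] at hA hC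
        by_cases a2 : χ i ^ 2 = 1
        · rw [kN i a1 a2, Equiv.symm_swap, Equiv.swap_apply_left] at hC
          exact hkey (hC.mp a2)
        · rw [kS i a1 a2, Equiv.symm_swap, Equiv.swap_apply_left] at hA
          exact a2 (hA.mp hj0)
      by_cases a2 : χ i ^ 2 = 1 <;> by_cases b2 : χ j ^ 2 = 1
      · rw [kN i a1 a2, kN j b1 b2, Equiv.symm_swap, Equiv.symm_swap, Equiv.swap_apply_right,
          Equiv.swap_apply_of_ne_of_ne a1 hne] at hA
        exact hkey (hA.mpr a2)
      · rw [kN i a1 a2, kS j b1 b2, Equiv.symm_swap, Equiv.symm_swap, Equiv.swap_apply_left,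
          Equiv.swap_apply_of_ne_of_ne (Ne.symm b1) hi0j0] at hC
        exact hkey (hC.mp a2)
      · rw [kS i a1 a2, kN j b1 b2, Equiv.symm_swap, Equiv.symm_swap, Equiv.swap_apply_left,
          Equiv.swap_apply_of_ne_of_ne (Ne.symm a1) hi0j0] at hC
        exact hkey (hC.mpr b2)
      · rcases eq_or_ne i j0 with h3 | h3
        · exact a2 (h3 ▸ hj0)
        · rw [kS i a1 a2, kS j b1 b2, Equiv.symm_swap, Equiv.symm_swap, Equiv.swap_apply_left,
            Equiv.swap_apply_of_ne_of_ne hne h3] at hA
          exact a2 (hA.mp hj0)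
    subst hij
    have h1 : ψ (π i) (if bi then Finset.univ else ∅) (π i i0) =
        ψ (π i) (if bj then Finset.univ else ∅) (π i i0) := congrFun h _
    cases bi <;> cases bj <;> simp [ψ] at h1 ⊢
    · exact hinv _ (hχne i0) hkey h1.symm
    · exact hinv _ (hχne i0) hkey h1

end Cfsg.Agent.S2394
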