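import Cfsg.Statements.S2466
import Mathlib.GroupTheory.Perm.Cycle.PossibleTypes


set_option autoImplicit false
open Cfsg

namespace Cfsg.Agent.S2466

/-- Adjacency of odd primes in the prime graph of the alternating groups: let r ≠ s be odd primes at most n. The alternating group of degree n has an element of order r·s if and only if r + s ≤ n. -/
theorem result (n r s : ℕ) (hr : r.Prime) (hs : s.Prime) (hr2 : r ≠ 2) (hs2 : s ≠ 2) (hrs : r ≠ s) (hrn : r ≤ n) (hsn : s ≤ n) :
    (r * s ∈ Set.range (orderOf : alternatingGroup (Fin n) → ℕ)) ↔ r + s ≤ n := by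
  classical
  constructor
  · rintro ⟨σ, hσ⟩
    have ho : orderOf (σ : Equiv.Perm (Fin n)) = r * s := by rw [Subgroup.orderOf_coe, hσ]
    have hsum := (σ : Equiv.Perm (Fin n)).sum_cycleType_le
    rw [Fintype.card_fin] at hsum
    set m := (σ : Equiv.Perm (Fin n)).cycleType
    have hparts : ∀ c ∈ m, c = r ∨ c = s ∨ c = r * s := by
      intro c hc
      have hd := Equiv.Perm.dvd_of_mem_cycleType hc
      have h2 := Equiv.Perm.two_le_of_mem_cycleType hc
      rw [ho, Nat.dvd_mul] at hd
      obtain ⟨u, v, hu, hv, rfl⟩ := hd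
      rcases (Nat.dvd_prime hr).1 hu with rfl | rfl <;> rcases (Nat.dvd_prime hs).1 hv with rfl | rfl
      · omega
      · right; left; rw [one_mul]
      · left; rw [mul_one]
      · right; right; rfl
    by_cases hbig : r * s ∈ m
    · have := Multiset.le_sum_of_mem hbig
      have h3r : 2 ≤ r := hr.two_le
      have h3s : 2 ≤ s := hs.two_le
      have := (Nat.add_le_mul h3r h3s)
      omega
    · have key : ∀ (x y : ℕ), x.Prime → y.Prime → x ≠ y → r * s = x * y → (∀ c ∈ m, c = x ∨ c = y) → x ∈ m := by
        intro x y hx hy hxy he hp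
        by_contra hxm
        have hall : ∀ c ∈ m, c ∣ y := fun c hc => by
          rcases hp c hc with rfl | rfl
          exacts [absurd hc hxm, dvd_rfl]
        have := Multiset.lcm_dvd.2 hall
        rw [Equiv.Perm.lcm_cycleType, ho, he] at this
        exact hxy ((Nat.prime_dvd_prime_iff_eq hx hy).1 ((dvd_mul_right x y).trans this))
      have hp : ∀ c ∈ m, c = r ∨ c = s := fun c hc => by
        rcases hparts c hc with h | h | h
        exacts [Or.inl h, Or.inr h, absurd (h ▸ hc) hbig]
      have hrm := key r s hr hs hrs rfl hp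
      have hsm := key s r hs hr hrs.symm (mul_comm r s) (fun c hc => (hp c hc).symm)
      have h1 := Multiset.cons_erase hrm
      have h2 : s ∈ m.erase r := (Multiset.mem_erase_of_ne hrs.symm).2 hsm
      have h3 := Multiset.le_sum_of_mem h2
      rw [← h1, Multiset.sum_cons] at hsum
      omega
  · intro h
    obtain ⟨g, hg⟩ := (Equiv.Perm.exists_with_cycleType_iff (α := Fin n) (m := {r, s})).2
      ⟨by simpa using h, fun a ha => by
        simp only [Multiset.insert_eq_cons, Multiset.mem_cons, Multiset.mem_singleton] at ha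
        rcases ha with rfl | rfl
        exacts [hr.two_le, hs.two_le]⟩
    have hsgn : g ∈ alternatingGroup (Fin n) := by
      rw [Equiv.Perm.mem_alternatingGroup, Equiv.Perm.sign_of_cycleType, hg]
      simp only [Multiset.insert_eq_cons, Multiset.sum_cons, Multiset.sum_singleton, Multiset.card_cons, Multiset.card_singleton]
      refine Even.neg_one_pow ?_
      have h1 := (hr.eq_two_or_odd).resolve_left hr2
      have h2 := (hs.eq_two_or_odd).resolve_left hs2
      rw [Nat.even_iff]; omega
    refine ⟨⟨g, hsgn⟩, ?_⟩
    rw [← Subgroup.orderOf_coe, Subgroup.coe_mk, ← Equiv.Perm.lcm_cycleType, hg]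
    simp only [Multiset.insert_eq_cons, Multiset.lcm_cons, Multiset.lcm_singleton, normalize_eq]
    exact Nat.Coprime.lcm_eq_mul ((Nat.coprime_primes hr hs).2 hrs)

end Cfsg.Agent.S2466
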