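import Cfsg.Statements.S2467
import Mathlib.GroupTheory.Perm.Cycle.PossibleTypes


set_option autoImplicit false
open Cfsg

namespace Cfsg.Agent.S2467

/-- Adjacency of 2 and an odd prime in the prime graph of the alternating groups: let r be an odd prime at most n, with n ≥ 4. The alternating group of degree n has an element of order 2r if and only if r + 4 ≤ n. -/
theorem result (n r : ℕ) (hn : 4 ≤ n) (hr : r.Prime) (hr2 : r ≠ 2) (hrn : r ≤ n) :
    (2 * r ∈ Set.range (orderOf : alternatingGroup (Fin n) → ℕ)) ↔ r + 4 ≤ n := by
  classical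
  have hr3 : 3 ≤ r := by have := hr.two_le; omega
  have hrodd : r % 2 = 1 := (hr.eq_two_or_odd).resolve_left hr2
  have hoddsum : ∀ m : Multiset ℕ, (∀ c ∈ m, c % 2 = 1) → (m.sum + Multiset.card m) % 2 = 0 := by
    intro m
    induction m using Multiset.induction_on with
    | empty => simp
    | cons a t ih =>
      intro h
      have := ih fun c hc => h c (Multiset.mem_cons_of_mem hc)
      have ha := h a (Multiset.mem_cons_self a t)
      rw [Multiset.sum_cons, Multiset.card_cons]
      omega
  constructor
  · rintro ⟨σ, hσ⟩
    have ho : orderOf (σ : Equiv.Perm (Fin n)) = 2 * r := by rw [Subgroup.orderOf_coe, hσ]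
    have hsum := (σ : Equiv.Perm (Fin n)).sum_cycleType_le
    rw [Fintype.card_fin] at hsum
    have hsgn := σ.2
    rw [Equiv.Perm.mem_alternatingGroup, Equiv.Perm.sign_of_cycleType, neg_one_pow_eq_one_iff_even (by decide), Nat.even_iff] at hsgn
    have hparts : ∀ c ∈ (σ : Equiv.Perm (Fin n)).cycleType, c = r ∨ c = 2 ∨ c = 2 * r := by
      intro c hc
      have hd := Equiv.Perm.dvd_of_mem_cycleType hc
      have h2 := Equiv.Perm.two_le_of_mem_cycleType hc
      rw [ho, Nat.dvd_mul] at hd
      obtain ⟨u, v, hu, hv, rfl⟩ := hd
      rcases (Nat.dvd_prime Nat.prime_two).1 hu with rfl | rfl <;> rcases (Nat.dvd_prime hr).1 hv with rfl | rfl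
      · omega
      · left; rw [one_mul]
      · right; left; rw [mul_one]
      · right; right; rfl
    have hlcm := (σ : Equiv.Perm (Fin n)).lcm_cycleType
    rw [ho] at hlcm
    generalize (σ : Equiv.Perm (Fin n)).cycleType = m at hsum hsgn hparts hlcm
    obtain ⟨e, hem, he⟩ : ∃ e ∈ m, e % 2 = 0 := by
      by_contra hno
      push Not at hno
      have hall : ∀ c ∈ m, c ∣ r := fun c hc => by
        rcases hparts c hc with rfl | rfl | rfl
        · exact dvd_rfl
        · exact absurd rfl (hno 2 hc)
        · exact absurd (Nat.mul_mod_right 2 r) (hno _ hc)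
      have := Multiset.lcm_dvd.2 hall
      rw [hlcm] at this
      have := Nat.le_of_dvd hr.pos this
      omega
    obtain ⟨t, rfl⟩ := Multiset.exists_cons_of_mem hem
    obtain ⟨e', hem', he'⟩ : ∃ e' ∈ t, e' % 2 = 0 := by
      by_contra hno
      push Not at hno
      have := hoddsum t fun c hc => by have := hno c hc; omega
      rw [Multiset.sum_cons, Multiset.card_cons] at hsgn
      omega
    obtain ⟨u, rfl⟩ := Multiset.exists_cons_of_mem hem'
    rw [Multiset.sum_cons, Multiset.sum_cons] at hsum
    have h1 := hparts e (by simp)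
    have h2 := hparts e' (by simp)
    by_cases hbig : e = 2 * r ∨ e' = 2 * r
    · omega
    · push Not at hbig
      by_cases hb : 2 * r ∈ u
      · have := Multiset.le_sum_of_mem hb; omega
      have hrm : r ∈ u := by
        by_contra hru
        have hall : ∀ c ∈ e ::ₘ e' ::ₘ u, c = 2 ∨ c = 2 * r := fun c hc => by
          rcases hparts c hc with h | h
          · simp only [Multiset.mem_cons] at hc
            rcases hc with rfl | rfl | hc
            · omega
            · omega
            · exact absurd (h ▸ hc) hru
          · exact h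
        · have hall2 : ∀ c ∈ e ::ₘ e' ::ₘ u, c ∣ 2 := fun c hc => by
            rcases hall c hc with rfl | rfl
            · exact dvd_rfl
            · simp only [Multiset.mem_cons] at hc
              rcases hc with h | h | h
              · exact absurd h.symm hbig.1
              · exact absurd h.symm hbig.2
              · exact absurd h hb
          have := Multiset.lcm_dvd.2 hall2
          rw [hlcm] at this
          have := Nat.le_of_dvd two_pos this
          omega
      have := Multiset.le_sum_of_mem hrm
      omega
  · intro h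
    obtain ⟨g, hg⟩ := (Equiv.Perm.exists_with_cycleType_iff (α := Fin n) (m := r ::ₘ 2 ::ₘ {2})).2
      ⟨by simp; omega, fun a ha => by
        simp only [Multiset.mem_cons, Multiset.mem_singleton] at ha
        omega⟩
    have hsgn : g ∈ alternatingGroup (Fin n) := by
      rw [Equiv.Perm.mem_alternatingGroup, Equiv.Perm.sign_of_cycleType, hg]
      simp only [Multiset.sum_cons, Multiset.sum_singleton, Multiset.card_cons, Multiset.card_singleton]
      refine Even.neg_one_pow ?_
      rw [Nat.even_iff]; omega
    refine ⟨⟨g, hsgn⟩, ?_⟩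
    rw [← Subgroup.orderOf_coe, Subgroup.coe_mk, ← Equiv.Perm.lcm_cycleType, hg]
    simp only [Multiset.lcm_cons, Multiset.lcm_singleton, normalize_eq]
    rw [show GCDMonoid.lcm (2:ℕ) 2 = 2 from Nat.lcm_self 2]
    show Nat.lcm r 2 = 2 * r
    rw [Nat.Coprime.lcm_eq_mul (Nat.coprime_two_right.2 (Nat.odd_iff.2 hrodd)), mul_comm]

end Cfsg.Agent.S2467
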