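import Cfsg.Statements.S2471
import Mathlib.LinearAlgebra.Matrix.CharP
import Mathlib.LinearAlgebra.Matrix.Charpoly.Coeff
import Mathlib.Algebra.CharP.Lemmas

set_option autoImplicit false
open Cfsg

namespace Cfsg.Agent.S2471

/-- In PSL(2,q) with q odd, the characteristic p is isolated from 2 in the prime graph: for F a finite field of odd characteristic p with at least 5 elements, PSL(2,F) has no element of order 2p. -/
theorem result {F : Type*} [Field F] [Fintype F] (p : ℕ) [Fact p.Prime] [CharP F p] (hp : p ≠ 2) (h5 : 5 ≤ Fintype.card F) (g : Matrix.ProjectiveSpecialLinearGroup (Fin 2) F) :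
    orderOf g ≠ 2 * p := by
  intro he
  obtain ⟨A, rfl⟩ := QuotientGroup.mk_surjective g
  have hp0 := (Fact.out : p.Prime)
  haveI : NeZero p := ⟨hp0.ne_zero⟩
  haveI : CharP (Matrix (Fin 2) (Fin 2) F) p := inferInstance
  have h2p : A ^ (2 * p) ∈ Subgroup.center (Matrix.SpecialLinearGroup (Fin 2) F) :=
    (QuotientGroup.eq_one_iff _).1 (by rw [QuotientGroup.mk_pow, ← he]; exact pow_orderOf_eq_one _)
  have hnot : ∀ k, k < 2 * p → 0 < k → A ^ k ∉ Subgroup.center (Matrix.SpecialLinearGroup (Fin 2) F) := by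
    intro k hk hk0 hmem
    have : (A : Matrix.ProjectiveSpecialLinearGroup (Fin 2) F) ^ k = 1 := by
      rw [← QuotientGroup.mk_pow]; exact (QuotientGroup.eq_one_iff _).2 hmem
    have := orderOf_le_of_pow_eq_one hk0 this
    omega
  set M := (A : Matrix (Fin 2) (Fin 2) F) with hM
  have hscal : ∀ k r, M ^ k = Matrix.scalar (Fin 2) r →
      A ^ k ∈ Subgroup.center (Matrix.SpecialLinearGroup (Fin 2) F) := fun k r h => by
    refine Matrix.SpecialLinearGroup.mem_center_iff.2 ⟨r, ?_, ?_⟩
    · have hd : (M ^ k).det = 1 := by rw [Matrix.det_pow, hM, A.2, one_pow]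
      rw [h] at hd
      simpa [Matrix.scalar, Matrix.det_diagonal] using hd
    · rw [Matrix.SpecialLinearGroup.coe_pow]; exact h.symm
  obtain ⟨r, hr2, hr⟩ := Matrix.SpecialLinearGroup.mem_center_iff.1 h2p
  rw [Matrix.SpecialLinearGroup.coe_pow, ← hM] at hr
  rw [Fintype.card_fin] at hr2
  have hrp : r ^ p = r := by
    obtain ⟨j, hj⟩ := hp0.odd_of_ne_two hp
    rw [hj, pow_succ, pow_mul, hr2, one_pow, one_mul]
  have hsN : IsNilpotent (M ^ 2 - Matrix.scalar (Fin 2) r) := ⟨p, by
    rw [sub_pow_char_of_commute p (Matrix.scalar_commute r (fun _ => Commute.all _ _) _).symm, ← pow_mul,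
      ← hr, ← map_pow, hrp, sub_self]⟩
  have hN2 : (M ^ 2 - Matrix.scalar (Fin 2) r) ^ 2 = 0 := by
    have h := (Matrix.isNilpotent_charpoly_sub_pow_of_isNilpotent hsN).eq_zero
    rw [Fintype.card_fin, sub_eq_zero] at h
    have h2 := Matrix.aeval_self_charpoly (M ^ 2 - Matrix.scalar (Fin 2) r)
    rw [h, map_pow, Polynomial.aeval_X] at h2
    exact h2
  set N := M ^ 2 - Matrix.scalar (Fin 2) r with hN
  set t := M.trace with ht
  have hCH : M ^ 2 = t • M - 1 := by
    have h := Matrix.aeval_self_charpoly M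
    rw [Matrix.charpoly_fin_two] at h
    simp [Algebra.algebraMap_eq_smul_one, A.2, hM] at h
    rw [← sub_eq_zero, ← h, ht, hM]
    abel
  have hlt : 2 < 2 * p := by have := hp0.two_le; omega
  by_cases ht0 : t = 0
  · refine hnot 2 hlt two_pos (hscal 2 (-1) ?_)
    rw [hCH, ht0, zero_smul, zero_sub, map_neg, map_one]
  · refine hnot p (by have := hp0.pos; omega) hp0.pos (hscal p ((t⁻¹ * (1 + r)) ^ p) ?_)
    have hA : M = Matrix.scalar (Fin 2) (t⁻¹ * (1 + r)) + t⁻¹ • N := by
      have e : t • M = Matrix.scalar (Fin 2) (1 + r) + N := by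
        rw [hN, hCH, map_add, map_one]; abel
      rw [map_mul, ← inv_smul_smul₀ ht0 M, e, smul_add]
      congr 1
      ext i j
      simp [Matrix.diagonal_apply]
    have hNp : N ^ p = 0 := pow_eq_zero_of_le hp0.two_le hN2
    rw [hA, add_pow_char_of_commute p (Matrix.scalar_commute _ (fun _ => Commute.all _ _) _), smul_pow, hNp,
      smul_zero, add_zero, map_pow]

end Cfsg.Agent.S2471
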