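import Cfsg.Statements.S2485
import Mathlib

set_option autoImplicit false
open scoped Pointwise
open Cfsg

namespace Cfsg.Agent.S2485

section

open Matrix

variable {q : ℕ} [Fact q.Prime]

/-- A square root of minus one. -/
def Jm (q : ℕ) : Matrix (Fin 2) (Fin 2) (ZMod q) := !![0, -1; 1, 0]

/-- The rotation or reflection with given parameters. -/
def rot (a b : ZMod q) : Bool → Matrix (Fin 2) (Fin 2) (ZMod q)
  | true => !![a, -b; b, a]
  | false => !![a, b; b, -a]

theorem form_comm {M : Matrix (Fin 2) (Fin 2) (ZMod q)} :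
    M * Jm q = Jm q * M ↔ M 0 1 = - M 1 0 ∧ M 1 1 = M 0 0 := by
  constructor
  · intro h
    have h0 := congrFun (congrFun h 0) 0
    have h1 := congrFun (congrFun h 0) 1
    simp [Jm, Matrix.mul_apply, Fin.sum_univ_two] at h0 h1
    exact ⟨by linear_combination h0, h1.symm⟩
  · rintro ⟨h0, h1⟩
    ext i j
    fin_cases i <;> fin_cases j <;> simp [Jm, Matrix.mul_apply, Fin.sum_univ_two, h0, h1]

theorem form_anti {M : Matrix (Fin 2) (Fin 2) (ZMod q)} :
    M * Jm q = -(Jm q * M) ↔ M 0 1 = M 1 0 ∧ M 1 1 = - M 0 0 := by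
  constructor
  · intro h
    have h0 := congrFun (congrFun h 0) 0
    have h1 := congrFun (congrFun h 0) 1
    simp only [Matrix.mul_apply, Matrix.neg_apply, Fin.sum_univ_two] at h0 h1
    simp [Jm] at h0 h1
    exact ⟨h0, by linear_combination -h1⟩
  · rintro ⟨h0, h1⟩
    ext i j
    simp only [Matrix.mul_apply, Matrix.neg_apply, Fin.sum_univ_two]
    fin_cases i <;> fin_cases j <;> simp [Jm, h0, h1]

theorem sum_sq_ne_zero (h4 : q % 4 = 3) {a b : ZMod q} (h : a ≠ 0 ∨ b ≠ 0) : a ^ 2 + b ^ 2 ≠ 0 := by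
  intro e
  have key : ∀ x y : ZMod q, y ≠ 0 → x ^ 2 + y ^ 2 = 0 → False := by
    intro x y hy e
    refine ZMod.mod_four_ne_three_of_sq_eq_neg_one (y := x / y) ?_ h4
    rw [div_pow, div_eq_iff (pow_ne_zero 2 hy)]
    linear_combination e
  rcases h with h | h
  · exact key b a h (by linear_combination e)
  · exact key a b h e

theorem det_rot (a b : ZMod q) : ∀ s, (rot a b s).det = if s then a ^ 2 + b ^ 2 else -(a ^ 2 + b ^ 2)
  | true => by simp [rot, det_fin_two]; ring
  | false => by simp [rot, det_fin_two]; ring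

/-- The matrices fixing the line of `Jm`. -/
def St (q : ℕ) [Fact q.Prime] : Subgroup (GL (Fin 2) (ZMod q)) where
  carrier := {g | (g : Matrix (Fin 2) (Fin 2) (ZMod q)) * Jm q = Jm q * g ∨
    (g : Matrix (Fin 2) (Fin 2) (ZMod q)) * Jm q = -(Jm q * g)}
  one_mem' := Or.inl (by simp)
  mul_mem' := by
    intro a b ha hb
    rcases ha with ha | ha <;> rcases hb with hb | hb
    · exact Or.inl (by rw [Units.val_mul, Matrix.mul_assoc, hb, ← Matrix.mul_assoc, ha, Matrix.mul_assoc])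
    · exact Or.inr (by rw [Units.val_mul, Matrix.mul_assoc, hb, Matrix.mul_neg, ← Matrix.mul_assoc, ha, Matrix.mul_assoc])
    · exact Or.inr (by rw [Units.val_mul, Matrix.mul_assoc, hb, ← Matrix.mul_assoc, ha, Matrix.neg_mul, Matrix.mul_assoc])
    · exact Or.inl (by rw [Units.val_mul, Matrix.mul_assoc, hb, Matrix.mul_neg, ← Matrix.mul_assoc, ha, Matrix.neg_mul, neg_neg, Matrix.mul_assoc])
  inv_mem' := by
    intro a ha
    rcases ha with ha | ha
    · left
      have := congrArg (fun M => ((a⁻¹ : GL (Fin 2) (ZMod q)) : Matrix (Fin 2) (Fin 2) (ZMod q)) * M * ((a⁻¹ : GL (Fin 2) (ZMod q)) : Matrix (Fin 2) (Fin 2) (ZMod q))) ha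
      simp only [Matrix.mul_assoc, Units.mul_inv, Matrix.mul_one, Units.inv_mul_cancel_left] at this
      exact this.symm
    · right
      have := congrArg (fun M => ((a⁻¹ : GL (Fin 2) (ZMod q)) : Matrix (Fin 2) (Fin 2) (ZMod q)) * M * ((a⁻¹ : GL (Fin 2) (ZMod q)) : Matrix (Fin 2) (Fin 2) (ZMod q))) ha
      simp only [Matrix.neg_mul, Matrix.mul_neg, Matrix.mul_assoc, Units.mul_inv, Matrix.mul_one, Units.inv_mul_cancel_left] at this
      rw [this, neg_neg]

theorem center_le_St : Subgroup.center (GL (Fin 2) (ZMod q)) ≤ St q := by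
  intro g hg
  rw [GeneralLinearGroup.center_eq_range_scalar] at hg
  obtain ⟨c, rfl⟩ := hg
  exact Or.inl (form_comm.2 (by simp [Matrix.scalar_apply]))

theorem card_St (h4 : q % 4 = 3) : Nat.card (St q) = 2 * (q ^ 2 - 1) := by
  classical
  have hq : 3 ≤ q := by omega
  have h2 : (2 : ZMod q) ≠ 0 := by
    intro h
    have h' : ((2 : ℕ) : ZMod q) = 0 := by exact_mod_cast h
    have := Nat.le_of_dvd two_pos ((ZMod.natCast_eq_zero_iff _ _).1 h')
    omega
  have hne : ∀ x : {x : ZMod q × ZMod q // x ≠ 0}, x.1.1 ≠ 0 ∨ x.1.2 ≠ 0 := fun x => by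
    by_contra! h; exact x.2 (Prod.ext h.1 h.2)
  let T := {x : ZMod q × ZMod q // x ≠ 0} × Bool
  have hdet : ∀ x : T, (rot x.1.1.1 x.1.1.2 x.2).det ≠ 0 := fun x => by
    rw [det_rot]; split
    · exact sum_sq_ne_zero h4 (hne x.1)
    · exact neg_ne_zero.2 (sum_sq_ne_zero h4 (hne x.1))
  let φ : T → St q := fun x => ⟨GeneralLinearGroup.mkOfDetNeZero (rot x.1.1.1 x.1.1.2 x.2) (hdet x), by
    rcases x with ⟨⟨⟨a, b⟩, hx⟩, _ | _⟩
    · exact Or.inr (form_anti.2 (by simp [rot]))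
    · exact Or.inl (form_comm.2 (by simp [rot]))⟩
  have hφ : Function.Bijective φ := by
    refine ⟨fun x y h => ?_, fun g => ?_⟩
    · have h' := congrArg (fun g : St q => ((g : GL (Fin 2) (ZMod q)) : Matrix (Fin 2) (Fin 2) (ZMod q))) h
      simp only [φ, GeneralLinearGroup.val_mkOfDetNeZero] at h'
      rcases x with ⟨⟨⟨a, b⟩, hx⟩, s⟩
      rcases y with ⟨⟨⟨c, d⟩, hy⟩, t⟩
      have e00 := congrFun (congrFun h' 0) 0
      have e01 := congrFun (congrFun h' 0) 1
      have e10 := congrFun (congrFun h' 1) 0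
      have e11 := congrFun (congrFun h' 1) 1
      cases s <;> cases t <;> simp [rot] at e00 e01 e10 e11
      · subst e00 e10; rfl
      · exfalso
        subst e00 e10
        refine hx (Prod.ext ?_ ?_)
        · exact (mul_eq_zero.1 (show (2 : ZMod q) * a = 0 by linear_combination -e11)).resolve_left h2
        · exact (mul_eq_zero.1 (show (2 : ZMod q) * b = 0 by linear_combination e01)).resolve_left h2
      · exfalso
        subst e00 e10
        refine hx (Prod.ext ?_ ?_)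
        · exact (mul_eq_zero.1 (show (2 : ZMod q) * a = 0 by linear_combination e11)).resolve_left h2
        · exact (mul_eq_zero.1 (show (2 : ZMod q) * b = 0 by linear_combination -e01)).resolve_left h2
      · subst e00 e10; rfl
    · obtain ⟨g, hg⟩ := g
      have hnz : (((g : Matrix (Fin 2) (Fin 2) (ZMod q)) 0 0, (g : Matrix (Fin 2) (Fin 2) (ZMod q)) 1 0) : ZMod q × ZMod q) ≠ 0 := by
        intro h
        simp only [Prod.ext_iff, Prod.fst_zero, Prod.snd_zero] at h
        apply (Matrix.isUnits_det_units g).ne_zero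
        rw [det_fin_two, h.1, h.2]; ring
      rcases hg with hg | hg
      · obtain ⟨h0, h1⟩ := form_comm.1 hg
        refine ⟨(⟨_, hnz⟩, true), Subtype.ext (Units.ext ?_)⟩
        ext i j; fin_cases i <;> fin_cases j <;> simp [φ, rot, h0, h1]
      · obtain ⟨h0, h1⟩ := form_anti.1 hg
        refine ⟨(⟨_, hnz⟩, false), Subtype.ext (Units.ext ?_)⟩
        ext i j; fin_cases i <;> fin_cases j <;> simp [φ, rot, h0, h1]
  rw [← Nat.card_eq_of_bijective φ hφ, Nat.card_eq_fintype_card]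
  simp [T, Fintype.card_subtype_compl, ZMod.card, sq]
  ring

end

open scoped Pointwise in
/-- Let q = 2^k − 1 ≥ 7 be a prime and let G = PGL(2,q), the general linear group of degree 2 over the field with q elements modulo its centre. Then any two Sylow 2-subgroups of G have a non-trivial intersection: for a Sylow 2-subgroup H and every x ∈ G, H ∩ H^x ≠ 1. -/
theorem result {q k : ℕ} [Fact q.Prime] (hk : q + 1 = 2 ^ k) (hq : 7 ≤ q)
    (H : Sylow 2 (GL (Fin 2) (ZMod q) ⧸ Subgroup.center (GL (Fin 2) (ZMod q))))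
    (x : GL (Fin 2) (ZMod q) ⧸ Subgroup.center (GL (Fin 2) (ZMod q))) :
    (H : Subgroup (GL (Fin 2) (ZMod q) ⧸ Subgroup.center (GL (Fin 2) (ZMod q)))) ⊓ MulAut.conj x • (H : Subgroup _) ≠ ⊥ := by
  classical
  have h4 : q % 4 = 3 := by
    have h2k : 2 ≤ k := by
      by_contra h
      have : 2 ^ k ≤ 2 ^ 1 := Nat.pow_le_pow_right (by norm_num) (by omega)
      omega
    obtain ⟨j, rfl⟩ : ∃ j, k = j + 2 := ⟨k - 2, by omega⟩
    rw [pow_add] at hk
    omega
  let G := GL (Fin 2) (ZMod q) ⧸ Subgroup.center (GL (Fin 2) (ZMod q))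
  let mk := QuotientGroup.mk' (Subgroup.center (GL (Fin 2) (ZMod q)))
  have hmk : Function.Surjective mk := QuotientGroup.mk'_surjective _
  set P : Subgroup G := (St q).map mk with hPdef
  have hker : mk.ker ≤ St q := by rw [QuotientGroup.ker_mk']; exact center_le_St
  have hcen : Nat.card (Subgroup.center (GL (Fin 2) (ZMod q))) = q - 1 := by
    rw [Matrix.GeneralLinearGroup.center_eq_range_scalar,
      Nat.card_congr (MonoidHom.ofInjective (f := Matrix.GeneralLinearGroup.scalar (R := ZMod q) (Fin 2)) (fun a b hab => ?_)).toEquiv.symm,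
      Nat.card_units, Nat.card_zmod]
    refine Units.ext ?_
    have := congrArg (fun g : GL (Fin 2) (ZMod q) => (g : Matrix (Fin 2) (Fin 2) (ZMod q)) 0 0) hab
    simpa using this
  have hq1 : 0 < q - 1 := by omega
  have hsq : q ^ 2 - 1 = (q - 1) * (q + 1) := by rw [mul_comm, ← Nat.sq_sub_sq, one_pow]
  have hGL : Nat.card (GL (Fin 2) (ZMod q)) = q * (q - 1) * (q ^ 2 - 1) := by
    rw [Matrix.card_GL_field, Fin.prod_univ_two, ZMod.card]
    simp only [Fin.val_zero, Fin.val_one, pow_zero, pow_one]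
    rw [sq, ← Nat.mul_sub_one]
    ring
  have hG : Nat.card G = q * (q - 1) * (q + 1) := by
    have h := Subgroup.card_eq_card_quotient_mul_card_subgroup (Subgroup.center (GL (Fin 2) (ZMod q)))
    rw [hGL, hcen, hsq] at h
    exact Nat.eq_of_mul_eq_mul_right hq1 (h.symm.trans (by ring))
  have hidx : (St q).index = q * ((q - 1) / 2) := by
    have h := Subgroup.index_mul_card (St q)
    rw [card_St h4, hGL] at h
    have hne : 0 < 2 * (q ^ 2 - 1) := by rw [hsq]; exact Nat.mul_pos two_pos (Nat.mul_pos hq1 (by omega))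
    refine Nat.eq_of_mul_eq_mul_right hne (h.trans ?_)
    rw [show q * ((q - 1) / 2) * (2 * (q ^ 2 - 1)) = q * ((q - 1) / 2 * 2) * (q ^ 2 - 1) by ring,
      Nat.div_mul_cancel (by omega : 2 ∣ q - 1)]
  have hPidx : P.index = q * ((q - 1) / 2) := by
    rw [hPdef, Subgroup.index_map_eq _ hmk hker, hidx]
  have hPcard : Nat.card P = 2 ^ (k + 1) := by
    have h := Subgroup.index_mul_card P
    rw [hPidx, hG] at h
    have hne : 0 < q * ((q - 1) / 2) := Nat.mul_pos (by omega) (by omega)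
    refine Nat.eq_of_mul_eq_mul_left hne (h.trans ?_)
    have e : q - 1 = (q - 1) / 2 * 2 := (Nat.div_mul_cancel (by omega : 2 ∣ q - 1)).symm
    rw [hk, pow_succ]
    calc q * (q - 1) * 2 ^ k = q * ((q - 1) / 2 * 2) * 2 ^ k := by rw [← e]
      _ = _ := by ring
  have hP2 : IsPGroup 2 P := IsPGroup.of_card hPcard
  have hodd : ¬ 2 ∣ P.index := by
    rw [hPidx, Nat.prime_two.dvd_mul]
    omega
  let P' : Sylow 2 G := hP2.toSylow hodd
  obtain ⟨g, hg⟩ := MulAction.exists_smul_eq G P' H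
  have hH : (H : Subgroup G) = MulAut.conj g • P := by rw [← hg, Sylow.coe_subgroup_smul]; rfl
  obtain ⟨A, rfl⟩ := hmk g
  obtain ⟨X, rfl⟩ := QuotientGroup.mk'_surjective _ x
  -- membership in a conjugate of `P`
  have hmem : ∀ (Y g' : GL (Fin 2) (ZMod q)), Y⁻¹ * g' * Y ∈ St q → mk g' ∈ MulAut.conj (mk Y) • P := by
    intro Y g' h
    rw [Subgroup.mem_pointwise_smul_iff_inv_smul_mem, MulAut.smul_def, ← map_inv, MulAut.conj_apply, ← map_inv,
      ← map_inv, inv_inv, ← map_mul, ← map_mul]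
    exact Subgroup.mem_map_of_mem mk h
  rw [hH, ← mul_smul, ← map_mul,
    show QuotientGroup.mk' (Subgroup.center (GL (Fin 2) (ZMod q))) X * mk A = mk (X * A) from (map_mul mk X A).symm]
  intro hbot
  -- an element in both conjugates
  suffices ∃ g' : GL (Fin 2) (ZMod q), g' ∉ Subgroup.center (GL (Fin 2) (ZMod q)) ∧
      A⁻¹ * g' * A ∈ St q ∧ (X * A)⁻¹ * g' * (X * A) ∈ St q by
    obtain ⟨g', hg', h1, h2⟩ := this
    have := hbot ▸ (Subgroup.mem_inf.2 ⟨hmem A g' h1, hmem (X * A) g' h2⟩)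
    rw [Subgroup.mem_bot] at this
    exact hg' ((QuotientGroup.eq_one_iff g').1 this)
  let J : GL (Fin 2) (ZMod q) := Matrix.GeneralLinearGroup.mkOfDetNeZero (Jm q) (by simp [Jm, Matrix.det_fin_two])
  set K : GL (Fin 2) (ZMod q) := A⁻¹ * (X * A) * J * (X * A)⁻¹ * A with hK
  have hJJ : Jm q * Jm q = -1 := by
    ext i j; fin_cases i <;> fin_cases j <;> simp [Jm, Matrix.mul_apply, Fin.sum_univ_two]
  have hKK : (K : Matrix (Fin 2) (Fin 2) (ZMod q)) * K = -1 := by
    have : K * K = A⁻¹ * (X * A) * (J * J) * (X * A)⁻¹ * A := by rw [hK]; group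
    rw [← Units.val_mul, this, show J * J = -1 from Units.ext hJJ, mul_neg, neg_mul, neg_mul, mul_one, Units.val_neg]
    congr 1
    rw [show A⁻¹ * (X * A) * (X * A)⁻¹ * A = 1 by group, Units.val_one]
  have hnc : ∀ U : GL (Fin 2) (ZMod q), U ∈ Subgroup.center (GL (Fin 2) (ZMod q)) →
      ∃ c : ZMod q, (U : Matrix (Fin 2) (Fin 2) (ZMod q)) = Matrix.scalar (Fin 2) c := by
    intro U hU
    rw [Matrix.GeneralLinearGroup.center_eq_range_scalar] at hU
    obtain ⟨c, rfl⟩ := hU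
    exact ⟨c, rfl⟩
  -- reduce to an element commuting up to sign with `J` and `K`
  suffices ∃ M : GL (Fin 2) (ZMod q), M ∉ Subgroup.center (GL (Fin 2) (ZMod q)) ∧ M ∈ St q ∧
      ((M : Matrix (Fin 2) (Fin 2) (ZMod q)) * K = K * M ∨ (M : Matrix (Fin 2) (Fin 2) (ZMod q)) * K = -((K : Matrix (Fin 2) (Fin 2) (ZMod q)) * M)) by
    obtain ⟨M, hM0, hM1, hM2⟩ := this
    refine ⟨A * M * A⁻¹, fun h => hM0 ?_, by simpa [mul_assoc] using hM1, ?_⟩
    · have := Subgroup.Normal.conj_mem inferInstance _ h A⁻¹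
      simpa [mul_assoc] using this
    set Y : GL (Fin 2) (ZMod q) := (X * A)⁻¹ * A with hY
    rw [show (X * A)⁻¹ * (A * M * A⁻¹) * (X * A) = Y * M * Y⁻¹ by rw [hY]; group]
    have hJK : (Jm q) = (Y : Matrix (Fin 2) (Fin 2) (ZMod q)) * K * ((Y⁻¹ : GL (Fin 2) (ZMod q)) : Matrix (Fin 2) (Fin 2) (ZMod q)) := by
      rw [← Units.val_mul, ← Units.val_mul, hK, hY]
      have : (X * A)⁻¹ * A * (A⁻¹ * (X * A) * J * (X * A)⁻¹ * A) * ((X * A)⁻¹ * A)⁻¹ = J := by group
      rw [this]; rfl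
    rcases hM2 with h | h
    · left
      simp only [Units.val_mul, hJK, Matrix.mul_assoc, Units.inv_mul_cancel_left]
      rw [← Matrix.mul_assoc (M : Matrix (Fin 2) (Fin 2) (ZMod q)), h, Matrix.mul_assoc]
    · right
      simp only [Units.val_mul, hJK, Matrix.mul_assoc, Units.inv_mul_cancel_left]
      rw [← Matrix.mul_assoc (M : Matrix (Fin 2) (Fin 2) (ZMod q)), h]
      simp only [Matrix.neg_mul, Matrix.mul_neg, Matrix.mul_assoc]
  set C := Jm q * (K : Matrix (Fin 2) (Fin 2) (ZMod q)) - (K : Matrix (Fin 2) (Fin 2) (ZMod q)) * Jm q with hC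
  have h2 : (2 : ZMod q) ≠ 0 := by
    intro h
    have h' : ((2 : ℕ) : ZMod q) = 0 := by exact_mod_cast h
    have := Nat.le_of_dvd two_pos ((ZMod.natCast_eq_zero_iff _ _).1 h')
    omega
  by_cases hC0 : C = 0
  · rw [hC, sub_eq_zero] at hC0
    refine ⟨J, fun h => ?_, Or.inl rfl, Or.inl hC0⟩
    obtain ⟨c, hc⟩ := hnc J h
    have := congrFun (congrFun hc 1) 0
    simp [J, Jm, Matrix.scalar_apply] at this
  have hCJ : C * Jm q = -(Jm q * C) := by
    rw [hC, Matrix.sub_mul, Matrix.mul_sub, ← Matrix.mul_assoc (Jm q) (Jm q), hJJ, Matrix.mul_assoc _ (Jm q) (Jm q), hJJ]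
    simp only [Matrix.neg_mul, Matrix.mul_neg, Matrix.one_mul, Matrix.mul_one, Matrix.mul_assoc]
    abel
  have hCK : C * (K : Matrix (Fin 2) (Fin 2) (ZMod q)) = -((K : Matrix (Fin 2) (Fin 2) (ZMod q)) * C) := by
    rw [hC, Matrix.sub_mul, Matrix.mul_sub, ← Matrix.mul_assoc (K : Matrix (Fin 2) (Fin 2) (ZMod q)) (K : Matrix (Fin 2) (Fin 2) (ZMod q)), hKK,
      Matrix.mul_assoc _ (K : Matrix (Fin 2) (Fin 2) (ZMod q)) (K : Matrix (Fin 2) (Fin 2) (ZMod q)), hKK]
    simp only [Matrix.neg_mul, Matrix.mul_neg, Matrix.one_mul, Matrix.mul_one, Matrix.mul_assoc]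
    abel
  obtain ⟨c01, c11⟩ := form_anti.1 hCJ
  have hdet : C.det ≠ 0 := by
    have hab : C 0 0 ≠ 0 ∨ C 1 0 ≠ 0 := by
      by_contra! h
      apply hC0
      ext i j; fin_cases i <;> fin_cases j <;> simp [c01, c11, h.1, h.2]
    rw [Matrix.det_fin_two, c01, c11]
    intro e
    exact sum_sq_ne_zero h4 hab (by linear_combination -e)
  refine ⟨Matrix.GeneralLinearGroup.mkOfDetNeZero C hdet, fun h => ?_, Or.inr hCJ, Or.inr hCK⟩
  obtain ⟨c, hc⟩ := hnc _ h
  rw [Matrix.GeneralLinearGroup.val_mkOfDetNeZero] at hc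
  have e0 := congrFun (congrFun hc 0) 0
  have e1 := congrFun (congrFun hc 1) 1
  have e2 := congrFun (congrFun hc 1) 0
  simp [Matrix.scalar_apply] at e0 e1 e2
  rw [c11, e0] at e1
  have hc0 : c = 0 := (mul_eq_zero.1 (show (2 : ZMod q) * c = 0 by linear_combination -e1)).resolve_left h2
  subst hc0
  exact hC0 (by rw [hc]; simp)

end Cfsg.Agent.S2485
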