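import Cfsg.Statements.S2488
import Cfsg.Agent.Lib.LieA6Inv

set_option autoImplicit false
open scoped Pointwise
open Cfsg

namespace Cfsg.Agent.S2488


open Equiv Lib.LieA6Inv

theorem core {G : Type*} [Group G] [Finite G] (N : Subgroup G) [N.Normal]
    (f : N →* Perm (Fin 6)) (hf : Function.Injective f)
    (hfr : ∀ w : Perm (Fin 6), Equiv.Perm.sign w = 1 ↔ ∃ n, f n = w)
    (hidx : N.index = 4) (H : Sylow 2 G) (z : N) (hz : f z = z0)
    (hzH : ∀ h ∈ (H : Subgroup G), h * (z : G) = z * h) (x : G) :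
    (H : Subgroup G) ⊓ MulAut.conj x • (H : Subgroup G) ≠ ⊥ := by
  classical
  haveI : Fact (Nat.Prime 2) := ⟨Nat.prime_two⟩
  have hNc : Nat.card N = 360 := by
    have e : N ≃ alternatingGroup (Fin 6) := Equiv.ofBijective
      (fun n => ⟨f n, Equiv.Perm.mem_alternatingGroup.mpr ((hfr _).mpr ⟨n, rfl⟩)⟩)
      ⟨fun a b h => hf (congrArg Subtype.val h), fun w => by
        obtain ⟨n, hn⟩ := (hfr w).mp (Equiv.Perm.mem_alternatingGroup.mp w.2)
        exact ⟨n, Subtype.ext hn⟩⟩
    rw [Nat.card_congr e, nat_card_alternatingGroup, Nat.card_eq_fintype_card, Fintype.card_fin]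
    rfl
  have hG : Nat.card G = 1440 := by
    rw [← N.card_mul_index, hNc, hidx]
  have hH : Nat.card (H : Subgroup G) = 32 := by
    rw [H.card_eq_multiplicity, hG]
    have h1 : (1440 : ℕ) = 2 ^ 5 * 45 := by norm_num
    rw [h1, Nat.factorization_mul (by norm_num) (by norm_num), Finsupp.add_apply,
      Nat.prime_two.factorization_pow, Finsupp.single_eq_same,
      Nat.factorization_eq_zero_of_not_dvd (by norm_num : ¬ 2 ∣ 45)]
    norm_num
  set C : Subgroup G := Subgroup.centralizer {(z : G)} with hC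
  have hHC : (H : Subgroup G) ≤ C := by
    intro h hh
    rw [hC, Subgroup.mem_centralizer_singleton_iff]
    exact hzH h hh
  have hCN : Nat.card (C.subgroupOf N) = 8 := by
    rw [← cB, ← Nat.card_eq_finsetCard]
    refine Nat.card_congr (Equiv.ofBijective (fun c => ⟨f c.1, ?_⟩) ⟨?_, ?_⟩)
    · have hc := c.2
      rw [Subgroup.mem_subgroupOf] at hc
      replace hc : (c.1 : G) * z = z * c.1 := Subgroup.mem_centralizer_singleton_iff.mp hc
      have hc' : c.1 * z = z * c.1 := Subtype.ext (by simpa using hc)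
      simp only [Finset.mem_filter, Finset.mem_univ, true_and]
      exact ⟨(hfr _).mpr ⟨_, rfl⟩, by rw [← hz, ← map_mul, ← map_mul, hc']⟩
    · intro a b h
      exact Subtype.ext (hf (congrArg Subtype.val h))
    · rintro ⟨w, hw⟩
      simp only [Finset.mem_filter, Finset.mem_univ, true_and] at hw
      obtain ⟨n, hn⟩ := (hfr w).mp hw.1
      have hn' : n * z = z * n := hf (by rw [map_mul, map_mul, hn, hz]; exact hw.2)
      refine ⟨⟨n, ?_⟩, Subtype.ext hn⟩
      exact Subgroup.mem_centralizer_singleton_iff.mpr (congrArg Subtype.val hn')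
  have hCH : C = (H : Subgroup G) := by
    refine (Subgroup.eq_of_le_of_card_ge hHC ?_).symm
    have h2 : N.relIndex C ≤ 4 := by
      rw [← hidx]
      exact Nat.le_of_dvd (by rw [hidx]; norm_num) (Subgroup.relIndex_dvd_index_of_normal N C)
    have h3 : Nat.card C = Nat.card (C.subgroupOf N) * N.relIndex C := by
      rw [← (N.subgroupOf C).card_mul_index, Subgroup.relIndex]
      congr 1
      exact Nat.card_congr ⟨fun a => ⟨⟨a.1.1, a.2⟩, a.1.2⟩, fun a => ⟨⟨a.1.1, a.2⟩, a.1.2⟩,
        fun _ => rfl, fun _ => rfl⟩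
    rw [h3, hCN, hH]
    omega
  intro hbot
  set wG : G := x * z * x⁻¹ with hwG
  let act : ↥(H : Subgroup G) → Perm (Fin 6) := fun h =>
    f ⟨(h : G) * wG * (h : G)⁻¹, (inferInstance : N.Normal).conj_mem _
      ((inferInstance : N.Normal).conj_mem _ z.2 x) _⟩
  have hinj : Function.Injective act := by
    intro a b hab
    have h1 : (a : G) * wG * (a : G)⁻¹ = b * wG * (b : G)⁻¹ := congrArg Subtype.val (hf hab)
    apply Subtype.ext
    have h2 : ((b : G)⁻¹ * a) * wG = wG * ((b : G)⁻¹ * a) := by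
      calc ((b : G)⁻¹ * a) * wG = (b : G)⁻¹ * (a * wG * (a : G)⁻¹) * a := by group
        _ = (b : G)⁻¹ * (b * wG * (b : G)⁻¹) * a := by rw [h1]
        _ = wG * ((b : G)⁻¹ * a) := by group
    have h3 : x⁻¹ * ((b : G)⁻¹ * a) * x ∈ C := by
      rw [hC, Subgroup.mem_centralizer_singleton_iff]
      calc x⁻¹ * ((b : G)⁻¹ * a) * x * z = x⁻¹ * (((b : G)⁻¹ * a) * wG) * x := by
            rw [hwG]; group
        _ = x⁻¹ * (wG * ((b : G)⁻¹ * a)) * x := by rw [h2]
        _ = z * (x⁻¹ * ((b : G)⁻¹ * a) * x) := by rw [hwG]; group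
    rw [hCH] at h3
    have h4 : (b : G)⁻¹ * a ∈ (H : Subgroup G) ⊓ MulAut.conj x • (H : Subgroup G) := by
      refine Subgroup.mem_inf.mpr ⟨Subgroup.mul_mem _ (Subgroup.inv_mem _ b.2) a.2, ?_⟩
      have h5 := Subgroup.smul_mem_pointwise_smul _ (MulAut.conj x) _ h3
      have h6 : MulAut.conj x • (x⁻¹ * ((b : G)⁻¹ * a) * x) = (b : G)⁻¹ * a := by
        simp [MulAut.smul_def, mul_assoc]
      rwa [h6] at h5
    rw [hbot, Subgroup.mem_bot] at h4
    exact (inv_mul_eq_one.mp h4).symm
  set n1 : N := ⟨wG, (inferInstance : N.Normal).conj_mem _ z.2 x⟩ with hn1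
  have hzz : z * z = 1 := hf (by rw [map_mul, map_one, hz]; decide)
  have hInv : ∀ h : ↥(H : Subgroup G), Lib.LieA6Inv.Inv (act h) := by
    intro h
    refine ⟨(hfr _).mpr ⟨_, rfl⟩, ?_, ?_⟩
    · have hzz' : (z : G) * z = 1 := congrArg Subtype.val hzz
      change f _ * f _ = 1
      rw [← map_mul, ← map_one f]
      congr 1
      apply Subtype.ext
      change (h : G) * wG * (h : G)⁻¹ * ((h : G) * wG * (h : G)⁻¹) = 1
      calc _ = (h : G) * x * ((z : G) * z) * x⁻¹ * (h : G)⁻¹ := by rw [hwG]; group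
        _ = 1 := by rw [hzz']; group
    · intro h0
      have h1 := congrArg Subtype.val (hf (h0.trans (map_one f).symm))
      have hz1 : (z : G) = 1 := by
        calc (z : G) = x⁻¹ * (h : G)⁻¹ * ((h : G) * wG * (h : G)⁻¹) * h * x := by
              rw [hwG]; group
          _ = 1 := by
              change (h : G) * wG * (h : G)⁻¹ = 1 at h1
              rw [h1]; group
      have : z0 = 1 := by rw [← hz, show z = 1 from Subtype.ext hz1, map_one]
      exact absurd this (by decide)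
  have hP : ∀ h : ↥(H : Subgroup G), (P3 (act h) ↔ P3 (f n1)) ∧ (P5 (act h) ↔ P5 (f n1)) := by
    intro h
    let cj : N ≃* N := MulAut.conjNormal (h : G)
    have hcz : cj z = z := by
      apply Subtype.ext
      rw [MulAut.conjNormal_apply, hzH h h.2]
      group
    have hcn : (⟨(h : G) * wG * (h : G)⁻¹, (inferInstance : N.Normal).conj_mem _
        ((inferInstance : N.Normal).conj_mem _ z.2 x) _⟩ : N) = cj n1 := by
      apply Subtype.ext
      rw [MulAut.conjNormal_apply, hn1]
    have key : ∀ u : N, f (cj u) = 1 ↔ f u = 1 := fun u => by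
      rw [← map_one f, hf.eq_iff, hf.eq_iff, MulEquiv.map_eq_one_iff]
    have e1 : z0 * act h = f (cj (z * n1)) := by
      rw [map_mul, map_mul, hcz, hz, ← hcn]
    have e2 : z0 * f n1 = f (z * n1) := by rw [map_mul, hz]
    constructor
    · simp only [P3, e1, e2, ← map_mul]
      exact key _
    · simp only [P5, e1, e2, ← map_mul]
      exact key _
  have bound : ∀ (Q : Perm (Fin 6) → Prop) [DecidablePred Q], (∀ h, Q (act h)) →
      32 ≤ (Finset.univ.filter fun w => Lib.LieA6Inv.Inv w ∧ Q w).card := by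
    intro Q _ hQ
    rw [← hH, ← Nat.card_eq_finsetCard]
    refine Nat.card_le_card_of_injective (fun h => ⟨act h, Finset.mem_filter.mpr ⟨Finset.mem_univ _, hInv h, hQ h⟩⟩) ?_
    intro a b hab
    exact hinj (congrArg Subtype.val hab)
  by_cases h3 : P3 (f n1)
  · exact absurd (bound P3 fun h => (hP h).1.mpr h3) (not_le.mpr cC)
  · by_cases h5 : P5 (f n1)
    · exact absurd (bound P5 fun h => (hP h).2.mpr h5) (not_le.mpr cD)
    · exact absurd (bound (fun w => ¬ P3 w ∧ ¬ P5 w)
        fun h => ⟨fun q => h3 ((hP h).1.mp q), fun q => h5 ((hP h).2.mp q)⟩) (not_le.mpr cE)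


/-- Let G be a finite group with a normal subgroup N of index 4 isomorphic to the alternating group of degree 6 and with trivial centralizer in G (so G is the full automorphism group of A₆). Then any two Sylow 2-subgroups of G have a non-trivial intersection: for a Sylow 2-subgroup H and every x ∈ G, H ∩ H^x ≠ 1. -/
theorem result {G : Type*} [Group G] [Finite G] (N : Subgroup G) [N.Normal]
    (e : N ≃* alternatingGroup (Fin 6)) (hidx : N.index = 4)
    (hC : Subgroup.centralizer (N : Set G) = ⊥)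
    (H : Sylow 2 G) (x : G) :
    (H : Subgroup G) ⊓ MulAut.conj x • (H : Subgroup G) ≠ ⊥ := by
  classical
  haveI : Fact (Nat.Prime 2) := ⟨Nat.prime_two⟩
  let f0 : N →* Perm (Fin 6) := (alternatingGroup (Fin 6)).subtype.comp e.toMonoidHom
  have hf0 : Function.Injective f0 := fun a b h => e.injective (Subtype.ext h)
  have hr0 : ∀ w : Perm (Fin 6), Equiv.Perm.sign w = 1 ↔ ∃ n, f0 n = w := by
    intro w
    constructor
    · intro hw
      exact ⟨e.symm ⟨w, Equiv.Perm.mem_alternatingGroup.mpr hw⟩, by simp [f0]⟩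
    · rintro ⟨n, rfl⟩
      exact Equiv.Perm.mem_alternatingGroup.mp (e n).2
  let X := {n : N // Lib.LieA6Inv.Inv (f0 n)}
  have hX : Nat.card X = 45 := by
    rw [← cA, ← Nat.card_eq_finsetCard]
    refine Nat.card_congr (Equiv.ofBijective (fun n => ⟨f0 n.1, Finset.mem_filter.mpr ⟨Finset.mem_univ _, n.2⟩⟩) ⟨?_, ?_⟩)
    · intro a b h
      have h1 : f0 a.1 = f0 b.1 := by simpa using h
      exact Subtype.ext (hf0 h1)
    · rintro ⟨w, hw⟩
      simp only [Finset.mem_filter, Finset.mem_univ, true_and] at hw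
      obtain ⟨n, rfl⟩ := (hr0 w).mp hw.1
      exact ⟨⟨n, hw⟩, rfl⟩
  have hXi : ∀ n : N, Lib.LieA6Inv.Inv (f0 n) ↔ (n * n = 1 ∧ n ≠ 1) := by
    intro n
    unfold Lib.LieA6Inv.Inv
    rw [← map_mul, ← map_one f0, hf0.eq_iff, Ne, hf0.eq_iff]
    exact ⟨fun h => h.2, fun h => ⟨(hr0 _).mpr ⟨n, rfl⟩, h⟩⟩
  letI : MulAction (H : Subgroup G) X :=
    { smul := fun h n => ⟨MulAut.conjNormal (h : G) n.1, by
        rw [hXi]
        obtain ⟨h1, h2⟩ := (hXi n.1).mp n.2
        exact ⟨by rw [← map_mul, h1, map_one], fun q => h2 (by simpa using q)⟩⟩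
      one_smul := fun n => Subtype.ext (by
        show MulAut.conjNormal ((1 : (H : Subgroup G)) : G) n.1 = n.1
        rw [Subgroup.coe_one, map_one]; rfl)
      mul_smul := fun a b n => Subtype.ext (by
        show MulAut.conjNormal ((a * b : (H : Subgroup G)) : G) n.1 = MulAut.conjNormal (a : G) (MulAut.conjNormal (b : G) n.1)
        rw [Subgroup.coe_mul, map_mul]; rfl) }
  obtain ⟨z, hz⟩ := H.isPGroup'.nonempty_fixed_point_of_prime_not_dvd_card X
    (by rw [hX]; norm_num)
  obtain ⟨a, -, ha⟩ := Finset.mem_image.mp (cF (f0 z.1) (Finset.mem_filter.mpr ⟨Finset.mem_univ _, z.2⟩))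
  let f : N →* Perm (Fin 6) := (MulAut.conj a⁻¹).toMonoidHom.comp f0
  refine core N f (fun u v h => hf0 ((MulAut.conj a⁻¹).injective h)) ?_ hidx H z.1 ?_ ?_ x
  · intro w
    constructor
    · intro hw
      obtain ⟨n, hn⟩ := (hr0 (a * w * a⁻¹)).mp (by simp [hw])
      exact ⟨n, by simp [f, hn, mul_assoc]⟩
    · rintro ⟨n, rfl⟩
      simp [f, (hr0 (f0 n)).mpr ⟨n, rfl⟩]
  · simp only [f, MonoidHom.comp_apply, MulEquiv.coe_toMonoidHom, MulAut.conj_apply]
    rw [← ha]
    group
  · intro h hh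
    have h1 := congrArg (fun n : X => ((n.1 : N) : G)) (hz ⟨h, hh⟩)
    change ((MulAut.conjNormal h z.1 : N) : G) = (z.1 : G) at h1
    rw [MulAut.conjNormal_apply] at h1
    calc h * (z.1 : G) = h * z.1 * h⁻¹ * h := by group
      _ = z.1 * h := by rw [h1]

end Cfsg.Agent.S2488
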