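import Cfsg.Statements.S2504
import Cfsg.Agent.Lib.LieSymAbelianMax

set_option autoImplicit false
open Cfsg CfsgLib.SymAbelianMax

namespace Cfsg.Agent.S2504

/-- The largest order of an abelian subgroup of the alternating group of degree n is 3^k when n = 3k, 4·3^(k−1) when n = 3k + 1, and 16·3^(k−2) when n = 3k + 2, for every k ≥ 2 (so for all degrees n ≥ 6). -/
theorem result (k : ℕ) (hk : 2 ≤ k) :
    IsGreatest {c : ℕ | ∃ A : Subgroup (alternatingGroup (Fin (3 * k))), IsMulCommutative A ∧ Nat.card A = c} (3 ^ k) ∧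
    IsGreatest {c : ℕ | ∃ A : Subgroup (alternatingGroup (Fin (3 * k + 1))), IsMulCommutative A ∧ Nat.card A = c}
      (4 * 3 ^ (k - 1)) ∧
    IsGreatest {c : ℕ | ∃ A : Subgroup (alternatingGroup (Fin (3 * k + 2))), IsMulCommutative A ∧ Nat.card A = c}
      (16 * 3 ^ (k - 2)) := by
  obtain ⟨j, rfl⟩ : ∃ j, k = j + 2 := ⟨k - 2, by omega⟩
  refine ⟨⟨?_, ?_⟩, ⟨?_, ?_⟩, ⟨?_, ?_⟩⟩
  · have h := hasAbEven_threes hasAbEven_three (j + 1)
    rw [show 3 + 3 * (j + 1) = 3 * (j + 2) by ring, ← pow_succ'] at h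
    exact altMem.2 h
  · rintro c hc
    obtain ⟨A, hA, rfl, -⟩ := altMem.1 hc
    exact (card_le_g A).trans_eq (g_zero_mod _ (by omega))
  · have h := hasAbEven_threes hasAbEven_four (j + 1)
    rw [show 4 + 3 * (j + 1) = 3 * (j + 2) + 1 by ring] at h
    rw [show j + 2 - 1 = j + 1 by omega]
    exact altMem.2 h
  · rintro c hc
    obtain ⟨A, hA, rfl, -⟩ := altMem.1 hc
    exact (card_le_g A).trans_eq (g_one_mod _ (by omega))
  · have h := hasAbEven_threes (hasAbEven_four.add hasAbEven_four) j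
    rw [show 4 + 4 + 3 * j = 3 * (j + 2) + 2 by ring, show 4 * 4 = 16 by norm_num] at h
    rw [Nat.add_sub_cancel]
    exact altMem.2 h
  · rintro c hc
    obtain ⟨A, hA, rfl, hle⟩ := altMem.1 hc
    refine (card_le_h A hle ?_).trans_eq (h_two_mod _ hk)
    rw [g_two_mod, h_two_mod _ hk, Nat.add_sub_cancel, pow_add]
    omega

end Cfsg.Agent.S2504
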