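import Cfsg.Statements.S2505
import Cfsg.Agent.Lib.LieSymAbelianMax

set_option autoImplicit false
open Cfsg CfsgLib.SymAbelianMax

namespace Cfsg.Agent.S2505

/-- The largest order of an abelian subgroup of the symmetric group of degree n is 3^k when n = 3k, 4·3^(k−1) when n = 3k + 1, and 2·3^k when n = 3k + 2, for every k ≥ 1. -/
theorem result (k : ℕ) (hk : 1 ≤ k) :
    IsGreatest {c : ℕ | ∃ A : Subgroup (Equiv.Perm (Fin (3 * k))), IsMulCommutative A ∧ Nat.card A = c} (3 ^ k) ∧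
    IsGreatest {c : ℕ | ∃ A : Subgroup (Equiv.Perm (Fin (3 * k + 1))), IsMulCommutative A ∧ Nat.card A = c}
      (4 * 3 ^ (k - 1)) ∧
    IsGreatest {c : ℕ | ∃ A : Subgroup (Equiv.Perm (Fin (3 * k + 2))), IsMulCommutative A ∧ Nat.card A = c}
      (2 * 3 ^ k) := by
  obtain ⟨j, rfl⟩ : ∃ j, k = j + 1 := ⟨k - 1, by omega⟩
  refine ⟨⟨?_, ?_⟩, ⟨?_, ?_⟩, ⟨?_, ?_⟩⟩
  · have h := hasAb_threes (hasAbEven_three.hasAb) j
    rw [show 3 + 3 * j = 3 * (j + 1) by ring, ← pow_succ'] at h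
    exact h
  · rintro c ⟨A, hA, rfl⟩
    exact (card_le_g A).trans_eq (g_zero_mod _ hk)
  · have h := hasAb_threes (hasAbEven_four.hasAb) j
    rw [show 4 + 3 * j = 3 * (j + 1) + 1 by ring] at h
    rw [Nat.add_sub_cancel]
    exact h
  · rintro c ⟨A, hA, rfl⟩
    exact (card_le_g A).trans_eq (g_one_mod _ hk)
  · have h := hasAb_threes hasAb_two (j + 1)
    rw [show 2 + 3 * (j + 1) = 3 * (j + 1) + 2 by ring] at h
    exact h
  · rintro c ⟨A, hA, rfl⟩
    exact (card_le_g A).trans_eq (g_two_mod _)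

end Cfsg.Agent.S2505
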