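import Cfsg.Statements.S2507
import Cfsg.Agent.Lib.ClassicalPSLTwoClasses

set_option autoImplicit false
open Cfsg

namespace Cfsg.Agent.S2507

/-- Let F be a finite field with q = 2^f ≥ 4 elements. The conjugacy class sizes of PSL(2,F) are exactly 1, q(q − 1), q² − 1 and q(q + 1). -/
theorem result {F : Type*} [Field F] [Fintype F]
    (h2 : 2 ∣ Fintype.card F) (h4 : 4 ≤ Fintype.card F) :
    Set.range (fun g : (Matrix.ProjectiveSpecialLinearGroup (Fin 2) F) => (Subgroup.centralizer ({g} : Set (Matrix.ProjectiveSpecialLinearGroup (Fin 2) F))).index) =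
      {1, Fintype.card F * (Fintype.card F - 1), Fintype.card F ^ 2 - 1, Fintype.card F * (Fintype.card F + 1)} := by
  classical
  obtain ⟨n, hp, hc⟩ := FiniteField.card F (ringChar F)
  have hp2 : ringChar F = 2 := ((Nat.prime_dvd_prime_iff_eq Nat.prime_two hp).1 (Nat.prime_two.dvd_of_dvd_pow (hc ▸ h2))).symm
  haveI : CharP F 2 := ringChar.of_eq hp2
  haveI : Fact (Nat.Prime 2) := ⟨Nat.prime_two⟩
  have h20 : (2 : F) = 0 := by exact_mod_cast CharP.cast_eq_zero F 2
  have hroot := (CfsgLib.SLTwoClasses.card_roots (F := F)).1 h20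
  set q := Fintype.card F with hq
  have hs := CfsgLib.SLTwoClasses.sq_sub_one q
  rw [CfsgLib.SLTwoClasses.range_eq]
  apply le_antisymm
  · rintro _ ⟨g, rfl⟩
    by_cases hg : CfsgLib.Dickson.IsScal g
    · rw [CfsgLib.SLTwoClasses.cIdx_scal hg]; simp
    rcases CfsgLib.SLTwoClasses.liftCent_cases (p := 2) h4 hg with h | ⟨-, h | h⟩ | ⟨h, -⟩
    · rw [hroot, one_mul] at h
      rw [CfsgLib.SLTwoClasses.cIdx_eq (v := q ^ 2 - 1) (by omega) h (by rw [hs]; ring)]; simp
    · rw [CfsgLib.SLTwoClasses.cIdx_eq (v := q * (q + 1)) (by omega) h (by ring)]; simp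
    · rw [CfsgLib.SLTwoClasses.cIdx_eq (v := q * (q - 1)) (by omega) h (by ring)]; simp
    · exact absurd h20 h
  · intro x hx
    simp only [Set.mem_insert_iff, Set.mem_singleton_iff] at hx
    rcases hx with rfl | rfl | rfl | rfl
    · exact ⟨1, CfsgLib.SLTwoClasses.cIdx_scal CfsgLib.Dickson.isScal_one⟩
    · obtain ⟨g, hg⟩ := CfsgLib.SLTwoClasses.exists_semisimple (F := F) (p := 2) (e := q + 1) h4 (Or.inr rfl) (Or.inl h20)
      exact ⟨g, CfsgLib.SLTwoClasses.cIdx_eq (by omega) hg (by ring)⟩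
    · have hg := CfsgLib.SLTwoClasses.liftCent_upperU_one (F := F)
      rw [hroot, one_mul] at hg
      exact ⟨_, CfsgLib.SLTwoClasses.cIdx_eq (by omega) hg (by rw [hs]; ring)⟩
    · obtain ⟨g, hg⟩ := CfsgLib.SLTwoClasses.exists_semisimple (F := F) (p := 2) (e := q - 1) h4 (Or.inl rfl) (Or.inl h20)
      exact ⟨g, CfsgLib.SLTwoClasses.cIdx_eq (by omega) hg (by ring)⟩

end Cfsg.Agent.S2507
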