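import Cfsg.Statements.S2508
import Cfsg.Agent.Lib.ClassicalPSLTwoClasses

set_option autoImplicit false
open Cfsg

namespace Cfsg.Agent.S2508

/-- Let F be a finite field with q elements, q odd and q ≥ 7. If q ≡ 1 (mod 4) the conjugacy class sizes of PSL(2,F) are exactly 1, (q² − 1)/2, q(q + 1)/2, q(q − 1) and q(q + 1); if q ≡ 3 (mod 4) they are exactly 1, (q² − 1)/2, q(q − 1)/2, q(q + 1) and q(q − 1). -/
theorem result {F : Type*} [Field F] [Fintype F]
    (hodd : ¬ 2 ∣ Fintype.card F) (h7 : 7 ≤ Fintype.card F) :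
    (Fintype.card F % 4 = 1 →
      Set.range (fun g : (Matrix.ProjectiveSpecialLinearGroup (Fin 2) F) => (Subgroup.centralizer ({g} : Set (Matrix.ProjectiveSpecialLinearGroup (Fin 2) F))).index) =
        {1, (Fintype.card F ^ 2 - 1) / 2, Fintype.card F * (Fintype.card F + 1) / 2,
          Fintype.card F * (Fintype.card F - 1), Fintype.card F * (Fintype.card F + 1)}) ∧
    (Fintype.card F % 4 = 3 →
      Set.range (fun g : (Matrix.ProjectiveSpecialLinearGroup (Fin 2) F) => (Subgroup.centralizer ({g} : Set (Matrix.ProjectiveSpecialLinearGroup (Fin 2) F))).index) =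
        {1, (Fintype.card F ^ 2 - 1) / 2, Fintype.card F * (Fintype.card F - 1) / 2,
          Fintype.card F * (Fintype.card F + 1), Fintype.card F * (Fintype.card F - 1)}) := by
  classical
  obtain ⟨n, hp, hc⟩ := FiniteField.card F (ringChar F)
  haveI : Fact (ringChar F).Prime := ⟨hp⟩
  haveI : CharP F (ringChar F) := ringChar.charP F
  have hne : ringChar F ≠ 2 := fun h => hodd (by rw [hc, h]; exact dvd_pow_self 2 n.ne_zero)
  have h20 : (2 : F) ≠ 0 := Ring.two_ne_zero hne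
  have hroot := (CfsgLib.SLTwoClasses.card_roots (F := F)).2 h20
  set q := Fintype.card F with hq
  have h4 : 4 ≤ q := by omega
  have hs := CfsgLib.SLTwoClasses.sq_sub_one q
  have hev : ∃ k, q = 2 * k + 1 := ⟨q / 2, by omega⟩
  obtain ⟨k, hk⟩ := hev
  have hA : (q ^ 2 - 1) / 2 * (2 * q) = q * (q - 1) * (q + 1) := by
    rw [hs, hk, show (2 * k + 1 + 1) * (2 * k + 1 - 1) = 2 * ((k + 1) * (2 * k)) by rw [Nat.add_sub_cancel]; ring, Nat.mul_div_cancel_left _ two_pos, Nat.add_sub_cancel]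
    ring
  have hB1 : q * (q + 1) / 2 * (2 * (q - 1)) = q * (q - 1) * (q + 1) := by
    rw [hk, show (2 * k + 1) * (2 * k + 1 + 1) = 2 * ((2 * k + 1) * (k + 1)) by ring, Nat.mul_div_cancel_left _ two_pos, Nat.add_sub_cancel]
    ring
  have hB2 : q * (q - 1) / 2 * (2 * (q + 1)) = q * (q - 1) * (q + 1) := by
    rw [hk, Nat.add_sub_cancel, show (2 * k + 1) * (2 * k) = 2 * ((2 * k + 1) * k) by ring, Nat.mul_div_cancel_left _ two_pos]
    ring
  rw [CfsgLib.SLTwoClasses.range_eq]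
  have hup : ∀ g : CfsgLib.Dickson.SL F, CfsgLib.SLTwoClasses.cIdx g = 1 ∨ CfsgLib.SLTwoClasses.cIdx g = (q ^ 2 - 1) / 2 ∨
      CfsgLib.SLTwoClasses.cIdx g = q * (q - 1) ∨ CfsgLib.SLTwoClasses.cIdx g = q * (q + 1) ∨
      (IsSquare (-1 : F) ∧ CfsgLib.SLTwoClasses.cIdx g = q * (q + 1) / 2) ∨ (¬ IsSquare (-1 : F) ∧ CfsgLib.SLTwoClasses.cIdx g = q * (q - 1) / 2) := by
    intro g
    by_cases hg : CfsgLib.Dickson.IsScal g
    · exact Or.inl (CfsgLib.SLTwoClasses.cIdx_scal hg)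
    rcases CfsgLib.SLTwoClasses.liftCent_cases (p := ringChar F) h4 hg with h | ⟨-, h | h⟩ | ⟨-, -, h1, h3⟩
    · rw [hroot] at h
      exact Or.inr (Or.inl (CfsgLib.SLTwoClasses.cIdx_eq (by omega) h hA))
    · exact Or.inr (Or.inr (Or.inr (Or.inl (CfsgLib.SLTwoClasses.cIdx_eq (by omega) h (by ring)))))
    · exact Or.inr (Or.inr (Or.inl (CfsgLib.SLTwoClasses.cIdx_eq (by omega) h (by ring))))
    · by_cases hsq : IsSquare (-1 : F)
      · exact Or.inr (Or.inr (Or.inr (Or.inr (Or.inl ⟨hsq, CfsgLib.SLTwoClasses.cIdx_eq (by omega) (h1 hsq) hB1⟩))))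
      · exact Or.inr (Or.inr (Or.inr (Or.inr (Or.inr ⟨hsq, CfsgLib.SLTwoClasses.cIdx_eq (by omega) (h3 hsq) hB2⟩))))
  have hA' : (q ^ 2 - 1) / 2 ∈ Set.range (CfsgLib.SLTwoClasses.cIdx (F := F)) := by
    have hg := CfsgLib.SLTwoClasses.liftCent_upperU_one (F := F)
    rw [hroot] at hg
    exact ⟨_, CfsgLib.SLTwoClasses.cIdx_eq (by omega) hg hA⟩
  have hm : q * (q - 1) ∈ Set.range (CfsgLib.SLTwoClasses.cIdx (F := F)) := by
    obtain ⟨g, hg⟩ := CfsgLib.SLTwoClasses.exists_semisimple (F := F) (p := ringChar F) (e := q + 1) h4 (Or.inr rfl) (Or.inr (by omega))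
    exact ⟨g, CfsgLib.SLTwoClasses.cIdx_eq (by omega) hg (by ring)⟩
  have hpl : q * (q + 1) ∈ Set.range (CfsgLib.SLTwoClasses.cIdx (F := F)) := by
    obtain ⟨g, hg⟩ := CfsgLib.SLTwoClasses.exists_semisimple (F := F) (p := ringChar F) (e := q - 1) h4 (Or.inl rfl) (Or.inr (by omega))
    exact ⟨g, CfsgLib.SLTwoClasses.cIdx_eq (by omega) hg (by ring)⟩
  have hone : 1 ∈ Set.range (CfsgLib.SLTwoClasses.cIdx (F := F)) := ⟨1, CfsgLib.SLTwoClasses.cIdx_scal CfsgLib.Dickson.isScal_one⟩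
  obtain ⟨hw1, hw2⟩ := CfsgLib.SLTwoClasses.wElt_spec (F := F)
  have hW : (IsSquare (-1 : F) → q * (q + 1) / 2 ∈ Set.range (CfsgLib.SLTwoClasses.cIdx (F := F))) ∧
      (¬ IsSquare (-1 : F) → q * (q - 1) / 2 ∈ Set.range (CfsgLib.SLTwoClasses.cIdx (F := F))) := by
    rcases CfsgLib.SLTwoClasses.liftCent_cases (p := ringChar F) h4 hw1 with h | ⟨h | h, -⟩ | ⟨-, -, h1, h3⟩
    · exfalso
      have hnd : ¬ ringChar F ∣ orderOf (CfsgLib.SLTwoClasses.wElt (F := F)) := by
        intro hd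
        have h4' : (CfsgLib.SLTwoClasses.wElt (F := F)) ^ 4 = 1 := by
          rw [show 4 = 2 * 2 from rfl, pow_mul, pow_two, pow_two, hw2]; simp
        exact hne ((Nat.prime_dvd_prime_iff_eq hp Nat.prime_two).1 (hp.dvd_of_dvd_pow (show ringChar F ∣ 2 ^ 2 from hd.trans (orderOf_dvd_of_pow_eq_one h4'))))
      obtain ⟨w, hw, -⟩ := CfsgLib.Dickson.exists_inverter (p := ringChar F) rfl h4 hw1 hnd
      have hinv : (CfsgLib.SLTwoClasses.wElt (F := F))⁻¹ = -CfsgLib.SLTwoClasses.wElt :=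
        inv_eq_of_mul_eq_one_right (by rw [mul_neg, hw2, neg_neg])
      have hmem : w ∈ CfsgLib.SLTwoClasses.liftCent (CfsgLib.SLTwoClasses.wElt (F := F)) :=
        CfsgLib.SLTwoClasses.mem_liftCent.2 (Or.inr (by rw [hw, hinv, neg_mul]))
      have hdvd := Subgroup.card_subgroup_dvd_card (CfsgLib.SLTwoClasses.liftCent (CfsgLib.SLTwoClasses.wElt (F := F)))
      have hT := CfsgLib.Dickson.torus_data (p := ringChar F) rfl h4 hw1 hnd
      have hle : Subgroup.centralizer ({CfsgLib.SLTwoClasses.wElt (F := F)} : Set (CfsgLib.Dickson.SL F)) ≤ CfsgLib.SLTwoClasses.liftCent (CfsgLib.SLTwoClasses.wElt (F := F)) :=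
        fun x hx => CfsgLib.SLTwoClasses.mem_liftCent.2 (Or.inl (Subgroup.mem_centralizer_singleton_iff.1 hx))
      have h5 := Subgroup.card_dvd_of_le hle
      rw [h, hroot] at h5
      have hcop : ∀ e, (e = q - 1 ∨ e = q + 1) → e ∣ 2 * q → False := by
        intro e he hd
        have hle2 : e ∣ 2 := by
          have hc1 : Nat.Coprime e q := by
            rw [Nat.coprime_comm]
            rcases he with rfl | rfl
            · exact (Nat.coprime_self_sub_right (by omega)).2 (Nat.coprime_one_right q)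
            · simp
          exact hc1.dvd_of_dvd_mul_right hd
        have := Nat.le_of_dvd two_pos hle2
        omega
      rcases hT.2.1 with e | e <;> rw [e] at h5
      · exact hcop _ (Or.inl rfl) h5
      · exact hcop _ (Or.inr rfl) h5
    · exact absurd h h20
    · exact absurd hw2 h
    · exact ⟨fun hsq => ⟨_, CfsgLib.SLTwoClasses.cIdx_eq (by omega) (h1 hsq) hB1⟩, fun hsq => ⟨_, CfsgLib.SLTwoClasses.cIdx_eq (by omega) (h3 hsq) hB2⟩⟩
  constructor
  · intro h1
    have hsq : IsSquare (-1 : F) := FiniteField.isSquare_neg_one_iff.2 (by omega)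
    refine le_antisymm ?_ ?_
    · rintro _ ⟨g, rfl⟩
      rcases hup g with e | e | e | e | ⟨-, e⟩ | ⟨e', -⟩ <;> first | exact absurd hsq e' | simp [e]
    · intro x hx
      simp only [Set.mem_insert_iff, Set.mem_singleton_iff] at hx
      rcases hx with rfl | rfl | rfl | rfl | rfl
      exacts [hone, hA', hW.1 hsq, hm, hpl]
  · intro h3
    have hsq : ¬ IsSquare (-1 : F) := fun h => (FiniteField.isSquare_neg_one_iff.1 h) (by omega)
    refine le_antisymm ?_ ?_
    · rintro _ ⟨g, rfl⟩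
      rcases hup g with e | e | e | e | ⟨e', -⟩ | ⟨-, e⟩ <;> first | exact absurd e' hsq | simp [e]
    · intro x hx
      simp only [Set.mem_insert_iff, Set.mem_singleton_iff] at hx
      rcases hx with rfl | rfl | rfl | rfl | rfl
      exacts [hone, hA', hW.2 hsq, hpl, hm]

end Cfsg.Agent.S2508
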