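import Cfsg.Statements.S2510
import Cfsg.Agent.Lib.LieSpecPSL

set_option autoImplicit false
open Cfsg

namespace Cfsg.Agent.S2510

/-- Let F be a finite field with q = p^a elements, n ≥ 2 (with q ≥ 4 when n = 2), L = PSL(n, F), and let r be a prime dividing q − 1 and not dividing n. Then for every m the direct product L × L × L × (ℤ/r)^m has the same set of element orders as L × L × L; and if n − 1 ≠ p^j for every j ≥ 0 (so never when n = 2, since 1 = p^0), then already L × L × (ℤ/r)^m has the same set of element orders as L × L. -/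
theorem result {F : Type*} [Field F] [Fintype F] (p a n r m : ℕ) (hp : p.Prime) (ha : 1 ≤ a) (hF : Fintype.card F = p ^ a)
    (hn : 2 ≤ n) (hn2 : n = 2 → 4 ≤ Fintype.card F) (hr : r.Prime) (hrq : r ∣ Fintype.card F - 1) (hrn : ¬ r ∣ n) :
    Set.range (orderOf : Matrix.ProjectiveSpecialLinearGroup (Fin n) F × Matrix.ProjectiveSpecialLinearGroup (Fin n) F × Matrix.ProjectiveSpecialLinearGroup (Fin n) F × Multiplicative (Fin m → ZMod r) → ℕ) =
      Set.range (orderOf : Matrix.ProjectiveSpecialLinearGroup (Fin n) F × Matrix.ProjectiveSpecialLinearGroup (Fin n) F × Matrix.ProjectiveSpecialLinearGroup (Fin n) F → ℕ) ∧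
    ((¬ ∃ j : ℕ, n - 1 = p ^ j) →
      Set.range (orderOf : Matrix.ProjectiveSpecialLinearGroup (Fin n) F × Matrix.ProjectiveSpecialLinearGroup (Fin n) F × Multiplicative (Fin m → ZMod r) → ℕ) =
        Set.range (orderOf : Matrix.ProjectiveSpecialLinearGroup (Fin n) F × Matrix.ProjectiveSpecialLinearGroup (Fin n) F → ℕ)) := by
  refine ⟨?_, fun hne => ?_⟩
  · rw [← CfsgLib.Spec.range_absorb (A := Matrix.ProjectiveSpecialLinearGroup (Fin n) F × Matrix.ProjectiveSpecialLinearGroup (Fin n) F × Matrix.ProjectiveSpecialLinearGroup (Fin n) F)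
      (B := Multiplicative (Fin m → ZMod r)) fun x v => by
        obtain ⟨y, hy⟩ := CfsgLib.Spec.three_absorb hp ha hF hn hr hrq hrn x
        exact ⟨y, (lcm_dvd_lcm dvd_rfl (CfsgLib.Spec.orderOf_vec_dvd v)).trans hy⟩]
    ext e
    constructor
    · rintro ⟨⟨a, b, c, v⟩, rfl⟩
      exact ⟨((a, b, c), v), by simp only [Prod.orderOf, Nat.lcm_assoc]⟩
    · rintro ⟨⟨⟨a, b, c⟩, v⟩, rfl⟩
      exact ⟨(a, b, c, v), by simp only [Prod.orderOf, Nat.lcm_assoc]⟩
  · rw [← CfsgLib.Spec.range_absorb (A := Matrix.ProjectiveSpecialLinearGroup (Fin n) F × Matrix.ProjectiveSpecialLinearGroup (Fin n) F)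
      (B := Multiplicative (Fin m → ZMod r)) fun x v => by
        obtain ⟨y, hy⟩ := CfsgLib.Spec.two_absorb hp ha hF hn hr hrq hrn hne x
        exact ⟨y, (lcm_dvd_lcm dvd_rfl (CfsgLib.Spec.orderOf_vec_dvd v)).trans hy⟩]
    ext e
    constructor
    · rintro ⟨⟨a, b, v⟩, rfl⟩
      exact ⟨((a, b), v), by simp only [Prod.orderOf, Nat.lcm_assoc]⟩
    · rintro ⟨⟨⟨a, b⟩, v⟩, rfl⟩
      exact ⟨(a, b, v), by simp only [Prod.orderOf, Nat.lcm_assoc]⟩

end Cfsg.Agent.S2510
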