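import Cfsg.Statements.S2514


set_option autoImplicit false
open Cfsg

namespace Cfsg.Agent.S2514

/-- For a finite group X write μ(X) for the set of element orders of X that are maximal under divisibility. Let G and H be finite groups and k ≥ 1 such that μ(H) ⊆ μ(G) and μ(G) has fewer than k elements outside μ(H). Then the direct product of k copies of G has the same set of element orders as the direct product of k − 1 copies of G with H. -/
theorem result {G H : Type*} [Group G] [Finite G] [Group H] [Finite H] (k : ℕ) (hk : 1 ≤ k)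
    (hsub : {n : ℕ | n ∈ Set.range (orderOf : H → ℕ) ∧ ∀ m ∈ Set.range (orderOf : H → ℕ), n ∣ m → m = n} ⊆ {n : ℕ | n ∈ Set.range (orderOf : G → ℕ) ∧ ∀ m ∈ Set.range (orderOf : G → ℕ), n ∣ m → m = n})
    (hfew : ({n : ℕ | n ∈ Set.range (orderOf : G → ℕ) ∧ ∀ m ∈ Set.range (orderOf : G → ℕ), n ∣ m → m = n} \ {n : ℕ | n ∈ Set.range (orderOf : H → ℕ) ∧ ∀ m ∈ Set.range (orderOf : H → ℕ), n ∣ m → m = n}).ncard < k) :
    Set.range (orderOf : (Fin k → G) → ℕ) = Set.range (orderOf : (Fin (k - 1) → G) × H → ℕ) := by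
  classical
  -- spectra of products
  have hpi : ∀ (X : Type _) [Group X] [Finite X] (j : ℕ) (f : Fin j → X) (N : ℕ),
      orderOf f ∣ N ↔ ∀ i, orderOf (f i) ∣ N := fun X _ _ j f N => by
    simp only [orderOf_dvd_iff_pow_eq_one, funext_iff, Pi.pow_apply, Pi.one_apply]
  let MG : Set ℕ := {n : ℕ | n ∈ Set.range (orderOf : G → ℕ) ∧ ∀ m ∈ Set.range (orderOf : G → ℕ), n ∣ m → m = n}
  let MH : Set ℕ := {n : ℕ | n ∈ Set.range (orderOf : H → ℕ) ∧ ∀ m ∈ Set.range (orderOf : H → ℕ), n ∣ m → m = n}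
  have hmaxG : ∀ g : G, ∃ m ∈ MG, orderOf g ∣ m := fun g => by
    obtain ⟨m, hm⟩ := Set.Finite.exists_maximal
      (Set.toFinite {m : ℕ | m ∈ Set.range (orderOf : G → ℕ) ∧ orderOf g ∣ m}) ⟨_, ⟨g, rfl⟩, dvd_rfl⟩
    refine ⟨m, ⟨hm.1.1, fun m' hm' hd => ?_⟩, hm.1.2⟩
    obtain ⟨g', hg'⟩ := hm'
    have hle := Nat.le_of_dvd (hg' ▸ orderOf_pos g') hd
    exact le_antisymm (hm.2 ⟨⟨g', hg'⟩, hm.1.2.trans hd⟩ hle) hle
  have hmaxH : ∀ g : H, ∃ m ∈ MH, orderOf g ∣ m := fun g => by
    obtain ⟨m, hm⟩ := Set.Finite.exists_maximal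
      (Set.toFinite {m : ℕ | m ∈ Set.range (orderOf : H → ℕ) ∧ orderOf g ∣ m}) ⟨_, ⟨g, rfl⟩, dvd_rfl⟩
    refine ⟨m, ⟨hm.1.1, fun m' hm' hd => ?_⟩, hm.1.2⟩
    obtain ⟨g', hg'⟩ := hm'
    have hle := Nat.le_of_dvd (hg' ▸ orderOf_pos g') hd
    exact le_antisymm (hm.2 ⟨⟨g', hg'⟩, hm.1.2.trans hd⟩ hle) hle
  have hdown : ∀ {X : Type _} [Group X] [Finite X] (x : X) (d : ℕ), d ∣ orderOf x → ∃ y : X, orderOf y = d :=
    fun x d hd => ⟨x ^ (orderOf x / d), orderOf_pow_orderOf_div (orderOf_pos x).ne' hd⟩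
  obtain ⟨j, rfl⟩ : ∃ j, k = j + 1 := ⟨k - 1, by omega⟩
  rw [Nat.add_sub_cancel]
  ext N
  constructor
  · rintro ⟨f, rfl⟩
    choose m hm hfm using fun i => hmaxG (f i)
    -- either some maximal order comes from `H`, or two coincide
    obtain ⟨f', y, hdiv⟩ : ∃ (f' : Fin j → G) (y : H), orderOf f ∣ Nat.lcm (orderOf f') (orderOf y) := by
      by_cases hc : ∃ i, m i ∈ MH
      · obtain ⟨i, hi⟩ := hc
        obtain ⟨y, hy⟩ := hi.1
        refine ⟨i.removeNth f, y, (hpi G _ f _).2 fun l => ?_⟩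
        rcases Fin.eq_self_or_eq_succAbove i l with rfl | ⟨l', rfl⟩
        · exact (hfm l).trans (hy ▸ Nat.dvd_lcm_right _ _)
        · exact ((hpi G _ (i.removeNth f) _).1 dvd_rfl l').trans (Nat.dvd_lcm_left _ _)
      · push Not at hc
        obtain ⟨a, b, hab, he⟩ : ∃ a b, a ≠ b ∧ m a = m b := by
          by_contra hinj
          push Not at hinj
          have hsub : Set.range m ⊆ MG \ MH := by rintro _ ⟨i, rfl⟩; exact ⟨hm i, hc i⟩
          have h1 := Set.ncard_le_ncard hsub ((Set.toFinite (Set.range (orderOf : G → ℕ))).subset fun x hx => hx.1.1)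
          rw [Set.ncard_range_of_injective (fun a b e => by_contra fun hne => hinj a b hne e), Nat.card_fin] at h1
          exact absurd hfew (by rw [not_lt]; exact h1)
        obtain ⟨gm, hgm⟩ := (hm a).1
        obtain ⟨a', ha'⟩ := Fin.exists_succAbove_eq hab
        refine ⟨Function.update (b.removeNth f) a' gm, 1, (hpi G _ f _).2 fun l => dvd_trans ?_ (Nat.dvd_lcm_left _ _)⟩
        have hcoord := (hpi G _ (Function.update (b.removeNth f) a' gm) _).1 dvd_rfl
        rcases Fin.eq_self_or_eq_succAbove b l with rfl | ⟨l', rfl⟩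
        · have := hcoord a'
          rw [Function.update_self, hgm, he] at this
          exact (hfm l).trans this
        · by_cases hl : l' = a'
          · subst hl
            have := hcoord l'
            rw [Function.update_self, hgm, ← ha'] at this
            exact (hfm _).trans this
          · have := hcoord l'
            rwa [Function.update_of_ne hl] at this
    exact hdown ((f', y) : (Fin j → G) × H) _ (by rwa [Prod.orderOf_mk])
  · rintro ⟨⟨f, y⟩, rfl⟩
    obtain ⟨m, hm, hd⟩ := hmaxH y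
    obtain ⟨gm, hgm⟩ := (hsub hm).1
    have hz := orderOf_pow_orderOf_div (orderOf_pos gm).ne' (show orderOf y ∣ orderOf gm from hgm ▸ hd)
    generalize gm ^ (orderOf gm / orderOf y) = z at hz
    refine ⟨Fin.cons z f, Nat.dvd_antisymm ((hpi G _ _ _).2 fun l => ?_) ?_⟩
    · rw [Prod.orderOf_mk]
      refine Fin.cases ?_ (fun l' => ?_) l
      · rw [Fin.cons_zero, hz]; exact Nat.dvd_lcm_right _ _
      · rw [Fin.cons_succ]; exact ((hpi G _ f _).1 dvd_rfl l').trans (Nat.dvd_lcm_left _ _)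
    · rw [Prod.orderOf_mk]
      have hall := (hpi G _ (Fin.cons z f : Fin (j + 1) → G) _).1 dvd_rfl
      refine Nat.lcm_dvd ((hpi G _ f _).2 fun l' => ?_) ?_
      · simpa using hall l'.succ
      · simpa [hz] using hall 0

end Cfsg.Agent.S2514
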