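import Cfsg.Statements.S2516


set_option autoImplicit false
open Cfsg

namespace Cfsg.Agent.S2516

/-- Let F be a field of characteristic p > 0, V a non-zero finite-dimensional F-vector space, G a finite group and ρ a representation of G on V; form the semidirect product V ⋊ G. For g ∈ G of order k, the coset Vg contains an element of order pk if and only if the minimal polynomial of ρ(g) does not divide 1 + X + ⋯ + X^(k−1). -/
theorem result {F : Type*} [Field F] (p : ℕ) [Fact p.Prime] [CharP F p] {V : Type*} [AddCommGroup V] [Module F V] [FiniteDimensional F V] [Nontrivial V]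
    {G : Type*} [Group G] [Finite G] (ρ : Representation F G V) (g : G) :
    (∃ x : Multiplicative V ⋊[(MulAutMultiplicative V).symm.toMonoidHom.comp
        ((DistribMulAction.toAddAut ((V →ₗ[F] V)ˣ) V).comp ρ.asGroupHom)] G,
        x.right = g ∧ orderOf x = p * orderOf g) ↔
      ¬ (minpoly F (ρ g) ∣ ∑ i ∈ Finset.range (orderOf g), (Polynomial.X : Polynomial F) ^ i) := by
  classical
  set S := Multiplicative V ⋊[(MulAutMultiplicative V).symm.toMonoidHom.comp
        ((DistribMulAction.toAddAut ((V →ₗ[F] V)ˣ) V).comp ρ.asGroupHom)] G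
  have hpow : ∀ (x : S) (n : ℕ), (x ^ n).right = x.right ^ n ∧
      Multiplicative.toAdd (x ^ n).left = ∑ i ∈ Finset.range n, ρ (x.right ^ i) (Multiplicative.toAdd x.left) := by
    intro x n
    induction n with
    | zero => simp
    | succ n ih =>
      rw [pow_succ]
      refine ⟨by rw [SemidirectProduct.mul_right, ih.1, pow_succ], ?_⟩
      rw [SemidirectProduct.mul_left, Finset.sum_range_succ, toAdd_mul, ih.2]
      congr 1
      rw [ih.1]
      rfl
  have hgpos : 0 < orderOf g := orderOf_pos g
  have hp : p.Prime := Fact.out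
  have hS : ∀ x : S, x.right = g → x ^ (orderOf g) = SemidirectProduct.inl (Multiplicative.ofAdd (∑ i ∈ Finset.range (orderOf g), ρ (g ^ i) (Multiplicative.toAdd x.left))) := by
    intro x hx
    ext
    · apply Multiplicative.toAdd.injective
      rw [(hpow x _).2, hx]
      rfl
    · rw [(hpow x _).1, hx, pow_orderOf_eq_one]
      rfl
  have haev : ∀ v : V, Polynomial.aeval (ρ g) (∑ i ∈ Finset.range (orderOf g), (Polynomial.X : Polynomial F) ^ i) v = ∑ i ∈ Finset.range (orderOf g), ρ (g ^ i) v := by
    intro v
    simp [map_sum, LinearMap.sum_apply, map_pow]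
  rw [minpoly.dvd_iff]
  constructor
  · rintro ⟨x, hx, hord⟩ h0
    have h1 : x ^ orderOf g = 1 := by
      rw [hS x hx, ← haev, h0, LinearMap.zero_apply, ofAdd_zero, map_one]
    have := Nat.le_of_dvd hgpos (orderOf_dvd_of_pow_eq_one h1)
    rw [hord] at this
    have := hp.two_le
    nlinarith
  · intro h0
    obtain ⟨v, hv⟩ : ∃ v, Polynomial.aeval (ρ g) (∑ i ∈ Finset.range (orderOf g), (Polynomial.X : Polynomial F) ^ i) v ≠ 0 := by
      by_contra hc
      push_neg at hc
      exact h0 (LinearMap.ext hc)
    refine ⟨⟨Multiplicative.ofAdd v, g⟩, rfl, ?_⟩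
    set x : S := ⟨Multiplicative.ofAdd v, g⟩
    have hxg : x.right = g := rfl
    have hne : x ^ orderOf g ≠ 1 := by
      rw [hS x hxg, ← haev]
      intro h
      apply hv
      exact congrArg (fun y : S => Multiplicative.toAdd y.left) h
    have hpg : x ^ (p * orderOf g) = 1 := by
      rw [mul_comm, pow_mul, hS x hxg, ← map_pow, ← ofAdd_nsmul, ← Nat.cast_smul_eq_nsmul F, CharP.cast_eq_zero, zero_smul, ofAdd_zero, map_one]
    have hdvd : orderOf g ∣ orderOf x := by
      apply orderOf_dvd_of_pow_eq_one
      rw [← hxg, ← (hpow x _).1, pow_orderOf_eq_one, SemidirectProduct.one_right]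
    obtain ⟨c, hc⟩ := hdvd
    have hcp : c ∣ p := by
      have := orderOf_dvd_of_pow_eq_one hpg
      rw [hc, mul_comm p] at this
      exact Nat.dvd_of_mul_dvd_mul_left hgpos this
    rcases (Nat.dvd_prime hp).1 hcp with h1 | h1
    · exfalso
      apply hne
      rw [h1, mul_one] at hc
      rw [← hc, pow_orderOf_eq_one]
    · rw [hc, h1, mul_comm]

end Cfsg.Agent.S2516
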