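import Cfsg.Statements.S2521


set_option autoImplicit false
open Cfsg

namespace Cfsg.Agent.S2521

/-- Let B be a finite group that is the semidirect product of a nilpotent normal subgroup U by an abelian subgroup T (U ∩ T = 1, UT = B), and let t ∈ T have centralizer exactly T. Then every element of the coset tU is conjugate to t in B: for each u ∈ U there is b ∈ B with b t b⁻¹ = t u. -/
theorem result {B : Type*} [Group B] [Finite B] (U T : Subgroup B) [U.Normal] (hU : Group.IsNilpotent ↥U) (hT : IsMulCommutative ↥T)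
    (hcompl : Subgroup.IsComplement' U T) (t : B) (ht : t ∈ T) (hreg : Subgroup.centralizer ({t} : Set B) = T) (u : B) (hu : u ∈ U) :
    ∃ b : B, b * t * b⁻¹ = t * u := by
  classical
  haveI := Fintype.ofFinite B
  let f : U → U := fun b => ⟨t⁻¹ * (b : B) * t * (b : B)⁻¹, mul_mem (by simpa using Subgroup.Normal.conj_mem' (H := U) inferInstance _ b.2 t) (inv_mem b.2)⟩
  have hf : Function.Injective f := by
    intro b c h
    have h1 : t⁻¹ * (b : B) * t * (b : B)⁻¹ = t⁻¹ * (c : B) * t * (c : B)⁻¹ := congrArg Subtype.val h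
    have h2 : ((c : B)⁻¹ * b) * t = t * ((c : B)⁻¹ * b) := by
      have h3 : (b : B) * t * (b : B)⁻¹ = (c : B) * t * (c : B)⁻¹ := by
        simpa [mul_assoc] using h1
      calc ((c : B)⁻¹ * b) * t = (c : B)⁻¹ * ((b : B) * t * (b : B)⁻¹) * b := by group
        _ = _ := by rw [h3]; group
    have h4 : (c : B)⁻¹ * b ∈ T := by
      rw [← hreg, Subgroup.mem_centralizer_iff]
      intro y hy
      rw [Set.mem_singleton_iff] at hy
      subst hy
      exact h2.symm
    have h5 : (c : B)⁻¹ * b = 1 := Subgroup.disjoint_def.1 hcompl.disjoint (mul_mem (inv_mem c.2) b.2) h4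
    exact (Subtype.ext (inv_mul_eq_one.1 h5)).symm
  obtain ⟨b, hb⟩ := (Finite.injective_iff_surjective.1 hf) ⟨u, hu⟩
  refine ⟨b, ?_⟩
  rw [show u = t⁻¹ * (b : B) * t * (b : B)⁻¹ from congrArg Subtype.val hb.symm]
  group

end Cfsg.Agent.S2521
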