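import Cfsg.Statements.S2763
import Cfsg.Agent.Lib.LocalQdModel
import Cfsg.Agent.Lib.LocalBase
import Cfsg.Agent.Lib.CoreCoprime

set_option autoImplicit false
open Cfsg

namespace Cfsg.Agent.S2763

open CfsgLib.Local.Qd

variable {p : ℕ} [hp : Fact p.Prime]

/-- The element with coordinates `(a, b, u)`. -/
def el (a b u : ZMod p) : M3 p := tau a b * em u

theorem el_coe (a b u : ZMod p) :
    (el a b u : Matrix (Fin 3) (Fin 3) (ZMod p)) = !![1, u, a; 0, 1, b; 0, 0, 1] := by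
  ext i j; fin_cases i <;> fin_cases j <;> simp [el, Matrix.mul_apply, Fin.sum_univ_three]

theorem el_mul (a b u c d v : ZMod p) : el a b u * el c d v = el (a + c + u * d) (b + d) (u + v) := by
  apply Subtype.ext
  rw [Matrix.SpecialLinearGroup.coe_mul, el_coe, el_coe, el_coe]
  ext i j; fin_cases i <;> fin_cases j <;> simp [Matrix.mul_apply, Fin.sum_univ_three] <;> ring

theorem el_zero : el (0 : ZMod p) 0 0 = 1 := by
  apply Subtype.ext
  rw [el_coe]
  ext i j; fin_cases i <;> fin_cases j <;> simp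

theorem el_inj {a b u c d v : ZMod p} (h : el a b u = el c d v) : a = c ∧ b = d ∧ u = v := by
  have h' := congrArg Subtype.val h
  rw [el_coe, el_coe] at h'
  exact ⟨by simpa using congrFun (congrFun h' 0) 2, by simpa using congrFun (congrFun h' 1) 2,
    by simpa using congrFun (congrFun h' 0) 1⟩

/-- The standard Sylow subgroup. -/
def Std (p : ℕ) [Fact p.Prime] : Subgroup (M3 p) where
  carrier := {M | ∃ a b u, el a b u = M}
  one_mem' := ⟨0, 0, 0, el_zero⟩
  mul_mem' := by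
    rintro _ _ ⟨a, b, u, rfl⟩ ⟨c, d, v, rfl⟩
    exact ⟨_, _, _, (el_mul a b u c d v).symm⟩
  inv_mem' := by
    rintro _ ⟨a, b, u, rfl⟩
    refine ⟨u * b - a, -b, -u, eq_inv_of_mul_eq_one_right ?_⟩
    rw [el_mul, ← el_zero]
    congr 1 <;> ring

theorem el_pow_p_pow (a b u : ZMod p) : el a b u ^ p ^ 2 = 1 := by
  have hcard : Nat.card (Std p) = p ^ 3 := by
    have hb : Function.Bijective (fun x : ZMod p × ZMod p × ZMod p =>
        (⟨el x.1 x.2.1 x.2.2, _, _, _, rfl⟩ : Std p)) :=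
      ⟨fun x y h => by
        obtain ⟨h1, h2, h3⟩ := el_inj (congrArg Subtype.val h)
        exact Prod.ext h1 (Prod.ext h2 h3),
      fun ⟨M, a, b, u, h⟩ => ⟨(a, b, u), Subtype.ext h⟩⟩
    rw [← Nat.card_eq_of_bijective _ hb, Nat.card_prod, Nat.card_prod, Nat.card_zmod]; ring
  have hpow : ∀ n : ℕ, ∃ x, el a b u ^ n = el x ((n : ZMod p) * b) ((n : ZMod p) * u) := by
    intro n
    induction n with
    | zero => exact ⟨0, by simp [el_zero]⟩
    | succ n ih =>
      obtain ⟨x, hx⟩ := ih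
      refine ⟨x + a + (n : ZMod p) * u * b, ?_⟩
      rw [pow_succ, hx, el_mul]
      congr 1 <;> push_cast <;> ring
  obtain ⟨x, hx⟩ := hpow p
  rw [ZMod.natCast_self, zero_mul, zero_mul] at hx
  have htau : el x 0 0 = tau x 0 := by
    apply Subtype.ext
    rw [el_coe]; rfl
  rw [sq, pow_mul, hx, htau, trans_exp (tau x 0) ⟨x, 0, rfl⟩]

theorem std_isPGroup : IsPGroup p (Std p) := by
  rintro ⟨_, a, b, u, rfl⟩
  exact ⟨2, Subtype.ext (el_pow_p_pow a b u)⟩

/-- The automorphism of the standard Sylow subgroup exchanging the two root coordinates. -/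
theorem exists_swap : ∃ σ : Std p ≃* Std p, ∀ a b u,
    σ ⟨el a b u, a, b, u, rfl⟩ = ⟨el (u * b - a) (-u) (-b), _, _, _, rfl⟩ := by
  let f : Std p → Std p := fun x =>
    let a := (x : M3 p) 0 2
    let b := (x : M3 p) 1 2
    let u := (x : M3 p) 0 1
    ⟨el (u * b - a) (-u) (-b), _, _, _, rfl⟩
  have hf : ∀ a b u, f ⟨el a b u, a, b, u, rfl⟩ = ⟨el (u * b - a) (-u) (-b), _, _, _, rfl⟩ := by
    intro a b u
    simp [f, el_coe]
  have hff : ∀ x, f (f x) = x := by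
    rintro ⟨_, a, b, u, rfl⟩
    refine Subtype.ext (Subtype.ext ?_)
    simp [f, el_coe]
    ring
  refine ⟨MulEquiv.mk' ⟨f, f, hff, hff⟩ ?_, hf⟩
  rintro ⟨_, a, b, u, rfl⟩ ⟨_, c, d, v, rfl⟩
  show f _ = f _ * f _
  have : (⟨el a b u, a, b, u, rfl⟩ : Std p) * ⟨el c d v, c, d, v, rfl⟩ =
      ⟨el (a + c + u * d) (b + d) (u + v), _, _, _, rfl⟩ := Subtype.ext (el_mul ..)
  rw [this, hf, hf, hf]
  refine Subtype.ext ?_
  show el _ _ _ = el _ _ _ * el _ _ _
  rw [el_mul]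
  congr 1 <;> ring

/-- In the group Qd(p) (p prime; the natural semidirect product of an elementary abelian group of order p² by SL₂(p)), the normalizer of every nontrivial characteristic subgroup of a Sylow p-subgroup S equals the normalizer of S, which is a proper subgroup; in particular no such characteristic subgroup is normal. -/
theorem result {p : ℕ} [Fact p.Prime] (S : Sylow p ↥(Cfsg.qd p)) (T : Subgroup ↥(S : Subgroup ↥(Cfsg.qd p))) (hT : T ≠ ⊥) (hTc : T.Characteristic) : Subgroup.normalizer ((T.map (S : Subgroup ↥(Cfsg.qd p)).subtype : Subgroup ↥(Cfsg.qd p)) : Set ↥(Cfsg.qd p)) = Subgroup.normalizer ((S : Subgroup ↥(Cfsg.qd p)) : Set ↥(Cfsg.qd p)) ∧ Subgroup.normalizer ((S : Subgroup ↥(Cfsg.qd p)) : Set ↥(Cfsg.qd p)) ≠ ⊤ := by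
  classical
  set Sm : Subgroup (M3 p) := (S : Subgroup ↥(Cfsg.qd p)).map (Cfsg.qd p).subtype with hSm
  -- a nonzero translation centralised by `S`
  obtain ⟨a, b, hab, hcen⟩ : ∃ a b : ZMod p, tau a b ≠ 1 ∧ ∀ s ∈ Sm, s * tau a b = tau a b * s := by
    set V := (trans p).subgroupOf (Cfsg.qd p) with hV
    haveI hVn : V.Normal := ⟨fun n hn g => conj_tau_mem g.2 hn⟩
    have hVp : IsPGroup p V := fun ⟨x, hx⟩ => ⟨1, Subtype.ext (Subtype.ext (by rw [pow_one]; exact trans_exp _ hx))⟩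
    have hVS : V ≤ (S : Subgroup ↥(Cfsg.qd p)) :=
      (CfsgLib.Local.le_pCore' hVn hVp).trans (CfsgLib.Local.pCore_le_sylow' S)
    letI : MulAction (S : Subgroup ↥(Cfsg.qd p)) V := MulAction.compHom V
      (V.normalizerMonoidHom.comp (Subgroup.inclusion (le_top.trans (Subgroup.normalizer_eq_top V).ge)))
    have hmod := S.isPGroup'.card_modEq_card_fixedPoints V
    have hcard : Nat.card V = p ^ 2 := by
      rw [hV, Nat.card_congr (Subgroup.subgroupOfEquivOfLe trans_le_qd).toEquiv, card_trans]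
    have hdvd : p ∣ Nat.card (MulAction.fixedPoints (S : Subgroup ↥(Cfsg.qd p)) V) :=
      (Nat.ModEq.dvd_iff hmod dvd_rfl).mp (hcard ▸ dvd_pow_self p two_ne_zero)
    have hone : (1 : V) ∈ MulAction.fixedPoints (S : Subgroup ↥(Cfsg.qd p)) V := fun s =>
      map_one (V.normalizerMonoidHom _)
    haveI : Finite (MulAction.fixedPoints (S : Subgroup ↥(Cfsg.qd p)) V) := inferInstance
    have hpos : 0 < Nat.card (MulAction.fixedPoints (S : Subgroup ↥(Cfsg.qd p)) V) := by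
      haveI : Nonempty (MulAction.fixedPoints (S : Subgroup ↥(Cfsg.qd p)) V) := ⟨⟨1, hone⟩⟩
      exact Nat.card_pos
    haveI := Finite.one_lt_card_iff_nontrivial.mp
      (((Fact.out : p.Prime).one_lt).trans_le (Nat.le_of_dvd hpos hdvd))
    obtain ⟨⟨⟨v, hv⟩, hvfix⟩, hne⟩ := exists_ne (⟨1, hone⟩ : MulAction.fixedPoints (S : Subgroup ↥(Cfsg.qd p)) V)
    obtain ⟨a, b, hvab⟩ := hv
    refine ⟨a, b, fun h => hne ?_, ?_⟩
    · refine Subtype.ext (Subtype.ext (Subtype.ext ?_))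
      show (v : M3 p) = 1
      exact hvab.symm.trans h
    · rintro _ ⟨s, hs, rfl⟩
      have := congrArg (fun w : V => ((w : ↥(Cfsg.qd p)) : M3 p)) (hvfix ⟨s, hs⟩)
      change (s : M3 p) * v * (s : M3 p)⁻¹ = v at this
      rw [hvab]
      exact mul_inv_eq_iff_eq_mul.mp this
  -- move it to `tau 1 0`
  obtain ⟨g, hg, hgab⟩ : ∃ g : M3 p, g ∈ Cfsg.qd p ∧ g * tau 1 0 * g⁻¹ = tau a b := by
    obtain ⟨x, y, hxy⟩ : ∃ x y : ZMod p, a * y - x * b = 1 := by
      by_cases ha : a = 0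
      · have hb : b ≠ 0 := fun hb => hab (by rw [ha, hb, tau_zero])
        exact ⟨-b⁻¹, 0, by rw [mul_zero, zero_sub, neg_mul, neg_neg, inv_mul_cancel₀ hb]⟩
      · exact ⟨0, a⁻¹, by rw [zero_mul, sub_zero, mul_inv_cancel₀ ha]⟩
    let g : M3 p := ⟨!![a, x, 0; b, y, 0; 0, 0, 1], by simp [Matrix.det_fin_three]; exact hxy⟩
    have hg : g ∈ Cfsg.qd p := mem_qd_of_row rfl rfl rfl
    refine ⟨g, hg, ?_⟩
    rw [mul_tau hg, mul_inv_cancel_right]
    simp [g]
  -- the conjugate Sylow subgroup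
  have hsub : ∀ s ∈ Sm, g⁻¹ * s * g ∈ Std p := by
    intro s hs
    have hsq : s ∈ Cfsg.qd p := Subgroup.map_subtype_le _ hs
    have hM : g⁻¹ * s * g ∈ Cfsg.qd p := mul_mem (mul_mem (inv_mem hg) hsq) hg
    have hc : (g⁻¹ * s * g) * tau 1 0 = tau 1 0 * (g⁻¹ * s * g) := by
      have h := hcen s hs
      rw [← hgab] at h
      calc g⁻¹ * s * g * tau 1 0 = g⁻¹ * (s * (g * tau 1 0 * g⁻¹)) * g := by group
        _ = g⁻¹ * ((g * tau 1 0 * g⁻¹) * s) * g := by rw [h]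
        _ = tau 1 0 * (g⁻¹ * s * g) := by group
    generalize g⁻¹ * s * g = M at hM hc
    rw [mul_tau hM, mul_left_inj] at hc
    obtain ⟨e1, e2⟩ := tau_inj hc
    simp only [mul_one, mul_zero, add_zero] at e1 e2
    obtain ⟨r0, r1, r2⟩ := row_of_mem hM
    have hdet := M.2
    rw [Matrix.det_fin_three] at hdet
    simp only [e1, e2, r0, r1, r2, mul_zero, zero_mul, mul_one, one_mul, sub_zero, add_zero] at hdet
    refine ⟨M 0 2, M 1 2, M 0 1, ?_⟩
    apply Subtype.ext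
    rw [el_coe]
    ext i j; fin_cases i <;> fin_cases j <;> simp [e1, e2, r0, r1, r2, hdet]
  have hStdq : Std p ≤ Cfsg.qd p := by
    rintro _ ⟨a, b, u, rfl⟩
    exact mul_mem (tau_mem a b) (em_mem u)
  have hback : ∀ x ∈ Std p, g * x * g⁻¹ ∈ Sm := by
    set P := ((Std p).map (MulAut.conj g).toMonoidHom).subgroupOf (Cfsg.qd p) with hP
    have hPp : IsPGroup p P := ((std_isPGroup (p := p)).map _).comap_of_injective _ (Subgroup.subtype_injective _)
    have hSP : (S : Subgroup ↥(Cfsg.qd p)) ≤ P := fun s hs => by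
      refine Subgroup.mem_subgroupOf.mpr ⟨g⁻¹ * (s : M3 p) * g, hsub _ ⟨s, hs, rfl⟩, ?_⟩
      simp [MulAut.conj_apply, mul_assoc]
    intro x hx
    have hxq : g * x * g⁻¹ ∈ Cfsg.qd p := mul_mem (mul_mem hg (hStdq hx)) (inv_mem hg)
    exact ⟨⟨_, hxq⟩, (S.is_maximal' hPp hSP).le (Subgroup.mem_subgroupOf.mpr ⟨x, hx, rfl⟩), rfl⟩
  -- transfer of `T`
  let Φ : Std p ≃* ↥(S : Subgroup ↥(Cfsg.qd p)) :=
    { toFun := fun x => ⟨⟨g * x * g⁻¹, mul_mem (mul_mem hg (hStdq x.2)) (inv_mem hg)⟩, by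
        obtain ⟨y, hy, he⟩ := hback x x.2
        rwa [show (⟨g * x * g⁻¹, _⟩ : ↥(Cfsg.qd p)) = y from Subtype.ext he.symm]⟩
      invFun := fun s => ⟨g⁻¹ * ((s : ↥(Cfsg.qd p)) : M3 p) * g, hsub _ ⟨s, s.2, rfl⟩⟩
      left_inv := fun x => Subtype.ext (by simp [mul_assoc])
      right_inv := fun s => Subtype.ext (Subtype.ext (by simp [mul_assoc]))
      map_mul' := fun x y => Subtype.ext (Subtype.ext (by simp [mul_assoc])) }
  set T' := T.comap Φ.toMonoidHom with hT'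
  have hTn : T'.Normal := by
    haveI : T.Normal := Subgroup.normal_of_characteristic T
    exact Subgroup.Normal.comap inferInstance _
  have hchar : ∀ e : Std p ≃* Std p, ∀ x ∈ T', e x ∈ T' := by
    intro e x hx
    have h := (Subgroup.characteristic_iff_map_eq.mp hTc ((Φ.symm.trans e).trans Φ)).le ⟨Φ x, hx, rfl⟩
    show Φ (e x) ∈ T
    simpa using h
  have hne : T' ≠ ⊥ := by
    intro h
    apply hT
    rw [eq_bot_iff]
    intro t ht
    have : Φ.symm t ∈ T' := by show Φ (Φ.symm t) ∈ T; rwa [MulEquiv.apply_symm_apply]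
    rw [h, Subgroup.mem_bot] at this
    exact Subgroup.mem_bot.mpr (by simpa using congrArg Φ this)
  -- an element of `T'` outside the translations is detected
  have key : ∀ M : M3 p, M ∈ Cfsg.qd p → (∀ x : Std p, x ∈ T' → ∃ y : Std p, y ∈ T' ∧ M * x * M⁻¹ = y) →
      M 1 0 = 0 := by
    intro M hM hMT
    by_contra hc
    obtain ⟨r0, r1, r2⟩ := row_of_mem hM
    obtain ⟨j0, j1, j2⟩ := row_of_mem (inv_mem hM)
    have hI : ∀ i j, ((M * M⁻¹ : M3 p) : Matrix (Fin 3) (Fin 3) (ZMod p)) i j = (1 : Matrix (Fin 3) (Fin 3) (ZMod p)) i j := by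
      intro i j; rw [mul_inv_cancel]; rfl
    have hu : ∀ a b u : ZMod p, (⟨el a b u, a, b, u, rfl⟩ : Std p) ∈ T' → u = 0 := by
      intro a b u h
      obtain ⟨⟨_, a', b', u', rfl⟩, -, he⟩ := hMT _ h
      have he' : M * el a b u = el a' b' u' * M := mul_inv_eq_iff_eq_mul.mp he
      have h10 := congrArg (fun N : M3 p => N 1 1) he'
      simp [el_coe, Matrix.mul_apply, Fin.sum_univ_three, r0, r1, r2] at h10
      -- `M 1 0 * u = 0`
      rcases h10 with h | h
      · exact absurd h hc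
      · exact h
    have hcenter : ∃ x : ZMod p, x ≠ 0 ∧ (⟨el x 0 0, x, 0, 0, rfl⟩ : Std p) ∈ T' := by
      obtain ⟨⟨⟨_, a, b, u, rfl⟩, ht⟩, hne1⟩ := Subgroup.ne_bot_iff_exists_ne_one.mp hne
      obtain rfl := hu a b u ht
      by_cases hb : b = 0
      · subst hb
        refine ⟨a, fun ha => hne1 ?_, ht⟩
        subst ha
        exact Subtype.ext (Subtype.ext el_zero)
      · refine ⟨b, hb, ?_⟩
        have h1 := mul_mem (hTn.conj_mem _ ht ⟨el 0 0 1, 0, 0, 1, rfl⟩) (inv_mem ht)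
        convert h1 using 1
        refine Subtype.ext ?_
        show el b 0 0 = el 0 0 1 * el a b 0 * (el 0 0 1)⁻¹ * (el a b 0)⁻¹
        rw [eq_mul_inv_iff_mul_eq, eq_mul_inv_iff_mul_eq, el_mul, el_mul, el_mul]
        congr 1 <;> ring
    obtain ⟨x, hx, hxT⟩ := hcenter
    obtain ⟨⟨_, a', b', u', rfl⟩, hy, he⟩ := hMT _ hxT
    have htau : el x 0 0 = tau x 0 := Subtype.ext (el_coe x 0 0)
    rw [show ((⟨el x 0 0, x, 0, 0, rfl⟩ : Std p) : M3 p) = tau x 0 from htau, mul_tau hM,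
      mul_inv_cancel_right] at he
    have he' := congrArg Subtype.val he
    simp only [el_coe, tau_coe] at he'
    have hb' : M 1 0 * x = b' := by simpa using congrFun (congrFun he' 1) 2
    obtain rfl : u' = 0 := hu _ _ _ hy
    obtain ⟨σ, hσ⟩ := exists_swap (p := p)
    have h2 := hchar σ _ hy
    rw [hσ] at h2
    have := hu _ _ _ h2
    rw [neg_eq_zero] at this
    exact mul_ne_zero hc hx (hb'.trans this)
  -- assemble
  set Nm := Subgroup.normalizer ((T.map (S : Subgroup ↥(Cfsg.qd p)).subtype : Subgroup ↥(Cfsg.qd p)) : Set ↥(Cfsg.qd p))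
  set NS := Subgroup.normalizer ((S : Subgroup ↥(Cfsg.qd p)) : Set ↥(Cfsg.qd p))
  let g' : ↥(Cfsg.qd p) := ⟨g, hg⟩
  have hle2 : NS ≤ Nm := by
    refine CfsgLib.Core.le_normalizer_iff_forall.mpr fun n hn v hv => ?_
    obtain ⟨x, hx, rfl⟩ := hv
    let e : MulAut ↥(S : Subgroup ↥(Cfsg.qd p)) := (S : Subgroup ↥(Cfsg.qd p)).normalizerMonoidHom ⟨n, hn⟩
    exact ⟨e x, (Subgroup.characteristic_iff_map_eq.mp hTc e).le ⟨x, hx, rfl⟩, rfl⟩
  have hconj : ∀ n ∈ Nm, (g⁻¹ * (n : M3 p) * g) 1 0 = 0 := by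
    intro n hn
    refine key _ (mul_mem (mul_mem (inv_mem hg) n.2) hg) fun x hx => ?_
    obtain ⟨w, hw, he⟩ := (Subgroup.mem_normalizer_iff.mp hn _).mp ⟨Φ x, hx, rfl⟩
    refine ⟨Φ.symm w, by show Φ (Φ.symm w) ∈ T; rwa [MulEquiv.apply_symm_apply], ?_⟩
    have he' := congrArg Subtype.val he
    show g⁻¹ * (n : M3 p) * g * x * (g⁻¹ * (n : M3 p) * g)⁻¹ = g⁻¹ * ((w : ↥(Cfsg.qd p)) : M3 p) * g
    rw [show ((w : ↥(Cfsg.qd p)) : M3 p) = (n : M3 p) * (g * x * g⁻¹) * (n : M3 p)⁻¹ from he']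
    group
  have hle1 : Nm ≤ NS := by
    refine CfsgLib.Core.le_normalizer_iff_forall.mpr fun n hn s hs => ?_
    set M := g⁻¹ * (n : M3 p) * g with hMdef
    have hM : M ∈ Cfsg.qd p := mul_mem (mul_mem (inv_mem hg) n.2) hg
    have h10 : M 1 0 = 0 := hconj n hn
    obtain ⟨a, b, u, hx⟩ := hsub _ ⟨s, hs, rfl⟩
    clear_value M
    have hmem : M * el a b u * M⁻¹ ∈ Std p := by
      obtain ⟨r0, r1, r2⟩ := row_of_mem hM
      have hdet := M.2
      rw [Matrix.det_fin_three] at hdet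
      simp only [h10, r0, r1, r2, mul_zero, zero_mul, mul_one, sub_zero, add_zero] at hdet
      have h00 : M 0 0 ≠ 0 := fun h => by rw [h, zero_mul] at hdet; exact zero_ne_one hdet
      have h11 : M 1 1 ≠ 0 := fun h => by rw [h, mul_zero] at hdet; exact zero_ne_one hdet
      refine ⟨M 0 0 * a + M 0 1 * b + M 0 2 - M 0 0 * u * (M 1 1)⁻¹ * M 1 2 - M 0 2, M 1 1 * b,
        M 0 0 * u * (M 1 1)⁻¹, ?_⟩
      rw [eq_mul_inv_iff_mul_eq]
      apply Subtype.ext
      simp only [Matrix.SpecialLinearGroup.coe_mul, el_coe]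
      ext i j; fin_cases i <;> fin_cases j <;>
        simp [Matrix.mul_apply, Fin.sum_univ_three, h10, r0, r1, r2] <;> field_simp <;> ring
    obtain ⟨y, hy, he⟩ := hback _ hmem
    rwa [show n * s * n⁻¹ = y from Subtype.ext (by
      rw [show ((y : ↥(Cfsg.qd p)) : M3 p) = g * (M * el a b u * M⁻¹) * g⁻¹ from he, hMdef, hx]
      simp [mul_assoc])]
  refine ⟨le_antisymm hle1 hle2, fun htop => ?_⟩
  let f : ↥(Cfsg.qd p) := ⟨g * fm 1 * g⁻¹, mul_mem (mul_mem hg (fm_mem 1)) (inv_mem hg)⟩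
  have h := hconj f (hle2 (htop ▸ Subgroup.mem_top f))
  have : g⁻¹ * ((f : ↥(Cfsg.qd p)) : M3 p) * g = fm 1 := by simp [f, mul_assoc]
  rw [this] at h
  simp at h

end Cfsg.Agent.S2763
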