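import Cfsg.Statements.S2896
import Cfsg.Agent.Lib.LocalComponent
import Cfsg.Agent.Lib.CorePGroup

set_option autoImplicit false
open Cfsg

namespace Cfsg.Agent.S2896

/-- Let p be a prime dividing the order of the finite group G, S a Sylow p-subgroup of G and X a subgroup of S. (i) If some nontrivial element z of the centre of X has F*(C_G(z)) = O_p(C_G(z)), then F*(N_G(X)) = O_p(N_G(X)). (ii) G has parabolic characteristic p if and only if F*(C_G(z)) = O_p(C_G(z)) for every nontrivial z ∈ Ω₁(Z(S)). (iii) If F*(C_G(z)) = O_p(C_G(z)) for every element z of S of order p, then G has local characteristic p. -/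
theorem result {G : Type*} [Group G] [Finite G] {p : ℕ} [Fact p.Prime] (hdiv : p ∣ Nat.card G) (S : Sylow p G) (X : Subgroup G) (hX : X ≤ (S : Subgroup G)) : (∀ z : G, z ≠ 1 → z ∈ X → (∀ x ∈ X, x * z = z * x) → Cfsg.generalizedFittingSubgroup ↥(Subgroup.centralizer ({z} : Set G)) = Cfsg.pCore p ↥(Subgroup.centralizer ({z} : Set G)) → Cfsg.generalizedFittingSubgroup ↥(Subgroup.normalizer (X : Set G)) = Cfsg.pCore p ↥(Subgroup.normalizer (X : Set G))) ∧ (Cfsg.IsOfParabolicCharacteristic p G ↔ ∀ z : G, z ≠ 1 → z ∈ Cfsg.omegaOne p ((S : Subgroup G) ⊓ Subgroup.centralizer ((S : Subgroup G) : Set G)) → Cfsg.generalizedFittingSubgroup ↥(Subgroup.centralizer ({z} : Set G)) = Cfsg.pCore p ↥(Subgroup.centralizer ({z} : Set G))) ∧ ((∀ z : G, z ∈ (S : Subgroup G) → orderOf z = p → Cfsg.generalizedFittingSubgroup ↥(Subgroup.centralizer ({z} : Set G)) = Cfsg.pCore p ↥(Subgroup.centralizer ({z} : Set G))) → Cfsg.IsOfLocalCharacteristic p G) := by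
  refine ⟨?_, ⟨?_, ?_⟩, ?_⟩
  · intro z _ hzX hzc hC
    exact CfsgLib.Local.Comp.charP_normalizer_of_between (S.isPGroup'.to_le hX)
      (fun x hx => Subgroup.mem_centralizer_singleton_iff.mpr (hzc x hx))
      (Subgroup.centralizer_le (Set.singleton_subset_iff.mpr hzX)) hC
  · intro hpar z hz1 hz
    have hle : Cfsg.omegaOne p ((S : Subgroup G) ⊓ Subgroup.centralizer ((S : Subgroup G) : Set G)) ≤
        (S : Subgroup G) ⊓ Subgroup.centralizer ((S : Subgroup G) : Set G) :=
      (Subgroup.closure_le _).mpr fun x hx => hx.1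
    obtain ⟨hzS, hzC⟩ := Subgroup.mem_inf.mp (hle hz)
    set R := Subgroup.zpowers z with hR
    have hRS : R ≤ (S : Subgroup G) := Subgroup.zpowers_le.mpr hzS
    have hRp : IsPGroup p ↥R := S.isPGroup'.to_le hRS
    have hR1 : R ≠ ⊥ := fun h => hz1 (Subgroup.zpowers_eq_bot.mp h)
    have hSN : (S : Subgroup G) ≤ Subgroup.normalizer (R : Set G) :=
      (Subgroup.le_centralizer_iff.mp (Subgroup.zpowers_le.mpr hzC)).trans
        (Subgroup.centralizer_le_normalizer _)
    have hN := (CfsgLib.Local.Comp.charP_iff_centralizer p).mpr (hpar R hRp hR1 ⟨S, hSN⟩)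
    have hCeq : Subgroup.centralizer ({z} : Set G) = Subgroup.centralizer (R : Set G) := by
      rw [hR, Subgroup.zpowers_eq_closure, Subgroup.centralizer_closure]
    have hn : ((Subgroup.centralizer (R : Set G)).subgroupOf
        (Subgroup.normalizer (R : Set G))).Normal :=
      Subgroup.normal_subgroupOf_centralizer_normalizer (s := (R : Set G))
    exact CfsgLib.Local.Comp.charP_congr p
      ((Subgroup.subgroupOfEquivOfLe (Subgroup.centralizer_le_normalizer (R : Set G))).trans
        (MulEquiv.subgroupCongr hCeq.symm))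
      (CfsgLib.Local.Comp.charP_of_isSubnormal hn.isSubnormal hN)
  · intro h R hR hR1 hpar
    rw [← CfsgLib.Local.Comp.charP_iff_centralizer]
    obtain ⟨T, hT⟩ := hpar
    set N := Subgroup.normalizer (R : Set G) with hN
    have hRN : R ≤ N := Subgroup.le_normalizer
    haveI hRn : (R.subgroupOf N).Normal :=
      (Subgroup.normal_subgroupOf_iff_le_normalizer hRN).mpr le_rfl
    have hRT : R ≤ (T : Subgroup G) := by
      intro r hr
      have h1 : R.subgroupOf N ≤ (T.subtype hT : Subgroup ↥N) :=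
        (CfsgLib.Core.le_pCore hRn hR.comap_subtype).trans (CfsgLib.Core.pCore_le_sylow _)
      have h2 := h1 (Subgroup.mem_subgroupOf.mpr hr : (⟨r, hRN hr⟩ : ↥N) ∈ R.subgroupOf N)
      rwa [Sylow.coe_subtype, Subgroup.mem_subgroupOf] at h2
    haveI : Nontrivial ↥(R.subgroupOf (T : Subgroup G)) :=
      (Subgroup.nontrivial_iff_ne_bot _).mpr fun h0 => hR1 (by
        have := congrArg (Subgroup.map (T : Subgroup G).subtype) h0
        rwa [Subgroup.map_subgroupOf_eq_of_le hRT, Subgroup.map_bot] at this)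
    have hn' : (R.subgroupOf (T : Subgroup G)).Normal :=
      (Subgroup.normal_subgroupOf_iff_le_normalizer hRT).mpr hT
    haveI := hn'
    haveI : Group.IsNilpotent ↥(T : Subgroup G) := T.isPGroup'.isNilpotent
    have hmeet : R.subgroupOf (T : Subgroup G) ⊓ Subgroup.center ↥(T : Subgroup G) ≠ ⊥ :=
      CfsgLib.Core.nilpotent_inf_center_ne_bot ((Subgroup.nontrivial_iff_ne_bot _).mp ‹_›)
    obtain ⟨k, hk⟩ := IsPGroup.iff_card.mp
      (T.isPGroup'.to_subgroup (R.subgroupOf (T : Subgroup G) ⊓ Subgroup.center ↥(T : Subgroup G)))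
    haveI := (Subgroup.nontrivial_iff_ne_bot _).mpr hmeet
    have hk0 : k ≠ 0 := fun h0 => by
      have := Finite.one_lt_card
        (α := ↥(R.subgroupOf (T : Subgroup G) ⊓ Subgroup.center ↥(T : Subgroup G)))
      rw [hk, h0, pow_zero] at this; omega
    obtain ⟨⟨z, hzm⟩, hz⟩ := exists_prime_orderOf_dvd_card'
      (G := ↥(R.subgroupOf (T : Subgroup G) ⊓ Subgroup.center ↥(T : Subgroup G))) p
      (hk ▸ dvd_pow_self p hk0)
    obtain ⟨hzR, hzZ⟩ := Subgroup.mem_inf.mp hzm
    obtain ⟨g, hg⟩ := MulAction.exists_smul_eq G T S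
    have hgS : ∀ x, x ∈ (S : Subgroup G) ↔ g⁻¹ * x * g ∈ (T : Subgroup G) := fun x => by
      rw [← hg, Sylow.coe_subgroup_smul, CfsgLib.Core.mem_conj_smul]
    have hord : orderOf (z : G) = p := by
      rw [Subgroup.orderOf_coe]
      rw [← Subgroup.orderOf_coe] at hz
      exact hz
    set z' := g * (z : G) * g⁻¹ with hz'
    have hz'1 : z' ≠ 1 := fun h0 => by
      have : (z : G) = 1 := by
        have := congrArg (fun x => g⁻¹ * x * g) h0
        simpa [hz', mul_assoc] using this
      rw [this, orderOf_one] at hord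
      exact (Fact.out : p.Prime).one_lt.ne hord
    have hz'mem : z' ∈ Cfsg.omegaOne p
        ((S : Subgroup G) ⊓ Subgroup.centralizer ((S : Subgroup G) : Set G)) := by
      refine Subgroup.subset_closure ⟨Subgroup.mem_inf.mpr ⟨?_, ?_⟩, ?_⟩
      · rw [hgS]; simp [hz', mul_assoc]
      · rw [Subgroup.mem_centralizer_iff]
        intro s hs
        have hc : g⁻¹ * s * g * (z : G) = (z : G) * (g⁻¹ * s * g) := congrArg Subtype.val
          (Subgroup.mem_center_iff.mp hzZ ⟨_, (hgS s).mp hs⟩)
        calc s * z' = g * (g⁻¹ * s * g * (z : G)) * g⁻¹ := by rw [hz']; group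
          _ = g * ((z : G) * (g⁻¹ * s * g)) * g⁻¹ := by rw [hc]
          _ = z' * s := by rw [hz']; group
      · rw [hz', conj_pow, orderOf_dvd_iff_pow_eq_one.mp hord.dvd, mul_one, mul_inv_cancel]
    have hC : Cfsg.generalizedFittingSubgroup ↥(Subgroup.centralizer ({(z : G)} : Set G)) =
        Cfsg.pCore p ↥(Subgroup.centralizer ({(z : G)} : Set G)) := by
      have := CfsgLib.Local.Comp.charP_centralizer_conj g⁻¹ z' (h z' hz'1 hz'mem)
      have he : g⁻¹ * z' * g⁻¹⁻¹ = (z : G) := by rw [hz']; group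
      rwa [he] at this
    refine CfsgLib.Local.Comp.charP_normalizer_of_between hR (fun x hx => ?_)
      (Subgroup.centralizer_le (Set.singleton_subset_iff.mpr (Subgroup.mem_subgroupOf.mp hzR))) hC
    rw [Subgroup.mem_centralizer_singleton_iff]
    exact congrArg Subtype.val (Subgroup.mem_center_iff.mp hzZ ⟨x, hRT hx⟩)
  · intro h
    refine ⟨hdiv, fun T hT hT1 => (CfsgLib.Local.Comp.charP_iff_centralizer p).mp
      (CfsgLib.Local.Comp.charP_local_of_centralizers (fun t ht => ?_) hT hT1)⟩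
    have hp' : IsPGroup p ↥(Subgroup.zpowers t) := by
      refine IsPGroup.of_card (n := 1) ?_
      rw [Nat.card_zpowers, ht, pow_one]
    obtain ⟨T', hT'⟩ := hp'.exists_le_sylow
    obtain ⟨g, hg⟩ := MulAction.exists_smul_eq G T' S
    have hmem : g * t * g⁻¹ ∈ (S : Subgroup G) := by
      rw [← hg, Sylow.coe_subgroup_smul, CfsgLib.Core.mem_conj_smul]
      simpa [mul_assoc] using hT' (Subgroup.mem_zpowers t)
    have hord : orderOf (g * t * g⁻¹) = p := by
      rw [show g * t * g⁻¹ = (MulAut.conj g).toMonoidHom t from rfl,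
        orderOf_injective (MulAut.conj g).toMonoidHom (MulAut.conj g).injective, ht]
    have := CfsgLib.Local.Comp.charP_centralizer_conj g⁻¹ _ (h _ hmem hord)
    have he : g⁻¹ * (g * t * g⁻¹) * g⁻¹⁻¹ = t := by group
    rwa [he] at this

end Cfsg.Agent.S2896
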