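import Cfsg.Statements.S2898
import Cfsg.Agent.Lib.LocalCharP

set_option autoImplicit false
open Cfsg

namespace Cfsg.Agent.S2898

/-- Let G be a finite group of even order with parabolic characteristic 2. If the centre of G ⧸ O(G) is trivial, then O(G) = 1. -/
theorem result {G : Type*} [Group G] [Finite G] (h2 : 2 ∣ Nat.card G) (hG : Cfsg.IsOfParabolicCharacteristic 2 G) [hN : (Cfsg.oddCore G).Normal] (hZ : Subgroup.center (G ⧸ Cfsg.oddCore G) = ⊥) : Cfsg.oddCore G = ⊥ := by
  haveI : Fact (Nat.Prime 2) := ⟨Nat.prime_two⟩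
  by_contra hne
  set O := Cfsg.oddCore G with hO
  have hOodd : (Nat.card ↥O).Coprime 2 := CfsgLib.Core.coprime_card_pPrimeCore 2
  obtain ⟨S⟩ := (inferInstance : Nonempty (Sylow 2 G))
  have hS1 : (S : Subgroup G) ≠ ⊥ := S.ne_bot_of_dvd_card h2
  -- a central involution of `S` acts fixed-point-freely on `O`
  have hfix : ∀ z : G, z ≠ 1 → z ∈ (S : Subgroup G) →
      z ∈ Subgroup.centralizer ((S : Subgroup G) : Set G) → ∀ x ∈ O, z * x = x * z → x = 1 := by
    intro z hz1 hzS hzC x hx hzx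
    set C := Subgroup.centralizer ({z} : Set G) with hC
    have hP := CfsgLib.Local.CharP.parabolic_centralizer hG S hz1 hzS hzC
    have hn : (O.subgroupOf C).Normal := hN.subgroupOf C
    have hle : O.subgroupOf C ≤ Cfsg.pPrimeCore 2 ↥C := by
      refine CfsgLib.Core.le_pPrimeCore hn (Nat.Coprime.coprime_dvd_left ?_ hOodd)
      exact Subgroup.card_comap_dvd_of_injective O C.subtype C.subtype_injective
    haveI := CfsgLib.Core.normal_pPrimeCore (G := ↥C) 2
    haveI := CfsgLib.Core.normal_pCore (G := ↥C) 2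
    have hcent : Cfsg.pPrimeCore 2 ↥C ≤ Cfsg.pCore 2 ↥C := by
      refine le_trans (fun y hy => ?_) ((CfsgLib.Local.Comp.charP_iff_centralizer 2).mp hP)
      rw [Subgroup.mem_centralizer_iff]
      intro s hs
      exact Subgroup.commute_of_normal_of_disjoint _ _ inferInstance inferInstance
        (disjoint_iff.mpr (CfsgLib.Core.pCore_inf_pPrimeCore 2)) s y hs hy
    have hbot : Cfsg.pPrimeCore 2 ↥C ≤ ⊥ := by
      rw [← CfsgLib.Core.pCore_inf_pPrimeCore (G := ↥C) 2]
      exact le_inf hcent le_rfl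
    have hxC : x ∈ C := Subgroup.mem_centralizer_singleton_iff.mpr hzx.symm
    exact congrArg Subtype.val (Subgroup.mem_bot.mp
      (hbot (hle (Subgroup.mem_subgroupOf.mpr hx : (⟨x, hxC⟩ : ↥C) ∈ O.subgroupOf C))))
  -- pick an involution `z` in `Z(S)`
  haveI : Nontrivial ↥(S : Subgroup G) := (Subgroup.nontrivial_iff_ne_bot _).mpr hS1
  haveI := S.isPGroup'.center_nontrivial
  obtain ⟨k, hk⟩ := IsPGroup.iff_card.mp
    (S.isPGroup'.to_subgroup (Subgroup.center ↥(S : Subgroup G)))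
  have hk0 : k ≠ 0 := fun h0 => by
    have := Finite.one_lt_card (α := ↥(Subgroup.center ↥(S : Subgroup G)))
    rw [hk, h0, pow_zero] at this; omega
  obtain ⟨z', hz'⟩ := exists_prime_orderOf_dvd_card' (G := ↥(Subgroup.center ↥(S : Subgroup G))) 2
    (hk ▸ dvd_pow_self 2 hk0)
  set z : G := ((z' : ↥(S : Subgroup G)) : G) with hzdef
  have hord : orderOf z = 2 := by rw [hzdef, Subgroup.orderOf_coe, Subgroup.orderOf_coe, hz']
  have hz1 : z ≠ 1 := fun h => by rw [h, orderOf_one] at hord; omega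
  have hzS : z ∈ (S : Subgroup G) := (z' : ↥(S : Subgroup G)).2
  have hzC : z ∈ Subgroup.centralizer ((S : Subgroup G) : Set G) := by
    rw [Subgroup.mem_centralizer_iff]
    intro s hs
    exact congrArg Subtype.val (Subgroup.mem_center_iff.mp z'.2 ⟨s, hs⟩)
  have hz2 : z * z = 1 := by rw [← pow_two]; exact orderOf_dvd_iff_pow_eq_one.mp hord.dvd
  -- it inverts `O`
  have hinv : ∀ y ∈ O, z * y * z⁻¹ = y⁻¹ := by
    let f : ↥O → ↥O := fun x => ⟨(x : G)⁻¹ * (z * x * z⁻¹),
      mul_mem (inv_mem x.2) (hN.conj_mem x x.2 z)⟩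
    have hf : Function.Injective f := by
      intro a b hab
      have h1 : (a : G)⁻¹ * (z * a * z⁻¹) = (b : G)⁻¹ * (z * b * z⁻¹) := congrArg Subtype.val hab
      have h3 : z * ((b : G) * (a : G)⁻¹) = ((b : G) * (a : G)⁻¹) * z := by
        have h4 : (b : G) * (a : G)⁻¹ * (z * a * z⁻¹) = z * b * z⁻¹ := by
          rw [mul_assoc, h1]; group
        calc z * ((b : G) * (a : G)⁻¹) = (z * b * z⁻¹) * (z * (a : G)⁻¹) := by group
          _ = ((b : G) * (a : G)⁻¹ * (z * a * z⁻¹)) * (z * (a : G)⁻¹) := by rw [h4]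
          _ = (b : G) * (a : G)⁻¹ * z := by group
      have := hfix z hz1 hzS hzC _ (mul_mem b.2 (inv_mem a.2)) h3
      exact Subtype.ext (mul_inv_eq_one.mp this).symm
    intro y hy
    obtain ⟨x, hx⟩ := Finite.surjective_of_injective hf ⟨y, hy⟩
    have hxy : (x : G)⁻¹ * (z * x * z⁻¹) = y := congrArg Subtype.val hx
    have hzi : z⁻¹ = z := inv_eq_of_mul_eq_one_right hz2
    rw [← hxy]
    calc z * ((x : G)⁻¹ * (z * x * z⁻¹)) * z⁻¹
        = z * (x : G)⁻¹ * z * x * (z⁻¹ * z⁻¹) := by group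
      _ = z * (x : G)⁻¹ * z⁻¹ * x := by rw [hzi, hz2, mul_one]
      _ = ((x : G)⁻¹ * (z * x * z⁻¹))⁻¹ := by group
  -- `C_G(O) ≤ O`
  set D := Subgroup.centralizer (O : Set G) with hD
  haveI hDn : D.Normal := inferInstanceAs (Subgroup.centralizer (O : Set G)).Normal
  have hDle : D ≤ O := by
    obtain ⟨Q, hQ⟩ := CfsgLib.Local.CharP.exists_sylow_subnormal S hDn.isSubnormal
    have hQ1 : (Q : Subgroup ↥D) = ⊥ := by
      rw [hQ]
      by_contra hne1
      haveI : Group.IsNilpotent ↥(S : Subgroup G) := S.isPGroup'.isNilpotent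
      haveI : (D.subgroupOf (S : Subgroup G)).Normal := hDn.subgroupOf _
      have h1 : D.subgroupOf (S : Subgroup G) ≠ ⊥ := fun h => hne1 (by
        rw [Subgroup.subgroupOf_eq_bot] at h ⊢
        exact h.symm)
      obtain ⟨⟨w, hw⟩, hw1'⟩ := Subgroup.ne_bot_iff_exists_ne_one.mp
        (CfsgLib.Core.nilpotent_inf_center_ne_bot h1)
      obtain ⟨⟨hwD, hwZ⟩, -⟩ := And.intro (Subgroup.mem_inf.mp hw) trivial
      have hw1 : (w : G) ≠ 1 := fun h => hw1' (Subtype.ext (Subtype.ext h))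
      have hwC : (w : G) ∈ Subgroup.centralizer ((S : Subgroup G) : Set G) := by
        rw [Subgroup.mem_centralizer_iff]
        intro s hs
        exact congrArg Subtype.val (Subgroup.mem_center_iff.mp hwZ ⟨s, hs⟩)
      obtain ⟨⟨x, hx⟩, hx1⟩ := Subgroup.ne_bot_iff_exists_ne_one.mp hne
      refine hx1 (Subtype.ext ?_)
      exact (hfix w hw1 w.2 hwC x hx
        (Subgroup.mem_centralizer_iff.mp (Subgroup.mem_subgroupOf.mp hwD) x hx).symm)
    refine le_sSup ⟨hDn, ?_⟩
    exact (Nat.prime_two.coprime_iff_not_dvd.mpr fun hd => Q.ne_bot_of_dvd_card hd hQ1).symm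
  -- so `z` is central modulo `O`
  have hzO : z ∈ O := by
    have hmem : QuotientGroup.mk' O z ∈ Subgroup.center (G ⧸ O) := by
      rw [Subgroup.mem_center_iff]
      intro q
      obtain ⟨g, rfl⟩ := QuotientGroup.mk'_surjective O q
      rw [← map_mul, ← map_mul, QuotientGroup.mk'_apply, QuotientGroup.mk'_apply, QuotientGroup.eq]
      refine hDle ?_
      rw [hD, Subgroup.mem_centralizer_iff]
      intro y hy
      have hzi : z⁻¹ = z := inv_eq_of_mul_eq_one_right hz2
      set u := g * y * g⁻¹ with hu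
      have h1 := hinv y hy
      have h2' := hinv u (hN.conj_mem y hy g)
      have h3 : ((g * z)⁻¹ * (z * g)) * y * ((g * z)⁻¹ * (z * g))⁻¹ = y := by
        calc ((g * z)⁻¹ * (z * g)) * y * ((g * z)⁻¹ * (z * g))⁻¹
            = z⁻¹ * (g⁻¹ * (z * u * z⁻¹) * g) * z := by rw [hu]; group
          _ = z⁻¹ * (g⁻¹ * u⁻¹ * g) * z := by rw [h2']
          _ = z * y⁻¹ * z⁻¹ := by rw [hu, hzi]; group
          _ = (z * y * z⁻¹)⁻¹ := by group
          _ = y := by rw [h1, inv_inv]
      exact (mul_inv_eq_iff_eq_mul.mp h3).symm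
    rw [hZ, Subgroup.mem_bot] at hmem
    exact (QuotientGroup.eq_one_iff z).mp hmem
  have hd : orderOf z ∣ Nat.card ↥O := by
    rw [← Subgroup.orderOf_mk z hzO]
    exact orderOf_dvd_natCard _
  rw [hord] at hd
  exact (Nat.prime_two.coprime_iff_not_dvd.mp hOodd.symm) hd

end Cfsg.Agent.S2898
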