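import Cfsg.Statements.S2905
import Cfsg.Agent.Lib.CoreSubnormal
import Cfsg.Agent.Lib.FgsSylowProduct
import Cfsg.Agent.Lib.LocalPIrreducible
import Cfsg.Agent.Lib.LocalSylowJoin

set_option autoImplicit false
open Cfsg
open scoped Pointwise

namespace Cfsg.Agent.S2905

/-- Let P be a finite p-minimal group (a Sylow p-subgroup S is not normal and lies in a unique maximal subgroup M of P) and let F be the normal core of M. Then: every subnormal subgroup N of P contained in M satisfies N ∩ S ≤ O_p(P); if O^p(P) has a normal Sylow p-subgroup then the order of P has at most two prime divisors; every normal subgroup N of P either contains O^p(P) or is contained in F; and O^p(P)F ⧸ F is a minimal normal subgroup of P ⧸ F. -/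
theorem result {P : Type*} [Group P] [Finite P] {p : ℕ} [Fact p.Prime] (hP : Cfsg.IsPMinimal p P) (S : Sylow p P) (M : Subgroup P) (hM : IsCoatom M) (hSM : (S : Subgroup P) ≤ M) [hF : M.normalCore.Normal] : (∀ N : Subgroup P, N.IsSubnormal → N ≤ M → N ⊓ (S : Subgroup P) ≤ Cfsg.pCore p P) ∧ ((∀ T : Sylow p ↥(Cfsg.pResidual p P), (T : Subgroup ↥(Cfsg.pResidual p P)).Normal) → (Nat.card P).primeFactors.card ≤ 2) ∧ (∀ N : Subgroup P, N.Normal → Cfsg.pResidual p P ≤ N ∨ N ≤ M.normalCore) ∧ (∀ N : Subgroup P, N.Normal → M.normalCore ≤ N → N ≤ Cfsg.pResidual p P ⊔ M.normalCore → N = M.normalCore ∨ N = Cfsg.pResidual p P ⊔ M.normalCore) ∧ M.normalCore < Cfsg.pResidual p P ⊔ M.normalCore := by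
  set F := M.normalCore with hFdef
  set X := Cfsg.pResidual p P with hXdef
  haveI hXn : X.Normal := CfsgLib.Local.pResidual_normal' p P
  have huniq : ∀ Y : Subgroup P, (S : Subgroup P) ≤ Y → Y ≠ ⊤ → Y ≤ M := by
    intro Y hSY hY
    obtain ⟨M', hM', hle⟩ := (eq_top_or_exists_le_coatom Y).resolve_left hY
    rwa [← (hP S).2.unique ⟨hM', hSY.trans hle⟩ ⟨hM, hSM⟩]
  have hSX : (S : Subgroup P) ⊔ X = ⊤ := CfsgLib.Local.PIrr.sup_pResidual S
  have hFM : F ≤ M := Subgroup.normalCore_le M
  have hXM : ¬ X ≤ M := fun h => hM.1 (top_le_iff.mp (hSX ▸ sup_le hSM h))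
  -- the Sylow intersection with the core is normal
  have hSF : (S : Subgroup P) ⊓ F ≤ Cfsg.pCore p P := by
    obtain ⟨Q, hQ⟩ := CfsgLib.SylowProd.sylow_inf_normal F S
    have hfr := Sylow.normalizer_sup_eq_top Q
    rw [hQ, Subgroup.map_subgroupOf_eq_of_le inf_le_right] at hfr
    have hSN : (S : Subgroup P) ≤ Subgroup.normalizer (((S : Subgroup P) ⊓ F : Subgroup P) : Set P) :=
      CfsgLib.Core.le_normalizer_inf Subgroup.le_normalizer
        (by rw [Subgroup.normalizer_eq_top]; exact le_top)
    have htop : Subgroup.normalizer (((S : Subgroup P) ⊓ F : Subgroup P) : Set P) = ⊤ := by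
      by_contra hne
      exact hM.1 (top_le_iff.mp (hfr ▸ sup_le (huniq _ hSN hne) hFM))
    exact CfsgLib.Local.le_pCore' (Subgroup.normalizer_eq_top_iff.mp htop)
      (S.isPGroup'.to_le inf_le_left)
  have h3 : ∀ N : Subgroup P, N.Normal → X ≤ N ∨ N ≤ F := by
    intro N hN
    by_cases hNM : N ≤ M
    · exact Or.inr ((Subgroup.normal_le_normalCore (hN := hN)).mpr hNM)
    · refine Or.inl (CfsgLib.Local.PIrr.pResidual_le hN S.isPGroup' ?_)
      by_contra hne
      exact hNM (le_sup_right.trans (huniq _ le_sup_left hne))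
  refine ⟨fun N hN hNM => le_trans ?_ hSF, ?_, h3, ?_, ?_⟩
  · exact le_inf inf_le_right (inf_le_left.trans (CfsgLib.Core.le_normalCore_of_isSubnormal hM hN hNM))
  · intro hT
    obtain ⟨T⟩ := (inferInstance : Nonempty (Sylow p ↥X))
    haveI := hT T
    haveI : (T : Subgroup ↥X).Characteristic := Sylow.characteristic_of_normal T (hT T)
    set P0 := (T : Subgroup ↥X).map X.subtype with hP0
    haveI hP0n : P0.Normal := inferInstance
    -- some `Q` gives everything together with `S`
    have hex : ∃ q : ℕ, ∃ Q : Subgroup P, q.Prime ∧ IsPGroup q ↥Q ∧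
        ∃ S' : Sylow p P, (S' : Subgroup P) ≤ Subgroup.normalizer ((Q ⊔ P0 : Subgroup P) : Set P) ∧
          (Q ⊔ P0) ⊔ (S' : Subgroup P) = ⊤ := by
      by_contra hno
      push Not at hno
      -- then every Sylow subgroup of `X` is conjugate into `M`
      have hall : ∀ (q : ℕ), q.Prime → q ∣ Nat.card X → q ≠ p →
          ∃ Q : Subgroup P, Q ≤ X ∧ Q ≤ M ∧ IsPGroup q ↥Q ∧ ¬ q ∣ Q.relIndex X := by
        intro q hq hqX hqp
        haveI := Fact.mk hq
        obtain ⟨Q0⟩ := (inferInstance : Nonempty (Sylow q ↥X))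
        set Q := (Q0 : Subgroup ↥X).map X.subtype with hQ
        set N := Subgroup.normalizer ((Q ⊔ P0 : Subgroup P) : Set P) with hN
        have hfr := Sylow.normalizer_sup_eq_top Q0
        have hQN : Subgroup.normalizer (Q : Set P) ≤ N := by
          exact CfsgLib.Core.le_normalizer_sup le_rfl (le_top.trans (Subgroup.normalizer_eq_top P0).ge)
        have htop : N ⊔ X = ⊤ := top_le_iff.mp (hfr ▸ sup_le (hQN.trans le_sup_left) le_sup_right)
        have hP0N : P0 ≤ N := le_sup_right.trans Subgroup.le_normalizer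
        -- the index of `N` is prime to `p`
        have hidx : ¬ p ∣ N.index := by
          have h1 : N.index = N.relIndex X := by
            rw [← Subgroup.relIndex_top_right N, ← htop, CfsgLib.Local.SylJoin.relIndex_sup_eq]
            rw [Subgroup.normalizer_eq_top]; exact le_top
          intro h
          apply T.not_dvd_index
          have h2 : (T : Subgroup ↥X).index = P0.relIndex X := by
            rw [Subgroup.relIndex, hP0, Subgroup.subgroupOf, Subgroup.comap_map_eq_self_of_injective X.subtype_injective]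
          rw [h2]
          exact (h1 ▸ h).trans (Subgroup.relIndex_dvd_of_le_left X hP0N)
        obtain ⟨S1⟩ := (inferInstance : Nonempty (Sylow p ↥N))
        obtain ⟨S', hS'⟩ := (S1.isPGroup'.map N.subtype).exists_le_sylow
        have hS'eq : (S1 : Subgroup ↥N).map N.subtype = S' := by
          refine CfsgLib.Core.eq_of_le_of_card_le hS' ?_
          rw [Subgroup.card_subtype, Sylow.card_eq_multiplicity, Sylow.card_eq_multiplicity]
          refine Nat.pow_le_pow_right (Fact.out : p.Prime).pos (le_of_eq ?_)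
          rw [← N.card_mul_index, Nat.factorization_mul Nat.card_pos.ne' Subgroup.index_ne_zero_of_finite,
            Finsupp.add_apply, Nat.factorization_eq_zero_of_not_dvd hidx, add_zero]
        have hS'N : (S' : Subgroup P) ≤ N := hS'eq ▸ Subgroup.map_subtype_le _
        have hne := hno q Q hq (Q0.isPGroup'.map _) S' hS'N
        obtain ⟨g, hg⟩ := MulAction.exists_smul_eq P S' S
        refine ⟨Q.map (MulAut.conj g).toMonoidHom, ?_, ?_, (Q0.isPGroup'.map _).map _, ?_⟩
        · rintro _ ⟨x, hx, rfl⟩
          exact hXn.conj_mem x ((Subgroup.map_subtype_le _) hx) g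
        · refine le_trans ?_ (huniq (((Q ⊔ P0) ⊔ (S' : Subgroup P)).map (MulAut.conj g).toMonoidHom) ?_ ?_)
          · exact Subgroup.map_mono (le_sup_left.trans le_sup_left)
          · rw [← hg]
            intro x hx
            rw [Sylow.coe_subgroup_smul, Subgroup.mem_pointwise_smul_iff_inv_smul_mem] at hx
            refine ⟨_, Subgroup.mem_sup_right hx, ?_⟩
            simp [MulAut.conj_apply, mul_assoc]
          · intro h
            refine hne (Subgroup.map_injective (f := (MulAut.conj g).toMonoidHom) (MulEquiv.injective (MulAut.conj g)) ?_)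
            rw [h, Subgroup.map_top_of_surjective]
            exact (MulAut.conj g).surjective
        · have hXc : X.map (MulAut.conj g).toMonoidHom = X := by
            refine CfsgLib.Core.eq_of_le_of_card_le ?_ (Subgroup.card_map_of_injective (MulEquiv.injective _)).ge
            rintro _ ⟨x, hx, rfl⟩
            exact hXn.conj_mem x hx g
          rw [← hXc, Subgroup.relIndex_map_map_of_injective _ _ (MulEquiv.injective _)]
          rw [Subgroup.relIndex, hQ, Subgroup.subgroupOf, Subgroup.comap_map_eq_self_of_injective X.subtype_injective]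
          exact Q0.not_dvd_index
      -- the order of `P` divides the order of `M`
      apply hM.1
      apply Subgroup.index_eq_one.mp
      rw [Nat.eq_one_iff_not_exists_prime_dvd]
      intro q hq hdvd
      haveI := Fact.mk hq
      by_cases hqp : q = p
      · subst hqp
        exact S.not_dvd_index (hdvd.trans (Subgroup.index_dvd_of_le hSM))
      have hXidx : ¬ q ∣ X.index := by
        intro h
        have h1 : X.index ∣ Nat.card (S : Subgroup P) := by
          rw [← Subgroup.relIndex_top_right X, ← hSX, Subgroup.relIndex_sup_right]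
          exact Subgroup.index_dvd_card (X.subgroupOf (S : Subgroup P))
        obtain ⟨k, hk⟩ := IsPGroup.iff_card.mp S.isPGroup'
        rw [hk] at h1
        exact hqp ((Nat.prime_dvd_prime_iff_eq hq Fact.out).mp (hq.dvd_of_dvd_pow (h.trans h1)))
      by_cases hqX : q ∣ Nat.card X
      · obtain ⟨Q, hQX, hQM, -, hQi⟩ := hall q hq hqX hqp
        have h1 : Q.index = Q.relIndex X * X.index := (Subgroup.relIndex_mul_index hQX).symm
        rcases hq.dvd_mul.mp (h1 ▸ hdvd.trans (Subgroup.index_dvd_of_le hQM)) with h | h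
        · exact hQi h
        · exact hXidx h
      · have h1 : M.index ∣ Nat.card X * X.index := by rw [Subgroup.card_mul_index]; exact Subgroup.index_dvd_card M
        rcases hq.dvd_mul.mp (hdvd.trans h1) with h | h
        · exact hqX h
        · exact hXidx h
    obtain ⟨q, Q, hq, hQ, S', hS'n, htop⟩ := hex
    haveI := Fact.mk hq
    refine (Finset.card_le_card (t := {p, q}) fun r hr => ?_).trans Finset.card_le_two
    rw [Nat.mem_primeFactors] at hr
    obtain ⟨hr1, hr2, -⟩ := hr
    rw [Finset.mem_insert, Finset.mem_singleton]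
    have hS'top : Nat.card P ∣ Nat.card Q * Nat.card P0 * Nat.card (S' : Subgroup P) := by
      have hA : Nat.card ↥(Q ⊔ P0) ∣ Nat.card Q * Nat.card P0 := by
        rw [← Subgroup.card_mul_index ((P0).subgroupOf (Q ⊔ P0))]
        refine mul_comm (Nat.card Q) _ ▸ Nat.mul_dvd_mul (dvd_of_eq (Nat.card_congr (Subgroup.subgroupOfEquivOfLe le_sup_right).toEquiv)) ?_
        change P0.relIndex (Q ⊔ P0) ∣ _
        rw [Subgroup.relIndex_sup_right]
        exact Subgroup.index_dvd_card (P0.subgroupOf Q)
      refine dvd_trans ?_ (Nat.mul_dvd_mul_right hA _)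
      haveI : ((Q ⊔ P0) : Subgroup P).Normal := by
        rw [← Subgroup.normalizer_eq_top_iff, eq_top_iff, ← htop]
        exact sup_le Subgroup.le_normalizer hS'n
      rw [← Subgroup.card_mul_index (Q ⊔ P0)]
      refine Nat.mul_dvd_mul dvd_rfl ?_
      rw [← Subgroup.relIndex_top_right (Q ⊔ P0), ← htop, Subgroup.relIndex_sup_left]
      exact Subgroup.index_dvd_card ((Q ⊔ P0).subgroupOf (S' : Subgroup P))
    rcases hr1.dvd_mul.mp (hr2.trans hS'top) with h | h
    · rcases hr1.dvd_mul.mp h with h | h
      · obtain ⟨k, hk⟩ := IsPGroup.iff_card.mp hQ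
        exact Or.inr ((Nat.prime_dvd_prime_iff_eq hr1 hq).mp (hr1.dvd_of_dvd_pow (hk ▸ h)))
      · obtain ⟨k, hk⟩ := IsPGroup.iff_card.mp (T.isPGroup'.map X.subtype : IsPGroup p ↥P0)
        exact Or.inl ((Nat.prime_dvd_prime_iff_eq hr1 Fact.out).mp (hr1.dvd_of_dvd_pow (hk ▸ h)))
    · obtain ⟨k, hk⟩ := IsPGroup.iff_card.mp S'.isPGroup'
      exact Or.inl ((Nat.prime_dvd_prime_iff_eq hr1 Fact.out).mp (hr1.dvd_of_dvd_pow (hk ▸ h)))
  · intro N hN hFN hNle
    rcases h3 N hN with h | h
    · exact Or.inr (le_antisymm hNle (sup_le h hFN))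
    · exact Or.inl (le_antisymm h hFN)
  · exact lt_of_le_of_ne le_sup_right fun h => hXM ((le_sup_left.trans h.ge).trans hFM)

end Cfsg.Agent.S2905
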