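import Cfsg.Statements.S2906
import Cfsg.Agent.S2905
import Cfsg.Agent.Lib.LocalFStarAction
import Cfsg.Agent.Lib.LocalSylowJoin
import Cfsg.Agent.Lib.FgsSylowProduct
import Cfsg.Agent.Lib.LocalPIrreducible

set_option autoImplicit false
open Cfsg
open scoped commutatorElement Pointwise

namespace Cfsg.Agent.S2906

open scoped Pointwise in
theorem coatom_map {G : Type*} [Group G] (e : G ≃* G) {M : Subgroup G} (hM : IsCoatom M) :
    IsCoatom (M.map e.toMonoidHom) := by
  exact (OrderIso.isCoatom_iff (MulEquiv.mapSubgroup e) M).mpr hM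

/-- Let P be a finite p-minimal group with O_p(P) = 1, S a Sylow p-subgroup of P and K a component of P. Then O^p(P) = F*(P) = E(P) is generated by the S-conjugates of K, and the subgroup K·N_S(K) is again p-minimal. -/
theorem result {P : Type*} [Group P] [Finite P] {p : ℕ} [Fact p.Prime] (hP : Cfsg.IsPMinimal p P) (hOp : Cfsg.pCore p P = ⊥) (S : Sylow p P) (K : Subgroup P) (hK : Cfsg.IsComponent K) : Cfsg.pResidual p P = Cfsg.generalizedFittingSubgroup P ∧ Cfsg.generalizedFittingSubgroup P = Cfsg.layer P ∧ Cfsg.layer P = ⨆ s : ↥(S : Subgroup P), K.map (MulAut.conj (s : P)).toMonoidHom ∧ Cfsg.IsPMinimal p ↥(K ⊔ ((S : Subgroup P) ⊓ Subgroup.normalizer (K : Set P))) := by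
  classical
  obtain ⟨M, ⟨hM, hSM⟩, hMu⟩ := (hP S).2
  haveI hFn : M.normalCore.Normal := Subgroup.normalCore_normal M
  obtain ⟨h5a, -, h5c, -, -⟩ := Cfsg.Agent.S2905.result hP S M hM hSM
  set F := M.normalCore with hFdef
  have hFM : F ≤ M := Subgroup.normalCore_le M
  set X := Cfsg.pResidual p P with hXdef
  have huniq : ∀ Y : Subgroup P, (S : Subgroup P) ≤ Y → Y ≠ ⊤ → Y ≤ M := by
    intro Y hSY hY
    obtain ⟨M', hM', hle⟩ := (eq_top_or_exists_le_coatom Y).resolve_left hY
    rwa [← hMu M' ⟨hM', hSY.trans hle⟩]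
  have hMtop : ¬ (⊤ : Subgroup P) ≤ M := fun h => hM.1 (top_le_iff.mp h)
  -- normal `p'`-subgroups
  have hpkey : ∀ N : Subgroup P, N.Normal → ¬ p ∣ Nat.card N → ∀ q : ℕ, q.Prime →
      ∀ Q : Sylow q ↥N, ((Q : Subgroup ↥N).map N.subtype).Normal ∨
        ∃ R : Subgroup P, R ≤ M ∧ Nat.card R = Nat.card Q ∧ ∃ T : Subgroup P, T ≤ M ∧ T ⊔ N = ⊤ := by
    intro N hN hNp q hq Q
    haveI := hN
    haveI := Fact.mk hq
    by_cases hQn : ((Q : Subgroup ↥N).map N.subtype).Normal
    · exact Or.inl hQn
    right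
    set Qm := (Q : Subgroup ↥N).map N.subtype with hQm
    set T := Subgroup.normalizer (Qm : Set P) with hT
    have htop : T ⊔ N = ⊤ := Sylow.normalizer_sup_eq_top Q
    have hidx : ¬ p ∣ T.index := by
      rw [← Subgroup.relIndex_top_right T, ← htop, CfsgLib.SylowProd.relIndex_sup_of_normal]
      exact fun h => hNp (h.trans (Subgroup.index_dvd_card (T.subgroupOf N)))
    obtain ⟨S1⟩ := (inferInstance : Nonempty (Sylow p ↥T))
    obtain ⟨S', hS'⟩ := (S1.isPGroup'.map T.subtype).exists_le_sylow
    have hS'eq : (S1 : Subgroup ↥T).map T.subtype = S' := by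
      refine CfsgLib.Core.eq_of_le_of_card_le hS' ?_
      rw [Subgroup.card_subtype, Sylow.card_eq_multiplicity, Sylow.card_eq_multiplicity]
      refine Nat.pow_le_pow_right (Fact.out : p.Prime).pos (le_of_eq ?_)
      rw [← T.card_mul_index, Nat.factorization_mul Nat.card_pos.ne' Subgroup.index_ne_zero_of_finite,
        Finsupp.add_apply, Nat.factorization_eq_zero_of_not_dvd hidx, add_zero]
    have hS'T : (S' : Subgroup P) ≤ T := hS'eq ▸ Subgroup.map_subtype_le _
    obtain ⟨g, hg⟩ := MulAction.exists_smul_eq P S' S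
    set f := (MulAut.conj g).toMonoidHom with hf
    have hfinj : Function.Injective f := (MulAut.conj g).injective
    have hTne : T.map f ≠ ⊤ := fun h => hQn (Subgroup.normalizer_eq_top_iff.mp
      (Subgroup.map_injective (f := f) hfinj (by
        rw [← hT, h, Subgroup.map_top_of_surjective _ (MulAut.conj g).surjective])))
    have hST : (S : Subgroup P) ≤ T.map f := by
      rw [← hg]
      intro x hx
      rw [Sylow.coe_subgroup_smul, Subgroup.mem_pointwise_smul_iff_inv_smul_mem] at hx
      refine ⟨_, hS'T hx, ?_⟩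
      simp [hf, MulAut.conj_apply, mul_assoc]
    have hTM := huniq _ hST hTne
    refine ⟨Qm.map f, (Subgroup.map_mono Subgroup.le_normalizer).trans hTM, ?_, T.map f, hTM, ?_⟩
    · rw [Subgroup.card_map_of_injective hfinj, hQm, Subgroup.card_subtype]
    · have hNf : N.map f = N := by
        refine CfsgLib.Core.eq_of_le_of_card_le ?_ (Subgroup.card_map_of_injective hfinj).ge
        rintro _ ⟨x, hx, rfl⟩
        exact hN.conj_mem x hx g
      rw [← hNf, ← Subgroup.map_sup, htop, Subgroup.map_top_of_surjective _ (MulAut.conj g).surjective]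
  have hnil : ∀ N : Subgroup P, N.Normal → (∀ q : ℕ, q.Prime → ∀ Q : Sylow q ↥N,
      ((Q : Subgroup ↥N).map N.subtype).Normal) → Group.IsNilpotent ↥N := by
    intro N hN hall
    apply ((Group.isNilpotent_of_finite_tfae (G := ↥N)).out 0 3).mpr
    intro q hq Q
    haveI := hall q hq.out Q
    have h := (Subgroup.normal_subgroupOf (H := N) (N := (Q : Subgroup ↥N).map N.subtype))
    rwa [Subgroup.subgroupOf, Subgroup.comap_map_eq_self_of_injective N.subtype_injective] at h
  -- the core is nilpotent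
  have hSF : (S : Subgroup P) ⊓ F = ⊥ := le_bot_iff.mp (hOp ▸ (inf_comm F (S : Subgroup P) ▸ h5a F hFn.isSubnormal hFM))
  have hFp : ¬ p ∣ Nat.card F := by
    have h1 := CfsgLib.Local.SylJoin.not_dvd_relIndex_inf_subnormal S hFn.isSubnormal
    rwa [hSF, Subgroup.relIndex_bot_left] at h1
  have hFnil : Group.IsNilpotent ↥F := hnil F hFn fun q hq Q => by
    rcases hpkey F hFn hFp q hq Q with h | ⟨R, -, -, T, hTM, htop⟩
    · exact h
    · exact absurd (htop ▸ sup_le hTM hFM) hMtop
  have hFsol : Group.IsSolvable ↥F := by haveI := hFnil; infer_instance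
  have hKF : ¬ K ≤ F := CfsgLib.Core.not_le_of_component_of_isSolvable hK hFsol
  -- `X = E`
  set E := Cfsg.layer P with hEdef
  haveI hEn : E.Normal := CfsgLib.Core.normal_layer
  haveI hXn : X.Normal := CfsgLib.Local.pResidual_normal' p P
  have hKE : K ≤ E := CfsgLib.Core.component_le_layer hK
  have hEX : X = E := by
    refine le_antisymm ((h5c E hEn).resolve_right fun h => hKF (hKE.trans h)) ?_
    let π := QuotientGroup.mk' X
    have hq : IsPGroup p (P ⧸ X) := by
      intro x
      obtain ⟨y, rfl⟩ := QuotientGroup.mk'_surjective X x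
      have htop := CfsgLib.Local.PIrr.sup_pResidual S
      have hy : y ∈ (S : Subgroup P) ⊔ X := by rw [htop]; exact Subgroup.mem_top y
      obtain ⟨s, hs, z, hz, rfl⟩ := Subgroup.mem_sup_of_normal_right.mp hy
      obtain ⟨k, hk⟩ := S.isPGroup' ⟨s, hs⟩
      refine ⟨k, ?_⟩
      have : (QuotientGroup.mk' X) z = 1 := (QuotientGroup.eq_one_iff z).mpr hz
      rw [map_mul, this, mul_one, ← map_pow, show s ^ p ^ k = 1 by simpa using congrArg Subtype.val hk, map_one]
    haveI := hq.isNilpotent
    obtain ⟨n, hn⟩ := (Group.isSolvable_def (G := P ⧸ X)).mp inferInstance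
    have hd : ∀ i, E.map π ≤ derivedSeries (P ⧸ X) i := by
      intro i
      induction i with
      | zero => rw [derivedSeries_zero]; exact le_top
      | succ i ih =>
        rw [derivedSeries_succ, hEdef, ← CfsgLib.Core.layer_perfect, Subgroup.map_commutator]
        exact Subgroup.commutator_mono ih ih
    intro x hx
    have := hn ▸ hd n ⟨x, hx, rfl⟩
    exact (QuotientGroup.eq_one_iff x).mp (Subgroup.mem_bot.mp this)
  have hFit : Cfsg.fittingSubgroup P ≤ X := by
    intro f hf
    refine Subgroup.subset_closure ?_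
    have h1 : orderOf f ∣ Nat.card (Cfsg.fittingSubgroup P) := by
      have := orderOf_dvd_natCard (⟨f, hf⟩ : Cfsg.fittingSubgroup P)
      rwa [Subgroup.orderOf_mk] at this
    exact (CfsgLib.Local.FStar.fitting_coprime hOp).coprime_dvd_left h1
  have hFs : Cfsg.generalizedFittingSubgroup P = E :=
    le_antisymm (sup_le le_rfl (hEX ▸ hFit)) le_sup_left
  -- the conjugates of `K` under `S`
  set E0 := ⨆ s : ↥(S : Subgroup P), K.map (MulAut.conj (s : P)).toMonoidHom with hE0
  have hcomp : ∀ s : P, Cfsg.IsComponent (K.map (MulAut.conj s).toMonoidHom) := fun s =>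
    CfsgLib.Core.isComponent_map_mulEquiv (MulAut.conj s) hK
  have hE0s : E0.IsSubnormal := by
    rw [hE0, iSup]
    exact CfsgLib.Core.isSubnormal_sSup (by rintro _ ⟨s, rfl⟩; exact (hcomp s).1)
  have hE0E : E0 ≤ E := iSup_le fun s => CfsgLib.Core.component_le_layer (hcomp s)
  have hSn : ∀ (Z : Subgroup P),
      (S : Subgroup P) ≤ Subgroup.normalizer ((⨆ s : ↥(S : Subgroup P), Z.map (MulAut.conj (s : P)).toMonoidHom : Subgroup P) : Set P) := by
    intro Z
    refine CfsgLib.Core.le_normalizer_iff_forall.mpr fun g hg v hv => ?_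
    have hle : (⨆ s : ↥(S : Subgroup P), Z.map (MulAut.conj (s : P)).toMonoidHom) ≤
        (⨆ s : ↥(S : Subgroup P), Z.map (MulAut.conj (s : P)).toMonoidHom).comap (MulAut.conj g).toMonoidHom := by
      refine iSup_le fun s => Subgroup.map_le_iff_le_comap.mp ?_
      refine le_trans (le_of_eq ?_) (le_iSup _ (⟨g * s, mul_mem hg s.2⟩ : ↥(S : Subgroup P)))
      rw [Subgroup.map_map]
      congr 1
      ext x
      simp [MulAut.conj_apply, mul_assoc]
    exact hle hv
  have hKE0 : K ≤ E0 := fun x hx =>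
    Subgroup.mem_iSup_of_mem (1 : ↥(S : Subgroup P)) ⟨x, hx, by simp⟩
  have hE0M : ¬ E0 ≤ M := fun h => hKF (hKE0.trans (CfsgLib.Core.le_normalCore_of_isSubnormal hM hE0s h))
  have hES : E ⊔ (S : Subgroup P) = ⊤ := by
    rw [← hEX, sup_comm]; exact CfsgLib.Local.PIrr.sup_pResidual S
  have hE0n : E0.Normal := by
    rw [← Subgroup.normalizer_eq_top_iff, eq_top_iff, ← hES]
    refine sup_le (sSup_le fun L hL => ?_) (hSn K)
    rcases CfsgLib.Core.component_le_or_commutator_eq_bot hL hE0s with h | h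
    · exact h.trans Subgroup.le_normalizer
    · exact (Subgroup.commutator_eq_bot_iff_le_centralizer.mp h).trans (CfsgLib.Core.centralizer_le_normalizer _)
  have hE0eq : E = E0 := le_antisymm
    (hEX ▸ (h5c E0 hE0n).resolve_right fun h => hE0M (h.trans hFM)) hE0E
  have hKM : ¬ K ≤ M := fun h => hKF (CfsgLib.Core.le_normalCore_of_isSubnormal hM hK.1 h)
  refine ⟨hEX.trans hFs.symm, hFs, hE0eq, ?_⟩
  -- the subgroup `K R`
  set R := (S : Subgroup P) ⊓ Subgroup.normalizer (K : Set P) with hR
  have hRK : R ≤ Subgroup.normalizer (K : Set P) := inf_le_right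
  have hRS : R ≤ (S : Subgroup P) := inf_le_left
  set H := K ⊔ R with hH
  have hSK : (S : Subgroup P) ⊓ K ≤ R := inf_le_inf_left _ Subgroup.le_normalizer
  have hSKi := CfsgLib.Local.SylJoin.not_dvd_relIndex_inf_subnormal S hK.1
  have hRi : ¬ p ∣ R.relIndex H := by
    rw [hH, sup_comm, CfsgLib.Local.SylJoin.relIndex_sup_eq hRK]
    exact fun h => hSKi (h.trans (Subgroup.relIndex_dvd_of_le_left K hSK))
  have hRHp : IsPGroup p ↥(R.subgroupOf H) :=
    CfsgLib.Local.PRed.isPGroup_subgroupOf (S.isPGroup'.to_le hRS)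
  let R0 : Sylow p ↥H := hRHp.toSylow hRi
  have hR0 : (R0 : Subgroup ↥H) = R.subgroupOf H := rfl
  have hR0n : ¬ (R0 : Subgroup ↥H).Normal := by
    intro hn
    rw [hR0, Subgroup.normal_subgroupOf_iff_le_normalizer le_sup_right] at hn
    have hKR : K ⊓ R = ⊥ := by
      rw [eq_bot_iff, ← hOp]
      refine CfsgLib.Core.le_pCore_of_isSubnormal ?_ (S.isPGroup'.to_le (inf_le_right.trans hRS))
      exact Subgroup.IsSubnormal.step _ K inf_le_left hK.1
        ((Subgroup.normal_subgroupOf_iff_le_normalizer inf_le_left).mpr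
          (CfsgLib.Core.le_normalizer_inf Subgroup.le_normalizer (le_sup_left.trans hn)))
    have hKp : ¬ p ∣ Nat.card K := by
      have h0 : (S : Subgroup P) ⊓ K = ⊥ := le_bot_iff.mp (hKR ▸ le_inf inf_le_right hSK)
      rwa [h0, Subgroup.relIndex_bot_left] at hSKi
    -- hence the layer is a `p'`-group
    haveI := Fintype.ofFinite ↥(S : Subgroup P)
    let W : ↥(S : Subgroup P) → Subgroup P := fun s => K.map (MulAut.conj (s : P)).toMonoidHom
    have hE'p : ∀ t : Finset ↥(S : Subgroup P), ¬ p ∣ Nat.card ↥(⨆ s ∈ t, W s) ∧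
        (⨆ s ∈ t, W s).IsSubnormal := by
      intro t
      induction t using Finset.induction_on with
      | empty =>
        simp only [Finset.notMem_empty, not_false_eq_true, iSup_neg, iSup_bot]
        exact ⟨by rw [Subgroup.card_bot]; exact (Fact.out : p.Prime).not_dvd_one,
          (inferInstance : (⊥ : Subgroup P).Normal).isSubnormal⟩
      | insert s t hs ih =>
        rw [Finset.iSup_insert]
        refine ⟨fun hd => ?_, CfsgLib.Core.isSubnormal_sup (hcomp s).1 ih.2⟩
        have hn : W s ≤ Subgroup.normalizer ((⨆ s ∈ t, W s : Subgroup P) : Set P) := by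
          rcases CfsgLib.Core.component_le_or_commutator_eq_bot (hcomp s) ih.2 with h | h
          · exact h.trans Subgroup.le_normalizer
          · exact (Subgroup.commutator_eq_bot_iff_le_centralizer.mp h).trans (CfsgLib.Core.centralizer_le_normalizer _)
        have h1 := CfsgLib.Core.card_sup_mul_card_inf hn
        have h2 : p ∣ Nat.card (W s) * Nat.card ↥(⨆ s ∈ t, W s) := h1 ▸ hd.mul_right _
        rcases (Fact.out : p.Prime).dvd_mul.mp h2 with h | h
        · exact hKp (by rwa [Subgroup.card_map_of_injective (MulAut.conj (s : P)).injective] at h)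
        · exact ih.1 h
    have hEp : ¬ p ∣ Nat.card E := by
      rw [hE0eq, hE0]
      have := (hE'p Finset.univ).1
      simpa [W] using this
    -- every Sylow subgroup of the layer embeds into `M`
    have hall : ∀ q : ℕ, q.Prime → ∀ Q : Sylow q ↥E, Nat.card Q ∣ Nat.card M := by
      intro q hq Q
      haveI := Fact.mk hq
      rcases hpkey E hEn hEp q hq Q with h | ⟨Z, hZM, hZc, -⟩
      · rw [← Subgroup.card_subtype E (Q : Subgroup ↥E)]
        refine Subgroup.card_dvd_of_le ?_
        rcases h5c _ h with h' | h'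
        · exfalso
          haveI := (Q.isPGroup'.map E.subtype).isNilpotent
          exact CfsgLib.Core.not_le_of_component_of_isSolvable hK
            (S := (Q : Subgroup ↥E).map E.subtype) inferInstance ((hKE.trans hEX.ge).trans h')
        · exact h'.trans hFM
      · exact hZc ▸ Subgroup.card_dvd_of_le hZM
    apply hM.1
    apply Subgroup.index_eq_one.mp
    rw [Nat.eq_one_iff_not_exists_prime_dvd]
    intro q hq hdvd
    haveI := Fact.mk hq
    by_cases hqp : q = p
    · subst hqp
      exact S.not_dvd_index (hdvd.trans (Subgroup.index_dvd_of_le hSM))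
    have hEidx : ¬ q ∣ E.index := by
      intro h
      have h1 : E.index ∣ Nat.card (S : Subgroup P) := by
        rw [← Subgroup.relIndex_top_right E, ← hES, Subgroup.relIndex_sup_left]
        exact Subgroup.index_dvd_card (E.subgroupOf (S : Subgroup P))
      obtain ⟨k, hk⟩ := IsPGroup.iff_card.mp S.isPGroup'
      rw [hk] at h1
      exact hqp ((Nat.prime_dvd_prime_iff_eq hq Fact.out).mp (hq.dvd_of_dvd_pow (h.trans h1)))
    obtain ⟨Q⟩ := (inferInstance : Nonempty (Sylow q ↥E))
    obtain ⟨c, hc⟩ := hall q hq Q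
    have hQi : ¬ q ∣ (Q : Subgroup ↥E).index * E.index := fun h => by
      rcases hq.dvd_mul.mp h with h | h
      · exact Q.not_dvd_index h
      · exact hEidx h
    apply hQi
    have heq : Nat.card P = Nat.card Q * ((Q : Subgroup ↥E).index * E.index) := by
      rw [← mul_assoc, Subgroup.card_mul_index, Subgroup.card_mul_index]
    have heq' : Nat.card P = Nat.card Q * (c * M.index) := by
      rw [← mul_assoc, ← hc, Subgroup.card_mul_index]
    rw [← Nat.eq_of_mul_eq_mul_left Nat.card_pos (heq'.symm.trans heq)]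
    exact hdvd.mul_left c
  -- the maximal subgroup over `R`
  set T0 := (M ⊓ K) ⊔ R with hT0
  have hT0H : T0 ≤ H := sup_le_sup inf_le_right le_rfl
  have hT0M : T0 ≤ M := sup_le inf_le_left (hRS.trans hSM)
  have hbelow : ∀ T : Subgroup P, T ≤ H → R ≤ T → ¬ K ≤ T → T ≤ T0 := by
    intro T hTH hRT hKT
    set C := T ⊓ K with hC
    have hRC : R ≤ Subgroup.normalizer (C : Set P) :=
      CfsgLib.Core.le_normalizer_inf (hRT.trans Subgroup.le_normalizer) hRK
    have hT : T ≤ C ⊔ R := by
      intro x hx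
      obtain ⟨k, hk, r, hr, rfl⟩ := (CfsgLib.Core.mem_sup_iff_of_le_normalizer' hRK).mp
        (by rw [sup_comm]; exact hTH hx)
      refine mul_mem (Subgroup.mem_sup_left (Subgroup.mem_inf.mpr ⟨?_, hk⟩)) (Subgroup.mem_sup_right hr)
      have := mul_mem hx (inv_mem (hRT hr))
      rwa [mul_inv_cancel_right] at this
    suffices hCM : C ≤ M from hT.trans (sup_le_sup (le_inf hCM inf_le_right) le_rfl)
    set D := ⨆ s : ↥(S : Subgroup P), C.map (MulAut.conj (s : P)).toMonoidHom with hD
    have hCD : C ≤ D := fun x hx =>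
      Subgroup.mem_iSup_of_mem (1 : ↥(S : Subgroup P)) ⟨x, hx, by simp⟩
    by_cases htop : D ⊔ (S : Subgroup P) = ⊤
    swap
    · exact hCD.trans (le_sup_left.trans (huniq _ le_sup_right htop))
    exfalso
    have hDE : D ≤ E := iSup_le fun s =>
      (Subgroup.map_mono inf_le_right).trans (CfsgLib.Core.component_le_layer (hcomp s))
    -- `S ⊓ E ≤ D`
    haveI := Fintype.ofFinite ↥(S : Subgroup P)
    let W : ↥(S : Subgroup P) → Subgroup P := fun s => K.map (MulAut.conj (s : P)).toMonoidHom
    have hWs : ∀ t : Finset ↥(S : Subgroup P),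
        (⨆ s ∈ t, W s) ⊓ (S : Subgroup P) ≤ D ∧ (⨆ s ∈ t, W s).IsSubnormal := by
      intro t
      induction t using Finset.induction_on with
      | empty =>
        simp only [Finset.notMem_empty, not_false_eq_true, iSup_neg, iSup_bot]
        exact ⟨inf_le_left.trans bot_le, (inferInstance : (⊥ : Subgroup P).Normal).isSubnormal⟩
      | insert s t hs ih =>
        rw [Finset.iSup_insert]
        refine ⟨?_, CfsgLib.Core.isSubnormal_sup (hcomp s).1 ih.2⟩
        rw [CfsgLib.Local.SylJoin.inf_sup (A := W s) S (hcomp s).1 ih.2]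
        refine sup_le ?_ ih.1
        rintro x ⟨⟨y, hy, rfl⟩, hxS⟩
        have hyS : y ∈ (S : Subgroup P) := by
          have := mul_mem (mul_mem (inv_mem s.2) hxS) s.2
          simpa [MulAut.conj_apply, mul_assoc] using this
        have hyR : y ∈ R := hSK (Subgroup.mem_inf.mpr ⟨hyS, hy⟩)
        exact Subgroup.mem_iSup_of_mem s ⟨y, Subgroup.mem_inf.mpr ⟨hRT hyR, hy⟩, rfl⟩
    have hSE : E ⊓ (S : Subgroup P) ≤ D := by
      rw [hE0eq, hE0]
      have := (hWs Finset.univ).1
      simpa [W] using this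
    have hKD : K ≤ D := by
      intro x hx
      obtain ⟨d, hd, σ, hσ, rfl⟩ := (CfsgLib.Core.mem_sup_iff_of_le_normalizer' (hSn C)).mp
        (show x ∈ (S : Subgroup P) ⊔ D from by rw [sup_comm, htop]; exact Subgroup.mem_top x)
      refine mul_mem hd (hSE (Subgroup.mem_inf.mpr ⟨?_, hσ⟩))
      have := mul_mem (inv_mem (hDE hd)) (hKE hx)
      rwa [inv_mul_cancel_left] at this
    have hDC : D ≤ C ⊔ Subgroup.centralizer (K : Set P) := by
      refine iSup_le fun s => ?_
      by_cases hs : K.map (MulAut.conj (s : P)).toMonoidHom = K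
      · have hsR : (s : P) ∈ R := by
          refine Subgroup.mem_inf.mpr ⟨s.2, Subgroup.mem_normalizer_iff.mpr fun x => ?_⟩
          constructor
          · exact fun hx => hs.le ⟨x, hx, rfl⟩
          · intro hx
            obtain ⟨y, hy, he⟩ := hs.ge hx
            rwa [← (MulAut.conj (s : P)).injective he]
        refine le_sup_of_le_left ?_
        rintro _ ⟨x, hx, rfl⟩
        exact (Subgroup.mem_normalizer_iff.mp (hRC hsR) x).mp hx
      · refine le_sup_of_le_right ((Subgroup.map_mono inf_le_right).trans ?_)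
        exact Subgroup.commutator_eq_bot_iff_le_centralizer.mp
          (CfsgLib.Core.components_commute (hcomp s) hK hs)
    have hKZ : K ≤ C ⊔ (K ⊓ Subgroup.centralizer (K : Set P)) := by
      intro x hx
      have hn : Subgroup.centralizer (K : Set P) ≤ Subgroup.normalizer (C : Set P) :=
        (Subgroup.centralizer_le (SetLike.coe_subset_coe.mpr inf_le_right)).trans
          (CfsgLib.Core.centralizer_le_normalizer C)
      obtain ⟨t, ht, c, hc, rfl⟩ := (CfsgLib.Core.mem_sup_iff_of_le_normalizer' hn).mp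
        (show x ∈ Subgroup.centralizer (K : Set P) ⊔ C from by rw [sup_comm]; exact hDC (hKD hx))
      refine mul_mem (Subgroup.mem_sup_left ht) (Subgroup.mem_sup_right (Subgroup.mem_inf.mpr ⟨?_, hc⟩))
      have := mul_mem (inv_mem (Subgroup.mem_inf.mp ht).2) hx
      rwa [inv_mul_cancel_left] at this
    apply hKT
    rw [← CfsgLib.Core.isPerfect_of_component hK]
    refine (Subgroup.commutator_mono hKZ hKZ).trans ((CfsgLib.Local.FStar.commutator_sup_self ?_).trans (sup_le ?_ ?_))
    · exact inf_le_right.trans (Subgroup.centralizer_le (SetLike.coe_subset_coe.mpr inf_le_right))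
    · exact (Subgroup.commutator_le_self C).trans inf_le_left
    · rw [Subgroup.commutator_eq_bot_iff_le_centralizer.mpr
        (inf_le_right.trans (Subgroup.centralizer_le (SetLike.coe_subset_coe.mpr inf_le_left)))]
      exact bot_le
  have hT0ne : ¬ K ≤ T0 := fun h => hKM (h.trans hT0M)
  -- uniqueness inside `H`
  set N0 := T0.subgroupOf H with hN0
  have hN0top : N0 ≠ ⊤ := fun h => hT0ne (le_sup_left.trans (Subgroup.subgroupOf_eq_top.mp h))
  have hle0 : ∀ N : Subgroup ↥H, (R0 : Subgroup ↥H) ≤ N → N ≠ ⊤ → N ≤ N0 := by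
    intro N hRN hN x hx
    refine Subgroup.mem_subgroupOf.mpr ?_
    refine hbelow (N.map H.subtype) (Subgroup.map_subtype_le _) ?_ ?_ ⟨x, hx, rfl⟩
    · rw [← Subgroup.map_subgroupOf_eq_of_le (le_sup_right : R ≤ H)]
      exact Subgroup.map_mono hRN
    · intro hKN
      apply hN
      apply Subgroup.map_injective (f := H.subtype) H.subtype_injective
      refine le_antisymm (Subgroup.map_mono le_top) ?_
      rw [← MonoidHom.range_eq_map, Subgroup.range_subtype]
      refine sup_le hKN ?_
      rw [← Subgroup.map_subgroupOf_eq_of_le (le_sup_right : R ≤ H)]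
      exact Subgroup.map_mono hRN
  have hRN0 : (R0 : Subgroup ↥H) ≤ N0 := fun x hx => Subgroup.mem_subgroupOf.mpr (Subgroup.mem_sup_right hx)
  have hN0co : IsCoatom N0 := by
    refine ⟨hN0top, fun N hlt => ?_⟩
    by_contra hN
    exact absurd (hle0 N (hRN0.trans hlt.le) hN) (not_le_of_gt hlt)
  intro T
  obtain ⟨h, hh⟩ := MulAction.exists_smul_eq ↥H R0 T
  have hT : (T : Subgroup ↥H) = (R0 : Subgroup ↥H).map (MulAut.conj h).toMonoidHom := by
    rw [← hh]; rfl
  refine ⟨fun hn => hR0n ?_, N0.map (MulAut.conj h).toMonoidHom,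
    ⟨coatom_map _ hN0co, hT ▸ Subgroup.map_mono hRN0⟩, fun N hN => ?_⟩
  · haveI := hn
    have : (R0 : Subgroup ↥H) = (T : Subgroup ↥H).map (MulAut.conj h⁻¹).toMonoidHom := by
      rw [hT, Subgroup.map_map]
      conv_lhs => rw [← Subgroup.map_id (R0 : Subgroup ↥H)]
      congr 1
      ext x
      simp [MulAut.conj_apply, mul_assoc]
    rw [this]
    exact Subgroup.Normal.map hn _ (MulAut.conj h⁻¹).surjective
  · obtain ⟨hN1, hN2⟩ := hN
    have h1 : N.map (MulAut.conj h⁻¹).toMonoidHom ≤ N0 := by
      refine hle0 _ ?_ (coatom_map _ hN1).1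
      intro x hx
      refine ⟨MulAut.conj h x, hN2 (hT ▸ ⟨x, hx, rfl⟩), ?_⟩
      simp [MulAut.conj_apply, mul_assoc]
    have h2 : N ≤ N0.map (MulAut.conj h).toMonoidHom := fun x hx =>
      ⟨MulAut.conj h⁻¹ x, h1 ⟨x, hx, rfl⟩, by simp [MulAut.conj_apply, mul_assoc]⟩
    by_contra hne
    exact (coatom_map _ hN0co).1 (hN1.2 _ (lt_of_le_of_ne h2 hne))

end Cfsg.Agent.S2906
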