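import Cfsg.Statements.S2907


set_option autoImplicit false
open Cfsg
open scoped commutatorElement

namespace Cfsg.Agent.S2907

/-- Let X be a finite semi-extraspecial p-group and x an element of X outside the centre. Then the index of C_X(x) in X equals the order of Z(X), and the commutators [x, y], y ∈ X, form exactly the centre Z(X). -/
theorem result {X : Type*} [Group X] [Finite X] {p : ℕ} [Fact p.Prime] (hX : Cfsg.IsSemiExtraspecial p X) (x : X) (hx : x ∉ Subgroup.center X) : (Subgroup.centralizer ({x} : Set X)).index = Nat.card ↥(Subgroup.center X) ∧ {z : X | ∃ y : X, z = x * y * x⁻¹ * y⁻¹} = (Subgroup.center X : Set X) := by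
  classical
  obtain ⟨⟨hXp, hfr, hcomm⟩, hY⟩ := hX
  have hmem : ∀ y : X, x * y * x⁻¹ * y⁻¹ ∈ Subgroup.center X := fun y => by
    rw [← hcomm, ← commutatorElement_def]
    exact Subgroup.commutator_mem_commutator (Subgroup.mem_top x) (Subgroup.mem_top y)
  let φ : X →* Subgroup.center X :=
    { toFun := fun y => ⟨x * y * x⁻¹ * y⁻¹, hmem y⟩
      map_one' := Subtype.ext (by simp)
      map_mul' := fun y₁ y₂ => Subtype.ext (by
        show x * (y₁ * y₂) * x⁻¹ * (y₁ * y₂)⁻¹ = x * y₁ * x⁻¹ * y₁⁻¹ * (x * y₂ * x⁻¹ * y₂⁻¹)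
        calc x * (y₁ * y₂) * x⁻¹ * (y₁ * y₂)⁻¹ = x * y₁ * x⁻¹ * ((x * y₂ * x⁻¹ * y₂⁻¹) * y₁⁻¹) := by group
          _ = x * y₁ * x⁻¹ * (y₁⁻¹ * (x * y₂ * x⁻¹ * y₂⁻¹)) := by rw [Subgroup.mem_center_iff.1 (hmem y₂) y₁⁻¹]
          _ = x * y₁ * x⁻¹ * y₁⁻¹ * (x * y₂ * x⁻¹ * y₂⁻¹) := by group) }
  have hker : φ.ker = Subgroup.centralizer ({x} : Set X) := by
    ext y
    rw [MonoidHom.mem_ker, Subgroup.mem_centralizer_singleton_iff, Subtype.ext_iff]
    show x * y * x⁻¹ * y⁻¹ = 1 ↔ y * x = x * y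
    rw [mul_inv_eq_one, mul_inv_eq_iff_eq_mul, eq_comm]
  have htop : φ.range = ⊤ := by
    by_contra hne
    obtain ⟨C, hC, hIC⟩ := (eq_top_or_exists_le_coatom φ.range).resolve_left hne
    set Y := C.map (Subgroup.center X).subtype with hYdef
    have hYle : Y ≤ Subgroup.center X := Subgroup.map_subtype_le _
    have hCY : Y.subgroupOf (Subgroup.center X) = C := Subgroup.comap_map_eq_self_of_injective (Subgroup.center X).subtype_injective C
    obtain ⟨hn, ⟨-, -, -⟩, hcard⟩ := hY Y hYle (hCY.symm ▸ hC)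
    haveI := hn
    have hcard' : (Subgroup.center X).map (QuotientGroup.mk' Y) = Subgroup.center (X ⧸ Y) := by
      have hle : (Subgroup.center X).map (QuotientGroup.mk' Y) ≤ Subgroup.center (X ⧸ Y) := by
        rintro _ ⟨z, hz, rfl⟩
        rw [Subgroup.mem_center_iff]
        intro g
        obtain ⟨g, rfl⟩ := QuotientGroup.mk'_surjective Y g
        rw [← map_mul, ← map_mul, Subgroup.mem_center_iff.1 hz g]
      refine Subgroup.eq_of_le_of_card_ge hle ?_
      rw [hcard]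
      have hp := Fact.out (p := p.Prime)
      rcases hp.eq_one_or_self_of_dvd _ (hcard ▸ Subgroup.card_dvd_of_le hle) with h | h
      · exfalso
        refine hC.1 ?_
        rw [← hCY, Subgroup.subgroupOf_eq_top]
        intro z hz
        have : QuotientGroup.mk' Y z ∈ (Subgroup.center X).map (QuotientGroup.mk' Y) := ⟨z, hz, rfl⟩
        rw [Subgroup.card_eq_one.1 h, Subgroup.mem_bot] at this
        exact (QuotientGroup.eq_one_iff z).1 this
      · rw [h]
    have hxc : QuotientGroup.mk' Y x ∈ Subgroup.center (X ⧸ Y) := by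
      rw [Subgroup.mem_center_iff]
      intro g
      obtain ⟨g, rfl⟩ := QuotientGroup.mk'_surjective Y g
      have h : x * g * x⁻¹ * g⁻¹ ∈ Y := ⟨φ g, hIC ⟨g, rfl⟩, rfl⟩
      have h1 := (QuotientGroup.eq_one_iff (N := Y) _).2 h
      rw [← map_mul, ← map_mul]
      show ((g * x : X) : X ⧸ Y) = ((x * g : X) : X ⧸ Y)
      rw [show x * g = x * g * x⁻¹ * g⁻¹ * (g * x) by group, QuotientGroup.mk_mul (N := Y) (x * g * x⁻¹ * g⁻¹), h1, one_mul]
    rw [← hcard'] at hxc
    obtain ⟨z, hz, hzx⟩ := hxc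
    refine hx ?_
    have : z⁻¹ * x ∈ Y := QuotientGroup.eq.1 hzx
    simpa using (Subgroup.center X).mul_mem hz (hYle this)
  refine ⟨?_, Set.ext fun z => ⟨?_, fun hz => ?_⟩⟩
  · rw [← hker, Subgroup.index_ker, htop, Subgroup.card_top]
  · rintro ⟨y, rfl⟩
    exact hmem y
  · obtain ⟨y, hy⟩ := (htop.symm ▸ Subgroup.mem_top (⟨z, hz⟩ : Subgroup.center X) : (⟨z, hz⟩ : Subgroup.center X) ∈ φ.range)
    exact ⟨y, (congrArg Subtype.val hy).symm⟩

end Cfsg.Agent.S2907
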