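import Cfsg.Statements.S2908
import Cfsg.Agent.Lib.CoreCoprime
import Cfsg.Agent.Lib.CoreCoprime2

set_option autoImplicit false
open Cfsg
open scoped commutatorElement

namespace Cfsg.Agent.S2908

theorem three_relative {G : Type*} [Group G] {X Y Z R : Subgroup G}
    (hX : X ≤ Subgroup.normalizer (R : Set G)) (hY : Y ≤ Subgroup.normalizer (R : Set G))
    (hZ : Z ≤ Subgroup.normalizer (R : Set G))
    (h1 : ⁅⁅Y, Z⁆, X⁆ ≤ R) (h2 : ⁅⁅Z, X⁆, Y⁆ ≤ R) : ⁅⁅X, Y⁆, Z⁆ ≤ R := by
  set N := Subgroup.normalizer (R : Set G) with hN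
  set f := QuotientGroup.mk' (R.subgroupOf N) with hf
  have key : ∀ U V W : Subgroup G, U ≤ N → V ≤ N → W ≤ N →
      (⁅⁅U, V⁆, W⁆ ≤ R ↔
        ⁅⁅(U.subgroupOf N).map f, (V.subgroupOf N).map f⁆, (W.subgroupOf N).map f⁆ = ⊥) := by
    intro U V W hU hV hW
    rw [← Subgroup.map_commutator, ← Subgroup.map_commutator, Subgroup.map_eq_bot_iff,
      hf, QuotientGroup.ker_mk']
    have h : (⁅⁅U.subgroupOf N, V.subgroupOf N⁆, W.subgroupOf N⁆).map N.subtype = ⁅⁅U, V⁆, W⁆ := by
      rw [Subgroup.map_commutator, Subgroup.map_commutator, Subgroup.map_subgroupOf_eq_of_le hU,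
        Subgroup.map_subgroupOf_eq_of_le hV, Subgroup.map_subgroupOf_eq_of_le hW]
    rw [← h, Subgroup.map_le_iff_le_comap]
    rfl
  rw [key X Y Z hX hY hZ]
  exact Subgroup.commutator_commutator_eq_bot_of_rotate ((key Y Z X hY hZ hX).1 h1)
    ((key Z X Y hZ hX hY).1 h2)


/-- Let P be a p-subgroup of a finite group, normalized by a p-subgroup A and by a subgroup B of order prime to p that commutes elementwise with A. If [P, B] ≤ [P, A], then B centralizes P. -/
theorem result {G : Type*} [Group G] [Finite G] {p : ℕ} [Fact p.Prime] (P A B : Subgroup G) (hP : IsPGroup p ↥P) (hA : IsPGroup p ↥A) (hB : ¬ p ∣ Nat.card ↥B) (hnA : A ≤ Subgroup.normalizer (P : Set G)) (hnB : B ≤ Subgroup.normalizer (P : Set G)) (hAB : ⁅A, B⁆ = ⊥) (hcomm : ⁅P, B⁆ ≤ ⁅P, A⁆) : ⁅P, B⁆ = ⊥ := by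

  set T := P ⊔ A with hTdef
  have hT : IsPGroup p ↥T := by rw [hTdef, sup_comm]; exact hA.to_sup_of_normal_right' hP hnA
  have hnorm : ∀ {X Y C : Subgroup G}, C ≤ Subgroup.normalizer (X : Set G) →
      C ≤ Subgroup.normalizer (Y : Set G) → C ≤ Subgroup.normalizer ((⁅X, Y⁆ : Subgroup G) : Set G) := by
    intro X Y C h1 h2 a ha
    rw [← CfsgLib.Core.conj_smul_eq_self_iff, CfsgLib.Core.conj_smul_eq_map, Subgroup.map_commutator,
      ← CfsgLib.Core.conj_smul_eq_map, ← CfsgLib.Core.conj_smul_eq_map,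
      CfsgLib.Core.conj_smul_of_mem_normalizer (h1 ha), CfsgLib.Core.conj_smul_of_mem_normalizer (h2 ha)]
  have hAB' : ∀ a ∈ A, ∀ b ∈ B, a * b = b * a := fun a ha b hb =>
    ((Subgroup.mem_centralizer_iff.1 ((Subgroup.commutator_eq_bot_iff_le_centralizer.1 hAB) ha)) b hb).symm
  have hBA : B ≤ Subgroup.normalizer (A : Set G) :=
    (Subgroup.le_centralizer_iff.1 (Subgroup.commutator_eq_bot_iff_le_centralizer.1 hAB)).trans
      (CfsgLib.Core.centralizer_le_normalizer A)
  have hBT : B ≤ Subgroup.normalizer (T : Set G) := CfsgLib.Core.le_normalizer_sup hnB hBA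
  have hTP : T ≤ Subgroup.normalizer (P : Set G) := sup_le Subgroup.le_normalizer hnA
  let R : ℕ → Subgroup G := fun i => Nat.rec P (fun _ X => ⁅X, T⁆) i
  have hR0 : R 0 = P := rfl
  have hRs : ∀ i, R (i + 1) = ⁅R i, T⁆ := fun i => rfl
  have hRT : ∀ i, T ≤ Subgroup.normalizer (SetLike.coe (R i)) := by
    intro i
    induction i with
    | zero => exact hTP
    | succ i ih => rw [hRs]; exact hnorm ih Subgroup.le_normalizer
  have hRB : ∀ i, B ≤ Subgroup.normalizer (SetLike.coe (R i)) := by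
    intro i
    induction i with
    | zero => exact hnB
    | succ i ih => rw [hRs]; exact hnorm ih hBT
  have hRlow : ∀ i, R i ≤ T.lowerCentralSeries i := by
    intro i
    induction i with
    | zero => exact (le_sup_left : P ≤ T)
    | succ i ih => rw [hRs, Subgroup.lowerCentralSeries_succ]; exact Subgroup.commutator_mono ih le_rfl
  have hRle : ∀ i, R i ≤ T := fun i =>
    (hRlow i).trans (Subgroup.lowerCentralSeries_antitone T (Nat.zero_le i))
  have hR1 : ⁅T, B⁆ ≤ R 1 := by
    rw [Subgroup.commutator_le]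
    intro t ht b hb
    have hgen : T ≤ Subgroup.normalizer (SetLike.coe (R 1)) := hRT 1
    rw [hTdef, ← Subgroup.closure_eq P, ← Subgroup.closure_eq A, ← Subgroup.closure_union] at ht
    have hcl : Subgroup.closure ((P : Set G) ∪ (A : Set G)) = T := by
      rw [Subgroup.closure_union, Subgroup.closure_eq, Subgroup.closure_eq]
    induction ht using Subgroup.closure_induction with
    | mem y hy =>
      rcases hy with hy | hy
      · exact (hcomm.trans (Subgroup.commutator_mono le_rfl le_sup_right))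
          (Subgroup.commutator_mem_commutator hy hb)
      · rw [commutatorElement_def, hAB' y hy b hb]
        simp
    | one => rw [commutatorElement_def]; simp
    | mul x y hx hy ihx ihy =>
      rw [commutatorElement_def] at ihx ihy ⊢
      rw [show x * y * b * (x * y)⁻¹ * b⁻¹ = x * (y * b * y⁻¹ * b⁻¹) * x⁻¹ * (x * b * x⁻¹ * b⁻¹) by group]
      exact mul_mem ((Subgroup.mem_normalizer_iff.1 (hgen (hcl ▸ hx)) _).1 ihy) ihx
    | inv x hx ihx =>
      rw [commutatorElement_def] at ihx ⊢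
      rw [show x⁻¹ * b * x⁻¹⁻¹ * b⁻¹ = x⁻¹ * (x * b * x⁻¹ * b⁻¹)⁻¹ * x⁻¹⁻¹ by group]
      exact (Subgroup.mem_normalizer_iff.1 (hgen (T.inv_mem (hcl ▸ hx))) _).1 ((R 1).inv_mem ihx)
  have hstep : ∀ i, ⁅R i, B⁆ ≤ R (i + 1) := by
    intro i
    induction i with
    | zero => exact hcomm.trans (Subgroup.commutator_mono le_rfl le_sup_right)
    | succ i ih =>
      have hN : R i ≤ Subgroup.normalizer (SetLike.coe (R (i + 2))) := (hRle i).trans (hRT (i + 2))
      rw [hRs i]
      refine three_relative hN (hRT (i + 2)) (hRB (i + 2)) ?_ ?_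
      · refine le_trans (Subgroup.commutator_mono (hR1.trans (Subgroup.commutator_mono
          (le_sup_left : P ≤ T) le_rfl)) le_rfl) ?_
        refine three_relative (hRT (i + 2)) (hRT (i + 2)) hN ?_ ?_
        · rw [Subgroup.commutator_comm T (R i), ← hRs i]
        · rw [← hRs i]
      · rw [hRs (i + 1)]
        exact Subgroup.commutator_mono (by rw [Subgroup.commutator_comm]; exact ih) le_rfl
  have hcop : (Nat.card ↥B).Coprime (Nat.card ↥P) := by
    obtain ⟨k, hk⟩ := IsPGroup.iff_card.1 hP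
    rw [hk]
    exact (((Fact.out : p.Prime).coprime_iff_not_dvd.2 hB).symm).pow_right k
  have hsol : Group.IsSolvable ↥B ∨ Group.IsSolvable ↥P :=
    Or.inr (by haveI := hP.isNilpotent; infer_instance)
  have hall : ∀ i, ⁅P, B⁆ ≤ R i := by
    intro i
    induction i with
    | zero => exact CfsgLib.Core.commutator_le_of_le_normalizer hnB
    | succ i ih =>
      rw [← CfsgLib.Core.commutator_commutator_eq hnB hcop hsol]
      exact (Subgroup.commutator_mono ih le_rfl).trans (hstep i)
  obtain ⟨n, hn⟩ := (Subgroup.isNilpotent_iff_lowerCentralSeries T).1 hT.isNilpotent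
  exact le_bot_iff.1 (((hall n).trans (hRlow n)).trans hn.le)

end Cfsg.Agent.S2908
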