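import Cfsg.Statements.S2909
import Cfsg.Agent.Lib.CoreCoprime2
import Cfsg.Agent.Lib.CoreGen
import Cfsg.Agent.Lib.CorePGroup

set_option autoImplicit false
open Cfsg
open scoped commutatorElement Pointwise

namespace Cfsg.Agent.S2909



open CfsgLib.Core in
theorem aux_comm_swap {H : Type*} [Group H] {E W P : Subgroup H} [IsMulCommutative E]
    (hWE : W ≤ Subgroup.normalizer (E : Set H)) (hPE : P ≤ Subgroup.normalizer (E : Set H))
    (hWP : W ≤ Subgroup.centralizer (P : Set H)) : ⁅⁅E, P⁆, W⁆ ≤ ⁅⁅E, W⁆, P⁆ := by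
  have hab : ∀ x ∈ E, ∀ y ∈ E, x * y = y * x := fun x hx y hy => setLike_mul_comm hx hy
  have hEcom : ∀ {x w : H}, x ∈ E → w ∈ Subgroup.normalizer (E : Set H) → ⁅x, w⁆ ∈ E := by
    intro x w hx hw
    have h := (Subgroup.mem_normalizer_iff.mp hw x⁻¹).mp (inv_mem hx)
    rw [show ⁅x, w⁆ = x * (w * x⁻¹ * w⁻¹) by rw [commutatorElement_def]; group]
    exact mul_mem hx h
  let S : Subgroup H :=
    { carrier := {x | x ∈ E ∧ ∀ w ∈ W, ⁅x, w⁆ ∈ ⁅⁅E, W⁆, P⁆}
      one_mem' := ⟨one_mem _, fun w _ => by simp⟩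
      mul_mem' := by
        rintro x y ⟨hx, hx'⟩ ⟨hy, hy'⟩
        refine ⟨mul_mem hx hy, fun w hw => ?_⟩
        rw [show ⁅x * y, w⁆ = (x * ⁅y, w⁆) * x⁻¹ * ⁅x, w⁆ by
          simp only [commutatorElement_def]; group, hab x hx _ (hEcom hy (hWE hw)), mul_inv_cancel_right]
        exact mul_mem (hy' w hw) (hx' w hw)
      inv_mem' := by
        rintro x ⟨hx, hx'⟩
        refine ⟨inv_mem hx, fun w hw => ?_⟩
        rw [show ⁅x⁻¹, w⁆ = x⁻¹ * ⁅x, w⁆⁻¹ * x by simp only [commutatorElement_def]; group,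
          hab x⁻¹ (inv_mem hx) _ (inv_mem (hEcom hx (hWE hw))), mul_assoc, inv_mul_cancel, mul_one]
        exact inv_mem (hx' w hw) }
  have hS : ⁅E, P⁆ ≤ S := by
    rw [Subgroup.commutator_le]
    intro e he v hv
    refine ⟨hEcom he (hPE hv), fun w hw => ?_⟩
    have hc : v * w = w * v := Subgroup.mem_centralizer_iff.mp (hWP hw) v hv
    have key : ⁅⁅e, v⁆, w⁆ = ⁅⁅e, w⁆, v⁆ := by
      have hv' : v * e⁻¹ * v⁻¹ ∈ E := (Subgroup.mem_normalizer_iff.mp (hPE hv) _).mp (inv_mem he)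
      have hw' : w * e⁻¹ * w⁻¹ ∈ E := (Subgroup.mem_normalizer_iff.mp (hWE hw) _).mp (inv_mem he)
      have hvw : w * (v * e⁻¹ * v⁻¹)⁻¹ * w⁻¹ ∈ E :=
        (Subgroup.mem_normalizer_iff.mp (hWE hw) _).mp (inv_mem hv')
      have h1 : ⁅⁅e, v⁆, w⁆ = e * (v * e⁻¹ * v⁻¹) * (w * (v * e⁻¹ * v⁻¹)⁻¹ * w⁻¹) * (w * e⁻¹ * w⁻¹) := by
        simp only [commutatorElement_def]; group
      have h2 : ⁅⁅e, w⁆, v⁆ = e * (w * e⁻¹ * w⁻¹) * (v * (w * e⁻¹ * w⁻¹)⁻¹ * v⁻¹) * (v * e⁻¹ * v⁻¹) := by
        simp only [commutatorElement_def]; group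
      have h3 : v * (w * e⁻¹ * w⁻¹)⁻¹ * v⁻¹ = w * (v * e⁻¹ * v⁻¹)⁻¹ * w⁻¹ := by
        calc v * (w * e⁻¹ * w⁻¹)⁻¹ * v⁻¹ = (v * w) * e * (v * w)⁻¹ := by group
          _ = (w * v) * e * (w * v)⁻¹ := by rw [hc]
          _ = w * (v * e⁻¹ * v⁻¹)⁻¹ * w⁻¹ := by group
      rw [h1, h2, h3]
      generalize w * (v * e⁻¹ * v⁻¹)⁻¹ * w⁻¹ = c at hvw ⊢
      generalize w * e⁻¹ * w⁻¹ = b at hw' ⊢
      generalize v * e⁻¹ * v⁻¹ = a at hv' ⊢
      calc e * a * c * b = e * (a * (c * b)) := by group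
        _ = e * ((c * b) * a) := by rw [hab a hv' _ (mul_mem hvw hw')]
        _ = e * ((b * c) * a) := by rw [hab c hvw b hw']
        _ = e * b * c * a := by group
    rw [key]
    exact Subgroup.commutator_mem_commutator (Subgroup.commutator_mem_commutator he hw) hv
  rw [Subgroup.commutator_le]
  intro x hx w hw
  exact (hS hx).2 w hw

open CfsgLib.Core in
theorem aux_case_two {G : Type*} [Group G] [Finite G] {p : ℕ} [Fact p.Prime] {E W P : Subgroup G}
    [E.Normal] (hE : IsPGroup p E) (hP : IsPGroup p P) (hW : (Nat.card W).Coprime p)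
    (hWP : W ≤ Subgroup.centralizer (P : Set G)) (h : ⁅E, W⁆ ≤ ⁅E, P⁆) :
    W ≤ Subgroup.centralizer (E : Set G) := by
  set Φ := (frattini E).map E.subtype with hΦ
  haveI : Φ.Normal := inferInstance
  let π := QuotientGroup.mk' Φ
  set Eb := E.map π with hEb
  haveI : Eb.Normal := Subgroup.Normal.map inferInstance π (QuotientGroup.mk'_surjective Φ)
  haveI : IsMulCommutative Eb := by
    refine ⟨⟨fun ⟨a, ha⟩ ⟨b, hb⟩ => Subtype.ext ?_⟩⟩
    obtain ⟨x, hx, rfl⟩ := Subgroup.mem_map.mp ha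
    obtain ⟨y, hy, rfl⟩ := Subgroup.mem_map.mp hb
    have hxy : ⁅x, y⁆ ∈ Φ := Subgroup.map_mono (pgroup_commutator_le_frattini hE)
      (by rw [Subgroup.map_subtype_commutator]; exact Subgroup.commutator_mem_commutator hx hy)
    have h1 : π ⁅x, y⁆ = 1 := (QuotientGroup.eq_one_iff _).mpr hxy
    rw [map_commutatorElement] at h1
    exact commutatorElement_eq_one_iff_mul_comm.mp h1
  set Pb := P.map π with hPb
  set Wb := W.map π with hWb
  have hnE : ∀ A : Subgroup (G ⧸ Φ), A ≤ Subgroup.normalizer (Eb : Set (G ⧸ Φ)) := fun A => by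
    rw [Subgroup.normalizer_eq_top]; exact le_top
  have hWPb : Wb ≤ Subgroup.centralizer (Pb : Set (G ⧸ Φ)) := by
    rw [← Subgroup.commutator_eq_bot_iff_le_centralizer, hWb, hPb, ← Subgroup.map_commutator,
      Subgroup.commutator_eq_bot_iff_le_centralizer.mpr hWP, Subgroup.map_bot]
  have hcop : (Nat.card Wb).Coprime (Nat.card Eb) := by
    obtain ⟨k, hk⟩ := IsPGroup.iff_card.mp (hE.map π)
    rw [hk]
    exact (hW.pow_right k).coprime_dvd_left (W.card_map_dvd π)
  have hsol : Group.IsSolvable Wb ∨ Group.IsSolvable Eb :=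
    Or.inr (by haveI := (hE.map π).isNilpotent; infer_instance)
  set L := ⁅Eb, Wb⁆ with hL
  have hLE : L ≤ Eb := commutator_le_of_le_normalizer (hnE Wb)
  have hPn : Pb ≤ Subgroup.normalizer (L : Set (G ⧸ Φ)) :=
    le_normalizer_commutator (hnE Pb)
      ((Subgroup.le_centralizer_iff.mp hWPb).trans (centralizer_le_normalizer Wb))
  have hLL : L ≤ ⁅L, Pb⁆ := by
    calc L = ⁅L, Wb⁆ := (commutator_commutator_eq (hnE Wb) hcop hsol).symm
      _ ≤ ⁅⁅Eb, Pb⁆, Wb⁆ := Subgroup.commutator_mono (by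
          rw [hL, hEb, hWb, hPb, ← Subgroup.map_commutator, ← Subgroup.map_commutator]
          exact Subgroup.map_mono h) le_rfl
      _ ≤ ⁅L, Pb⁆ := aux_comm_swap (hnE Wb) (hnE Pb) hWPb
  have hLbot : L = ⊥ := by
    by_contra hne
    exact commutator_lt_of_isPGroup ((hE.map π).to_le hLE) (hP.map π) hPn hne
      (le_antisymm (commutator_le_of_le_normalizer hPn) hLL)
  refine le_centralizer_of_trivial_mod_frattini ?_ ?_ fun a ha k hk => ?_
  · rw [Subgroup.normalizer_eq_top]; exact le_top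
  · obtain ⟨k, hk⟩ := IsPGroup.iff_card.mp (hE.to_subgroup (frattini E))
    rw [hk]; exact hW.pow_right k
  · have h1 : ⁅π k, π a⁆ ∈ L := Subgroup.commutator_mem_commutator
      (Subgroup.mem_map_of_mem π hk) (Subgroup.mem_map_of_mem π ha)
    rw [hLbot, Subgroup.mem_bot, ← map_commutatorElement] at h1
    have h2 := (QuotientGroup.eq_one_iff _).mp h1
    rw [show a * k * a⁻¹ * k⁻¹ = ⁅k, a⁆⁻¹ by simp only [commutatorElement_def]; group]
    exact inv_mem h2

/-- Let p be a prime, E a normal p-subgroup of the finite group G, and U a non-cyclic elementary abelian p-subgroup of G such that either C_E(U) = C_E(u) for every nontrivial u ∈ U, or [E, U] = [E, ⟨u⟩] for every nontrivial u ∈ U. If R is a subgroup of order prime to p normalized by U, then [R, U] centralizes E. -/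
theorem result {G : Type*} [Group G] [Finite G] {p : ℕ} [Fact p.Prime] (E : Subgroup G) [E.Normal] (hE : IsPGroup p ↥E) (U : Subgroup G) (hU : Cfsg.IsElementaryAbelian p U) (hnc : ¬ IsCyclic ↥U) (hcond : (∀ u ∈ U, u ≠ 1 → E ⊓ Subgroup.centralizer (U : Set G) = E ⊓ Subgroup.centralizer ({u} : Set G)) ∨ (∀ u ∈ U, u ≠ 1 → ⁅E, U⁆ = ⁅E, Subgroup.zpowers u⁆)) (R : Subgroup G) (hR : ¬ p ∣ Nat.card ↥R) (hRU : U ≤ Subgroup.normalizer (R : Set G)) : ⁅R, U⁆ ≤ Subgroup.centralizer (E : Set G) := by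
  haveI := hU.1
  have hUp : IsPGroup p U := fun ⟨x, hx⟩ => ⟨1, by simpa [Subtype.ext_iff] using hU.2 x hx⟩
  have hcop : (Nat.card U).Coprime (Nat.card R) := by
    obtain ⟨k, hk⟩ := IsPGroup.iff_card.mp hUp
    rw [hk]
    exact ((Nat.Prime.coprime_iff_not_dvd Fact.out).mpr hR).pow_left k
  -- the key step
  have key : ∀ u ∈ U, u ≠ 1 → ∀ r ∈ R ⊓ Subgroup.centralizer ({u} : Set G), ∀ v ∈ U,
      ⁅r, v⁆ ∈ Subgroup.centralizer (E : Set G) := by
    intro u hu hu1 r hr v hv
    set C := R ⊓ Subgroup.centralizer ({u} : Set G) with hC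
    set W := ⁅C, U⁆ with hW
    have huv : ∀ x ∈ U, x ∈ Subgroup.centralizer ({u} : Set G) := fun x hx =>
      Subgroup.mem_centralizer_singleton_iff.mpr (setLike_mul_comm hx hu)
    have hWR : W ≤ R := (Subgroup.commutator_mono inf_le_left le_rfl).trans
      (CfsgLib.Core.commutator_le_of_le_normalizer hRU)
    have hWc : (Nat.card W).Coprime p :=
      (((Nat.Prime.coprime_iff_not_dvd Fact.out).mpr hR).symm).coprime_dvd_left
        (Subgroup.card_dvd_of_le hWR)
    have hWu : W ≤ Subgroup.centralizer (Subgroup.zpowers u : Set G) := by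
      rw [Subgroup.zpowers_eq_closure, Subgroup.centralizer_closure]
      exact Subgroup.commutator_le.mpr fun a ha b hb => by
        rw [commutatorElement_def]
        exact mul_mem (mul_mem (mul_mem ha.2 (huv b hb)) (inv_mem ha.2)) (inv_mem (huv b hb))
    have hu_p : IsPGroup p (Subgroup.zpowers u) :=
      hUp.to_le (Subgroup.zpowers_le.mpr hu)
    suffices W ≤ Subgroup.centralizer (E : Set G) from this (Subgroup.commutator_mem_commutator hr hv)
    rcases hcond with h1 | h2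
    · refine CfsgLib.Core.thompson_pxq hu_p hWc hE (Subgroup.le_centralizer_iff.mp hWu)
        (by rw [Subgroup.normalizer_eq_top]; exact le_top)
        (by rw [Subgroup.normalizer_eq_top]; exact le_top) ?_
      rw [Subgroup.le_centralizer_iff, Subgroup.zpowers_eq_closure, Subgroup.centralizer_closure,
        ← h1 u hu hu1, hW, Subgroup.commutator_le]
      intro a ha b hb
      rw [Subgroup.mem_centralizer_iff]
      intro e he
      have he' : a⁻¹ * e * a ∈ E ⊓ Subgroup.centralizer (U : Set G) := by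
        rw [h1 u hu hu1]
        have heu : e ∈ E ⊓ Subgroup.centralizer ({u} : Set G) := h1 u hu hu1 ▸ he
        exact Subgroup.mem_inf.mpr ⟨Subgroup.Normal.conj_mem' inferInstance e he.1 a,
          mul_mem (mul_mem (inv_mem ha.2) heu.2) ha.2⟩
      have hb1 := Subgroup.mem_centralizer_iff.mp he'.2 b hb
      have hb2 := Subgroup.mem_centralizer_iff.mp he.2 b⁻¹ (inv_mem hb)
      have hb3 : a * b * a⁻¹ * e = e * (a * b * a⁻¹) := by
        calc a * b * a⁻¹ * e = a * (b * (a⁻¹ * e * a)) * a⁻¹ := by group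
          _ = a * ((a⁻¹ * e * a) * b) * a⁻¹ := by rw [hb1]
          _ = e * (a * b * a⁻¹) := by group
      rw [commutatorElement_def]
      change e * (a * b * a⁻¹ * b⁻¹) = (a * b * a⁻¹ * b⁻¹) * e
      rw [← mul_assoc, ← hb3, mul_assoc (a * b * a⁻¹), ← hb2, ← mul_assoc]
    · refine aux_case_two hE hu_p hWc hWu ?_
      set F := ⁅E, Subgroup.zpowers u⁆ with hF
      have hFU : F = ⁅E, U⁆ := (h2 u hu hu1).symm
      have hnE : ∀ A : Subgroup G, A ≤ Subgroup.normalizer (E : Set G) := fun A => by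
        rw [Subgroup.normalizer_eq_top]; exact le_top
      have hEn : E ≤ Subgroup.normalizer (F : Set G) :=
        CfsgLib.Core.le_normalizer_commutator_left E _
      have hUn : U ≤ Subgroup.normalizer (F : Set G) :=
        hFU ▸ CfsgLib.Core.le_normalizer_commutator_right E U
      have hCn : C ≤ Subgroup.normalizer (F : Set G) := by
        refine CfsgLib.Core.le_normalizer_commutator (hnE C) ?_
        refine (le_trans ?_ (CfsgLib.Core.centralizer_le_normalizer _))
        rw [Subgroup.zpowers_eq_closure, Subgroup.centralizer_closure]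
        exact inf_le_right
      -- the elements of `N(F)` acting trivially on `E` modulo `F`
      let T : Subgroup G :=
        { carrier := {g | g ∈ Subgroup.normalizer (F : Set G) ∧ ∀ e ∈ E, ⁅e, g⁆ ∈ F}
          one_mem' := ⟨one_mem _, fun e _ => by simp⟩
          mul_mem' := by
            rintro g g' ⟨hg, hg'⟩ ⟨hk, hk'⟩
            refine ⟨mul_mem hg hk, fun e he => ?_⟩
            rw [show ⁅e, g * g'⁆ = ⁅e, g⁆ * (g * ⁅e, g'⁆ * g⁻¹) by
              simp only [commutatorElement_def]; group]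
            exact mul_mem (hg' e he) ((Subgroup.mem_normalizer_iff.mp hg _).mp (hk' e he))
          inv_mem' := by
            rintro g ⟨hg, hg'⟩
            refine ⟨inv_mem hg, fun e he => ?_⟩
            rw [show ⁅e, g⁻¹⁆ = g⁻¹ * ⁅e, g⁆⁻¹ * g⁻¹⁻¹ by simp only [commutatorElement_def]; group]
            exact (Subgroup.mem_normalizer_iff.mp (inv_mem hg) _).mp (inv_mem (hg' e he)) }
      have hUT : U ≤ T := fun x hx => ⟨hUn hx, fun e he => hFU ▸ Subgroup.commutator_mem_commutator he hx⟩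
      have hWT : W ≤ T := Subgroup.commutator_le.mpr fun a ha b hb => by
        have hab : a * b * a⁻¹ ∈ T := by
          refine ⟨mul_mem (mul_mem (hCn ha) (hUn hb)) (inv_mem (hCn ha)), fun e he => ?_⟩
          have h3 := (hUT hb).2 (a⁻¹ * e * a) (Subgroup.Normal.conj_mem' inferInstance e he a)
          rw [show ⁅e, a * b * a⁻¹⁆ = a * ⁅a⁻¹ * e * a, b⁆ * a⁻¹ by
            simp only [commutatorElement_def]; group]
          exact (Subgroup.mem_normalizer_iff.mp (hCn ha) _).mp h3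
        rw [commutatorElement_def]
        exact mul_mem hab (inv_mem (hUT hb))
      exact Subgroup.commutator_le.mpr fun e he w hw => (hWT hw).2 e he
  -- generation
  let T : Subgroup G :=
    { carrier := {g | ∀ v ∈ U, ⁅g, v⁆ ∈ Subgroup.centralizer (E : Set G)}
      one_mem' := fun v _ => by simp
      mul_mem' := by
        intro g g' hg hg' v hv
        rw [show ⁅g * g', v⁆ = g * ⁅g', v⁆ * g⁻¹ * ⁅g, v⁆ by simp only [commutatorElement_def]; group]
        exact mul_mem (Subgroup.Normal.conj_mem inferInstance _ (hg' v hv) g) (hg v hv)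
      inv_mem' := by
        intro g hg v hv
        rw [show ⁅g⁻¹, v⁆ = g⁻¹ * ⁅g, v⁆⁻¹ * g⁻¹⁻¹ by simp only [commutatorElement_def]; group]
        exact Subgroup.Normal.conj_mem inferInstance _ (inv_mem (hg v hv)) g⁻¹ }
  have hRT : R ≤ T := by
    refine le_trans (CfsgLib.Core.generated_by_centralizers hnc hRU hcop).ge
      (iSup₂_le fun u hu r hr v hv => key u hu.1 hu.2 r hr v hv)
  exact Subgroup.commutator_le.mpr fun r hr v hv => hRT hr v hv

end Cfsg.Agent.S2909
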