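import Cfsg.Statements.S2911
import Cfsg.Agent.Lib.TransferApps

set_option autoImplicit false
open Cfsg

namespace Cfsg.Agent.S2911


abbrev P := Multiplicative (ZMod 2) × DihedralGroup 4

def rotPart : DihedralGroup 4 → ZMod 2
  | .r i => (i.val : ZMod 2)
  | .sr i => (i.val : ZMod 2)

def refPart : DihedralGroup 4 → ZMod 2
  | .r _ => 0
  | .sr _ => 1

theorem cover {a b d e a' b' d' e' : Prop} (h1 : a ∨ b) (h2 : d ∨ e) (h3 : a ∨ e) (h4 : b ∨ d)
    (k1 : a' ∨ b') (k2 : d' ∨ e') (k3 : a' ∨ e') (k4 : b' ∨ d')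
    (x1 : a → ¬ a') (x2 : b → ¬ b') (x3 : d → ¬ d') (x4 : e → ¬ e') :
    (a ∨ a') ∧ (b ∨ b') ∧ (d ∨ d') ∧ (e ∨ e') := by
  tauto

/-- The eight characters, indexed by their values at `c`, `r`, `s`. -/
def chi (a b d : ZMod 2) : P →* Multiplicative (ZMod 2) :=
  MonoidHom.mk' (fun x => Multiplicative.ofAdd
    (a * Multiplicative.toAdd x.1 + b * rotPart x.2 + d * refPart x.2))
    (by revert a b d; decide)

def c : P := (Multiplicative.ofAdd 1, 1)
def z : P := (1, DihedralGroup.r 2)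
def s (i : ZMod 4) : P := (1, DihedralGroup.sr i)
def cs (i : ZMod 4) : P := (Multiplicative.ofAdd 1, DihedralGroup.sr i)


set_option maxHeartbeats 250000 in
/-- A finite group whose Sylow 2-subgroups are isomorphic to the direct product of a group of order 2 and a dihedral group of order 8 has a subgroup of index two. -/
theorem result {G : Type*} [Group G] [Finite G] (S : Sylow 2 G) (hS : Nonempty (↥(S : Subgroup G) ≃* Multiplicative (ZMod 2) × DihedralGroup 4)) : ∃ H : Subgroup G, H.index = 2 := by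
  classical
  obtain ⟨e⟩ := hS
  set f : P →* G := (S : Subgroup G).subtype.comp e.symm.toMonoidHom with hf
  have hfS : ∀ x, f x ∈ (S : Subgroup G) := fun x => (e.symm x).2
  have hfi : Function.Injective f := Subtype.val_injective.comp e.symm.injective
  have hfsurj : ∀ x ∈ (S : Subgroup G), ∃ u, f u = x := fun x hx => ⟨e ⟨x, hx⟩, by simp [hf]⟩
  have hof : ∀ u : P, u ≠ 1 → u * u = 1 → orderOf (f u) = 2 := fun u h1 h2 =>
    orderOf_eq_prime (by rw [pow_two, ← map_mul, h2, map_one])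
      fun h => h1 (hfi (h.trans (map_one f).symm))
  by_contra hno
  push Not at hno
  set R := fun x y : P => ∃ g : G, g * f x * g⁻¹ = f y with hR
  have hRr : ∀ x, R x x := fun x => ⟨1, by group⟩
  have hRs : ∀ {x y}, R x y → R y x := fun ⟨g, hg⟩ => ⟨g⁻¹, by rw [← hg]; group⟩
  have hRt : ∀ {x y w}, R x y → R y w → R x w :=
    fun ⟨g, hg⟩ ⟨k, hk⟩ => ⟨k * g, by rw [← hk, ← hg]; group⟩
  have hRc : ∀ x u : P, R x (u * x * u⁻¹) := fun x u => ⟨f u, by rw [map_mul, map_mul, map_inv]⟩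
  -- transfer
  have htr : ∀ (a b d : ZMod 2) (y : P), y ≠ 1 → y * y = 1 → chi a b d y ≠ 1 →
      ∃ x, chi a b d x = 1 ∧ x ≠ 1 ∧ x * x = 1 ∧ R y x := by
    intro a b d y hy1 hy2 hyc
    set Q := (chi a b d).ker.map f with hQ
    have hQS : Q ≤ (S : Subgroup G) := by
      rintro _ ⟨u, -, rfl⟩; exact hfS u
    have hrange : (S : Subgroup G) = (⊤ : Subgroup P).map f := by
      ext x
      refine ⟨fun hx => ?_, ?_⟩
      · obtain ⟨u, rfl⟩ := hfsurj x hx
        exact ⟨u, trivial, rfl⟩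
      · rintro ⟨u, -, rfl⟩; exact hfS u
    have hQi : Q.relIndex (S : Subgroup G) = 2 := by
      rw [hQ, hrange, Subgroup.relIndex_map_map_of_injective _ _ hfi, Subgroup.relIndex_top_right,
        Subgroup.index_ker]
      have h2 : Nat.card (Multiplicative (ZMod 2)) = 2 := by simp
      rcases (Nat.dvd_prime Nat.prime_two).mp (h2 ▸ Subgroup.card_subgroup_dvd_card (chi a b d).range)
        with h | h
      · exact absurd (Subgroup.mem_bot.mp ((Subgroup.card_eq_one.mp h).le ⟨y, rfl⟩)) hyc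
      · exact h
    have hyQ : f y ∉ Q := fun ⟨u, hu, he⟩ => hyc (MonoidHom.mem_ker.mp (hfi he ▸ hu))
    rcases CfsgLib.Transfer.thompson_transfer S Q hQS hQi (f y) (hof y hy1 hy2) (hfS y) hyQ with
      ⟨M, -, hM, -⟩ | ⟨g, u, hu, he⟩
    · exact absurd hM (hno M)
    · have hxo : orderOf (f u) = 2 := by
        rw [he]
        exact (orderOf_injective (MulAut.conj g).toMonoidHom (MulAut.conj g).injective (f y)).trans
          (hof y hy1 hy2)
      refine ⟨u, MonoidHom.mem_ker.mp hu, fun h => ?_, hfi ?_, g, he.symm⟩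
      · rw [h, map_one, orderOf_one] at hxo; omega
      · have := pow_orderOf_eq_one (f u)
        rw [hxo, pow_two] at this
        rw [map_mul, map_one, this]
  -- central elements
  have hcen : ∀ x y : P, (∀ u, u * x = x * u) → (∀ u, u * y = y * u) →
      ∀ g : G, g * f x * g⁻¹ = f y → ∃ n ∈ Subgroup.normalizer ((S : Subgroup G) : Set G),
        n * f x * n⁻¹ = f y := by
    intro x y hx hy g hg
    have hmem : ∀ u : P, (∀ v, v * u = u * v) → f u ∈ Subgroup.centralizer ((S : Subgroup G) : Set G) :=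
      fun u hu => Subgroup.mem_centralizer_iff.mpr fun k hk => by
        obtain ⟨v, rfl⟩ := hfsurj k hk
        rw [← map_mul, ← map_mul, hu v]
    obtain ⟨n, hn, he⟩ := S.conj_eq_normalizer_conj_of_mem_centralizer (f x) g⁻¹ (hmem x hx)
      (by rw [inv_inv, hg]; exact hmem y hy)
    refine ⟨n⁻¹, inv_mem hn, ?_⟩
    rw [inv_inv, ← he, inv_inv, hg]
  have hznorm : ∀ n ∈ Subgroup.normalizer ((S : Subgroup G) : Set G), n * f z * n⁻¹ = f z := by
    intro n hn
    have hm : ∀ u : P, ∃ v, f v = n * f u * n⁻¹ := fun u =>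
      hfsurj _ ((Subgroup.mem_normalizer_iff.mp hn _).mp (hfS u))
    obtain ⟨a, ha⟩ := hm (1, DihedralGroup.sr 0)
    obtain ⟨b, hb⟩ := hm (1, DihedralGroup.r 1)
    have hz : z = ((1, DihedralGroup.sr 0) : P) * (1, DihedralGroup.r 1) *
        ((1, DihedralGroup.sr 0) : P)⁻¹ * ((1, DihedralGroup.r 1) : P)⁻¹ := by decide
    have hcomm : ∀ a b : P, a * b * a⁻¹ * b⁻¹ = 1 ∨ a * b * a⁻¹ * b⁻¹ = z := by decide
    have he : n * f z * n⁻¹ = f (a * b * a⁻¹ * b⁻¹) := by
      rw [hz]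
      simp only [map_mul, map_inv, ha, hb]
      group
    rcases hcomm a b with h | h
    · rw [h, map_one] at he
      exact absurd (hfi (show f z = f 1 by
        rw [map_one]
        calc f z = n⁻¹ * (n * f z * n⁻¹) * n := by group
          _ = 1 := by rw [he]; group)) (by decide)
    · rw [he, h]
  have hzc : ¬ R c z := by
    rintro ⟨g, hg⟩
    obtain ⟨n, hn, he⟩ := hcen c z (by decide) (by decide) g hg
    exact absurd (hfi (mul_left_cancel (mul_right_cancel (he.trans (hznorm n hn).symm)))) (by decide)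
  have hzcz : ¬ R (c * z) z := by
    rintro ⟨g, hg⟩
    obtain ⟨n, hn, he⟩ := hcen (c * z) z (by decide) (by decide) g hg
    exact absurd (hfi (mul_left_cancel (mul_right_cancel (he.trans (hznorm n hn).symm)))) (by decide)
  have hconjc : ∀ v : P, v * c * v⁻¹ ≠ c * z := by decide
  have hccz : ¬ R c (c * z) := by
    rintro ⟨g, hg⟩
    obtain ⟨n, hn, he⟩ := hcen c (c * z) (by decide) (by decide) g hg
    have hflip : n * f (c * z) * n⁻¹ = f c := by
      rw [map_mul, show n * (f c * f z) * n⁻¹ = (n * f c * n⁻¹) * (n * f z * n⁻¹) by group, he,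
        hznorm n hn, ← map_mul, show c * z * z = c by decide]
    have hk : ∀ k : ℕ, n ^ (2 * k + 1) * f c * (n ^ (2 * k + 1))⁻¹ = f (c * z) := by
      intro k
      induction k with
      | zero => simpa using he
      | succ k ih =>
        rw [show 2 * (k + 1) + 1 = 2 + (2 * k + 1) by omega, pow_add, mul_inv_rev,
          show n ^ 2 * n ^ (2 * k + 1) * f c * ((n ^ (2 * k + 1))⁻¹ * (n ^ 2)⁻¹) =
            n ^ 2 * (n ^ (2 * k + 1) * f c * (n ^ (2 * k + 1))⁻¹) * (n ^ 2)⁻¹ by group, ih, pow_two,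
          show n * n * f (c * z) * (n * n)⁻¹ = n * (n * f (c * z) * n⁻¹) * n⁻¹ by group, hflip, he]
    obtain ⟨a, m, hm, hnam⟩ := Nat.exists_eq_two_pow_mul_odd (orderOf_pos n).ne'
    obtain ⟨k, rfl⟩ := hm
    have hp : IsPGroup 2 ↥(Subgroup.zpowers (n ^ (2 * k + 1))) := by
      obtain ⟨b, -, hb⟩ := (Nat.dvd_prime_pow Nat.prime_two).mp
        (orderOf_dvd_of_pow_eq_one (show (n ^ (2 * k + 1)) ^ (2 ^ a) = 1 by
          rw [← pow_mul, mul_comm, ← hnam, pow_orderOf_eq_one]))
      exact IsPGroup.of_card (n := b) (by rw [Nat.card_zpowers, hb])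
    have hmS : n ^ (2 * k + 1) ∈ (S : Subgroup G) := by
      have hN : Subgroup.zpowers (n ^ (2 * k + 1)) ≤ Subgroup.normalizer ((S : Subgroup G) : Set G) :=
        Subgroup.zpowers_le.mpr (pow_mem hn _)
      rw [← S.3 (hp.to_sup_of_normal_right' S.isPGroup' hN) le_sup_right]
      exact Subgroup.mem_sup_left (Subgroup.mem_zpowers _)
    obtain ⟨v, hv⟩ := hfsurj _ hmS
    have h := hk k
    rw [← hv, ← map_inv, ← map_mul, ← map_mul] at h
    exact hconjc v (hfi h)
  -- reduction of the involutions to six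
  have hinv : ∀ x : P, x ≠ 1 → x * x = 1 →
      x = z ∨ x = c ∨ x = c * z ∨ x = s 0 ∨ x = s 2 ∨ x = s 1 ∨ x = s 3 ∨
        x = cs 0 ∨ x = cs 2 ∨ x = cs 1 ∨ x = cs 3 := by decide
  have hA : R (s 2) (s 0) := by
    have := hRc (s 2) (1, DihedralGroup.r 1)
    rwa [show ((1, DihedralGroup.r 1) : P) * s 2 * ((1, DihedralGroup.r 1) : P)⁻¹ = s 0 by decide] at this
  have hB : R (s 3) (s 1) := by
    have := hRc (s 3) (1, DihedralGroup.r 1)
    rwa [show ((1, DihedralGroup.r 1) : P) * s 3 * ((1, DihedralGroup.r 1) : P)⁻¹ = s 1 by decide] at this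
  have hC : R (cs 2) (cs 0) := by
    have := hRc (cs 2) (1, DihedralGroup.r 1)
    rwa [show ((1, DihedralGroup.r 1) : P) * cs 2 * ((1, DihedralGroup.r 1) : P)⁻¹ = cs 0 by decide] at this
  have hD : R (cs 3) (cs 1) := by
    have := hRc (cs 3) (1, DihedralGroup.r 1)
    rwa [show ((1, DihedralGroup.r 1) : P) * cs 3 * ((1, DihedralGroup.r 1) : P)⁻¹ = cs 1 by decide] at this
  have hpair : ∀ y, y = c ∨ y = c * z →
      (R y (s 0) ∨ R y (s 1)) ∧ (R y (cs 0) ∨ R y (cs 1)) ∧
      (R y (s 0) ∨ R y (cs 1)) ∧ (R y (s 1) ∨ R y (cs 0)) := by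
    intro y hy
    have hyz : ¬ R y z := by rcases hy with rfl | rfl <;> assumption
    have hy12 : y ≠ 1 ∧ y * y = 1 := by rcases hy with rfl | rfl <;> decide
    have main : ∀ b d : ZMod 2, chi 1 b d y ≠ 1 →
        ∃ x, (x = s 0 ∨ x = s 1 ∨ x = cs 0 ∨ x = cs 1) ∧ chi 1 b d x = 1 ∧ R y x := by
      intro b d hb
      obtain ⟨x, hx, hx1, hx2, hyx⟩ := htr 1 b d y hy12.1 hy12.2 hb
      have hcz' : ∀ b d : ZMod 2, chi 1 b d c ≠ 1 ∧ chi 1 b d (c * z) ≠ 1 ∧
          chi 1 b d (s 2) = chi 1 b d (s 0) ∧ chi 1 b d (s 3) = chi 1 b d (s 1) ∧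
          chi 1 b d (cs 2) = chi 1 b d (cs 0) ∧ chi 1 b d (cs 3) = chi 1 b d (cs 1) := by decide
      obtain ⟨h1, h2, h3, h4, h5, h6⟩ := hcz' b d
      rcases hinv x hx1 hx2 with rfl | rfl | rfl | rfl | rfl | rfl | rfl | rfl | rfl | rfl | rfl
      · exact absurd hyx hyz
      · exact absurd hx h1
      · exact absurd hx h2
      · exact ⟨_, Or.inl rfl, hx, hyx⟩
      · exact ⟨_, Or.inl rfl, h3 ▸ hx, hRt hyx hA⟩
      · exact ⟨_, Or.inr (Or.inl rfl), hx, hyx⟩
      · exact ⟨_, Or.inr (Or.inl rfl), h4 ▸ hx, hRt hyx hB⟩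
      · exact ⟨_, Or.inr (Or.inr (Or.inl rfl)), hx, hyx⟩
      · exact ⟨_, Or.inr (Or.inr (Or.inl rfl)), h5 ▸ hx, hRt hyx hC⟩
      · exact ⟨_, Or.inr (Or.inr (Or.inr rfl)), hx, hyx⟩
      · exact ⟨_, Or.inr (Or.inr (Or.inr rfl)), h6 ▸ hx, hRt hyx hD⟩
    have hne : ∀ b d : ZMod 2, chi 1 b d y ≠ 1 := by rcases hy with rfl | rfl <;> decide
    refine ⟨?_, ?_, ?_, ?_⟩
    · obtain ⟨x, h | h | h | h, hx, hyx⟩ := main 0 0 (hne _ _) <;> subst h
      · exact Or.inl hyx
      · exact Or.inr hyx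
      · exact absurd hx (by decide)
      · exact absurd hx (by decide)
    · obtain ⟨x, h | h | h | h, hx, hyx⟩ := main 0 1 (hne _ _) <;> subst h
      · exact absurd hx (by decide)
      · exact absurd hx (by decide)
      · exact Or.inl hyx
      · exact Or.inr hyx
    · obtain ⟨x, h | h | h | h, hx, hyx⟩ := main 1 0 (hne _ _) <;> subst h
      · exact Or.inl hyx
      · exact absurd hx (by decide)
      · exact absurd hx (by decide)
      · exact Or.inr hyx
    · obtain ⟨x, h | h | h | h, hx, hyx⟩ := main 1 1 (hne _ _) <;> subst h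
      · exact absurd hx (by decide)
      · exact Or.inl hyx
      · exact Or.inr hyx
      · exact absurd hx (by decide)
  obtain ⟨h1, h2, h3, h4⟩ := hpair c (Or.inl rfl)
  obtain ⟨k1, k2, k3, k4⟩ := hpair (c * z) (Or.inr rfl)
  have hdis : ∀ x, R c x → ¬ R (c * z) x := fun x h h' => hccz (hRt h (hRs h'))
  have d0 := hdis (s 0)
  have d1 := hdis (s 1)
  have d2 := hdis (cs 0)
  have d3 := hdis (cs 1)
  obtain ⟨c0, c1, c2, c3⟩ := cover h1 h2 h3 h4 k1 k2 k3 k4 d0 d1 d2 d3
  -- the reflection `s 0` is conjugate to one central involution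
  obtain ⟨y, hy, hys⟩ : ∃ y, (y = c ∨ y = c * z) ∧ R y (s 0) := by
    exact c0.elim (fun h => ⟨c, Or.inl rfl, h⟩) fun h => ⟨c * z, Or.inr rfl, h⟩
  have hz6 : ∀ x : P, x ≠ 1 → x * x = 1 → R z x → x = z := by
    intro x hx1 hx2 hzx
    have n1 : ¬ R z (s 0) := fun h => by
      rcases hy with rfl | rfl
      · exact hzc (hRt hys (hRs h))
      · exact hzcz (hRt hys (hRs h))
    have hany : ∀ w, (R c w ∨ R (c * z) w) → ¬ R z w := fun w h h' => h.elim
      (fun h => hzc (hRt h (hRs h'))) (fun h => hzcz (hRt h (hRs h')))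
    have n2 : ¬ R z (s 1) := hany _ c1
    have n3 : ¬ R z (cs 0) := hany _ c2
    have n4 : ¬ R z (cs 1) := hany _ c3
    rcases hinv x hx1 hx2 with rfl | rfl | rfl | rfl | rfl | rfl | rfl | rfl | rfl | rfl | rfl
    · rfl
    · exact absurd (hRs hzx) hzc
    · exact absurd (hRs hzx) hzcz
    · exact absurd hzx n1
    · exact absurd (hRt hzx hA) n1
    · exact absurd hzx n2
    · exact absurd (hRt hzx hB) n2
    · exact absurd hzx n3
    · exact absurd (hRt hzx hC) n3
    · exact absurd hzx n4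
    · exact absurd (hRt hzx hD) n4
  obtain ⟨g, hg⟩ := hRs hys
  set w := g * f z * g⁻¹ with hw
  have hwc : w * f y = f y * w := by
    rw [hw, ← hg, show g * f z * g⁻¹ * (g * f (s 0) * g⁻¹) = g * (f z * f (s 0)) * g⁻¹ by group,
      ← map_mul, show z * s 0 = s 0 * z by decide, map_mul]
    group
  have hwo : orderOf w = 2 :=
    (orderOf_injective (MulAut.conj g).toMonoidHom (MulAut.conj g).injective (f z)).trans
      (hof z (by decide) (by decide))
  set C := Subgroup.centralizer ({f y} : Set G) with hC'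
  have hyc : ∀ u : P, u * y = y * u := by rcases hy with rfl | rfl <;> decide
  have hSC : (S : Subgroup G) ≤ C := fun x hx => by
    obtain ⟨v, rfl⟩ := hfsurj x hx
    exact Subgroup.mem_centralizer_singleton_iff.mpr (by rw [← map_mul, ← map_mul, hyc v])
  have hwp : IsPGroup 2 ↥(Subgroup.zpowers (⟨w, Subgroup.mem_centralizer_singleton_iff.mpr hwc⟩ : ↥C)) :=
    IsPGroup.of_card (n := 1) (by rw [Nat.card_zpowers, Subgroup.orderOf_mk, hwo, pow_one])
  obtain ⟨T, hT⟩ := hwp.exists_le_sylow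
  obtain ⟨h, hh⟩ := MulAction.exists_smul_eq (↥C) T (S.subtype hSC)
  have hhw : (h : G) * w * (h : G)⁻¹ ∈ (S : Subgroup G) := by
    have hmem : h * ⟨w, Subgroup.mem_centralizer_singleton_iff.mpr hwc⟩ * h⁻¹ ∈
        ((h • T : Sylow 2 ↥C) : Subgroup ↥C) := by
      rw [Sylow.coe_subgroup_smul]
      exact ⟨_, hT (Subgroup.mem_zpowers _), rfl⟩
    rw [hh, Sylow.coe_subtype] at hmem
    exact hmem
  obtain ⟨x, hx⟩ := hfsurj _ hhw
  have hxo : orderOf (f x) = 2 := by
    rw [hx]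
    exact (orderOf_injective (MulAut.conj (h : G)).toMonoidHom (MulAut.conj (h : G)).injective w).trans hwo
  have hx1 : x ≠ 1 := fun e' => by rw [e', map_one, orderOf_one] at hxo; omega
  have hx2 : x * x = 1 := hfi (by
    have := pow_orderOf_eq_one (f x)
    rw [hxo, pow_two] at this
    rw [map_mul, map_one, this])
  have hxz : x = z := hz6 x hx1 hx2 ⟨(h : G) * g, by rw [hx, hw]; group⟩
  -- `s 0 * z` is a conjugate of `s 0`, but it is carried to `y * z`
  have hkey : R (s 0 * z) (y * z) := by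
    refine ⟨(h : G) * g, ?_⟩
    have hhy : (h : G) * f y * (h : G)⁻¹ = f y := by
      rw [Subgroup.mem_centralizer_singleton_iff.mp h.2, mul_inv_cancel_right]
    have hfz : (h : G) * (g * f z * g⁻¹) * (h : G)⁻¹ = f z := by
      rw [← hw, ← hx, hxz]
    calc (h : G) * g * f (s 0 * z) * ((h : G) * g)⁻¹
        = (h : G) * (g * f (s 0) * g⁻¹) * (h : G)⁻¹ * ((h : G) * (g * f z * g⁻¹) * (h : G)⁻¹) := by
          rw [map_mul]; group
      _ = f y * f z := by rw [hg, hhy, hfz]
      _ = f (y * z) := (map_mul f y z).symm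
  have hsz : R (s 0 * z) (s 0) := by rw [show s 0 * z = s 2 by decide]; exact hA
  have hfin : R y (y * z) := hRt hys (hRt (hRs hsz) hkey)
  rcases hy with rfl | rfl
  · exact hccz hfin
  · rw [show c * z * z = c by decide] at hfin
    exact hccz (hRs hfin)


end Cfsg.Agent.S2911
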