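import Cfsg.Statements.S2912
import Cfsg.Agent.Lib.TransferExtraspecialIso
import Cfsg.Agent.Lib.CoreCoprime2
import Cfsg.Agent.Lib.CoreGen
import Cfsg.Agent.Lib.StableReplace

set_option autoImplicit false
open Cfsg
open scoped commutatorElement
universe u v

namespace Cfsg.Agent.S2912

open CfsgLib.Extraspecial in
theorem exists_order_p {p : ℕ} [hp : Fact p.Prime] {P : Type u} [Group P] [Finite P] {z : P} {n : ℕ}
    (h : Ex p z n) (hn : 1 ≤ n) (h2 : p = 2 → 2 ≤ n) : ∃ a, a ∉ Subgroup.zpowers z ∧ a ^ p = 1 := by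
  by_cases hp2 : p = 2
  · subst hp2
    exact Ex.exists_involution h (h2 rfl)
  obtain ⟨a, ha⟩ := h.exists_not_mem hn
  obtain ⟨b, hab⟩ := h.exists_partner ha
  have hzp : orderOf z = p := orderOf_eq_prime h.zp h.zne
  have hodd : p ∣ p.choose 2 := hp.out.dvd_choose_self two_ne_zero
    (lt_of_le_of_ne hp.out.two_le (Ne.symm hp2))
  have hmul : ∀ x y : P, (x * y) ^ p = x ^ p * y ^ p := fun x y => by
    have hc : y * x = ⁅y, x⁆ * (x * y) := by simp only [commutatorElement_def]; group
    rw [CfsgLib.Stable.mul_pow_of_central hc (h.comm_center y x x).eq (h.comm_center y x y).eq p]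
    obtain ⟨t, ht⟩ := hodd
    rw [ht, pow_mul, h.comm_pow_p, one_pow, one_mul]
  by_cases hb : b ^ p = 1
  · refine ⟨b, fun hb' => h.zne ?_, hb⟩
    rw [← hab]
    exact commutatorElement_eq_one_iff_mul_comm.mpr
      (Subgroup.mem_center_iff.mp (h.center_eq.ge hb') a)
  obtain ⟨i, hi⟩ := Subgroup.mem_zpowers_iff.mp (h.pow_mem a)
  -- `b ^ p` generates `zpowers z`
  have hgen : z ∈ Subgroup.zpowers (b ^ p) := by
    have hle : Subgroup.zpowers (b ^ p) ≤ Subgroup.zpowers z := Subgroup.zpowers_le.mpr (h.pow_mem b)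
    have : Subgroup.zpowers (b ^ p) = Subgroup.zpowers z := by
      refine CfsgLib.Core.eq_of_le_of_card_le hle ?_
      rw [Nat.card_zpowers, hzp, Nat.card_zpowers]
      obtain ⟨j, hj⟩ := Subgroup.mem_zpowers_iff.mp (h.pow_mem b)
      exact (orderOf_eq_prime (by rw [← hj, ← zpow_natCast, ← zpow_mul, mul_comm, zpow_mul,
        zpow_natCast, h.zp, one_zpow]) hb).ge
    exact this ▸ Subgroup.mem_zpowers z
  have hap : a ^ p ∈ Subgroup.zpowers (b ^ p) := hi ▸ zpow_mem hgen i
  rw [← mem_powers_iff_mem_zpowers] at hap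
  obtain ⟨k, hk⟩ := hap
  dsimp at hk
  refine ⟨a * (b⁻¹) ^ k, fun hmem => h.zne ?_, ?_⟩
  · have h1 : ⁅a * (b⁻¹) ^ k, b⁆ = 1 := commutatorElement_eq_one_iff_mul_comm.mpr
      (Subgroup.mem_center_iff.mp (h.center_eq.ge hmem) b).symm
    rw [h.commutator_mul_left, hab, commutatorElement_eq_one_iff_mul_comm.mpr
      ((Commute.refl b).inv_left.pow_left k).eq, mul_one] at h1
    exact h1
  · rw [hmul, ← pow_mul, mul_comm, pow_mul, inv_pow, inv_pow, hk, mul_inv_cancel]

theorem iSup_card {G : Type*} [Group G] [Finite G] {V : Subgroup G} [IsMulCommutative V] {ι : Type*}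
    [DecidableEq ι] (W : ι → Subgroup G) (hW : ∀ i, W i ≤ V) (s : Finset ι)
    (hdis : ∀ t : Finset ι, t ⊆ s → ∀ k ∈ s, k ∉ t → W k ⊓ (⨆ i ∈ t, W i) = ⊥) :
    ∏ i ∈ s, Nat.card (W i) ≤ Nat.card ↥(⨆ i ∈ s, W i) := by
  induction s using Finset.induction_on with
  | empty => simp
  | insert k s hk ih =>
    rw [Finset.prod_insert hk, Finset.iSup_insert]
    refine le_trans (Nat.mul_le_mul_left _ (ih fun t ht j hj hjt =>
      hdis t (ht.trans (Finset.subset_insert _ _)) j (Finset.mem_insert_of_mem hj) hjt)) ?_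
    set S := ⨆ i ∈ s, W i
    have hd : W k ⊓ S = ⊥ := hdis s (Finset.subset_insert _ _) k (Finset.mem_insert_self _ _) hk
    rw [← Nat.card_prod]
    refine Nat.card_le_card_of_injective
      (fun q : W k × S => (⟨(q.1 : G) * q.2,
        mul_mem (Subgroup.mem_sup_left q.1.2) (Subgroup.mem_sup_right q.2.2)⟩ : ↥(W k ⊔ S))) ?_
    exact fun q q' he => Subgroup.mul_injective_of_disjoint (disjoint_iff.mpr hd) (Subtype.ext_iff.mp he)

open CfsgLib.Extraspecial in
theorem main_aux {G : Type v} [Group G] [Finite G] {p r : ℕ} [hp : Fact p.Prime] [hr : Fact r.Prime]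
    (hpr : p ≠ r) (n : ℕ) (hn : 1 ≤ n) (hmin : ∀ k : ℕ, 1 ≤ k → p ∣ r ^ k - 1 → n ≤ k) :
    ∀ (w : ℕ) {P : Type u} [Group P] [Finite P] {z : P}, Ex p z w → ∀ (φ : P →* G) (V : Subgroup G),
      Cfsg.IsElementaryAbelian r V → (∀ x, φ x ∈ Subgroup.normalizer (V : Set G)) →
      V ⊓ Subgroup.centralizer {φ z} = ⊥ → V ≠ ⊥ → r ^ (n * p ^ w) ≤ Nat.card V := by
  classical
  intro w
  induction w with
  | zero =>
    intro P _ _ z h φ V hV hN hC hne
    have hVr : IsPGroup r V := fun ⟨x, hx⟩ => ⟨1, by simpa [Subtype.ext_iff] using hV.2 x hx⟩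
    obtain ⟨k, hk⟩ := IsPGroup.iff_card.mp hVr
    have hk1 : 1 ≤ k := by
      rcases Nat.eq_zero_or_pos k with rfl | hk0
      · exact absurd (Subgroup.card_eq_one.mp (by rw [hk, pow_zero])) hne
      · exact hk0
    letI : MulAction (Subgroup.zpowers z) V := MulAction.compHom V
      (V.normalizerMonoidHom.comp ((φ.comp (Subgroup.zpowers z).subtype).codRestrict _ fun x => hN _))
    have hP : IsPGroup p (Subgroup.zpowers z) :=
      IsPGroup.of_card (n := 1) (by rw [Nat.card_zpowers, orderOf_eq_prime h.zp h.zne, pow_one])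
    have hmod := hP.card_modEq_card_fixedPoints V
    have hfix : MulAction.fixedPoints (Subgroup.zpowers z) V = {1} := by
      refine Set.eq_singleton_iff_unique_mem.mpr ⟨fun g => ?_, fun v hv => ?_⟩
      · exact map_one (V.normalizerMonoidHom _)
      · have h' : φ z * (v : G) * (φ z)⁻¹ = v := congrArg Subtype.val (hv ⟨z, Subgroup.mem_zpowers z⟩)
        refine Subtype.ext (Subgroup.mem_bot.mp (hC ▸ Subgroup.mem_inf.mpr ⟨v.2, ?_⟩))
        exact Subgroup.mem_centralizer_singleton_iff.mpr (mul_inv_eq_iff_eq_mul.mp h').symm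
    rw [hfix, Nat.card_coe_set_eq, Set.ncard_singleton, hk] at hmod
    have hdvd : p ∣ r ^ k - 1 := (Nat.modEq_iff_dvd' (Nat.one_le_pow _ _ hr.out.pos)).mp hmod.symm
    rw [hk, pow_zero, mul_one]
    exact Nat.pow_le_pow_right hr.out.pos (hmin k hk1 hdvd)
  | succ w ih =>
    intro P _ _ z h φ V hV hN hC hne
    haveI := hV.1
    have hVr : IsPGroup r V := fun ⟨x, hx⟩ => ⟨1, by simpa [Subtype.ext_iff] using hV.2 x hx⟩
    obtain ⟨k, hk⟩ := IsPGroup.iff_card.mp hVr
    have hz1 : φ z ≠ 1 := fun e => hne (by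
      rw [eq_bot_iff]
      exact fun v hv => hC.le (Subgroup.mem_inf.mpr ⟨hv, Subgroup.mem_centralizer_singleton_iff.mpr (by rw [e]; simp)⟩))
    by_cases hsmall : p = 2 ∧ w = 0
    · obtain ⟨rfl, rfl⟩ := hsmall
      have hn1 : n = 1 := by
        refine le_antisymm (hmin 1 le_rfl ?_) hn
        obtain ⟨t, ht⟩ := hr.out.odd_of_ne_two (fun e => hpr e.symm)
        exact ⟨t, by rw [pow_one]; omega⟩
      subst hn1
      rw [hk]
      refine Nat.pow_le_pow_right hr.out.pos ?_
      by_contra hk2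
      have hk1 : k = 1 := by
        rcases Nat.eq_zero_or_pos k with rfl | hk0
        · exact absurd (Subgroup.card_eq_one.mp (by rw [hk, pow_zero])) hne
        · simp at hk2; omega
      subst hk1
      haveI : IsCyclic V := isCyclic_of_prime_card (by rw [hk, pow_one])
      obtain ⟨a, ha⟩ := h.exists_not_mem le_rfl
      obtain ⟨b, hab⟩ := h.exists_partner ha
      let f := V.normalizerMonoidHom.comp (φ.codRestrict _ hN)
      obtain ⟨i, hi⟩ := MonoidHom.map_cyclic (f a).toMonoidHom
      obtain ⟨j, hj⟩ := MonoidHom.map_cyclic (f b).toMonoidHom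
      have hcomm : f a * f b = f b * f a := MulEquiv.ext fun v => by
        change (f a).toMonoidHom ((f b).toMonoidHom v) = (f b).toMonoidHom ((f a).toMonoidHom v)
        rw [hj v, hi v, map_zpow, map_zpow, hi v, hj v, ← zpow_mul, ← zpow_mul, mul_comm]
      have hfz : f z = 1 := by
        rw [← hab, map_commutatorElement, commutatorElement_eq_one_iff_mul_comm.mpr hcomm]
      refine hne (eq_bot_iff.mpr fun v hv => hC.le (Subgroup.mem_inf.mpr ⟨hv, ?_⟩))
      have h' : φ z * v * (φ z)⁻¹ = v := by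
        have := congrArg (fun e : MulAut V => ((e ⟨v, hv⟩ : V) : G)) hfz
        exact this
      exact Subgroup.mem_centralizer_singleton_iff.mpr (mul_inv_eq_iff_eq_mul.mp h').symm
    obtain ⟨a, haz, hap⟩ := exists_order_p h (Nat.succ_pos w) (fun e => by
      have : w ≠ 0 := fun e' => hsmall ⟨e, e'⟩
      omega)
    obtain ⟨b, hab⟩ := h.exists_partner haz
    obtain ⟨C, hCc, ⟨hzC, -, hEx⟩, -, -⟩ := h.split hab
    rw [Nat.add_sub_cancel] at hEx
    have hba : b * a * b⁻¹ = a * z⁻¹ := by
      rw [(Commute.inv_right (h.central a).symm).eq, ← hab]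
      simp only [commutatorElement_def]
      group
    -- conjugates of `a`
    have hconj : ∀ i : ℕ, b ^ i * a * (b ^ i)⁻¹ = a * (z⁻¹) ^ i := by
      intro i
      induction i with
      | zero => simp
      | succ i ih' =>
        rw [pow_succ', show b * b ^ i * a * (b * b ^ i)⁻¹ = b * (b ^ i * a * (b ^ i)⁻¹) * b⁻¹ by group,
          ih', ← mul_assoc b a, mul_assoc (b * a), (Commute.pow_left ((h.central b⁻¹).inv_left) i).eq,
          ← mul_assoc, hba, mul_assoc, ← pow_succ']
    let W : Fin p → Subgroup G := fun i => V ⊓ Subgroup.centralizer {φ (a * (z⁻¹) ^ (i : ℕ))}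
    have hWV : ∀ i, W i ≤ V := fun i => inf_le_left
    have hVnorm : ∀ x : P, ∀ v ∈ V, φ x * v * (φ x)⁻¹ ∈ V := fun x v hv =>
      (Subgroup.mem_normalizer_iff.mp (hN x) v).mp hv
    let zero : Fin p := ⟨0, hp.out.pos⟩
    have hcard : ∀ i, Nat.card (W i) = Nat.card (W zero) := by
      intro i
      have hmap : W i = (W zero).map (MulAut.conj (φ (b ^ (i : ℕ)))).toMonoidHom := by
        ext x
        rw [Subgroup.mem_map]
        simp only [W, zero, pow_zero, mul_one, Subgroup.mem_inf, Subgroup.mem_centralizer_singleton_iff,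
          MulEquiv.coe_toMonoidHom, MulAut.conj_apply]
        rw [← hconj i, map_mul, map_mul, map_inv]
        constructor
        · rintro ⟨hxV, hxc⟩
          refine ⟨(φ (b ^ (i : ℕ)))⁻¹ * x * φ (b ^ (i : ℕ)), ⟨?_, ?_⟩, by group⟩
          · have := hVnorm (b ^ (i : ℕ))⁻¹ x hxV
            simpa using this
          · calc (φ (b ^ (i : ℕ)))⁻¹ * x * φ (b ^ (i : ℕ)) * φ a
                = (φ (b ^ (i : ℕ)))⁻¹ * (x * (φ (b ^ (i : ℕ)) * φ a * (φ (b ^ (i : ℕ)))⁻¹)) * φ (b ^ (i : ℕ)) := by group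
              _ = (φ (b ^ (i : ℕ)))⁻¹ * ((φ (b ^ (i : ℕ)) * φ a * (φ (b ^ (i : ℕ)))⁻¹) * x) * φ (b ^ (i : ℕ)) := by rw [hxc]
              _ = φ a * ((φ (b ^ (i : ℕ)))⁻¹ * x * φ (b ^ (i : ℕ))) := by group
        · rintro ⟨y, ⟨hyV, hyc⟩, rfl⟩
          refine ⟨hVnorm _ y hyV, ?_⟩
          calc φ (b ^ (i : ℕ)) * y * (φ (b ^ (i : ℕ)))⁻¹ * (φ (b ^ (i : ℕ)) * φ a * (φ (b ^ (i : ℕ)))⁻¹)
              = φ (b ^ (i : ℕ)) * (y * φ a) * (φ (b ^ (i : ℕ)))⁻¹ := by group
            _ = φ (b ^ (i : ℕ)) * (φ a * y) * (φ (b ^ (i : ℕ)))⁻¹ := by rw [hyc]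
            _ = _ := by group
      rw [hmap, Subgroup.card_map_of_injective (MulEquiv.injective _)]
    -- the subgroup generated by `a` and `z`
    have hz1' : (z⁻¹) ≠ 1 := inv_ne_one.mpr h.zne
    have hz'p : (φ z⁻¹) ^ p = 1 := by rw [← map_pow, inv_pow, h.zp, inv_one, map_one]
    have hcz : ∀ x : P, Commute (φ z⁻¹) (φ x) := fun x => ((h.central x).inv_left).map φ
    have hkey : ∀ i j : Fin p, i ≠ j → W i ⊓ W j = ⊥ := by
      intro i j hij
      rw [eq_bot_iff]
      intro v hv
      obtain ⟨⟨hvV, hvi⟩, -, hvj⟩ := hv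
      refine hC.le (Subgroup.mem_inf.mpr ⟨hvV, ?_⟩)
      set D := Subgroup.centralizer ({v} : Set G)
      have hi' : φ (a * z⁻¹ ^ (i : ℕ)) ∈ D :=
        Subgroup.mem_centralizer_singleton_iff.mpr (Subgroup.mem_centralizer_singleton_iff.mp hvi).symm
      have hj' : φ (a * z⁻¹ ^ (j : ℕ)) ∈ D :=
        Subgroup.mem_centralizer_singleton_iff.mpr (Subgroup.mem_centralizer_singleton_iff.mp hvj).symm
      have hd : (φ z⁻¹) ^ (((i : ℕ) : ℤ) - ((j : ℕ) : ℤ)) ∈ D := by
        have := mul_mem (inv_mem hj') hi'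
        rw [map_mul, map_mul, map_pow, map_pow] at this
        rw [zpow_sub, zpow_natCast, zpow_natCast, ← ((Commute.refl (φ z⁻¹)).pow_pow (j : ℕ) (i : ℕ)).inv_left.eq]
        simpa [mul_assoc] using this
      have hord : orderOf (φ z⁻¹) = p :=
        orderOf_eq_prime hz'p (by rw [map_inv]; exact inv_ne_one.mpr hz1)
      have hnd : ¬ (p : ℤ) ∣ ((i : ℕ) : ℤ) - ((j : ℕ) : ℤ) := by
        intro hd'
        refine hij (Fin.ext (Nat.cast_injective (R := ℤ) ?_))
        have := Int.eq_zero_of_abs_lt_dvd hd' (by rw [abs_lt]; omega)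
        omega
      obtain ⟨s, t, hst⟩ := ((Nat.prime_iff_prime_int.mp hp.out).coprime_iff_not_dvd.mpr hnd :
          IsCoprime (p : ℤ) (((i : ℕ) : ℤ) - ((j : ℕ) : ℤ)))
      have hzD : φ z⁻¹ ∈ D := by
        rw [← zpow_one (φ z⁻¹), ← hst, zpow_add, mul_comm s, zpow_mul, zpow_natCast, hz'p, one_zpow,
          one_mul, mul_comm t, zpow_mul]
        exact zpow_mem hd t
      rw [map_inv, inv_mem_iff] at hzD
      exact Subgroup.mem_centralizer_singleton_iff.mpr (Subgroup.mem_centralizer_singleton_iff.mp hzD).symm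
    have hA : ∀ i j : Fin p, Commute (φ (a * z⁻¹ ^ (i : ℕ))) (φ (a * z⁻¹ ^ (j : ℕ))) := fun i j => by
      refine Commute.map ?_ φ
      have hc : Commute a z⁻¹ := (h.central a).symm.inv_right
      exact ((Commute.refl a).mul_left (hc.symm.pow_left _)).mul_right
        ((hc.pow_right _).mul_left ((Commute.refl z⁻¹).pow_pow _ _))
    have hdis : ∀ t : Finset (Fin p), ∀ j ∉ t, W j ⊓ (⨆ i ∈ t, W i) = ⊥ := by
      intro t
      induction t using Finset.induction_on with
      | empty => intro j _; simp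
      | insert l t hl iht =>
        intro j hj
        rw [Finset.mem_insert, not_or] at hj
        rw [eq_bot_iff, Finset.iSup_insert]
        intro x hx
        obtain ⟨hxj, hxs⟩ := Subgroup.mem_inf.mp hx
        have hle : (⨆ i ∈ t, W i) ≤ V := iSup₂_le fun i _ => hWV i
        have hle' : W l ≤ Subgroup.normalizer ((⨆ i ∈ t, W i : Subgroup G) : Set G) := fun u hu => by
          refine Subgroup.centralizer_le_normalizer _ (Subgroup.mem_centralizer_iff.mpr fun y hy => ?_)
          exact setLike_mul_comm (hle hy) (hWV l hu)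
        obtain ⟨u, hu, y, hy, hxy⟩ := (CfsgLib.Core.mem_sup_iff_of_le_normalizer hle').mp hxs
        set g := φ (a * z⁻¹ ^ (l : ℕ)) with hg
        have hWg : ∀ i : Fin p, ∀ v ∈ W i, ⁅g, v⁆ ∈ W i := fun i v hv => by
          rw [commutatorElement_def]
          refine Subgroup.mem_inf.mpr ⟨mul_mem (hVnorm _ v hv.1) (inv_mem hv.1), ?_⟩
          have hg' : g ∈ Subgroup.centralizer {φ (a * z⁻¹ ^ (i : ℕ))} :=
            Subgroup.mem_centralizer_singleton_iff.mpr (hA l i).eq
          exact mul_mem (mul_mem (mul_mem hg' hv.2) (inv_mem hg')) (inv_mem hv.2)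
        have hsup : ∀ v ∈ ⨆ i ∈ t, W i, ⁅g, v⁆ ∈ ⨆ i ∈ t, W i := by
          let T : Subgroup G :=
            { carrier := {v | v ∈ V ∧ ⁅g, v⁆ ∈ ⨆ i ∈ t, W i}
              one_mem' := ⟨one_mem _, by simp⟩
              mul_mem' := by
                rintro v v' ⟨hv, hv'⟩ ⟨hw, hw'⟩
                refine ⟨mul_mem hv hw, ?_⟩
                rw [show ⁅g, v * v'⁆ = ⁅g, v⁆ * (v * ⁅g, v'⁆ * v⁻¹) by
                  simp only [commutatorElement_def]; group, setLike_mul_comm hv (hle hw'), mul_inv_cancel_right]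
                exact mul_mem hv' hw'
              inv_mem' := by
                rintro v ⟨hv, hv'⟩
                refine ⟨inv_mem hv, ?_⟩
                rw [show ⁅g, v⁻¹⁆ = v⁻¹ * ⁅g, v⁆⁻¹ * v by simp only [commutatorElement_def]; group,
                  setLike_mul_comm (inv_mem hv) (inv_mem (hle hv')), inv_mul_cancel_right]
                exact inv_mem hv' }
          intro v hv
          exact ((iSup₂_le fun i hi w hw => ⟨hWV i hw, Subgroup.mem_iSup_of_mem i
            (Subgroup.mem_iSup_of_mem hi (hWg i w hw))⟩ : (⨆ i ∈ t, W i) ≤ T) hv).2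
        have hgu : g * u = u * g := (Subgroup.mem_centralizer_singleton_iff.mp hu.2).symm
        have hgy : ⁅g, x⁆ = ⁅g, y⁆ := by
          have hu1 : ⁅g, u⁆ = 1 := commutatorElement_eq_one_iff_mul_comm.mpr hgu
          rw [← hxy, show ⁅g, u * y⁆ = ⁅g, u⁆ * (u * ⁅g, y⁆ * u⁻¹) by simp only [commutatorElement_def]; group, hu1, one_mul,
            setLike_mul_comm (hWV l hu) (hle (hsup y hy)), mul_inv_cancel_right]
        have h0 : ⁅g, x⁆ = 1 := by
          rw [← Subgroup.mem_bot, ← iht j hj.2]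
          exact Subgroup.mem_inf.mpr ⟨hWg j x hxj, hgy ▸ hsup y hy⟩
        rw [← hkey j l hj.1]
        exact Subgroup.mem_inf.mpr ⟨hxj, Subgroup.mem_inf.mpr ⟨hxj.1,
          Subgroup.mem_centralizer_singleton_iff.mpr (commutatorElement_eq_one_iff_mul_comm.mp h0).symm⟩⟩
    -- some `W i` is nontrivial
    have hW0 : W zero ≠ ⊥ := by
      intro hbot
      have hall : ∀ i, W i = ⊥ := fun i => Subgroup.card_eq_one.mp (by rw [hcard i, hbot, Subgroup.card_bot])
      set L : Subgroup G := (Subgroup.closure ({a, z⁻¹} : Set P)).map φ with hL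
      have hLab : IsMulCommutative L := by
        haveI : IsMulCommutative (Subgroup.closure ({a, z⁻¹} : Set P)) := by
          refine Subgroup.isMulCommutative_closure ?_
          intro x hx y hy
          have hc : a * z⁻¹ = z⁻¹ * a := ((h.central a).symm.inv_right).eq
          rcases hx with rfl | rfl <;> rcases hy with rfl | rfl
          · rfl
          · exact hc
          · exact hc.symm
          · rfl
        exact Subgroup.map_isMulCommutative _ φ
      have hLp : ∀ u ∈ L, u ^ p = 1 := by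
        rintro _ ⟨x, hx, rfl⟩
        suffices x ^ p = 1 by rw [← map_pow, this, map_one]
        induction hx using Subgroup.closure_induction with
        | mem x hx =>
          rcases hx with rfl | rfl
          · exact hap
          · rw [inv_pow, h.zp, inv_one]
        | one => exact one_pow p
        | mul x y hxm hym hx' hy' =>
          haveI : IsMulCommutative (Subgroup.closure ({a, z⁻¹} : Set P)) := by
            refine Subgroup.isMulCommutative_closure ?_
            intro x hx y hy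
            have hc : a * z⁻¹ = z⁻¹ * a := ((h.central a).symm.inv_right).eq
            rcases hx with rfl | rfl <;> rcases hy with rfl | rfl
            · rfl
            · exact hc
            · exact hc.symm
            · rfl
          rw [(show Commute x y from setLike_mul_comm hxm hym).mul_pow, hx', hy', one_mul]
        | inv x _ hx' => rw [inv_pow, hx', inv_one]
      have haL : φ a ∈ L := Subgroup.mem_map_of_mem φ (Subgroup.subset_closure (by simp))
      have hzL : φ z⁻¹ ∈ L := Subgroup.mem_map_of_mem φ (Subgroup.subset_closure (by simp))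
      have hphiz : φ z⁻¹ ≠ 1 := by rw [map_inv]; exact inv_ne_one.mpr hz1
      -- every element is `a ^ i * z' ^ j`
      have hform : ∀ u ∈ L, ∃ i j : ℕ, u = φ a ^ i * φ z⁻¹ ^ j := by
        rintro _ ⟨x, hx, rfl⟩
        induction hx using Subgroup.closure_induction with
        | mem x hx =>
          rcases hx with rfl | rfl
          · exact ⟨1, 0, by simp⟩
          · exact ⟨0, 1, by simp⟩
        | one => exact ⟨0, 0, by simp⟩
        | mul x y _ _ hx' hy' =>
          obtain ⟨i, j, e1⟩ := hx'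
          obtain ⟨i', j', e2⟩ := hy'
          refine ⟨i + i', j + j', ?_⟩
          rw [map_mul, e1, e2, pow_add, pow_add]
          have := ((hcz a).pow_pow j i').eq
          calc φ a ^ i * φ z⁻¹ ^ j * (φ a ^ i' * φ z⁻¹ ^ j')
              = φ a ^ i * (φ z⁻¹ ^ j * φ a ^ i') * φ z⁻¹ ^ j' := by group
            _ = φ a ^ i * (φ a ^ i' * φ z⁻¹ ^ j) * φ z⁻¹ ^ j' := by rw [this]
            _ = _ := by group
        | inv x _ hx' =>
          obtain ⟨i, j, e1⟩ := hx'
          have hp1 := hp.out.one_le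
          refine ⟨(p - 1) * i, (p - 1) * j, ?_⟩
          rw [map_inv, e1, inv_eq_iff_mul_eq_one]
          calc φ a ^ i * φ z⁻¹ ^ j * (φ a ^ ((p - 1) * i) * φ z⁻¹ ^ ((p - 1) * j))
              = φ a ^ i * (φ z⁻¹ ^ j * φ a ^ ((p - 1) * i)) * φ z⁻¹ ^ ((p - 1) * j) := by group
            _ = φ a ^ i * (φ a ^ ((p - 1) * i) * φ z⁻¹ ^ j) * φ z⁻¹ ^ ((p - 1) * j) := by
                rw [((hcz a).pow_pow j ((p - 1) * i)).eq]
            _ = φ a ^ (i + (p - 1) * i) * φ z⁻¹ ^ (j + (p - 1) * j) := by rw [pow_add, pow_add]; group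
            _ = 1 := by
                rw [show i + (p - 1) * i = p * i by rw [Nat.sub_mul, one_mul, add_comm]; exact Nat.sub_add_cancel (Nat.le_mul_of_pos_left i hp.out.pos),
                  show j + (p - 1) * j = p * j by rw [Nat.sub_mul, one_mul, add_comm]; exact Nat.sub_add_cancel (Nat.le_mul_of_pos_left j hp.out.pos),
                  pow_mul, pow_mul, hLp _ haL, hLp _ hzL, one_pow, one_pow, one_mul]
      have hnc : ¬ IsCyclic L := by
        intro hcyc
        haveI := hLab
        -- a cyclic group of exponent `p` is generated by `z'`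
        have hcard : Nat.card L ≤ p := by
          obtain ⟨g, hg⟩ := IsCyclic.exists_generator (α := L)
          rw [← orderOf_eq_card_of_forall_mem_zpowers hg]
          exact orderOf_le_of_pow_eq_one hp.out.pos (Subtype.ext (hLp g g.2))
        have heq : Subgroup.zpowers (φ z⁻¹) = L := CfsgLib.Core.eq_of_le_of_card_le
          (Subgroup.zpowers_le.mpr hzL) (by rw [Nat.card_zpowers, orderOf_eq_prime hz'p hphiz]; exact hcard)
        obtain ⟨m, hm⟩ := Subgroup.mem_zpowers_iff.mp (heq.ge haL)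
        apply hz1
        rw [← hab, map_commutatorElement, commutatorElement_eq_one_iff_mul_comm, ← hm]
        exact ((hcz b).zpow_left m).eq
      have hcop : (Nat.card L).Coprime (Nat.card V) := by
        rw [hk]
        obtain ⟨l, hl⟩ := IsPGroup.iff_card.mp (fun ⟨x, hx⟩ => ⟨1, by simpa [Subtype.ext_iff] using hLp x hx⟩ : IsPGroup p L)
        rw [hl]
        exact (((Nat.coprime_primes hp.out hr.out).mpr hpr).pow _ _)
      have hLN : L ≤ Subgroup.normalizer (V : Set G) := by
        rintro _ ⟨x, -, rfl⟩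
        exact hN x
      haveI := hLab
      refine hne (eq_bot_iff.mpr (le_trans (CfsgLib.Core.generated_by_centralizers hnc hLN hcop).ge
        (iSup₂_le fun u hu => ?_)))
      obtain ⟨i, j, rfl⟩ := hform u hu.1
      intro v hv
      by_cases hi : p ∣ i
      · obtain ⟨i', rfl⟩ := hi
        rw [pow_mul, hLp _ haL, one_pow, one_mul] at hu hv
        refine hC.le (Subgroup.mem_inf.mpr ⟨hv.1, ?_⟩)
        have hgen : φ z⁻¹ ∈ Subgroup.zpowers (φ z⁻¹ ^ j) := by
          have := CfsgLib.Core.eq_of_le_of_card_le (Subgroup.zpowers_le.mpr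
            (pow_mem (Subgroup.mem_zpowers (φ z⁻¹)) j)) (by
              rw [Nat.card_zpowers, Nat.card_zpowers, orderOf_eq_prime hz'p hphiz]
              exact (orderOf_eq_prime (hLp _ hu.1) hu.2).ge)
          exact this ▸ Subgroup.mem_zpowers _
        have hvj : φ z⁻¹ ^ j ∈ Subgroup.centralizer ({v} : Set G) :=
          Subgroup.mem_centralizer_singleton_iff.mpr (Subgroup.mem_centralizer_singleton_iff.mp hv.2).symm
        have hz' := Subgroup.zpowers_le.mpr hvj hgen
        rw [map_inv, inv_mem_iff] at hz'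
        exact Subgroup.mem_centralizer_singleton_iff.mpr (Subgroup.mem_centralizer_singleton_iff.mp hz').symm
      · -- a power of `u` is `a * z' ^ l`
        obtain ⟨s, hs⟩ : ∃ s : ℕ, i * s ≡ 1 [MOD p] := by
          obtain ⟨m, -, hm⟩ := Nat.exists_mul_mod_eq_one_of_coprime
            ((Nat.Prime.coprime_iff_not_dvd hp.out).mpr hi).symm hp.out.one_lt
          exact ⟨m, by rw [Nat.ModEq, hm, Nat.one_mod_eq_one.mpr hp.out.ne_one]⟩
        have hpa : φ a ^ p = 1 := hLp _ haL
        have hfin : (φ a ^ i * φ z⁻¹ ^ j) ^ s = φ (a * z⁻¹ ^ (j * s % p)) := by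
          rw [((hcz a).symm.pow_pow i j).mul_pow, ← pow_mul, ← pow_mul, map_mul, map_pow,
            pow_eq_pow_mod (j * s) hz'p, pow_eq_pow_mod (i * s) hpa, hs,
            Nat.one_mod_eq_one.mpr hp.out.ne_one, pow_one]
        have hvW : v ∈ W ⟨j * s % p, Nat.mod_lt _ hp.out.pos⟩ := by
          refine Subgroup.mem_inf.mpr ⟨hv.1, ?_⟩
          rw [← hfin]
          exact Subgroup.mem_centralizer_singleton_iff.mpr
            ((show Commute v (φ a ^ i * φ z⁻¹ ^ j) from Subgroup.mem_centralizer_singleton_iff.mp hv.2).pow_right s).eq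
        rw [hall] at hvW
        exact hvW
    -- the inductive hypothesis
    have hbound : r ^ (n * p ^ w) ≤ Nat.card (W zero) := by
      refine ih hEx (φ.comp C.subtype) (W zero) ?_ ?_ ?_ hW0
      · exact ⟨⟨⟨fun x y => Subtype.ext (setLike_mul_comm (hWV zero x.2) (hWV zero y.2))⟩⟩,
          fun x hx => hV.2 x (hWV zero hx)⟩
      · intro c
        refine CfsgLib.Core.le_normalizer_inf (A := Subgroup.zpowers (φ (c : P)))
          (Subgroup.zpowers_le.mpr (hN c)) ?_ (Subgroup.mem_zpowers _)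
        refine Subgroup.zpowers_le.mpr ?_
        refine Subgroup.le_normalizer (H := Subgroup.centralizer {φ (a * z⁻¹ ^ ((zero : Fin p) : ℕ))}) ?_
        refine Subgroup.mem_centralizer_singleton_iff.mpr ?_
        simp only [zero, pow_zero, mul_one]
        exact ((hCc c c.2).1.map φ).eq
      · rw [eq_bot_iff]
        exact fun v hv => hC.le (Subgroup.mem_inf.mpr ⟨hv.1.1, hv.2⟩)
    calc r ^ (n * p ^ (w + 1)) = (r ^ (n * p ^ w)) ^ p := by rw [← pow_mul, pow_succ, mul_assoc]
      _ ≤ Nat.card (W zero) ^ p := Nat.pow_le_pow_left hbound p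
      _ = ∏ i : Fin p, Nat.card (W i) := by simp [hcard]
      _ ≤ Nat.card ↥(⨆ i ∈ (Finset.univ : Finset (Fin p)), W i) :=
          iSup_card (V := V) W hWV _ fun t _ j _ hj => hdis t j hj
      _ ≤ Nat.card V := Subgroup.card_le_of_le (iSup₂_le fun i _ => hWV i)

/-- Let p and r be distinct primes, let E be an extraspecial subgroup of order p^(2w+1) of a finite group, and let A be an elementary abelian r-subgroup normalized by E on which E acts faithfully (C_E(A) = 1). If n ≥ 1 is least with p dividing rⁿ − 1 (the smallest dimension of a faithful representation of a group of order p over the field with r elements), then the order of A is at least r^(n·p^w). -/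
theorem result {G : Type*} [Group G] [Finite G] {p r : ℕ} [Fact p.Prime] [hr : Fact r.Prime] (hpr : p ≠ r) (E A : Subgroup G) (w : ℕ) (hE : Cfsg.IsExtraspecial p ↥E) (hEcard : Nat.card ↥E = p ^ (2 * w + 1)) (hA : Cfsg.IsElementaryAbelian r A) (hnorm : E ≤ Subgroup.normalizer (A : Set G)) (hfaith : E ⊓ Subgroup.centralizer (A : Set G) = ⊥) (n : ℕ) (hn : 1 ≤ n) (hdiv : p ∣ r ^ n - 1) (hmin : ∀ k : ℕ, 1 ≤ k → p ∣ r ^ k - 1 → n ≤ k) : r ^ (n * p ^ w) ≤ Nat.card ↥A := by
  classical
  obtain ⟨z, m, hz⟩ := CfsgLib.Extraspecial.exists_ex hE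
  obtain rfl : m = w := by
    have h := Nat.pow_right_injective (Fact.out : p.Prime).two_le (hz.card.symm.trans hEcard)
    omega
  haveI := hA.1
  -- `[A, z]` is a nontrivial complement of `C_A(z)`
  have hzG : (z : G) ^ p = 1 := by simpa [Subtype.ext_iff] using hz.zp
  have hcop : (Nat.card (Subgroup.zpowers (z : G))).Coprime (Nat.card A) := by
    obtain ⟨k, hk⟩ := IsPGroup.iff_card.mp
      (fun ⟨x, hx⟩ => ⟨1, by simpa [Subtype.ext_iff] using hA.2 x hx⟩ : IsPGroup r A)
    have hzne : (z : G) ≠ 1 := fun e => hz.zne (Subtype.ext e)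
    rw [Nat.card_zpowers, orderOf_eq_prime hzG hzne, hk]
    exact ((Nat.coprime_primes Fact.out Fact.out).mpr hpr).pow_right k
  have hzA : Subgroup.zpowers (z : G) ≤ Subgroup.normalizer (A : Set G) :=
    Subgroup.zpowers_le.mpr (hnorm z.2)
  set V := ⁅A, Subgroup.zpowers (z : G)⁆ with hVdef
  have hVA : V ≤ A := CfsgLib.Core.commutator_le_of_le_normalizer hzA
  have hbot := CfsgLib.Core.abelian_centralizer_inf_commutator hzA hcop
  have hne : V ≠ ⊥ := fun h => by
    have h1 := (Subgroup.commutator_eq_bot_iff_le_centralizer.mp (by rw [Subgroup.commutator_comm]; exact h))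
      (Subgroup.mem_zpowers (z : G))
    exact hz.zne (Subtype.ext (Subgroup.mem_bot.mp (hfaith ▸ Subgroup.mem_inf.mpr ⟨z.2, h1⟩)))
  have hle := main_aux hpr n hn hmin m hz E.subtype V
    ⟨⟨⟨fun x y => Subtype.ext (setLike_mul_comm (hVA x.2) (hVA y.2))⟩⟩, fun x hx => hA.2 x (hVA hx)⟩ ?_ ?_ hne
  · exact hle.trans (Subgroup.card_le_of_le hVA)
  · intro x
    refine CfsgLib.Core.le_normalizer_commutator (C := E) hnorm ?_ x.2
    refine le_trans ?_ (CfsgLib.Core.centralizer_le_normalizer _)
    intro e he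
    rw [Subgroup.zpowers_eq_closure, Subgroup.centralizer_closure]
    exact Subgroup.mem_centralizer_singleton_iff.mpr (congrArg Subtype.val (hz.central ⟨e, he⟩).eq).symm
  · rw [eq_bot_iff]
    intro v hv
    refine hbot.le ?_
    refine ⟨Subgroup.mem_inf.mpr ⟨hVA hv.1, ?_⟩, hv.1⟩
    rw [Subgroup.zpowers_eq_closure, Subgroup.centralizer_closure]
    exact hv.2

end Cfsg.Agent.S2912
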