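import Cfsg.Statements.S2922
import Cfsg.Agent.Lib.LocalComponent
import Cfsg.Agent.Lib.CorePGroup

set_option autoImplicit false
open Cfsg

namespace Cfsg.Agent.S2922

/-- Let p be a prime, X a finite group, B a p-subgroup of X and C a normal subgroup of B. If N_X(C) has characteristic p (its generalized Fitting subgroup is O_p(N_X(C))), then N_X(B) and C_X(B) have characteristic p. -/
theorem result {X : Type*} [Group X] [Finite X] {p : ℕ} [Fact p.Prime] (B C : Subgroup X) (hB : IsPGroup p ↥B) (hCB : C ≤ B) (hCn : (C.subgroupOf B).Normal) (hC : Cfsg.generalizedFittingSubgroup ↥(Subgroup.normalizer (C : Set X)) = Cfsg.pCore p ↥(Subgroup.normalizer (C : Set X))) : Cfsg.generalizedFittingSubgroup ↥(Subgroup.normalizer (B : Set X)) = Cfsg.pCore p ↥(Subgroup.normalizer (B : Set X)) ∧ Cfsg.generalizedFittingSubgroup ↥(Subgroup.centralizer (B : Set X)) = Cfsg.pCore p ↥(Subgroup.centralizer (B : Set X)) := by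
  have hBM : B ≤ Subgroup.normalizer (C : Set X) :=
    (Subgroup.normal_subgroupOf_iff_le_normalizer hCB).mp hCn
  have hN := CfsgLib.Local.Comp.charP_normalizer_of_between hB hBM
    ((Subgroup.centralizer_le hCB).trans (Subgroup.centralizer_le_normalizer _)) hC
  refine ⟨hN, ?_⟩
  have hle := Subgroup.centralizer_le_normalizer (B : Set X)
  have hn : ((Subgroup.centralizer (B : Set X)).subgroupOf
      (Subgroup.normalizer (B : Set X))).Normal :=
    Subgroup.normal_subgroupOf_centralizer_normalizer (s := (B : Set X))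
  exact CfsgLib.Local.Comp.charP_congr p (Subgroup.subgroupOfEquivOfLe hle)
    (CfsgLib.Local.Comp.charP_of_isSubnormal hn.isSubnormal hN)

end Cfsg.Agent.S2922
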