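import Cfsg.Statements.S2923
import Cfsg.Agent.Lib.LocalComponent

set_option autoImplicit false
open Cfsg

namespace Cfsg.Agent.S2923

/-- Let p be a prime and X a finite group of characteristic p, that is C_X(O_p(X)) ≤ O_p(X). Then every subnormal subgroup of X has characteristic p. -/
theorem result {X : Type*} [Group X] [Finite X] {p : ℕ} [Fact p.Prime] (hX : Subgroup.centralizer (Cfsg.pCore p X : Set X) ≤ Cfsg.pCore p X) (Y : Subgroup X) (hY : Y.IsSubnormal) : Subgroup.centralizer (Cfsg.pCore p ↥Y : Set ↥Y) ≤ Cfsg.pCore p ↥Y := by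
  rw [← CfsgLib.Local.Comp.charP_iff_centralizer] at hX ⊢
  exact CfsgLib.Local.Comp.charP_of_isSubnormal hY hX

end Cfsg.Agent.S2923
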