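import Cfsg.Statements.S2924
import Cfsg.Agent.Lib.LocalNoComp

set_option autoImplicit false
open Cfsg

namespace Cfsg.Agent.S2924

open CfsgLib.Core CfsgLib.Local
open scoped Pointwise


/-- Let X be a finite group and Y an elementary abelian 2-subgroup of X of order at least 8 such that C_X(x) has no components (E(C_X(x)) = 1) for every nontrivial x ∈ Y, and F*(C_X(z)) = O₂(C_X(z)) for some nontrivial z ∈ Y. Then the subgroup generated by the cores O(C_X(y)), y ∈ Y nontrivial, has odd order and is normalized by N_X(Y). -/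
theorem result {X : Type*} [Group X] [Finite X] (Y : Subgroup X) (hY : Cfsg.IsElementaryAbelian 2 Y) (h8 : 8 ≤ Nat.card ↥Y) (hE : ∀ x ∈ Y, x ≠ 1 → Cfsg.layer ↥(Subgroup.centralizer ({x} : Set X)) = ⊥) (hz : ∃ z ∈ Y, z ≠ 1 ∧ Cfsg.generalizedFittingSubgroup ↥(Subgroup.centralizer ({z} : Set X)) = Cfsg.pCore 2 ↥(Subgroup.centralizer ({z} : Set X))) : Odd (Nat.card ↥(⨆ y : {y : X // y ∈ Y ∧ y ≠ 1}, (Cfsg.oddCore ↥(Subgroup.centralizer ({(y : X)} : Set X))).map (Subgroup.centralizer ({(y : X)} : Set X)).subtype)) ∧ Subgroup.normalizer (Y : Set X) ≤ Subgroup.normalizer ((⨆ y : {y : X // y ∈ Y ∧ y ≠ 1}, (Cfsg.oddCore ↥(Subgroup.centralizer ({(y : X)} : Set X))).map (Subgroup.centralizer ({(y : X)} : Set X)).subtype : Subgroup X) : Set X) := by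
  classical
  haveI : Fact (Nat.Prime 2) := ⟨Nat.prime_two⟩
  haveI := hY.1
  obtain ⟨z, hzY, hz1, hzF⟩ := hz
  have h2 : ∀ a ∈ Y, a * a = 1 := fun a ha => by rw [← sq]; exact hY.2 a ha
  have hc : ∀ a ∈ Y, ∀ b ∈ Y, a * b = b * a := fun a ha b hb =>
    congrArg Subtype.val (hY.1.is_comm.comm ⟨a, ha⟩ ⟨b, hb⟩)
  have hz2 := h2 z hzY
  set W : Subgroup X := ⨆ y : {y : X // y ∈ Y ∧ y ≠ 1}, coreAt (y : X) with hW
  show Odd (Nat.card ↥W) ∧ Subgroup.normalizer (Y : Set X) ≤ Subgroup.normalizer (W : Set X)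
  have hbal : ∀ x ∈ Y, ∀ y ∈ Y, y ≠ 1 →
      coreAt x ⊓ Subgroup.centralizer ({y} : Set X) ≤ coreAt y := fun x hx y hy hy1 =>
    coreAt_balance hz2 hzF (h2 x hx) (h2 y hy) (hc z hzY y hy) (hc x hx y hy) (hE y hy hy1)
  have hsmall : ∀ B ∈ Cocyclic Y, Nat.card ↥Y ≤ Nat.card ↥B * 2 := by
    rintro B ⟨hBY, a, haY, hsup⟩
    have hn : B ≤ Subgroup.normalizer ((Subgroup.zpowers a : Subgroup X) : Set X) := by
      refine le_trans ?_ (centralizer_le_normalizer _)
      intro b hb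
      refine Subgroup.mem_centralizer_iff.2 ?_
      rintro c ⟨j, rfl⟩
      exact ((show Commute a b from hc a haY b (hBY hb)).zpow_left j).eq
    have h := card_sup_dvd_mul hn
    rw [hsup] at h
    refine le_trans (Nat.le_of_dvd (Nat.mul_pos Nat.card_pos Nat.card_pos) h) ?_
    refine Nat.mul_le_mul le_rfl ?_
    rw [Nat.card_zpowers]
    exact Nat.le_of_dvd two_pos (orderOf_dvd_of_pow_eq_one (hY.2 a haY))
  have hmeet : ∀ B ∈ Cocyclic Y, ∀ B' ∈ Cocyclic Y, ∃ y, y ∈ B ∧ y ∈ B' ∧ y ≠ 1 := by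
    intro B hB B' hB'
    by_contra hne
    push_neg at hne
    have hbot : B ⊓ B' = ⊥ := eq_bot_iff.2 fun w hw => Subgroup.mem_bot.2 (hne w hw.1 hw.2)
    have hn : B ≤ Subgroup.normalizer (B' : Set X) := by
      refine le_trans ?_ (centralizer_le_normalizer _)
      intro b hb
      exact Subgroup.mem_centralizer_iff.2 fun c hc' => hc c (hB'.1 hc') b (hB.1 hb)
    have h1 := card_sup_of_disjoint hn hbot
    have h3 := Nat.le_of_dvd Nat.card_pos (Subgroup.card_dvd_of_le (sup_le hB.1 hB'.1))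
    rw [h1] at h3
    have h4 := Nat.mul_le_mul (hsmall B hB) (hsmall B' hB')
    nlinarith
  have hgen : ∀ y ∈ Y, coreAt y ≤ ⨆ B ∈ Cocyclic Y, coreAt y ⊓ Subgroup.centralizer (B : Set X) := by
    intro y hy
    refine (generated_by_cocyclic (A := Y) (K := coreAt y) ?_ ?_).ge
    · refine le_trans ?_ (centralizer_le_normalizer_coreAt y)
      intro a ha
      exact Subgroup.mem_centralizer_iff.2 fun b hb => by
        rw [Set.mem_singleton_iff] at hb; rw [hb]; exact hc y hy a ha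
    · obtain ⟨k, hk⟩ := IsPGroup.iff_card.1 (show IsPGroup 2 ↥Y from fun a =>
        ⟨1, Subtype.ext (by simpa using hY.2 a a.2)⟩)
      rw [hk]
      exact Nat.Coprime.pow_left _ (Nat.coprime_two_left.2 (odd_card_coreAt y))
  have hpiece : ∀ x ∈ Y, ∀ x' ∈ Y, ∀ B ∈ Cocyclic Y, ∀ B' ∈ Cocyclic Y,
      coreAt x ⊓ Subgroup.centralizer (B : Set X) ≤
        Subgroup.centralizer ((coreAt x' ⊓ Subgroup.centralizer (B' : Set X) : Subgroup X) : Set X) := by
    intro x hx x' hx' B hB B' hB' a ha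
    refine Subgroup.mem_centralizer_iff.2 fun b hb => ?_
    obtain ⟨y, hyB, hyB', hy1⟩ := hmeet B hB B' hB'
    have hyY := hB.1 hyB
    have h1 : a ∈ coreAt y := hbal x hx y hyY hy1 ⟨ha.1,
      Subgroup.centralizer_le (Set.singleton_subset_iff.2 hyB) ha.2⟩
    have h3 : b ∈ coreAt y := hbal x' hx' y hyY hy1 ⟨hb.1,
      Subgroup.centralizer_le (Set.singleton_subset_iff.2 hyB') hb.2⟩
    exact coreAt_commute hz2 hzF (h2 y hyY) (hc z hzY y hyY) h3 h1
  have hab : W ≤ Subgroup.centralizer (W : Set X) := by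
    have key : ∀ x ∈ Y, ∀ x' ∈ Y, coreAt x ≤ Subgroup.centralizer (coreAt x' : Set X) := by
      intro x hx x' hx'
      refine (hgen x hx).trans (iSup₂_le fun B hB => ?_)
      rw [Subgroup.le_centralizer_iff]
      refine (hgen x' hx').trans (iSup₂_le fun B' hB' => ?_)
      rw [Subgroup.le_centralizer_iff]
      exact hpiece x hx x' hx' B hB B' hB'
    refine iSup_le fun x => ?_
    rw [Subgroup.le_centralizer_iff]
    refine iSup_le fun x' => ?_
    rw [Subgroup.le_centralizer_iff]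
    exact key x.1 x.2.1 x'.1 x'.2.1
  refine ⟨?_, ?_⟩
  · by_contra hev
    rw [Nat.not_odd_iff_even, even_iff_two_dvd] at hev
    obtain ⟨w, hw⟩ := exists_prime_orderOf_dvd_card' 2 hev
    have hodd : ∀ g ∈ W, Odd (orderOf g) := by
      intro g hg
      suffices h : g ∈ W ∧ Odd (orderOf g) from h.2
      rw [hW] at hg
      refine Subgroup.iSup_induction (S := fun y : {y : X // y ∈ Y ∧ y ≠ 1} => coreAt (y : X))
        (C := fun g => g ∈ W ∧ Odd (orderOf g)) hg ?_ ⟨one_mem _, by simp⟩ ?_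
      · intro i a ha
        exact ⟨le_iSup (fun y : {y : X // y ∈ Y ∧ y ≠ 1} => coreAt (y : X)) i ha,
          (odd_card_coreAt _).of_dvd_nat (Subgroup.orderOf_dvd_natCard _ ha)⟩
      · rintro a b ⟨ha, ha'⟩ ⟨hb, hb'⟩
        refine ⟨mul_mem ha hb, (ha'.mul hb').of_dvd_nat ?_⟩
        exact Commute.orderOf_mul_dvd_mul_orderOf (Subgroup.mem_centralizer_iff.1 (hab hb) a ha)
    have := hodd (w : X) w.2
    rw [Subgroup.orderOf_coe, hw] at this
    exact absurd this (by decide)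
  · intro n hn
    rw [← conj_smul_eq_self_iff]
    refine eq_of_le_of_card_le ?_ (card_conj_smul n W).ge
    rw [hW, conj_smul_eq_map, Subgroup.map_iSup]
    refine iSup_le fun y => ?_
    have hy' : n * (y : X) * n⁻¹ ∈ Y ∧ n * (y : X) * n⁻¹ ≠ 1 :=
      ⟨(Subgroup.mem_normalizer_iff.1 hn _).1 y.2.1, fun h => y.2.2 (conj_eq_one_iff.1 h)⟩
    exact conj_coreAt_le.trans
      (le_iSup (fun y : {y : X // y ∈ Y ∧ y ≠ 1} => coreAt (y : X)) ⟨_, hy'⟩)

end Cfsg.Agent.S2924
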