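import Cfsg.Statements.S2925
import Cfsg.Agent.Lib.LocalCharP
import Cfsg.Agent.Lib.CoreLayer

set_option autoImplicit false
open Cfsg

namespace Cfsg.Agent.S2925

/-- Let K be a component of the finite group X and T a Sylow 2-subgroup of X. If some abelian normal subgroup Y of T does not normalize K, then K ⧸ Z(K) has abelian Sylow 2-subgroups. -/
theorem result {X : Type*} [Group X] [Finite X] (K : Subgroup X) (hK : Cfsg.IsComponent K) (T : Sylow 2 X) (Y : Subgroup X) (hYT : Y ≤ (T : Subgroup X)) (hYn : (Y.subgroupOf (T : Subgroup X)).Normal) (hYab : IsMulCommutative ↥Y) (hnot : ¬ Y ≤ Subgroup.normalizer (K : Set X)) (P : Sylow 2 (↥K ⧸ Subgroup.center ↥K)) : IsMulCommutative ↥(P : Subgroup (↥K ⧸ Subgroup.center ↥K)) := by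
  haveI : Fact (Nat.Prime 2) := ⟨Nat.prime_two⟩
  obtain ⟨y, hy, hyK⟩ := SetLike.not_le_iff_exists.mp hnot
  set K' := K.map (MulAut.conj y).toMonoidHom with hK'
  have hK'c : Cfsg.IsComponent K' := CfsgLib.Core.isComponent_map_mulEquiv (MulAut.conj y) hK
  have hne : K' ≠ K := fun e => hyK (Subgroup.mem_normalizer_iff.mpr fun k => by
    constructor
    · intro hk; rw [← e]; exact ⟨k, hk, rfl⟩
    · intro hk
      rw [← e] at hk
      obtain ⟨w, hw, he⟩ := hk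
      change y * w * y⁻¹ = y * k * y⁻¹ at he
      rwa [← mul_left_cancel (mul_right_cancel he)])
  have hcom : ∀ a ∈ K, ∀ b ∈ K', a * b = b * a := by
    have h := CfsgLib.Core.components_commute hK hK'c hne.symm
    rw [Subgroup.commutator_eq_bot_iff_le_centralizer] at h
    exact fun a ha b hb => (Subgroup.mem_centralizer_iff.mp (h ha) b hb).symm
  obtain ⟨Q, hQ⟩ := CfsgLib.Local.CharP.exists_sylow_subnormal T hK.1
  haveI := hYab
  have key : ∀ u v : ↥K, u ∈ (Q : Subgroup ↥K) → v ∈ (Q : Subgroup ↥K) →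
      (u⁻¹ * v⁻¹) * (v⁻¹ * u⁻¹)⁻¹ ∈ Subgroup.center ↥K := by
    intro u v hu hv
    rw [hQ, Subgroup.mem_subgroupOf] at hu hv
    set u' := y * (u : X) * y⁻¹ with hu'
    set v' := y * (v : X) * y⁻¹ with hv'
    have hu'K : u' ∈ K' := ⟨u, u.2, rfl⟩
    have hv'K : v' ∈ K' := ⟨v, v.2, rfl⟩
    have hY : ∀ w ∈ (T : Subgroup X), w⁻¹ * (y * w * y⁻¹) ∈ Y := by
      intro w hw
      rw [show w⁻¹ * (y * w * y⁻¹) = (w⁻¹ * y * w⁻¹⁻¹) * y⁻¹ by group]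
      refine mul_mem ?_ (inv_mem hy)
      exact Subgroup.mem_subgroupOf.mp (hYn.conj_mem ⟨y, hYT hy⟩
        (Subgroup.mem_subgroupOf.mpr hy) (⟨w, hw⟩⁻¹ : ↥(T : Subgroup X)))
    have hab : (u : X)⁻¹ * u' * ((v : X)⁻¹ * v') = (v : X)⁻¹ * v' * ((u : X)⁻¹ * u') :=
      congrArg Subtype.val (mul_comm' (⟨_, hY _ hu⟩ : ↥Y) ⟨_, hY _ hv⟩)
    have h1 : (u : X)⁻¹ * u' * ((v : X)⁻¹ * v') = (u : X)⁻¹ * (v : X)⁻¹ * (u' * v') := by
      rw [mul_assoc, ← mul_assoc u', ← hcom _ (inv_mem v.2) u' hu'K]; group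
    have h2 : (v : X)⁻¹ * v' * ((u : X)⁻¹ * u') = (v : X)⁻¹ * (u : X)⁻¹ * (v' * u') := by
      rw [mul_assoc, ← mul_assoc v', ← hcom _ (inv_mem u.2) v' hv'K]; group
    rw [h1, h2] at hab
    rw [Subgroup.mem_center_iff]
    intro k
    refine Subtype.ext ?_
    show (k : X) * ((u : X)⁻¹ * (v : X)⁻¹ * ((v : X)⁻¹ * (u : X)⁻¹)⁻¹) =
      (u : X)⁻¹ * (v : X)⁻¹ * ((v : X)⁻¹ * (u : X)⁻¹)⁻¹ * k
    have e : (u : X)⁻¹ * (v : X)⁻¹ * ((v : X)⁻¹ * (u : X)⁻¹)⁻¹ = v' * u' * (u' * v')⁻¹ := by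
      have h3 : ((v : X)⁻¹ * (u : X)⁻¹) * (v' * u') = (v' * u') * ((v : X)⁻¹ * (u : X)⁻¹) :=
        hcom _ (mul_mem (inv_mem v.2) (inv_mem u.2)) _ (mul_mem hv'K hu'K)
      calc (u : X)⁻¹ * (v : X)⁻¹ * ((v : X)⁻¹ * (u : X)⁻¹)⁻¹
          = ((u : X)⁻¹ * (v : X)⁻¹ * (u' * v')) * (u' * v')⁻¹ * ((v : X)⁻¹ * (u : X)⁻¹)⁻¹ := by group
        _ = ((v : X)⁻¹ * (u : X)⁻¹ * (v' * u')) * (u' * v')⁻¹ * ((v : X)⁻¹ * (u : X)⁻¹)⁻¹ := by rw [hab]
        _ = (v' * u') * (((v : X)⁻¹ * (u : X)⁻¹) * (u' * v')⁻¹) * ((v : X)⁻¹ * (u : X)⁻¹)⁻¹ := by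
          rw [h3]; group
        _ = _ := by
          rw [hcom _ (mul_mem (inv_mem v.2) (inv_mem u.2)) _ (inv_mem (mul_mem hu'K hv'K))]
          group
    rw [e]
    exact hcom _ k.2 _ (mul_mem (mul_mem hv'K hu'K) (inv_mem (mul_mem hu'K hv'K)))
  set P₀ := Q.mapSurjective (QuotientGroup.mk'_surjective (Subgroup.center ↥K)) with hP₀
  have hab : ∀ a b : ↥(P₀ : Subgroup (↥K ⧸ Subgroup.center ↥K)), a * b = b * a := by
    rintro ⟨_, ha⟩ ⟨_, hb⟩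
    rw [Sylow.coe_mapSurjective] at ha hb
    obtain ⟨u, hu, rfl⟩ := ha
    obtain ⟨v, hv, rfl⟩ := hb
    refine Subtype.ext ?_
    show QuotientGroup.mk' (Subgroup.center ↥K) u * QuotientGroup.mk' (Subgroup.center ↥K) v = _ * _
    rw [← map_mul, ← map_mul]
    refine ((QuotientGroup.eq).mpr ?_).symm
    have := key u v hu hv
    rwa [show (v * u)⁻¹ * (u * v) = (u⁻¹ * v⁻¹) * (v⁻¹ * u⁻¹)⁻¹ by group]
  let e := Sylow.equiv P P₀
  exact ⟨⟨fun a b => e.injective (by rw [map_mul, map_mul]; exact hab _ _)⟩⟩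


end Cfsg.Agent.S2925
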