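import Cfsg.Statements.S2939
import Cfsg.Agent.Lib.LocalSylowLink

set_option autoImplicit false
open Cfsg

namespace Cfsg.Agent.S2939

open CfsgLib.Local.Link


/-- Let p be a prime dividing the order of the finite group G and 𝓕 a family of subgroups of G closed under conjugation, with conjugates taken as X^g = g⁻¹Xg. Then 𝓕 controls Sylow p-intersections in G (any two distinct Sylow p-subgroups S and T with S ∩ T ≠ 1 are joined by a chain S = S₀, S₁, …, Sₙ = T of Sylow p-subgroups where, for each i, some member Xᵢ of 𝓕 meets both S_{i-1} and Sᵢ in Sylow p-subgroups of Xᵢ, satisfies S ∩ T ≤ Sᵢ ∩ Xᵢ, and contains an element xᵢ with Sᵢ^{xᵢ} = S_{i-1}) if and only if 𝓕 strongly controls p-fusion in G (whenever A is a subset of a Sylow p-subgroup S, A contains an element other than 1, and A^g ⊆ S, the element g factorises as g = y₁⋯yₙy with y ∈ N_G(S) and each yᵢ in a member Yᵢ of 𝓕 that meets S in a Sylow p-subgroup of Yᵢ, with A^{y₁⋯yᵢ} ⊆ S ∩ Yᵢ for each i). -/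
theorem result {G : Type*} [Group G] [Finite G] {p : ℕ} [Fact p.Prime] (hdiv : p ∣ Nat.card G) (𝓕 : Set (Subgroup G)) (h𝓕 : Cfsg.IsNormalSet 𝓕) : Cfsg.ControlsSylowIntersections p 𝓕 ↔ Cfsg.FamilyStronglyControlsFusion p 𝓕 := by
  classical
  constructor
  · intro hc S A g hA hne hAg
    set D := Subgroup.closure A with hD
    have hDb : D ≠ ⊥ := by
      obtain ⟨a, ha, ha1⟩ := hne
      intro h
      exact ha1 (Subgroup.mem_bot.mp (h ▸ Subgroup.subset_closure ha))
    have hDS : D ≤ (S : Subgroup G) := (Subgroup.closure_le _).mpr hA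
    have hDT : D ≤ ((g • S : Sylow p G) : Subgroup G) := by
      rw [coe_smul, hD, Subgroup.closure_le]
      intro a ha
      exact mem_K.mpr (hAg ⟨a, ha, rfl⟩)
    have key : ∀ T : Sylow p G, Linked p 𝓕 D S T →
        ∃ (n : ℕ) (Y : Fin n → Subgroup G) (y : Fin n → G),
          (∀ i : Fin n, Y i ∈ Cfsg.sylowMembers p 𝓕 (S : Subgroup G) ∧ y i ∈ Y i) ∧
          T = (List.ofFn y).prod • S ∧
          ∀ i : Fin n, Cfsg.conjRight (((List.ofFn y).take (i.val + 1)).prod) A ⊆
            (S : Set G) ∩ (Y i : Set G) := by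
      intro T hT
      induction hT with
      | refl => exact ⟨0, Fin.elim0, Fin.elim0, fun i => i.elim0, by simp, fun i => i.elim0⟩
      | @tail b c _ hbc ih =>
        obtain ⟨n, Y, y, h1, h2, h3⟩ := ih
        obtain ⟨X, x, hX, hmb, hmc, hx, hcx, hDle⟩ := hbc
        set h := (List.ofFn y).prod with hh
        refine ⟨n + 1, Fin.snoc Y (K h⁻¹ X), Fin.snoc y (h⁻¹ * x * h), ?_, ?_, ?_⟩
        · refine Fin.lastCases ?_ (fun i => ?_)
          · simp only [Fin.snoc_last]
            refine ⟨(mem_members S).mpr ⟨?_, ?_⟩, mem_K.mpr (by simpa [mul_assoc] using hx)⟩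
            · have := h𝓕 X hX h
              rwa [conjRight_eq] at this
            · have := hmb.conj h⁻¹
              rwa [h2, coe_smul, K_inv_cancel] at this
          · simp only [Fin.snoc_castSucc]; exact h1 i
        · rw [hcx, h2, smul_smul, List.ofFn_succ']
          simp only [Fin.snoc_castSucc, Fin.snoc_last, List.concat_eq_append, List.prod_append,
            List.prod_singleton, ← hh]
          congr 1
          group
        · have hl : List.ofFn (Fin.snoc y (h⁻¹ * x * h) : Fin (n + 1) → G) =
              List.ofFn y ++ [h⁻¹ * x * h] := by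
            rw [List.ofFn_succ']
            simp [List.concat_eq_append]
          refine Fin.lastCases ?_ (fun i => ?_)
          · simp only [Fin.snoc_last, Fin.val_last]
            rw [hl, List.take_of_length_le (by simp), List.prod_append, List.prod_singleton, ← hh]
            rintro _ ⟨a, ha, rfl⟩
            have hb := hDle (Subgroup.subset_closure ha)
            have h4 : x⁻¹ * a * x ∈ (b : Subgroup G) ⊓ X := by
              refine ⟨?_, X.mul_mem (X.mul_mem (X.inv_mem hx) hb.2) hx⟩
              have h5 := hb.1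
              rw [hcx, coe_smul] at h5
              exact mem_K.mp h5
            rw [h2, coe_smul] at h4
            have e : (h * (h⁻¹ * x * h))⁻¹ * a * (h * (h⁻¹ * x * h)) = h⁻¹ * (x⁻¹ * a * x) * h := by
              group
            show (_ * a * _ ∈ _) ∧ (_ * a * _ ∈ _)
            rw [e]
            exact ⟨mem_K.mp h4.1, mem_K.mpr (by simpa [mul_assoc] using h4.2)⟩
          · simp only [Fin.snoc_castSucc, Fin.val_castSucc]
            rw [hl, List.take_append_of_le_length (by simp)]
            exact h3 i
    obtain ⟨n, Y, y, h1, h2, h3⟩ := key _ (linked_of_controls hc hDb S (g • S) hDS hDT)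
    refine ⟨n, Y, y, (List.ofFn y).prod⁻¹ * g, ?_, h1, (mul_inv_cancel_left _ _).symm, h3⟩
    have h4 : ((List.ofFn y).prod⁻¹ * g) • S = S := by rw [mul_smul, h2, inv_smul_smul]
    exact Sylow.smul_eq_iff_mem_normalizer.mp h4
  · intro hs
    refine controls_iff.mpr fun S T _ hne => ?_
    obtain ⟨g, rfl⟩ := MulAction.exists_smul_eq G S T
    set D := (S : Subgroup G) ⊓ ((g • S : Sylow p G) : Subgroup G) with hD
    obtain ⟨a₀, ha₀, ha₁⟩ := (Subgroup.bot_or_exists_ne_one D).resolve_left hne
    obtain ⟨n, Y, y, y₀, hy₀, hY, hg, hA⟩ := hs S (D : Set G) g (fun a ha => ha.1) ⟨a₀, ha₀, ha₁⟩ (by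
      rintro _ ⟨a, ha, rfl⟩
      have := ha.2
      rw [coe_smul] at this
      exact mem_K.mp this)
    have key : ∀ i : ℕ, i ≤ n → Linked p 𝓕 D S (((List.ofFn y).take i).prod • S) := by
      intro i
      induction i with
      | zero => intro _; simp only [List.take_zero, List.prod_nil, one_smul]; exact Relation.ReflTransGen.refl
      | succ i ih =>
        intro hi
        refine (ih (by omega)).tail ?_
        set h := ((List.ofFn y).take i).prod with hh
        have hstep : ((List.ofFn y).take (i + 1)).prod = h * y ⟨i, by omega⟩ := by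
          rw [List.prod_take_succ _ _ (by simpa using (by omega : i < n))]
          simp [hh]
        obtain ⟨hYi, hyi⟩ := hY ⟨i, by omega⟩
        have hAi := hA ⟨i, by omega⟩
        simp only [hstep] at hAi
        rw [hstep]
        obtain ⟨hY1, hY2⟩ := (mem_members S).mp hYi
        set u := y ⟨i, by omega⟩
        set Z := Y ⟨i, by omega⟩
        refine ⟨K h Z, h * u * h⁻¹, ?_, ?_, ?_, ?_, ?_, ?_⟩
        · have := h𝓕 Z hY1 h⁻¹
          rwa [conjRight_eq, inv_inv] at this
        · rw [coe_smul]; exact hY2.conj h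
        · rw [coe_smul, ← K_of_mem hyi, K_mul]
          exact hY2.conj _
        · exact ⟨u, hyi, rfl⟩
        · rw [smul_smul, inv_mul_cancel_right]
        · intro a ha
          have h5 := hAi ⟨a, ha, rfl⟩
          refine ⟨?_, ?_⟩
          · rw [coe_smul]; exact mem_K.mpr h5.1
          · rw [← K_of_mem hyi, K_mul]; exact mem_K.mpr h5.2
    have := key n le_rfl
    rw [List.take_of_length_le (by simp)] at this
    rwa [hg, mul_smul, Sylow.smul_eq_iff_mem_normalizer.mpr hy₀]


end Cfsg.Agent.S2939
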