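import Cfsg.Statements.S2940
import Cfsg.Agent.Lib.CoreBasic

set_option autoImplicit false
open Cfsg
open scoped commutatorElement Pointwise

namespace Cfsg.Agent.S2940

/-- Let S be a Sylow p-subgroup of the finite group G and G₁, G₂ subgroups containing S with G = G₁G₂. Then for every g ∈ G there is a Sylow p-subgroup U of G with S ∩ S^g ≤ U ≤ G₁ ∩ G₂^g (conjugates taken as X^g = g⁻¹Xg). -/
theorem result {G : Type*} [Group G] [Finite G] {p : ℕ} [Fact p.Prime] (S : Sylow p G) (G₁ G₂ : Subgroup G) (h1 : (S : Subgroup G) ≤ G₁) (h2 : (S : Subgroup G) ≤ G₂) (hfact : ∀ g : G, ∃ g₁ ∈ G₁, ∃ g₂ ∈ G₂, g = g₁ * g₂) (g : G) : ∃ U : Sylow p G, (S : Subgroup G) ⊓ Cfsg.subgroupConjRight g (S : Subgroup G) ≤ (U : Subgroup G) ∧ (U : Subgroup G) ≤ G₁ ⊓ Cfsg.subgroupConjRight g G₂ := by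
  obtain ⟨g₁, hg1, g₂, hg2, he⟩ := hfact g⁻¹
  set a := g₁⁻¹ with ha
  have ha1 : a ∈ G₁ := G₁.inv_mem hg1
  have hga : g⁻¹ = a⁻¹ * g₂ := by rw [ha, inv_inv]; exact he
  set K := G₁ ⊓ Cfsg.subgroupConjRight g G₂ with hK
  have hmem : ∀ (X : Subgroup G) (x : G), x ∈ Cfsg.subgroupConjRight g X ↔ g * x * g⁻¹ ∈ X := by
    intro X x
    constructor
    · rintro ⟨y, hy, rfl⟩
      simpa [mul_assoc] using hy
    · intro h
      exact ⟨_, h, by simp [mul_assoc]⟩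
  have hSK : ((a⁻¹ • S : Sylow p G) : Subgroup G) ≤ K := by
    rintro _ ⟨s, hs, rfl⟩
    refine Subgroup.mem_inf.mpr ⟨?_, (hmem _ _).mpr ?_⟩
    · show a⁻¹ * s * a⁻¹⁻¹ ∈ G₁
      rw [inv_inv]
      exact G₁.mul_mem (G₁.mul_mem hg1 (h1 hs)) ha1
    · show g * (a⁻¹ * s * a⁻¹⁻¹) * g⁻¹ ∈ G₂
      have hg' : g = g₂⁻¹ * a := by rw [← inv_inv g, hga]; group
      rw [hg']
      have := G₂.mul_mem (G₂.mul_mem (G₂.inv_mem hg2) (h2 hs)) hg2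
      simpa [mul_assoc] using this
  set Dd := (S : Subgroup G) ⊓ Cfsg.subgroupConjRight g (S : Subgroup G) with hDd
  have hDK : Dd ≤ K := inf_le_inf h1 (Subgroup.map_mono h2)
  have hDp : IsPGroup p ↥(Dd.subgroupOf K) :=
    (S.isPGroup'.to_le inf_le_left).comap_of_injective _ K.subtype_injective
  obtain ⟨Q, hQ⟩ := hDp.exists_le_sylow
  obtain ⟨k, hk⟩ := MulAction.exists_smul_eq ↥K ((a⁻¹ • S).subtype hSK) Q
  refine ⟨(k : G) • (a⁻¹ • S), fun x hx => ?_, ?_⟩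
  · have h3 : (⟨x, hDK hx⟩ : ↥K) ∈ (Q : Subgroup ↥K) := hQ (Subgroup.mem_subgroupOf.mpr hx)
    rw [← hk] at h3
    obtain ⟨y, hy, hyx⟩ := h3
    exact ⟨y, hy, congrArg Subtype.val hyx⟩
  · rintro _ ⟨y, hy, rfl⟩
    exact K.mul_mem (K.mul_mem k.2 (hSK hy)) (K.inv_mem k.2)

end Cfsg.Agent.S2940
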