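import Cfsg.Statements.S2955
import Cfsg.Agent.Lib.LocalSylowLink

set_option autoImplicit false
open Cfsg

namespace Cfsg.Agent.S2955

open CfsgLib.Local.Link


/-- Let p be a prime dividing the order of the finite group G and 𝓕 a conjugation-closed family of subgroups that controls Sylow p-intersections in G. Suppose the Sylow p-subgroups of G are chain-connected: any two of them are joined by a chain of Sylow p-subgroups, consecutive ones distinct with nontrivial intersection, all containing the intersection of the two ends (equivalently, the graph on the Sylow p-subgroups whose edges are the distinct pairs meeting nontrivially is connected). Then for every Sylow p-subgroup S, G is generated by N_G(S) together with the members of 𝓕 that meet S in a Sylow p-subgroup of themselves. -/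
theorem result {G : Type*} [Group G] [Finite G] (p : ℕ) [Fact p.Prime] (hdiv : p ∣ Nat.card G)
    (𝓕 : Set (Subgroup G)) (h𝓕 : Cfsg.IsNormalSet 𝓕) (hc : Cfsg.ControlsSylowIntersections p 𝓕)
    (hconn : Cfsg.IsSylowChainConnected p G) (S : Sylow p G) :
    (⨆ X ∈ Cfsg.sylowMembers p 𝓕 (S : Subgroup G), X) ⊔ Subgroup.normalizer ((S : Subgroup G) : Set G) = ⊤ := by
  classical
  set H := (⨆ X ∈ Cfsg.sylowMembers p 𝓕 (S : Subgroup G), X) ⊔
    Subgroup.normalizer ((S : Subgroup G) : Set G) with hH
  have hmem : ∀ X ∈ Cfsg.sylowMembers p 𝓕 (S : Subgroup G), X ≤ H := fun X hX =>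
    le_sup_of_le_left (le_iSup₂ (f := fun X (_ : X ∈ Cfsg.sylowMembers p 𝓕 (S : Subgroup G)) => X) X hX)
  have hstep : ∀ (D : Subgroup G) (a b : Sylow p G), Step p 𝓕 D a b →
      (∃ h ∈ H, h • S = a) → ∃ h ∈ H, h • S = b := by
    rintro D _ b ⟨X, x, hX, hma, -, hx, rfl, -⟩ ⟨h, hh, rfl⟩
    refine ⟨x * h, ?_, by rw [mul_smul]⟩
    have hXH : K h⁻¹ X ≤ H := by
      refine hmem _ ((mem_members S).mpr ⟨?_, ?_⟩)
      · have := h𝓕 X hX h
        rwa [conjRight_eq] at this
      · have := hma.conj h⁻¹
        rwa [coe_smul, K_inv_cancel] at this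
    have hx' : h⁻¹ * x * h ∈ H := hXH (mem_K.mpr (by simpa [mul_assoc] using hx))
    have := mul_mem hh hx'
    rwa [show h * (h⁻¹ * x * h) = x * h by group] at this
  refine (Subgroup.eq_top_iff' H).mpr fun g => ?_
  obtain ⟨n, c, h0, hl, -, hadj⟩ := hconn S (g • S)
  have hall : ∀ j : Fin (n + 1), ∃ h ∈ H, h • S = c j := by
    refine Fin.induction ⟨1, one_mem _, by rw [one_smul, h0]⟩ (fun i ih => ?_)
    have hL := linked_of_controls hc (hadj i).2 (c i.castSucc) (c i.succ) inf_le_left inf_le_right
    have aux : ∀ (D : Subgroup G) (a b : Sylow p G), Linked p 𝓕 D a b →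
        (∃ h ∈ H, h • S = a) → ∃ h ∈ H, h • S = b := by
      intro D a b hL ha
      induction hL with
      | refl => exact ha
      | tail _ hbc ih' => exact hstep _ _ _ hbc ih'
    exact aux _ _ _ hL ih
  obtain ⟨h, hh, hhS⟩ := hall (Fin.last n)
  rw [hl] at hhS
  have hn : h⁻¹ * g ∈ H := by
    refine (le_sup_right : _ ≤ H) (Sylow.smul_eq_iff_mem_normalizer.mp ?_)
    rw [mul_smul, ← hhS, inv_smul_smul]
  simpa using mul_mem hh hn


end Cfsg.Agent.S2955
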