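import Cfsg.Statements.S2958


set_option autoImplicit false
open Cfsg

namespace Cfsg.Agent.S2958

/-- Let X, A, B be subgroups of a group G such that G is generated by the conjugates of X and every conjugate of X is contained in A or in B. Then A = G or B = G. -/
theorem result {G : Type*} [Group G] (X A B : Subgroup G) (hgen : (⨆ g : G, X.map (MulAut.conj g).toMonoidHom) = ⊤) (hcover : ∀ g : G, X.map (MulAut.conj g).toMonoidHom ≤ A ∨ X.map (MulAut.conj g).toMonoidHom ≤ B) : A = ⊤ ∨ B = ⊤ := by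
  by_cases hA : A = ⊤
  · exact Or.inl hA
  right
  let D : Subgroup G := ⨆ g : {g : G // ¬ X.map (MulAut.conj g).toMonoidHom ≤ A},
    X.map (MulAut.conj g.1).toMonoidHom
  have hDB : D ≤ B := iSup_le fun g => (hcover g.1).resolve_left g.2
  have conjmul : ∀ a g : G, (X.map (MulAut.conj g).toMonoidHom).map (MulAut.conj a).toMonoidHom =
      X.map (MulAut.conj (a * g)).toMonoidHom := by
    intro a g
    rw [Subgroup.map_map, map_mul]
    congr 1
  have hA' : ∀ a ∈ A, D.map (MulAut.conj a).toMonoidHom ≤ D := by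
    intro a ha
    rw [Subgroup.map_iSup]
    refine iSup_le fun g => ?_
    rw [conjmul]
    refine le_iSup (fun g : {g : G // ¬ X.map (MulAut.conj g).toMonoidHom ≤ A} =>
      X.map (MulAut.conj g.1).toMonoidHom) ⟨a * g.1, fun hle => g.2 ?_⟩
    intro x hx
    have h1 : a * x * a⁻¹ ∈ A := hle (by
      rw [← conjmul]
      exact ⟨x, hx, by simp⟩)
    have := A.mul_mem (A.mul_mem (A.inv_mem ha) h1) ha
    simpa [mul_assoc] using this
  have hAN : A ≤ Subgroup.normalizer (D : Set G) := by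
    intro a ha
    rw [Subgroup.mem_normalizer_iff]
    intro x
    refine ⟨fun hx => hA' a ha ⟨x, hx, by simp⟩, fun hx => ?_⟩
    have := hA' a⁻¹ (A.inv_mem ha) ⟨_, hx, rfl⟩
    simpa [mul_assoc] using this
  have hN : Subgroup.normalizer (D : Set G) = ⊤ := by
    rw [eq_top_iff, ← hgen]
    refine iSup_le fun g => ?_
    by_cases hg : X.map (MulAut.conj g).toMonoidHom ≤ A
    · exact hg.trans hAN
    · exact (le_iSup (fun g : {g : G // ¬ X.map (MulAut.conj g).toMonoidHom ≤ A} =>
        X.map (MulAut.conj g.1).toMonoidHom) ⟨g, hg⟩).trans Subgroup.le_normalizer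
  haveI : D.Normal := Subgroup.normalizer_eq_top_iff.1 hN
  obtain ⟨g₀, hg₀⟩ : ∃ g, ¬ X.map (MulAut.conj g).toMonoidHom ≤ A := by
    by_contra hne
    push Not at hne
    exact hA (eq_top_iff.2 (hgen ▸ iSup_le hne))
  have hXD : X.map (MulAut.conj g₀).toMonoidHom ≤ D :=
    le_iSup (fun g : {g : G // ¬ X.map (MulAut.conj g).toMonoidHom ≤ A} =>
      X.map (MulAut.conj g.1).toMonoidHom) ⟨g₀, hg₀⟩
  rw [eq_top_iff, ← hgen]
  refine iSup_le fun g => le_trans ?_ hDB
  rintro _ ⟨x, hx, rfl⟩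
  have := Subgroup.Normal.conj_mem inferInstance _ (hXD ⟨x, hx, rfl⟩) (g * g₀⁻¹)
  simpa [mul_assoc] using this

end Cfsg.Agent.S2958
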