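import Cfsg.Statements.S2959
import Cfsg.Agent.Lib.LocalBase

set_option autoImplicit false
open Cfsg

namespace Cfsg.Agent.S2959

/-- Let G be a finite group of characteristic p, that is C_G(O_p(G)) ≤ O_p(G), with p prime, and let L be a subgroup of G normalized by O_p(G). Then L has characteristic p: C_L(O_p(L)) ≤ O_p(L). -/
theorem result {G : Type*} [Group G] [Finite G] {p : ℕ} [Fact p.Prime] (hG : Subgroup.centralizer (Cfsg.pCore p G : Set G) ≤ Cfsg.pCore p G) (L : Subgroup G) (hL : Cfsg.pCore p G ≤ Subgroup.normalizer (L : Set G)) : Subgroup.centralizer (Cfsg.pCore p ↥L : Set ↥L) ≤ Cfsg.pCore p ↥L := by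
  let Q := Cfsg.pCore p G
  haveI hQn : Q.Normal := CfsgLib.Local.pCore_normal' p
  haveI hRn : (Cfsg.pCore p ↥L).Normal := CfsgLib.Local.pCore_normal' p
  refine CfsgLib.Local.le_pCore' inferInstance ?_
  have hD : Q.subgroupOf L ≤ Cfsg.pCore p ↥L :=
    CfsgLib.Local.le_pCore' inferInstance
      ((CfsgLib.Local.pCore_isPGroup' p).comap_subtype)
  rintro ⟨⟨c, hcL⟩, hc⟩
  have hcomm : ∀ d ∈ Q, d ∈ L → c * d = d * c := fun d hd hdL => by
    have := Subgroup.mem_centralizer_iff.1 hc ⟨d, hdL⟩ (hD (Subgroup.mem_subgroupOf.2 hd))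
    exact (congrArg Subtype.val this).symm
  obtain ⟨k, hk⟩ := IsPGroup.iff_card.1 (CfsgLib.Local.pCore_isPGroup' (G := G) p)
  have hcQ : c ^ p ^ k ∈ Q := by
    refine hG (Subgroup.mem_centralizer_iff.2 fun q hq => ?_)
    let d := c * q * c⁻¹ * q⁻¹
    have hdQ : d ∈ Q := Q.mul_mem (hQn.conj_mem q hq c) (Q.inv_mem hq)
    have hdL : d ∈ L := by
      have h1 := (Subgroup.mem_normalizer_iff.1 (hL hq) c⁻¹).1 (L.inv_mem hcL)
      simpa [d, mul_assoc] using L.mul_mem hcL h1
    have hcd : c * d = d * c := hcomm d hdQ hdL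
    have hpow : ∀ n : ℕ, c ^ n * q * (c ^ n)⁻¹ = d ^ n * q := by
      intro n
      induction n with
      | zero => simp
      | succ n ih =>
        rw [pow_succ' c n]
        calc c * c ^ n * q * (c * c ^ n)⁻¹ = c * (c ^ n * q * (c ^ n)⁻¹) * c⁻¹ := by group
          _ = (c * d ^ n) * q * c⁻¹ := by rw [ih]; group
          _ = (d ^ n * c) * q * c⁻¹ := by rw [(Commute.pow_right hcd n).eq]
          _ = d ^ n * (c * q * c⁻¹ * q⁻¹) * q := by group
          _ = d ^ (n + 1) * q := by rw [pow_succ]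
    have hd1 : d ^ p ^ k = 1 := by
      have := pow_card_eq_one' (G := ↥Q) (x := ⟨d, hdQ⟩)
      rw [hk] at this
      simpa using congrArg Subtype.val this
    have := hpow (p ^ k)
    rw [hd1, one_mul] at this
    exact (mul_inv_eq_iff_eq_mul.1 this).symm
  obtain ⟨j, hj⟩ := CfsgLib.Local.pCore_isPGroup' p ⟨_, hcQ⟩
  refine ⟨k + j, Subtype.ext (Subtype.ext ?_)⟩
  have := congrArg Subtype.val hj
  simpa [pow_add, pow_mul] using this

end Cfsg.Agent.S2959
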