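import Cfsg.Statements.S2960
import Cfsg.Agent.Lib.LocalBase

set_option autoImplicit false
open Cfsg

namespace Cfsg.Agent.S2960

/-- Let G be a finite group of characteristic p (C_G(O_p(G)) ≤ O_p(G)), p prime, T a Sylow p-subgroup of G and Q a normal subgroup of T with C_T(Q) ≤ Q. Then C_G(Q) ≤ Q. -/
theorem result {G : Type*} [Group G] [Finite G] {p : ℕ} [Fact p.Prime] (hG : Subgroup.centralizer (Cfsg.pCore p G : Set G) ≤ Cfsg.pCore p G) (T : Sylow p G) (Q : Subgroup G) (hQT : Q ≤ (T : Subgroup G)) (hQn : (T : Subgroup G) ≤ Subgroup.normalizer (Q : Set G)) (hC : (T : Subgroup G) ⊓ Subgroup.centralizer (Q : Set G) ≤ Q) : Subgroup.centralizer (Q : Set G) ≤ Q := by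
  let R := Cfsg.pCore p G
  haveI hRn : R.Normal := CfsgLib.Local.pCore_normal' p
  have hTp := T.isPGroup'
  have hCp : IsPGroup p ↥(Subgroup.centralizer (Q : Set G)) := by
    refine CfsgLib.Local.isPGroup_of_coprime_eq_one fun x hx hcop => ?_
    have hxQ : ∀ q ∈ Q, x * q = q * x := fun q hq =>
      (Subgroup.mem_centralizer_iff.1 hx q hq).symm
    have h := CfsgLib.Local.thompson_AxB' (R := R) (Q := Q) hTp
      (CfsgLib.Local.pCore_le_sylow' T) hQT
      (by rw [Subgroup.normalizer_eq_top]; exact le_top) (fun r hr => hRn.conj_mem r hr x) hcop hxQ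
      (fun r hr hrQ => hxQ r (hC ⟨CfsgLib.Local.pCore_le_sylow' T hr,
        Subgroup.mem_centralizer_iff.2 hrQ⟩))
    exact CfsgLib.Local.eq_one_of_coprime_pgroup (CfsgLib.Local.pCore_isPGroup' p)
      (hG (Subgroup.mem_centralizer_iff.2 fun r hr => (h r hr).symm)) hcop
  have hTN : (T : Subgroup G) ≤
      Subgroup.normalizer ((Subgroup.centralizer (Q : Set G) : Subgroup G) : Set G) := by
    intro t ht
    have key : ∀ s ∈ (T : Subgroup G), ∀ x, x ∈ Subgroup.centralizer (Q : Set G) →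
        s * x * s⁻¹ ∈ Subgroup.centralizer (Q : Set G) := by
      intro s hs x hx
      rw [Subgroup.mem_centralizer_iff] at hx ⊢
      intro q hq
      have hq' : s⁻¹ * q * s ∈ Q := (Subgroup.mem_normalizer_iff''.1 (hQn hs) q).1 hq
      calc q * (s * x * s⁻¹) = s * ((s⁻¹ * q * s) * x) * s⁻¹ := by group
        _ = s * (x * (s⁻¹ * q * s)) * s⁻¹ := by rw [hx _ hq']
        _ = (s * x * s⁻¹) * q := by group
    rw [Subgroup.mem_normalizer_iff]
    intro x
    refine ⟨key t ht x, fun hx => ?_⟩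
    have := key t⁻¹ (Subgroup.inv_mem _ ht) _ hx
    simpa [mul_assoc] using this
  have hsup : Subgroup.centralizer (Q : Set G) ⊔ (T : Subgroup G) = (T : Subgroup G) :=
    T.is_maximal' (hCp.to_sup_of_normal_left' hTp hTN) le_sup_right
  intro x hx
  exact hC ⟨hsup ▸ Subgroup.mem_sup_left hx, hx⟩

end Cfsg.Agent.S2960
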