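import Cfsg.Statements.S2963


set_option autoImplicit false
open Cfsg

namespace Cfsg.Agent.S2963

/-- Let n be odd. If the symmetric group of degree n is a minimal parabolic group for the prime 2, that is, a Sylow 2-subgroup is not normal and lies in exactly one maximal subgroup, then n = 2^m + 1 for some natural number m. -/
theorem result (n : ℕ) (hn : Odd n) (h : Cfsg.IsPMinimal 2 (Equiv.Perm (Fin n))) : ∃ m : ℕ, n = 2 ^ m + 1 := by
  classical
  haveI : Fact (Nat.Prime 2) := ⟨Nat.prime_two⟩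
  obtain ⟨P⟩ : Nonempty (Sylow 2 (Equiv.Perm (Fin n))) := inferInstance
  obtain ⟨hnn, M, ⟨hM, hPM⟩, huniq⟩ := h P
  obtain ⟨x, hx⟩ := P.2.nonempty_fixed_point_of_prime_not_dvd_card (Fin n)
    (by rw [Nat.card_fin]; exact fun h2 => Nat.not_even_iff_odd.2 hn (even_iff_two_dvd.2 h2))
  have hfix : ∀ g ∈ (P : Subgroup (Equiv.Perm (Fin n))), g x = x := fun g hg => hx ⟨g, hg⟩
  -- everything above the Sylow subgroup lies in `M`
  have hin : ∀ K : Subgroup (Equiv.Perm (Fin n)), (P : Subgroup _) ≤ K → K ≠ ⊤ → K ≤ M := by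
    intro K hPK hK
    obtain ⟨C, hC, hKC⟩ := (eq_top_or_exists_le_coatom K).resolve_left hK
    rw [← huniq C ⟨hC, hPK.trans hKC⟩]
    exact hKC
  -- the point stabilizer together with one transposition at `x` gives everything
  have hgen : ∀ y, y ≠ x → Equiv.swap x y ∈ M → False := by
    intro y hy hs
    have hS : ∀ g : Equiv.Perm (Fin n), g x = x → g ∈ M := fun g hg => by
      refine hin (MulAction.stabilizer (Equiv.Perm (Fin n)) x) (fun g hg => hfix g hg) ?_ hg
      intro htop
      have h' : Equiv.swap x y ∈ MulAction.stabilizer (Equiv.Perm (Fin n)) x := htop ▸ Subgroup.mem_top _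
      exact hy (by simpa [Equiv.Perm.smul_def] using h')
    refine hM.1 (top_le_iff.1 ?_)
    rw [← Equiv.Perm.closure_isSwap, Subgroup.closure_le]
    rintro σ ⟨a, b, hab, rfl⟩
    have hxb : ∀ b, Equiv.swap x b ∈ M := by
      intro b
      by_cases hbx : b = x
      · rw [hbx, Equiv.swap_self]; exact M.one_mem
      by_cases hby : b = y
      · rw [hby]; exact hs
      have hc : Equiv.swap y b ∈ M := hS _ (Equiv.swap_apply_of_ne_of_ne (Ne.symm hy) (Ne.symm hbx))
      have e : Equiv.swap y b * Equiv.swap x y * (Equiv.swap y b)⁻¹ = Equiv.swap x b := by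
        rw [← Equiv.swap_apply_apply, Equiv.swap_apply_left, Equiv.swap_apply_of_ne_of_ne (Ne.symm hy) (Ne.symm hbx)]
      rw [← e]
      exact M.mul_mem (M.mul_mem hc hs) (M.inv_mem hc)
    by_cases hax : a = x
    · rw [hax]; exact hxb b
    by_cases hbx : b = x
    · rw [hbx, Equiv.swap_comm]; exact hxb a
    exact hS _ (Equiv.swap_apply_of_ne_of_ne (Ne.symm hax) (Ne.symm hbx))
  -- an invariant set avoiding `x` is empty or everything else
  have hset : ∀ B : Set (Fin n), (∀ g ∈ (P : Subgroup (Equiv.Perm (Fin n))), ∀ b ∈ B, g b ∈ B) → x ∉ B → B.Nonempty →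
      ∀ y, y ≠ x → y ∈ B := by
    intro B hB hxB ⟨z, hz⟩ y hy
    by_contra hyB
    let K : Subgroup (Equiv.Perm (Fin n)) :=
      { carrier := {g | ∀ b, g b ∈ B ↔ b ∈ B}
        one_mem' := fun b => Iff.rfl
        mul_mem' := fun {g g'} hg hg' b => (hg (g' b)).trans (hg' b)
        inv_mem' := fun {g} hg b => by simpa using (hg (g⁻¹ b)).symm }
    have hPK : (P : Subgroup _) ≤ K := fun g hg b => ⟨fun hb => by simpa using hB g⁻¹ (Subgroup.inv_mem _ hg) _ hb, hB g hg b⟩
    have hK : K ≠ ⊤ := fun htop => hxB (by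
      have := ((htop ▸ Subgroup.mem_top (Equiv.swap x z) : Equiv.swap x z ∈ K) x).1 (by rw [Equiv.swap_apply_left]; exact hz)
      exact this)
    refine hgen y hy (hin K hPK hK fun b => ?_)
    by_cases hbx : b = x
    · rw [hbx, Equiv.swap_apply_left]; exact ⟨fun h => absurd h hyB, fun h => absurd h hxB⟩
    by_cases hby : b = y
    · rw [hby, Equiv.swap_apply_right]; exact ⟨fun h => absurd h hxB, fun h => absurd h hyB⟩
    rw [Equiv.swap_apply_of_ne_of_ne hbx hby]
  -- hence one orbit covers all other points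
  obtain ⟨y, hy⟩ : ∃ y, y ≠ x := by
    by_contra hne
    push Not at hne
    refine hnn ?_
    have : (P : Subgroup (Equiv.Perm (Fin n))) = ⊥ := eq_bot_iff.2 fun g _ => Equiv.ext fun i => (hne (g i)).trans (hne i).symm
    rw [this]; infer_instance
  have horb : MulAction.orbit (P : Subgroup (Equiv.Perm (Fin n))) y = {x}ᶜ := by
    refine Set.Subset.antisymm ?_ fun u hu => hset _ ?_ ?_ ⟨y, MulAction.mem_orbit_self y⟩ u hu
    · rintro _ ⟨⟨g, hg⟩, rfl⟩ (h : g y = x)
      exact hy (g.injective (h.trans (hfix g hg).symm))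
    · rintro g hg _ ⟨g', rfl⟩
      exact ⟨⟨g, hg⟩ * g', rfl⟩
    · rintro ⟨⟨g, hg⟩, h⟩
      exact hy (g.injective ((h : g y = x).trans (hfix g hg).symm))
  obtain ⟨m, hm⟩ := P.2.index (MulAction.stabilizer (P : Subgroup (Equiv.Perm (Fin n))) y)
  rw [MulAction.index_stabilizer, horb, Set.ncard_compl, Nat.card_fin, Set.ncard_singleton] at hm
  exact ⟨m, by have := x.pos; omega⟩

end Cfsg.Agent.S2963
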