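import Cfsg.Statements.S2998
import Cfsg.Agent.Lib.LocalSylowGraph
import Cfsg.Agent.Lib.LocalSylowJoin

set_option autoImplicit false
open Cfsg
open scoped commutatorElement Pointwise

namespace Cfsg.Agent.S2998

/-- Let G be a finite group, p a prime, P a Sylow p-subgroup of G and x ∈ P an element such that N_G(R) ≤ C_G(x) for every nontrivial subgroup R of P. Then P ≤ C_G(x); every G-conjugate of x lying in P equals x (so g ∈ C_G(x) whenever g x g⁻¹ ∈ P); and for every normal subgroup N of G, the image of x in G ⧸ N has the same property with respect to the image of P: the normalizer of every nontrivial subgroup of the image of P centralizes the image of x. -/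
theorem result {G : Type*} [Group G] [Finite G] {p : ℕ} [Fact p.Prime] (P : Sylow p G) (x : G) (hxP : x ∈ (P : Subgroup G)) (hlc : ∀ R : Subgroup G, R ≤ (P : Subgroup G) → R ≠ ⊥ → Subgroup.normalizer (R : Set G) ≤ Subgroup.centralizer ({x} : Set G)) : (P : Subgroup G) ≤ Subgroup.centralizer ({x} : Set G) ∧ (∀ g : G, g * x * g⁻¹ ∈ (P : Subgroup G) → g * x * g⁻¹ = x) ∧ ∀ (N : Subgroup G) [N.Normal], ∀ R : Subgroup (G ⧸ N), R ≤ (P : Subgroup G).map (QuotientGroup.mk' N) → R ≠ ⊥ → Subgroup.normalizer (R : Set (G ⧸ N)) ≤ Subgroup.centralizer ({(QuotientGroup.mk x : G ⧸ N)} : Set (G ⧸ N)) := by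
  have hp : p.Prime := Fact.out
  set C := Subgroup.centralizer ({x} : Set G) with hC
  have hPC : (P : Subgroup G) ≤ C := by
    by_cases hP : (P : Subgroup G) = ⊥
    · rw [hP]; exact bot_le
    · exact Subgroup.le_normalizer.trans (hlc _ le_rfl hP)
  refine ⟨hPC, fun g hg => ?_, ?_⟩
  · by_cases hx1 : x = 1
    · subst hx1; simp
    have hP1 : (P : Subgroup G) ≠ ⊥ := fun e => hx1 (Subgroup.mem_bot.mp (e ▸ hxP))
    by_cases hCtop : C = ⊤
    · have h1 : g ∈ C := hCtop ▸ Subgroup.mem_top g
      rw [Subgroup.mem_centralizer_singleton_iff.mp h1, mul_inv_cancel_right]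
    have hE : Cfsg.IsStronglyPEmbedded p C := by
      refine ⟨?_, hCtop, P, iSup_le fun ⟨Q, hQP, hQr⟩ => hlc Q hQP ?_⟩
      · obtain ⟨z, hz, hzp⟩ := CfsgLib.Local.SylGraph.exists_order_p P.isPGroup' hP1
        exact hzp ▸ orderOf_dvd_natCard z
      · rintro rfl
        exact hQr fun A _ _ => by
          rw [Subgroup.eq_bot_of_subsingleton A, Subgroup.card_bot]; exact (pow_pos hp.pos _)
    obtain ⟨z, hz, hzp⟩ := CfsgLib.Local.SylGraph.exists_order_p
      (P.isPGroup'.to_le (Subgroup.zpowers_le.mpr hxP))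
      (fun e => hx1 (Subgroup.zpowers_eq_bot.mp e))
    obtain ⟨i, rfl⟩ := Subgroup.mem_zpowers_iff.mp hz
    have hgC : g ∈ C := (CfsgLib.Local.SylGraph.se_of_embedded hE).mem_of
      (hPC ((P : Subgroup G).zpow_mem hxP i)) hzp (by
        rw [← conj_zpow]
        exact hPC ((P : Subgroup G).zpow_mem hg i))
    rw [Subgroup.mem_centralizer_singleton_iff.mp hgC, mul_inv_cancel_right]
  · intro N hN R hR hR1
    set q := QuotientGroup.mk' N with hq
    have hqs : Function.Surjective q := QuotientGroup.mk'_surjective N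
    set X := R.comap q with hX
    set R0 := (P : Subgroup G) ⊓ X with hR0
    have hRP : ∀ r ∈ R, ∃ z ∈ R0, q z = r := by
      intro r hr
      obtain ⟨z, hz, rfl⟩ := hR hr
      exact ⟨z, Subgroup.mem_inf.mpr ⟨hz, hr⟩, rfl⟩
    have hX' : X ≤ R0 ⊔ N := fun z hz => by
      obtain ⟨z0, hz0, he⟩ := hRP (q z) hz
      have h1 : z0⁻¹ * z ∈ N := (QuotientGroup.eq_one_iff _).mp
        (show q (z0⁻¹ * z) = 1 by rw [map_mul, map_inv, he, inv_mul_cancel])
      have := mul_mem (Subgroup.mem_sup_left (T := N) hz0) (Subgroup.mem_sup_right (S := R0) h1)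
      simpa using this
    have hR0X : R0 ≤ X := inf_le_right
    have hNX : N ≤ X := fun z hz => by
      show q z ∈ R
      rw [show q z = 1 from (QuotientGroup.eq_one_iff z).mpr hz]
      exact R.one_mem
    have hi : ¬ p ∣ R0.relIndex X := by
      have hXe : X = R0 ⊔ N := le_antisymm hX' (sup_le hR0X hNX)
      intro hd
      rw [hXe, CfsgLib.Local.SylJoin.relIndex_sup_eq
        ((Subgroup.normalizer_eq_top (H := N)).symm ▸ le_top)] at hd
      refine CfsgLib.Local.SylJoin.not_dvd_relIndex_inf_subnormal P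
        ((inferInstance : N.Normal).isSubnormal) (hd.trans ?_)
      exact Subgroup.relIndex_dvd_of_le_left N (inf_le_inf_left _ hNX)
    have hR01 : R0 ≠ ⊥ := fun e => hR1 (le_bot_iff.mp fun r hr => by
      obtain ⟨z, hz, rfl⟩ := hRP r hr
      rw [e, Subgroup.mem_bot] at hz
      rw [Subgroup.mem_bot, hz, map_one])
    have hlow : Subgroup.normalizer (R0 : Set G) ≤ C := hlc R0 inf_le_left hR01
    intro nb hnb
    obtain ⟨n, rfl⟩ := hqs nb
    have hnX : n ∈ Subgroup.normalizer (X : Set G) := by
      refine Subgroup.mem_normalizer_iff.mpr fun z => ?_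
      have h1 := Subgroup.mem_normalizer_iff.mp hnb (q z)
      rw [← map_inv, ← map_mul, ← map_mul] at h1
      exact h1
    have h2 := CfsgLib.Local.PRed.frattini_rel (M := Subgroup.normalizer (X : Set G)) le_rfl
      Subgroup.le_normalizer hR0X (P.isPGroup'.to_le inf_le_left) hi hnX
    have h3 : (Subgroup.normalizer (X : Set G) ⊓ Subgroup.normalizer (R0 : Set G)) ⊔ X ≤
        (Subgroup.centralizer ({q x} : Set (G ⧸ N))).comap q := by
      refine sup_le (fun z hz => ?_) (hX'.trans (sup_le (fun z hz => ?_) fun z hz => ?_))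
      · refine Subgroup.mem_centralizer_singleton_iff.mpr ?_
        rw [← map_mul, ← map_mul,
          Subgroup.mem_centralizer_singleton_iff.mp (hlow (Subgroup.mem_inf.mp hz).2)]
      · refine Subgroup.mem_centralizer_singleton_iff.mpr ?_
        rw [← map_mul, ← map_mul,
          Subgroup.mem_centralizer_singleton_iff.mp (hPC (Subgroup.mem_inf.mp hz).1)]
      · refine Subgroup.mem_centralizer_singleton_iff.mpr ?_
        rw [show q z = 1 from (QuotientGroup.eq_one_iff z).mpr hz, one_mul, mul_one]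
    exact h3 h2

end Cfsg.Agent.S2998
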