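import Cfsg.Statements.S3003
import Cfsg.Agent.Lib.LocalCoprimeGen
import Cfsg.Agent.Lib.CoreBasic

set_option autoImplicit false
open Cfsg
open scoped commutatorElement Pointwise

namespace Cfsg.Agent.S3003

/-- Let G be a finite group, p a prime and Q a large p-subgroup of G: C_G(Q) ≤ Q and N_G(U) ≤ N_G(Q) for every nontrivial subgroup U of C_G(Q). Let Q ≤ G₁ ≤ G, let R be a subgroup of order prime to p normalized by G₁, and let U ≤ G₁ be a p-subgroup. If U contains a nontrivial element which is G₁-conjugate to an element of Z(Q), then C_R(U) = 1. In particular, if U is elementary abelian of order at least p² and every maximal subgroup of U contains a nontrivial element G₁-conjugate into Z(Q), then R = 1. -/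
theorem result {G : Type*} [Group G] [Finite G] {p : ℕ} [Fact p.Prime] (Q : Subgroup G) (hQp : IsPGroup p ↥Q) (hlarge : Cfsg.IsLarge Q) (G₁ : Subgroup G) (hQG : Q ≤ G₁) (R : Subgroup G) (hR : (Nat.card ↥R).Coprime p) (hGR : G₁ ≤ Subgroup.normalizer (R : Set G)) (U : Subgroup G) (hUG : U ≤ G₁) (hUp : IsPGroup p ↥U) : ((∃ x ∈ U, x ≠ 1 ∧ ∃ g ∈ G₁, g * x * g⁻¹ ∈ Q ⊓ Subgroup.centralizer (Q : Set G)) → R ⊓ Subgroup.centralizer (U : Set G) = ⊥) ∧ (Cfsg.IsElementaryAbelian p U → p ^ 2 ≤ Nat.card ↥U → (∀ U₀ : Subgroup G, U₀ ≤ U → IsCoatom (U₀.subgroupOf U) → ∃ x ∈ U₀, x ≠ 1 ∧ ∃ g ∈ G₁, g * x * g⁻¹ ∈ Q ⊓ Subgroup.centralizer (Q : Set G)) → R = ⊥) := by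
  have hdisj : ∀ x : G, x ∈ Q → x ∈ R → x = 1 := by
    intro x hxQ hxR
    obtain ⟨k, hk⟩ := IsPGroup.iff_orderOf.mp hQp ⟨x, hxQ⟩
    rw [← Subgroup.orderOf_coe] at hk
    have h1 : orderOf x ∣ Nat.card ↥R := by
      have := orderOf_dvd_natCard (⟨x, hxR⟩ : ↥R)
      rwa [← Subgroup.orderOf_coe] at this
    exact orderOf_eq_one_iff.mp (Nat.eq_one_of_dvd_coprimes
      (Nat.Coprime.pow_left k hR.symm) (hk ▸ dvd_rfl) h1)
  have hmain : ∀ U : Subgroup G,
      (∃ x ∈ U, x ≠ 1 ∧ ∃ g ∈ G₁, g * x * g⁻¹ ∈ Q ⊓ Subgroup.centralizer (Q : Set G)) →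
      R ⊓ Subgroup.centralizer (U : Set G) = ⊥ := by
    rintro U ⟨x, hxU, hx1, g, hg, hz⟩
    obtain ⟨hzQ, hzC⟩ := Subgroup.mem_inf.mp hz
    set z := g * x * g⁻¹ with hzdef
    have hU0 : Subgroup.normalizer (Subgroup.zpowers z : Set G) ≤
        Subgroup.normalizer (Q : Set G) :=
      hlarge.2 _ (Subgroup.zpowers_le.mpr hzC) (by
        rw [ne_eq, Subgroup.zpowers_eq_bot]
        exact fun h => hx1 (by simpa [hzdef] using h))
    refine le_bot_iff.mp fun r hr => ?_
    obtain ⟨hrR, hrC⟩ := Subgroup.mem_inf.mp hr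
    set r' := g * r * g⁻¹ with hr'def
    have hr'R : r' ∈ R := (Subgroup.mem_normalizer_iff.mp (hGR hg) r).mp hrR
    have hcomm : r' * z = z * r' := by
      have h1 := Subgroup.mem_centralizer_iff.mp hrC x hxU
      calc g * r * g⁻¹ * (g * x * g⁻¹) = g * (r * x) * g⁻¹ := by group
        _ = g * (x * r) * g⁻¹ := by rw [h1]
        _ = g * x * g⁻¹ * (g * r * g⁻¹) := by group
    have hN : r' ∈ Subgroup.normalizer (Q : Set G) := hU0
      ((CfsgLib.Core.centralizer_le_normalizer _) (Subgroup.mem_centralizer_iff.mpr fun u hu => by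
        obtain ⟨i, rfl⟩ := Subgroup.mem_zpowers_iff.mp hu
        exact ((Commute.zpow_right hcomm i).eq).symm))
    have hr'Q : r' ∈ Q := hlarge.1 (Subgroup.mem_centralizer_iff.mpr fun q hq => by
      have h1 : r' * q * r'⁻¹ * q⁻¹ ∈ Q :=
        Q.mul_mem ((Subgroup.mem_normalizer_iff.mp hN q).mp hq) (Q.inv_mem hq)
      have h2 : r' * q * r'⁻¹ * q⁻¹ ∈ R := by
        have := R.mul_mem hr'R
          ((Subgroup.mem_normalizer_iff.mp (hGR (hQG hq)) r'⁻¹).mp (R.inv_mem hr'R))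
        simpa [mul_assoc] using this
      exact (mul_inv_eq_iff_eq_mul.mp (mul_inv_eq_one.mp (hdisj _ h1 h2))).symm)
    have h3 := hdisj r' hr'Q hr'R
    rw [Subgroup.mem_bot]
    simpa [hr'def] using h3
  refine ⟨hmain U, fun hel hcard hall => ?_⟩
  haveI : IsMulCommutative ↥U := hel.1
  have hne : U ≠ ⊥ := by
    intro h
    rw [h, Subgroup.card_bot] at hcard
    have := Nat.one_lt_pow (n := 2) (by norm_num) (Fact.out : p.Prime).one_lt
    omega
  have hcop : (Nat.card ↥U).Coprime (Nat.card ↥R) := by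
    obtain ⟨n, hn⟩ := hUp.exists_card_eq
    rw [hn]
    exact Nat.Coprime.pow_left n hR.symm
  rw [← CfsgLib.Core.generated_by_cocyclic (A := U) (K := R) (hUG.trans hGR) hcop]
  refine le_bot_iff.mp (iSup₂_le fun B hB => ?_)
  obtain ⟨B', hB'B, hidx⟩ := CfsgLib.Local.CoprimeGen.exists_index_le (p := p) hel hne hB
  have hB'U : B' ≤ U := hB'B.trans hB.1
  have hcoatom : IsCoatom (B'.subgroupOf U) := by
    have hi : (B'.subgroupOf U).index = p := hidx
    refine ⟨fun h => (Fact.out : p.Prime).ne_one (by rw [← hi, h, Subgroup.index_top]),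
      fun N hN => ?_⟩
    have h1 : N.index ∣ p := hi ▸ Subgroup.index_dvd_of_le hN.le
    rcases (Nat.dvd_prime (Fact.out : p.Prime)).mp h1 with h | h
    · exact Subgroup.index_eq_one.mp h
    · exact absurd (CfsgLib.Core.eq_of_le_of_card_le hN.le (by
        have e1 := Subgroup.card_mul_index N
        have e2 := Subgroup.card_mul_index (B'.subgroupOf U)
        rw [h] at e1
        rw [hi] at e2
        exact le_of_eq (Nat.eq_of_mul_eq_mul_right (Fact.out : p.Prime).pos (e1.trans e2.symm))))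
        hN.ne
  exact le_trans (inf_le_inf_left R (fun y hy => Subgroup.mem_centralizer_iff.mpr fun b hb =>
    Subgroup.mem_centralizer_iff.mp hy b (hB'B hb)))
    (hmain B' (hall B' hB'U hcoatom)).le

end Cfsg.Agent.S3003
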