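import Cfsg.Statements.S3004
import Cfsg.Agent.Lib.LocalCD

set_option autoImplicit false
open scoped Pointwise
open Cfsg

namespace Cfsg.Agent.S3004

/-- Let P be a finite p-group and call a subgroup R of P measure-largest if |R|·|C_P(R)| is as large as possible among subgroups of P. If Q and R are measure-largest then QR = RQ is a subgroup, QR and Q ∩ R are measure-largest, C_P(Q) is measure-largest, Q = C_P(C_P(Q)), and C_P(Q ∩ R) = C_P(Q)·C_P(R). -/
theorem result {p : ℕ} [Fact p.Prime] (P : Type*) [Group P] [Finite P] (hP : IsPGroup p P) (Q R : Subgroup P) (hQ : Cfsg.IsCentralizerLarge Q) (hR : Cfsg.IsCentralizerLarge R) : ((Q ⊔ R : Subgroup P) : Set P) = (Q : Set P) * (R : Set P) ∧ Cfsg.IsCentralizerLarge (Q ⊔ R) ∧ Cfsg.IsCentralizerLarge (Q ⊓ R) ∧ Cfsg.IsCentralizerLarge (Subgroup.centralizer (Q : Set P)) ∧ Q = Subgroup.centralizer ((Subgroup.centralizer (Q : Set P) : Subgroup P) : Set P) ∧ ((Subgroup.centralizer (Q : Set P) ⊔ Subgroup.centralizer (R : Set P) : Subgroup P) :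 Set P) = (Subgroup.centralizer (Q : Set P) : Set P) * (Subgroup.centralizer (R : Set P) : Set P) ∧ Subgroup.centralizer ((Q ⊓ R : Subgroup P) : Set P) = Subgroup.centralizer (Q : Set P) ⊔ Subgroup.centralizer (R : Set P) := by
  haveI : Finite (Subgroup P) := Finite.of_injective _ SetLike.coe_injective
  have hiff : ∀ R : Subgroup P, Cfsg.IsCentralizerLarge R ↔ CfsgLib.Local.IsCD R := by
    intro R
    unfold Cfsg.IsCentralizerLarge Cfsg.maxCentralizerProduct
    set s := {k : ℕ | ∃ R : Subgroup P,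
      Nat.card ↥R * Nat.card ↥(Subgroup.centralizer (R : Set P)) = k} with hs
    have hb : BddAbove s := (Set.finite_range (CfsgLib.Local.cdM (G := P))).bddAbove
    constructor
    · exact fun h K => (le_csSup hb ⟨K, rfl⟩).trans h.ge
    · intro h
      refine le_antisymm (le_csSup hb ⟨R, rfl⟩) (csSup_le ⟨_, R, rfl⟩ ?_)
      rintro _ ⟨K, rfl⟩
      exact h K
  rw [hiff] at hQ hR
  simp only [hiff]
  refine ⟨(hQ.set_mul hR).symm, (hQ.inf_sup hR).2, (hQ.inf_sup hR).1, hQ.centralizer,
    hQ.centralizer_centralizer, (hQ.centralizer.set_mul hR.centralizer).symm,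
    (hQ.card_eq hR).2.2⟩

end Cfsg.Agent.S3004
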