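import Cfsg.Statements.S3005
import Cfsg.Agent.Lib.LocalCD

set_option autoImplicit false
open scoped Pointwise
open Cfsg
open scoped Pointwise
set_option maxHeartbeats 800000

namespace Cfsg.Agent.S3005

/-- Let P be a finite p-group; call R ≤ P centrally large if |R|·|Z(R)| is as large as possible among subgroups of P, and measure-largest if |R|·|C_P(R)| is as large as possible. Then: a centrally large Q is measure-largest with C_P(Q) = Z(Q); a measure-largest Q is centrally large if and only if C_P(Q) ≤ Q; if Q and R are centrally large then QR = RQ is a centrally large subgroup; and the subgroups generated by all centrally large subgroups, respectively by all minimal centrally large subgroups, are themselves centrally large. -/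
theorem result {p : ℕ} [Fact p.Prime] (P : Type*) [Group P] [Finite P] (hP : IsPGroup p P) : (∀ Q : Subgroup P, Cfsg.IsCentrallyLarge Q → Cfsg.IsCentralizerLarge Q ∧ Subgroup.centralizer (Q : Set P) = Q ⊓ Subgroup.centralizer (Q : Set P)) ∧ (∀ Q : Subgroup P, Cfsg.IsCentralizerLarge Q → (Cfsg.IsCentrallyLarge Q ↔ Subgroup.centralizer (Q : Set P) ≤ Q)) ∧ (∀ Q R : Subgroup P, Cfsg.IsCentrallyLarge Q → Cfsg.IsCentrallyLarge R → ((Q ⊔ R : Subgroup P) : Set P) = (Q : Set P) * (R : Set P) ∧ Cfsg.IsCentrallyLarge (Q ⊔ R)) ∧ Cfsg.IsCentrallyLarge (Cfsg.centrallyLargeJoin P) ∧ Cfsg.IsCentrallyLarge (Cfsg.minimalCentrallyLargeJoin P) := by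
  open CfsgLib.Local in
  haveI : Finite (Subgroup P) := Finite.of_injective _ SetLike.coe_injective
  let z : Subgroup P → ℕ := fun R => Nat.card ↥R * Nat.card ↥(Subgroup.center ↥R)
  have hzc : ∀ R : Subgroup P,
      Nat.card ↥(Subgroup.center ↥R) = Nat.card ↥(R ⊓ Subgroup.centralizer (R : Set P)) := by
    intro R
    have e : (Subgroup.center ↥R).map R.subtype = R ⊓ Subgroup.centralizer (R : Set P) := by
      ext x
      constructor
      · rintro ⟨y, hy, rfl⟩
        exact ⟨y.2, Subgroup.mem_centralizer_iff.2 fun w hw =>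
          congrArg Subtype.val (Subgroup.mem_center_iff.1 hy ⟨w, hw⟩)⟩
      · rintro ⟨hx, hx'⟩
        exact ⟨⟨x, hx⟩, Subgroup.mem_center_iff.2 fun w =>
          Subtype.ext (Subgroup.mem_centralizer_iff.1 hx' w w.2), rfl⟩
    rw [← e, Subgroup.card_map_of_injective R.subtype_injective]
  have hzle : ∀ R, z R ≤ cdM R := fun R => by
    simp only [z, hzc]
    exact Nat.mul_le_mul_left _
      (Nat.card_mono (Set.toFinite _) (SetLike.coe_subset_coe.2 inf_le_right))
  have hzeq : ∀ R : Subgroup P, Subgroup.centralizer (R : Set P) ≤ R → z R = cdM R := fun R h => by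
    simp only [z, hzc, inf_eq_right.2 h, cdM]
  obtain ⟨H, hH⟩ := exists_isCD (G := P)
  have hK : ∃ K : Subgroup P, IsCD K ∧ Subgroup.centralizer (K : Set P) ≤ K := by
    refine ⟨H ⊔ Subgroup.centralizer (H : Set P), (hH.inf_sup hH.centralizer).2, ?_⟩
    rw [centralizer_sup]
    exact inf_le_left.trans le_sup_right
  obtain ⟨K, hK, hKc⟩ := hK
  have hb1 : BddAbove {k : ℕ | ∃ R : Subgroup P,
      Nat.card ↥R * Nat.card ↥(Subgroup.centralizer (R : Set P)) = k} :=
    (Set.finite_range (cdM (G := P))).bddAbove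
  have hmax1 : Cfsg.maxCentralizerProduct P = cdM K := by
    refine le_antisymm (csSup_le ⟨_, K, rfl⟩ ?_) (le_csSup hb1 ⟨K, rfl⟩)
    rintro _ ⟨R, rfl⟩
    exact hK R
  have hb0 : BddAbove {k : ℕ | ∃ R : Subgroup P,
      Nat.card ↥R * Nat.card ↥(Subgroup.center ↥R) = k} := (Set.finite_range z).bddAbove
  have hmax0 : Cfsg.maxCentralProduct P = cdM K := by
    refine le_antisymm (csSup_le ⟨_, K, rfl⟩ ?_) ?_
    · rintro _ ⟨R, rfl⟩
      exact (hzle R).trans (hK R)
    · rw [← hzeq K hKc]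
      exact le_csSup hb0 ⟨K, rfl⟩
  have iff1 : ∀ R, Cfsg.IsCentralizerLarge R ↔ IsCD R := fun R => by
    unfold Cfsg.IsCentralizerLarge
    rw [hmax1]
    exact ⟨fun h => hK.of_le h.ge, fun h => h.eq hK⟩
  have iff0 : ∀ R, Cfsg.IsCentrallyLarge R ↔
      (IsCD R ∧ Subgroup.centralizer (R : Set P) ≤ R) := fun R => by
    unfold Cfsg.IsCentrallyLarge
    rw [hmax0]
    constructor
    · intro h
      have h1 : IsCD R := hK.of_le (h.ge.trans (hzle R))
      refine ⟨h1, ?_⟩
      have h2 : z R = cdM R := h.trans (hK.eq h1)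
      simp only [z, hzc, cdM] at h2
      exact (Subgroup.eq_of_le_of_card_ge inf_le_right
        (Nat.eq_of_mul_eq_mul_left Nat.card_pos h2).ge).ge.trans inf_le_left
    · rintro ⟨h1, h2⟩
      exact (hzeq R h2).trans (h1.eq hK)
  have hjoin : ∀ Q R : Subgroup P, Cfsg.IsCentrallyLarge Q → Cfsg.IsCentrallyLarge R →
      Cfsg.IsCentrallyLarge (Q ⊔ R) := by
    intro Q R hQ hR
    rw [iff0] at hQ hR ⊢
    refine ⟨(hQ.1.inf_sup hR.1).2, ?_⟩
    rw [centralizer_sup]
    exact inf_le_left.trans (hQ.2.trans le_sup_left)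
  have hKcl : Cfsg.IsCentrallyLarge K := (iff0 K).2 ⟨hK, hKc⟩
  have hsSup : ∀ 𝒮 : Set (Subgroup P), 𝒮.Nonempty → (∀ R ∈ 𝒮, Cfsg.IsCentrallyLarge R) →
      Cfsg.IsCentrallyLarge (sSup 𝒮) := by
    intro 𝒮 hne hS
    refine Set.Finite.induction_on_subset (motive := fun s _ => s.Nonempty →
      Cfsg.IsCentrallyLarge (sSup s)) 𝒮 (Set.toFinite 𝒮) (fun h => h.ne_empty rfl |>.elim)
      (fun {a s} ha _ _ ih _ => ?_) hne
    rw [sSup_insert]
    rcases s.eq_empty_or_nonempty with rfl | hs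
    · simpa using hS a ha
    · exact hjoin _ _ (hS a ha) (ih hs)
  refine ⟨?_, ?_, ?_, ?_, ?_⟩
  · intro Q hQ
    obtain ⟨h1, h2⟩ := (iff0 Q).1 hQ
    exact ⟨(iff1 Q).2 h1, (inf_eq_right.2 h2).symm⟩
  · intro Q hQ
    rw [iff0]
    exact ⟨fun h => h.2, fun h => ⟨(iff1 Q).1 hQ, h⟩⟩
  · intro Q R hQ hR
    exact ⟨(IsCD.set_mul ((iff0 Q).1 hQ).1 ((iff0 R).1 hR).1).symm, hjoin Q R hQ hR⟩
  · exact hsSup _ ⟨K, hKcl⟩ fun R hR => hR
  · refine hsSup _ ?_ fun R hR => hR.1
    haveI : Nonempty {R : Subgroup P // Cfsg.IsCentrallyLarge R} := ⟨⟨K, hKcl⟩⟩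
    obtain ⟨⟨R, hR⟩, hmin⟩ :=
      Finite.exists_min (fun R : {R : Subgroup P // Cfsg.IsCentrallyLarge R} => Nat.card ↥R.1)
    exact ⟨R, hR, fun R' hle hR' => Subgroup.eq_of_le_of_card_ge hle (hmin ⟨R', hR'⟩)⟩

end Cfsg.Agent.S3005
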