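import Cfsg.Statements.S3006
import Cfsg.Agent.Lib.LocalCentrallyLarge
import Cfsg.Agent.Lib.CoreCoprime

set_option autoImplicit false
open scoped Pointwise
open Cfsg
open scoped Pointwise commutatorElement

namespace Cfsg.Agent.S3006

/-- Let P be a finite p-group, Q a centrally large subgroup of P (|Q|·|Z(Q)| maximal among subgroups of P) and A an abelian subgroup of P of largest order. Then QA = AQ is a centrally large subgroup of P, C_{QA}(Q ∩ A) = Z(Q)·A, and the subgroup generated by all centrally large subgroups of P contains C_P(Z(J(P))), where J(P) is generated by the abelian subgroups of largest order. -/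
theorem result {p : ℕ} [Fact p.Prime] (P : Type*) [Group P] [Finite P] (hP : IsPGroup p P) (Q A : Subgroup P) (hQ : Cfsg.IsCentrallyLarge Q) (hA : A ∈ Cfsg.maxAbelianSubgroups P) : ((Q ⊔ A : Subgroup P) : Set P) = (Q : Set P) * (A : Set P) ∧ Cfsg.IsCentrallyLarge (Q ⊔ A) ∧ (Q ⊔ A) ⊓ Subgroup.centralizer ((Q ⊓ A : Subgroup P) : Set P) = (Q ⊓ Subgroup.centralizer (Q : Set P)) ⊔ A ∧ (((Q ⊓ Subgroup.centralizer (Q : Set P)) ⊔ A : Subgroup P) : Set P) = ((Q ⊓ Subgroup.centralizer (Q : Set P)) : Set P) * (A : Set P) ∧ Subgroup.centralizer ((Cfsg.thompsonSubgroupA P ⊓ Subgroup.centralizer (Cfsg.thompsonSubgroupA P : Set P) : Subgroup P) : Set P) ≤ Cfsg.centrallyLargeJoin P := by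
  classical
  haveI := hA.1
  obtain ⟨hT, hcard, hB⟩ := CfsgLib.Local.CL.sup_maxAbelian hQ hA
  have hz : CfsgLib.Local.CL.zc Q = Q ⊓ Subgroup.centralizer (Q : Set P) := rfl
  rw [← hz]
  set Z := CfsgLib.Local.CL.zc Q with hZ
  set D := Q ⊓ A with hD
  have hset := (CfsgLib.Local.set_mul_eq_sup_of_card Q A hcard).symm
  have hAc : A ≤ Subgroup.centralizer (D : Set P) :=
    (Subgroup.le_centralizer A).trans (Subgroup.centralizer_le (SetLike.coe_subset_coe.mpr inf_le_right))
  have hZc : Z ≤ Subgroup.centralizer (D : Set P) :=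
    (inf_le_right : Z ≤ Subgroup.centralizer (Q : Set P)).trans
      (Subgroup.centralizer_le (SetLike.coe_subset_coe.mpr inf_le_left))
  haveI := hB.1
  have hkey : ∀ x ∈ (Q ⊔ A) ⊓ Subgroup.centralizer (D : Set P), x ∈ (Z : Set P) * (A : Set P) := by
    intro x hx
    obtain ⟨hx1, hx2⟩ := Subgroup.mem_inf.mp hx
    obtain ⟨q, hq, a, ha, rfl⟩ := hset.le hx1
    have hqc : q ∈ Subgroup.centralizer (D : Set P) := by
      have := mul_mem hx2 (inv_mem (hAc ha))
      rwa [mul_inv_cancel_right] at this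
    have hqB : q ∈ Z ⊔ D := by
      rw [← CfsgLib.Local.CL.centralizer_maxAbelian hB]
      suffices h : Z ⊔ D ≤ Subgroup.centralizer ({q} : Set P) from
        Subgroup.mem_centralizer_iff.mpr fun v hv => Subgroup.mem_centralizer_singleton_iff.mp (h hv)
      refine sup_le (fun v hv => ?_) (fun v hv => ?_)
      · exact Subgroup.mem_centralizer_singleton_iff.mpr
          (Subgroup.mem_centralizer_iff.mp (Subgroup.mem_inf.mp hv).2 q hq).symm
      · exact Subgroup.mem_centralizer_singleton_iff.mpr (Subgroup.mem_centralizer_iff.mp hqc v hv)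
    obtain ⟨z, hzm, d, hd, rfl⟩ := (CfsgLib.Core.mem_sup_iff_of_le_normalizer
      (hZc.trans (CfsgLib.Core.centralizer_le_normalizer D))).mp hqB
    exact ⟨z, hzm, d * a, mul_mem (Subgroup.mem_inf.mp hd).2 ha, (mul_assoc z d a).symm⟩
  have hle : Z ⊔ A ≤ (Q ⊔ A) ⊓ Subgroup.centralizer (D : Set P) :=
    le_inf (sup_le ((CfsgLib.Local.CL.zc_le Q).trans le_sup_left) le_sup_right) (sup_le hZc hAc)
  refine ⟨hset, hT, le_antisymm ?_ hle, ?_, ?_⟩
  · exact fun x hx => CfsgLib.Local.set_mul_subset_sup Z A (hkey x hx)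
  · exact Set.Subset.antisymm (fun x hx => hkey x (hle hx)) (CfsgLib.Local.set_mul_subset_sup Z A)
  · exact (CfsgLib.Local.CL.centralizer_zJ_le hQ).trans (le_sSup (CfsgLib.Local.CL.sup_thompson hQ))

end Cfsg.Agent.S3006
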