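import Cfsg.Statements.S3007
import Cfsg.Agent.Lib.LocalCentrallyLarge
import Cfsg.Agent.Lib.LocalFStarAction

set_option autoImplicit false
open Cfsg
open scoped Pointwise commutatorElement

namespace Cfsg.Agent.S3007

/-- Let P be a finite p-group and Q, R minimal centrally large subgroups of P (centrally large: |Q|·|Z(Q)| maximal among subgroups of P; minimal among such under inclusion). Then Q = (Q ∩ R)·Z(Q), the derived subgroups [Q, Q] and [R, R] coincide, |Q| = |R| and |Z(Q)| = |Z(R)|; and if Q is abelian then the minimal centrally large subgroups of P are exactly the abelian subgroups of P of largest order. -/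
theorem result {p : ℕ} [Fact p.Prime] (P : Type*) [Group P] [Finite P] (hP : IsPGroup p P) (Q R : Subgroup P) (hQ : Cfsg.IsMinimalCentrallyLarge Q) (hR : Cfsg.IsMinimalCentrallyLarge R) : (Q ⊓ R) ⊔ (Q ⊓ Subgroup.centralizer (Q : Set P)) = Q ∧ ⁅Q, Q⁆ = ⁅R, R⁆ ∧ Nat.card ↥Q = Nat.card ↥R ∧ Nat.card ↥(Q ⊓ Subgroup.centralizer (Q : Set P)) = Nat.card ↥(R ⊓ Subgroup.centralizer (R : Set P)) ∧ (IsMulCommutative ↥Q → ∀ X : Subgroup P, Cfsg.IsMinimalCentrallyLarge X ↔ X ∈ Cfsg.maxAbelianSubgroups P) := by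
  classical
  have key : ∀ A B : Subgroup P, Cfsg.IsMinimalCentrallyLarge A → Cfsg.IsMinimalCentrallyLarge B →
      (A ⊓ B) ⊔ CfsgLib.Local.CL.zc A = A ∧
      Nat.card A * Nat.card ↥(CfsgLib.Local.CL.zc A ⊓ B) =
        Nat.card ↥(A ⊓ B) * Nat.card (CfsgLib.Local.CL.zc A) ∧
      Nat.card ↥(CfsgLib.Local.CL.zc B ⊓ A) = Nat.card ↥(CfsgLib.Local.CL.zc A ⊓ CfsgLib.Local.CL.zc B) := by
    intro A B hA hB
    obtain ⟨hY, h1, h2, -⟩ := CfsgLib.Local.CL.pair hA.1 hB.1
    have heq := hA.2 _ (sup_le inf_le_left (CfsgLib.Local.CL.zc_le A)) hY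
    rw [heq] at h1 h2
    exact ⟨heq, h2, Nat.eq_of_mul_eq_mul_left Nat.card_pos h1⟩
  obtain ⟨hQeq, q1, q2⟩ := key Q R hQ hR
  obtain ⟨hReq, r1, r2⟩ := key R Q hR hQ
  rw [inf_comm R Q] at r1 hReq
  rw [inf_comm (CfsgLib.Local.CL.zc R) (CfsgLib.Local.CL.zc Q)] at r2
  rw [r2] at q1
  rw [q2] at r1
  have hm : Nat.card R * Nat.card (CfsgLib.Local.CL.zc R) = Nat.card Q * Nat.card (CfsgLib.Local.CL.zc Q) :=
    (CfsgLib.Local.CL.iff_eq.mp hR.1).trans (CfsgLib.Local.CL.iff_eq.mp hQ.1).symm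
  have sq : ∀ a b za zb d i : ℕ, 0 < a → 0 < i → 0 < za → 0 < zb → a * i = d * za → b * i = d * zb →
      b * zb = a * za → a = b ∧ za = zb := by
    intro a b za zb d i ha hi hza hzb e1 e2 e3
    have e4 : a * zb = b * za := by
      refine Nat.eq_of_mul_eq_mul_right hi ?_
      calc a * zb * i = a * i * zb := by ring
        _ = d * za * zb := by rw [e1]
        _ = d * zb * za := by ring
        _ = b * i * za := by rw [e2]
        _ = b * za * i := by ring
    have e5 : a ^ 2 = b ^ 2 := by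
      refine Nat.eq_of_mul_eq_mul_right (Nat.mul_pos hza hzb) ?_
      calc a ^ 2 * (za * zb) = (a * za) * (a * zb) := by ring
        _ = (b * zb) * (b * za) := by rw [e3, e4]
        _ = _ := by ring
    have e6 : a = b := Nat.pow_left_injective two_ne_zero e5
    subst e6
    exact ⟨rfl, (Nat.eq_of_mul_eq_mul_left ha e3).symm⟩
  obtain ⟨hc, hzc⟩ := sq _ _ _ _ _ _ Nat.card_pos Nat.card_pos Nat.card_pos Nat.card_pos q1 r1 hm
  have hcom : ∀ A D : Subgroup P, D ⊔ CfsgLib.Local.CL.zc A = A → ⁅A, A⁆ = ⁅D, D⁆ := by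
    intro A D h
    refine le_antisymm ?_ (Subgroup.commutator_mono (le_sup_left.trans h.le) (le_sup_left.trans h.le))
    have hz : CfsgLib.Local.CL.zc A ≤ Subgroup.centralizer (D : Set P) :=
      (inf_le_right : CfsgLib.Local.CL.zc A ≤ Subgroup.centralizer (A : Set P)).trans
        (Subgroup.centralizer_le (SetLike.coe_subset_coe.mpr (le_sup_left.trans h.le)))
    have h1 := CfsgLib.Local.FStar.commutator_sup_self hz
    rw [h] at h1
    refine h1.trans (sup_le le_rfl ?_)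
    rw [Subgroup.commutator_eq_bot_iff_le_centralizer.mpr]
    · exact bot_le
    · exact (inf_le_right : CfsgLib.Local.CL.zc A ≤ Subgroup.centralizer (A : Set P)).trans
        (Subgroup.centralizer_le (SetLike.coe_subset_coe.mpr (CfsgLib.Local.CL.zc_le A)))
  refine ⟨hQeq, (hcom Q _ hQeq).trans (hcom R _ hReq).symm, hc, hzc, fun hab X => ?_⟩
  haveI := hab
  have habz : ∀ A : Subgroup P, IsMulCommutative A → CfsgLib.Local.CL.zc A = A := fun A h => by
    haveI := h
    exact inf_eq_left.mpr (Subgroup.le_centralizer A)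
  have hQz := habz Q hab
  have hmQ : CfsgLib.Local.CL.m Q = Nat.card Q * Nat.card Q := by rw [CfsgLib.Local.CL.m, hQz]
  constructor
  · intro hX
    obtain ⟨hX1, -⟩ := key X Q hX hQ
    obtain ⟨-, x1, x2⟩ := key X Q hX hQ
    obtain ⟨-, y1, y2⟩ := key Q X hQ hX
    rw [inf_comm Q X] at y1
    rw [inf_comm (CfsgLib.Local.CL.zc Q) (CfsgLib.Local.CL.zc X)] at y2
    rw [y2] at x1
    rw [x2] at y1
    have hmX : Nat.card Q * Nat.card (CfsgLib.Local.CL.zc Q) = Nat.card X * Nat.card (CfsgLib.Local.CL.zc X) :=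
      (CfsgLib.Local.CL.iff_eq.mp hQ.1).trans (CfsgLib.Local.CL.iff_eq.mp hX.1).symm
    obtain ⟨e1, e2⟩ := sq _ _ _ _ _ _ Nat.card_pos Nat.card_pos Nat.card_pos Nat.card_pos x1 y1 hmX
    rw [hQz] at e2
    have hzX : CfsgLib.Local.CL.zc X = X :=
      CfsgLib.Core.eq_of_le_of_card_le (CfsgLib.Local.CL.zc_le X) (by omega)
    have hXab : IsMulCommutative X := by
      have h : X ≤ Subgroup.centralizer (X : Set P) := hzX.ge.trans inf_le_right
      exact ⟨⟨fun a b => Subtype.ext (Subgroup.mem_centralizer_iff.mp (h b.2) a a.2)⟩⟩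
    refine ⟨hXab, fun B hB => ?_⟩
    have h := CfsgLib.Local.CL.le_of_isCL hQ.1 B
    rw [hmQ, CfsgLib.Local.CL.m, habz B hB] at h
    rw [e1]
    exact Nat.mul_self_le_mul_self_iff.mp h
  · intro hX
    have hle : CfsgLib.Local.CL.m Q ≤ CfsgLib.Local.CL.m X := by
      rw [hmQ, CfsgLib.Local.CL.m, habz X hX.1]
      exact Nat.mul_self_le_mul_self (hX.2 Q hab)
    refine ⟨CfsgLib.Local.CL.isCL_of_le hQ.1 hle, fun Y hYX hY => ?_⟩
    have h := CfsgLib.Local.CL.le_of_isCL hY X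
    rw [CfsgLib.Local.CL.m, CfsgLib.Local.CL.m, habz X hX.1] at h
    have h1 := Subgroup.card_le_of_le (CfsgLib.Local.CL.zc_le Y)
    refine CfsgLib.Core.eq_of_le_of_card_le hYX (Nat.mul_self_le_mul_self_iff.mp (h.trans ?_))
    exact Nat.mul_le_mul_left _ h1

end Cfsg.Agent.S3007
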