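import Cfsg.Statements.S3012


set_option autoImplicit false
open Cfsg

namespace Cfsg.Agent.S3012

/-- Let G be a finite group, V a nontrivial elementary abelian 2-subgroup of G satisfying the Sidki pair condition (every odd-order element inverted by an element of V commutes with a nontrivial element of V), and K a normal subgroup of G with V ∩ K = 1. Then the image of V in G/K satisfies the Sidki pair condition in G/K. -/
theorem result {G : Type*} [Group G] [Finite G] (V K : Subgroup G) [K.Normal] (hV : Cfsg.IsElementaryAbelian 2 V) (hV1 : V ≠ ⊥) (hS : Cfsg.IsSidkiPair V) (hVK : V ⊓ K = ⊥) : Cfsg.IsSidkiPair (V.map (QuotientGroup.mk' K)) := by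
  intro h v hv hodd hinv
  obtain ⟨v₀, hv₀, rfl⟩ := Subgroup.mem_map.1 hv
  obtain ⟨k, hk⟩ := hodd
  obtain ⟨g, hg⟩ := QuotientGroup.mk'_surjective K (h ^ (k + 1))
  set u := v₀ * g * v₀⁻¹ * g⁻¹ with hu
  have hvv : v₀⁻¹ = v₀ := by
    rw [inv_eq_iff_mul_eq_one]
    have := hV.2 v₀ hv₀
    rwa [pow_two] at this
  have huimg : QuotientGroup.mk' K u = h⁻¹ := by
    simp only [hu, map_mul, map_inv, hg]
    rw [← conj_pow, hinv, inv_pow, ← mul_inv_rev, ← pow_add]
    congr 1
    rw [show k + 1 + (k + 1) = orderOf h + 1 by omega, pow_succ, pow_orderOf_eq_one, one_mul]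
  have hvu : v₀ * u * v₀⁻¹ = u⁻¹ := by
    simp only [hu, mul_inv_rev, inv_inv]
    simp only [hvv]
    have hv2 : v₀ * v₀ = 1 := by
      have := hV.2 v₀ hv₀
      rwa [pow_two] at this
    simp only [mul_assoc, ← mul_assoc v₀ v₀, hv2, one_mul]
  obtain ⟨a, m, hm, ham⟩ := Nat.exists_eq_two_pow_mul_odd (orderOf_pos u).ne'
  have ho : Odd (orderOf (u ^ 2 ^ a)) := by
    rw [orderOf_pow_of_dvd (pow_ne_zero _ two_ne_zero) (ham ▸ dvd_mul_right _ _), ham,
      Nat.mul_div_cancel_left _ (pow_pos two_pos a)]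
    exact hm
  obtain ⟨w, hw, hw1, hwc⟩ := hS (u ^ 2 ^ a) v₀ hv₀ ho (by rw [← conj_pow, hvu, inv_pow])
  refine ⟨QuotientGroup.mk' K w, Subgroup.mem_map_of_mem _ hw, fun he => hw1 ?_, ?_⟩
  · have : w ∈ V ⊓ K := ⟨hw, (QuotientGroup.eq_one_iff w).1 he⟩
    rwa [hVK, Subgroup.mem_bot] at this
  · have h1 := congrArg (QuotientGroup.mk' K) hwc
    simp only [map_mul, map_pow, huimg, inv_pow] at h1
    have h2 : Commute (QuotientGroup.mk' K w) (h ^ 2 ^ a) := by
      simpa using (show Commute (QuotientGroup.mk' K w) ((h ^ 2 ^ a)⁻¹) from h1).inv_right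
    obtain ⟨j, hj⟩ := exists_pow_eq_self_of_coprime (n := 2 ^ a) (x := h)
      ((Nat.coprime_two_left.2 ⟨k, hk⟩).pow_left a)
    rw [← hj]
    exact (h2.pow_right j).eq

end Cfsg.Agent.S3012
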