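import Cfsg.Statements.S3013


set_option autoImplicit false
open Cfsg

namespace Cfsg.Agent.S3013

/-- Let G be a finite group and V a nontrivial elementary abelian 2-subgroup of G satisfying the Sidki pair condition. Let v ∈ V and let x be an element of odd order inverted by v, and put C = C_G(v) ∩ C_G(x), the centralizer of the dihedral subgroup generated by v and x. Then C ∩ V is nontrivial and satisfies the Sidki pair condition inside C: every odd-order element of C inverted by an element of C ∩ V commutes with a nontrivial element of C ∩ V. -/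
theorem result {G : Type*} [Group G] [Finite G] (V : Subgroup G) (hV : Cfsg.IsElementaryAbelian 2 V) (hV1 : V ≠ ⊥) (hS : Cfsg.IsSidkiPair V) (v x : G) (hv : v ∈ V) (hx : Odd (orderOf x)) (hinv : v * x * v⁻¹ = x⁻¹) (C : Subgroup G) (hC : C = Subgroup.centralizer ({v} : Set G) ⊓ Subgroup.centralizer ({x} : Set G)) : C ⊓ V ≠ ⊥ ∧ Cfsg.IsSidkiPair ((C ⊓ V).subgroupOf C) := by
  have hsplit : ∀ {v' h : G}, v' ∈ V → Odd (orderOf h) → v' * h * v'⁻¹ = h⁻¹ →
      h * x = x * h → v * h * v⁻¹ = h → v' * x * v'⁻¹ = x →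
      ∃ w ∈ V, w ≠ 1 ∧ w * x = x * w ∧ w * h = h * w := by
    intro v' h hv' hh hi hcomm hvh hv'x
    have hodd : Odd (orderOf (x * h)) := by
      obtain ⟨c, hc⟩ := (show Commute x h from hcomm.symm).orderOf_mul_dvd_mul_orderOf
      exact (Nat.odd_mul.1 (hc ▸ hx.mul hh)).1
    obtain ⟨w, hw, hw1, hwc⟩ := hS (x * h) (v * v') (V.mul_mem hv hv') hodd (by
      calc v * v' * (x * h) * (v * v')⁻¹ = v * ((v' * x * v'⁻¹) * (v' * h * v'⁻¹)) * v⁻¹ := by group
        _ = v * (x * h⁻¹) * v⁻¹ := by rw [hv'x, hi]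
        _ = (v * x * v⁻¹) * (v * h * v⁻¹)⁻¹ := by group
        _ = x⁻¹ * h⁻¹ := by rw [hinv, hvh]
        _ = (x * h)⁻¹ := by rw [← hcomm]; group)
    have hwv : w * v = v * w := congrArg Subtype.val
      (hV.1.is_comm.comm (⟨w, hw⟩ : ↥V) ⟨v, hv⟩)
    -- conjugating by `v`
    have h2 : Commute w (x⁻¹ * h) := by
      have e : x⁻¹ * h = v * (x * h) * v⁻¹ := by
        rw [← conj_mul, hinv, hvh]
      rw [e]
      exact ((show Commute w v from hwv).mul_right (show Commute w (x * h) from hwc)).mul_right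
        (show Commute w v from hwv).inv_right
    have h3 : Commute w (x * x) := by
      have e : x * x = (x * h) * (x⁻¹ * h)⁻¹ := by group
      rw [e]
      exact (show Commute w (x * h) from hwc).mul_right h2.inv_right
    have h4 : Commute w x := by
      obtain ⟨k, hk⟩ := hx
      have e : x = (x * x) ^ (k + 1) := by
        rw [← pow_two, ← pow_mul, show 2 * (k + 1) = orderOf x + 1 by omega, pow_succ,
          pow_orderOf_eq_one, one_mul]
      rw [e]; exact h3.pow_right _
    refine ⟨w, hw, hw1, h4.eq, ?_⟩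
    have e : h = x⁻¹ * (x * h) := by group
    rw [e]
    exact (h4.inv_right.mul_right (show Commute w (x * h) from hwc)).eq
  have hmem : ∀ {w : G}, w ∈ V → w * x = x * w → w ∈ C ⊓ V := by
    intro w hw hwx
    refine Subgroup.mem_inf.2 ⟨?_, hw⟩
    rw [hC]
    exact Subgroup.mem_inf.2 ⟨Subgroup.mem_centralizer_singleton_iff.2
        (congrArg Subtype.val (hV.1.is_comm.comm (⟨w, hw⟩ : ↥V) ⟨v, hv⟩)),
      Subgroup.mem_centralizer_singleton_iff.2 hwx⟩
  constructor
  · obtain ⟨w, hw, hw1, hwc⟩ := hS x v hv hx hinv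
    intro hb
    have := hmem hw hwc
    rw [hb, Subgroup.mem_bot] at this
    exact hw1 this
  · intro h v' hv' hh hi
    have hv'' := Subgroup.mem_inf.1 (Subgroup.mem_subgroupOf.1 hv')
    have hC' : ∀ c : ↥C, (c : G) * v = v * c ∧ (c : G) * x = x * c := fun c => by
      have := c.2
      simp only [hC, Subgroup.mem_inf, Subgroup.mem_centralizer_singleton_iff] at this
      exact this
    obtain ⟨w, hw, hw1, hwx, hwh⟩ := hsplit hv''.2 (by rwa [Subgroup.orderOf_coe])
      (by simpa using congrArg Subtype.val hi) (hC' h).2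
      (by rw [← (hC' h).1]; group) (by rw [(hC' v').2]; group)
    refine ⟨⟨w, (Subgroup.mem_inf.1 (hmem hw hwx)).1⟩, ?_, ?_, Subtype.ext (by simpa using hwh)⟩
    · exact Subgroup.mem_subgroupOf.2 (hmem hw hwx)
    · exact fun he => hw1 (congrArg Subtype.val he)

end Cfsg.Agent.S3013
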