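import Cfsg.Statements.S3014
import Cfsg.Agent.Lib.LocalTwoConjugates

set_option autoImplicit false
open Cfsg

namespace Cfsg.Agent.S3014

/-- Let G be a finite group and H ≤ M ≤ G subgroups such that for every g ∈ G the subgroup generated by H and g H g⁻¹ meets M exactly in H. If H is a maximal subgroup of M and M is a maximal subgroup of G, then the normal closure of H in G meets M exactly in H. -/
theorem result {G : Type*} [Group G] [Finite G] (H M : Subgroup G) (hHM : H ≤ M) (hcl : ∀ g : G, (H ⊔ H.map (MulAut.conj g).toMonoidHom) ⊓ M = H) (hmaxH : IsCoatom (H.subgroupOf M)) (hmaxM : IsCoatom M) : Subgroup.normalClosure (H : Set G) ⊓ M = H := by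
  have hn : ∀ g ∈ M, ∀ x ∈ H, g * x * g⁻¹ ∈ H := by
    intro g hg x hx
    have h : g * x * g⁻¹ ∈ (H ⊔ H.map (MulAut.conj g).toMonoidHom) ⊓ M :=
      ⟨Subgroup.mem_sup_right ⟨x, hx, rfl⟩, M.mul_mem (M.mul_mem hg (hHM hx)) (M.inv_mem hg)⟩
    rwa [hcl g] at h
  have hHn : M ≤ Subgroup.normalizer (H : Set G) :=
    fun g hg => CfsgLib.Stable.mem_normalizer_of_map_eq (hn g hg)
  haveI hN : (H.subgroupOf M).Normal := (Subgroup.normal_subgroupOf_iff_le_normalizer hHM).2 hHn
  have hp : (H.relIndex M).Prime := by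
    have hne : Nat.card (↥M ⧸ H.subgroupOf M) ≠ 1 := by
      rw [← Subgroup.index_eq_card]
      exact fun e => hmaxH.1 (Subgroup.index_eq_one.1 e)
    obtain ⟨q, hq, hqd⟩ := Nat.exists_prime_and_dvd hne
    haveI := Fact.mk hq
    obtain ⟨x, hx⟩ := exists_prime_orderOf_dvd_card' q hqd
    have htop : Subgroup.zpowers x = ⊤ := by
      refine Subgroup.comap_injective (QuotientGroup.mk'_surjective (H.subgroupOf M)) ?_
      rw [Subgroup.comap_top]
      refine hmaxH.2 _ (lt_of_le_of_ne ?_ fun e => ?_)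
      · intro y hy
        show QuotientGroup.mk' (H.subgroupOf M) y ∈ Subgroup.zpowers x
        rw [(QuotientGroup.eq_one_iff y).2 hy |> fun h => (show QuotientGroup.mk' (H.subgroupOf M) y = 1 from h)]
        exact one_mem _
      · obtain ⟨y, rfl⟩ := QuotientGroup.mk'_surjective (H.subgroupOf M) x
        have hy : y ∈ H.subgroupOf M := by rw [e]; exact Subgroup.mem_zpowers _
        rw [show QuotientGroup.mk' (H.subgroupOf M) y = 1 from (QuotientGroup.eq_one_iff y).2 hy,
          orderOf_one] at hx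
        exact hq.ne_one hx.symm
    have h2 : Nat.card (↥M ⧸ H.subgroupOf M) = q := by
      rw [← Subgroup.card_top, ← htop, Nat.card_zpowers, hx]
    show (H.subgroupOf M).index.Prime
    rw [Subgroup.index_eq_card, h2]; exact hq
  set N := Subgroup.normalClosure (H : Set G) with hNdef
  haveI : N.Normal := Subgroup.normalClosure_normal
  have hHN : H ≤ N := Subgroup.le_normalClosure
  refine (CfsgLib.Local.TwoConj.eq_or_eq_of_prime hp (le_inf hHN hHM) inf_le_right).resolve_right
    fun e => ?_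
  have hHM' : ¬ M ≤ H := fun h => hp.ne_one (Subgroup.relIndex_eq_one.2 h)
  rcases hmaxM.le_iff.1 (inf_eq_right.1 e) with hNtop | hNM
  · have hno : ∀ c : G, H ⊔ H.map (MulAut.conj c).toMonoidHom ≠ ⊤ := fun c e' => by
      have h := hcl c
      rw [e', top_inf_eq] at h
      exact hHM' h.le
    have hnormal : ∀ X : Subgroup G, X.Normal → H ≤ X → X ≠ ⊤ → X = ⊥ := fun X hX hHX hne =>
      absurd (eq_top_iff.2 (hNtop ▸ (Subgroup.normalClosure_le_normal (N := X) hHX : N ≤ X))) hne
    have hself : Subgroup.normalizer (M : Set G) ≤ M := by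
      by_contra hcon
      have h1 : Subgroup.normalizer (M : Set G) = ⊤ :=
        (hmaxM.le_iff.1 Subgroup.le_normalizer).resolve_right fun h => hcon h.le
      haveI := Subgroup.normalizer_eq_top_iff.1 h1
      exact hmaxM.1 (eq_top_iff.2 (hNtop ▸ (Subgroup.normalClosure_le_normal (N := M) hHM : N ≤ M)))
    obtain ⟨K, hK, hKne, -, hHK⟩ := CfsgLib.Local.TwoConj.exists_proper_normal hHM hHn hp
      (CfsgLib.Local.TwoConj.fusion_of_no_pair hmaxM hHM hHn hp hself hno hnormal)
    have hsub : H ≤ K := hHK fun h hh g hg => by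
      have h1 : g * h * g⁻¹ ∈ (H ⊔ H.map (MulAut.conj g).toMonoidHom) ⊓ M :=
        ⟨Subgroup.mem_sup_right ⟨h, hh, rfl⟩, hg⟩
      rwa [hcl g] at h1
    haveI := hK
    exact hKne (eq_top_iff.2 (hNtop ▸ (Subgroup.normalClosure_le_normal (N := K) hsub : N ≤ K)))
  · have hconj : ∀ g : G, H.map (MulAut.conj g).toMonoidHom ≤ H := by
      intro g x hx
      have hxM : x ∈ M := by
        obtain ⟨y, hy, rfl⟩ := hx
        exact hNM.le ((inferInstance : N.Normal).conj_mem y (hHN hy) g)
      have h : x ∈ (H ⊔ H.map (MulAut.conj g).toMonoidHom) ⊓ M := ⟨Subgroup.mem_sup_right hx, hxM⟩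
      rwa [hcl g] at h
    haveI : H.Normal := ⟨fun x hx g => hconj g ⟨x, hx, rfl⟩⟩
    exact hHM' (hNM.ge.trans (Subgroup.normalClosure_le_normal (N := H) le_rfl))

end Cfsg.Agent.S3014
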