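import Cfsg.Statements.S3015
import Cfsg.Agent.Lib.LocalTwoConjugates

set_option autoImplicit false
open Cfsg
open scoped commutatorElement

namespace Cfsg.Agent.S3015

/-- Let G be a finite non-abelian simple group, M a maximal subgroup of G and H a normal subgroup of M of prime index in M. Then G is generated by H together with one of its conjugates. -/
theorem result {G : Type*} [Group G] [Finite G] [IsSimpleGroup G] (hG : ¬ IsMulCommutative G) (M H : Subgroup G) (hmaxM : IsCoatom M) (hHM : H ≤ M) (hHn : (H.subgroupOf M).Normal) (hidx : (H.relIndex M).Prime) : ∃ g : G, H ⊔ H.map (MulAut.conj g).toMonoidHom = ⊤ := by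
  by_contra hcon
  push_neg at hcon
  have hHn' : M ≤ Subgroup.normalizer (H : Set G) :=
    (Subgroup.normal_subgroupOf_iff_le_normalizer hHM).1 hHn
  have hnormal : ∀ X : Subgroup G, X.Normal → H ≤ X → X ≠ ⊤ → X = ⊥ := fun X hX _ hne =>
    ((IsSimpleGroup.eq_bot_or_eq_top_of_normal X hX).resolve_right hne)
  have hself : Subgroup.normalizer (M : Set G) ≤ M := by
    by_contra hcon'
    have h1 : Subgroup.normalizer (M : Set G) = ⊤ :=
      (hmaxM.le_iff.1 Subgroup.le_normalizer).resolve_right fun h => hcon' h.le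
    have hM : M = ⊥ := (IsSimpleGroup.eq_bot_or_eq_top_of_normal M
      (Subgroup.normalizer_eq_top_iff.1 h1)).resolve_right hmaxM.1
    exact hidx.ne_one (Subgroup.relIndex_eq_one.2 (hM ▸ bot_le))
  obtain ⟨K, hK, hKne, hcomm, -⟩ := CfsgLib.Local.TwoConj.exists_proper_normal hHM hHn' hidx
    (CfsgLib.Local.TwoConj.fusion_of_no_pair hmaxM hHM hHn' hidx hself hcon hnormal)
  have hbot : commutator G = ⊥ :=
    le_bot_iff.1 (((IsSimpleGroup.eq_bot_or_eq_top_of_normal K hK).resolve_right hKne) ▸ hcomm)
  refine hG ⟨⟨fun a b => ?_⟩⟩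
  have h1 : ⁅a, b⁆ ∈ commutator G :=
    Subgroup.commutator_mem_commutator (Subgroup.mem_top a) (Subgroup.mem_top b)
  rw [hbot, Subgroup.mem_bot, commutatorElement_eq_one_iff_mul_comm] at h1
  exact h1

end Cfsg.Agent.S3015
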