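import Cfsg.Statements.S3020
import Mathlib.GroupTheory.Transfer
import Cfsg.Agent.Lib.CoreBasic

set_option autoImplicit false
open Cfsg

namespace Cfsg.Agent.S3020

/-- Let G be a finite group, p a prime and H an abelian p-subgroup of G that is extremely closed (for every g, the subgroup generated by H and g H g⁻¹ meets N_G(H) exactly in H). Then for every g ∈ G, the subgroup T generated by H and g H g⁻¹ is the product of H with O_{p'}(T), and H meets O_{p'}(T) trivially; that is, O_{p'}(T) is a normal p-complement of H in T. -/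
theorem result {G : Type*} [Group G] [Finite G] {p : ℕ} [Fact p.Prime] (H : Subgroup G) (hHp : IsPGroup p H) (hHab : IsMulCommutative H) (hcl : Cfsg.IsExtremelyClosed H) (g : G) (T : Subgroup G) (hT : T = H ⊔ H.map (MulAut.conj g).toMonoidHom) : H ⊔ (Cfsg.pPrimeCore p ↥T).map T.subtype = T ∧ H ⊓ (Cfsg.pPrimeCore p ↥T).map T.subtype = ⊥ := by
  have hHT : H ≤ T := hT ▸ le_sup_left
  have hN : T ⊓ Subgroup.normalizer (H : Set G) = H := hT ▸ hcl g
  set Hs : Subgroup T := H.subgroupOf T with hHs
  have hHsp : IsPGroup p Hs := hHp.of_equiv (Subgroup.subgroupOfEquivOfLe hHT).symm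
  have hself : Subgroup.normalizer (Hs : Set T) = Hs := by
    refine le_antisymm (fun x hx => ?_) Subgroup.le_normalizer
    show (x : G) ∈ H
    rw [← hN]
    refine ⟨x.2, Subgroup.mem_normalizer_iff.2 fun h => ?_⟩
    constructor
    · intro hh
      have := (Subgroup.mem_normalizer_iff.1 hx ⟨h, hHT hh⟩).1 hh
      exact this
    · intro hh
      have hhT : h ∈ T := by
        have := mul_mem (mul_mem (inv_mem x.2) (hHT hh)) x.2
        simpa [mul_assoc] using this
      exact (Subgroup.mem_normalizer_iff.1 hx ⟨h, hhT⟩).2 hh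
  obtain ⟨P, hP⟩ := hHsp.exists_le_sylow
  have hPeq : (P : Subgroup T) = Hs := by
    haveI : Group.IsNilpotent (P : Subgroup T) := P.2.isNilpotent
    refine le_antisymm (fun x hx => ?_) hP
    have htop : Hs.subgroupOf (P : Subgroup T) = ⊤ := by
      refine normalizerCondition_iff_only_full_group_self_normalizing.1 Group.normalizerCondition_of_isNilpotent _ (le_antisymm (fun y hy => ?_) Subgroup.le_normalizer)
      show (y : T) ∈ Hs
      rw [← hself]
      refine Subgroup.mem_normalizer_iff.2 fun h => ⟨fun hh => ?_, fun hh => ?_⟩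
      · exact (Subgroup.mem_normalizer_iff.1 hy ⟨h, hP hh⟩).1 hh
      · have hhP : h ∈ (P : Subgroup T) := by
          have := mul_mem (mul_mem (inv_mem y.2) (hP hh)) y.2
          simpa [mul_assoc] using this
        exact (Subgroup.mem_normalizer_iff.1 hy ⟨h, hhP⟩).2 hh
    exact Subgroup.subgroupOf_eq_top.1 htop hx
  have hB : Subgroup.normalizer (P : Set T) ≤ Subgroup.centralizer (P : Set T) := by
    intro x hx
    change x ∈ Subgroup.normalizer ((P : Subgroup T) : Set T) at hx
    rw [hPeq, hself] at hx
    refine Subgroup.mem_centralizer_iff.2 fun y hy => ?_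
    change y ∈ (P : Subgroup T) at hy
    rw [hPeq] at hy
    exact Subtype.ext ((congrArg Subtype.val (hHab.is_comm.comm ⟨(y : G), hy⟩ ⟨(x : G), hx⟩)) :)
  have hc := MonoidHom.ker_transferSylow_isComplement' P hB
  set K := (MonoidHom.transferSylow P hB).ker
  have hK : (Nat.card K).Coprime p := by
    refine (Nat.Prime.coprime_iff_not_dvd Fact.out).2 ?_ |>.symm
    rw [← hc.index_eq_card]
    exact P.not_dvd_index
  have hKle : K ≤ Cfsg.pPrimeCore p T := CfsgLib.Core.le_pPrimeCore (MonoidHom.normal_ker _) hK
  refine ⟨le_antisymm (sup_le hHT (Subgroup.map_subtype_le _)) ?_, ?_⟩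
  · calc T = (⊤ : Subgroup T).map T.subtype := by rw [← MonoidHom.range_eq_map, Subgroup.range_subtype]
      _ ≤ _ := by
        rw [← hc.sup_eq_top, Subgroup.map_sup, hPeq, hHs, Subgroup.map_subgroupOf_eq_of_le hHT, sup_comm H]
        exact sup_le_sup_right (Subgroup.map_mono hKle) _
  · refine Subgroup.inf_eq_bot_of_coprime ?_
    rw [Subgroup.card_map_of_injective T.subtype_injective]
    obtain ⟨k, hk⟩ := IsPGroup.iff_card.1 hHp
    rw [hk]
    exact (CfsgLib.Core.coprime_card_pPrimeCore p).symm.pow_left k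

end Cfsg.Agent.S3020
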