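import Cfsg.Statements.S3021
import Cfsg.Agent.Lib.LocalChain

set_option autoImplicit false
open Cfsg
open scoped Pointwise commutatorElement
set_option maxHeartbeats 800000

namespace Cfsg.Agent.S3021

/-- Let G be a finite group, p a prime and H a p-subgroup of G that is extremely closed (for every g, the subgroup generated by H and g H g⁻¹ meets N_G(H) exactly in H). Then every p-subgroup Q of G containing H has N_G(Q) ≤ N_G(H); in particular every Sylow p-subgroup P of G containing H normalizes H, and H is strongly closed in P with respect to G. -/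
theorem result {G : Type*} [Group G] [Finite G] {p : ℕ} [Fact p.Prime] (H : Subgroup G) (hHp : IsPGroup p H) (hcl : Cfsg.IsExtremelyClosed H) : (∀ Q : Subgroup G, IsPGroup p Q → H ≤ Q → Subgroup.normalizer (Q : Set G) ≤ Subgroup.normalizer (H : Set G)) ∧ ∀ P : Sylow p G, H ≤ (P : Subgroup G) → (P : Subgroup G) ≤ Subgroup.normalizer (H : Set G) ∧ Cfsg.IsStronglyClosed H (P : Subgroup G) := by
  have key : ∀ Q : Subgroup G, IsPGroup p Q → H ≤ Q →
      Subgroup.normalizer (Q : Set G) ≤ Subgroup.normalizer (H : Set G) := by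
    intro Q hQ hHQ g hg
    set T := H ⊔ H.map (MulAut.conj g).toMonoidHom with hT
    have hTQ : T ≤ Q := by
      refine sup_le hHQ ?_
      rintro _ ⟨x, hx, rfl⟩
      simpa using (Subgroup.mem_normalizer_iff.1 hg x).1 (hHQ hx)
    haveI : Group.IsNilpotent ↥T := (hQ.to_le hTQ).isNilpotent
    have hTH : T = H := by
      by_contra hne
      have hlt : H.subgroupOf T < ⊤ :=
        lt_top_iff_ne_top.2 fun h => hne (le_antisymm (Subgroup.subgroupOf_eq_top.1 h) le_sup_left)
      obtain ⟨n, hn, hnH⟩ :=
        SetLike.exists_of_lt (Group.normalizerCondition_of_isNilpotent (G := ↥T) _ hlt)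
      refine hnH (Subgroup.mem_subgroupOf.2 ?_)
      rw [← hcl g]
      refine ⟨n.2, Subgroup.mem_normalizer_iff.2 fun x => ?_⟩
      constructor
      · intro hx
        have h1 := (Subgroup.mem_normalizer_iff.1 hn ⟨x, le_sup_left (a := H) hx⟩).1
          (Subgroup.mem_subgroupOf.2 hx)
        simpa [Subgroup.mem_subgroupOf] using h1
      · intro hx
        have h2 : x ∈ T := by
          have := T.mul_mem (T.mul_mem (T.inv_mem n.2) (le_sup_left (a := H) hx)) n.2
          simpa [mul_assoc] using this
        exact Subgroup.mem_subgroupOf.1 ((Subgroup.mem_normalizer_iff.1 hn ⟨x, h2⟩).2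
          (Subgroup.mem_subgroupOf.2 hx))
    have hle : H.map (MulAut.conj g).toMonoidHom ≤ H := le_sup_right.trans hTH.le
    rw [Subgroup.mem_normalizer_iff_map_conj_eq]
    exact Subgroup.eq_of_le_of_card_ge hle
      (Subgroup.card_map_of_injective (MulEquiv.injective _)).ge
  refine ⟨key, fun P hP => ?_⟩
  have hPN : (P : Subgroup G) ≤ Subgroup.normalizer (H : Set G) :=
    Subgroup.le_normalizer.trans (key P P.isPGroup' hP)
  refine ⟨hPN, hP, fun x hx g hg => ?_⟩
  rw [← hcl g]
  exact ⟨Subgroup.mem_sup_right ⟨x, hx, by simp⟩, hPN hg⟩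

end Cfsg.Agent.S3021
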