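import Cfsg.Statements.S3025
import Cfsg.Agent.Lib.CoreBasic
import Cfsg.Agent.S0016

set_option autoImplicit false
open Cfsg
open scoped commutatorElement Pointwise

namespace Cfsg.Agent.S3025

/-- Let F be a finite group and H a nontrivial subgroup of F that is contained in every nontrivial subgroup of F which H normalizes. Then F has a nontrivial normal subgroup N contained in every nontrivial normal subgroup of F (a unique minimal normal subgroup), N is simple, and one of the following holds: C_F(N) = 1; or H = N has prime order p, C_F(N) is cyclic of order a power of p, and F/C_F(N) is cyclic of order dividing p − 1; or H = N has order 2, N is central in F, and F is a generalized quaternion group. -/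
theorem result {F : Type*} [Group F] [Finite F] (H : Subgroup F) (hH : H ≠ ⊥)
    (hmin : ∀ R : Subgroup F, R ≠ ⊥ → H ≤ Subgroup.normalizer (R : Set F) → H ≤ R) :
    ∃ N : Subgroup F, N.Normal ∧ N ≠ ⊥ ∧ (∀ M : Subgroup F, M.Normal → M ≠ ⊥ → N ≤ M) ∧ IsSimpleGroup ↥N ∧
      (Subgroup.centralizer (N : Set F) = ⊥ ∨
       (H = N ∧ (Nat.card N).Prime ∧ IsCyclic ↥(Subgroup.centralizer (N : Set F)) ∧
          (∃ k : ℕ, 1 ≤ k ∧ Nat.card ↥(Subgroup.centralizer (N : Set F)) = Nat.card N ^ k) ∧
          (∃ g : F, Subgroup.centralizer (N : Set F) ⊔ Subgroup.zpowers g = ⊤) ∧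
          (Subgroup.centralizer (N : Set F)).index ∣ Nat.card N - 1) ∨
       (H = N ∧ Nat.card N = 2 ∧ Subgroup.centralizer (N : Set F) = ⊤ ∧
          ∃ k : ℕ, 1 ≤ k ∧ Nonempty (F ≃* QuaternionGroup (2 ^ k)))) := by
  set N := Subgroup.normalClosure (H : Set F) with hN
  haveI hNn : N.Normal := Subgroup.normalClosure_normal
  have hHN : H ≤ N := Subgroup.subset_normalClosure
  have hN0 : N ≠ ⊥ := fun e => hH (le_bot_iff.mp (e ▸ hHN))
  have hnorm : ∀ M : Subgroup F, M.Normal → M ≠ ⊥ → H ≤ M := fun M hM hM0 =>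
    hmin M hM0 (by haveI := hM; rw [Subgroup.normalizer_eq_top]; exact le_top)
  have hNmin : ∀ M : Subgroup F, M.Normal → M ≠ ⊥ → N ≤ M := fun M hM hM0 => by
    haveI := hM
    exact Subgroup.normalClosure_le_normal (SetLike.coe_subset_coe.mpr (hnorm M hM hM0))
  -- `N` is simple
  have hsub : ∀ S : Subgroup F, S ≤ N → N ≤ Subgroup.normalizer (S : Set F) → S ≠ ⊥ → H ≤ S :=
    fun S _ hn hS0 => hmin S hS0 (hHN.trans hn)
  obtain ⟨S, ⟨hS0, hSN, hSn⟩, hSmin⟩ := Set.exists_min_image
    {S : Subgroup F | S ≠ ⊥ ∧ S ≤ N ∧ N ≤ Subgroup.normalizer (S : Set F)}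
    (fun S => Nat.card ↥S) (Set.toFinite _) ⟨N, hN0, le_rfl, Subgroup.le_normalizer⟩
  have hSle : ∀ S' : Subgroup F, S' ≠ ⊥ → S' ≤ N → N ≤ Subgroup.normalizer (S' : Set F) → S ≤ S' :=
    fun S' h0 hle hn => by
      have h1 : S ⊓ S' = S := CfsgLib.Core.eq_of_le_of_card_le inf_le_left (hSmin (S ⊓ S')
        ⟨fun e => hH (le_bot_iff.mp (e ▸ le_inf (hsub S hSN hSn hS0) (hsub S' hle hn h0))),
          inf_le_left.trans hSN, CfsgLib.Core.le_normalizer_inf hSn hn⟩)
      exact inf_eq_left.mp h1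
  have hSeq : S = N := by
    refine le_antisymm hSN (hNmin S ⟨fun x hx g => ?_⟩ hS0)
    have hle : S ≤ S.comap (MulAut.conj g).toMonoidHom := by
      refine hSle _ (fun e => hS0 ?_) (fun y hy => ?_) ?_
      · refine (Subgroup.eq_bot_iff_forall _).mpr fun z hz => ?_
        have h1 : g⁻¹ * z * g ∈ S.comap (MulAut.conj g).toMonoidHom := by
          show g * (g⁻¹ * z * g) * g⁻¹ ∈ S
          simpa [mul_assoc] using hz
        rw [e, Subgroup.mem_bot] at h1
        simpa [mul_assoc] using congrArg (fun t => g * t * g⁻¹) h1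
      · have := hNn.conj_mem _ (hSN hy) g⁻¹
        simpa [mul_assoc] using this
      · refine CfsgLib.Core.le_normalizer_iff_forall.mpr fun n hn y hy => ?_
        show g * (n * y * n⁻¹) * g⁻¹ ∈ S
        have := (Subgroup.mem_normalizer_iff.mp (hSn (hNn.conj_mem n hn g)) _).mp
          (show g * y * g⁻¹ ∈ S from hy)
        simpa [mul_assoc] using this
    exact hle hx
  have hsimple : IsSimpleGroup ↥N := by
    haveI : Nontrivial ↥N := (Subgroup.nontrivial_iff_ne_bot N).mpr hN0
    refine ⟨fun K hK => ?_⟩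
    by_cases h0 : K = ⊥
    · exact Or.inl h0
    · refine Or.inr ?_
      have hKm : N ≤ Subgroup.normalizer (K.map N.subtype : Set F) := by
        refine CfsgLib.Core.le_normalizer_iff_forall.mpr ?_
        rintro n hn _ ⟨k, hk, rfl⟩
        exact ⟨⟨n, hn⟩ * k * ⟨n, hn⟩⁻¹, hK.conj_mem k hk _, rfl⟩
      have h1 : N ≤ K.map N.subtype := hSeq ▸ hSle (K.map N.subtype)
        (fun e => h0 ((Subgroup.map_eq_bot_iff_of_injective _ N.subtype_injective).mp e))
        (Subgroup.map_subtype_le K) hKm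
      refine eq_top_iff.mpr fun x _ => ?_
      obtain ⟨k, hk, hkx⟩ := h1 x.2
      rwa [← Subtype.ext (a1 := k) (a2 := x) hkx]
  refine ⟨N, hNn, hN0, hNmin, hsimple, ?_⟩
  set C := Subgroup.centralizer (N : Set F) with hC
  by_cases hC0 : C = ⊥
  · exact Or.inl hC0
  refine Or.inr ?_
  have hNC : N ≤ C := hNmin C inferInstance hC0
  haveI : IsSimpleGroup ↥N := hsimple
  have hNab : ∀ a b : ↥N, a * b = b * a := fun a b =>
    Subtype.ext (Subgroup.mem_centralizer_iff.mp (hNC b.2) a a.2)
  letI : CommGroup ↥N := { (inferInstance : Group ↥N) with mul_comm := hNab }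
  haveI : IsMulCommutative ↥N := ⟨⟨hNab⟩⟩
  have hq : (Nat.card ↥N).Prime := IsSimpleGroup.prime_card
  set q := Nat.card ↥N with hqdef
  haveI : Fact q.Prime := ⟨hq⟩
  have hHeq : H = N := CfsgLib.Core.eq_of_le_of_card_le hHN (by
    rcases (Nat.dvd_prime hq).mp (Subgroup.card_dvd_of_le hHN) with h | h
    · exact absurd (Subgroup.card_eq_one.mp h) hH
    · exact h.ge)
  -- every nontrivial subgroup of `C` contains `N`
  have hCsub : ∀ R : Subgroup F, R ≤ C → R ≠ ⊥ → N ≤ R := fun R hR hR0 => hHeq ▸ hmin R hR0 (by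
    rw [hHeq]
    refine le_trans ?_ (CfsgLib.Core.centralizer_le_normalizer R)
    exact (Subgroup.le_centralizer_iff.mp hR))
  have hCp : IsPGroup q ↥C := by
    intro x
    have hdiv : ∀ r : ℕ, r.Prime → r ∣ orderOf x → r = q := by
      intro r hr hrx
      have hfin : orderOf x ≠ 0 := (orderOf_pos x).ne'
      have ho : orderOf ((x ^ (orderOf x / r) : ↥C) : F) = r := by
        rw [Subgroup.orderOf_coe, orderOf_pow_orderOf_div hfin hrx]
      have h1 : N ≤ Subgroup.zpowers ((x ^ (orderOf x / r) : ↥C) : F) :=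
        hCsub _ (Subgroup.zpowers_le.mpr (x ^ (orderOf x / r)).2) (by
          rw [ne_eq, Subgroup.zpowers_eq_bot]
          intro e
          rw [e, orderOf_one] at ho
          exact hr.ne_one ho.symm)
      have h2 := Subgroup.card_dvd_of_le h1
      rw [Nat.card_zpowers, ho] at h2
      exact ((Nat.prime_dvd_prime_iff_eq hq hr).mp h2).symm
    refine ⟨(orderOf x).factorization q, ?_⟩
    rw [← orderOf_dvd_iff_pow_eq_one]
    exact (Nat.eq_prime_pow_of_unique_prime_dvd (orderOf_pos x).ne'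
      (fun {d} hd hdx => hdiv d hd hdx)).dvd.trans (dvd_of_eq (by
      conv_lhs => rw [← Nat.eq_prime_pow_of_unique_prime_dvd (orderOf_pos x).ne'
        (fun {d} hd hdx => hdiv d hd hdx)]
      rw [Nat.eq_prime_pow_of_unique_prime_dvd (orderOf_pos x).ne'
        (fun {d} hd hdx => hdiv d hd hdx), Nat.Prime.factorization_pow hq, Finsupp.single_eq_same]))
  have huniq : ∀ X Y : Subgroup ↥C, Nat.card X = q → Nat.card Y = q → X = Y := by
    have key : ∀ X : Subgroup ↥C, Nat.card X = q → X.map C.subtype = N := fun X hX => by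
      refine (CfsgLib.Core.eq_of_le_of_card_le (hCsub _ (Subgroup.map_subtype_le X) ?_) ?_).symm
      · intro e
        rw [(Subgroup.map_eq_bot_iff_of_injective _ C.subtype_injective).mp e,
          Subgroup.card_bot] at hX
        exact hq.ne_one hX.symm
      · rw [Subgroup.card_map_of_injective C.subtype_injective, hX]
    exact fun X Y hX hY => Subgroup.map_injective C.subtype_injective ((key X hX).trans (key Y hY).symm)
  -- `F ⧸ C` is cyclic
  let φ : F →* MulAut ↥N := MulAut.conjNormal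
  have hker : φ.ker = C := by
    ext g
    rw [MonoidHom.mem_ker, Subgroup.mem_centralizer_iff]
    constructor
    · intro h n hn
      have h1 : g * n * g⁻¹ = n := by
        simpa [φ] using congrArg (fun e : MulAut ↥N => ((e ⟨n, hn⟩ : ↥N) : F)) h
      exact (mul_inv_eq_iff_eq_mul.mp h1).symm
    · intro h
      refine MulEquiv.ext fun n => Subtype.ext ?_
      simp [φ, ← h n n.2, mul_assoc]
  haveI : IsCyclic ↥N := isCyclic_of_prime_card (p := q) rfl
  haveI : IsCyclic (ZMod q)ˣ := inferInstance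
  let e := IsCyclic.mulAutMulEquiv ↥N
  haveI : IsCyclic (MulAut ↥N) := e.isCyclic.mpr inferInstance
  have hindex : C.index ∣ q - 1 := by
    rw [← hker, Subgroup.index_ker]
    refine (Subgroup.card_subgroup_dvd_card φ.range).trans (dvd_of_eq ?_)
    rw [Nat.card_congr e.toEquiv, Nat.card_eq_fintype_card, ZMod.card_units]
  have hgen : ∃ g : F, C ⊔ Subgroup.zpowers g = ⊤ := by
    obtain ⟨⟨_, g, rfl⟩, hg⟩ := IsCyclic.exists_zpow_surjective (G := ↥φ.range)
    refine ⟨g, eq_top_iff.mpr fun x _ => ?_⟩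
    obtain ⟨i, hi⟩ := hg ⟨φ x, x, rfl⟩
    have h1 : φ g ^ i = φ x := congrArg Subtype.val hi
    have h2 : x * (g ^ i)⁻¹ ∈ C := by
      rw [← hker, MonoidHom.mem_ker, map_mul, map_inv, map_zpow, h1, mul_inv_cancel]
    have := mul_mem (Subgroup.mem_sup_left (T := Subgroup.zpowers g) h2)
      (Subgroup.mem_sup_right (S := C) (Subgroup.zpow_mem_zpowers g i))
    simpa using this
  have hk : ∃ k : ℕ, 1 ≤ k ∧ Nat.card ↥C = q ^ k := by
    obtain ⟨k, hk⟩ := hCp.exists_card_eq
    refine ⟨k, Nat.one_le_iff_ne_zero.mpr fun h0 => hC0 (Subgroup.card_eq_one.mp ?_), hk⟩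
    rw [hk, h0, pow_zero]
  rcases Cfsg.Agent.S0016.result q hCp huniq with hcyc | ⟨hq2, n, ⟨f⟩⟩
  · exact Or.inl ⟨hHeq, hq, hcyc, hk, hgen, hindex⟩
  · rcases Nat.eq_zero_or_pos n with h0 | h0
    · subst h0
      haveI : IsCyclic (QuaternionGroup (2 ^ 0)) := by
        rw [pow_zero]
        exact QuaternionGroup.quaternionGroup_one_isCyclic
      exact Or.inl ⟨hHeq, hq, f.isCyclic.mpr inferInstance, hk, hgen, hindex⟩
    · refine Or.inr ⟨hHeq, hq2, ?_, n, h0, ?_⟩
      · have h1 : C.index = 1 := by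
          rw [hq2] at hindex
          simpa using hindex
        exact Subgroup.index_eq_one.mp h1
      · have h1 : C.index = 1 := by
          rw [hq2] at hindex
          simpa using hindex
        exact ⟨(Subgroup.topEquiv.symm.trans
          (MulEquiv.subgroupCongr (Subgroup.index_eq_one.mp h1).symm)).trans f⟩

end Cfsg.Agent.S3025
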