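import Cfsg.Statements.S3027
import Cfsg.Agent.Lib.CoreBasic


set_option autoImplicit false
open Cfsg
open scoped commutatorElement Pointwise

namespace Cfsg.Agent.S3027

/-- Let G be a finite group and D a normal subgroup of G such that G/D is perfect (that is, G = G′D). Then among the subnormal subgroups B of G with BD = G there is a least one, and it is normal in G. -/
theorem result {G : Type*} [Group G] [Finite G] (D : Subgroup G) [D.Normal] (hperf : ⁅(⊤ : Subgroup G), (⊤ : Subgroup G)⁆ ⊔ D = ⊤) :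
    ∃ B : Subgroup G, B.Normal ∧ B ⊔ D = ⊤ ∧ ∀ B' : Subgroup G, B'.IsSubnormal → B' ⊔ D = ⊤ → B ≤ B' := by
  set q := QuotientGroup.mk' D with hq
  have hqs : Function.Surjective q := QuotientGroup.mk'_surjective D
  have himg : ∀ X : Subgroup G, X ⊔ D = ⊤ ↔ X.map q = ⊤ := fun X => by
    constructor
    · intro h
      have h1 := congrArg (Subgroup.map q) h
      rwa [Subgroup.map_sup, Subgroup.map_top_of_surjective q hqs,
        (Subgroup.map_eq_bot_iff D).mpr (by rw [hq, QuotientGroup.ker_mk']), sup_bot_eq] at h1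
    · intro h
      have h1 := congrArg (Subgroup.comap q) h
      rwa [Subgroup.comap_map_eq, hq, QuotientGroup.ker_mk', Subgroup.comap_top] at h1
  have hperf' : ⁅(⊤ : Subgroup (G ⧸ D)), (⊤ : Subgroup (G ⧸ D))⁆ = ⊤ := by
    have h1 := (himg _).mp hperf
    rwa [Subgroup.map_commutator, Subgroup.map_top_of_surjective q hqs] at h1
  -- intersections
  have hinter : ∀ N X : Subgroup G, (∀ n ∈ N, ∀ x ∈ X, n * x * n⁻¹ ∈ X) →
      ∀ Y : Subgroup G, Y ≤ N → (∀ x ∈ X, ∀ y ∈ Y, x * y * x⁻¹ ∈ Y) →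
      X ⊔ D = ⊤ → Y ⊔ D = ⊤ → (X ⊓ Y) ⊔ D = ⊤ := by
    intro N X hNX Y hYN hXY hX hY
    refine (himg _).mpr (top_le_iff.mp ?_)
    have h1 : ⁅X, Y⁆ ≤ X ⊓ Y := Subgroup.commutator_le.mpr fun x hx y hy => by
      rw [commutatorElement_def]
      refine Subgroup.mem_inf.mpr ⟨?_, Y.mul_mem (hXY x hx y hy) (Y.inv_mem hy)⟩
      have := X.mul_mem hx (hNX y (hYN hy) x⁻¹ (X.inv_mem hx))
      simpa [mul_assoc] using this
    refine le_trans ?_ (Subgroup.map_mono h1)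
    rw [Subgroup.map_commutator, (himg X).mp hX, (himg Y).mp hY, hperf']
  -- least normal supplement inside a normal supplement
  have hcore : ∀ N H : Subgroup G, N.Normal → N ⊔ D = ⊤ → H ≤ N →
      (∀ n ∈ N, ∀ h ∈ H, n * h * n⁻¹ ∈ H) → H ⊔ D = ⊤ →
      ∃ M : Subgroup G, M.Normal ∧ M ≤ H ∧ M ⊔ D = ⊤ := by
    intro N H hN _ hHN hHn hH
    obtain ⟨M, ⟨hMN, hMn, hM⟩, hmin⟩ := Set.exists_min_image
      {M : Subgroup G | M ≤ N ∧ (∀ n ∈ N, ∀ x ∈ M, n * x * n⁻¹ ∈ M) ∧ M ⊔ D = ⊤}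
      (fun M => Nat.card ↥M) (Set.toFinite _) ⟨H, hHN, hHn, hH⟩
    have hle : ∀ M' : Subgroup G, M' ≤ N → (∀ n ∈ N, ∀ x ∈ M', n * x * n⁻¹ ∈ M') →
        M' ⊔ D = ⊤ → M ≤ M' := by
      intro M' h1 h2 h3
      have h4 : M ⊓ M' = M := CfsgLib.Core.eq_of_le_of_card_le inf_le_left
        (hmin (M ⊓ M') ⟨inf_le_left.trans hMN,
          fun n hn x hx => Subgroup.mem_inf.mpr
            ⟨hMn n hn x (Subgroup.mem_inf.mp hx).1, h2 n hn x (Subgroup.mem_inf.mp hx).2⟩,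
          hinter N M hMn M' h1 (fun x hx y hy => h2 x (hMN hx) y hy) hM h3⟩)
      exact inf_eq_left.mp h4
    refine ⟨M, ⟨fun x hx g => ?_⟩, hle H hHN hHn hH, hM⟩
    have hconj : M ≤ M.comap (MulAut.conj g).toMonoidHom := by
      refine hle _ ?_ ?_ ((himg _).mpr (top_le_iff.mp fun z _ => ?_))
      · intro y hy
        have := hN.conj_mem _ (hMN hy) g⁻¹
        simpa [mul_assoc] using this
      · intro n hn y hy
        have := hMn (g * n * g⁻¹) (hN.conj_mem n hn g) _ hy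
        simpa [mul_assoc] using this
      · obtain ⟨m, hm, hmz⟩ := ((himg M).mp hM).ge (Subgroup.mem_top (q g * z * (q g)⁻¹))
        refine ⟨g⁻¹ * m * g, ?_, ?_⟩
        · show g * (g⁻¹ * m * g) * g⁻¹ ∈ M
          simpa [mul_assoc] using hm
        · simp [hmz, mul_assoc]
    exact hconj hx
  obtain ⟨B, ⟨hBn, hB⟩, hmin⟩ := Set.exists_min_image
    {N : Subgroup G | N.Normal ∧ N ⊔ D = ⊤} (fun N => Nat.card ↥N) (Set.toFinite _)
    ⟨⊤, inferInstance, top_sup_eq _⟩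
  refine ⟨B, hBn, hB, fun B' hB' => ?_⟩
  suffices hsn : B' ⊔ D = ⊤ → ∃ N : Subgroup G, N.Normal ∧ N ≤ B' ∧ N ⊔ D = ⊤ by
    intro h
    obtain ⟨N, hNn, hNB, hN⟩ := hsn h
    have h4 : B ⊓ N = B := CfsgLib.Core.eq_of_le_of_card_le inf_le_left
      (hmin (B ⊓ N) ⟨inferInstance, hinter ⊤ B (fun n _ x hx => hBn.conj_mem x hx n) N le_top
        (fun x _ y hy => hNn.conj_mem y hy x) hB hN⟩)
    exact (inf_eq_left.mp h4).trans hNB
  induction hB' with
  | top => exact fun _ => ⟨⊤, inferInstance, le_rfl, top_sup_eq _⟩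
  | step H K h_le hSubn hN ih =>
    intro hH
    obtain ⟨N, hNn, hNK, hND⟩ := ih (top_le_iff.mp (hH.ge.trans (sup_le_sup_right h_le D)))
    have hK : K ≤ Subgroup.normalizer (H : Set G) :=
      (Subgroup.normal_subgroupOf_iff_le_normalizer h_le).mp hN
    obtain ⟨M, hMn, hMH, hMD⟩ := hcore N (N ⊓ H) hNn hND inf_le_left
      (fun n hn x hx => Subgroup.mem_inf.mpr ⟨hNn.conj_mem x (Subgroup.mem_inf.mp hx).1 n,
        (Subgroup.mem_normalizer_iff.mp (hK (hNK hn)) x).mp (Subgroup.mem_inf.mp hx).2⟩)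
      (hinter K N (fun n _ x hx => hNn.conj_mem x hx n) H h_le
        (fun x hx y hy => (Subgroup.mem_normalizer_iff.mp (hK (hNK hx)) y).mp hy) hND hH)
    exact ⟨M, hMn, hMH.trans inf_le_right, hMD⟩

end Cfsg.Agent.S3027
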