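import Cfsg.Statements.S3031
import Cfsg.Agent.Lib.CoreTransfer
import Cfsg.Agent.Lib.CoreOmega
import Cfsg.Agent.Lib.CoreGen
import Cfsg.Agent.Lib.CoreSubnormal

set_option autoImplicit false
open Cfsg

namespace Cfsg.Agent.S3031

open scoped Pointwise commutatorElement
open Subgroup
open CfsgLib.Core

universe w

variable {G : Type w} [Group G]

/-- `E` is strongly closed in `P`. -/
def Closed (P E : Subgroup G) : Prop :=
  ∀ g : G, ∀ x ∈ E, g * x * g⁻¹ ∈ P → g * x * g⁻¹ ∈ E

theorem fixed_of_small_orbit [Finite G] {g x : G} {S : Finset G} (hx : x ∈ S)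
    (hinv : ∀ y ∈ S, g * y * g⁻¹ ∈ S) (hr : ∀ r : ℕ, r.Prime → r ∣ orderOf g → S.card < r) :
    g * x * g⁻¹ = x := by
  classical
  set f : G → G := fun y => g * y * g⁻¹ with hf
  have hit : ∀ k : ℕ, f^[k] x = g ^ k * x * (g ^ k)⁻¹ := by
    intro k
    induction k with
    | zero => simp
    | succ k ih => rw [Function.iterate_succ_apply', ih, pow_succ']; simp only [hf]; group
  have hper : Function.IsPeriodicPt f (orderOf g) x := by
    show f^[orderOf g] x = x
    simp [hit, pow_orderOf_eq_one]
  set r := Function.minimalPeriod f x with hr'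
  have hdvd : r ∣ orderOf g := hper.minimalPeriod_dvd
  have hmem : ∀ k : ℕ, f^[k] x ∈ S := by
    intro k
    induction k with
    | zero => exact hx
    | succ k ih => rw [Function.iterate_succ_apply']; exact hinv _ ih
  have hle : r ≤ S.card := by
    have h1 : ((Finset.range r).image fun k => f^[k] x).card = r := by
      rw [Finset.card_image_of_injOn, Finset.card_range]
      intro a ha b hb hab
      exact Function.iterate_injOn_Iio_minimalPeriod (by simpa using ha) (by simpa using hb) hab
    rw [← h1]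
    refine Finset.card_le_card fun y hy => ?_
    obtain ⟨k, -, rfl⟩ := Finset.mem_image.mp hy
    exact hmem k
  have h1 : r = 1 := by
    by_contra hne
    obtain ⟨q, hq, hqr⟩ := Nat.exists_prime_and_dvd hne
    have hpos : 0 < r := Nat.pos_of_dvd_of_pos hdvd (orderOf_pos g)
    exact absurd ((Nat.le_of_dvd hpos hqr).trans hle)
      (not_le.mpr (hr q hq (hqr.trans hdvd)))
  exact Function.minimalPeriod_eq_one_iff_isFixedPt.mp h1

theorem lt_of_prime_dvd [Finite G] {p : ℕ} [hp : Fact p.Prime]
    (hmin : ∀ q : ℕ, q.Prime → q ∣ Nat.card G → p ≤ q) {g : G} (hcop : (orderOf g).Coprime p)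
    {r : ℕ} (hr : r.Prime) (hd : r ∣ orderOf g) : p < r := by
  refine lt_of_le_of_ne (hmin r hr (hd.trans (orderOf_dvd_natCard g))) fun e => ?_
  subst e
  exact hr.ne_one (Nat.eq_one_of_dvd_coprimes hcop hd dvd_rfl)

/-- If every element of order `p` (or `4`) of `P` has at most `p` conjugates in `P`, there is a
normal `p`-complement. -/
theorem hasNPC_of_small_fusion [Finite G] {p : ℕ} [hp : Fact p.Prime]
    (hmin : ∀ q : ℕ, q.Prime → q ∣ Nat.card G → p ≤ q) (P : Sylow p G)
    (h : ∀ x ∈ (P : Subgroup G), (x ^ p = 1 ∨ (p = 2 ∧ x ^ 4 = 1)) →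
      ∃ S : Finset G, x ∈ S ∧ S.card ≤ p ∧
        ∀ g : G, ∀ y ∈ S, g * y * g⁻¹ ∈ (P : Subgroup G) → g * y * g⁻¹ ∈ S) :
    Cfsg.HasNormalPComplement p G := by
  refine hasNormalPComplement_of_local_le P fun Q hQ g hg hcop => ?_
  refine mem_centralizer_of_fixes_omega (P.2.to_le hQ) hg hcop fun x hx hx' => ?_
  classical
  obtain ⟨S, hxS, hS, hclosed⟩ := h x (hQ hx) hx'
  refine fixed_of_small_orbit (S := S.filter (· ∈ Q)) (Finset.mem_filter.mpr ⟨hxS, hx⟩)
    (fun y hy => ?_) fun r hr hd => lt_of_le_of_lt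
      ((Finset.card_filter_le _ _).trans hS) (lt_of_prime_dvd hmin hcop hr hd)
  obtain ⟨hy1, hy2⟩ := Finset.mem_filter.mp hy
  have h1 : g * y * g⁻¹ ∈ Q := (Subgroup.mem_normalizer_iff.mp hg y).mp hy2
  exact Finset.mem_filter.mpr ⟨hclosed g y hy1 (hQ h1), h1⟩

/-- If fusion is trivial modulo the Frattini subgroup, there is a normal `p`-complement. -/
theorem hasNPC_of_fusion_frattini [Finite G] {p : ℕ} [hp : Fact p.Prime] (P : Sylow p G)
    (h : ∀ a g : G, a ∈ (P : Subgroup G) → g⁻¹ * a * g ∈ (P : Subgroup G) →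
      a⁻¹ * (g⁻¹ * a * g) ∈ (frattini P).map (P : Subgroup G).subtype) :
    Cfsg.HasNormalPComplement p G := by
  have hfoc : (P : Subgroup G).focalSubgroup ≤ (frattini P).map (P : Subgroup G).subtype := by
    rw [Subgroup.focalSubgroup_def, Subgroup.closure_le]
    rintro z ⟨hz, x, hx, u, rfl⟩
    have hxu : (u⁻¹)⁻¹ * x⁻¹ * u⁻¹ ∈ (P : Subgroup G) := by
      have := mul_mem (inv_mem hx) hz
      simpa [commutatorElement_def, mul_assoc] using this
    have := h x⁻¹ u⁻¹ (inv_mem hx) hxu
    simpa [commutatorElement_def, mul_assoc] using this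
  set K := (P : Subgroup G).transferFocal.ker with hK
  have hKn : K.Normal := inferInstance
  have hidx : ∃ k : ℕ, K.index = p ^ k := by
    rw [hK, Subgroup.index_ker,
      MonoidHom.range_eq_top.mpr (Subgroup.transferFocal_surjective P), Subgroup.card_top]
    exact IsPGroup.iff_card.mp (P.2.to_quotient _)
  have h1 : K ⊓ (P : Subgroup G) ≤ (frattini P).map (P : Subgroup G).subtype := by
    rw [hK, Subgroup.ker_transferFocal_inf_eq_focalSubgroup]
    exact hfoc
  exact hasNormalPComplement_of_index_pow hKn (tate P h1) hidx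

/-- The case in which every element of `P` has small order. -/
theorem hasNPC_of_closed_small_exponent [Finite G] {p : ℕ} [hp : Fact p.Prime]
    (hmin : ∀ q : ℕ, q.Prime → q ∣ Nat.card G → p ≤ q) (P : Sylow p G) {m : ℕ}
    (hlt : p ^ m < Nat.card (P : Subgroup G))
    (hsmall : ∀ x ∈ (P : Subgroup G), orderOf x < p ^ m)
    (hclosed : ∀ E : Subgroup G, E ≤ (P : Subgroup G) → Nat.card E = p ^ m → Closed (P : Subgroup G) E) :
    Cfsg.HasNormalPComplement p G := by
  classical
  set Φ : Subgroup G := (frattini P).map (P : Subgroup G).subtype with hΦ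
  -- maximal subgroups of `P` are strongly closed
  have hmax : ∀ M : Subgroup P, IsCoatom M → ∀ x ∈ M, ∀ g : G, ∀ hg : g * x * g⁻¹ ∈ (P : Subgroup G),
      (⟨g * x * g⁻¹, hg⟩ : P) ∈ M := by
    intro M hM x hx g hg
    obtain ⟨j, hj⟩ := IsPGroup.iff_orderOf.mp P.2 x
    have hjm : j ≤ m := by
      have := hsmall x x.2
      rw [Subgroup.orderOf_coe, hj] at this
      exact ((Nat.pow_lt_pow_iff_right hp.out.one_lt).mp this).le
    obtain ⟨n, hn⟩ := IsPGroup.iff_card.mp P.2
    have hMcard : p ^ m ∣ Nat.card M := by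
      have h1 := Subgroup.card_mul_index M
      rw [(index_of_coatom_pgroup P.2 hM).2, hn] at h1
      have hmn : m < n := (Nat.pow_lt_pow_iff_right hp.out.one_lt).mp (hn ▸ hlt)
      obtain ⟨n', rfl⟩ : ∃ n', n = n' + 1 := ⟨n - 1, by omega⟩
      rw [pow_succ] at h1
      rw [mul_right_cancel₀ hp.out.ne_zero h1]
      exact pow_dvd_pow p (by omega)
    obtain ⟨E, hE, hxE⟩ := Sylow.exists_subgroup_card_pow_prime_le (G := M) p hMcard
      (Subgroup.zpowers (⟨x, hx⟩ : M)) (by rw [Nat.card_zpowers, Subgroup.orderOf_mk, hj]) hjm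
    set E' : Subgroup G := (E.map M.subtype).map (P : Subgroup G).subtype with hE'
    have h1 := hclosed E' (Subgroup.map_subtype_le _)
      (by rw [hE', Subgroup.card_map_of_injective (P : Subgroup G).subtype_injective,
        Subgroup.card_map_of_injective M.subtype_injective, hE])
      g x ⟨x, ⟨⟨x, hx⟩, hxE (Subgroup.mem_zpowers _), rfl⟩, rfl⟩ hg
    obtain ⟨y, ⟨e, he, rfl⟩, hye⟩ := h1
    have h2 : (⟨g * x * g⁻¹, hg⟩ : P) = M.subtype e := Subtype.ext hye.symm
    rw [h2]
    exact e.2
  have hmem : ∀ y : P, y ∈ frattini P ↔ ∀ M : Subgroup P, IsCoatom M → y ∈ M := fun y =>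
    ⟨fun hy M hM => frattini_le_coatom hM hy,
      fun h => Subgroup.mem_iInf.mpr fun M => Subgroup.mem_iInf.mpr fun hM => h M hM⟩
  have hΦclosed : ∀ x ∈ Φ, ∀ g : G, g * x * g⁻¹ ∈ (P : Subgroup G) → g * x * g⁻¹ ∈ Φ := by
    rintro _ ⟨x, hx, rfl⟩ g hg
    exact ⟨⟨_, hg⟩, (hmem _).mpr fun M hM => hmax M hM x ((hmem x).mp hx M hM) g hg, rfl⟩
  have hΦP : Φ ≤ (P : Subgroup G) := Subgroup.map_subtype_le _
  have hΦn : ∀ s ∈ (P : Subgroup G), ∀ f ∈ Φ, s * f * s⁻¹ ∈ Φ := fun s hs f hf =>
    hΦclosed f hf s (mul_mem (mul_mem hs (hΦP hf)) (inv_mem hs))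
  refine hasNPC_of_fusion_frattini P ?_
  intro a g ha hg
  refine CfsgLib.Local.fusion_induction P.2 (fun A g => ∀ a ∈ A, a⁻¹ * (g⁻¹ * a * g) ∈ Φ)
    (fun A B g hAB h a ha => h a (hAB ha)) ?_ ?_ {a} g (Set.singleton_subset_iff.mpr ha) ?_ a rfl
  · intro A g h h1 h2 a ha
    have := mul_mem (h1 a ha) (h2 _ ⟨a, ha, rfl⟩)
    have e : a⁻¹ * ((g * h)⁻¹ * a * (g * h)) =
        a⁻¹ * (g⁻¹ * a * g) * ((g⁻¹ * a * g)⁻¹ * (h⁻¹ * (g⁻¹ * a * g) * h)) := by group
    rw [e]; exact this
  · intro T hT
    obtain ⟨c, hc1, hc2⟩ := CfsgLib.Local.exists_fullyNorm_conj P T hT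
    refine ⟨_, hc1, ⟨c⁻¹, by rw [CfsgLib.Local.rc_coe, inv_inv]⟩, hc2, fun _ w hw a ha => ?_⟩
    set U := T.map (MulAut.conj c).toMonoidHom with hU
    set σ : G → G := fun y => w⁻¹ * y * w with hσ
    have hσU : ∀ y ∈ U, σ y ∈ U := fun y hy => (Subgroup.mem_normalizer_iff''.mp hw y).mp hy
    have hσΦ : ∀ y ∈ U, y ∈ Φ → σ y ∈ Φ := fun y hy hyΦ => by
      have e : w⁻¹ * y * (w⁻¹)⁻¹ = σ y := by simp [hσ]
      rw [← e]
      exact hΦclosed y hyΦ w⁻¹ (e ▸ hc1 (hσU y hy))
    by_cases haΦ : a ∈ Φ
    · exact mul_mem (inv_mem haΦ) (hσΦ a ha haΦ)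
    -- in the elementary abelian quotient
    haveI hFn : (frattini P).Normal := normal_of_commutator_le (pgroup_commutator_le_frattini P.2)
    set q : P →* P ⧸ frattini P := QuotientGroup.mk' (frattini P) with hq
    have hmemΦ : ∀ (y : G) (hy : y ∈ (P : Subgroup G)), y ∈ Φ ↔ q ⟨y, hy⟩ = 1 := fun y hy => by
      rw [hq, QuotientGroup.mk'_apply, QuotientGroup.eq_one_iff]
      exact ⟨fun ⟨z, hz, e⟩ => (Subtype.ext e : z = ⟨y, hy⟩) ▸ hz, fun h => ⟨_, h, rfl⟩⟩
    set a' : P := ⟨a, hc1 ha⟩ with ha'
    set b' : P := ⟨σ a, hc1 (hσU a ha)⟩ with hb'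
    have hbH : b' ∈ frattini P ⊔ Subgroup.zpowers a' := by
      by_contra hb
      obtain ⟨M, hMle, hM⟩ := (Set.toFinite {M : Subgroup P | frattini P ⊔ Subgroup.zpowers a' ≤ M ∧ b' ∉ M}).exists_le_maximal
        (show frattini P ⊔ Subgroup.zpowers a' ∈ _ from ⟨le_rfl, hb⟩)
      have hMne : M ≠ ⊤ := fun e => hM.1.2 (e ▸ Subgroup.mem_top _)
      obtain ⟨M', hM', hMM'⟩ := (eq_top_or_exists_le_coatom M).resolve_left hMne
      have hbM' : b' ∈ M' := by
        have h1 := hmax M' hM' a' ((hM.1.1.trans hMM') (le_sup_right (α := Subgroup P) (Subgroup.mem_zpowers a'))) w⁻¹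
          (by simpa [ha', hσ] using hc1 (hσU a ha))
        convert h1 using 1
        apply Subtype.ext
        simp [hb', hσ, ha']
      obtain ⟨y, hy⟩ : ∃ y, y ∉ M' := by
        by_contra hcon; push_neg at hcon
        exact hM'.1 (top_le_iff.mp fun y _ => hcon y)
      have hΦM : frattini P ≤ M := le_sup_left.trans hM.1.1
      have hMy : b' ∈ M ⊔ Subgroup.zpowers y := by
        by_contra hne
        have := hM.2 ⟨hM.1.1.trans le_sup_left, hne⟩ le_sup_left
        exact hy (hMM' (this (le_sup_right (α := Subgroup P) (Subgroup.mem_zpowers y))))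
      have hMn : M.Normal := normal_of_commutator_le ((pgroup_commutator_le_frattini P.2).trans hΦM)
      obtain ⟨u, hu, v, hv, huv⟩ := (mem_sup_iff_of_le_normalizer'
        (le_top.trans (Subgroup.normalizer_eq_top (H := M)).ge)).mp
        (show b' ∈ Subgroup.zpowers y ⊔ M by rwa [sup_comm])
      obtain ⟨j, rfl⟩ := hv
      have hyj : y ^ j ∈ M' := by
        have : y ^ j = u⁻¹ * b' := by rw [← huv]; simp
        rw [this]; exact mul_mem (inv_mem (hMM' hu)) hbM'
      have hyp : y ^ (p : ℤ) ∈ M' := by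
        rw [zpow_natCast]; exact hMM' (hΦM (pgroup_pow_mem_frattini P.2 y))
      by_cases hjp : (p : ℤ) ∣ j
      · obtain ⟨l, rfl⟩ := hjp
        refine hM.1.2 ?_
        have huv' : u * y ^ ((p : ℤ) * l) = b' := huv
        rw [← huv', zpow_mul, zpow_natCast]
        exact mul_mem hu (Subgroup.zpow_mem _ (hΦM (pgroup_pow_mem_frattini P.2 y)) l)
      · obtain ⟨u1, u2, h12⟩ : IsCoprime (p : ℤ) j :=
          (Nat.prime_iff_prime_int.mp hp.out).coprime_iff_not_dvd.mpr hjp
        refine hy ?_
        have : y = (y ^ (p : ℤ)) ^ u1 * (y ^ j) ^ u2 := by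
          rw [← zpow_mul, ← zpow_mul, ← zpow_add, mul_comm (p : ℤ), mul_comm j, h12, zpow_one]
        rw [this]
        exact mul_mem (Subgroup.zpow_mem _ hyp u1) (Subgroup.zpow_mem _ hyj u2)
    obtain ⟨v, hv, f, hf, hvf⟩ := (mem_sup_iff_of_le_normalizer
      (le_top.trans (Subgroup.normalizer_eq_top (H := frattini P)).ge)).mp
      (show b' ∈ Subgroup.zpowers a' ⊔ frattini P by rwa [sup_comm])
    obtain ⟨k, rfl⟩ := CfsgLib.Core.mem_zpowers_nat hv
    have hqb : q b' = q a' ^ k := by
      rw [← hvf, map_mul, map_pow]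
      rw [show q f = 1 from (QuotientGroup.eq_one_iff f).mpr hf, mul_one]
    have hiterU : ∀ i : ℕ, σ^[i] a ∈ U := fun i => by
      induction i with
      | zero => exact ha
      | succ i ih => rw [Function.iterate_succ_apply']; exact hσU _ ih
    have hiter : ∀ i : ℕ, q ⟨σ^[i] a, hc1 (hiterU i)⟩ = q a' ^ k ^ i := by
      intro i
      induction i with
      | zero => simp [ha']
      | succ i ih =>
        set y := σ^[i] a with hy
        set y' := a ^ k ^ i with hy'
        have hy'U : y' ∈ U := U.pow_mem ha _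
        have hd : y'⁻¹ * y ∈ Φ := by
          rw [hmemΦ _ (mul_mem (inv_mem (hc1 hy'U)) (hc1 (hiterU i)))]
          have e : q (⟨y', hc1 hy'U⟩⁻¹ * ⟨y, hc1 (hiterU i)⟩) = 1 := by
            rw [map_mul, map_inv, ih, show (⟨y', hc1 hy'U⟩ : P) = a' ^ k ^ i from Subtype.ext (by simp [hy', ha']),
              map_pow, inv_mul_cancel]
          exact e
        have hd2 := hσΦ _ (U.mul_mem (U.inv_mem hy'U) (hiterU i)) hd
        have e1 : σ (y'⁻¹ * y) = ((σ a) ^ k ^ i)⁻¹ * σ^[i + 1] a := by
          rw [Function.iterate_succ_apply', ← hy]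
          simp only [hσ, hy']
          have : (w⁻¹ * a * w) ^ k ^ i = w⁻¹ * a ^ k ^ i * w := by
            have := conj_pow (a := w⁻¹) (b := a) (i := k ^ i)
            simpa using this
          rw [this]; group
        rw [e1, hmemΦ _ (mul_mem (inv_mem (pow_mem (hc1 (hσU a ha)) _)) (hc1 (hiterU (i + 1))))] at hd2
        have e2 : q ((b' ^ k ^ i)⁻¹ * ⟨σ^[i + 1] a, hc1 (hiterU (i + 1))⟩) = 1 := hd2
        rw [map_mul, map_inv, map_pow, hqb, inv_mul_eq_one] at e2
        rw [← e2, ← pow_mul, ← pow_succ']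
    have hr := hiter (orderOf w)
    have hσr : σ^[orderOf w] a = a := by
      have : ∀ i : ℕ, σ^[i] a = (w ^ i)⁻¹ * a * w ^ i := by
        intro i
        induction i with
        | zero => simp
        | succ i ih => rw [Function.iterate_succ_apply', ih, pow_succ]; simp only [hσ]; group
      simp [this, pow_orderOf_eq_one]
    have hr' : q a' = q a' ^ k ^ orderOf w := by
      refine Eq.trans ?_ hr
      exact congrArg q (Subtype.ext hσr.symm)
    have hqa : q a' ≠ 1 := fun e => haΦ ((hmemΦ a (hc1 ha)).mpr e)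
    have hord : orderOf (q a') = p := by
      refine orderOf_eq_prime ?_ hqa
      rw [← map_pow]
      exact (QuotientGroup.eq_one_iff _).mpr (pgroup_pow_mem_frattini P.2 a')
    haveI : NeZero p := ⟨hp.out.ne_zero⟩
    have hk1 : (k : ZMod p) ^ orderOf w = 1 := by
      have h1 : k ^ orderOf w ≡ 1 [MOD p] := by
        rw [← hord, ← pow_eq_pow_iff_modEq, pow_one]
        exact hr'.symm
      have := (ZMod.natCast_eq_natCast_iff _ _ _).mpr h1
      simpa using this
    have hk0 : (k : ZMod p) ≠ 0 := fun e => by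
      rw [e, zero_pow (orderOf_pos w).ne'] at hk1
      exact zero_ne_one hk1
    have hkone : (k : ZMod p) = 1 := by
      rw [← orderOf_eq_one_iff]
      by_contra hne
      obtain ⟨r, hr, hrd⟩ := Nat.exists_prime_and_dvd hne
      have h1 : r ∣ orderOf w := hrd.trans (orderOf_dvd_of_pow_eq_one hk1)
      have h2 : r ∣ p - 1 := hrd.trans (orderOf_dvd_of_pow_eq_one (ZMod.pow_card_sub_one_eq_one hk0))
      have h3 := hmin r hr (h1.trans (orderOf_dvd_natCard w))
      have h4 := Nat.le_of_dvd (by have := hp.out.two_le; omega) h2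
      have := hp.out.two_le
      omega
    have hk' : k ≡ 1 [MOD p] := (ZMod.natCast_eq_natCast_iff _ _ _).mp (by simpa using hkone)
    have hfin : q (a'⁻¹ * b') = 1 := by
      rw [map_mul, map_inv, hqb, inv_mul_eq_one]
      conv_lhs => rw [← pow_one (q a')]
      rw [pow_eq_pow_iff_modEq, hord]
      exact hk'.symm
    exact (hmemΦ _ (mul_mem (inv_mem (hc1 ha)) (hc1 (hσU a ha)))).mpr hfin
  · rintro _ ⟨b, hb, rfl⟩
    rw [Set.mem_singleton_iff] at hb
    exact hb ▸ hg

theorem sylow_of_subgroup_le [Finite G] {p : ℕ} [Fact p.Prime] (P : Sylow p G) {C : Subgroup G}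
    (h : (P : Subgroup G) ≤ C) : ∃ R : Sylow p C, (R : Subgroup C) = (P : Subgroup G).subgroupOf C :=
  ⟨P.subtype h, Sylow.coe_subtype P h⟩

/-- An isolated `z` in `P`: fusion in `P` is controlled by the centraliser of `z`. -/
theorem exists_centralizer_conj [Finite G] {p : ℕ} [hp : Fact p.Prime] (P : Sylow p G) {z : G}
    (hzP : z ∈ (P : Subgroup G)) (hzc : ∀ x ∈ (P : Subgroup G), x * z = z * x)
    (hiso : ∀ g : G, g * z * g⁻¹ ∈ (P : Subgroup G) → g * z * g⁻¹ = z)
    {x u : G} (hx : x ∈ (P : Subgroup G)) (hy : u * x * u⁻¹ ∈ (P : Subgroup G)) :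
    ∃ c ∈ Subgroup.centralizer ({z} : Set G), c * x * c⁻¹ = u * x * u⁻¹ := by
  set y := u * x * u⁻¹ with hydef
  set C := Subgroup.centralizer ({y} : Set G) with hC
  have hz1 : z ∈ C := Subgroup.mem_centralizer_singleton_iff.mpr (hzc y hy).symm
  have hz2 : u * z * u⁻¹ ∈ C := by
    rw [hC, Subgroup.mem_centralizer_singleton_iff, hydef]
    calc u * z * u⁻¹ * (u * x * u⁻¹) = u * (z * x) * u⁻¹ := by group
      _ = u * (x * z) * u⁻¹ := by rw [hzc x hx]
      _ = _ := by group
  have hpz : IsPGroup p (Subgroup.zpowers z) := P.2.to_le (Subgroup.zpowers_le.mpr hzP)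
  have hpz2 : IsPGroup p (Subgroup.zpowers (u * z * u⁻¹)) := by
    have e : Subgroup.zpowers (u * z * u⁻¹) = (Subgroup.zpowers z).map (MulAut.conj u).toMonoidHom := by
      rw [MonoidHom.map_zpowers]; rfl
    rw [e]; exact hpz.map _
  obtain ⟨R, hR⟩ := (hpz.comap_subtype (K := C)).exists_le_sylow
  obtain ⟨R2, hR2⟩ := (hpz2.comap_subtype (K := C)).exists_le_sylow
  obtain ⟨v, hv⟩ := MulAction.exists_smul_eq C R2 R
  obtain ⟨S, hS⟩ := (R.2.map C.subtype).exists_le_sylow
  obtain ⟨c0, hc0⟩ := MulAction.exists_smul_eq G S P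
  have hin : ∀ r ∈ (R : Subgroup C).map C.subtype, c0 * r * c0⁻¹ ∈ (P : Subgroup G) := by
    intro r hr
    rw [← hc0]
    exact mem_conj_smul.mpr (by simpa [mul_assoc] using hS hr)
  have hv2 : (v : G) * (u * z * u⁻¹) * (v : G)⁻¹ ∈ (R : Subgroup C).map C.subtype := by
    refine ⟨v * ⟨u * z * u⁻¹, hz2⟩ * v⁻¹, ?_, rfl⟩
    rw [← hv]
    refine (mem_conj_smul (H := (R2 : Subgroup C))).mpr ?_
    have : (⟨u * z * u⁻¹, hz2⟩ : C) ∈ (R2 : Subgroup C) := hR2 (Subgroup.mem_zpowers _)
    simpa [mul_assoc] using this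
  have h1 : c0 * z * c0⁻¹ = z :=
    hiso c0 (hin z ⟨⟨z, hz1⟩, hR (Subgroup.mem_zpowers z), rfl⟩)
  have h2 : c0 * ((v : G) * (u * z * u⁻¹) * (v : G)⁻¹) * c0⁻¹ = z := by
    have e : c0 * ((v : G) * (u * z * u⁻¹) * (v : G)⁻¹) * c0⁻¹ = (c0 * v * u) * z * (c0 * v * u)⁻¹ := by
      group
    rw [e]
    exact hiso _ (e ▸ hin _ hv2)
  have h3 : (v : G) * u * z * ((v : G) * u)⁻¹ = z := by
    have e : c0 * ((v : G) * u * z * ((v : G) * u)⁻¹) * c0⁻¹ = c0 * z * c0⁻¹ := by
      rw [h1]; refine Eq.trans ?_ h2; group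
    exact mul_left_cancel (mul_right_cancel e)
  refine ⟨(v : G) * u, ?_, ?_⟩
  · rw [Subgroup.mem_centralizer_singleton_iff]
    exact mul_inv_eq_iff_eq_mul.mp h3
  · have hvy : (v : G) * y * (v : G)⁻¹ = y := by
      rw [Subgroup.mem_centralizer_singleton_iff.mp v.2, mul_inv_cancel_right]
    refine Eq.trans ?_ hvy
    rw [hydef]; group

theorem main {p : ℕ} [hp : Fact p.Prime] : ∀ (n : ℕ) (G : Type w) [Group G] [Finite G],
    Nat.card G = n → (∀ q : ℕ, q.Prime → q ∣ Nat.card G → p ≤ q) → ∀ (P : Sylow p G) (m : ℕ),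
      1 ≤ m → p ^ m < Nat.card (P : Subgroup G) →
      (∀ E : Subgroup G, E ≤ (P : Subgroup G) →
        (Nat.card E = p ^ m ∨ (p = 2 ∧ m = 1 ∧ Nat.card E = 4)) → Closed (P : Subgroup G) E) →
      Cfsg.HasNormalPComplement p G := by
  classical
  intro n
  induction n using Nat.strong_induction_on with
  | h n ih =>
    intro G _ _ hn hmin P m hm hlt hclosed
    have hcard : ∀ x ∈ (P : Subgroup G), ∀ g : G, Nat.card (Subgroup.zpowers x) = p ^ m →
        g * x * g⁻¹ ∈ (P : Subgroup G) → g * x * g⁻¹ ∈ Subgroup.zpowers x := fun x hx g hc hg =>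
      hclosed _ (Subgroup.zpowers_le.mpr hx) (Or.inl hc) g x (Subgroup.mem_zpowers x) hg
    rcases eq_or_ne m 1 with rfl | hm1
    · -- the bottom case
      refine hasNPC_of_small_fusion hmin P fun x hx hx' => ?_
      rcases eq_or_ne x 1 with rfl | hx1
      · exact ⟨{1}, Finset.mem_singleton_self 1, by simpa using hp.out.one_lt.le,
          fun g y hy _ => by simp_all⟩
      haveI : Fintype G := Fintype.ofFinite G
      refine ⟨Finset.univ.filter fun y => y ∈ Subgroup.zpowers x ∧ orderOf y = orderOf x, by simp, ?_, ?_⟩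
      · have h1 : (Finset.univ.filter fun y : G => y ∈ Subgroup.zpowers x ∧ orderOf y = orderOf x) ⊆
            ((Finset.range (orderOf x)).filter (Nat.Coprime (orderOf x))).image fun i => x ^ i := by
          intro y hy
          obtain ⟨hyz, hyo⟩ := (Finset.mem_filter.mp hy).2
          obtain ⟨i, rfl⟩ := CfsgLib.Core.mem_zpowers_nat hyz
          refine Finset.mem_image.mpr ⟨i % orderOf x, Finset.mem_filter.mpr
            ⟨Finset.mem_range.mpr (Nat.mod_lt _ (orderOf_pos x)), ?_⟩, pow_mod_orderOf x i⟩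
          rw [orderOf_pow] at hyo
          have h2 : Nat.gcd (orderOf x) i = 1 := by
            have h5 := Nat.div_mul_cancel (Nat.gcd_dvd_left (orderOf x) i)
            rw [hyo] at h5
            exact (mul_eq_left₀ (orderOf_pos x).ne').mp h5
          exact (Nat.coprime_mul_right_add_right _ (i % orderOf x) (i / orderOf x)).mp (by
            rwa [mul_comm, Nat.div_add_mod]) |> fun h => h
        refine (Finset.card_le_card h1).trans (Finset.card_image_le.trans ?_)
        rcases hx' with hx' | ⟨rfl, hx'⟩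
        · rw [orderOf_eq_prime hx' hx1]
          exact (Finset.card_filter_le _ _).trans (by simp)
        · have h2 : orderOf x ∣ 4 := orderOf_dvd_of_pow_eq_one hx'
          have h3 := Nat.le_of_dvd (by norm_num) h2
          have h4 : orderOf x ≠ 1 := fun e => hx1 (orderOf_eq_one_iff.mp e)
          interval_cases h : orderOf x <;> first | omega | decide
      · intro g y hy hg
        obtain ⟨hyz, hyo⟩ := (Finset.mem_filter.mp hy).2
        have hord : orderOf (g * y * g⁻¹) = orderOf x := by
          rw [← hyo]; exact MulEquiv.orderOf_eq (MulAut.conj g) y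
        refine Finset.mem_filter.mpr ⟨Finset.mem_univ _, ?_, hord⟩
        refine hclosed (Subgroup.zpowers x) (Subgroup.zpowers_le.mpr hx) ?_ g y hyz hg
        rw [Nat.card_zpowers, pow_one]
        rcases hx' with hx' | ⟨rfl, hx'⟩
        · exact Or.inl (orderOf_eq_prime hx' hx1)
        · by_cases hx2 : x ^ 2 = 1
          · exact Or.inl (orderOf_eq_prime hx2 hx1)
          · exact Or.inr ⟨rfl, rfl, orderOf_eq_prime_pow (p := 2) (n := 1) (by simpa using hx2) (by simpa using hx')⟩
    by_cases hbig : ∃ x ∈ (P : Subgroup G), p ^ m ≤ orderOf x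
    swap
    · push_neg at hbig
      exact hasNPC_of_closed_small_exponent hmin P hlt hbig fun E h1 h2 => hclosed E h1 (Or.inl h2)
    obtain ⟨x₀, hx₀, hx₀m⟩ := hbig
    obtain ⟨j, hj⟩ := IsPGroup.iff_orderOf.mp P.2 ⟨x₀, hx₀⟩
    rw [Subgroup.orderOf_mk] at hj
    have hmj : m ≤ j := (Nat.pow_le_pow_iff_right hp.out.one_lt).mp (hj ▸ hx₀m)
    set e := x₀ ^ p ^ (j - m) with he
    have heP : e ∈ (P : Subgroup G) := pow_mem hx₀ _
    have heord : orderOf e = p ^ m := by
      rw [he, orderOf_pow, hj, Nat.gcd_eq_right (pow_dvd_pow p (Nat.sub_le j m)),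
        Nat.pow_div (Nat.sub_le j m) hp.out.pos]
      congr 1
      omega
    set z := e ^ p ^ (m - 1) with hz
    have hzord : orderOf z = p := by
      rw [hz, orderOf_pow, heord, Nat.gcd_eq_right (pow_dvd_pow p (Nat.sub_le m 1)),
        Nat.pow_div (Nat.sub_le m 1) hp.out.pos, show m - (m - 1) = 1 by omega, pow_one]
    have hzP : z ∈ (P : Subgroup G) := pow_mem heP _
    have hzE : z ∈ Subgroup.zpowers e := Subgroup.pow_mem _ (Subgroup.mem_zpowers e) _
    -- conjugates of `z` in `P` are powers of `z`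
    have hzclosed : ∀ g : G, ∀ y ∈ Subgroup.zpowers z, g * y * g⁻¹ ∈ (P : Subgroup G) →
        g * y * g⁻¹ ∈ Subgroup.zpowers z := by
      intro g y hy hg
      have h1 : g * y * g⁻¹ ∈ Subgroup.zpowers e :=
        hclosed _ (Subgroup.zpowers_le.mpr heP) (Or.inl (by rw [Nat.card_zpowers, heord])) g y
          (Subgroup.zpowers_le.mpr hzE hy) hg
      have h2 : (g * y * g⁻¹) ^ p = 1 := by
        obtain ⟨i, rfl⟩ := CfsgLib.Core.mem_zpowers_nat hy
        rw [conj_pow, ← pow_mul, mul_comm, pow_mul, ← hzord, pow_orderOf_eq_one, one_pow, mul_one,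
          mul_inv_cancel]
      obtain ⟨i, hi⟩ := CfsgLib.Core.mem_zpowers_nat h1
      rw [← hi, ← pow_mul, ← orderOf_dvd_iff_pow_eq_one, heord] at h2
      rw [← hi]
      obtain ⟨l, rfl⟩ : p ^ (m - 1) ∣ i := by
        have e1 : p ^ m = p ^ (m - 1) * p := by rw [← pow_succ]; congr 1; omega
        rw [e1] at h2
        exact Nat.dvd_of_mul_dvd_mul_right hp.out.pos h2
      rw [pow_mul]
      exact Subgroup.pow_mem _ (Subgroup.mem_zpowers z) l
    have hfix : ∀ g : G, g * z * g⁻¹ ∈ (P : Subgroup G) → g * z * g⁻¹ = z := by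
      intro g hg
      obtain ⟨i, hi⟩ := CfsgLib.Core.mem_zpowers_nat (hzclosed g z (Subgroup.mem_zpowers z) hg)
      refine fixed_of_small_orbit (S := (Finset.range (p - 1)).image fun l => z ^ (l + 1)) ?_ ?_ ?_
      · exact Finset.mem_image.mpr ⟨0, Finset.mem_range.mpr (by have := hp.out.two_le; omega), by simp⟩
      · intro y hy
        obtain ⟨l, hl, rfl⟩ := Finset.mem_image.mp hy
        rw [Finset.mem_range] at hl
        rw [← conj_pow, ← hi, ← pow_mul]
        have hne : i * (l + 1) % p ≠ 0 := by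
          intro h0
          rcases hp.out.dvd_mul.mp (Nat.dvd_of_mod_eq_zero h0) with h | h
          · obtain ⟨t, rfl⟩ := h
            rw [pow_mul, ← hzord, pow_orderOf_eq_one, one_pow] at hi
            have hz1 : z = 1 := conj_eq_one_iff.mp hi.symm
            rw [hz1, orderOf_one] at hzord
            exact hp.out.ne_one hzord.symm
          · have := Nat.le_of_dvd (by omega) h
            omega
        refine Finset.mem_image.mpr ⟨i * (l + 1) % p - 1, Finset.mem_range.mpr ?_, ?_⟩
        · have := Nat.mod_lt (i * (l + 1)) hp.out.pos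
          omega
        · rw [Nat.sub_add_cancel (Nat.one_le_iff_ne_zero.mpr hne), ← hzord, pow_mod_orderOf]
      · intro r hr hd
        have h1 := hmin r hr (hd.trans (orderOf_dvd_natCard g))
        have h2 : ((Finset.range (p - 1)).image fun l => z ^ (l + 1)).card ≤ p - 1 :=
          Finset.card_image_le.trans (by simp)
        have := hp.out.two_le
        omega
    have hzc : ∀ x ∈ (P : Subgroup G), x * z = z * x := fun x hx =>
      mul_inv_eq_iff_eq_mul.mp (hfix x (mul_mem (mul_mem hx hzP) (inv_mem hx)))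
    set C := Subgroup.centralizer ({z} : Set G) with hC
    have hPC : (P : Subgroup G) ≤ C := fun x hx =>
      Subgroup.mem_centralizer_singleton_iff.mpr (hzc x hx)
    by_cases hCtop : C = ⊤
    swap
    · -- proper centraliser
      obtain ⟨R, hR⟩ := sylow_of_subgroup_le P hPC
      have hRcard : Nat.card (R : Subgroup C) = Nat.card (P : Subgroup G) := by
        rw [hR, Nat.card_congr (Subgroup.subgroupOfEquivOfLe hPC).toEquiv]
      have hCn : Cfsg.HasNormalPComplement p C := by
        refine ih _ (hn ▸ card_lt_of_ne_top hCtop) C rfl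
          (fun q hq hd => hmin q hq (hd.trans (Subgroup.card_subgroup_dvd_card C))) R m hm
          (hRcard.symm ▸ hlt) ?_
        intro E hE hEc g x hx hg
        rw [hR] at hE hg
        have hle : E.map C.subtype ≤ (P : Subgroup G) := by
          rintro _ ⟨y, hy, rfl⟩
          exact hE hy
        have := hclosed _ hle (by
          rwa [Subgroup.card_map_of_injective C.subtype_injective]) g x ⟨x, hx, rfl⟩ hg
        obtain ⟨y, hy, he⟩ := this
        have : y = g * x * g⁻¹ := Subtype.ext (he.trans (by simp))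
        exact this ▸ hy
      obtain ⟨N, hN, hNcop, k, hk⟩ := hasNormalPComplement_iff.mp hCn
      haveI := hN
      refine hasNPC_of_fusion_frattini P fun a g ha hg => ?_
      obtain ⟨c, hc, he⟩ := exists_centralizer_conj P hzP hzc hfix ha
        (u := g⁻¹) (by rwa [inv_inv])
      rw [inv_inv] at he
      -- `c` acts on `a` as an element of `P`
      have hsup : N ⊔ (R : Subgroup C) = ⊤ := by
        rw [← Subgroup.index_eq_one]
        refine Nat.eq_one_of_dvd_coprimes ((hp.out.coprime_iff_not_dvd.mpr R.not_dvd_index).pow_left k) ?_ (Subgroup.index_dvd_of_le le_sup_right)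
        rw [← hk]; exact Subgroup.index_dvd_of_le le_sup_left
      obtain ⟨n', hn', s, hs, hns⟩ := (mem_sup_iff_of_le_normalizer'
        (le_top.trans (Subgroup.normalizer_eq_top (H := N)).ge)).mp
        (show (⟨c, hc⟩ : C) ∈ (R : Subgroup C) ⊔ N by rw [sup_comm, hsup]; trivial)
      set aC : C := ⟨a, hPC ha⟩ with haC
      have haR : aC ∈ (R : Subgroup C) := by rw [hR]; exact ha
      have hcR : n' * (s * aC * s⁻¹) * n'⁻¹ ∈ (R : Subgroup C) := by
        have e1 : n' * (s * aC * s⁻¹) * n'⁻¹ = (⟨c, hc⟩ : C) * aC * (⟨c, hc⟩ : C)⁻¹ := by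
          rw [← hns]; group
        rw [e1, hR, Subgroup.mem_subgroupOf]
        simpa [haC, he] using hg
      set w := s * aC * s⁻¹ with hw
      have hwR : w ∈ (R : Subgroup C) := mul_mem (mul_mem hs haR) (inv_mem hs)
      have hd : n' * w * n'⁻¹ * w⁻¹ ∈ N ⊓ (R : Subgroup C) :=
        ⟨by
          rw [mul_assoc, mul_assoc, ← mul_assoc w]
          exact N.mul_mem hn' (hN.conj_mem _ (N.inv_mem hn') w), (R : Subgroup C).mul_mem hcR ((R : Subgroup C).inv_mem hwR)⟩
      rw [sylow_inf_bot_of_coprime R.2 hNcop, Subgroup.mem_bot, mul_inv_eq_one] at hd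
      have hfin : g⁻¹ * a * g = (s : G) * a * (s : G)⁻¹ := by
        rw [← he]
        have := congrArg (Subtype.val : C → G) (show (⟨c, hc⟩ : C) * aC * (⟨c, hc⟩ : C)⁻¹ = s * aC * s⁻¹ by
          rw [← hns, ← hw]; refine Eq.trans ?_ hd; rw [hw]; group)
        simpa [haC] using this
      have hsP : (s : G) ∈ (P : Subgroup G) := by rw [hR] at hs; exact hs
      rw [hfin]
      refine ⟨⟨a, ha⟩⁻¹ * (⟨s, hsP⟩ * ⟨a, ha⟩ * ⟨s, hsP⟩⁻¹), ?_, ?_⟩
      · refine pgroup_commutator_le_frattini P.2 ?_
        have := Subgroup.commutator_mem_commutator (Subgroup.mem_top (⟨a, ha⟩⁻¹ : (P : Subgroup G)))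
          (Subgroup.mem_top (⟨s, hsP⟩ : (P : Subgroup G)))
        simpa [commutatorElement_def, mul_assoc, _root_.commutator_def] using this
      · simp
    -- `z` is central
    have hZn : (Subgroup.zpowers z).Normal := ⟨fun y hy g => by
      obtain ⟨i, rfl⟩ := CfsgLib.Core.mem_zpowers_nat hy
      have : g * z * g⁻¹ = z := by
        rw [Subgroup.mem_centralizer_singleton_iff.mp (hCtop ▸ Subgroup.mem_top g : g ∈ C), mul_inv_cancel_right]
      rw [← conj_pow, this]
      exact Subgroup.pow_mem _ (Subgroup.mem_zpowers z) i⟩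
    have hzcent : ∀ g : G, g * z = z * g := fun g =>
      Subgroup.mem_centralizer_singleton_iff.mp (hCtop ▸ Subgroup.mem_top g : g ∈ C)
    by_cases hspecial : p = 2 ∧ m = 2
    · obtain ⟨rfl, rfl⟩ := hspecial
      refine hasNPC_of_small_fusion hmin P fun x hx hx' => ?_
      have hx4 : x ^ 4 = 1 := by
        rcases hx' with h | ⟨-, h⟩
        · rw [show (4 : ℕ) = 2 * 2 from rfl, pow_mul, h, one_pow]
        · exact h
      have hz2 : z * z = 1 := by rw [← sq, ← hzord, pow_orderOf_eq_one]
      by_cases hxz : x = 1 ∨ x = z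
      · refine ⟨{x}, Finset.mem_singleton_self x, by simp, fun g y hy _ => ?_⟩
        rw [Finset.mem_singleton] at hy ⊢
        subst hy
        rcases hxz with rfl | rfl
        · simp
        · rw [hzcent, mul_inv_cancel_right]
      push_neg at hxz
      by_cases hx2 : x ^ 2 = 1
      · refine ⟨{x, x * z}, by simp, Finset.card_le_two, fun g y hy hg => ?_⟩
        have hord : orderOf x = 2 := orderOf_eq_prime hx2 hxz.1
        have hcomm : Commute x z := hzc x hx
        have hxz1 : x * z ≠ 1 := fun e1 => hxz.2 (by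
          calc x = x * z * z := by rw [mul_assoc, hz2, mul_one]
            _ = z := by rw [e1, one_mul])
        let V : Subgroup G :=
          { carrier := {1, x, z, x * z}
            one_mem' := Set.mem_insert _ _
            mul_mem' := by
              have hxx : x * x = 1 := by rw [← sq]; exact hx2
              have hzx : z * x = x * z := hcomm.eq.symm
              have h1 : ∀ w, x * (x * w) = w := fun w => by rw [← mul_assoc, hxx, one_mul]
              have h2 : ∀ w, z * (z * w) = w := fun w => by rw [← mul_assoc, hz2, one_mul]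
              have h3 : ∀ w, z * (x * w) = x * (z * w) := fun w => by
                rw [← mul_assoc, hzx, mul_assoc]
              intro a b ha hb
              rcases ha with ha | ha | ha | ha <;> rcases hb with hb | hb | hb | hb <;>
                rw [ha, hb] <;> simp [hxx, hz2, hzx, h1, h2, h3, mul_assoc]
            inv_mem' := by
              have hxi : x⁻¹ = x := inv_eq_of_mul_eq_one_right (by rw [← sq]; exact hx2)
              have hzi : z⁻¹ = z := inv_eq_of_mul_eq_one_right hz2
              intro a ha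
              rcases ha with ha | ha | ha | ha <;> rw [ha] <;>
                simp [hxi, hzi, mul_inv_rev, hcomm.eq] }
        have hVP : V ≤ (P : Subgroup G) := by
          rintro a (rfl | rfl | rfl | rfl)
          · exact one_mem _
          · exact hx
          · exact hzP
          · exact mul_mem hx hzP
        have hV4 : Nat.card V = 4 := by
          show Nat.card ({1, x, z, x * z} : Set G) = 4
          rw [Nat.card_coe_set_eq]
          have hz1 : z ≠ 1 := fun e1 => by rw [e1, orderOf_one] at hzord; norm_num at hzord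
          rw [Set.ncard_insert_of_notMem, Set.ncard_insert_of_notMem, Set.ncard_pair]
          · intro e1; exact hxz.1 (mul_eq_right.mp e1.symm)
          · simp only [Set.mem_insert_iff, Set.mem_singleton_iff, not_or]
            exact ⟨hxz.2, fun e1 => hz1 (mul_eq_left.mp e1.symm)⟩
          · simp only [Set.mem_insert_iff, Set.mem_singleton_iff, not_or]
            exact ⟨hxz.1.symm, hz1.symm, hxz1.symm⟩
        have hyV : y ∈ V := by
          rcases Finset.mem_insert.mp hy with rfl | hy
          · exact Or.inr (Or.inl rfl)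
          · rw [Finset.mem_singleton.mp hy]; exact Or.inr (Or.inr (Or.inr rfl))
        have h1 := hclosed V hVP (Or.inl (by simpa using hV4)) g y hyV hg
        have hy0 : y ≠ 1 ∧ y ≠ z := by
          rcases Finset.mem_insert.mp hy with rfl | hy
          · exact hxz
          · rw [Finset.mem_singleton.mp hy]
            exact ⟨hxz1, fun e1 => hxz.1 (mul_eq_right.mp e1)⟩
        rcases h1 with h1 | h1 | h1 | h1
        · exact absurd (conj_eq_one_iff.mp h1) hy0.1
        · simp [h1]
        · exfalso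
          refine hy0.2 (mul_left_cancel (a := g) (mul_right_cancel (b := g⁻¹) ?_))
          rw [h1, hzcent, mul_inv_cancel_right]
        · simp [Set.mem_singleton_iff.mp h1]
      · refine ⟨{x, x⁻¹}, by simp, Finset.card_le_two, fun g y hy hg => ?_⟩
        have hord : orderOf x = 4 := orderOf_eq_prime_pow (p := 2) (n := 1) (by simpa using hx2) (by simpa using hx4)
        have hyx : y ∈ Subgroup.zpowers x := by
          rcases Finset.mem_insert.mp hy with rfl | hy
          · exact Subgroup.mem_zpowers _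
          · rw [Finset.mem_singleton.mp hy]; exact inv_mem (Subgroup.mem_zpowers x)
        have hyo : orderOf y = 4 := by
          rcases Finset.mem_insert.mp hy with rfl | hy
          · exact hord
          · rw [Finset.mem_singleton.mp hy, orderOf_inv, hord]
        have h1 := hclosed _ (Subgroup.zpowers_le.mpr hx)
          (Or.inl (by rw [Nat.card_zpowers, hord]; norm_num)) g y hyx hg
        obtain ⟨i, hi⟩ := CfsgLib.Core.mem_zpowers_nat h1
        have h4 : orderOf (g * y * g⁻¹) = 4 := by
          rw [← hyo]; exact MulEquiv.orderOf_eq (MulAut.conj g) y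
        rw [← hi, ← pow_mod_orderOf, hord] at h4
        rw [← hi, ← pow_mod_orderOf, hord]
        have h5 : i % 4 < 4 := Nat.mod_lt _ (by norm_num)
        have hx3 : x ^ 3 = x⁻¹ := eq_inv_of_mul_eq_one_left (by rw [← pow_succ]; exact hx4)
        interval_cases h6 : i % 4
        · simp at h4
        · simp
        · exfalso
          rw [orderOf_pow, hord] at h4
          norm_num at h4
        · simp [hx3]
    -- pass to the quotient
    set Z := Subgroup.zpowers z with hZ
    haveI := hZn
    set π : G →* G ⧸ Z := QuotientGroup.mk' Z with hπ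
    have hπs : Function.Surjective π := QuotientGroup.mk'_surjective Z
    have hZP : Z ≤ (P : Subgroup G) := Subgroup.zpowers_le.mpr hzP
    let Pb : Sylow p (G ⧸ Z) := P.mapSurjective hπs
    have hPb : (Pb : Subgroup (G ⧸ Z)) = (P : Subgroup G).map π := Sylow.coe_mapSurjective hπs P
    have hcardmap : ∀ E : Subgroup G, Z ≤ E → Nat.card (E.map π) * p = Nat.card E := by
      intro E hE
      rw [← Subgroup.relIndex_ker, hπ, QuotientGroup.ker_mk', mul_comm, ← hzord,
        ← Nat.card_zpowers, ← hZ, card_mul_relIndex hE]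
    have hquot : Cfsg.HasNormalPComplement p (G ⧸ Z) := by
      refine ih _ (hn ▸ card_quotient_lt fun e1 => ?_) (G ⧸ Z) rfl
        (fun q hq hd => hmin q hq (hd.trans (Subgroup.card_quotient_dvd_card Z))) Pb (m - 1)
        (by omega) ?_ ?_
      · rw [hZ, Subgroup.zpowers_eq_bot] at e1
        rw [e1, orderOf_one] at hzord
        exact hp.out.ne_one hzord.symm
      · have h1 := hcardmap _ hZP
        rw [hPb]
        refine Nat.lt_of_mul_lt_mul_right (a := p) ?_
        rw [h1, ← pow_succ, show m - 1 + 1 = m by omega]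
        exact hlt
      · intro E hE hEc g x hx hg
        obtain ⟨g, rfl⟩ := hπs g
        obtain ⟨x, rfl⟩ := hπs x
        have hc : Nat.card E = p ^ (m - 1) := by
          rcases hEc with h | ⟨h1, h2, -⟩
          · exact h
          · exact absurd ⟨h1, by omega⟩ hspecial
        have hcomap : ((P : Subgroup G).map π).comap π = P := by
          rw [Subgroup.comap_map_eq, hπ, QuotientGroup.ker_mk', sup_eq_left.mpr hZP]
        have hle : E.comap π ≤ (P : Subgroup G) := by
          rw [← hcomap]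
          exact Subgroup.comap_mono (hPb ▸ hE)
        have hZE : Z ≤ E.comap π := (QuotientGroup.ker_mk' Z).ge.trans (Subgroup.ker_le_comap π E)
        have hcE : Nat.card (E.comap π) = p ^ m := by
          rw [← hcardmap _ hZE, Subgroup.map_comap_eq_self_of_surjective hπs, hc, ← pow_succ,
            show m - 1 + 1 = m by omega]
        have := hclosed _ hle (Or.inl hcE) g x hx (by
          rw [← hcomap, Subgroup.mem_comap, map_mul, map_mul, map_inv]
          exact hPb ▸ hg)
        rwa [Subgroup.mem_comap, map_mul, map_mul, map_inv] at this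
    obtain ⟨N, hN, hNcop, k, hk⟩ := hasNormalPComplement_iff.mp hquot
    haveI := hN
    refine hasNormalPComplement_of_index_pow (N := N.comap π) inferInstance ?_
      ⟨k, by rw [Subgroup.index_comap_of_surjective _ hπs, hk]⟩
    refine hasNormalPComplement_of_local fun Q hQ w _ _ => ?_
    rw [Subgroup.mem_centralizer_iff]
    intro y hy
    have hyZ : (y : G) ∈ Z := by
      have h1 : π y = 1 := by
        have h2 : π y ∈ N := y.2
        have h3 : IsPGroup p ((Q.map (N.comap π).subtype).map π) := (hQ.map _).map _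
        have h4 : π y ∈ N ⊓ (Q.map (N.comap π).subtype).map π := ⟨h2, ⟨_, ⟨y, hy, rfl⟩, rfl⟩⟩
        rw [sylow_inf_bot_of_coprime h3 hNcop, Subgroup.mem_bot] at h4
        exact h4
      exact (QuotientGroup.eq_one_iff _).mp h1
    obtain ⟨i, hi⟩ := CfsgLib.Core.mem_zpowers_nat hyZ
    apply Subtype.ext
    show (y : G) * w = w * y
    rw [← hi]
    exact ((Commute.pow_right (show Commute (w : G) z from hzcent w) i).eq).symm



/-- Let G be a finite group, p the smallest prime dividing |G| and P a Sylow p-subgroup. Suppose that P is cyclic, or that P has a subgroup D with 1 < |D| < |P| such that every subgroup E of P of order |D|, and also every subgroup E of P of order 4 when |D| = 2, satisfies g E g⁻¹ ∩ N_G(E) ≤ E for all g ∈ G (E is strongly closed in its normalizer with respect to G). Then G has a normal p-complement. -/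
theorem result {G : Type*} [Group G] [Finite G] {p : ℕ} [Fact p.Prime] (hdiv : p ∣ Nat.card G)
    (hmin : ∀ q : ℕ, q.Prime → q ∣ Nat.card G → p ≤ q) (P : Sylow p G)
    (h : IsCyclic ↥(P : Subgroup G) ∨ ∃ D : Subgroup G, D ≤ (P : Subgroup G) ∧ 1 < Nat.card D ∧ Nat.card D < Nat.card (P : Subgroup G) ∧
      ∀ E : Subgroup G, E ≤ (P : Subgroup G) → (Nat.card E = Nat.card D ∨ (Nat.card D = 2 ∧ Nat.card E = 4)) →
        ∀ g : G, E.map (MulAut.conj g).toMonoidHom ⊓ Subgroup.normalizer (E : Set G) ≤ E) :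
    Cfsg.HasNormalPComplement p G := by
  rcases h with hcyc | ⟨D, hDP, hD1, hDlt, hE⟩
  · haveI : Nontrivial G := by
      by_contra hc
      rw [not_nontrivial_iff_subsingleton] at hc
      rw [Nat.card_of_subsingleton (1 : G)] at hdiv
      exact (Fact.out : p.Prime).ne_one (Nat.dvd_one.mp hdiv)
    have hne : Nat.card G ≠ 1 := Finite.one_lt_card.ne'
    have hpm : (Nat.card G).minFac = p := le_antisymm
      (Nat.minFac_le_of_dvd (Fact.out : p.Prime).two_le hdiv)
      (hmin _ (Nat.minFac_prime hne) (Nat.minFac_dvd _))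
    exact ⟨P, _, inferInstance, IsCyclic.isComplement' hpm hcyc⟩
  · obtain ⟨m, hm⟩ := IsPGroup.iff_card.mp (P.2.to_le hDP)
    have hm1 : 1 ≤ m := by
      by_contra h0
      interval_cases m
      rw [pow_zero] at hm
      omega
    refine main _ G rfl hmin P m hm1 (hm ▸ hDlt) fun E hEP hEc g x hx hg => ?_
    have hcases : Nat.card E = Nat.card D ∨ (Nat.card D = 2 ∧ Nat.card E = 4) := by
      rcases hEc with h | ⟨rfl, rfl, h⟩
      · exact Or.inl (h.trans hm.symm)
      · exact Or.inr ⟨by simpa using hm, h⟩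
    have hH := hE E hEP hcases
    have hnormal : (E.subgroupOf (P : Subgroup G)).Normal := by
      by_contra hn
      haveI := P.2.isNilpotent
      obtain ⟨s, hs1, hs2⟩ := CfsgLib.Core.exists_conj_ne_le_normalizer
        (CfsgLib.Core.isSubnormal_of_isNilpotent (E.subgroupOf (P : Subgroup G))) hn
      refine hs1 (CfsgLib.Core.eq_of_le_of_card_le ?_ (CfsgLib.Core.card_conj_smul s _).ge)
      intro y hy
      have h1 : (y : G) ∈ E.map (MulAut.conj (s : G)).toMonoidHom := by
        have := CfsgLib.Core.mem_conj_smul.mp hy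
        refine ⟨_, this, ?_⟩
        simp
        group
      refine hH (s : G) ⟨h1, ?_⟩
      show (y : G) ∈ Subgroup.normalizer (E : Set G)
      rw [Subgroup.mem_normalizer_iff]
      intro u
      have h2 := Subgroup.mem_normalizer_iff.mp (hs2 hy)
      constructor
      · intro hu
        exact (h2 ⟨u, hEP hu⟩).mp hu
      · intro hu
        have huP : u ∈ (P : Subgroup G) := by
          have h3 := mul_mem (mul_mem (inv_mem y.2) (hEP hu)) y.2
          have e : (y : G)⁻¹ * ((y : G) * u * (y : G)⁻¹) * y = u := by group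
          exact e ▸ h3
        exact (h2 ⟨u, huP⟩).mpr hu
    have hPN : (P : Subgroup G) ≤ Subgroup.normalizer (E : Set G) :=
      (Subgroup.normal_subgroupOf_iff_le_normalizer hEP).mp hnormal
    exact hH g ⟨⟨x, hx, rfl⟩, hPN hg⟩

end Cfsg.Agent.S3031
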