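import Cfsg.Statements.S3053
import Cfsg.Agent.Lib.TransferExtraspecialIso
import Cfsg.Agent.Lib.CoreCoprime
import Mathlib

set_option autoImplicit false
open Cfsg
open scoped commutatorElement Pointwise

namespace Cfsg.Agent.S3053

open CfsgLib.Extraspecial Subgroup in
theorem omega_facts {P : Type*} [Group P] [Finite P] {p : ℕ} [hp : Fact p.Prime] (hp2 : p ≠ 2)
    {z : P} (h : Ex p z 1) (hexp : ∃ x : P, x ^ p ≠ 1) :
    ∃ W : Subgroup P, (∀ x, x ∈ W ↔ x ^ p = 1) ∧ Nat.card W = p ^ 2 ∧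
      (∀ x ∈ W, ∀ y ∈ W, x * y = y * x) ∧ (∀ x w : P, w ∈ W → (x * w) ^ p = x ^ p) ∧
      (∀ s ∈ W, s ∉ zpowers z → (W = zpowers z ⊔ zpowers s) ∧
        (∀ c : P, c * s = s * c → c ∈ W) ∧ ∃ a : P, a * s * a⁻¹ = s * z) := by
  classical
  have hchoose : p ∣ p.choose 2 := hp.out.dvd_choose_self (by norm_num)
    (lt_of_le_of_ne hp.out.two_le (Ne.symm hp2))
  have hmul : ∀ x w : P, (x * w) ^ p = x ^ p * w ^ p := by
    intro x w
    obtain ⟨j, hj⟩ := hchoose
    rw [CfsgLib.Core.mul_pow_of_central (h.comm_center w x x).eq (h.comm_center w x w).eq, hj,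
      pow_mul, h.comm_pow_p, one_pow, mul_one]
  let f : P →* zpowers z :=
    { toFun := fun x => ⟨x ^ p, h.pow_mem x⟩
      map_one' := Subtype.ext (one_pow p)
      map_mul' := fun x y => Subtype.ext (hmul x y) }
  have hcz : Nat.card (zpowers z) = p := by rw [Nat.card_zpowers, orderOf_eq_prime h.zp h.zne]
  haveI : Fact (Nat.card (zpowers z)).Prime := ⟨hcz.symm ▸ hp.out⟩
  have hkerf : ∀ (g : P →* zpowers z), g ≠ 1 → Nat.card g.ker = p ^ 2 := by
    intro g hg
    have hr : g.range = ⊤ :=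
      (eq_bot_or_eq_top_of_prime_card _).resolve_left (fun e => hg (by
        ext x
        have : g x ∈ g.range := ⟨x, rfl⟩
        rw [e, mem_bot] at this
        simp [this]))
    have := g.ker.card_mul_index
    rw [index_ker, hr, card_top, hcz, h.card] at this
    exact Nat.eq_of_mul_eq_mul_right hp.out.pos (this.trans (by ring))
  have hW : Nat.card f.ker = p ^ 2 := hkerf f (by
    obtain ⟨x, hx⟩ := hexp
    intro e
    exact hx (congrArg Subtype.val (DFunLike.congr_fun e x)))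
  have hWmem : ∀ x, x ∈ f.ker ↔ x ^ p = 1 := fun x => by
    rw [MonoidHom.mem_ker]
    exact ⟨fun e => congrArg Subtype.val e, fun e => Subtype.ext e⟩
  have hab : ∀ x ∈ f.ker, ∀ y ∈ f.ker, x * y = y * x := fun x hx y hy =>
    congrArg Subtype.val ((IsPGroup.isMulCommutative_of_card_eq_prime_sq hW).is_comm.comm ⟨x, hx⟩ ⟨y, hy⟩)
  refine ⟨f.ker, hWmem, hW, hab, fun x w hw => by rw [hmul, (hWmem w).mp hw, mul_one], ?_⟩
  intro s hs hsz
  have hzW : zpowers z ≤ f.ker := zpowers_le.mpr ((hWmem z).mpr h.zp)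
  have hsW : zpowers s ≤ f.ker := zpowers_le.mpr hs
  obtain ⟨b, hb⟩ := h.exists_partner hsz
  refine ⟨?_, ?_, ⟨b⁻¹, ?_⟩⟩
  · symm
    refine eq_of_le_of_card_ge (sup_le hzW hsW) ?_
    have hd := card_dvd_of_le (sup_le hzW hsW)
    rw [hW, Nat.dvd_prime_pow hp.out] at hd
    obtain ⟨i, hi, hiX⟩ := hd
    rw [hW, hiX]
    refine Nat.pow_le_pow_right hp.out.pos ?_
    by_contra hlt
    have hle : Nat.card (zpowers z ⊔ zpowers s : Subgroup P) ≤ Nat.card (zpowers z) := by
      rw [hiX, hcz]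
      calc p ^ i ≤ p ^ 1 := Nat.pow_le_pow_right hp.out.pos (by omega)
        _ = p := pow_one p
    have := eq_of_le_of_card_ge (le_sup_left) hle
    exact hsz (this ▸ mem_sup_right (mem_zpowers s))
  · let g : P →* zpowers z :=
      { toFun := fun x => ⟨⁅x, s⁆, h.comm x s⟩
        map_one' := Subtype.ext (by simp)
        map_mul' := fun x y => Subtype.ext (h.commutator_mul_left x y s) }
    have hg : g ≠ 1 := by
      intro e
      apply h.zne
      have h1 : ⁅b, s⁆ = 1 := congrArg Subtype.val (DFunLike.congr_fun e b)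
      rw [← hb, ← commutatorElement_inv b s, h1, inv_one]
    intro c hc
    have hle : f.ker ≤ g.ker := fun x hx => Subtype.ext
      (commutatorElement_eq_one_iff_mul_comm.mpr (hab x hx s hs))
    rw [eq_of_le_of_card_ge hle (by rw [hW, hkerf g hg])]
    exact Subtype.ext (commutatorElement_eq_one_iff_mul_comm.mpr hc)
  · have hzc := (h.central b).eq
    rw [commutatorElement_def] at hb
    rw [inv_inv]
    have h1 : s * b = z * (b * s) := by rw [← hb]; group
    calc b⁻¹ * s * b = b⁻¹ * (s * b) := by group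
      _ = b⁻¹ * (b * z * s) := by rw [h1, ← mul_assoc z b, hzc]
      _ = z * s := by group
      _ = s * z := (h.central s).eq


/-- Let p be an odd prime and G a finite group with a Sylow p-subgroup P that is extraspecial of order p³ and exponent p². Then the centre of P is strongly closed in P with respect to G: a G-conjugate of an element of Z(P) that lies in P already lies in Z(P). In particular a nontrivial central element of P is conjugate in G to no noncentral element of P. -/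
theorem result {G : Type*} [Group G] [Finite G]
    {p : ℕ} [Fact p.Prime] (hp : p ≠ 2) (P : Sylow p G) (hE : Cfsg.IsExtraspecial p ↥P)
    (hcard : Nat.card P = p ^ 3) (hexp : Monoid.exponent ↥P = p ^ 2) :
    Cfsg.IsStronglyClosed ((Subgroup.center ↥P).map (P : Subgroup G).subtype) (P : Subgroup G) := by
  classical
  have hpr : p.Prime := Fact.out
  obtain ⟨z₀, n, h₀⟩ := CfsgLib.Extraspecial.exists_ex hE
  obtain rfl : n = 1 := by
    have := Nat.pow_right_injective hpr.two_le (h₀.card.symm.trans hcard)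
    omega
  refine ⟨Subgroup.map_subtype_le _, ?_⟩
  rintro _ ⟨z, hz, rfl⟩ g hgP
  change g * (z : G) * g⁻¹ ∈ (P : Subgroup G) at hgP
  change g * (z : G) * g⁻¹ ∈ _
  by_cases hz1 : z = 1
  · subst hz1; simp
  -- `z` generates the centre
  have hzc : Subgroup.center ↥P = Subgroup.zpowers z := by
    symm
    refine Subgroup.eq_of_le_of_card_ge (Subgroup.zpowers_le.mpr hz) ?_
    have hzp : z ^ p = 1 := by
      have := pow_card_eq_one' (x := (⟨z, hz⟩ : Subgroup.center ↥P))
      rw [hE.2] at this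
      exact congrArg Subtype.val this
    exact le_of_eq (hE.2.trans (by rw [Nat.card_zpowers, orderOf_eq_prime hzp hz1]))
  have hzp : z ^ p = 1 := by
    have := pow_card_eq_one' (x := (⟨z, hz⟩ : Subgroup.center ↥P))
    rw [hE.2] at this
    exact congrArg Subtype.val this
  have h : CfsgLib.Extraspecial.Ex p z 1 :=
    ⟨h₀.card, hzp, hz1, hzc, fun a b => by rw [← hzc, h₀.center_eq]; exact h₀.comm a b⟩
  have hexp' : ∃ x : ↥P, x ^ p ≠ 1 := by
    by_contra hall
    push Not at hall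
    have := Monoid.exponent_dvd_of_forall_pow_eq_one hall
    rw [hexp] at this
    have := Nat.le_of_dvd hpr.pos this
    nlinarith [hpr.two_le]
  obtain ⟨W, hWmem, hWcard, hWab, hWpow, hWs⟩ := omega_facts hp h hexp'
  by_contra hcon
  let y : ↥P := ⟨g * (z : G) * g⁻¹, hgP⟩
  have hyz : y ∉ Subgroup.zpowers z := by
    intro hy
    exact hcon ⟨y, hzc ▸ hy, rfl⟩
  have hyW : y ∈ W := (hWmem y).mpr (Subtype.ext (by
    change (g * (z : G) * g⁻¹) ^ p = 1
    rw [conj_pow, ← Subgroup.coe_pow, hzp]; simp))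
  obtain ⟨hWgen, hWcy, a, ha⟩ := hWs y hyW hyz
  let WG : Subgroup G := W.map (P : Subgroup G).subtype
  have hWGmem : ∀ x : G, x ∈ WG ↔ x ∈ (P : Subgroup G) ∧ x ^ p = 1 := by
    intro x
    constructor
    · rintro ⟨w, hw, rfl⟩
      exact ⟨w.2, by rw [← map_pow, (hWmem w).mp hw, map_one]⟩
    · rintro ⟨hx, hxp⟩
      exact ⟨⟨x, hx⟩, (hWmem _).mpr (Subtype.ext hxp), rfl⟩
  have hcardWG : Nat.card WG = p ^ 2 := by
    rw [Subgroup.card_map_of_injective (P : Subgroup G).subtype_injective, hWcard]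
  have hPnW : (P : Subgroup G) ≤ Subgroup.normalizer (WG : Set G) := by
    have : ∀ q ∈ (P : Subgroup G), ∀ x ∈ WG, q * x * q⁻¹ ∈ WG := by
      intro q hq x hx
      rw [hWGmem] at hx ⊢
      exact ⟨mul_mem (mul_mem hq hx.1) (inv_mem hq), by rw [conj_pow, hx.2, mul_one, mul_inv_cancel]⟩
    intro q hq
    rw [Subgroup.mem_normalizer_iff]
    intro x
    refine ⟨this q hq x, fun hx => ?_⟩
    have := this q⁻¹ (inv_mem hq) _ hx
    simpa [mul_assoc] using this
  -- Sylow theorem in the centralizer of y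
  obtain ⟨u, huy, huW⟩ : ∃ u : G, u * (z : G) * u⁻¹ = y ∧ ∀ x ∈ WG, u⁻¹ * x * u ∈ (P : Subgroup G) := by
    let H := Subgroup.centralizer {(y : G)}
    have hP'H : ((g • P : Sylow p G) : Subgroup G) ≤ H := by
      intro x hx
      rw [Sylow.coe_subgroup_smul, Subgroup.mem_pointwise_smul_iff_inv_smul_mem] at hx
      rw [Subgroup.mem_centralizer_singleton_iff]
      have hx' : g⁻¹ * x * g ∈ (P : Subgroup G) := by simpa [MulAut.smul_def] using hx
      have := congrArg Subtype.val (h.central ⟨_, hx'⟩).eq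
      simp only [Subgroup.coe_mul] at this
      calc x * (g * (z : G) * g⁻¹) = g * ((g⁻¹ * x * g) * z) * g⁻¹ := by group
        _ = g * ((z : G) * (g⁻¹ * x * g)) * g⁻¹ := by rw [this]
        _ = (g * (z : G) * g⁻¹) * x := by group
    have hWH : WG ≤ H := by
      rintro _ ⟨w, hw, rfl⟩
      rw [Subgroup.mem_centralizer_singleton_iff]
      exact congrArg Subtype.val (hWab w hw y hyW)
    have hWp : IsPGroup p (WG.subgroupOf H) :=
      (IsPGroup.of_card hcardWG).comap_of_injective H.subtype H.subtype_injective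
    obtain ⟨S, hS⟩ := hWp.exists_le_sylow
    obtain ⟨c, hc⟩ := MulAction.exists_smul_eq H ((g • P : Sylow p G).subtype hP'H) S
    refine ⟨(c : G) * g, ?_, ?_⟩
    · have hcy := Subgroup.mem_centralizer_singleton_iff.mp c.2
      calc (c : G) * g * (z : G) * ((c : G) * g)⁻¹ = (c : G) * (g * (z : G) * g⁻¹) * (c : G)⁻¹ := by group
        _ = _ := by rw [hcy, mul_inv_cancel_right]
    · intro x hx
      have h1 : (⟨x, hWH hx⟩ : H) ∈ (S : Subgroup H) := hS hx
      rw [← hc, Sylow.coe_subgroup_smul, Subgroup.mem_pointwise_smul_iff_inv_smul_mem] at h1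
      have h2 : (c : G)⁻¹ * x * c ∈ ((g • P : Sylow p G) : Subgroup G) := by
        simpa [MulAut.smul_def, Subgroup.mem_subgroupOf] using h1
      rw [Sylow.coe_subgroup_smul, Subgroup.mem_pointwise_smul_iff_inv_smul_mem] at h2
      simpa [MulAut.smul_def, mul_assoc] using h2
  have huN : u ∈ Subgroup.normalizer (WG : Set G) := by
    let φ := (MulAut.conj u⁻¹).toMonoidHom
    have hle : WG.map φ ≤ WG := by
      rintro _ ⟨x, hx, rfl⟩
      have hx' : u⁻¹ * x * u⁻¹⁻¹ ∈ WG := by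
        rw [hWGmem, conj_pow, ((hWGmem x).mp hx).2]
        exact ⟨by simpa using huW x hx, by simp⟩
      exact hx'
    have heq := Subgroup.eq_of_le_of_card_ge hle
      (le_of_eq (Subgroup.card_map_of_injective (K := WG) (MulAut.conj u⁻¹).injective).symm)
    rw [← inv_mem_iff, Subgroup.mem_normalizer_iff]
    intro x
    constructor
    · intro hx
      rw [← heq]
      exact ⟨x, hx, rfl⟩
    · intro hx
      rw [← heq] at hx
      obtain ⟨x', hx', he⟩ := hx
      have : x' = x := (MulAut.conj u⁻¹).injective he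
      exact this ▸ hx'
  have hzWG : (z : G) ∈ WG := ⟨z, (hWmem z).mpr hzp, rfl⟩
  have hyWG : (y : G) ∈ WG := ⟨y, hyW, rfl⟩
  -- the transvection coming from the other Sylow subgroup
  obtain ⟨q, hqN, hqy, hqz⟩ : ∃ q ∈ Subgroup.normalizer (WG : Set G),
      q * (y : G) * q⁻¹ = y ∧ q * (z : G) * q⁻¹ = (z : G) * y := by
    let s : ↥P := ⟨u⁻¹ * (z : G) * u, huW _ hzWG⟩
    have hsW : s ∈ W := (hWmem s).mpr (Subtype.ext (by
      change (u⁻¹ * (z : G) * u) ^ p = 1
      have := conj_pow (a := u⁻¹) (b := (z : G)) (i := p)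
      rw [inv_inv] at this
      rw [this, ← Subgroup.coe_pow, hzp]; simp))
    have hsz : s ∉ Subgroup.zpowers z := by
      intro hs
      obtain ⟨i, hi⟩ := Subgroup.mem_zpowers_iff.mp hs
      have hi' : (z : G) ^ i = u⁻¹ * (z : G) * u := by simpa using congrArg Subtype.val hi
      have hzy : z ∈ Subgroup.zpowers y := Subgroup.mem_zpowers_iff.mpr ⟨i, Subtype.ext (by
        rw [Subgroup.coe_zpow, ← huy, conj_zpow, hi']; group)⟩
      have hyz1 : orderOf y = p := by
        refine orderOf_eq_prime ((hWmem y).mp hyW) ?_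
        intro e; exact hyz (e ▸ one_mem _)
      have := Subgroup.eq_of_le_of_card_ge (Subgroup.zpowers_le.mpr hzy)
        (by rw [Nat.card_zpowers, Nat.card_zpowers, hyz1, orderOf_eq_prime hzp hz1])
      exact hyz (this ▸ Subgroup.mem_zpowers y)
    obtain ⟨-, -, a₀, ha₀⟩ := hWs s hsW hsz
    have ha₀' : (a₀ : G) * (u⁻¹ * z * u) * (a₀ : G)⁻¹ = (u⁻¹ * z * u) * z := congrArg Subtype.val ha₀
    refine ⟨u * a₀ * u⁻¹, mul_mem (mul_mem huN (hPnW a₀.2)) (inv_mem huN), ?_, ?_⟩
    · have hc : (a₀ : G) * z = z * a₀ := congrArg Subtype.val (h.central a₀).eq.symm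
      rw [← huy]
      calc u * (a₀ : G) * u⁻¹ * (u * (z : G) * u⁻¹) * (u * (a₀ : G) * u⁻¹)⁻¹
          = u * ((a₀ : G) * z * (a₀ : G)⁻¹) * u⁻¹ := by group
        _ = _ := by rw [hc, mul_inv_cancel_right]
    · calc u * (a₀ : G) * u⁻¹ * (z : G) * (u * (a₀ : G) * u⁻¹)⁻¹
          = u * ((a₀ : G) * (u⁻¹ * z * u) * (a₀ : G)⁻¹) * u⁻¹ := by group
        _ = (z : G) * (u * z * u⁻¹) := by rw [ha₀']; group
        _ = _ := by rw [huy]
  have hay : (a : G) * y * (a : G)⁻¹ = (y : G) * z := congrArg Subtype.val ha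
  have haz : (a : G) * z * (a : G)⁻¹ = z := by
    have := congrArg Subtype.val (h.central a).eq
    simp only [Subgroup.coe_mul] at this
    rw [← this, mul_inv_cancel_right]
  have hyzc : (y : G) * z = z * y := congrArg Subtype.val (h.central y).eq.symm
  let F : G → G → G := fun t x => t * x * t⁻¹
  have hFm : ∀ t x x', F t (x * x') = F t x * F t x' := fun t x x' => by simp [F, mul_assoc]
  have hFi : ∀ t x, F t x⁻¹ = (F t x)⁻¹ := fun t x => by simp [F, mul_assoc]
  have hFc : ∀ s t x, F (s * t) x = F s (F t x) := fun s t x => by simp [F, mul_assoc]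
  let d₀ := (a : G) * q⁻¹ * a
  have hqiy : F q⁻¹ y = y := by
    change q⁻¹ * y * q⁻¹⁻¹ = y
    conv_lhs => rw [← hqy]
    group
  have hqiz : F q⁻¹ z = (z : G) * (y : G)⁻¹ := by
    rw [eq_mul_inv_iff_mul_eq]
    conv_lhs => arg 2; rw [← hqiy]
    rw [← hFm]
    change q⁻¹ * ((z : G) * y) * q⁻¹⁻¹ = z
    rw [← hqz]; group
  have hay' : F a y = (y : G) * z := hay
  have haz' : F a z = z := haz
  have hd0z : F d₀ z = (y : G)⁻¹ := by
    rw [hFc, hFc, haz', hqiz, hFm, hFi, haz', hay', mul_inv_rev, mul_inv_cancel_left]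
  have hd0y : F d₀ y = z := by
    rw [hFc, hFc, hay', hFm q⁻¹, hqiy, hqiz]
    rw [show (y : G) * ((z : G) * (y : G)⁻¹) = z by rw [← mul_assoc, hyzc, mul_inv_cancel_right]]
    exact haz'
  let d := d₀ * d₀
  have hdz : F d z = (z : G)⁻¹ := by rw [hFc, hd0z, hFi, hd0y]
  have hdy : F d y = (y : G)⁻¹ := by rw [hFc, hd0y, hd0z]
  have hdinv : ∀ x ∈ WG, F d x = x⁻¹ := by
    rintro _ ⟨w, hw, rfl⟩
    rw [hWgen] at hw
    have hle : Subgroup.zpowers z ⊔ Subgroup.zpowers y ≤
        ((MulAut.conj d).toMonoidHom.comp (P : Subgroup G).subtype).eqLocus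
          ((P : Subgroup G).subtype.comp (1 : ↥P →* ↥P)) ⊔ W := le_sup_of_le_right
        (sup_le (Subgroup.zpowers_le.mpr ((hWmem z).mpr hzp)) (Subgroup.zpowers_le.mpr hyW))
    -- elements inverted by d
    have hmem : ∀ v : ↥P, v ∈ Subgroup.zpowers z ⊔ Subgroup.zpowers y →
        v ∈ W ∧ F d (v : G) = (v : G)⁻¹ := by
      let K : Subgroup ↥P :=
        { carrier := {v | v ∈ W ∧ F d (v : G) = (v : G)⁻¹}
          one_mem' := ⟨one_mem _, by simp [F]⟩
          mul_mem' := by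
            rintro v v' ⟨hv, hv'⟩ ⟨hv₁, hv₁'⟩
            refine ⟨mul_mem hv hv₁, ?_⟩
            have hc : (v : G) * v' = v' * v := congrArg Subtype.val (hWab v hv v' hv₁)
            rw [Subgroup.coe_mul, hFm, hv', hv₁', ← mul_inv_rev, hc]
          inv_mem' := by
            rintro v ⟨hv, hv'⟩
            exact ⟨inv_mem hv, by rw [Subgroup.coe_inv, hFi, hv']⟩ }
      have : Subgroup.zpowers z ⊔ Subgroup.zpowers y ≤ K := sup_le
        (Subgroup.zpowers_le.mpr ⟨(hWmem z).mpr hzp, hdz⟩) (Subgroup.zpowers_le.mpr ⟨hyW, hdy⟩)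
      exact fun v hv => this hv
    exact (hmem w hw).2
  have hdN : d ∈ Subgroup.normalizer (WG : Set G) := by
    have : d₀ ∈ Subgroup.normalizer (WG : Set G) :=
      mul_mem (mul_mem (hPnW a.2) (inv_mem hqN)) (hPnW a.2)
    exact mul_mem this this
  -- move d into the normalizer of P
  obtain ⟨e, heP, hez⟩ : ∃ e : G, (∀ x ∈ (P : Subgroup G), e * x * e⁻¹ ∈ (P : Subgroup G)) ∧
      ∀ x ∈ WG, e * x * e⁻¹ = x⁻¹ := by
    let CW := Subgroup.centralizer (WG : Set G)
    have hPnC : (P : Subgroup G) ≤ Subgroup.normalizer (CW : Set G) := by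
      intro t ht
      have htW := Subgroup.mem_normalizer_iff.mp (hPnW ht)
      rw [Subgroup.mem_normalizer_iff]
      intro x
      simp only [CW, Subgroup.mem_centralizer_iff, SetLike.mem_coe]
      constructor
      · intro hx w hw
        have h1 := hx (t⁻¹ * w * t) ((htW _).mpr (by simpa [mul_assoc] using hw))
        calc w * (t * x * t⁻¹) = t * ((t⁻¹ * w * t) * x) * t⁻¹ := by group
          _ = t * (x * (t⁻¹ * w * t)) * t⁻¹ := by rw [h1]
          _ = _ := by group
      · intro hx w hw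
        have h1 := hx (t * w * t⁻¹) ((htW w).mp hw)
        calc w * x = t⁻¹ * ((t * w * t⁻¹) * (t * x * t⁻¹)) * t := by group
          _ = t⁻¹ * ((t * x * t⁻¹) * (t * w * t⁻¹)) * t := by rw [h1]
          _ = _ := by group
    have hdP : ((d • P : Sylow p G) : Subgroup G) ≤ (P : Subgroup G) ⊔ CW := by
      intro x hx
      rw [Sylow.coe_subgroup_smul, Subgroup.mem_pointwise_smul_iff_inv_smul_mem] at hx
      have hx' : d⁻¹ * x * d ∈ (P : Subgroup G) := by simpa [MulAut.smul_def] using hx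
      set t := d⁻¹ * x * d with ht
      have hxe : x = t * (t⁻¹ * x) := by group
      rw [hxe]
      refine Subgroup.mem_sup_left (T := CW) hx' |> fun h1 => mul_mem h1 (Subgroup.mem_sup_right ?_)
      rw [Subgroup.mem_centralizer_iff]
      intro w hw
      have hxd : x = d * t * d⁻¹ := by rw [ht]; group
      have htw : F t w ∈ WG := (Subgroup.mem_normalizer_iff.mp (hPnW hx') w).mp hw
      have key : F x w = F t w := by
        rw [hxd, hFc, hFc]
        have : F d⁻¹ w = w⁻¹ := by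
          have h2 := hdinv w⁻¹ (inv_mem hw)
          rw [inv_inv] at h2
          change d⁻¹ * w * d⁻¹⁻¹ = w⁻¹
          conv_lhs => rw [← h2]
          simp [F, mul_assoc]
        rw [this, hFi, hFi, hdinv _ htw, inv_inv]
      change x * w * x⁻¹ = t * w * t⁻¹ at key
      calc w * (t⁻¹ * x) = t⁻¹ * (t * w * t⁻¹) * x := by group
        _ = t⁻¹ * (x * w * x⁻¹) * x := by rw [key]
        _ = _ := by group
    obtain ⟨m, hm⟩ := MulAction.exists_smul_eq ↥((P : Subgroup G) ⊔ CW)
      (P.subtype le_sup_left) ((d • P : Sylow p G).subtype hdP)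
    obtain ⟨k, hk, t, ht, hkt⟩ := (CfsgLib.Core.mem_sup_iff_of_le_normalizer' hPnC).mp m.2
    refine ⟨k⁻¹ * d, fun x hx => ?_, fun x hx => ?_⟩
    · have hxd : d * x * d⁻¹ ∈ ((d • P : Sylow p G) : Subgroup G) := ⟨x, hx, rfl⟩
      have h1 : (⟨d * x * d⁻¹, hdP hxd⟩ : ↥((P : Subgroup G) ⊔ CW)) ∈
          ((d • P : Sylow p G).subtype hdP : Subgroup ↥((P : Subgroup G) ⊔ CW)) := hxd
      rw [← hm, Sylow.coe_subgroup_smul, Subgroup.mem_pointwise_smul_iff_inv_smul_mem] at h1
      have h2 : (m : G)⁻¹ * (d * x * d⁻¹) * m ∈ (P : Subgroup G) := by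
        simpa [MulAut.smul_def, Subgroup.mem_subgroupOf, mul_assoc] using h1
      rw [← hkt] at h2
      have h3 := mul_mem (mul_mem ht h2) (inv_mem ht)
      simpa [mul_assoc] using h3
    · have hk' := Subgroup.mem_centralizer_iff.mp hk x⁻¹ (inv_mem hx)
      have h1 : d * x * d⁻¹ = x⁻¹ := hdinv x hx
      calc k⁻¹ * d * x * (k⁻¹ * d)⁻¹ = k⁻¹ * (d * x * d⁻¹) * k := by group
        _ = k⁻¹ * (x⁻¹ * k) := by rw [h1, mul_assoc]
        _ = x⁻¹ := by rw [hk', inv_mul_cancel_left]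
  let a' : ↥P := ⟨e * a * e⁻¹, heP a a.2⟩
  have h1 : (a' : G) * y * (a' : G)⁻¹ = (y : G) * z := by
    change e * a * e⁻¹ * y * (e * a * e⁻¹)⁻¹ = (y : G) * z
    have h2 := hez _ (inv_mem hyWG)
    rw [inv_inv] at h2
    calc e * a * e⁻¹ * y * (e * a * e⁻¹)⁻¹
        = e * a * e⁻¹ * (e * (y : G)⁻¹ * e⁻¹) * (e * a * e⁻¹)⁻¹ := by rw [h2]
      _ = e * ((a : G) * y * (a : G)⁻¹)⁻¹ * e⁻¹ := by group
      _ = ((y : G) * z)⁻¹⁻¹ := by rw [hay, hez _ (inv_mem (mul_mem hyWG hzWG))]
      _ = _ := inv_inv _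
  have h2 : a⁻¹ * a' ∈ W := by
    refine hWcy _ (Subtype.ext ?_)
    simp only [Subgroup.coe_mul, Subgroup.coe_inv]
    calc (a : G)⁻¹ * a' * y = (a : G)⁻¹ * ((a' : G) * y * (a' : G)⁻¹) * a' := by group
      _ = (a : G)⁻¹ * ((a : G) * y * (a : G)⁻¹) * a' := by rw [h1, hay]
      _ = (y : G) * ((a : G)⁻¹ * a') := by group
  have h3 : a' ^ p = a ^ p := by
    rw [← hWpow a _ h2, mul_inv_cancel_left]
  have h4 : ((a' : G)) ^ p = ((a : G) ^ p)⁻¹ := by
    change (e * (a : G) * e⁻¹) ^ p = _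
    rw [conj_pow]
    refine hez _ ⟨a ^ p, (hWmem _).mpr ?_, by simp⟩
    obtain ⟨i, hi⟩ := Subgroup.mem_zpowers_iff.mp (h.pow_mem a)
    rw [← hi, ← zpow_natCast, ← zpow_mul, mul_comm, zpow_mul, zpow_natCast, hzp, one_zpow]
  have h5 : (a ^ p) ^ 2 = 1 := by
    apply Subtype.ext
    have h6 : ((a' : G)) ^ p = (a : G) ^ p := by simpa using congrArg Subtype.val h3
    rw [h4] at h6
    simp only [Subgroup.coe_pow, Subgroup.coe_one]
    rw [pow_two]
    exact inv_eq_iff_mul_eq_one.mp h6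
  have h7 : (a ^ p) ^ p = 1 := by
    obtain ⟨i, hi⟩ := Subgroup.mem_zpowers_iff.mp (h.pow_mem a)
    rw [← hi, ← zpow_natCast, ← zpow_mul, mul_comm, zpow_mul, zpow_natCast, hzp, one_zpow]
  have h8 : a ^ p = 1 := by
    obtain ⟨j, hj⟩ := hpr.odd_of_ne_two hp
    generalize a ^ p = b at h5 h7
    have h9 := (congrArg (fun i => b ^ i) hj).symm.trans h7
    rw [pow_succ, pow_mul, h5, one_pow, one_mul] at h9
    exact h9
  have haW : a ∈ W := (hWmem a).mpr h8
  have h9 : a * y * a⁻¹ = y := by rw [hWab a haW y hyW, mul_inv_cancel_right]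
  rw [ha] at h9
  exact hz1 (mul_eq_left.mp h9)


end Cfsg.Agent.S3053
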