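import Cfsg.Statements.S3058
import Cfsg.Agent.Lib.LocalSylowGraph
import Cfsg.Agent.Lib.LocalSylowJoin

set_option autoImplicit false
open Cfsg
open scoped commutatorElement Pointwise

namespace Cfsg.Agent.S3058

/-- Let p be a prime and G a finite group whose Sylow p-subgroups are not chain-connected through nontrivial intersections (so G has a strongly p-embedded subgroup). If N and M are normal subgroups of G whose orders are both divisible by p, then the order of N ∩ M is divisible by p. Consequently, among the normal subgroups of G whose order is divisible by p there is a smallest one (the intersection of all of them). -/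
theorem result {G : Type*} [Group G] [Finite G]
    (p : ℕ) [Fact p.Prime] (hG : ¬ Cfsg.IsSylowChainConnected p G)
    (N M : Subgroup G) [N.Normal] [M.Normal] (hN : p ∣ Nat.card N) (hM : p ∣ Nat.card M) :
    p ∣ Nat.card ↥(N ⊓ M) := by
  by_contra hD
  obtain ⟨H, hH⟩ := CfsgLib.Local.SylGraph.exists_se_of_not_connected hG
  obtain ⟨P, hPH, -⟩ := hH.exists_sylow_le
  have hsyl : ∀ K : Subgroup G, K.Normal →
      ¬ p ∣ ((P : Subgroup G) ⊓ K).relIndex K := fun K hK =>
    CfsgLib.Local.SylJoin.not_dvd_relIndex_inf_subnormal P hK.isSubnormal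
  have hne : ∀ K : Subgroup G, K.Normal → p ∣ Nat.card ↥K → (P : Subgroup G) ⊓ K ≠ ⊥ :=
    fun K hK hd e => hsyl K hK (by rw [e, Subgroup.relIndex_bot_left]; exact hd)
  obtain ⟨a, ha, hap⟩ := CfsgLib.Local.SylGraph.exists_order_p (P.isPGroup'.to_le inf_le_left)
    (hne N inferInstance hN)
  obtain ⟨b, hb, hbp⟩ := CfsgLib.Local.SylGraph.exists_order_p (P.isPGroup'.to_le inf_le_left)
    (hne M inferInstance hM)
  obtain ⟨haP, haN⟩ := Subgroup.mem_inf.mp ha
  obtain ⟨hbP, hbM⟩ := Subgroup.mem_inf.mp hb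
  have hdisj : ∀ x, x ∈ (P : Subgroup G) → x ∈ N ⊓ M → x = 1 := by
    intro x hxP hxD
    obtain ⟨k, hk⟩ := IsPGroup.iff_orderOf.mp P.isPGroup' ⟨x, hxP⟩
    rw [← Subgroup.orderOf_coe] at hk
    have h1 : orderOf x ∣ Nat.card ↥(N ⊓ M) := by
      have := orderOf_dvd_natCard (⟨x, hxD⟩ : ↥(N ⊓ M))
      rwa [← Subgroup.orderOf_coe] at this
    rcases Nat.eq_zero_or_pos k with h0 | h0
    · exact orderOf_eq_one_iff.mp (by rw [h0, pow_zero] at hk; exact hk)
    · exact absurd ((dvd_pow_self p h0.ne').trans (hk ▸ h1)) hD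
  have hab : a * b = b * a := by
    have h1 : a * b * a⁻¹ * b⁻¹ ∈ N ⊓ M := Subgroup.mem_inf.mpr ⟨by
      have := N.mul_mem haN ((inferInstance : N.Normal).conj_mem _ (N.inv_mem haN) b)
      simpa [mul_assoc] using this,
      M.mul_mem ((inferInstance : M.Normal).conj_mem _ hbM a) (M.inv_mem hbM)⟩
    have h2 := hdisj _ (mul_mem (mul_mem (mul_mem haP hbP) (inv_mem haP)) (inv_mem hbP)) h1
    exact mul_inv_eq_iff_eq_mul.mp (mul_inv_eq_one.mp h2)
  have hane : a ∉ Subgroup.zpowers b := fun h => (Fact.out : p.Prime).ne_one (by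
    rw [← hap, hdisj a haP (Subgroup.mem_inf.mpr ⟨haN, Subgroup.zpowers_le.mpr hbM h⟩),
      orderOf_one])
  have hDH : N ⊓ M ≤ H := hH.le_of_two
    (((Fact.out : p.Prime).coprime_iff_not_dvd.mpr hD).symm) (hPH haP) (hPH hbP) hap hbp hab hane
    (by rw [Subgroup.normalizer_eq_top]; trivial) (by rw [Subgroup.normalizer_eq_top]; trivial)
  set R := (P : Subgroup G) ⊓ M with hR
  set K := (N ⊓ M) ⊔ R with hK
  have hKH : K ≤ H := sup_le hDH (inf_le_left.trans hPH)
  have hnorm : ∀ X : Subgroup G, X ≤ Subgroup.normalizer ((N ⊓ M : Subgroup G) : Set G) :=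
    fun X => (Subgroup.normalizer_eq_top (H := N ⊓ M)).symm ▸ le_top
  have hKi : ¬ p ∣ R.relIndex K := by
    rw [hK, sup_comm, CfsgLib.Local.SylJoin.relIndex_sup_eq (hnorm R)]
    exact fun h => hD (h.trans (Subgroup.index_dvd_card _))
  have hNK : N ≤ Subgroup.normalizer (K : Set G) := by
    refine CfsgLib.Local.PRed.le_normalizer_of_conj fun n hn x hx => ?_
    have h1 : n * x * n⁻¹ * x⁻¹ ∈ N ⊓ M := Subgroup.mem_inf.mpr ⟨by
      have := N.mul_mem hn ((inferInstance : N.Normal).conj_mem _ (N.inv_mem hn) x)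
      simpa [mul_assoc] using this,
      M.mul_mem ((inferInstance : M.Normal).conj_mem _
        ((sup_le inf_le_right inf_le_right : K ≤ M) hx) n)
        (M.inv_mem ((sup_le inf_le_right inf_le_right : K ≤ M) hx))⟩
    have := mul_mem (Subgroup.mem_sup_left (T := R) h1) hx
    simpa [mul_assoc] using this
  have hRp : IsPGroup p ↥R := P.isPGroup'.to_le inf_le_left
  have hNH : N ≤ H := le_sup_left.trans ((CfsgLib.Local.PRed.frattini_rel
    (sup_le hNK Subgroup.le_normalizer) le_sup_right le_sup_right hRp hKi).trans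
    (sup_le (inf_le_right.trans (hH.normalizer_le hRp (hne M inferInstance hM)
      (inf_le_left.trans hPH))) hKH))
  exact hH.1 (hH.sup_normal hN le_rfl fun x hx _ => hNH hx)

end Cfsg.Agent.S3058
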