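import Cfsg.Statements.S3061
import Cfsg.Agent.Lib.LocalDStar

set_option autoImplicit false
open Cfsg

namespace Cfsg.Agent.S3061

/-- Let S be a finite p-group. Then D*(S) itself belongs to the family that generates it: D*(S) is abelian, and every x ∈ S with ⟨D*(S), x⟩ of class at most two centralizes D*(S). Hence D*(S) is the unique maximal member of that family. -/
theorem result {S : Type*} [Group S] [Finite S] {p : ℕ} [Fact p.Prime] (hS : IsPGroup p S) :
    Cfsg.dStar S ∈ Cfsg.dStarFamily S := by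
  have hS' : IsPGroup p ↥(⊤ : Subgroup S) := hS.to_subgroup ⊤
  obtain ⟨-, hab, hc⟩ := CfsgLib.DStar.isMem_dStarOf (p := p) hS'
  have e : Cfsg.dStarOf (⊤ : Subgroup S) = Cfsg.dStar S := by
    rw [CfsgLib.DStar.dStarOf_eq]
    refine congrArg sSup (Set.ext fun A => ⟨fun h => ?_, fun h => ?_⟩)
    · exact ⟨⟨⟨fun a b => Subtype.ext (h.2.1 _ a.2 _ b.2)⟩⟩, fun x hx => h.2.2 x trivial hx⟩
    · exact ⟨le_top, fun a ha b hb => congrArg Subtype.val (h.1.is_comm.comm ⟨a, ha⟩ ⟨b, hb⟩), fun x _ hx => h.2 x hx⟩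
  rw [e] at hab hc
  exact ⟨⟨⟨fun a b => Subtype.ext (hab _ a.2 _ b.2)⟩⟩, fun x hx => hc x trivial hx⟩

end Cfsg.Agent.S3061
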