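import Cfsg.Statements.S3062
import Cfsg.Agent.Lib.LocalDStar

set_option autoImplicit false
open Cfsg

namespace Cfsg.Agent.S3062

/-- Let S be a finite p-group, J(S) the subgroup generated by the abelian subgroups of S of largest order and Z(J(S)) its centre. Then Z(S) ≤ D*(S) ≤ Z(J(S)), and every maximal normal abelian subgroup of S contains D*(S). -/
theorem result {S : Type*} [Group S] [Finite S] {p : ℕ} [Fact p.Prime]
    (hS : IsPGroup p S) :
    Subgroup.center S ≤ Cfsg.dStar S ∧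
    Cfsg.dStar S ≤ Cfsg.thompsonSubgroupA S ⊓ Subgroup.centralizer (Cfsg.thompsonSubgroupA S : Set S) ∧
    ∀ A : Subgroup S, A.Normal → IsMulCommutative A →
      (∀ B : Subgroup S, B.Normal → IsMulCommutative B → A ≤ B → B = A) → Cfsg.dStar S ≤ A := by
  have htop : IsPGroup p (⊤ : Subgroup S) := hS.to_subgroup ⊤
  have hD : Cfsg.dStar S = Cfsg.dStarOf (⊤ : Subgroup S) := by
    rw [CfsgLib.DStar.dStarOf_eq, Cfsg.dStar]
    congr 1
    ext A
    constructor
    · rintro ⟨hA, hx⟩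
      exact ⟨le_top, fun a ha b hb => congrArg Subtype.val (hA.is_comm.comm ⟨a, ha⟩ ⟨b, hb⟩),
        fun x _ => hx x⟩
    · rintro ⟨-, hab, hx⟩
      exact ⟨⟨⟨fun a b => Subtype.ext (hab a a.2 b b.2)⟩⟩, fun x => hx x (Subgroup.mem_top x)⟩
  refine ⟨le_sSup ⟨⟨⟨fun a b => Subtype.ext (Subgroup.mem_center_iff.1 b.2 a)⟩⟩,
    fun x _ a ha => (Subgroup.mem_center_iff.1 ha x).symm⟩, ?_, ?_⟩
  · have hmax : ∀ A ∈ Cfsg.maxAbelianSubgroups S, Cfsg.dStar S ≤ A := by
      rintro A ⟨hA, hc⟩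
      rw [hD]
      refine CfsgLib.DStar.dStarOf_le_isMax hS ⟨le_top, ⟨fun a ha b hb =>
        congrArg Subtype.val (hA.is_comm.comm ⟨a, ha⟩ ⟨b, hb⟩), fun a _ => pow_zero a⟩,
        fun B _ hB => hc B ⟨⟨fun a b => Subtype.ext (hB.1 a a.2 b b.2)⟩⟩⟩
    refine le_inf ?_ ?_
    · obtain ⟨A, hA⟩ : (Cfsg.maxAbelianSubgroups S).Nonempty := by
        obtain ⟨A, hA, hc⟩ := Set.exists_max_image {B : Subgroup S | IsMulCommutative B}
          (fun B => Nat.card B) (Set.toFinite _)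
          ⟨⊥, ⟨⟨fun a b => Subsingleton.elim _ _⟩⟩⟩
        exact ⟨A, hA, hc⟩
      exact (hmax A hA).trans (le_sSup hA)
    · rw [Subgroup.le_centralizer_iff]
      refine sSup_le fun A hA => ?_
      rw [Subgroup.le_centralizer_iff]
      intro d hd
      rw [Subgroup.mem_centralizer_iff]
      exact fun a ha => congrArg Subtype.val (hA.1.is_comm.comm ⟨a, ha⟩ ⟨d, hmax A hA hd⟩)
  · intro A hAn hA hmaxA
    rw [hD]
    refine CfsgLib.DStar.dStarOf_le_maximal htop le_top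
      (by rw [Subgroup.normalizer_eq_top]) (fun a ha b hb => congrArg Subtype.val (hA.is_comm.comm ⟨a, ha⟩ ⟨b, hb⟩)) ?_
    intro B _ hBn hB hAB
    exact hmaxA B (Subgroup.normalizer_eq_top_iff.1 (top_le_iff.1 hBn))
      ⟨⟨fun a b => Subtype.ext (hB a a.2 b b.2)⟩⟩ hAB

end Cfsg.Agent.S3062
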