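import Cfsg.Statements.S3063
import Cfsg.Agent.Lib.CoreBasic
import Mathlib

set_option autoImplicit false
open Cfsg
open scoped commutatorElement Pointwise

namespace Cfsg.Agent.S3063

open Subgroup in
theorem sup_isMulCommutative {G : Type*} [Group G] {H K : Subgroup G} (hH : H ≤ centralizer (H : Set G))
    (hK : K ≤ centralizer (K : Set G)) (hHK : H ≤ centralizer (K : Set G)) :
    H ⊔ K ≤ centralizer ((H ⊔ K : Subgroup G) : Set G) := by
  refine sup_le ?_ ?_
  · exact Subgroup.le_centralizer_iff.mp (sup_le hH (Subgroup.le_centralizer_iff.mp hHK))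
  · exact Subgroup.le_centralizer_iff.mp (sup_le hHK hK)


/-- A weak replacement Theorem for metabelian p-groups: let S be a finite p-group whose derived subgroup is abelian and A an abelian subgroup of S of largest possible order. Then the normal closure of A in S contains an abelian subgroup B of the same order as A that is normal in S. -/
theorem result {S : Type*} [Group S] [Finite S] {p : ℕ} [Fact p.Prime]
    (hS : IsPGroup p S) (hmeta : IsMulCommutative ↥(commutator S))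
    (A : Subgroup S) (hA : A ∈ Cfsg.maxAbelianSubgroups S) :
    ∃ B ∈ Cfsg.maxAbelianSubgroups S, B.Normal ∧ B ≤ Subgroup.normalClosure (A : Set S) := by
  classical
  let N₀ := Subgroup.normalClosure (A : Set S)
  obtain ⟨B, ⟨hB, hBN⟩, hmax⟩ := ({B : Subgroup S | B ∈ Cfsg.maxAbelianSubgroups S ∧ B ≤ N₀}).toFinite.exists_maximalFor
    (fun B : Subgroup S => Nat.card ↥(B ⊓ commutator S)) _ ⟨A, hA, Subgroup.subset_normalClosure⟩
  refine ⟨B, hB, ?_, hBN⟩
  have hBc : B ≤ Subgroup.centralizer (B : Set S) := fun x hx => Subgroup.mem_centralizer_iff.mpr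
    fun y hy => congrArg Subtype.val (hB.1.is_comm.comm (⟨y, hy⟩ : B) ⟨x, hx⟩)
  have hDc : commutator S ≤ Subgroup.centralizer (commutator S : Set S) := fun x hx =>
    Subgroup.mem_centralizer_iff.mpr
      fun y hy => congrArg Subtype.val (hmeta.is_comm.comm (⟨y, hy⟩ : commutator S) ⟨x, hx⟩)
  let N := Subgroup.normalizer (B : Set S)
  by_contra hnot
  have hNlt : N < ⊤ := lt_top_iff_ne_top.mpr fun h => hnot (Subgroup.normalizer_eq_top_iff.mp h)
  haveI := hS.isNilpotent
  obtain ⟨g, hgN, hg⟩ := SetLike.exists_of_lt (Group.normalizerCondition_of_isNilpotent N hNlt)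
  let cj : S → Subgroup S := fun t => B.map (MulAut.conj t).toMonoidHom
  -- facts about a conjugate normalised by `B`
  have key : ∀ t ∈ Subgroup.normalizer (N : Set S), B ≤ (B ⊓ cj t) ⊔ (B ⊓ commutator S) ∧
      cj t ≤ Subgroup.centralizer ((B ⊓ cj t : Subgroup S) : Set S) := by
    intro t ht
    set B' := cj t with hB'
    have hB'mem : ∀ u, u ∈ B' ↔ ∃ b ∈ B, t * b * t⁻¹ = u := by intro u; simp [hB', cj, Subgroup.mem_map]
    have hB'N : B' ≤ N := fun u hu => by
      obtain ⟨b, hb, rfl⟩ := (hB'mem u).mp hu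
      exact (Subgroup.mem_normalizer_iff.mp ht b).mp (Subgroup.le_normalizer hb)
    set C := B ⊓ B' with hC
    have hB'C : B' ≤ Subgroup.centralizer (C : Set S) := fun x hx => Subgroup.mem_centralizer_iff.mpr
      fun c hc => by
        obtain ⟨b, hb, rfl⟩ := (hB'mem x).mp hx
        obtain ⟨b', hb', rfl⟩ := (hB'mem c).mp (Subgroup.mem_inf.mp hc).2
        have := Subgroup.mem_centralizer_iff.mp (hBc hb) b' hb'
        calc t * b' * t⁻¹ * (t * b * t⁻¹) = t * (b' * b) * t⁻¹ := by group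
          _ = t * (b * b') * t⁻¹ := by rw [this]
          _ = _ := by group
    have hBC : B ≤ Subgroup.centralizer (C : Set S) :=
      hBc.trans (Subgroup.centralizer_le (fun x hx => (Subgroup.mem_inf.mp hx).1))
    refine ⟨?_, hB'C⟩
    set M := Subgroup.closure {u : S | ∃ b ∈ B, u = t * b * t⁻¹ * b⁻¹} with hM
    have hMD : M ≤ commutator S := (Subgroup.closure_le _).mpr (by
      rintro _ ⟨b, -, rfl⟩
      rw [← commutatorElement_def]
      exact Subgroup.commutator_mem_commutator (Subgroup.mem_top t) (Subgroup.mem_top b))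
    have hMN₀ : M ≤ N₀ := (Subgroup.closure_le _).mpr (by
      rintro _ ⟨b, hb, rfl⟩
      exact mul_mem (Subgroup.normalClosure_normal.conj_mem _ (hBN hb) t) (inv_mem (hBN hb)))
    have hMT : M ≤ B ⊔ B' := (Subgroup.closure_le _).mpr (by
      rintro _ ⟨b, hb, rfl⟩
      exact mul_mem (Subgroup.mem_sup_right ((hB'mem _).mpr ⟨b, hb, rfl⟩))
        (Subgroup.mem_sup_left (inv_mem hb)))
    have hMC : M ≤ Subgroup.centralizer (C : Set S) := hMT.trans (sup_le hBC hB'C)
    have hTeq : M ⊔ B = B ⊔ B' := by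
      refine le_antisymm (sup_le hMT le_sup_left) (sup_le le_sup_right fun u hu => ?_)
      obtain ⟨b, hb, rfl⟩ := (hB'mem u).mp hu
      rw [show t * b * t⁻¹ = t * b * t⁻¹ * b⁻¹ * b by group]
      exact Subgroup.mul_mem_sup (Subgroup.subset_closure ⟨b, hb, rfl⟩) hb
    have e1 := CfsgLib.Core.card_sup_mul_card_inf (A := M) (K := B)
      (hMT.trans (sup_le Subgroup.le_normalizer hB'N))
    have e2 := CfsgLib.Core.card_sup_mul_card_inf (A := M) (K := C)
      (hMC.trans (Subgroup.centralizer_le_normalizer _))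
    have e3 := CfsgLib.Core.card_sup_mul_card_inf (A := B') (K := B) hB'N
    rw [hTeq] at e1
    rw [sup_comm, inf_comm, ← hC, hB', Subgroup.card_map_of_injective
      (f := (MulAut.conj t).toMonoidHom) (MulAut.conj t).injective, ← hB'] at e3
    have hA1c : M ⊔ C ≤ Subgroup.centralizer ((M ⊔ C : Subgroup S) : Set S) :=
      sup_isMulCommutative ((hMD.trans hDc).trans (Subgroup.centralizer_le hMD))
        ((inf_le_left : C ≤ B).trans hBC) hMC
    have hA1ab : IsMulCommutative ↥(M ⊔ C) := ⟨⟨fun x y => Subtype.ext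
      (Subgroup.mem_centralizer_iff.mp (hA1c y.2) x x.2)⟩⟩
    have hle1 : Nat.card ↥(M ⊔ C) ≤ Nat.card B := hB.2 _ hA1ab
    have hinf : Nat.card ↥(M ⊓ C) ≤ Nat.card ↥(M ⊓ B) :=
      Subgroup.card_le_of_le (inf_le_inf_left _ inf_le_left)
    have hB0 : 0 < Nat.card B := Nat.card_pos
    have hC0 : 0 < Nat.card C := Nat.card_pos
    have hI0 : 0 < Nat.card ↥(M ⊓ C) := Nat.card_pos
    have hT0 : 0 < Nat.card ↥(B ⊔ B') := Nat.card_pos
    -- `|A₁| |M ⊓ C| = |B| |M ⊓ B|`
    have hA1 : Nat.card ↥(M ⊔ C) * Nat.card ↥(M ⊓ C) = Nat.card B * Nat.card ↥(M ⊓ B) := by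
      refine Nat.eq_of_mul_eq_mul_left hB0 ?_
      calc Nat.card B * (Nat.card ↥(M ⊔ C) * Nat.card ↥(M ⊓ C))
          = (Nat.card M * Nat.card B) * Nat.card C := by rw [e2]; ring
        _ = (Nat.card ↥(B ⊔ B') * Nat.card C) * Nat.card ↥(M ⊓ B) := by rw [← e1]; ring
        _ = _ := by rw [e3]; ring
    have hinfeq : Nat.card ↥(M ⊓ C) = Nat.card ↥(M ⊓ B) := by
      refine le_antisymm hinf (Nat.le_of_mul_le_mul_left ?_ hB0)
      rw [← hA1]
      exact Nat.mul_le_mul_right _ hle1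
    have hcard : Nat.card ↥(M ⊔ C) = Nat.card B := by
      rw [← hinfeq] at hA1
      exact Nat.eq_of_mul_eq_mul_right hI0 hA1
    have hA1max : M ⊔ C ∈ Cfsg.maxAbelianSubgroups S ∧ M ⊔ C ≤ N₀ :=
      ⟨⟨hA1ab, fun X hX => hcard ▸ hB.2 X hX⟩, sup_le hMN₀ (inf_le_left.trans hBN)⟩
    set D := B ⊓ commutator S with hD
    have hm : Nat.card ↥((M ⊔ C) ⊓ commutator S) ≤ Nat.card D := by
      by_contra hcon
      exact hcon (hmax hA1max (Nat.le_of_not_le hcon))
    have hlow : M ⊔ (C ⊓ D) ≤ (M ⊔ C) ⊓ commutator S :=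
      sup_le (le_inf le_sup_left hMD) (le_inf (inf_le_left.trans le_sup_right)
        (inf_le_right.trans inf_le_right))
    have e4 := CfsgLib.Core.card_sup_mul_card_inf (A := M) (K := C ⊓ D)
      ((hMC.trans (Subgroup.centralizer_le (inf_le_left : C ⊓ D ≤ C))).trans
        (Subgroup.centralizer_le_normalizer _))
    have hMCD : M ⊓ (C ⊓ D) = M ⊓ C := le_antisymm (inf_le_inf_left _ inf_le_left)
      (le_inf inf_le_left (le_inf inf_le_right (le_inf (inf_le_right.trans inf_le_left)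
        (inf_le_left.trans hMD))))
    rw [hMCD] at e4
    have e5 := CfsgLib.Core.card_sup_mul_card_inf (A := C) (K := D)
      (((inf_le_left : C ≤ B).trans hBc).trans ((Subgroup.centralizer_le (inf_le_left : D ≤ B)).trans
        (Subgroup.centralizer_le_normalizer _)))
    refine (Subgroup.eq_of_le_of_card_ge (sup_le (inf_le_left : C ≤ B) (inf_le_left : D ≤ B)) ?_).ge
    have h6 : Nat.card ↥(M ⊔ (C ⊓ D)) ≤ Nat.card D := (Subgroup.card_le_of_le hlow).trans hm
    refine Nat.le_of_mul_le_mul_right ?_ (Nat.mul_pos (Nat.card_pos (α := ↥(C ⊓ D))) hI0)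
    calc Nat.card B * (Nat.card ↥(C ⊓ D) * Nat.card ↥(M ⊓ C))
        = (Nat.card ↥(M ⊔ C) * Nat.card ↥(M ⊓ C)) * Nat.card ↥(C ⊓ D) := by rw [hcard]; ring
      _ = (Nat.card M * Nat.card ↥(C ⊓ D)) * Nat.card C := by rw [e2]; ring
      _ = (Nat.card ↥(M ⊔ (C ⊓ D)) * Nat.card ↥(M ⊓ C)) * Nat.card C := by rw [e4]
      _ ≤ (Nat.card D * Nat.card ↥(M ⊓ C)) * Nat.card C := by gcongr
      _ = (Nat.card C * Nat.card D) * Nat.card ↥(M ⊓ C) := by ring
      _ = _ := by rw [← e5]; ring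
  obtain ⟨h1, hgC⟩ := key g hgN
  obtain ⟨h2, -⟩ := key g⁻¹ (inv_mem hgN)
  set B' := cj g with hB'
  set C := B ⊓ B' with hC
  set D := B ⊓ commutator S with hD
  set D' := B' ⊓ commutator S with hD'
  have h2' : B' ≤ C ⊔ D' := by
    refine (Subgroup.map_mono (f := (MulAut.conj g).toMonoidHom) h2).trans ?_
    rw [Subgroup.map_sup]
    refine sup_le (le_sup_of_le_left ?_) (le_sup_of_le_right ?_)
    · rintro _ ⟨x, hx, rfl⟩
      obtain ⟨hxB, y, hy, rfl⟩ := Subgroup.mem_inf.mp hx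
      refine Subgroup.mem_inf.mpr ⟨?_, ⟨_, hxB, rfl⟩⟩
      simpa [mul_assoc] using hy
    · rintro _ ⟨x, hx, rfl⟩
      exact Subgroup.mem_inf.mpr ⟨⟨x, (Subgroup.mem_inf.mp hx).1, rfl⟩,
        (inferInstance : (commutator S).Normal).conj_mem x (Subgroup.mem_inf.mp hx).2 g⟩
  have hDD : D ⊔ D' ≤ commutator S := sup_le inf_le_right inf_le_right
  have hCDD : D ⊔ D' ≤ Subgroup.centralizer (C : Set S) :=
    sup_le ((inf_le_left : D ≤ B).trans (hBc.trans (Subgroup.centralizer_le (inf_le_left : C ≤ B))))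
      ((inf_le_left : D' ≤ B').trans hgC)
  have hX : C ⊔ (D ⊔ D') ≤ Subgroup.centralizer ((C ⊔ (D ⊔ D') : Subgroup S) : Set S) :=
    sup_isMulCommutative (((inf_le_left : C ≤ B).trans hBc).trans (Subgroup.centralizer_le (inf_le_left : C ≤ B)))
      ((hDD.trans hDc).trans (Subgroup.centralizer_le hDD)) (Subgroup.le_centralizer_iff.mp hCDD)
  have hXab : IsMulCommutative ↥(C ⊔ (D ⊔ D')) := ⟨⟨fun x y => Subtype.ext
    (Subgroup.mem_centralizer_iff.mp (hX y.2) x x.2)⟩⟩
  have hBX : B ≤ C ⊔ (D ⊔ D') := h1.trans (sup_le le_sup_left (le_sup_left.trans le_sup_right))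
  have hBeq := Subgroup.eq_of_le_of_card_ge hBX (hB.2 _ hXab)
  have hB'B : B' ≤ B := hBeq ▸ h2'.trans (sup_le le_sup_left (le_sup_right.trans le_sup_right))
  exact hg (Subgroup.mem_normalizer_fintype fun b hb => hB'B ⟨b, hb, rfl⟩)


end Cfsg.Agent.S3063
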