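import Cfsg.Statements.S3064
import Cfsg.Agent.Lib.LocalIsolatedCentralizing

set_option autoImplicit false
open Cfsg

namespace Cfsg.Agent.S3064

open scoped Pointwise


/-- Let S be a Sylow p-subgroup of the finite group G and x an element of S such that (i) x is the only G-conjugate of x lying in S, and (ii) x centralizes every subgroup of order prime to p that it normalizes. Then x lies in the centre of G. -/
theorem result {G : Type*} [Group G] [Finite G] {p : ℕ} [Fact p.Prime]
    (S : Sylow p G) (x : G) (hx : x ∈ S)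
    (hU : ∀ g : G, g⁻¹ * x * g ∈ S → g⁻¹ * x * g = x)
    (hb : ∀ H : Subgroup G, (Nat.card H).Coprime p → (∀ h ∈ H, x * h * x⁻¹ ∈ H) → ∀ h ∈ H, x * h = h * x) :
    x ∈ Subgroup.center G := by
  classical
  refine CfsgLib.Local.mem_center_of_isolated_centralizing (p := p) _ rfl x ?_ ?_ hb
  · obtain ⟨k, hk⟩ := S.2 ⟨x, hx⟩
    exact ⟨k, congrArg Subtype.val hk⟩
  intro g hg
  have hpx : IsPGroup p (Subgroup.zpowers x) := S.2.to_le (Subgroup.zpowers_le.mpr hx)
  have hpy : IsPGroup p (Subgroup.zpowers (g * x * g⁻¹)) := by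
    have h := hpx.map (MulAut.conj g).toMonoidHom
    rwa [MonoidHom.map_zpowers] at h
  have hle : Subgroup.zpowers (g * x * g⁻¹) ≤
      Subgroup.normalizer ((Subgroup.zpowers x : Subgroup G) : Set G) := by
    rw [Subgroup.zpowers_le, Subgroup.mem_normalizer_iff]
    intro w
    constructor
    · rintro ⟨i, rfl⟩
      refine ⟨i, ?_⟩
      show x ^ i = _
      rw [(hg.zpow_right i).eq, mul_inv_cancel_right]
    · rintro ⟨i, hi⟩
      refine ⟨i, ?_⟩
      have h := (hg.zpow_right i).eq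
      have hi' : x ^ i = g * x * g⁻¹ * w * (g * x * g⁻¹)⁻¹ := hi
      calc x ^ i = (g * x * g⁻¹)⁻¹ * (x ^ i * (g * x * g⁻¹)) := by rw [← h]; group
        _ = w := by rw [hi']; group
  obtain ⟨T, hT⟩ := (hpy.to_sup_of_normal_right' hpx hle).exists_le_sylow
  obtain ⟨k, rfl⟩ := MulAction.exists_smul_eq G S T
  have hmem : ∀ y ∈ ((k • S : Sylow p G) : Subgroup G), k⁻¹ * y * k ∈ S := by
    intro y hy
    rw [Sylow.coe_subgroup_smul, Subgroup.mem_pointwise_smul_iff_inv_smul_mem] at hy
    simp [MulAut.smul_def] at hy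
    exact hy
  have h1 := hU k (hmem x (hT (Subgroup.mem_sup_right (Subgroup.mem_zpowers x))))
  have h2 := hU (g⁻¹ * k) (by
    have := hmem _ (hT (Subgroup.mem_sup_left (Subgroup.mem_zpowers (g * x * g⁻¹))))
    simpa [mul_assoc] using this)
  calc g * x * g⁻¹ = g * x * g⁻¹ := rfl
    _ = k * ((g⁻¹ * k)⁻¹ * x * (g⁻¹ * k)) * k⁻¹ := by group
    _ = k * (k⁻¹ * x * k) * k⁻¹ := by rw [h2, h1]
    _ = x := by group


end Cfsg.Agent.S3064
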