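import Cfsg.Statements.S3074
import Cfsg.Agent.S2763
import Cfsg.Agent.Lib.CorePGroup

set_option autoImplicit false
open Cfsg

namespace Cfsg.Agent.S3074

section Aux

open CfsgLib.Local.Qd Cfsg.Agent.S2763
open scoped commutatorElement

variable {p : ℕ} [Fact p.Prime]

theorem sylow_equiv_std (S : Sylow p ↥(Cfsg.qd p)) : Nonempty (Std p ≃* ↥(S : Subgroup ↥(Cfsg.qd p))) := by
  classical
  set Sm : Subgroup (M3 p) := (S : Subgroup ↥(Cfsg.qd p)).map (Cfsg.qd p).subtype with hSm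
  -- a nonzero translation centralised by `S`
  obtain ⟨a, b, hab, hcen⟩ : ∃ a b : ZMod p, tau a b ≠ 1 ∧ ∀ s ∈ Sm, s * tau a b = tau a b * s := by
    set V := (trans p).subgroupOf (Cfsg.qd p) with hV
    haveI hVn : V.Normal := ⟨fun n hn g => conj_tau_mem g.2 hn⟩
    have hVp : IsPGroup p V := fun ⟨x, hx⟩ => ⟨1, Subtype.ext (Subtype.ext (by rw [pow_one]; exact trans_exp _ hx))⟩
    have hVS : V ≤ (S : Subgroup ↥(Cfsg.qd p)) :=
      (CfsgLib.Local.le_pCore' hVn hVp).trans (CfsgLib.Local.pCore_le_sylow' S)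
    letI : MulAction (S : Subgroup ↥(Cfsg.qd p)) V := MulAction.compHom V
      (V.normalizerMonoidHom.comp (Subgroup.inclusion (le_top.trans (Subgroup.normalizer_eq_top V).ge)))
    have hmod := S.isPGroup'.card_modEq_card_fixedPoints V
    have hcard : Nat.card V = p ^ 2 := by
      rw [hV, Nat.card_congr (Subgroup.subgroupOfEquivOfLe trans_le_qd).toEquiv, card_trans]
    have hdvd : p ∣ Nat.card (MulAction.fixedPoints (S : Subgroup ↥(Cfsg.qd p)) V) :=
      (Nat.ModEq.dvd_iff hmod dvd_rfl).mp (hcard ▸ dvd_pow_self p two_ne_zero)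
    have hone : (1 : V) ∈ MulAction.fixedPoints (S : Subgroup ↥(Cfsg.qd p)) V := fun s =>
      map_one (V.normalizerMonoidHom _)
    haveI : Finite (MulAction.fixedPoints (S : Subgroup ↥(Cfsg.qd p)) V) := inferInstance
    have hpos : 0 < Nat.card (MulAction.fixedPoints (S : Subgroup ↥(Cfsg.qd p)) V) := by
      haveI : Nonempty (MulAction.fixedPoints (S : Subgroup ↥(Cfsg.qd p)) V) := ⟨⟨1, hone⟩⟩
      exact Nat.card_pos
    haveI := Finite.one_lt_card_iff_nontrivial.mp
      (((Fact.out : p.Prime).one_lt).trans_le (Nat.le_of_dvd hpos hdvd))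
    obtain ⟨⟨⟨v, hv⟩, hvfix⟩, hne⟩ := exists_ne (⟨1, hone⟩ : MulAction.fixedPoints (S : Subgroup ↥(Cfsg.qd p)) V)
    obtain ⟨a, b, hvab⟩ := hv
    refine ⟨a, b, fun h => hne ?_, ?_⟩
    · refine Subtype.ext (Subtype.ext (Subtype.ext ?_))
      show (v : M3 p) = 1
      exact hvab.symm.trans h
    · rintro _ ⟨s, hs, rfl⟩
      have := congrArg (fun w : V => ((w : ↥(Cfsg.qd p)) : M3 p)) (hvfix ⟨s, hs⟩)
      change (s : M3 p) * v * (s : M3 p)⁻¹ = v at this
      rw [hvab]
      exact mul_inv_eq_iff_eq_mul.mp this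
  -- move it to `tau 1 0`
  obtain ⟨g, hg, hgab⟩ : ∃ g : M3 p, g ∈ Cfsg.qd p ∧ g * tau 1 0 * g⁻¹ = tau a b := by
    obtain ⟨x, y, hxy⟩ : ∃ x y : ZMod p, a * y - x * b = 1 := by
      by_cases ha : a = 0
      · have hb : b ≠ 0 := fun hb => hab (by rw [ha, hb, tau_zero])
        exact ⟨-b⁻¹, 0, by rw [mul_zero, zero_sub, neg_mul, neg_neg, inv_mul_cancel₀ hb]⟩
      · exact ⟨0, a⁻¹, by rw [zero_mul, sub_zero, mul_inv_cancel₀ ha]⟩
    let g : M3 p := ⟨!![a, x, 0; b, y, 0; 0, 0, 1], by simp [Matrix.det_fin_three]; exact hxy⟩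
    have hg : g ∈ Cfsg.qd p := mem_qd_of_row rfl rfl rfl
    refine ⟨g, hg, ?_⟩
    rw [mul_tau hg, mul_inv_cancel_right]
    simp [g]
  -- the conjugate Sylow subgroup
  have hsub : ∀ s ∈ Sm, g⁻¹ * s * g ∈ Std p := by
    intro s hs
    have hsq : s ∈ Cfsg.qd p := Subgroup.map_subtype_le _ hs
    have hM : g⁻¹ * s * g ∈ Cfsg.qd p := mul_mem (mul_mem (inv_mem hg) hsq) hg
    have hc : (g⁻¹ * s * g) * tau 1 0 = tau 1 0 * (g⁻¹ * s * g) := by
      have h := hcen s hs
      rw [← hgab] at h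
      calc g⁻¹ * s * g * tau 1 0 = g⁻¹ * (s * (g * tau 1 0 * g⁻¹)) * g := by group
        _ = g⁻¹ * ((g * tau 1 0 * g⁻¹) * s) * g := by rw [h]
        _ = tau 1 0 * (g⁻¹ * s * g) := by group
    generalize g⁻¹ * s * g = M at hM hc
    rw [mul_tau hM, mul_left_inj] at hc
    obtain ⟨e1, e2⟩ := tau_inj hc
    simp only [mul_one, mul_zero, add_zero] at e1 e2
    obtain ⟨r0, r1, r2⟩ := row_of_mem hM
    have hdet := M.2
    rw [Matrix.det_fin_three] at hdet
    simp only [e1, e2, r0, r1, r2, mul_zero, zero_mul, mul_one, one_mul, sub_zero, add_zero] at hdet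
    refine ⟨M 0 2, M 1 2, M 0 1, ?_⟩
    apply Subtype.ext
    rw [el_coe]
    ext i j; fin_cases i <;> fin_cases j <;> simp [e1, e2, r0, r1, r2, hdet]
  have hStdq : Std p ≤ Cfsg.qd p := by
    rintro _ ⟨a, b, u, rfl⟩
    exact mul_mem (tau_mem a b) (em_mem u)
  have hback : ∀ x ∈ Std p, g * x * g⁻¹ ∈ Sm := by
    set P := ((Std p).map (MulAut.conj g).toMonoidHom).subgroupOf (Cfsg.qd p) with hP
    have hPp : IsPGroup p P := ((std_isPGroup (p := p)).map _).comap_of_injective _ (Subgroup.subtype_injective _)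
    have hSP : (S : Subgroup ↥(Cfsg.qd p)) ≤ P := fun s hs => by
      refine Subgroup.mem_subgroupOf.mpr ⟨g⁻¹ * (s : M3 p) * g, hsub _ ⟨s, hs, rfl⟩, ?_⟩
      simp [MulAut.conj_apply, mul_assoc]
    intro x hx
    have hxq : g * x * g⁻¹ ∈ Cfsg.qd p := mul_mem (mul_mem hg (hStdq hx)) (inv_mem hg)
    exact ⟨⟨_, hxq⟩, (S.is_maximal' hPp hSP).le (Subgroup.mem_subgroupOf.mpr ⟨x, hx, rfl⟩), rfl⟩
  -- transfer of `T`
  let Φ : Std p ≃* ↥(S : Subgroup ↥(Cfsg.qd p)) :=
    { toFun := fun x => ⟨⟨g * x * g⁻¹, mul_mem (mul_mem hg (hStdq x.2)) (inv_mem hg)⟩, by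
        obtain ⟨y, hy, he⟩ := hback x x.2
        rwa [show (⟨g * x * g⁻¹, _⟩ : ↥(Cfsg.qd p)) = y from Subtype.ext he.symm]⟩
      invFun := fun s => ⟨g⁻¹ * ((s : ↥(Cfsg.qd p)) : M3 p) * g, hsub _ ⟨s, s.2, rfl⟩⟩
      left_inv := fun x => Subtype.ext (by simp [mul_assoc])
      right_inv := fun s => Subtype.ext (Subtype.ext (by simp [mul_assoc]))
      map_mul' := fun x y => Subtype.ext (Subtype.ext (by simp [mul_assoc])) }
  exact ⟨Φ⟩

theorem card_std : Nat.card (Std p) = p ^ 3 := by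
  have hb : Function.Bijective (fun x : ZMod p × ZMod p × ZMod p =>
      (⟨el x.1 x.2.1 x.2.2, _, _, _, rfl⟩ : Std p)) :=
    ⟨fun x y h => by
      obtain ⟨h1, h2, h3⟩ := el_inj (congrArg Subtype.val h)
      exact Prod.ext h1 (Prod.ext h2 h3),
    fun ⟨M, a, b, u, h⟩ => ⟨(a, b, u), Subtype.ext h⟩⟩
  rw [← Nat.card_eq_of_bijective _ hb, Nat.card_prod, Nat.card_prod, Nat.card_zmod]; ring

theorem std_pow (hp : p ≠ 2) (x : Std p) : x ^ p = 1 := by
  obtain ⟨_, a, b, u, rfl⟩ := x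
  have hpow : ∀ n : ℕ, el a b u ^ n = el ((n : ZMod p) * a + (n.choose 2 : ZMod p) * u * b) ((n : ZMod p) * b) ((n : ZMod p) * u) := by
    intro n
    induction n with
    | zero => simp [el_zero]
    | succ n ih =>
      rw [pow_succ, ih, el_mul, Nat.choose_succ_succ' n 1, Nat.choose_one_right]
      congr 1 <;> push_cast <;> ring
  have h2 : ((p.choose 2 : ℕ) : ZMod p) = 0 := (ZMod.natCast_eq_zero_iff _ _).2
    (Nat.Prime.dvd_choose_self Fact.out two_ne_zero (lt_of_le_of_ne (Nat.Prime.two_le Fact.out) hp.symm))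
  refine Subtype.ext ?_
  show el a b u ^ p = 1
  rw [hpow, ZMod.natCast_self, h2]
  simp [el_zero]

/-- The central elements `el a 0 0`. -/
def cen (p : ℕ) [Fact p.Prime] (a : ZMod p) : Std p := ⟨el a 0 0, a, 0, 0, rfl⟩

theorem cen_mem (a : ZMod p) : cen p a ∈ Subgroup.center (Std p) := by
  refine Subgroup.mem_center_iff.2 ?_
  rintro ⟨_, c, d, v, rfl⟩
  refine Subtype.ext ?_
  show el c d v * el a 0 0 = el a 0 0 * el c d v
  rw [el_mul, el_mul]
  congr 1 <;> ring

theorem center_eq (x : Std p) (hx : x ∈ Subgroup.center (Std p)) : ∃ a, x = cen p a := by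
  obtain ⟨_, a, b, u, rfl⟩ := x
  have h1 := congrArg Subtype.val (Subgroup.mem_center_iff.1 hx ⟨el 0 1 0, 0, 1, 0, rfl⟩)
  have h2 := congrArg Subtype.val (Subgroup.mem_center_iff.1 hx ⟨el 0 0 1, 0, 0, 1, rfl⟩)
  simp only [Subgroup.coe_mul, el_mul] at h1 h2
  obtain ⟨e1, -, -⟩ := el_inj h1
  obtain ⟨e2, -, -⟩ := el_inj h2
  have hu : u = 0 := by linear_combination -e1
  have hb : b = 0 := by linear_combination e2
  subst hu; subst hb
  exact ⟨a, rfl⟩

theorem std_extraspecial (hp : p ≠ 2) : Cfsg.IsExtraspecial p (Std p) := by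
  haveI : Finite (Std p) := Nat.finite_of_card_ne_zero (by rw [card_std]; exact pow_ne_zero _ (Fact.out : p.Prime).ne_zero)
  have hP : IsPGroup p (Std p) := std_isPGroup
  have hcomm : ∀ x y : Std p, ⁅x, y⁆ ∈ Subgroup.center (Std p) := by
    rintro ⟨_, a, b, u, rfl⟩ ⟨_, c, d, v, rfl⟩
    have e : ⁅(⟨el a b u, a, b, u, rfl⟩ : Std p), (⟨el c d v, c, d, v, rfl⟩ : Std p)⁆ = cen p (u * d - v * b) := by
      rw [commutatorElement_def, mul_inv_eq_iff_eq_mul, mul_inv_eq_iff_eq_mul]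
      refine Subtype.ext ?_
      show el a b u * el c d v = el (u * d - v * b) 0 0 * el c d v * el a b u
      rw [el_mul, el_mul, el_mul]
      congr 1 <;> ring
    rw [e]; exact cen_mem _
  have h1 : commutator (Std p) ≤ Subgroup.center (Std p) := by
    rw [_root_.commutator_def, Subgroup.commutator_le]
    exact fun x _ y _ => hcomm x y
  have h2 : Subgroup.center (Std p) ≤ commutator (Std p) := by
    intro x hx
    obtain ⟨a, rfl⟩ := center_eq x hx
    have e : cen p a = ⁅(⟨el 0 0 1, 0, 0, 1, rfl⟩ : Std p), ⟨el 0 a 0, 0, a, 0, rfl⟩⁆ := by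
      rw [commutatorElement_def, eq_mul_inv_iff_mul_eq, eq_mul_inv_iff_mul_eq]
      refine Subtype.ext ?_
      show el a 0 0 * el 0 a 0 * el 0 0 1 = el 0 0 1 * el 0 a 0
      rw [el_mul, el_mul, el_mul]
      congr 1 <;> ring
    rw [e, _root_.commutator_def]
    exact Subgroup.commutator_mem_commutator (Subgroup.mem_top _) (Subgroup.mem_top _)
  have hC : commutator (Std p) = Subgroup.center (Std p) := le_antisymm h1 h2
  refine ⟨⟨hP, le_antisymm ?_ (hC ▸ CfsgLib.Core.pgroup_commutator_le_frattini hP), hC⟩, ?_⟩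
  · exact CfsgLib.Core.frattini_le_of_elementary (p := p) h1 fun x => by rw [std_pow hp]; exact one_mem _
  · have hb : Function.Bijective (fun a : ZMod p => (⟨cen p a, cen_mem a⟩ : Subgroup.center (Std p))) :=
      ⟨fun a b h => (el_inj (congrArg Subtype.val (congrArg Subtype.val h))).1,
        fun ⟨x, hx⟩ => by obtain ⟨a, rfl⟩ := center_eq x hx; exact ⟨a, rfl⟩⟩
    rw [← Nat.card_eq_of_bijective _ hb, Nat.card_zmod]

theorem extraspecial_of_equiv {P R : Type*} [Group P] [Group R] (e : P ≃* R)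
    (h : Cfsg.IsExtraspecial p P) : Cfsg.IsExtraspecial p R := by
  obtain ⟨⟨hp, hF, hC⟩, hZ⟩ := h
  have hc : (Subgroup.center P).map e.toMonoidHom = Subgroup.center R := by
    ext r
    constructor
    · rintro ⟨z, hz, rfl⟩
      refine Subgroup.mem_center_iff.mpr fun y => ?_
      have := congrArg e (Subgroup.mem_center_iff.mp hz (e.symm y))
      simpa using this
    · intro hr
      refine ⟨e.symm r, Subgroup.mem_center_iff.mpr fun y => e.injective ?_, by simp⟩
      simpa using Subgroup.mem_center_iff.mp hr (e y)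
  refine ⟨⟨hp.of_equiv e, ?_, ?_⟩, ?_⟩
  · rw [← hc, ← hF]
    refine le_antisymm (fun r hr => ?_) ?_
    · exact ⟨e.symm r, frattini_le_comap_frattini_of_surjective (φ := e.symm.toMonoidHom)
        e.symm.surjective hr, by simp⟩
    · rintro _ ⟨z, hz, rfl⟩
      exact frattini_le_comap_frattini_of_surjective (φ := e.toMonoidHom) e.surjective hz
  · rw [← hc, ← hC, _root_.commutator_def, _root_.commutator_def, Subgroup.map_commutator,
      Subgroup.map_top_of_surjective _ e.surjective]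
  · rw [← hZ]; exact (Nat.card_congr (Subgroup.centerCongr e).toEquiv).symm

end Aux

/-- Let p be an odd prime. A Sylow p-subgroup of Qd(p), the split extension of an elementary abelian group of order p² by SL₂(p) acting naturally, is extraspecial of order p³ and exponent p. -/
theorem result (p : ℕ) [Fact p.Prime] (hp : p ≠ 2) (P : Sylow p ↥(Cfsg.qd p)) :
    Cfsg.IsExtraspecial p ↥P ∧ Nat.card P = p ^ 3 ∧ Monoid.exponent ↥P = p := by
  obtain ⟨Φ⟩ := sylow_equiv_std P
  refine ⟨extraspecial_of_equiv Φ (std_extraspecial hp), by rw [← Nat.card_congr Φ.toEquiv, card_std], ?_⟩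
  refine Nat.dvd_antisymm (Monoid.exponent_dvd_of_forall_pow_eq_one fun x => ?_) ?_
  · rw [← Φ.apply_symm_apply x, ← map_pow, std_pow hp, map_one]
  · have hne : Cfsg.Agent.S2763.el (1 : ZMod p) 0 0 ≠ 1 := fun h => by
      rw [← Cfsg.Agent.S2763.el_zero] at h
      exact one_ne_zero (Cfsg.Agent.S2763.el_inj h).1
    have ho : orderOf (Φ (cen p 1)) = p := orderOf_eq_prime (by rw [← map_pow, std_pow hp, map_one])
      (fun h => hne (congrArg Subtype.val (Φ.injective (h.trans (map_one Φ).symm))))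
    exact (dvd_of_eq ho.symm).trans (Monoid.order_dvd_exponent _)

end Cfsg.Agent.S3074
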