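import Cfsg.Statements.S3075
import Mathlib

set_option autoImplicit false
open Cfsg
open scoped commutatorElement Pointwise

namespace Cfsg.Agent.S3075

/-- Let p be an odd prime and N a finite group with a normal elementary abelian subgroup A of order p² that is its own centralizer in N, such that N/A is isomorphic to SL₂(p) (over any field F with p elements). Then N splits over A: some subgroup U of N satisfies A ∩ U = 1 and AU = N. -/
theorem result {N : Type*} [Group N] [Finite N] {p : ℕ} [Fact p.Prime] (hp : p ≠ 2)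
    (A : Subgroup N) [A.Normal] (hAcomm : IsMulCommutative A) (hAcard : Nat.card A = p ^ 2) (hAexp : Monoid.exponent ↥A = p)
    (hAself : Subgroup.centralizer (A : Set N) = A)
    {F : Type*} [Field F] [Fintype F] (hF : Fintype.card F = p) (e : N ⧸ A ≃* Matrix.SpecialLinearGroup (Fin 2) F) :
    ∃ U : Subgroup N, A ⊓ U = ⊥ ∧ A ⊔ U = ⊤ := by
  classical
  have hpr : p.Prime := Fact.out
  haveI : Fact (0 < p) := ⟨hpr.pos⟩
  have hodd : Odd (p ^ 2) := (hpr.odd_of_ne_two hp).pow
  obtain ⟨k, hk⟩ := hodd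
  -- characteristic of F is odd
  have h2 : (-1 : F) ≠ 1 := by
    intro h
    have h2F : (2 : F) = 0 := by linear_combination -h
    have hdvd : ringChar F ∣ 2 := by
      rw [← ringChar.spec]
      simpa using h2F
    obtain ⟨n, hprF, hn⟩ := FiniteField.card F (ringChar F)
    rw [hF] at hn
    have hpe : ringChar F = p := by
      have : ringChar F ∣ p := hn ▸ dvd_pow_self _ n.pos.ne'
      exact (Nat.prime_dvd_prime_iff_eq hprF hpr).mp this
    rw [hpe] at hdvd
    exact hp ((Nat.prime_dvd_prime_iff_eq hpr Nat.prime_two).mp hdvd)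
  obtain ⟨m, hm⟩ : ∃ m : Matrix.SpecialLinearGroup (Fin 2) F, (m : Matrix (Fin 2) (Fin 2) F) = -1 :=
    ⟨⟨-1, by simp [Matrix.det_fin_two]⟩, rfl⟩
  have hm1 : m ≠ 1 := by
    intro h
    apply h2
    have := congrArg (fun x : Matrix.SpecialLinearGroup (Fin 2) F => (x : Matrix (Fin 2) (Fin 2) F) 0 0) h
    simpa [hm] using this
  have hm2 : m * m = 1 := by
    apply Subtype.ext
    change (m : Matrix (Fin 2) (Fin 2) F) * m = 1
    rw [hm]; simp
  have hmc : ∀ x, x * m = m * x := by
    intro x
    apply Subtype.ext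
    change (x : Matrix (Fin 2) (Fin 2) F) * m = m * x
    rw [hm]; simp
  obtain ⟨t₀, ht₀⟩ := QuotientGroup.mk_surjective (e.symm m)
  have hexpA : ∀ a ∈ A, a ^ p = 1 := by
    intro a ha
    have := Monoid.pow_exponent_eq_one (⟨a, ha⟩ : A)
    rw [hAexp] at this
    simpa using congrArg Subtype.val this
  have hcomm : ∀ a ∈ A, ∀ b ∈ A, a * b = b * a := fun a ha b hb => setLike_mul_comm ha hb
  have hnorm : ∀ (n : N), ∀ a ∈ A, n * a * n⁻¹ ∈ A := fun n a ha =>
    (inferInstance : A.Normal).conj_mem a ha n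
  let t : N := t₀ ^ (p ^ 2)
  have htbar : ((t : N) : N ⧸ A) = e.symm m := by
    rw [QuotientGroup.mk_pow, ht₀, ← map_pow, hk, pow_succ, pow_mul, pow_two, hm2, one_pow, one_mul]
  have ht2 : t * t = 1 := by
    have hsq : t₀ * t₀ ∈ A := by
      rw [← QuotientGroup.eq_one_iff, QuotientGroup.mk_mul, ht₀, ← map_mul, hm2, map_one]
    have : (t₀ * t₀) ^ (p ^ 2) = 1 := by rw [pow_two p, pow_mul, hexpA _ hsq, one_pow]
    rwa [(Commute.refl t₀).mul_pow] at this
  have htinv : t⁻¹ = t := inv_eq_of_mul_eq_one_right ht2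
  have htA : t ∉ A := by
    intro h
    rw [← QuotientGroup.eq_one_iff, htbar] at h
    exact hm1 (e.symm.injective (by rw [h, map_one]))
  -- n conjugates t into A t
  have hcoset : ∀ n : N, n * t * n⁻¹ * t⁻¹ ∈ A := by
    intro n
    rw [← QuotientGroup.eq_one_iff]
    simp only [QuotientGroup.mk_mul, QuotientGroup.mk_inv, htbar]
    apply e.injective
    simp only [map_mul, map_inv, MulEquiv.apply_symm_apply, map_one]
    rw [hmc]
    group
  let φ : N → N := fun x => t * x * t
  have hφm : ∀ x y, φ (x * y) = φ x * φ y := by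
    intro x y
    change t * (x * y) * t = t * x * t * (t * y * t)
    calc t * (x * y) * t = t * x * (t * t) * (y * t) := by rw [ht2]; group
      _ = _ := by group
  have hφ2 : ∀ x, φ (φ x) = x := by
    intro x
    change t * (t * x * t) * t = x
    calc t * (t * x * t) * t = (t * t) * x * (t * t) := by group
      _ = x := by rw [ht2]; group
  have hφA : ∀ x ∈ A, φ x ∈ A := by
    intro x hx
    have := hnorm t x hx
    rwa [htinv] at this
  have hsq1 : ∀ x ∈ A, x * x = 1 → x = 1 := by
    intro x hx h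
    have h1 := hexpA x hx
    obtain ⟨j, hj⟩ := hpr.odd_of_ne_two hp
    rw [hj, pow_succ, pow_mul, pow_two, h, one_pow, one_mul] at h1
    exact h1
  -- fixed points
  let C : Subgroup N := A ⊓ Subgroup.centralizer {t}
  have hCmem : ∀ x, x ∈ C ↔ x ∈ A ∧ φ x = x := by
    intro x
    change x ∈ A ∧ x ∈ Subgroup.centralizer {t} ↔ _
    rw [Subgroup.mem_centralizer_singleton_iff]
    refine and_congr_right fun _ => ?_
    change x * t = t * x ↔ t * x * t = x
    constructor
    · intro h; rw [← h, mul_assoc, ht2, mul_one]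
    · intro h
      calc x * t = (t * x * t) * t := by rw [h]
        _ = t * x * (t * t) := by group
        _ = t * x := by rw [ht2, mul_one]
  let D : Subgroup N :=
    { carrier := {x | x ∈ A ∧ φ x = x⁻¹}
      one_mem' := ⟨one_mem _, by change t * 1 * t = 1⁻¹; rw [mul_one, ht2, inv_one]⟩
      mul_mem' := by
        rintro x y ⟨hx, hx'⟩ ⟨hy, hy'⟩
        refine ⟨mul_mem hx hy, ?_⟩
        rw [hφm, hx', hy', mul_inv_rev]
        exact hcomm _ (inv_mem hx) _ (inv_mem hy)
      inv_mem' := by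
        rintro x ⟨hx, hx'⟩
        refine ⟨inv_mem hx, ?_⟩
        have h1 : φ x⁻¹ * φ x = 1 := by
          rw [← hφm, inv_mul_cancel]
          change t * 1 * t = 1
          rw [mul_one, ht2]
        rw [hx', mul_inv_eq_one] at h1
        rw [h1, inv_inv] }
  have hconjφ : ∀ (n : N), ∀ x ∈ A, φ (n * x * n⁻¹) = n * φ x * n⁻¹ := by
    intro n x hx
    have ha := hcoset n
    set a := n * t * n⁻¹ * t⁻¹ with hadef
    have h1 : n * φ x * n⁻¹ = a * φ (n * x * n⁻¹) * a⁻¹ := by
      change n * (t * x * t) * n⁻¹ = a * (t * (n * x * n⁻¹) * t) * a⁻¹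
      have hnt : n * t * n⁻¹ = a * t := by rw [hadef]; group
      have hnt' : n * t * n⁻¹ = t * a⁻¹ := by
        have : (n * t * n⁻¹)⁻¹ = n * t * n⁻¹ := by
          rw [mul_inv_rev, mul_inv_rev, inv_inv, htinv]; group
        rw [← this, hnt, mul_inv_rev, htinv]
      calc n * (t * x * t) * n⁻¹ = (n * t * n⁻¹) * (n * x * n⁻¹) * (n * t * n⁻¹) := by group
        _ = (a * t) * (n * x * n⁻¹) * (t * a⁻¹) := by
            conv_lhs => arg 2; rw [hnt']
            conv_lhs => arg 1; arg 1; rw [hnt]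
        _ = _ := by group
    rw [h1, hcomm a ha _ (hφA _ (hnorm n x hx)), mul_inv_cancel_right]
  haveI hCn : C.Normal := ⟨fun x hx n => by
    rw [hCmem] at hx ⊢
    exact ⟨hnorm n x hx.1, by rw [hconjφ n x hx.1, hx.2]⟩⟩
  haveI hDn : D.Normal := ⟨fun x hx n => by
    refine ⟨hnorm n x hx.1, ?_⟩
    rw [hconjφ n x hx.1, hx.2]; group⟩
  have hCD : C ⊓ D = ⊥ := by
    rw [eq_bot_iff]
    intro x hx
    have h1 := ((hCmem x).mp (Subgroup.mem_inf.mp hx).1)
    have h2' : φ x = x⁻¹ := (Subgroup.mem_inf.mp hx).2.2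
    exact hsq1 x h1.1 (mul_eq_one_iff_eq_inv.mpr (h1.2.symm.trans h2'))
  have hdec : ∀ x ∈ A, x * φ x ∈ C ∧ x * (φ x)⁻¹ ∈ D := by
    intro x hx
    refine ⟨(hCmem _).mpr ⟨mul_mem hx (hφA x hx), ?_⟩, mul_mem hx (inv_mem (hφA x hx)), ?_⟩
    · rw [hφm, hφ2]; exact hcomm _ (hφA x hx) _ hx
    · have hi : φ (φ x)⁻¹ = x⁻¹ := by
        apply eq_inv_of_mul_eq_one_left
        have := hφm (φ x)⁻¹ (φ x)
        rw [hφ2, inv_mul_cancel] at this
        rw [← this]
        change t * 1 * t = 1
        rw [mul_one, ht2]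
      rw [hφm, hi, mul_inv_rev, inv_inv]
  have hC1 : C = ⊥ := by
    by_contra hC
    have hD : D ≠ ⊥ := by
      intro hD
      apply htA
      rw [← hAself, Subgroup.mem_centralizer_iff]
      intro x hx
      have := (hdec x hx).2
      rw [hD, Subgroup.mem_bot, mul_inv_eq_one] at this
      change x * t = t * x
      calc x * t = (t * x * t) * t := by rw [show t * x * t = x from this.symm]
        _ = t * x * (t * t) := by group
        _ = t * x := by rw [ht2, mul_one]
    have hCA : C ≤ A := inf_le_left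
    have hDA : D ≤ A := fun x hx => hx.1
    have hcardP : ∀ X : Subgroup N, X ≤ A → X ≠ ⊥ → X ≠ A → Nat.card X = p := by
      intro X hXA hX hXA'
      have hd := Subgroup.card_dvd_of_le hXA
      rw [hAcard, Nat.dvd_prime_pow hpr] at hd
      obtain ⟨i, hi, hiX⟩ := hd
      interval_cases i
      · exact absurd ((Subgroup.card_eq_one).mp (by simpa using hiX)) hX
      · simpa using hiX
      · exact absurd (Subgroup.eq_of_le_of_card_ge hXA (by rw [hiX, hAcard])) hXA'
    have hCne : C ≠ A := by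
      intro h
      apply hD
      rw [eq_bot_iff, ← hCD]
      exact le_inf (fun x hx => h ▸ hDA hx) le_rfl
    have hDne : D ≠ A := by
      intro h
      apply hC
      rw [eq_bot_iff, ← hCD]
      exact le_inf le_rfl (fun x hx => h ▸ hCA hx)
    have hcC := hcardP C hCA hC hCne
    have hcD := hcardP D hDA hD hDne
    have hsupA : A ≤ C ⊔ D := by
      intro x hx
      obtain ⟨h1, h1'⟩ := hdec x hx
      have h3 : x * x = (x * φ x) * (x * (φ x)⁻¹) := by
        rw [← mul_assoc, mul_assoc x (φ x) x, hcomm _ (hφA x hx) _ hx, ← mul_assoc, mul_inv_cancel_right]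
      have h4 : x * x ∈ C ⊔ D := h3 ▸ mul_mem (Subgroup.mem_sup_left h1) (Subgroup.mem_sup_right h1')
      have h5 : x = (x * x) ^ (k + 1) := by
        rw [← pow_two, ← pow_mul, show 2 * (k + 1) = p ^ 2 + 1 by omega, pow_succ, pow_two p,
          pow_mul, hexpA x hx, one_pow, one_mul]
      rw [h5]; exact pow_mem h4 _
    -- commutators centralise cyclic normal subgroups
    have hab : ∀ X : Subgroup N, X.Normal → Nat.card X = p → ∀ g h : N, ∀ x ∈ X,
        (g * h) * x * (g * h)⁻¹ = (h * g) * x * (h * g)⁻¹ := by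
      intro X hXn hXc g h x hx
      haveI : IsCyclic X := isCyclic_of_prime_card hXc
      obtain ⟨c, hc⟩ := IsCyclic.exists_generator (α := X)
      have act : ∀ g : N, ∃ i : ℤ, ∀ y ∈ X, g * y * g⁻¹ = y ^ i := by
        intro g
        obtain ⟨i, hi⟩ := Subgroup.mem_zpowers_iff.mp (hc ⟨g * (c : N) * g⁻¹, hXn.conj_mem _ c.2 g⟩)
        refine ⟨i, fun y hy => ?_⟩
        obtain ⟨j, hj⟩ := Subgroup.mem_zpowers_iff.mp (hc ⟨y, hy⟩)
        have hy' : (c : N) ^ j = y := by simpa using congrArg Subtype.val hj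
        have hi' : (c : N) ^ i = g * (c : N) * g⁻¹ := by simpa using congrArg Subtype.val hi
        rw [← hy', ← conj_zpow, ← hi', ← zpow_mul, ← zpow_mul, mul_comm]
      obtain ⟨i, hi⟩ := act g
      obtain ⟨j, hj⟩ := act h
      calc (g * h) * x * (g * h)⁻¹ = g * (h * x * h⁻¹) * g⁻¹ := by group
        _ = (x ^ j) ^ i := by rw [hj x hx, hi _ (zpow_mem hx j)]
        _ = (x ^ i) ^ j := by rw [← zpow_mul, ← zpow_mul, mul_comm]
        _ = h * (g * x * g⁻¹) * h⁻¹ := by rw [hi x hx, hj _ (zpow_mem hx i)]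
        _ = (h * g) * x * (h * g)⁻¹ := by group
    have habQ : ∀ u v : N ⧸ A, u * v = v * u := by
      intro u v
      obtain ⟨g, rfl⟩ := QuotientGroup.mk_surjective u
      obtain ⟨h, rfl⟩ := QuotientGroup.mk_surjective v
      rw [← QuotientGroup.mk_mul, ← QuotientGroup.mk_mul, QuotientGroup.eq]
      have hle : C ⊔ D ≤ Subgroup.centralizer {(g * h)⁻¹ * (h * g)} := by
        have aux : ∀ X : Subgroup N, X.Normal → Nat.card X = p →
            X ≤ Subgroup.centralizer {(g * h)⁻¹ * (h * g)} := by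
          intro X hXn hXc x hx
          rw [Subgroup.mem_centralizer_singleton_iff]
          have := hab X hXn hXc g h x hx
          calc x * ((g * h)⁻¹ * (h * g))
              = (g * h)⁻¹ * ((g * h) * x * (g * h)⁻¹) * (h * g) := by group
            _ = (g * h)⁻¹ * ((h * g) * x * (h * g)⁻¹) * (h * g) := by rw [this]
            _ = (g * h)⁻¹ * (h * g) * x := by group
        exact sup_le (aux C hCn hcC) (aux D hDn hcD)
      rw [← hAself, Subgroup.mem_centralizer_iff]
      intro a ha
      have := hle (hsupA ha)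
      rw [Subgroup.mem_centralizer_singleton_iff] at this
      exact this
    let u : Matrix.SpecialLinearGroup (Fin 2) F := ⟨!![1, 1; 0, 1], by simp [Matrix.det_fin_two]⟩
    let v : Matrix.SpecialLinearGroup (Fin 2) F := ⟨!![1, 0; 1, 1], by simp [Matrix.det_fin_two]⟩
    have huv : u * v = v * u := by
      apply e.symm.injective
      rw [map_mul, map_mul]
      exact habQ _ _
    have := congrArg (fun x : Matrix.SpecialLinearGroup (Fin 2) F => (x : Matrix (Fin 2) (Fin 2) F) 0 0) huv
    rw [Matrix.SpecialLinearGroup.coe_mul, Matrix.SpecialLinearGroup.coe_mul] at this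
    simp [Matrix.mul_apply, Fin.sum_univ_two, u, v] at this
  have hinv : ∀ x ∈ A, φ x = x⁻¹ := by
    intro x hx
    have := (hdec x hx).1
    rw [hC1, Subgroup.mem_bot] at this
    exact (inv_eq_of_mul_eq_one_right this).symm
  refine ⟨Subgroup.centralizer {t}, hC1, ?_⟩
  rw [eq_top_iff]
  intro n _
  have ha := hcoset n
  set a := n * t * n⁻¹ * t⁻¹ with hadef
  let b := a ^ (k + 1)
  have hb : b ∈ A := pow_mem ha _
  have hbt : b * t * b⁻¹ = n * t * n⁻¹ := by
    have h1 : t * b⁻¹ * t = b := by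
      have := hinv b⁻¹ (inv_mem hb)
      simpa [φ] using this
    have h2' : b * b = a := by
      rw [← pow_add, show k + 1 + (k + 1) = p ^ 2 + 1 by omega, pow_succ, pow_two p,
        pow_mul, hexpA a ha, one_pow, one_mul]
    calc b * t * b⁻¹ = b * (t * b⁻¹ * t) * t⁻¹ * 1 := by group
      _ = a * t := by rw [h1, h2', mul_one, htinv]
      _ = _ := by rw [hadef]; group
  have hc : b⁻¹ * n ∈ Subgroup.centralizer {t} := by
    rw [Subgroup.mem_centralizer_singleton_iff]
    calc b⁻¹ * n * t = b⁻¹ * (n * t * n⁻¹) * n := by group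
      _ = b⁻¹ * (b * t * b⁻¹) * n := by rw [hbt]
      _ = t * (b⁻¹ * n) := by group
  have : n = b * (b⁻¹ * n) := by group
  rw [this]
  exact mul_mem (Subgroup.mem_sup_left hb) (Subgroup.mem_sup_right hc)


end Cfsg.Agent.S3075
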