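import Cfsg.Statements.S3078
import Cfsg.Agent.Lib.LocalReplaceOddOmega

set_option autoImplicit false
open Cfsg
open scoped commutatorElement Pointwise

namespace Cfsg.Agent.S3078

/-- A replacement Theorem for abelian subgroups of p-groups, p odd. Let G be a finite p-group with p odd, A an abelian subgroup of G, and B a subgroup of nilpotency class at most 2 with [B, B] ≤ A, such that A normalizes B but B does not normalize A. Then there is an abelian subgroup A* of G of the same order as A with A ∩ B strictly contained in A* ∩ B, A* contained in N_G(A) and in the normal closure of A, the exponent of A* dividing the exponent of A, and with the subgroup generated by the elements of order dividing p in A of order at most that of the corresponding subgroup of A* (the rank of A is at most the rank of A*). -/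
theorem result {G : Type*} [Group G] [Finite G] {p : ℕ} [Fact p.Prime] (hp : p ≠ 2) (hG : IsPGroup p G) (A B : Subgroup G) (hA : IsMulCommutative A) (hB2 : ⁅⁅B, B⁆, B⁆ = ⊥) (hBA : ⁅B, B⁆ ≤ A) (hAB : A ≤ Subgroup.normalizer (B : Set G)) (hBnA : ¬ B ≤ Subgroup.normalizer (A : Set G)) : ∃ Astar : Subgroup G, IsMulCommutative Astar ∧ Nat.card Astar = Nat.card A ∧ A ⊓ B < Astar ⊓ B ∧ Astar ≤ Subgroup.normalizer (A : Set G) ∧ Astar ≤ Subgroup.normalClosure (A : Set G) ∧ Monoid.exponent Astar ∣ Monoid.exponent A ∧ Nat.card (Cfsg.omegaOne p A) ≤ Nat.card (Cfsg.omegaOne p Astar) := by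
  classical
  let T : Subgroup G := A ⊔ B
  let f := T.subtype
  have hf : Function.Injective f := T.subtype_injective
  let A₁ := A.subgroupOf T
  let B₁ := B.subgroupOf T
  have hAm : A₁.map f = A := Subgroup.map_subgroupOf_eq_of_le le_sup_left
  have hBm : B₁.map f = B := Subgroup.map_subgroupOf_eq_of_le le_sup_right
  haveI : B₁.Normal :=
    (Subgroup.normal_subgroupOf_iff_le_normalizer le_sup_right).mpr (sup_le hAB Subgroup.le_normalizer)
  have hA₁ : IsMulCommutative A₁ := ⟨⟨fun x y => Subtype.ext (Subtype.ext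
    (by have hc := congrArg Subtype.val (hA.is_comm.comm (⟨((x : T) : G), x.2⟩ : A) ⟨((y : T) : G), y.2⟩); simpa using hc))⟩⟩
  have hBA₁ : ⁅B₁, B₁⁆ ≤ A₁ := by
    rw [← Subgroup.map_le_map_iff_of_injective hf, Subgroup.map_commutator, hBm, hAm]
    exact hBA
  have hnot : ¬ B₁ ≤ Subgroup.normalizer (A₁ : Set T) := by
    intro h
    refine hBnA fun x hx => ?_
    have h1 := h (show (⟨x, Subgroup.mem_sup_right hx⟩ : T) ∈ B₁ from hx)
    refine Subgroup.mem_normalizer_fintype fun a ha => ?_
    exact (Subgroup.mem_normalizer_iff.mp h1 ⟨a, Subgroup.mem_sup_left ha⟩).mp ha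
  obtain ⟨As, h1, h2, h3, h4, h5, h6, h7⟩ := CfsgLib.Local.ReplaceOdd.replace_normal
    (hG.to_subgroup T) B₁ hp A₁ hA₁ hBA₁ hnot
  have eA : Nat.card A₁ = Nat.card A := Nat.card_congr
    (Subgroup.subgroupOfEquivOfLe (le_sup_left : A ≤ T)).toEquiv
  refine ⟨As.map f, ?_, ?_, ?_, ?_, ?_, ?_, ?_⟩
  · exact ⟨⟨fun ⟨x, x', hx, hxe⟩ ⟨y, y', hy, hye⟩ => Subtype.ext (by
      subst hxe hye
      exact congrArg f (setLike_mul_comm hx hy))⟩⟩
  · rw [Subgroup.card_map_of_injective hf, h2, eA]
  · have h := Subgroup.map_lt_map_iff_of_injective hf |>.mpr h3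
    rwa [Subgroup.map_inf _ _ _ hf, Subgroup.map_inf _ _ _ hf, hAm, hBm] at h
  · rintro _ ⟨x, hx, rfl⟩
    refine Subgroup.mem_normalizer_fintype fun a ha => ?_
    exact (Subgroup.mem_normalizer_iff.mp (h4 hx) ⟨a, Subgroup.mem_sup_left ha⟩).mp ha
  · rw [Subgroup.map_le_iff_le_comap]
    refine h5.trans ?_
    haveI : ((Subgroup.normalClosure (A : Set G)).comap f).Normal := Subgroup.normalClosure_normal.comap f
    exact Subgroup.normalClosure_le_normal fun x hx => Subgroup.subset_normalClosure hx
  · rw [← Monoid.exponent_eq_of_mulEquiv (As.equivMapOfInjective f hf)]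
    exact h6.trans (dvd_of_eq (Monoid.exponent_eq_of_mulEquiv (Subgroup.subgroupOfEquivOfLe le_sup_left)))
  · have e1 : Nat.card (Cfsg.omegaOne p A) = Nat.card (Cfsg.omegaOne p A₁) := by
      rw [← Subgroup.card_map_of_injective hf, CfsgLib.Local.ReplaceOdd.omega_map f hf, hAm]
    rw [e1, ← CfsgLib.Local.ReplaceOdd.omega_map f hf, Subgroup.card_map_of_injective hf]
    exact h7


end Cfsg.Agent.S3078
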