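import Cfsg.Statements.S3080
import Cfsg.Agent.Lib.StableLocals

set_option autoImplicit false
open Cfsg

namespace Cfsg.Agent.S3080

/-- Let p be an odd prime, G a finite group that is p-stable in the normalizer form, P a Sylow p-subgroup such that N_G(U) is p-constrained for every nontrivial subgroup U of P, and D a subgroup of P strongly closed in P with respect to G. Then N_G(Z(J(D))) controls strong G-fusion in P (for every subset A of P and every g ∈ G with gAg⁻¹ ⊆ P, some element of that normalizer acts on A exactly as g does; J(D) is generated by the abelian subgroups of D of largest order), and so does N_G(Ω₁(Z(J_e(D)))) (J_e(D) generated by the elementary abelian subgroups of largest order). -/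
theorem result {G : Type*} [Group G] [Finite G] {p : ℕ} [Fact p.Prime] (hp : p ≠ 2) (P : Sylow p G) (D : Subgroup G) (hD : Cfsg.IsStronglyClosed D (P : Subgroup G)) (hst : Cfsg.IsNormalizerPStable p G) (hc : ∀ U : Subgroup G, U ≤ (P : Subgroup G) → U ≠ ⊥ → Cfsg.IsPConstrained p ↥(Subgroup.normalizer (U : Set G))) : (∀ A : Set G, A ⊆ (P : Subgroup G) → Cfsg.ControlsStrongFusionOf (Subgroup.normalizer ((Cfsg.centerThompsonAOf D) : Set G)) (P : Subgroup G) A) ∧ (∀ A : Set G, A ⊆ (P : Subgroup G) → Cfsg.ControlsStrongFusionOf (Subgroup.normalizer ((Cfsg.omegaOne p (Cfsg.centerThompsonOf p D)) : Set G)) (P : Subgroup G) A) := by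
  refine ⟨fun A hA => ?_, fun A hA => ?_⟩
  · rw [CfsgLib.Stable.centerThompsonAOf_eq]
    exact CfsgLib.Stable.controls_of_ctrl (CfsgLib.Stable.ctrl_of_constrained_locals hp
      (V := fun _ _ D => CfsgLib.Stable.Zsub 0 D)
      (CfsgLib.Stable.localData_trivial (fun _ => CfsgLib.Stable.Zsub_le 0 _)
        (fun h h1 => CfsgLib.Stable.Zsub_ne_bot (Or.inl rfl) h h1)
        (@fun G X _ _ _ _ f D _ hf => CfsgLib.Stable.map_Zsub 0 _ f hf))
      (fun h1 h2 S E hE => CfsgLib.Stable.Zsub_normal hp (Or.inl rfl) h2 h1 S hE)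
      P hD hst hc) A hA
  · rw [CfsgLib.Stable.centerThompsonOf_eq]
    exact CfsgLib.Stable.controls_of_ctrl (CfsgLib.Stable.ctrl_of_constrained_locals hp
      (V := fun _ _ D => Cfsg.omegaOne p (CfsgLib.Stable.Zsub p D))
      (CfsgLib.Stable.localData_omega (p := p) (G₀ := PUnit) hp
        (fun {X} _ _ hX _ => by
          intro V _ _ a _ _
          obtain ⟨K, f, hf⟩ := hX
          haveI : Subsingleton X := hf.subsingleton
          rw [Subsingleton.elim (QuotientGroup.mk a) (1 : X ⧸ Subgroup.centralizer (V : Set X))]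
          exact one_mem _))
      (fun h1 h2 S E hE => CfsgLib.Stable.omegaOne_normal
        (CfsgLib.Stable.Zsub_normal hp (Or.inr rfl) h2 h1 S hE))
      P hD hst hc) A hA

end Cfsg.Agent.S3080
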