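import Cfsg.Statements.S3082
import Cfsg.Agent.Lib.StableFunctor

set_option autoImplicit false
open Cfsg

namespace Cfsg.Agent.S3082

/-- The Glauberman–Thompson normal p-complement criterion for strongly closed subgroups, p odd. Let G be a finite group, P a Sylow p-subgroup and D a subgroup of P strongly closed in P with respect to G. If N_G(Z(J(D))) has a normal p-complement (J(D) generated by the abelian subgroups of D of largest order), or N_G(Ω₁(Z(J_e(D)))) has one (J_e(D) generated by the elementary abelian subgroups of largest order), then G has a normal p-complement. -/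
theorem result {G : Type*} [Group G] [Finite G] {p : ℕ} [Fact p.Prime] (hp : p ≠ 2) (P : Sylow p G) (D : Subgroup G) (hD : Cfsg.IsStronglyClosed D (P : Subgroup G)) (h : Cfsg.HasNormalPComplement p ↥(Subgroup.normalizer ((Cfsg.centerThompsonAOf D) : Set G)) ∨ Cfsg.HasNormalPComplement p ↥(Subgroup.normalizer ((Cfsg.omegaOne p (Cfsg.centerThompsonOf p D)) : Set G))) : Cfsg.HasNormalPComplement p G := by
  have hD' : CfsgLib.Stable.SClosed D (P : Subgroup G) := hD
  rcases h with h | h
  · rw [CfsgLib.Stable.centerThompsonAOf_eq] at h
    exact CfsgLib.Stable.npc_of_Zsub_sclosed hp (Or.inl rfl) P hD' h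
  · rw [CfsgLib.Stable.centerThompsonOf_eq] at h
    refine CfsgLib.Stable.npc_of_Zsub_sclosed hp (Or.inr rfl) P hD'
      (CfsgLib.Stable.npc_of_le ?_ h)
    intro g hg
    refine CfsgLib.Stable.mem_normalizer_of_map_eq fun x hx => ?_
    change x ∈ Subgroup.closure _ at hx
    induction hx using Subgroup.closure_induction with
    | mem y hy =>
      exact Subgroup.subset_closure ⟨(Subgroup.mem_normalizer_iff.1 hg y).1 hy.1,
        by rw [conj_pow, hy.2, mul_one, mul_inv_cancel]⟩
    | one => simp
    | mul a b _ _ ha hb =>
      have := mul_mem ha hb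
      simpa [mul_assoc] using this
    | inv a _ ha =>
      have := inv_mem ha
      simpa [mul_assoc] using this

end Cfsg.Agent.S3082
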