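import Cfsg.Statements.S3087


set_option autoImplicit false
open Cfsg
open scoped Pointwise
set_option maxHeartbeats 800000

namespace Cfsg.Agent.S3087

/-- Let p be a prime, G a finite group acting linearly on a finite vector space V over the field with p elements, W a G-invariant subspace, and A a subgroup of G with |A|·|C_V(A)| ≥ |B|·|C_V(B)| for every subgroup B of A. Then |A|·|C_W(A)| ≥ |B|·|C_W(B)| for every subgroup B of A that contains C_A(W); that is, the image of A in the group induced on W satisfies the same maximality condition. -/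
theorem result {G V : Type*} [Group G] [Finite G] [AddCommGroup V] [Finite V] (p : ℕ) [Fact p.Prime] [Module (ZMod p) V]
    (ρ : Representation (ZMod p) G V) (W : Submodule (ZMod p) V) (hW : ∀ g : G, ∀ w ∈ W, ρ g w ∈ W)
    (A : Subgroup G)
    (hP : ∀ B : Subgroup G, B ≤ A →
      Nat.card ↥B * Nat.card {v : V // ∀ b ∈ B, ρ b v = v} ≤ Nat.card ↥A * Nat.card {v : V // ∀ a ∈ A, ρ a v = v})
    (B : Subgroup G) (hBA : B ≤ A) (hCB : ∀ a ∈ A, (∀ w ∈ W, ρ a w = w) → a ∈ B) :
    Nat.card ↥B * Nat.card {w : W // ∀ b ∈ B, ρ b w = w} ≤ Nat.card ↥A * Nat.card {w : W // ∀ a ∈ A, ρ a w = w} := by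
  let CW : Subgroup G → AddSubgroup V := fun C =>
    { carrier := {v | v ∈ W ∧ ∀ b ∈ C, ρ b v = v}
      zero_mem' := ⟨W.zero_mem, fun b _ => map_zero _⟩
      add_mem' := fun ha hb => ⟨W.add_mem ha.1 hb.1, fun g hg => by
        rw [map_add, ha.2 g hg, hb.2 g hg]⟩
      neg_mem' := fun ha => ⟨W.neg_mem ha.1, fun g hg => by rw [map_neg, ha.2 g hg]⟩ }
  let CV : Subgroup G → AddSubgroup V := fun C =>
    { carrier := {v | ∀ b ∈ C, ρ b v = v}
      zero_mem' := fun b _ => map_zero _
      add_mem' := fun ha hb g hg => by rw [map_add, ha g hg, hb g hg]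
      neg_mem' := fun ha g hg => by rw [map_neg, ha g hg] }
  have eW : ∀ C : Subgroup G,
      Nat.card {w : W // ∀ b ∈ C, ρ b w = w} = Nat.card ↥(CW C) := fun C => Nat.card_congr
    { toFun := fun w => ⟨(w.1 : V), w.1.2, w.2⟩
      invFun := fun w => ⟨⟨w.1, w.2.1⟩, w.2.2⟩
      left_inv := fun _ => rfl
      right_inv := fun _ => rfl }
  rw [eW, eW]
  have hcv : ∀ C : Subgroup G, Nat.card {v : V // ∀ b ∈ C, ρ b v = v} = Nat.card ↥(CV C) :=
    fun C => Nat.card_congr (Equiv.refl _)
  have key : Nat.card ↥(CW B) * Nat.card ↥(CV A) ≤ Nat.card ↥(CV B) * Nat.card ↥(CW A) := by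
    let f : ↥(CW B) × ↥(CV A) →+ ↥(CV B) :=
      { toFun := fun z => ⟨(z.1 : V) + (z.2 : V), fun b hb => by
          rw [map_add, z.1.2.2 b hb, z.2.2 b (hBA hb)]⟩
        map_zero' := Subtype.ext (by simp)
        map_add' := fun a b => Subtype.ext (by simp [add_add_add_comm]) }
    have h1 : Nat.card ↥f.ker ≤ Nat.card ↥(CW A) := by
      refine Nat.card_le_card_of_injective (fun z => ⟨(z.1.1 : V), z.1.1.2.1, fun a ha => ?_⟩) ?_
      · have h0 : (z.1.1 : V) + (z.1.2 : V) = 0 := congrArg Subtype.val z.2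
        rw [eq_neg_of_add_eq_zero_left h0, map_neg, z.1.2.2 a ha]
      · intro x y hxy
        have hw : (x.1.1 : V) = (y.1.1 : V) := by
          simpa using congrArg (fun u : ↥(CW A) => (u : V)) hxy
        have hx : (x.1.1 : V) + (x.1.2 : V) = 0 := congrArg Subtype.val x.2
        have hy : (y.1.1 : V) + (y.1.2 : V) = 0 := congrArg Subtype.val y.2
        refine Subtype.ext (Prod.ext (Subtype.ext hw) (Subtype.ext ?_))
        exact add_left_cancel (hx.trans (hw ▸ hy).symm)
    rw [← Nat.card_prod, AddSubgroup.card_eq_card_quotient_mul_card_addSubgroup f.ker,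
      Nat.card_congr (QuotientAddGroup.quotientKerEquivRange f).toEquiv]
    exact Nat.mul_le_mul (Nat.card_le_card_of_injective _ Subtype.val_injective) h1
  have h := hP B hBA
  rw [hcv, hcv] at h
  refine Nat.le_of_mul_le_mul_left ?_ (Nat.card_pos (α := ↥(CV A)))
  calc Nat.card ↥(CV A) * (Nat.card ↥B * Nat.card ↥(CW B))
      = Nat.card ↥B * (Nat.card ↥(CW B) * Nat.card ↥(CV A)) := by ring
    _ ≤ Nat.card ↥B * (Nat.card ↥(CV B) * Nat.card ↥(CW A)) := Nat.mul_le_mul_left _ key
    _ = (Nat.card ↥B * Nat.card ↥(CV B)) * Nat.card ↥(CW A) := by ring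
    _ ≤ (Nat.card ↥A * Nat.card ↥(CV A)) * Nat.card ↥(CW A) := Nat.mul_le_mul_right _ h
    _ = _ := by ring

end Cfsg.Agent.S3087
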