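import Cfsg.Statements.S3155
import Cfsg.Agent.Lib.CoreBasic

set_option autoImplicit false
open Cfsg

namespace Cfsg.Agent.S3155

/-- Let B be the direct product of three cyclic groups of order 4. Then the automorphism of B inverting every element is not the square of any automorphism of B. -/
theorem result {B : Type*} [CommGroup B] [Finite B] (hB : Nonempty (B ≃* Multiplicative (ZMod 4 × ZMod 4 × ZMod 4)))
    (τ : B ≃* B) : τ.trans τ ≠ MulEquiv.inv B := by
  intro h
  obtain ⟨e⟩ := hB
  haveI : Fact (1 < 4) := ⟨by norm_num⟩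
  let f : (ZMod 4 × ZMod 4 × ZMod 4) →+ (ZMod 4 × ZMod 4 × ZMod 4) :=
    AddMonoidHom.mk' (fun v => Multiplicative.toAdd (e (τ (e.symm (Multiplicative.ofAdd v)))))
      (fun a b => by rw [ofAdd_add, map_mul, map_mul, map_mul, toAdd_mul])
  have hf : ∀ v, f (f v) = -v := by
    intro v
    have h1 : τ (τ (e.symm (Multiplicative.ofAdd v))) = (e.symm (Multiplicative.ofAdd v))⁻¹ := by
      have := DFunLike.congr_fun h (e.symm (Multiplicative.ofAdd v))
      exact this
    show Multiplicative.toAdd (e (τ (e.symm (Multiplicative.ofAdd (Multiplicative.toAdd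
      (e (τ (e.symm (Multiplicative.ofAdd v))))))))) = -v
    rw [ofAdd_toAdd]
    rw [e.symm_apply_apply, h1, map_inv, e.apply_symm_apply]
    rfl
  have hlin : ∀ (c : ZMod 4) (v : ZMod 4 × ZMod 4 × ZMod 4), f (c • v) = c • f v :=
    fun c v => ZMod.map_smul f c v
  let L : (ZMod 4 × ZMod 4 × ZMod 4) →ₗ[ZMod 4] (ZMod 4 × ZMod 4 × ZMod 4) :=
    { toFun := f, map_add' := f.map_add, map_smul' := hlin }
  have hL : L * L = -LinearMap.id := LinearMap.ext fun v => hf v
  have hd := congrArg LinearMap.det hL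
  rw [map_mul, show (-LinearMap.id : (ZMod 4 × ZMod 4 × ZMod 4) →ₗ[ZMod 4] _) = (-1 : ZMod 4) • LinearMap.id by
    exact (neg_one_smul _ _).symm, LinearMap.det_smul, LinearMap.det_id, mul_one,
    show Module.finrank (ZMod 4) (ZMod 4 × ZMod 4 × ZMod 4) = 3 by
      rw [Module.finrank_prod, Module.finrank_prod, Module.finrank_self]] at hd
  revert hd
  generalize LinearMap.det L = d
  revert d
  decide

end Cfsg.Agent.S3155
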