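import Cfsg.Statements.S3178
import Cfsg.Agent.Lib.TransferApps
import Cfsg.Agent.Lib.FgsTIHall

set_option autoImplicit false
open Cfsg
open scoped Pointwise

namespace Cfsg.Agent.S3178

/-- Groups with a modular Sylow 2-subgroup have a normal 2-complement. Let S, of order 2^(n+1) with n ≥ 3, be a Sylow 2-subgroup of a finite group G, and suppose S contains an element a of order 2^n and an involution b with b a b⁻¹ = a^(2^(n-1) + 1); so S is the non-abelian 2-group with a cyclic subgroup of index 2 that is neither dihedral, semidihedral nor generalized quaternion. Then G has a normal 2-complement. -/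
theorem result {G : Type*} [Group G] [Finite G]
    (S : Sylow 2 G) (n : ℕ) (hn : 3 ≤ n) (hS : Nat.card ↥(S : Subgroup G) = 2 ^ (n + 1))
    (a b : G) (ha : a ∈ (S : Subgroup G)) (hb : b ∈ (S : Subgroup G))
    (hao : orderOf a = 2 ^ n) (hbo : orderOf b = 2) (hrel : b * a * b⁻¹ = a ^ (2 ^ (n - 1) + 1)) :
    Cfsg.HasNormalPComplement 2 G := by
  classical
  set z : G := a ^ (2 ^ (n - 1)) with hz
  have hn1 : (2:ℕ) ^ n = 2 ^ (n - 1) * 2 := by rw [← pow_succ]; congr 1; omega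
  have hbb : b * b = 1 := by rw [← sq, ← hbo]; exact pow_orderOf_eq_one b
  have hbinv : b⁻¹ = b := inv_eq_of_mul_eq_one_right hbb
  have hak : ∀ i : ℕ, b * a ^ i * b⁻¹ = a ^ ((2 ^ (n - 1) + 1) * i) := fun i => by
    rw [← conj_pow, hrel, pow_mul]
  have hba : b ∉ Subgroup.zpowers a := by
    intro h
    obtain ⟨k, hk⟩ := Subgroup.mem_zpowers_iff.1 h
    have hc : b * a * b⁻¹ = a := by rw [← hk]; group
    rw [hrel] at hc
    have : (2 ^ (n - 1) + 1) ≡ 1 [MOD 2 ^ n] := by rw [← hao, ← pow_eq_pow_iff_modEq, hc, pow_one]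
    have h2 := (Nat.modEq_iff_dvd' (by omega)).1 this.symm
    rw [Nat.add_sub_cancel] at h2
    exact absurd (Nat.le_of_dvd (by positivity) h2) (not_le.2 (Nat.pow_lt_pow_right (by norm_num) (by omega)))
  let F : Fin (2 ^ n) × Fin 2 → (S : Subgroup G) := fun q =>
    ⟨a ^ q.1.val * b ^ q.2.val, mul_mem (pow_mem ha _) (pow_mem hb _)⟩
  haveI := Fintype.ofFinite (S : Subgroup G)
  have hF : Function.Surjective F := by
    refine ((Fintype.bijective_iff_injective_and_card F).2 ⟨?_, ?_⟩).2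
    · rintro ⟨i, j⟩ ⟨i', j'⟩ h
      have h' : a ^ i.val * b ^ j.val = a ^ i'.val * b ^ j'.val := congrArg Subtype.val h
      have hj : j = j' := by
        by_contra hj
        apply hba
        rcases (show (j.val = 0 ∧ j'.val = 1) ∨ (j.val = 1 ∧ j'.val = 0) by omega) with ⟨e, e'⟩ | ⟨e, e'⟩
        · rw [e, e', pow_zero, pow_one, mul_one] at h'
          rw [show b = (a ^ i'.val)⁻¹ * a ^ i.val by rw [h']; group]
          exact mul_mem (inv_mem (pow_mem (Subgroup.mem_zpowers a) _)) (pow_mem (Subgroup.mem_zpowers a) _)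
        · rw [e, e', pow_zero, pow_one, mul_one] at h'
          rw [show b = (a ^ i.val)⁻¹ * a ^ i'.val by rw [← h']; group]
          exact mul_mem (inv_mem (pow_mem (Subgroup.mem_zpowers a) _)) (pow_mem (Subgroup.mem_zpowers a) _)
      subst hj
      exact Prod.ext (Fin.ext (pow_injOn_Iio_orderOf (Set.mem_Iio.2 (by rw [hao]; exact i.isLt)) (Set.mem_Iio.2 (by rw [hao]; exact i'.isLt)) (mul_right_cancel h'))) rfl
    · rw [Fintype.card_prod, Fintype.card_fin, Fintype.card_fin, ← Nat.card_eq_fintype_card, hS, pow_succ]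
  have hform : ∀ s ∈ (S : Subgroup G), ∃ i < 2 ^ n, ∃ j < 2, s = a ^ i * b ^ j := fun s hs => by
    obtain ⟨q, hq⟩ := hF ⟨s, hs⟩
    exact ⟨q.1, q.1.isLt, q.2, q.2.isLt, (congrArg Subtype.val hq).symm⟩
  have hsq : ∀ i j, j < 2 → (a ^ i * b ^ j) ^ 2 = a ^ (i * (2 * (1 + j * 2 ^ (n - 2)))) := fun i j hj => by
    interval_cases j
    · rw [pow_zero, mul_one, ← pow_mul, zero_mul, add_zero, mul_one]
    · rw [pow_one, sq, show a ^ i * b * (a ^ i * b) = a ^ i * (b * a ^ i * b⁻¹) * (b * b) by group, hak, hbb, mul_one, ← pow_add]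
      congr 1
      rw [show n - 1 = n - 2 + 1 by omega, pow_succ]; ring
  have hroots : ∀ (r : G) (f : Fin 5 → G), (∀ k, f k ∈ (S : Subgroup G) ∧ f k ^ 2 = r) → ¬ Function.Injective f := by
    intro r f hf hinj
    choose i hi j hj hij using fun k => hform (f k) (hf k).1
    obtain ⟨k, l, hkl, he⟩ := Fintype.exists_ne_map_eq_of_card_lt
      (fun k => ((⟨i k / 2 ^ (n - 1), Nat.div_lt_of_lt_mul (hn1 ▸ hi k)⟩ : Fin 2), (⟨j k, hj k⟩ : Fin 2))) (by simp)
    simp only [Prod.mk.injEq, Fin.mk.injEq] at he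
    apply hkl
    apply hinj
    rw [hij k, hij l, ← he.2]
    have h1 := (hf k).2.trans (hf l).2.symm
    rw [hij k, hij l, hsq _ _ (hj k), hsq _ _ (hj l), ← he.2, pow_eq_pow_iff_modEq, hao, hn1,
      mul_left_comm (i k), mul_left_comm (i l), mul_comm (2 ^ (n - 1)) 2] at h1
    have hco : Nat.Coprime (2 ^ (n - 1)) (1 + j k * 2 ^ (n - 2)) := Nat.Coprime.pow_left _ (Nat.coprime_two_left.2 (Nat.odd_iff.2 (by
      rw [show n - 2 = n - 3 + 1 by omega, pow_succ, ← mul_assoc]; omega)))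
    have h2 : i k ≡ i l [MOD 2 ^ (n - 1)] := Nat.ModEq.cancel_right_of_coprime hco (Nat.ModEq.mul_left_cancel' (by norm_num) h1)
    have : i k = i l := by
      rw [← Nat.div_add_mod (i k) (2 ^ (n - 1)), ← Nat.div_add_mod (i l) (2 ^ (n - 1)), he.1, h2]
    rw [this]
  have hsqmem : ∀ s ∈ (S : Subgroup G), ∃ i : ℕ, s ^ 2 = a ^ (2 * i) := fun s hs => by
    obtain ⟨i, -, j, hj, rfl⟩ := hform s hs
    exact ⟨i * (1 + j * 2 ^ (n - 2)), by rw [hsq i j hj]; ring_nf⟩
  have hb2 : ∀ i : ℕ, b * a ^ (2 * i) * b⁻¹ = a ^ (2 * i) := fun i => by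
    rw [hak, pow_eq_pow_iff_modEq, hao, hn1]
    refine ((Nat.modEq_iff_dvd' (Nat.le_mul_of_pos_left _ (by positivity))).2 ⟨i, ?_⟩).symm
    rw [add_mul, one_mul, Nat.add_sub_cancel]; ring
  have hcen : ∀ i : ℕ, ∀ s ∈ (S : Subgroup G), Commute (a ^ (2 * i)) s := fun i s hs => by
    obtain ⟨k, -, j, hj, rfl⟩ := hform s hs
    exact (Commute.pow_pow (Commute.refl a) _ _).mul_right ((show Commute (a ^ (2 * i)) b from (mul_inv_eq_iff_eq_mul.1 (hb2 i)).symm).pow_right _)
  have hz2 : z = a ^ (2 * 2 ^ (n - 2)) := by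
    rw [hz]; congr 1; rw [show n - 1 = n - 2 + 1 by omega, pow_succ']
  have hzz : z * z = 1 := by rw [hz, ← pow_add, ← two_mul, mul_comm, ← hn1, ← hao, pow_orderOf_eq_one]
  have hz1 : z ≠ 1 := pow_ne_one_of_lt_orderOf (by positivity) (by rw [hao]; exact Nat.pow_lt_pow_right (by norm_num) (by omega))
  have hinv : ∀ i : ℕ, a ^ i * a ^ i = 1 → a ^ i ≠ 1 → a ^ i = z := by
    intro i h1 h2
    have hd : 2 ^ n ∣ i * 2 := by rw [← hao, orderOf_dvd_iff_pow_eq_one, mul_two, pow_add]; exact h1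
    rw [hn1] at hd
    obtain ⟨q, rfl⟩ := Nat.dvd_of_mul_dvd_mul_right (by norm_num) hd
    rcases Nat.mod_two_eq_zero_or_one q with hq | hq
    · exfalso
      refine h2 ?_
      rw [show 2 ^ (n - 1) * q = 2 ^ n * (q / 2) by rw [hn1, mul_assoc]; congr 1; omega, pow_mul, ← hao, pow_orderOf_eq_one, one_pow]
    · rw [show 2 ^ (n - 1) * q = 2 ^ n * (q / 2) + 2 ^ (n - 1) * 1 by rw [hn1, mul_assoc, ← mul_add]; congr 1; omega,
        pow_add, mul_one, pow_mul, ← hao, pow_orderOf_eq_one, one_pow, one_mul]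
  have hodd2 : ∀ (g s : G), Odd (orderOf g) → Commute (g ^ 2) s → Commute g s := fun g s ho hc => by
    obtain ⟨m, hm⟩ := ho
    have : g = (g ^ 2) ^ (m + 1) := by
      rw [← pow_mul, show 2 * (m + 1) = orderOf g + 1 by omega, pow_succ, pow_orderOf_eq_one, one_mul]
    rw [this]
    exact hc.pow_left _
  -- a 2-subgroup of S with an element of order at least four admits no automorphism of odd order
  have mlS : ∀ Q : Subgroup G, Q ≤ (S : Subgroup G) → (∃ w ∈ Q, w ^ 2 ≠ 1) →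
      ∀ g ∈ Subgroup.normalizer (Q : Set G), Odd (orderOf g) → ∀ s ∈ Q, Commute g s := by
    intro Q hQS ⟨w, hw, hw2⟩ g hgN hgo
    have hcQ : ∀ s ∈ Q, g * s * g⁻¹ ∈ Q := fun s hs => (Subgroup.mem_normalizer_iff.1 hgN s).1 hs
    have hsqfix : ∀ s ∈ Q, Commute g (s ^ 2) := by
      intro s hs
      obtain ⟨i, hi⟩ := hsqmem s (hQS hs)
      obtain ⟨i', hi'⟩ := hsqmem _ (hQS (hcQ s hs))
      rw [conj_pow] at hi'
      have hr1 : s ^ 2 ∈ Subgroup.zpowers a := hi ▸ pow_mem (Subgroup.mem_zpowers a) _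
      have hr2 : g * s ^ 2 * g⁻¹ ∈ Subgroup.zpowers a := hi' ▸ pow_mem (Subgroup.mem_zpowers a) _
      have he : Subgroup.zpowers (g * s ^ 2 * g⁻¹) = Subgroup.zpowers (s ^ 2) := by
        have l1 := Subgroup.zpowers_le.2 hr2
        have l2 := Subgroup.zpowers_le.2 hr1
        rw [← inf_eq_left.2 l1, ← inf_eq_left.2 l2, ← Subgroup.subgroupOf_inj]
        refine CfsgLib.TIHall.cyclic_eq_of_card ?_
        rw [Nat.card_congr (Subgroup.subgroupOfEquivOfLe l1).toEquiv, Nat.card_congr (Subgroup.subgroupOfEquivOfLe l2).toEquiv,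
          Nat.card_zpowers, Nat.card_zpowers]
        exact orderOf_injective (MulAut.conj g).toMonoidHom (MulAut.conj g).injective _
      obtain ⟨k, hk⟩ := mem_powers_iff_mem_zpowers.2 (he ▸ Subgroup.mem_zpowers (g * s ^ 2 * g⁻¹))
      simp only at hk
      have hiter : ∀ t : ℕ, g ^ t * s ^ 2 * (g ^ t)⁻¹ = (s ^ 2) ^ (k ^ t) := fun t => by
        induction t with
        | zero => simp
        | succ t ih =>
          rw [pow_succ', mul_inv_rev, show g * g ^ t * s ^ 2 * ((g ^ t)⁻¹ * g⁻¹) = g * (g ^ t * s ^ 2 * (g ^ t)⁻¹) * g⁻¹ by group,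
            ih, ← conj_pow, ← hk, ← pow_mul, ← pow_succ']
      have h := hiter (orderOf g)
      rw [pow_orderOf_eq_one, one_mul, inv_one, mul_one] at h
      obtain ⟨e, -, he'⟩ := (Nat.dvd_prime_pow Nat.prime_two).1 (hao ▸ (by
        rw [hi]; exact orderOf_pow_dvd _ : orderOf (s ^ 2) ∣ orderOf a))
      have hk1 : ((k : ZMod (orderOf (s ^ 2)))) ^ orderOf g = 1 := by
        rw [← Nat.cast_pow, ← Nat.cast_one, ZMod.natCast_eq_natCast_iff]
        exact pow_eq_pow_iff_modEq.1 (by rw [pow_one]; exact h.symm)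
      haveI : NeZero (orderOf (s ^ 2)) := ⟨(orderOf_pos _).ne'⟩
      let u : (ZMod (orderOf (s ^ 2)))ˣ := Units.ofPowEqOne _ _ hk1 (orderOf_pos g).ne'
      have hu : orderOf u = 1 := by
        have h1 : orderOf u ∣ orderOf g := orderOf_dvd_of_pow_eq_one (Units.pow_ofPowEqOne hk1 _)
        have h2 : orderOf u ∣ 2 ^ e := by
          refine (orderOf_dvd_card (x := u)).trans ?_
          rw [ZMod.card_units_eq_totient, he']
          rcases e with _ | e
          · simp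
          · rw [Nat.totient_prime_pow Nat.prime_two (Nat.succ_pos _)]
            simpa using pow_dvd_pow 2 (Nat.le_succ e)
        exact Nat.eq_one_of_dvd_coprimes ((Nat.coprime_two_right.2 hgo).pow_right e) h1 h2
      have hk2 : ((k : ZMod (orderOf (s ^ 2)))) = 1 := congrArg Units.val (orderOf_eq_one_iff.1 hu)
      rw [← Nat.cast_one, ZMod.natCast_eq_natCast_iff, ← pow_eq_pow_iff_modEq, pow_one, hk] at hk2
      exact mul_inv_eq_iff_eq_mul.1 hk2
    have hzQ : z ∈ Q ∧ Commute g z := by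
      obtain ⟨i, hi⟩ := hsqmem w (hQS hw)
      obtain ⟨e, -, he⟩ := (Nat.dvd_prime_pow Nat.prime_two).1 (hao ▸ (by rw [hi]; exact orderOf_pow_dvd _ : orderOf (w ^ 2) ∣ orderOf a))
      obtain ⟨e, rfl⟩ : ∃ e', e = e' + 1 := ⟨e - 1, by rcases e with _ | e <;> simp_all⟩
      have hz' : (w ^ 2) ^ (2 ^ e) = z := by
        rw [hi, ← pow_mul]
        refine hinv _ ?_ ?_
        · rw [← pow_add, ← two_mul, mul_comm, mul_assoc, pow_mul, ← hi, ← pow_succ, ← he, pow_orderOf_eq_one]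
        · rw [pow_mul, ← hi]
          exact pow_ne_one_of_lt_orderOf (by positivity) (by rw [he, pow_succ]; linarith [Nat.two_pow_pos e])
      exact ⟨hz' ▸ pow_mem (pow_mem hw 2) _, hz' ▸ (hsqfix w hw).pow_right _⟩
    intro s hs
    by_contra hns
    have hne2 : ¬ Commute (g ^ 2) s := fun h => hns (hodd2 g s hgo h)
    have hne4 : ¬ Commute (g ^ 4) s := fun h => hne2 (hodd2 _ s (hgo.of_dvd_nat (orderOf_pow_dvd 2)) (by rwa [← pow_mul]))
    let c : G → G := fun x => g * x * g⁻¹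
    have hz' : c z = z := mul_inv_eq_iff_eq_mul.2 hzQ.2.eq
    have hcm : ∀ x y, c (x * y) = c x * c y := fun x y => by simp only [c]; group
    have hci : ∀ x y, c x = c y → x = y := fun x y h => (MulAut.conj g).injective h
    have hc1 : c s ≠ s := fun h => hns (mul_inv_eq_iff_eq_mul.1 h)
    have hc2 : c (c s) ≠ s := fun h => hne2 (mul_inv_eq_iff_eq_mul.1 ((show g ^ 2 * s * (g ^ 2)⁻¹ = c (c s) by simp only [c, pow_succ, pow_zero, one_mul]; group).trans h))
    have hc4 : c (c (c (c s))) ≠ s := fun h => hne4 (mul_inv_eq_iff_eq_mul.1 ((show g ^ 4 * s * (g ^ 4)⁻¹ = c (c (c (c s))) by simp only [c, pow_succ, pow_zero, one_mul]; group).trans h))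
    have hd3 : c s ≠ s * z := fun h => hc2 ((congrArg c h).trans ((hcm s z).trans (by rw [h, hz', mul_assoc, hzz, mul_one])))
    have hd4 : c (c s) ≠ s * z := fun h => hc4 (((congrArg c (congrArg c h)).trans ((congrArg c (hcm s z)).trans ((hcm _ _).trans (by rw [hz', hz', h, mul_assoc, hzz, mul_one])))))
    have hmz : ∀ x, x * z * z = x := fun x => by rw [mul_assoc, hzz, mul_one]
    have hsz : ∀ t ∈ (S : Subgroup G), (t * z) ^ 2 = t ^ 2 := fun t ht => by
      have hc : Commute t z := by rw [hz2]; exact (hcen _ t ht).symm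
      rw [hc.mul_pow, sq z, hzz, mul_one]
    refine hroots (s ^ 2) ![s, c s, c (c s), s * z, c s * z] ?_ ?_
    · have h1 : ∀ t, t ^ 2 = s ^ 2 → c t ^ 2 = s ^ 2 := fun t ht => by
        show (g * t * g⁻¹) ^ 2 = s ^ 2
        rw [conj_pow, ht, mul_inv_eq_iff_eq_mul]; exact (hsqfix s hs).eq
      have hzS : z ∈ (S : Subgroup G) := hQS hzQ.1
      intro k
      fin_cases k
      · exact ⟨hQS hs, rfl⟩
      · exact ⟨hQS (hcQ s hs), h1 s rfl⟩
      · exact ⟨hQS (hcQ _ (hcQ s hs)), h1 _ (h1 s rfl)⟩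
      · exact ⟨mul_mem (hQS hs) hzS, hsz s (hQS hs)⟩
      · exact ⟨mul_mem (hQS (hcQ s hs)) hzS, (hsz _ (hQS (hcQ s hs))).trans (h1 s rfl)⟩
    · have e01 : s ≠ c s := hc1.symm
      have e02 : s ≠ c (c s) := hc2.symm
      have e03 : s ≠ s * z := fun h => hz1 (by simpa using h.symm)
      have e04 : s ≠ c s * z := fun h => hd3 (by rw [← hmz (c s), ← h])
      have e12 : c s ≠ c (c s) := fun h => hc1 (hci _ _ h).symm
      have e14 : c s ≠ c s * z := fun h => hz1 (by simpa using h.symm)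
      have e24 : c (c s) ≠ c s * z := fun h => hd3 (hci _ _ (by rw [h, hcm, hz']))
      have e34 : s * z ≠ c s * z := fun h => e01 (mul_right_cancel h)
      intro x y hxy
      fin_cases x <;> fin_cases y <;> simp [Ne] at hxy ⊢ <;> (first | exact absurd hxy ‹_› | exact absurd hxy.symm ‹_›)
  have ML : ∀ Q : Subgroup G, IsPGroup 2 Q → (∃ w ∈ Q, w ^ 2 ≠ 1) →
      ∀ g ∈ Subgroup.normalizer (Q : Set G), Odd (orderOf g) → ∀ s ∈ Q, Commute g s := by
    intro Q hQ ⟨w, hw, hw2⟩ g hgN hgo s hs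
    obtain ⟨P, hP⟩ := hQ.exists_le_sylow
    obtain ⟨h, hh⟩ := MulAction.exists_smul_eq G P S
    let e : G ≃* G := MulAut.conj h
    have hle : Q.map e.toMonoidHom ≤ (S : Subgroup G) := by
      rintro _ ⟨q, hq, rfl⟩
      rw [← hh, Sylow.coe_subgroup_smul, Subgroup.pointwise_smul_def]
      exact ⟨q, hP hq, rfl⟩
    have := mlS _ hle ⟨e w, ⟨w, hw, rfl⟩, fun h' => hw2 (e.injective (by rw [map_pow, h', map_one]))⟩ (e g)
      (Subgroup.mem_normalizer_iff.2 fun x => by
        obtain ⟨y, rfl⟩ := e.surjective x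
        rw [← map_inv, ← map_mul, ← map_mul]
        exact (Subgroup.mem_map_iff_mem e.injective).trans ((Subgroup.mem_normalizer_iff.1 hgN y).trans (Subgroup.mem_map_iff_mem e.injective).symm))
      ((orderOf_injective e.toMonoidHom e.injective g).symm ▸ hgo) (e s) ⟨s, hs, rfl⟩
    exact e.injective (by simpa only [map_mul] using this.eq)
  refine CfsgLib.Core.hasNormalPComplement_of_local fun Q hQ g hgN hgo => ?_
  have hgo' : Odd (orderOf g) := Nat.coprime_two_right.1 hgo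
  by_cases hw : ∃ w ∈ Q, w ^ 2 ≠ 1
  · exact Subgroup.mem_centralizer_iff.2 fun s hs => (ML Q hQ hw g hgN hgo' s hs).eq.symm
  push Not at hw
  by_contra hgC
  obtain ⟨u, hu, hgu⟩ : ∃ u ∈ Q, ¬ Commute g u := by
    by_contra h; push Not at h
    exact hgC (Subgroup.mem_centralizer_iff.2 fun s hs => (h s hs).eq.symm)
  have hcQ : ∀ s ∈ Q, g * s * g⁻¹ ∈ Q := fun s hs => (Subgroup.mem_normalizer_iff.1 hgN s).1 hs
  obtain ⟨P, hP⟩ := hQ.exists_le_sylow
  obtain ⟨h, hh⟩ := MulAction.exists_smul_eq G P S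
  have hQS' : ∀ q ∈ Q, h * q * h⁻¹ ∈ (S : Subgroup G) := fun q hq => by
    rw [← hh, Sylow.coe_subgroup_smul, Subgroup.pointwise_smul_def]
    exact ⟨q, hP hq, rfl⟩
  -- the four elements with trivial square lie in Q
  have hfull : ∀ t ∈ (S : Subgroup G), t ^ 2 = 1 → h⁻¹ * t * h ∈ Q := by
    intro t ht ht2
    by_contra htQ
    have hne : ∀ q ∈ Q, h * q * h⁻¹ ≠ t := fun q hq e => htQ (by rw [← e]; group; simpa using hq)
    let c : G → G := fun x => g * x * g⁻¹
    have hc1 : c u ≠ u := fun e => hgu (mul_inv_eq_iff_eq_mul.1 e)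
    have hc2 : c (c u) ≠ u := fun e => hgu (hodd2 g u hgo' (mul_inv_eq_iff_eq_mul.1 ((show g ^ 2 * u * (g ^ 2)⁻¹ = c (c u) by simp only [c, pow_succ, pow_zero, one_mul]; group).trans e)))
    have hu1 : u ≠ 1 := fun e => hgu (e ▸ Commute.one_right g)
    have hci : ∀ x y, c x = c y → x = y := fun x y e => (MulAut.conj g).injective e
    have hmem : ∀ q ∈ ({1, u, c u, c (c u)} : Set G), q ∈ Q := by
      rintro q (rfl | rfl | rfl | rfl)
      exacts [one_mem Q, hu, hcQ u hu, hcQ _ (hcQ u hu)]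
    let f : Fin 4 → G := ![1, u, c u, c (c u)]
    have hfQ : ∀ k, f k ∈ Q := fun k => by
      fin_cases k <;> exact hmem _ (by simp [f])
    have e1 : ∀ x, x ≠ 1 → c x ≠ 1 := fun x hx e => hx (hci _ _ (e.trans (show c 1 = 1 by simp [c]).symm))
    have hfinj : Function.Injective f := by
      have a1 : (1:G) ≠ u := hu1.symm
      have a2 : (1:G) ≠ c u := (e1 u hu1).symm
      have a3 : (1:G) ≠ c (c u) := (e1 _ (e1 u hu1)).symm
      have a4 : u ≠ c u := hc1.symm
      have a5 : u ≠ c (c u) := hc2.symm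
      have a6 : c u ≠ c (c u) := fun e => hc1 (hci _ _ e).symm
      intro x y hxy
      fin_cases x <;> fin_cases y <;> simp [f, Ne] at hxy ⊢ <;> (first | exact absurd hxy ‹_› | exact absurd hxy.symm ‹_›)
    refine hroots 1 (Fin.cons t fun k => h * f k * h⁻¹) (fun k => ?_) ?_
    · refine Fin.cases ?_ (fun k => ?_) k
      · exact ⟨ht, ht2⟩
      · exact ⟨hQS' _ (hfQ k), by rw [Fin.cons_succ, conj_pow, hw _ (hfQ k), mul_one, mul_inv_cancel]⟩
    · exact Fin.cons_injective_iff.2 ⟨fun ⟨k, e⟩ => hne _ (hfQ k) e, fun x y e => hfinj (mul_left_cancel (mul_right_cancel e))⟩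
  let e : G ≃* G := MulAut.conj h⁻¹
  have he : ∀ x, e x = h⁻¹ * x * h := fun x => by simp [e]
  -- `S` (conjugated) normalizes Q, its fourth-order element centralizes Q
  have haQ : e (a ^ 2) ∈ Subgroup.centralizer (Q : Set G) := Subgroup.mem_centralizer_iff.2 fun q hq => by
    have := (hcen 1 _ (hQS' q hq)).eq
    rw [mul_one] at this
    have h' := congrArg e this
    have hq' : e (h * q * h⁻¹) = q := (he _).trans (by group)
    rw [map_mul e (a ^ 2), map_mul e _ (a ^ 2), hq'] at h'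
    exact h'.symm
  have hw4 : e (a ^ 2) ^ 2 ≠ 1 := fun h' => by
    have : (a ^ 2) ^ 2 = 1 := e.injective (by rw [map_pow, h', map_one])
    rw [← pow_mul] at this
    have h8 : (2:ℕ) ^ 3 ≤ 2 ^ n := Nat.pow_le_pow_right (by norm_num) hn
    exact absurd (Nat.le_of_dvd (by norm_num) (hao ▸ orderOf_dvd_of_pow_eq_one this)) (by omega)
  let N := Subgroup.normalizer (Q : Set G)
  let C : Subgroup N := (Subgroup.centralizer (Q : Set G)).subgroupOf N
  haveI : C.Normal := Subgroup.normal_subgroupOf_centralizer_normalizer (Q : Set G)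
  have hwN : e (a ^ 2) ∈ N := Subgroup.centralizer_le_normalizer _ haQ
  let w : C := ⟨⟨e (a ^ 2), hwN⟩, haQ⟩
  have hwp : IsPGroup 2 (Subgroup.zpowers w) := by
    refine IsPGroup.of_card (n := n - 1) ?_
    rw [Nat.card_zpowers, ← Subgroup.orderOf_coe, ← Subgroup.orderOf_coe]
    show orderOf (e (a ^ 2)) = _
    rw [show orderOf (e (a ^ 2)) = orderOf (a ^ 2) from orderOf_injective e.toMonoidHom e.injective _,
      orderOf_pow_of_dvd (by norm_num) (by rw [hao, hn1]; exact dvd_mul_left _ _), hao, hn1, Nat.mul_div_cancel _ (by norm_num)]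
  obtain ⟨T, hT⟩ := hwp.exists_le_sylow
  have hfr := Sylow.normalizer_sup_eq_top T
  obtain ⟨y, hy, c, hc, hyc⟩ := Subgroup.mem_sup_of_normal_right.1 (hfr.ge (Subgroup.mem_top (⟨g, hgN⟩ : N)))
  obtain ⟨k, m, hm, hkm⟩ := Nat.exists_eq_two_pow_mul_odd (orderOf_pos y).ne'
  let T' : Subgroup G := ((T : Subgroup C).map C.subtype).map N.subtype
  have hyo : Odd (orderOf ((y : G) ^ (2 ^ k))) := by
    rw [orderOf_pow_of_dvd (by positivity) (by rw [Subgroup.orderOf_coe, hkm]; exact dvd_mul_right _ _), Subgroup.orderOf_coe, hkm, Nat.mul_div_cancel_left _ (by positivity)]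
    exact hm
  have hyN : (y : G) ∈ Subgroup.normalizer (T' : Set G) := by
    refine Subgroup.mem_normalizer_iff.2 fun x => ⟨?_, ?_⟩
    · rintro ⟨x', hx', rfl⟩
      exact ⟨y * x' * y⁻¹, (Subgroup.mem_normalizer_iff.1 hy x').1 hx', rfl⟩
    · rintro ⟨x', hx', hxe⟩
      exact ⟨y⁻¹ * x' * y, (Subgroup.mem_normalizer_iff''.1 hy x').1 hx', by
        show ((y⁻¹ * x' * y : N) : G) = x
        rw [Subgroup.coe_mul, Subgroup.coe_mul, Subgroup.coe_inv, show (x' : G) = y * x * (y : G)⁻¹ from hxe]; group⟩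
  have hcent := ML T' ((T.2.map _).map _) ⟨e (a ^ 2), ⟨_, ⟨w, hT (Subgroup.mem_zpowers w), rfl⟩, rfl⟩, hw4⟩ _
    (pow_mem hyN (2 ^ k)) hyo
  have hQC : ∀ q ∈ Q, q ∈ T' := fun q hq => by
    have hqN : q ∈ N := Subgroup.le_normalizer hq
    have hQab : q ∈ Subgroup.centralizer (Q : Set G) := Subgroup.mem_centralizer_iff.2 fun r hr => by
      have hqi : ∀ x ∈ Q, x⁻¹ = x := fun x hx => inv_eq_of_mul_eq_one_right (by rw [← sq]; exact hw x hx)
      rw [← hqi (r * q) (mul_mem hr hq), mul_inv_rev, hqi r hr, hqi q hq]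
    let Q' : Subgroup C := (Q.subgroupOf N).subgroupOf C
    haveI : (Q.subgroupOf N).Normal := Subgroup.normal_in_normalizer
    haveI : Q'.Normal := inferInstance
    have hQ' : IsPGroup 2 Q' := (hQ.comap_of_injective N.subtype N.subtype_injective).comap_of_injective C.subtype C.subtype_injective
    exact ⟨_, ⟨⟨⟨q, hqN⟩, hQab⟩, (T.3 (hQ'.to_sup_of_normal_left T.2) le_sup_right).le (Subgroup.mem_sup_left (show (⟨⟨q, hqN⟩, hQab⟩ : C) ∈ Q' from hq)), rfl⟩, rfl⟩
  have hyk : (y : N) ^ (2 ^ k) ∈ C := by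
    show ((y : N) ^ (2 ^ k) : N).1 ∈ Subgroup.centralizer (Q : Set G)
    rw [Subgroup.coe_pow]
    exact Subgroup.mem_centralizer_iff.2 fun q hq => (hcent q (hQC q hq)).eq.symm
  have hq : (QuotientGroup.mk (⟨g, hgN⟩ : N) : N ⧸ C) = 1 := by
    rw [← orderOf_eq_one_iff]
    refine Nat.eq_one_of_dvd_coprimes (hgo.pow_right k) ?_ (orderOf_dvd_of_pow_eq_one ?_)
    · exact (orderOf_map_dvd (QuotientGroup.mk' C) _).trans (dvd_of_eq (Subgroup.orderOf_mk g hgN))
    · rw [← hyc, QuotientGroup.mk_mul, (QuotientGroup.eq_one_iff c).2 hc, mul_one, ← QuotientGroup.mk_pow, (QuotientGroup.eq_one_iff _).2 hyk]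
  exact hgC ((QuotientGroup.eq_one_iff (⟨g, hgN⟩ : N)).1 hq)

end Cfsg.Agent.S3178
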