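import Cfsg.Statements.S3180
import Cfsg.Agent.Lib.StableZJ

set_option autoImplicit false
open Cfsg

namespace Cfsg.Agent.S3180

/-- Let P be a Sylow p-subgroup of a finite group J and P₁ a subgroup of P that is weakly closed in P with respect to J. If J acts on a set and two points, each fixed by every element of P₁, lie in one J-orbit, then they lie in one orbit of the normalizer of P₁ in J. -/
theorem result {J : Type*} [Group J] [Finite J]
    {p : ℕ} [Fact p.Prime] (P : Sylow p J) (P₁ : Subgroup J) (hW : Cfsg.IsWeaklyClosed P₁ (P : Subgroup J))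
    {Ω : Type*} [MulAction J Ω] (x y : Ω) (hx : ∀ g ∈ P₁, g • x = x) (hy : ∀ g ∈ P₁, g • y = y)
    (hc : ∃ g : J, g • x = y) :
    ∃ g ∈ Subgroup.normalizer (P₁ : Set J), g • x = y := by
  obtain ⟨hle, hW⟩ := hW
  obtain ⟨g, rfl⟩ := hc
  have hg : P₁.map (MulAut.conj g).toMonoidHom ≤ MulAction.stabilizer J (g • x) := by
    rintro _ ⟨a, ha, rfl⟩
    rw [MulAction.mem_stabilizer_iff]
    show (g * a * g⁻¹) • g • x = g • x
    rw [smul_smul, inv_mul_cancel_right, ← smul_smul, hx a ha]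
  have h1 : P₁ ≤ MulAction.stabilizer J (g • x) := fun a ha => MulAction.mem_stabilizer_iff.2 (hy a ha)
  set St := MulAction.stabilizer J (g • x) with hSt
  have hP1 : IsPGroup p P₁ := P.2.to_le hle
  obtain ⟨R₁, hR₁⟩ := ((hP1.map (MulAut.conj g).toMonoidHom).comap_of_injective St.subtype
    St.subtype_injective).exists_le_sylow
  obtain ⟨R₂, hR₂⟩ := (hP1.comap_of_injective St.subtype St.subtype_injective).exists_le_sylow
  obtain ⟨k, hk⟩ := MulAction.exists_smul_eq ↥St R₁ R₂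
  have h2 : P₁.map (MulAut.conj ((k : J) * g)).toMonoidHom ≤ (R₂ : Subgroup ↥St).map St.subtype := by
    rintro _ ⟨a, ha, rfl⟩
    rw [← hk, Sylow.coe_subgroup_smul]
    exact ⟨k * ⟨g * a * g⁻¹, hg ⟨a, ha, rfl⟩⟩ * k⁻¹, ⟨⟨g * a * g⁻¹, hg ⟨a, ha, rfl⟩⟩,
      hR₁ ⟨a, ha, rfl⟩, rfl⟩, by
      show (k : J) * (g * a * g⁻¹) * (k : J)⁻¹ = (k : J) * g * a * ((k : J) * g)⁻¹
      group⟩
  obtain ⟨Q, hQ⟩ := (R₂.2.map St.subtype).exists_le_sylow
  obtain ⟨u, hu⟩ := MulAction.exists_smul_eq J Q P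
  have h3 : ∀ a : J, a ∈ (Q : Subgroup J) → u * a * u⁻¹ ∈ (P : Subgroup J) := by
    intro a ha
    rw [← hu, Sylow.coe_subgroup_smul]
    exact ⟨a, ha, rfl⟩
  have h4 : P₁.map (MulAut.conj (u * ((k : J) * g))).toMonoidHom = P₁ := hW _ (by
    rintro _ ⟨a, ha, rfl⟩
    have := h3 _ (hQ (h2 ⟨a, ha, rfl⟩))
    show u * ((k : J) * g) * a * (u * ((k : J) * g))⁻¹ ∈ (P : Subgroup J)
    convert this using 1
    show u * ((k : J) * g) * a * (u * ((k : J) * g))⁻¹ = u * ((k : J) * g * a * ((k : J) * g)⁻¹) * u⁻¹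
    group)
  have h5 : P₁.map (MulAut.conj u).toMonoidHom = P₁ := hW _ (by
    rintro _ ⟨a, ha, rfl⟩
    exact h3 a (hQ ⟨⟨a, h1 ha⟩, hR₂ (show ((⟨a, h1 ha⟩ : ↥St) : J) ∈ P₁ from ha), rfl⟩))
  have hmem : ∀ n : J, P₁.map (MulAut.conj n).toMonoidHom = P₁ →
      n ∈ Subgroup.normalizer (P₁ : Set J) := fun n hn =>
    CfsgLib.Stable.mem_normalizer_of_map_eq fun a ha => hn.le ⟨a, ha, rfl⟩
  refine ⟨(k : J) * g, ?_, ?_⟩
  · have := Subgroup.mul_mem _ (Subgroup.inv_mem _ (hmem _ h5)) (hmem _ h4)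
    rwa [inv_mul_cancel_left] at this
  · rw [mul_smul]
    exact k.2

end Cfsg.Agent.S3180
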