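import Cfsg.Statements.S3183
import Cfsg.Agent.Lib.StableReplace

set_option autoImplicit false
open Cfsg

namespace Cfsg.Agent.S3183

/-- Let G be a finite group in which the intersection of any two distinct Sylow 2-subgroups is contained in the centre of some Sylow 2-subgroup, and let S be a Sylow 2-subgroup. Then for every x in S the centralizer of x in S is a Sylow 2-subgroup of the centralizer of x in G (no 2-subgroup centralizing x is larger), and for every other Sylow 2-subgroup T the intersection S ∩ T lies in both the centre of S and the centre of T. -/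
theorem result {G : Type*} [Group G] [Finite G]
    (hCI : ∀ S T : Sylow 2 G, S ≠ T → ∃ U : Sylow 2 G,
      (S : Subgroup G) ⊓ (T : Subgroup G) ≤ (Subgroup.center ↥(U : Subgroup G)).map (U : Subgroup G).subtype)
    (S : Sylow 2 G) :
    (∀ x ∈ (S : Subgroup G), ∀ P : Subgroup G, IsPGroup 2 ↥P → P ≤ Subgroup.centralizer ({x} : Set G) →
        Nat.card ↥P ≤ Nat.card ↥((S : Subgroup G) ⊓ Subgroup.centralizer ({x} : Set G))) ∧
    (∀ T : Sylow 2 G, T ≠ S →
        (S : Subgroup G) ⊓ (T : Subgroup G) ≤
          (Subgroup.center ↥(S : Subgroup G)).map (S : Subgroup G).subtype ⊓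
            (Subgroup.center ↥(T : Subgroup G)).map (T : Subgroup G).subtype) := by
  haveI : Fact (Nat.Prime 2) := ⟨Nat.prime_two⟩
  have key : ∀ (S T : Sylow 2 G), T ≠ S → (S : Subgroup G) ⊓ (T : Subgroup G) ≤
      (Subgroup.center ↥(S : Subgroup G)).map (S : Subgroup G).subtype := by
    have H : ∀ n : ℕ, ∀ S T : Sylow 2 G, T ≠ S →
        Nat.card (S : Subgroup G) ≤ Nat.card ↥((S : Subgroup G) ⊓ (T : Subgroup G)) + n →
        (S : Subgroup G) ⊓ (T : Subgroup G) ≤
          (Subgroup.center ↥(S : Subgroup G)).map (S : Subgroup G).subtype := by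
      intro n
      induction n using Nat.strong_induction_on with
      | h n ih =>
      intro S T hTS hn
      obtain ⟨U, hU⟩ := hCI S T hTS.symm
      obtain ⟨D, hD⟩ : ∃ D, D = (S : Subgroup G) ⊓ (T : Subgroup G) := ⟨_, rfl⟩
      rw [← hD] at hU hn ⊢
      have hUD : (U : Subgroup G) ≤ Subgroup.centralizer (D : Set G) := by
        intro x hx
        rw [Subgroup.mem_centralizer_iff]
        intro d hd
        obtain ⟨z, hz, rfl⟩ := hU hd
        exact congrArg Subtype.val (Subgroup.mem_center_iff.1 hz ⟨x, hx⟩).symm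
      have hUN : (U : Subgroup G) ≤ Subgroup.normalizer (D : Set G) :=
        hUD.trans (Subgroup.centralizer_le_normalizer _)
      have hDlt : D < (S : Subgroup G) := by
        refine lt_of_le_of_ne (hD.le.trans inf_le_left) fun e => hTS ?_
        exact Sylow.ext (S.3 T.2 (e ▸ (hD.le.trans inf_le_right)))
      obtain ⟨a, haS, haD, haN⟩ := CfsgLib.Stable.exists_normalizer_gt (p := 2) hDlt S.2
      obtain ⟨A, hA⟩ : ∃ A, A = D ⊔ Subgroup.zpowers a := ⟨_, rfl⟩
      have hAS : A ≤ (S : Subgroup G) := hA ▸ sup_le hDlt.le (Subgroup.zpowers_le.2 haS)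
      have hAN : A ≤ Subgroup.normalizer (D : Set G) :=
        hA ▸ sup_le Subgroup.le_normalizer (Subgroup.zpowers_le.2 haN)
      obtain ⟨R, hR⟩ := ((S.2.to_le hAS).comap_of_injective _
        (Subgroup.subtype_injective (Subgroup.normalizer (D : Set G)))).exists_le_sylow
      obtain ⟨m, hm⟩ := MulAction.exists_smul_eq ↥(Subgroup.normalizer (D : Set G)) (U.subtype hUN) R
      obtain ⟨W, hW⟩ : ∃ W : Sylow 2 G, W = (m : G) • U := ⟨_, rfl⟩
      have hAW : A ≤ (W : Subgroup G) := by
        intro x hx
        rw [hW, Sylow.coe_subgroup_smul]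
        have h1 : (⟨x, hAN hx⟩ : ↥(Subgroup.normalizer (D : Set G))) ∈
            (R : Subgroup ↥(Subgroup.normalizer (D : Set G))) := hR hx
        rw [← hm, Sylow.coe_subgroup_smul] at h1
        obtain ⟨y, hy, hye⟩ := h1
        exact ⟨(y : G), hy, congrArg Subtype.val hye⟩
      have hDW : D ≤ (Subgroup.center ↥(W : Subgroup G)).map (W : Subgroup G).subtype := by
        intro d hd
        refine ⟨⟨d, hAW (hA ▸ Subgroup.mem_sup_left hd)⟩, Subgroup.mem_center_iff.2 fun w => ?_, rfl⟩
        have hw : (w : G) ∈ (W : Subgroup G) := w.2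
        replace hw : (w : G) ∈ (((m : G) • U : Sylow 2 G) : Subgroup G) := hW ▸ hw
        rw [Sylow.coe_subgroup_smul] at hw
        obtain ⟨u, hu, hue⟩ := hw
        have hd' : (m : G)⁻¹ * d * m ∈ D := (Subgroup.mem_normalizer_iff''.1 m.2 d).1 hd
        have hc := Subgroup.mem_centralizer_iff.1 (hUD hu) _ hd'
        apply Subtype.ext
        show (w : G) * d = d * w
        rw [← hue]
        show (m : G) * u * (m : G)⁻¹ * d = d * ((m : G) * u * (m : G)⁻¹)
        calc (m : G) * u * (m : G)⁻¹ * d = (m : G) * (u * ((m : G)⁻¹ * d * m)) * (m : G)⁻¹ := by group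
          _ = (m : G) * (((m : G)⁻¹ * d * m) * u) * (m : G)⁻¹ := by rw [hc]
          _ = _ := by group
      by_cases hWS : W = S
      · exact hWS ▸ hDW
      · have hlt : D < A := lt_of_le_of_ne (hA ▸ le_sup_left) fun e => haD (by
          rw [e, hA]; exact Subgroup.mem_sup_right (Subgroup.mem_zpowers a))
        have hc1 : Nat.card D < Nat.card A := by
          refine lt_of_le_of_ne (Subgroup.card_le_of_le hlt.le) fun e => hlt.ne ?_
          exact Subgroup.eq_of_le_of_card_ge hlt.le e.ge
        have hc2 : Nat.card A ≤ Nat.card ↥((S : Subgroup G) ⊓ (W : Subgroup G)) :=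
          Subgroup.card_le_of_le (le_inf hAS hAW)
        have hc3 : Nat.card A ≤ Nat.card (S : Subgroup G) := Subgroup.card_le_of_le hAS
        exact (le_inf hlt.le le_rfl : D ≤ A ⊓ D).trans (inf_le_left.trans ((le_inf hAS hAW).trans
          (ih (n - 1) (by omega) S W hWS (by omega))))
    exact fun S T h => H _ S T h (Nat.le_add_left _ _)
  refine ⟨fun x hx P hP hPx => ?_, fun T hT => le_inf (key S T hT) ?_⟩
  · have hsup : IsPGroup 2 ↥(P ⊔ Subgroup.zpowers x) := by
      refine hP.to_sup_of_normal_right' ((S.2.to_le (Subgroup.zpowers_le.2 hx))) ?_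
      intro y hy
      have hc := Subgroup.mem_centralizer_singleton_iff.1 (hPx hy)
      refine Subgroup.mem_normalizer_iff.2 fun z => ⟨fun hz => ?_, fun hz => ?_⟩
      · obtain ⟨k, rfl⟩ := Subgroup.mem_zpowers_iff.1 hz
        rw [((show Commute y x from hc).zpow_right k).eq, mul_inv_cancel_right]
        exact hz
      · obtain ⟨k, hk⟩ := Subgroup.mem_zpowers_iff.1 hz
        have h1 : z = x ^ k := by
          have h2 := ((show Commute y x from hc).zpow_right k).eq
          calc z = y⁻¹ * (y * z * y⁻¹) * y := by group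
            _ = y⁻¹ * (x ^ k * y) := by rw [← hk]; group
            _ = y⁻¹ * (y * x ^ k) := by rw [h2]
            _ = x ^ k := by group
        exact h1 ▸ Subgroup.zpow_mem _ (Subgroup.mem_zpowers x) k
    obtain ⟨T, hT⟩ := hsup.exists_le_sylow
    by_cases hTS : T = S
    · exact Subgroup.card_le_of_le (le_inf (hTS ▸ le_sup_left.trans hT) hPx)
    · obtain ⟨z, hz, hzx⟩ := key S T hTS ⟨hx, hT (Subgroup.mem_sup_right (Subgroup.mem_zpowers x))⟩
      have hall : (S : Subgroup G) ≤ Subgroup.centralizer ({x} : Set G) := fun s hs => by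
        rw [Subgroup.mem_centralizer_singleton_iff, ← hzx]
        exact congrArg Subtype.val (Subgroup.mem_center_iff.1 hz ⟨s, hs⟩)
      rw [inf_eq_left.2 hall]
      obtain ⟨T', hT'⟩ := hP.exists_le_sylow
      exact (Subgroup.card_le_of_le hT').trans
        (by rw [Sylow.card_eq_multiplicity, Sylow.card_eq_multiplicity])
  · rw [inf_comm]
    exact key T S hT.symm

end Cfsg.Agent.S3183
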