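import Cfsg.Statements.S3184
import Cfsg.Agent.Lib.InvolCISylow

set_option autoImplicit false
open Cfsg

namespace Cfsg.Agent.S3184

/-- Let G be a finite group in which the intersection of any two distinct Sylow 2-subgroups is contained in the centre of some Sylow 2-subgroup, and let S be a Sylow 2-subgroup. If C is a nontrivial cyclic characteristic subgroup of S, then the involution of C is central modulo the largest normal subgroup of odd order of G: each of its conjugates has the same image in G/O(G). -/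
theorem result {G : Type*} [Group G] [Finite G]
    (hCI : ∀ S T : Sylow 2 G, S ≠ T → ∃ U : Sylow 2 G,
      (S : Subgroup G) ⊓ (T : Subgroup G) ≤ (Subgroup.center ↥(U : Subgroup G)).map (U : Subgroup G).subtype)
    (S : Sylow 2 G) (C : Subgroup ↥(S : Subgroup G)) (hC : C ≠ ⊥) (hCc : IsCyclic ↥C) (hCh : C.Characteristic)
    (c : ↥(S : Subgroup G)) (hc : c ∈ C) (hc2 : orderOf c = 2) :
    ∀ g : G, (QuotientGroup.mk (s := Cfsg.oddCore G) (g * (c : G) * g⁻¹)) =
      QuotientGroup.mk (s := Cfsg.oddCore G) (c : G) := by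
  haveI : Fact (Nat.Prime 2) := ⟨Nat.prime_two⟩
  -- the normalizer of `S` fixes `c`
  have huniq : ∀ y ∈ C, orderOf y = 2 → y = c := by
    intro y hy hy2
    haveI := hCc
    have h1 : orderOf (⟨y, hy⟩ : C) = 2 := (Subgroup.orderOf_coe (⟨y, hy⟩ : C)).symm.trans hy2
    have h2 : orderOf (⟨c, hc⟩ : C) = 2 := (Subgroup.orderOf_coe (⟨c, hc⟩ : C)).symm.trans hc2
    have h3 : ∀ a b : C, orderOf a = 2 → orderOf b = 2 → a = b :=
      fun a b ha hb => CfsgLib.DStarCI.involution_unique ha hb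
    exact congrArg Subtype.val (h3 _ _ h1 h2)
  have hfix : ∀ n ∈ Subgroup.normalizer ((S : Subgroup G) : Set G), n * (c : G) * n⁻¹ = c := by
    intro n hn
    have hmem : ∀ x : G, x ∈ (S : Subgroup G) → n * x * n⁻¹ ∈ (S : Subgroup G) :=
      fun x hx => (Subgroup.mem_normalizer_iff.1 hn x).1 hx
    have hmem' : ∀ x : G, x ∈ (S : Subgroup G) → n⁻¹ * x * n ∈ (S : Subgroup G) :=
      fun x hx => (Subgroup.mem_normalizer_iff''.1 hn x).1 hx
    let φ : ↥(S : Subgroup G) ≃* ↥(S : Subgroup G) :=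
      { toFun := fun x => ⟨n * (x : G) * n⁻¹, hmem _ x.2⟩
        invFun := fun x => ⟨n⁻¹ * (x : G) * n, hmem' _ x.2⟩
        left_inv := fun x => Subtype.ext (by show n⁻¹ * (n * (x : G) * n⁻¹) * n = x; group)
        right_inv := fun x => Subtype.ext (by show n * (n⁻¹ * (x : G) * n) * n⁻¹ = x; group)
        map_mul' := fun x y => Subtype.ext (by
          show n * ((x : G) * y) * n⁻¹ = n * (x : G) * n⁻¹ * (n * (y : G) * n⁻¹); group) }
    have h1 : φ c ∈ C := by
      have h := hCh.fixed φ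
      exact (SetLike.ext_iff.1 h c).2 hc
    exact congrArg Subtype.val (huniq (φ c) h1 (by rw [MulEquiv.orderOf_eq, hc2]))
  have hcS : (c : G) ∈ Subgroup.centralizer ((S : Subgroup G) : Set G) := by
    rw [Subgroup.mem_centralizer_iff]
    intro s hs
    have h1 := hfix s (Subgroup.le_normalizer hs)
    calc s * (c : G) = s * (c : G) * s⁻¹ * s := by group
      _ = (c : G) * s := by rw [h1]
  have hiso := CfsgLib.DStarCI.conj_eq_of_ci hCI S hcS c.2 hfix
  have hZ := CfsgLib.ZStar.inZStar_of_iso (CfsgLib.ZStar.iso_of_sylow S (z := (c : G))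
    (by rw [Subgroup.orderOf_coe]; exact hc2) c.2 hiso)
  intro g
  rw [QuotientGroup.eq]
  have h := hZ g
  haveI : (Cfsg.pPrimeCore 2 G).Normal := CfsgLib.Core.normal_pPrimeCore 2
  have h1 := (Cfsg.pPrimeCore 2 G).inv_mem (Subgroup.Normal.conj_mem inferInstance _ h ((g * (c : G) * g⁻¹)⁻¹))
  show (g * (c : G) * g⁻¹)⁻¹ * (c : G) ∈ Cfsg.oddCore G
  rw [show (g * (c : G) * g⁻¹)⁻¹ * (c : G) =
    ((g * (c : G) * g⁻¹)⁻¹ * (g * (c : G) * g⁻¹ * (c : G)⁻¹) * (g * (c : G) * g⁻¹)⁻¹⁻¹)⁻¹ by group]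
  exact h1

end Cfsg.Agent.S3184
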