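import Cfsg.Statements.S3190
import Cfsg.Agent.Lib.CorePGroup

set_option autoImplicit false
open Cfsg

namespace Cfsg.Agent.S3190

/-- Let p be an odd prime and, inside a finite group, let P be a p-subgroup normalized by a Klein four-group T. Let R be a subgroup of P, normal in P and normalized by T, such that P is the product of R with the centralizer of T in P. If T centralizes the centre of P, then T centralizes the centre of R. -/
theorem result {X : Type*} [Group X] [Finite X]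
    {p : ℕ} (hp : p.Prime) (hodd : Odd p) (P T R : Subgroup X) (hP : IsPGroup p ↥P) (hT : IsKleinFour ↥T)
    (hTP : T ≤ Subgroup.normalizer (P : Set X)) (hRP : R ≤ P) (hRn : (R.subgroupOf P).Normal)
    (hTR : T ≤ Subgroup.normalizer (R : Set X)) (hfac : R ⊔ (P ⊓ Subgroup.centralizer (T : Set X)) = P)
    (hZ : T ≤ Subgroup.centralizer (((Subgroup.center ↥P).map P.subtype : Subgroup X) : Set X)) :
    T ≤ Subgroup.centralizer (((Subgroup.center ↥R).map R.subtype : Subgroup X) : Set X) := by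
  classical
  haveI : Fact p.Prime := ⟨hp⟩
  set ZP := (Subgroup.center ↥P).map P.subtype with hZP
  set ZR := (Subgroup.center ↥R).map R.subtype with hZR
  have memZ : ∀ (Q : Subgroup X) z, z ∈ (Subgroup.center ↥Q).map Q.subtype ↔ z ∈ Q ∧ ∀ x ∈ Q, x * z = z * x := by
    intro Q z
    constructor
    · rintro ⟨⟨w, hw⟩, hc, rfl⟩
      exact ⟨hw, fun x hx => congrArg Subtype.val (Subgroup.mem_center_iff.1 hc ⟨x, hx⟩)⟩
    · rintro ⟨hw, hc⟩
      exact ⟨⟨z, hw⟩, Subgroup.mem_center_iff.2 fun x => Subtype.ext (hc x x.2), rfl⟩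
  have hTc : ∀ s ∈ T, ∀ t ∈ T, s * t = t * s := by
    intro s hs t ht
    haveI := hT
    exact congrArg Subtype.val (mul_comm_of_exponent_two hT.exponent_two (⟨s, hs⟩ : T) ⟨t, ht⟩)
  have hcT : Nat.card T = 4 := hT.card_four
  have hZc : ∀ a ∈ ZR, ∀ b ∈ ZR, a * b = b * a := fun a ha b hb => ((memZ R b).1 hb).2 a ((memZ R a).1 ha).1
  have hnormR : ∀ g ∈ P, ∀ r ∈ R, g * r * g⁻¹ ∈ R := fun g hg r hr => hRn.conj_mem ⟨r, hRP hr⟩ hr ⟨g, hg⟩
  have hnZ : ∀ g, (∀ r ∈ R, g * r * g⁻¹ ∈ R) → (∀ r ∈ R, g⁻¹ * r * g ∈ R) → ∀ z ∈ ZR, g * z * g⁻¹ ∈ ZR := by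
    intro g h1 h2 z hz
    obtain ⟨hzR, hzc⟩ := (memZ R z).1 hz
    refine (memZ R _).2 ⟨h1 z hzR, fun x hx => ?_⟩
    calc x * (g * z * g⁻¹) = g * ((g⁻¹ * x * g) * z) * g⁻¹ := by group
      _ = g * (z * (g⁻¹ * x * g)) * g⁻¹ := by rw [hzc _ (h2 x hx)]
      _ = _ := by group
  have hPn : ∀ g ∈ P, ∀ z ∈ ZR, g * z * g⁻¹ ∈ ZR := fun g hg => hnZ g (hnormR g hg) (fun r hr => by simpa using hnormR g⁻¹ (P.inv_mem hg) r hr)
  have hTn : ∀ t ∈ T, ∀ z ∈ ZR, t * z * t⁻¹ ∈ ZR := fun t ht => hnZ t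
    (fun r hr => (Subgroup.mem_normalizer_iff.1 (hTR ht) r).1 hr)
    (fun r hr => by simpa using (Subgroup.mem_normalizer_iff.1 (hTR (T.inv_mem ht)) r).1 hr)
  haveI : IsMulCommutative ZR := ⟨⟨fun a b => Subtype.ext (hZc a a.2 b b.2)⟩⟩
  let conjT : T → (ZR →* ZR) := fun t =>
    { toFun := fun z => ⟨t * z * t⁻¹, hTn t t.2 z z.2⟩
      map_one' := Subtype.ext (by simp)
      map_mul' := fun a b => Subtype.ext (by simp [mul_assoc]) }
  letI : CommGroup ZR := { (inferInstance : Group ZR) with mul_comm := fun a b => Subtype.ext (hZc a a.2 b b.2) }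
  haveI : Fintype T := Fintype.ofFinite _
  let N : ↥ZR → ↥ZR := fun z => ∏ t : T, conjT t z
  have hNmul : ∀ a b, N (a * b) = N a * N b := fun a b => by simp only [N, map_mul, Finset.prod_mul_distrib]
  have hNT : ∀ (s : T) z, N (conjT s z) = N z := fun s z => by
    refine Fintype.prod_equiv (Equiv.mulRight s) _ _ fun t => ?_
    apply Subtype.ext
    show (t : X) * (s * z * (s : X)⁻¹) * (t : X)⁻¹ = (↑(t * s) : X) * z * (↑(t * s) : X)⁻¹
    push_cast; group
  intro t ht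
  rw [Subgroup.mem_centralizer_iff]
  intro z hz
  set w : ↥ZR := conjT ⟨t, ht⟩ ⟨z, hz⟩ * (⟨z, hz⟩ : ↥ZR)⁻¹ with hw
  have hNone : N 1 = 1 := by simp [N]
  have hNw : N w = 1 := by
    rw [hw, hNmul, hNT, ← hNmul, mul_inv_cancel, hNone]
  -- the kernel of the norm is normalised by `P`
  let D : Subgroup X :=
    { carrier := {x | ∃ h : x ∈ ZR, N ⟨x, h⟩ = 1}
      one_mem' := ⟨one_mem _, hNone⟩
      mul_mem' := fun {a b} ha hb => ⟨mul_mem ha.1 hb.1, by
        rw [show (⟨a * b, mul_mem ha.1 hb.1⟩ : ↥ZR) = ⟨a, ha.1⟩ * ⟨b, hb.1⟩ from rfl, hNmul, ha.2, hb.2, one_mul]⟩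
      inv_mem' := fun {a} ha => ⟨inv_mem ha.1, by
        have := hNmul ⟨a⁻¹, inv_mem ha.1⟩ ⟨a, ha.1⟩
        rwa [show (⟨a⁻¹, inv_mem ha.1⟩ : ↥ZR) * ⟨a, ha.1⟩ = 1 from Subtype.ext (inv_mul_cancel a), hNone, ha.2, mul_one, eq_comm] at this⟩ }
  have hDP : ∀ g ∈ P, ∀ x ∈ D, g * x * g⁻¹ ∈ D := by
    intro g hg x hx
    rw [← hfac] at hg
    have hmem := hg
    rw [Subgroup.sup_eq_closure] at hmem
    induction hmem using Subgroup.closure_induction generalizing x with
    | mem g hg' =>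
      obtain ⟨hxZ, hxN⟩ := hx
      rcases hg' with hgR | hgC
      · rw [show g * x * g⁻¹ = x by rw [((memZ R x).1 hxZ).2 g hgR]; group]
        exact ⟨hxZ, hxN⟩
      · have hgx := hPn g hgC.1 x hxZ
        refine ⟨hgx, ?_⟩
        let cg : ↥ZR →* ↥ZR :=
          { toFun := fun a => ⟨g * a * g⁻¹, hPn g hgC.1 a a.2⟩
            map_one' := Subtype.ext (by simp)
            map_mul' := fun a b => Subtype.ext (by simp [mul_assoc]) }
        have : N (cg ⟨x, hxZ⟩) = cg (N ⟨x, hxZ⟩) := by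
          simp only [N, map_prod]
          refine Finset.prod_congr rfl fun s _ => Subtype.ext ?_
          show (s : X) * (g * x * g⁻¹) * (s : X)⁻¹ = g * ((s : X) * x * (s : X)⁻¹) * g⁻¹
          have hs : (s : X) * g = g * s := Subgroup.mem_centralizer_iff.1 hgC.2 s s.2
          calc (s : X) * (g * x * g⁻¹) * (s : X)⁻¹ = ((s : X) * g) * x * ((s : X) * g)⁻¹ := by group
            _ = _ := by rw [hs]; group
        exact this.trans (by rw [hxN, map_one])
    | one => simpa using hx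
    | mul a b _ _ iha ihb =>
      have ha : a ∈ R ⊔ (P ⊓ Subgroup.centralizer (T : Set X)) := by rw [Subgroup.sup_eq_closure]; assumption
      have hb : b ∈ R ⊔ (P ⊓ Subgroup.centralizer (T : Set X)) := by rw [Subgroup.sup_eq_closure]; assumption
      have := iha ha _ (ihb hb x hx)
      simpa [mul_assoc] using this
    | inv a _ iha =>
      have ha : a ∈ R ⊔ (P ⊓ Subgroup.centralizer (T : Set X)) := by rw [Subgroup.sup_eq_closure]; assumption
      -- conjugation by `a` is a bijection of the finite set `D`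
      obtain ⟨y, hy, hyx⟩ := (((D : Set X).toFinite).injOn_iff_bijOn_of_mapsTo (f := fun y => a * y * a⁻¹) (fun y hy => iha ha y hy)).1
        (fun u _ v _ e => by simpa using e) |>.surjOn hx
      rw [← hyx]
      simpa [mul_assoc] using hy
  have hDbot : D = ⊥ := by
    by_contra hne
    have hDleP : D ≤ P := fun x hx => hRP ((memZ R x).1 hx.1).1
    haveI : (D.subgroupOf P).Normal := ⟨fun x hx g => hDP g g.2 x hx⟩
    have hne' : Nontrivial ↥(D.subgroupOf P) := by
      rw [Subgroup.nontrivial_iff_ne_bot]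
      intro h
      exact hne (by rwa [Subgroup.subgroupOf_eq_bot, disjoint_iff, inf_eq_left.2 hDleP] at h)
    haveI : Group.IsNilpotent ↥P := hP.isNilpotent
    have hbot : D.subgroupOf P ⊓ Subgroup.center ↥P ≠ ⊥ := by
      first
        | exact CfsgLib.Core.nilpotent_inf_center_ne_bot ((Subgroup.nontrivial_iff_ne_bot _).1 hne')
        | (rw [inf_comm]; exact CfsgLib.Core.nilpotent_inf_center_ne_bot ((Subgroup.nontrivial_iff_ne_bot _).1 hne'))
    obtain ⟨d, ⟨hd, hdc⟩, hd1⟩ := (Subgroup.bot_or_exists_ne_one _).resolve_left hbot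
    apply hd1
    obtain ⟨hdZ, hdN⟩ := hd
    change (d : X) ∈ ZR at hdZ
    change N ⟨(d : X), hdZ⟩ = 1 at hdN
    have hfixd : ∀ s : T, conjT s ⟨(d : X), hdZ⟩ = ⟨(d : X), hdZ⟩ := fun s => by
      apply Subtype.ext
      show (s : X) * d * (s : X)⁻¹ = d
      have := Subgroup.mem_centralizer_iff.1 (hZ s.2) d ⟨d, hdc, rfl⟩
      rw [← this, mul_inv_cancel_right]
    have h4 : (d : X) ^ 4 = 1 := by
      have : N ⟨(d : X), hdZ⟩ = (⟨(d : X), hdZ⟩ : ↥ZR) ^ 4 := by
        simp only [N, hfixd, Finset.prod_const, Finset.card_univ, ← Nat.card_eq_fintype_card, hcT]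
      rw [hdN] at this
      exact (congrArg Subtype.val this).symm
    obtain ⟨k, hk⟩ := IsPGroup.iff_orderOf.1 hP d
    have hd4 : orderOf d ∣ 4 := orderOf_dvd_of_pow_eq_one (Subtype.ext (by simpa using h4))
    rw [hk] at hd4
    rcases k with _ | k
    · exact orderOf_eq_one_iff.1 (by simpa using hk)
    · have hp2 : p = 2 := (Nat.prime_dvd_prime_iff_eq hp Nat.prime_two).1 (hp.dvd_of_dvd_pow (show p ∣ 2 ^ 2 from (dvd_pow_self p k.succ_ne_zero).trans hd4))
      subst hp2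
      exact absurd hodd (by decide)
  have hwD : (w : X) ∈ D := ⟨w.2, hNw⟩
  rw [hDbot, Subgroup.mem_bot] at hwD
  have : t * z * t⁻¹ * z⁻¹ = 1 := hwD
  rw [mul_inv_eq_one, mul_inv_eq_iff_eq_mul] at this
  exact this.symm

end Cfsg.Agent.S3190
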