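import Cfsg.Statements.S3195
import Cfsg.Agent.Lib.CoreSubnormal
import Cfsg.Agent.Lib.InvolDihedral

set_option autoImplicit false
open Cfsg

namespace Cfsg.Agent.S3195

/-- Let A be a Klein four-subgroup of a finite group G. If every G-conjugate of every involution of A commutes with some involution of A (its centralizer meets A nontrivially), then A meets the largest normal 2-subgroup O₂(G) nontrivially. -/
theorem result {G : Type*} [Group G] [Finite G]
    (A : Subgroup G) (hA : IsKleinFour ↥A)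
    (h : ∀ a ∈ A, a ≠ 1 → ∀ g : G, A ⊓ Subgroup.centralizer ({g * a * g⁻¹} : Set G) ≠ ⊥) :
    A ⊓ Cfsg.pCore 2 G ≠ ⊥ := by
  classical
  haveI : Fact (Nat.Prime 2) := ⟨Nat.prime_two⟩
  by_contra hbot
  have hsq : ∀ x ∈ A, x * x = 1 := fun x hx => by
    have h' := (hA.exponent_two ▸ Monoid.pow_exponent_eq_one (⟨x, hx⟩ : A) : (⟨x, hx⟩ : A) ^ 2 = 1)
    have := congrArg Subtype.val h'
    rwa [SubmonoidClass.coe_pow, OneMemClass.coe_one, sq] at this
  have hinv : ∀ x ∈ A, x⁻¹ = x := fun x hx => inv_eq_of_mul_eq_one_right (hsq x hx)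
  have hcom : ∀ x ∈ A, ∀ y ∈ A, x * y = y * x := fun x hx y hy => by
    rw [← hinv (x * y) (mul_mem hx hy), mul_inv_rev, hinv x hx, hinv y hy]
  have hinvol : ∀ x ∈ A, x ≠ 1 → orderOf x = 2 := fun x hx h1 => orderOf_eq_prime (by rw [sq]; exact hsq x hx) h1
  have hodd : ∀ (s : G), Odd (orderOf s) → s ^ 4 = 1 → s = 1 := fun s hs h4 => orderOf_eq_one_iff.1
    (Nat.eq_one_of_dvd_coprimes ((Nat.coprime_two_right.2 hs).pow_right 2) dvd_rfl (orderOf_dvd_of_pow_eq_one (show s ^ 2 ^ 2 = 1 from h4)))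
  have hP : ∀ x ∈ A, x ≠ 1 → ∃ z ∈ A, z ≠ 1 ∧ z ≠ x ∧ ∃ s : G, s ≠ 1 ∧ Odd (orderOf s) ∧
      x * s * x⁻¹ = s⁻¹ ∧ z * s * z⁻¹ = s := by
    intro x hx hx1
    have hx2 := hinvol x hx hx1
    have hnot : x ∉ Cfsg.pCore 2 G := fun hm => hx1 (by
      have : x ∈ A ⊓ Cfsg.pCore 2 G := ⟨hx, hm⟩
      rwa [hbot, Subgroup.mem_bot] at this)
    obtain ⟨g, hg⟩ : ∃ g : G, ¬ IsPGroup 2 (Subgroup.closure ({x, g * x * g⁻¹} : Set G)) := by
      by_contra hno; push Not at hno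
      exact hnot (CfsgLib.Core.baer_suzuki hno)
    have hu : orderOf (g * x * g⁻¹) = 2 := (CfsgLib.Invol.orderOf_conj g x).trans hx2
    obtain ⟨k, m, hm, ho⟩ := Nat.exists_eq_two_pow_mul_odd (orderOf_pos (x * (g * x * g⁻¹))).ne'
    set w := x * (g * x * g⁻¹) with hw
    have hwm : orderOf (w ^ 2 ^ k) = m := by
      rw [orderOf_pow' _ (pow_ne_zero _ two_ne_zero), ho, Nat.gcd_mul_right_left,
        Nat.mul_div_cancel_left _ (pow_pos two_pos k)]
    have hm1 : m ≠ 1 := fun e => hg (CfsgLib.Invol.isPGroup_closure_pair hx2 hu (a := k) (by rw [← hw, ho, e, mul_one]))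
    obtain ⟨z, hzA, hzC, hz1⟩ : ∃ z, z ∈ A ∧ z ∈ Subgroup.centralizer ({g * x * g⁻¹} : Set G) ∧ z ≠ 1 := by
      have hne := h x hx hx1 g
      simp only [ne_eq, Subgroup.eq_bot_iff_forall, not_forall] at hne
      obtain ⟨z, ⟨hzA, hzC⟩, hz1⟩ := hne
      exact ⟨z, hzA, hzC, hz1⟩
    have hzy : Commute z (g * x * g⁻¹) := Subgroup.mem_centralizer_singleton_iff.1 hzC
    refine ⟨z, hzA, hz1, ?_, w ^ 2 ^ k, fun e => hm1 (by rw [← hwm, e, orderOf_one]), hwm ▸ hm, ?_, ?_⟩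
    · rintro rfl
      have h2 : w ^ 2 = 1 := by
        rw [hw, hzy.mul_pow, ← hx2, pow_orderOf_eq_one, hx2, ← hu, pow_orderOf_eq_one, one_mul]
      rcases k with _ | k
      · rw [pow_zero, one_mul] at ho
        have := Nat.le_of_dvd two_pos (ho ▸ orderOf_dvd_of_pow_eq_one h2)
        rcases hm with ⟨j, rfl⟩; omega
      · have := orderOf_dvd_of_pow_eq_one h2
        rw [ho] at this
        have h4 : 2 ^ (k + 1) * m ≤ 2 := Nat.le_of_dvd two_pos this
        have h6 : 2 * m ≤ 2 ^ (k + 1) * m := Nat.mul_le_mul_right m (Nat.le_self_pow (Nat.succ_ne_zero k) 2)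
        rcases hm with ⟨j, hj⟩; omega
    · rw [← conj_pow, hw, CfsgLib.Invol.inverts_mul hx2 hu, inv_pow]
    · exact mul_inv_eq_iff_eq_mul.2 (((show Commute z x from hcom z hzA x hx).mul_right hzy).pow_right _).eq
  obtain ⟨x, hx, hx1⟩ : ∃ x ∈ A, x ≠ 1 := by
    haveI : Nontrivial A := Finite.one_lt_card_iff_nontrivial.1 (by rw [hA.card_four]; norm_num)
    obtain ⟨⟨x, hx⟩, h1⟩ := exists_ne (1 : A)
    exact ⟨x, hx, fun e => h1 (Subtype.ext e)⟩
  obtain ⟨b, hb, hb1, hbx, s, hs1, hso, hxs, hbs⟩ := hP x hx hx1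
  obtain ⟨a, ha, ha1, hab, r, hr1, hro, hbr, har⟩ := hP b hb hb1
  have hfour : ∀ u ∈ A, u = 1 ∨ u = a ∨ u = b ∨ u = a * b := by
    intro u hu
    by_contra hne
    push Not at hne
    obtain ⟨h1, h2, h3, h4⟩ := hne
    have hab1 : a * b ≠ 1 := fun e => hab ((eq_inv_of_mul_eq_one_left e).trans (hinv b hb))
    let f : Fin 5 → A := ![1, ⟨a, ha⟩, ⟨b, hb⟩, ⟨a * b, mul_mem ha hb⟩, ⟨u, hu⟩]
    have hf : Function.Injective f := by
      have a1 : (1:G) ≠ a := ha1.symm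
      have a2 : (1:G) ≠ b := hb1.symm
      have a3 : (1:G) ≠ a * b := hab1.symm
      have a4 : (1:G) ≠ u := h1.symm
      have a5 : a ≠ b := hab
      have a6 : a ≠ a * b := fun e => hb1 (by simpa using e)
      have a7 : a ≠ u := h2.symm
      have a8 : b ≠ a * b := fun e => ha1 (by simpa using e)
      have a9 : b ≠ u := h3.symm
      have a10 : a * b ≠ u := h4.symm
      intro p q hpq
      fin_cases p <;> fin_cases q <;> simp [f, Subtype.ext_iff, Ne] at hpq ⊢ <;> (first | exact absurd hpq ‹_› | exact absurd hpq.symm ‹_›)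
    have := Nat.card_le_card_of_injective f hf
    rw [hA.card_four, Nat.card_fin] at this
    omega
  have has : a * s * a⁻¹ = s⁻¹ := by
    rcases hfour x hx with e | e | e | e
    · exact absurd e hx1
    · rw [← e]; exact hxs
    · exact absurd e.symm hbx
    · rw [e, mul_inv_rev, show a * b * s * (b⁻¹ * a⁻¹) = a * (b * s * b⁻¹) * a⁻¹ by group, hbs] at hxs
      exact hxs
  let φ : G → MulAut G := fun u => MulAut.conj u
  have ea_r : φ a r = r := har
  have ea_s : φ a s = s⁻¹ := has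
  have eb_r : φ b r = r⁻¹ := hbr
  have eb_s : φ b s = s := hbs
  have ec_r : φ (a * b) r = r⁻¹ := by
    show MulAut.conj (a * b) r = r⁻¹
    rw [map_mul, MulAut.mul_apply]; show φ a (φ b r) = r⁻¹; rw [eb_r, map_inv, ea_r]
  have ec_s : φ (a * b) s = s⁻¹ := by
    show MulAut.conj (a * b) s = s⁻¹
    rw [map_mul, MulAut.mul_apply]; show φ a (φ b s) = s⁻¹; rw [eb_s, ea_s]
  -- a conjugate of an element of A commutes with some element of A
  have hmeet : ∀ v ∈ A, v ≠ 1 → ∀ g q : G, g * v * g⁻¹ = q * v → φ a q = q ∨ φ b q = q ∨ φ (a * b) q = q := by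
    intro v hv hv1 g q hq
    have hne := h v hv hv1 g
    simp only [ne_eq, Subgroup.eq_bot_iff_forall, not_forall] at hne
    obtain ⟨u, ⟨huA, huC⟩, hu1⟩ := hne
    have hc : u * (q * v) = q * v * u := hq ▸ Subgroup.mem_centralizer_singleton_iff.1 huC
    have hu : φ u q = q := by
      show u * q * u⁻¹ = q
      rw [mul_inv_eq_iff_eq_mul]
      refine mul_right_cancel (b := v) ?_
      rw [mul_assoc, hc, mul_assoc, mul_assoc, hcom v hv u huA]
    rcases hfour u huA with e | e | e | e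
    · exact absurd e hu1
    · exact Or.inl (e ▸ hu)
    · exact Or.inr (Or.inl (e ▸ hu))
    · exact Or.inr (Or.inr (e ▸ hu))
  have hodd2 : ∀ (g t : G), Odd (orderOf g) → Commute (g ^ 2) t → Commute g t := fun g t ho hc => by
    obtain ⟨j, hj⟩ := ho
    have : g = (g ^ 2) ^ (j + 1) := by
      rw [← pow_mul, show 2 * (j + 1) = orderOf g + 1 by omega, pow_succ, pow_orderOf_eq_one, one_mul]
    rw [this]
    exact hc.pow_left _
  have hrs : Commute r s := by
    have hq : (r * s) * a * (r * s)⁻¹ = (r * s ^ 2 * r⁻¹) * a := by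
      rw [mul_inv_rev, show (r * s ^ 2 * r⁻¹) * a = r * s ^ 2 * (r⁻¹ * a) by group,
        show r⁻¹ * a = a * r⁻¹ from ((show Commute a r from mul_inv_eq_iff_eq_mul.1 har).inv_right).eq.symm,
        show r * s * a * (s⁻¹ * r⁻¹) = r * s * (a * s⁻¹ * a⁻¹) * a * r⁻¹ by group,
        show a * s⁻¹ * a⁻¹ = (a * s * a⁻¹)⁻¹ by group, has, inv_inv, sq s]
      group
    have h2 : ∀ t : G, Commute (r ^ 2) (t ^ 2) → Odd (orderOf t) → Commute r t := fun t hc ht =>
      hodd2 r t hro (hodd2 t (r ^ 2) ht hc.symm).symm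
    rcases hmeet a ha ha1 _ _ hq with e | e | e
    · exfalso
      rw [map_mul, map_mul, map_pow, map_inv, ea_r, ea_s, inv_pow] at e
      refine hs1 (hodd s hso ?_)
      have e' := mul_left_cancel (mul_right_cancel e)
      rw [show (4:ℕ) = 2 + 2 from rfl, pow_add]
      nth_rewrite 1 [← e']
      exact inv_mul_cancel _
    · rw [map_mul, map_mul, map_pow, map_inv, eb_r, eb_s, inv_inv] at e
      refine h2 s ?_ hso
      show r ^ 2 * s ^ 2 = s ^ 2 * r ^ 2
      calc r ^ 2 * s ^ 2 = r * (r * s ^ 2 * r⁻¹) * r := by rw [sq r]; group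
        _ = r * (r⁻¹ * s ^ 2 * r) * r := by rw [e]
        _ = s ^ 2 * r ^ 2 := by rw [sq r]; group
    · rw [map_mul, map_mul, map_pow, map_inv, ec_r, ec_s, inv_inv, inv_pow] at e
      have e2 : r ^ 2 * s ^ 2 * (r ^ 2)⁻¹ = (s ^ 2)⁻¹ := by
        calc r ^ 2 * s ^ 2 * (r ^ 2)⁻¹ = r * (r * s ^ 2 * r⁻¹) * r⁻¹ := by rw [sq r]; group
          _ = r * (r⁻¹ * (s ^ 2)⁻¹ * r) * r⁻¹ := by rw [e]
          _ = (s ^ 2)⁻¹ := by group
      have e4 : Commute ((r ^ 2) ^ 2) (s ^ 2) := mul_inv_eq_iff_eq_mul.1 (by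
        calc (r ^ 2) ^ 2 * s ^ 2 * ((r ^ 2) ^ 2)⁻¹ = r ^ 2 * (r ^ 2 * s ^ 2 * (r ^ 2)⁻¹) * (r ^ 2)⁻¹ := by rw [sq (r ^ 2)]; group
          _ = r ^ 2 * (s ^ 2)⁻¹ * (r ^ 2)⁻¹ := by rw [e2]
          _ = (r ^ 2 * s ^ 2 * (r ^ 2)⁻¹)⁻¹ := by group
          _ = s ^ 2 := by rw [e2, inv_inv])
      exact h2 s (hodd2 _ _ (hro.of_dvd_nat (orderOf_pow_dvd 2)) e4) hso
  set g := r * s with hg
  have hcg : φ (a * b) g = g⁻¹ := by
    rw [hg, map_mul, ec_r, ec_s, mul_inv_rev]; exact hrs.inv_inv.eq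
  have hq : g * (a * b) * g⁻¹ = g ^ 2 * (a * b) := by
    rw [← hcg]
    show g * (a * b) * ((a * b) * g * (a * b)⁻¹) = g ^ 2 * (a * b)
    rw [show g * (a * b) * ((a * b) * g * (a * b)⁻¹) = g * ((a * b) * (a * b)) * g * (a * b)⁻¹ by group,
      hsq _ (mul_mem ha hb), mul_one, hinv _ (mul_mem ha hb), sq]
  rcases hmeet _ (mul_mem ha hb) (fun e => hab ((eq_inv_of_mul_eq_one_left e).trans (hinv b hb))) g _ hq with e | e | e
  · rw [map_pow, hg, map_mul, ea_r, ea_s, hrs.inv_right.mul_pow, hrs.mul_pow] at e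
    refine hs1 (hodd s hso ?_)
    have e' := mul_left_cancel e
    rw [inv_pow] at e'
    rw [show (4:ℕ) = 2 + 2 from rfl, pow_add]
    nth_rewrite 1 [← e']
    exact inv_mul_cancel _
  · rw [map_pow, hg, map_mul, eb_r, eb_s, hrs.inv_left.mul_pow, hrs.mul_pow] at e
    refine hr1 (hodd r hro ?_)
    have e' := mul_right_cancel e
    rw [inv_pow] at e'
    rw [show (4:ℕ) = 2 + 2 from rfl, pow_add]
    nth_rewrite 1 [← e']
    exact inv_mul_cancel _
  · rw [map_pow, hcg, inv_pow] at e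
    have h4 : g ^ 4 = 1 := by
      rw [show (4:ℕ) = 2 + 2 from rfl, pow_add]
      nth_rewrite 1 [← e]
      exact inv_mul_cancel _
    have h4' : r ^ 4 = (s ^ 4)⁻¹ := eq_inv_of_mul_eq_one_left (by rw [← hrs.mul_pow]; exact h4)
    have h5 := congrArg (φ a) h4'
    rw [map_pow, map_inv, map_pow, ea_r, ea_s, inv_pow, inv_inv, h4'] at h5
    refine hs1 (hodd s hso (hodd (s ^ 4) (hso.of_dvd_nat (orderOf_pow_dvd 4)) ?_))
    have : (s ^ 4) ^ 2 = 1 := by
      rw [sq]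
      nth_rewrite 1 [← h5]
      exact inv_mul_cancel _
    rw [show (4:ℕ) = 2 * 2 from rfl, pow_mul, this, one_pow]

end Cfsg.Agent.S3195
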