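import Cfsg.Statements.S3196


set_option autoImplicit false
open Cfsg

namespace Cfsg.Agent.S3196

section Aux

variable {G : Type*} [Group G] [Finite G] {p : ℕ}

omit [Finite G] in
theorem pow_card_mem {A : Subgroup G} (hA : Nat.card A = p) {a : G} (ha : a ∈ A) : a ^ p = 1 := by
  have h := pow_card_eq_one' (x := (⟨a, ha⟩ : A))
  rw [hA] at h
  simpa using congrArg Subtype.val h

theorem eq_of_le (hp : p.Prime) {A B : Subgroup G} (hA : Nat.card A = p) (hB : Nat.card B = p)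
    (h : A ≤ B) : A = B :=
  Subgroup.eq_of_le_of_card_ge h (by rw [hA, hB])

theorem zpowers_eq (hp : p.Prime) {A : Subgroup G} (hA : Nat.card A = p) {a : G} (ha : a ∈ A) (ha1 : a ≠ 1) :
    Subgroup.zpowers a = A := by
  haveI : Fact p.Prime := ⟨hp⟩
  refine Subgroup.eq_of_le_of_card_ge (Subgroup.zpowers_le.2 ha) ?_
  rw [Nat.card_zpowers, hA, orderOf_eq_prime (pow_card_mem hA ha) ha1]

theorem exists_ne_one_mem (hp : p.Prime) {A : Subgroup G} (hA : Nat.card A = p) : ∃ a ∈ A, a ≠ 1 := by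
  refine A.bot_or_exists_ne_one.resolve_left fun h => ?_
  rw [h, Subgroup.card_bot] at hA
  exact hp.one_lt.ne hA

def Com (A B : Subgroup G) : Prop := ∀ x ∈ A, ∀ y ∈ B, x * y = y * x

omit [Finite G] in
theorem Com.symm {A B : Subgroup G} (h : Com A B) : Com B A := fun x hx y hy => (h y hy x hx).symm

theorem com_self (hp : p.Prime) {A : Subgroup G} (hA : Nat.card A = p) : Com A A := by
  obtain ⟨a, ha, ha1⟩ := exists_ne_one_mem hp hA
  intro x hx y hy
  rw [← zpowers_eq hp hA ha ha1] at hx hy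
  obtain ⟨i, rfl⟩ := hx
  obtain ⟨j, rfl⟩ := hy
  exact zpow_mul_comm a i j

omit [Finite G] in
theorem com_sup {A B W : Subgroup G} (h1 : Com A W) (h2 : Com B W) : Com (A ⊔ B) W := by
  have hle : A ⊔ B ≤ Subgroup.centralizer (W : Set G) := sup_le
    (fun x hx => Subgroup.mem_centralizer_iff.2 fun w hw => (h1 x hx w hw).symm)
    (fun x hx => Subgroup.mem_centralizer_iff.2 fun w hw => (h2 x hx w hw).symm)
  exact fun x hx w hw => (Subgroup.mem_centralizer_iff.1 (hle hx) w hw).symm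

omit [Finite G] in
theorem com_mono {A B W : Subgroup G} (hAB : A ≤ B) (h : Com B W) : Com A W := fun x hx => h x (hAB hx)

theorem mem_sup_com {A B : Subgroup G} (hc : Com A B) {z : G} (hz : z ∈ A ⊔ B) :
    ∃ a ∈ A, ∃ b ∈ B, a * b = z := by
  have hcm : ∀ (a : A) (b : B), Commute (A.subtype a) (B.subtype b) := fun a b => hc a a.2 b b.2
  have h := MonoidHom.noncommCoprod_range A.subtype B.subtype hcm
  rw [Subgroup.range_subtype, Subgroup.range_subtype] at h
  rw [← h] at hz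
  obtain ⟨⟨a, b⟩, rfl⟩ := hz
  exact ⟨a, a.2, b, b.2, rfl⟩

theorem pow_mem_sup {A B : Subgroup G} (hA : Nat.card A = p) (hB : Nat.card B = p) (hc : Com A B)
    {z : G} (hz : z ∈ A ⊔ B) : z ^ p = 1 := by
  obtain ⟨a, ha, b, hb, rfl⟩ := mem_sup_com hc hz
  rw [(show Commute a b from hc a ha b hb).mul_pow, pow_card_mem hA ha, pow_card_mem hB hb, mul_one]

theorem card_line (hp : p.Prime) {A B : Subgroup G} (hA : Nat.card A = p) (hB : Nat.card B = p)
    (hne : A ≠ B) (hc : Com A B) : Nat.card (A ⊔ B : Subgroup G) = p * p := by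
  have hcm : ∀ (a : A) (b : B), Commute (A.subtype a) (B.subtype b) := fun a b => hc a a.2 b b.2
  let f := MonoidHom.noncommCoprod A.subtype B.subtype hcm
  have hr : f.range = A ⊔ B := by
    show (MonoidHom.noncommCoprod A.subtype B.subtype hcm).range = _
    rw [MonoidHom.noncommCoprod_range, Subgroup.range_subtype, Subgroup.range_subtype]
  have hinj : Function.Injective f := by
    rw [injective_iff_map_eq_one]
    rintro ⟨⟨a, ha⟩, ⟨b, hb⟩⟩ h
    change a * b = 1 at h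
    have hab : a ∈ B := by rw [eq_inv_of_mul_eq_one_left h]; exact B.inv_mem hb
    have ha1 : a = 1 := by
      by_contra ha1
      exact hne ((zpowers_eq hp hA ha ha1).symm.trans (zpowers_eq hp hB hab ha1))
    subst ha1
    rw [one_mul] at h
    subst h
    rfl
  rw [← hr, ← Nat.card_congr (MonoidHom.ofInjective hinj).toEquiv, Nat.card_prod, hA, hB]

variable (hp : p.Prime) (K : Set (Subgroup G)) (hK : ∀ X ∈ K, Nat.card ↥X = p)
    (hKc : ∀ X ∈ K, ∀ g : G, X.map (MulAut.conj g).toMonoidHom ∈ K)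
    (ha : ∀ X ∈ K, ∀ Y ∈ K, X ≠ Y → (∀ x ∈ X, ∀ y ∈ Y, x * y = y * x) →
      ∀ Z : Subgroup G, Z ≤ X ⊔ Y → Nat.card ↥Z = p → Z ∈ K)
    (hb : ∀ X ∈ K, ∀ Y ∈ K, X ≠ Y → (∀ x ∈ X, ∀ y ∈ Y, x * y = y * x) →
      ∀ W ∈ K, (X ⊔ Y) ⊓ Subgroup.centralizer (W : Set G) ≠ ⊥)

include hp hK in
theorem line_eq {X Y A B : Subgroup G} (hX : X ∈ K) (hY : Y ∈ K) (hne : X ≠ Y) (hc : Com X Y)
    (hA : A ∈ K) (hB : B ∈ K) (hAB : A ≠ B) (hAl : A ≤ X ⊔ Y) (hBl : B ≤ X ⊔ Y) : A ⊔ B = X ⊔ Y := by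
  have hL : Com (X ⊔ Y) (X ⊔ Y) := com_sup (com_sup (com_self hp (hK X hX)) hc.symm).symm
    (com_sup hc (com_self hp (hK Y hY))).symm
  refine Subgroup.eq_of_le_of_card_ge (sup_le hAl hBl) (le_of_eq ?_)
  rw [card_line hp (hK X hX) (hK Y hY) hne hc,
    card_line hp (hK A hA) (hK B hB) hAB (fun a ha' b hb' => hL a (hAl ha') b (hBl hb'))]

include hp hK ha hb in
theorem exists_pt {X Y W : Subgroup G} (hX : X ∈ K) (hY : Y ∈ K) (hne : X ≠ Y) (hc : Com X Y) (hW : W ∈ K) :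
    ∃ Z ∈ K, Z ≤ X ⊔ Y ∧ Com Z W := by
  haveI : Fact p.Prime := ⟨hp⟩
  obtain ⟨u, hu, hu1⟩ := (Subgroup.bot_or_exists_ne_one _).resolve_left (hb X hX Y hY hne hc W hW)
  obtain ⟨hu1', hu2⟩ := Subgroup.mem_inf.1 hu
  have hle : Subgroup.zpowers u ≤ X ⊔ Y := Subgroup.zpowers_le.2 hu1'
  have hcard : Nat.card (Subgroup.zpowers u) = p := by
    rw [Nat.card_zpowers, orderOf_eq_prime (pow_mem_sup (hK X hX) (hK Y hY) hc hu1') hu1]
  refine ⟨_, ha X hX Y hY hne hc _ hle hcard, hle, fun x hx w hw => ?_⟩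
  exact (Subgroup.mem_centralizer_iff.1 ((Subgroup.zpowers_le.2 hu2) hx) w hw).symm

include hp hK ha hb in
theorem radical_of_perp {A B C : Subgroup G} (hA : A ∈ K) (hB : B ∈ K) (hC : C ∈ K)
    (hAC : Com A C) (hBC : Com B C) (hAB : ¬ Com B A)
    (hperp : ∀ U ∈ K, Com U A → Com U C) : ∀ T ∈ K, Com C T := by
  have hBC' : B ≠ C := fun h => hAB (h ▸ hAC.symm)
  intro T hT
  obtain ⟨U, hU, hUl, hUT⟩ := exists_pt hp K hK ha hb hB hC hBC' hBC hT
  by_cases hUC : U = C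
  · exact hUC ▸ hUT
  have hUA : ¬ Com U A := fun h => hAB (by
    have h2 := com_sup h hAC.symm
    rw [line_eq hp K hK hB hC hBC' hBC hU hC hUC hUl le_sup_right] at h2
    exact com_mono le_sup_left h2)
  have hUCc : Com U C := com_mono hUl (com_sup hBC (com_self hp (hK C hC)))
  by_cases hUT' : U = T
  · exact (hUT' ▸ hUCc).symm
  obtain ⟨R, hR, hRl, hRA⟩ := exists_pt hp K hK ha hb hU hT hUT' hUT hA
  have hRU : R ≠ U := fun h => hUA (h ▸ hRA)
  have h3 := com_sup (hperp R hR hRA) hUCc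
  rw [line_eq hp K hK hU hT hUT' hUT hR hU hRU hRl le_sup_left] at h3
  exact (com_mono le_sup_right h3).symm

include hp hK in
theorem com_of_normalizes {X W : Subgroup G} (hX : X ∈ K) (hW : W ∈ K) {x : G} (hx : x ∈ X) (hx1 : x ≠ 1)
    (h : ∀ w ∈ W, x * w * x⁻¹ ∈ W) : Com X W := by
  haveI : Fact p.Prime := ⟨hp⟩
  intro a ha' w hw
  rw [← zpowers_eq hp (hK X hX) hx hx1] at ha'
  obtain ⟨i, rfl⟩ := ha'
  by_cases hw1 : w = 1
  · simp [hw1]
  have hwp : orderOf w = p := orderOf_eq_prime (pow_card_mem (hK W hW) hw) hw1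
  have hmem := h w hw
  rw [← zpowers_eq hp (hK W hW) hw hw1] at hmem
  obtain ⟨k, hk⟩ := hmem
  have hk : w ^ k = x * w * x⁻¹ := hk
  have hit : ∀ n : ℕ, x ^ n * w * (x ^ n)⁻¹ = w ^ (k ^ n) := by
    intro n
    induction n with
    | zero => simp
    | succ n ih =>
      rw [pow_succ' x n, show x * x ^ n * w * (x * x ^ n)⁻¹ = x * (x ^ n * w * (x ^ n)⁻¹) * x⁻¹ by group,
        ih, ← conj_zpow, ← hk, ← zpow_mul]
      congr 1
      ring
  have h5 := hit p
  rw [pow_card_mem (hK X hX) hx] at h5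
  simp only [one_mul, inv_one, mul_one] at h5
  have h6 : ((k ^ p : ℤ) : ZMod p) = ((1 : ℤ) : ZMod p) := by
    rw [ZMod.intCast_eq_intCast_iff']
    have h7 : w ^ (k ^ p) = w ^ (1 : ℤ) := by rw [zpow_one]; exact h5.symm
    rw [zpow_eq_zpow_iff_modEq, hwp] at h7
    exact h7
  push_cast at h6
  rw [ZMod.pow_card] at h6
  have h8 : w ^ k = w := by
    conv_rhs => rw [← zpow_one w]
    rw [zpow_eq_zpow_iff_modEq, hwp, ← ZMod.intCast_eq_intCast_iff, h6, Int.cast_one]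
  have h9 : Commute x w := by
    show x * w = w * x
    rw [h8] at hk
    exact (mul_inv_eq_iff_eq_mul.1 hk.symm)
  exact (h9.zpow_left i).eq

include hp hK hKc ha hb in
theorem exists_radical {X0 Y0 : Subgroup G} (hX0 : X0 ∈ K) (hY0 : Y0 ∈ K) (hne : X0 ≠ Y0) (hc : Com X0 Y0) :
    ∃ V ∈ K, ∀ W ∈ K, Com V W := by
  haveI : Fact p.Prime := ⟨hp⟩
  by_cases hall : ∀ W ∈ K, Com X0 W
  · exact ⟨X0, hX0, hall⟩
  obtain ⟨W, hW, hXW⟩ : ∃ W ∈ K, ¬ Com X0 W := by
    by_contra h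
    exact hall fun W hW => by_contra fun h' => h ⟨W, hW, h'⟩
  obtain ⟨Z, hZ, hZl, hZW⟩ := exists_pt hp K hK ha hb hX0 hY0 hne hc hW
  have hZX : Z ≠ X0 := fun h => hXW (h ▸ hZW)
  obtain ⟨Y, hY, hYl, hYX, hYZ⟩ : ∃ Y ∈ K, Y ≤ X0 ⊔ Y0 ∧ Y ≠ X0 ∧ Y ≠ Z := by
    by_cases hZY : Z = Y0
    · obtain ⟨x, hx, hx1⟩ := exists_ne_one_mem hp (hK X0 hX0)
      obtain ⟨y, hy, hy1⟩ := exists_ne_one_mem hp (hK Y0 hY0)
      have hxy : x * y ∈ X0 ⊔ Y0 := Subgroup.mul_mem_sup hx hy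
      have hxy1 : x * y ≠ 1 := fun h => hne ((zpowers_eq hp (hK X0 hX0) hx hx1).symm.trans
        (zpowers_eq hp (hK Y0 hY0) (by rw [eq_inv_of_mul_eq_one_left h]; exact Y0.inv_mem hy) hx1))
      have hcard : Nat.card (Subgroup.zpowers (x * y)) = p := by
        rw [Nat.card_zpowers, orderOf_eq_prime (pow_mem_sup (hK X0 hX0) (hK Y0 hY0) hc hxy) hxy1]
      refine ⟨_, ha X0 hX0 Y0 hY0 hne hc _ (Subgroup.zpowers_le.2 hxy) hcard, Subgroup.zpowers_le.2 hxy, ?_, ?_⟩
      · intro h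
        have h1 : x * y ∈ X0 := h ▸ Subgroup.mem_zpowers _
        have h2 : y ∈ X0 := by simpa using X0.mul_mem (X0.inv_mem hx) h1
        exact hne ((zpowers_eq hp (hK X0 hX0) h2 hy1).symm.trans (zpowers_eq hp (hK Y0 hY0) hy hy1))
      · intro h
        rw [hZY] at h
        have h1 : x * y ∈ Y0 := h ▸ Subgroup.mem_zpowers _
        have h2 : x ∈ Y0 := by simpa using Y0.mul_mem h1 (Y0.inv_mem hy)
        exact hne ((zpowers_eq hp (hK X0 hX0) hx hx1).symm.trans (zpowers_eq hp (hK Y0 hY0) h2 hx1))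
    · exact ⟨Y0, hY0, le_sup_right, hne.symm, Ne.symm hZY⟩
  have hL := line_eq hp K hK hX0 hY0 hne hc hX0 hY hYX.symm le_sup_left hYl
  rw [← hL] at hZl
  have hcXY : Com X0 Y := fun x hx y hy =>
    (com_sup (com_self hp (hK X0 hX0)) hc.symm) y (hYl hy) x hx |>.symm
  have hYW : ¬ Com Y W := fun h => hXW (by
    have h2 := com_sup h hZW
    rw [line_eq hp K hK hX0 hY hYX.symm hcXY hY hZ hYZ le_sup_right hZl] at h2
    exact com_mono le_sup_left h2)
  have hXZ : Com X0 Z := fun x hx z hz => ((com_sup (com_self hp (hK X0 hX0)) hcXY.symm) z (hZl hz) x hx).symm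
  obtain ⟨z, hz, hz1⟩ := exists_ne_one_mem hp (hK Z hZ)
  obtain ⟨x, hx, y, hy, hxy⟩ := mem_sup_com hcXY (hZl hz)
  have hx1 : x ≠ 1 := fun h => by
    rw [h, one_mul] at hxy
    exact hYZ ((zpowers_eq hp (hK Y hY) (hxy ▸ hy) hz1).symm.trans (zpowers_eq hp (hK Z hZ) hz hz1))
  set W' := W.map (MulAut.conj x).toMonoidHom with hW'def
  have hW' : W' ∈ K := hKc W hW x
  have hne' : W ≠ W' := fun h => hXW (com_of_normalizes hp K hK hX0 hW hx hx1 (fun w hw => by
    rw [h]; exact ⟨w, hw, by simp⟩))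
  have hU : ∀ U : Subgroup G, Com U X0 → Com U W → Com U W' := by
    intro U h1 h2 u hu w' hw'
    obtain ⟨w, hw, rfl⟩ := hw'
    simp only [MulEquiv.coe_toMonoidHom, MulAut.conj_apply]
    exact ((show Commute u x from h1 u hu x hx).mul_right (show Commute u w from h2 u hu w hw)).mul_right
      (show Commute u x from h1 u hu x hx).inv_right |>.eq
  have hV : ∀ U : Subgroup G, Com U Y → Com U W → Com U W' := by
    intro U h1 h2 u hu w' hw'
    obtain ⟨w, hw, rfl⟩ := hw'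
    simp only [MulEquiv.coe_toMonoidHom, MulAut.conj_apply]
    have hzw : z * w * z⁻¹ = w := mul_inv_eq_iff_eq_mul.2 (hZW z hz w hw)
    have he : x * w * x⁻¹ = y⁻¹ * w * y := by
      have hyx : x * y = y * x := hcXY x hx y hy
      rw [← hxy, hyx] at hzw
      calc x * w * x⁻¹ = y⁻¹ * (y * x * w * (y * x)⁻¹) * y := by group
        _ = y⁻¹ * w * y := by rw [hzw]
    rw [he]
    exact ((show Commute u y from h1 u hu y hy).inv_right.mul_right (show Commute u w from h2 u hu w hw)).mul_right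
      (show Commute u y from h1 u hu y hy) |>.eq
  by_cases hWW : Com W W'
  · obtain ⟨C, hC, hCl, hCX⟩ := exists_pt hp K hK ha hb hW hW' hne' hWW hX0
    refine ⟨C, hC, radical_of_perp hp K hK ha hb hW hX0 hC ?_ hCX.symm hXW ?_⟩
    · exact (com_mono hCl (com_sup (com_self hp (hK W hW)) hWW.symm)).symm
    intro U hUK hUW
    by_cases hUW' : U = W
    · rw [hUW']
      exact (com_mono hCl (com_sup (com_self hp (hK W hW)) hWW.symm)).symm
    obtain ⟨U0, hU0, hU0l, hU0X⟩ := exists_pt hp K hK ha hb hUK hW hUW' hUW hX0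
    have hU0W : U0 ≠ W := fun h => hXW (h ▸ hU0X).symm
    have hU0c : Com U0 W := com_mono hU0l (com_sup hUW (com_self hp (hK W hW)))
    have h1 : Com U0 C := (com_mono hCl (com_sup hU0c.symm (hU U0 hU0X hU0c).symm)).symm
    have h2 : Com W C := (com_mono hCl (com_sup (com_self hp (hK W hW)) hWW.symm)).symm
    have h3 := com_sup h1 h2
    rw [line_eq hp K hK hUK hW hUW' hUW hU0 hW hU0W hU0l le_sup_right] at h3
    exact com_mono le_sup_left h3
  · refine ⟨Z, hZ, radical_of_perp hp K hK ha hb hW hX0 hZ hZW.symm hXZ hXW ?_⟩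
    intro U hUK hUW
    by_cases hUW' : U = W
    · rw [hUW']; exact hZW.symm
    obtain ⟨U0, hU0, hU0l, hU0X⟩ := exists_pt hp K hK ha hb hUK hW hUW' hUW hX0
    obtain ⟨V0, hV0, hV0l, hV0Y⟩ := exists_pt hp K hK ha hb hUK hW hUW' hUW hY
    have hU0c : Com U0 W := com_mono hU0l (com_sup hUW (com_self hp (hK W hW)))
    have hV0c : Com V0 W := com_mono hV0l (com_sup hUW (com_self hp (hK W hW)))
    have he : U0 = V0 := by
      by_contra hne0
      have h3 := com_sup (hU U0 hU0X hU0c) (hV V0 hV0Y hV0c)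
      rw [line_eq hp K hK hUK hW hUW' hUW hU0 hV0 hne0 hU0l hV0l] at h3
      exact hWW (com_mono le_sup_right h3)
    subst he
    have hU0Z : Com U0 Z := (com_mono hZl (com_sup hU0X.symm hV0Y.symm)).symm
    have hU0W : U0 ≠ W := fun h => hXW (h ▸ hU0X).symm
    have h3 := com_sup hU0Z hZW.symm
    rw [line_eq hp K hK hUK hW hUW' hUW hU0 hW hU0W hU0l le_sup_right] at h3
    exact com_mono le_sup_left h3

end Aux

/-- Let p be a prime and K a set of subgroups of order p of a finite group G, closed under conjugation, such that at least two distinct members of K commute elementwise, and whenever two distinct members X, Y of K commute: every subgroup of order p of the group XY they generate belongs to K, and every member W of K has centralizer meeting XY nontrivially. Then some member V of K commutes elementwise with every member of K and lies in O_p(G); in particular G is not simple. -/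
theorem result {G : Type*} [Group G] [Finite G]
    {p : ℕ} (hp : p.Prime) (K : Set (Subgroup G)) (hK : ∀ X ∈ K, Nat.card ↥X = p)
    (hKc : ∀ X ∈ K, ∀ g : G, X.map (MulAut.conj g).toMonoidHom ∈ K)
    (hex : ∃ X ∈ K, ∃ Y ∈ K, X ≠ Y ∧ ∀ x ∈ X, ∀ y ∈ Y, x * y = y * x)
    (ha : ∀ X ∈ K, ∀ Y ∈ K, X ≠ Y → (∀ x ∈ X, ∀ y ∈ Y, x * y = y * x) →
      ∀ Z : Subgroup G, Z ≤ X ⊔ Y → Nat.card ↥Z = p → Z ∈ K)
    (hb : ∀ X ∈ K, ∀ Y ∈ K, X ≠ Y → (∀ x ∈ X, ∀ y ∈ Y, x * y = y * x) →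
      ∀ W ∈ K, (X ⊔ Y) ⊓ Subgroup.centralizer (W : Set G) ≠ ⊥) :
    (∃ V ∈ K, (∀ W ∈ K, ∀ v ∈ V, ∀ w ∈ W, v * w = w * v) ∧ V ≤ Cfsg.pCore p G) ∧ ¬ IsSimpleGroup G := by
  haveI : Fact p.Prime := ⟨hp⟩
  obtain ⟨X0, hX0, Y0, hY0, hne, hcomm⟩ := hex
  obtain ⟨V, hV, hrad⟩ := exists_radical hp K hK hKc ha hb hX0 hY0 hne hcomm
  have hgen : ∀ v ∈ V, ∀ g : G, ∀ W ∈ K, ∀ w ∈ W, g * v * g⁻¹ * w = w * (g * v * g⁻¹) := by
    intro v hv g W hW w hw
    have h := hrad (W.map (MulAut.conj g⁻¹).toMonoidHom) (hKc W hW g⁻¹) v hv (g⁻¹ * w * g) ⟨w, hw, by simp⟩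
    have h' : g * (v * (g⁻¹ * w * g)) * g⁻¹ = g * (g⁻¹ * w * g * v) * g⁻¹ := by rw [h]
    simpa [mul_assoc] using h'
  set N := Subgroup.normalClosure (V : Set G) with hNdef
  have hS : ∀ x ∈ Group.conjugatesOfSet (V : Set G), ∃ v ∈ V, ∃ g : G, g * v * g⁻¹ = x := by
    intro x hx
    obtain ⟨v, hv, hvx⟩ := Group.mem_conjugatesOfSet_iff.1 hx
    obtain ⟨g, hg⟩ := isConj_iff.1 hvx
    exact ⟨v, hv, g, hg⟩
  have hSc : Group.conjugatesOfSet (V : Set G) ⊆ Subgroup.centralizer (Group.conjugatesOfSet (V : Set G)) := by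
    intro x hx
    obtain ⟨v, hv, g, rfl⟩ := hS x hx
    refine Subgroup.mem_centralizer_iff.2 fun y hy => ?_
    obtain ⟨v', hv', g', rfl⟩ := hS y hy
    exact (hgen v hv g _ (hKc V hV g') _ ⟨v', hv', by simp⟩).symm
  have hNc : ∀ x ∈ N, ∀ y ∈ N, x * y = y * x := by
    have h1 : N ≤ Subgroup.centralizer (N : Set G) := by
      rw [hNdef, Subgroup.normalClosure, Subgroup.centralizer_closure]
      exact (Subgroup.closure_le _).2 hSc
    intro x hx y hy
    exact (Subgroup.mem_centralizer_iff.1 (h1 hx) y hy).symm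
  have hNp : IsPGroup p N := by
    intro ⟨x, hx⟩
    refine ⟨1, ?_⟩
    apply Subtype.ext
    rw [SubmonoidClass.coe_pow, OneMemClass.coe_one, pow_one]
    show x ^ p = 1
    rw [hNdef, Subgroup.normalClosure] at hx
    induction hx using Subgroup.closure_induction with
    | mem x hx =>
      obtain ⟨v, hv, g, rfl⟩ := hS x hx
      rw [conj_pow, pow_card_mem (hK V hV) hv]; group
    | one => simp
    | mul a b ha' hb' iha ihb =>
      rw [(show Commute a b from hNc a ha' b hb').mul_pow, iha, ihb, mul_one]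
    | inv a _ iha => rw [inv_pow, iha, inv_one]
  have hNle : N ≤ Cfsg.pCore p G := le_sSup ⟨Subgroup.normalClosure_normal, hNp⟩
  refine ⟨⟨V, hV, fun W hW v hv w hw => hrad W hW v hv w hw, le_trans Subgroup.subset_normalClosure hNle⟩, ?_⟩
  intro hsimple
  rcases hsimple.eq_bot_or_eq_top_of_normal N Subgroup.normalClosure_normal with h | h
  · have hle : V ≤ ⊥ := h ▸ Subgroup.subset_normalClosure
    have := hK V hV
    rw [le_bot_iff.1 hle, Subgroup.card_bot] at this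
    exact hp.one_lt.ne this
  · have hab : ∀ a b : G, a * b = b * a := fun a b => hNc a (by rw [h]; trivial) b (by rw [h]; trivial)
    have key : ∀ W ∈ K, W = ⊤ := fun W hW => by
      rcases hsimple.eq_bot_or_eq_top_of_normal W ⟨fun w hw g => by rwa [hab g w, mul_inv_cancel_right]⟩ with h' | h'
      · have := hK W hW
        rw [h', Subgroup.card_bot] at this
        exact absurd this hp.one_lt.ne
      · exact h'
    exact hne ((key X0 hX0).trans (key Y0 hY0).symm)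

end Cfsg.Agent.S3196
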