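import Cfsg.Statements.S3200
import Cfsg.Agent.Lib.FgsTwoAbelianProduct

set_option autoImplicit false
open Cfsg

namespace Cfsg.Agent.S3200

/-- Let H be a finite group in which a Sylow 2-subgroup has an abelian complement (an abelian subgroup meeting it trivially whose product with it is all of H). Then H is solvable, and every subgroup and every quotient group of H again has a Sylow 2-subgroup with an abelian complement. -/
theorem result {H : Type*} [Group H] [Finite H]
    (S : Sylow 2 H) (C : Subgroup H) (hC : IsMulCommutative ↥C) (hSC : Subgroup.IsComplement' (S : Subgroup H) C) :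
    Group.IsSolvable H ∧
    (∀ L : Subgroup H, ∃ (P : Sylow 2 ↥L) (D : Subgroup ↥L), IsMulCommutative ↥D ∧ Subgroup.IsComplement' (P : Subgroup ↥L) D) ∧
    (∀ (N : Subgroup H) [N.Normal], ∃ (P : Sylow 2 (H ⧸ N)) (D : Subgroup (H ⧸ N)),
      IsMulCommutative ↥D ∧ Subgroup.IsComplement' (P : Subgroup (H ⧸ N)) D) := by
  have h := CfsgLib.Fgs.TwoAbelianProduct.of_complement S C hC hSC
  exact ⟨CfsgLib.Fgs.TwoAbelianProduct.isSolvable _ H rfl h,
    fun L => CfsgLib.Fgs.TwoAbelianProduct.exists_complement (CfsgLib.Fgs.TwoAbelianProduct.subgroup h L),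
    fun N _ => CfsgLib.Fgs.TwoAbelianProduct.exists_complement (CfsgLib.Fgs.TwoAbelianProduct.quotient h N)⟩

end Cfsg.Agent.S3200
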