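import Cfsg.Statements.S3201
import Cfsg.Agent.S0016

set_option autoImplicit false
open Cfsg

namespace Cfsg.Agent.S3201

lemma coatom_mul {Z : Type*} [Group Z] [Finite Z] (hc : ∀ a b : Z, a * b = b * a) (hZ : IsPGroup 2 Z)
    {C : Subgroup Z} (hC : IsCoatom C) {a b : Z} (ha : a ∉ C) (hb : b ∉ C) : a * b ∈ C := by
  classical
  obtain ⟨k, hk⟩ := hZ a
  have hex : ∃ j, a ^ 2 ^ j ∈ C := ⟨k, by rw [hk]; exact C.one_mem⟩
  have hj := Nat.find_spec hex
  have hj0 : Nat.find hex ≠ 0 := by
    intro h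
    rw [h, pow_zero, pow_one] at hj
    exact ha hj
  obtain ⟨i, hi⟩ : ∃ i, Nat.find hex = i + 1 := Nat.exists_eq_succ_of_ne_zero hj0
  set u := a ^ 2 ^ i
  have huC : u ∉ C := Nat.find_min hex (by omega)
  have hu2 : u * u ∈ C := by
    rw [← pow_two, ← pow_mul, ← pow_succ, ← hi]; exact hj
  let M : Subgroup Z :=
    { carrier := {x | x ∈ C ∨ x * u ∈ C}
      one_mem' := Or.inl C.one_mem
      mul_mem' := by
        rintro x y (hx | hx) (hy | hy)
        · exact Or.inl (C.mul_mem hx hy)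
        · exact Or.inr (by rw [mul_assoc]; exact C.mul_mem hx hy)
        · exact Or.inr (by rw [mul_assoc, hc y u, ← mul_assoc]; exact C.mul_mem hx hy)
        · refine Or.inl ?_
          have := C.mul_mem (C.mul_mem hx hy) (C.inv_mem hu2)
          rwa [show x * u * (y * u) * (u * u)⁻¹ = x * y from by
            rw [mul_assoc x u, ← mul_assoc u y u, hc u y, mul_assoc y u u, ← mul_assoc x, mul_inv_cancel_right]] at this
      inv_mem' := by
        rintro x (hx | hx)
        · exact Or.inl (C.inv_mem hx)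
        · refine Or.inr ?_
          have := C.mul_mem (C.inv_mem hx) hu2
          rwa [mul_inv_rev, hc u⁻¹ x⁻¹, mul_assoc, inv_mul_cancel_left] at this }
  have hM : M = ⊤ := hC.2 M (lt_of_le_of_ne (fun x hx => Or.inl hx) (fun e => huC (by
    have hu : u ∈ M := Or.inr hu2
    rwa [← e] at hu)))
  have h1 : a * u ∈ C := ((hM ▸ Subgroup.mem_top a : a ∈ M) : a ∈ C ∨ a * u ∈ C).resolve_left ha
  have h2 : b * u ∈ C := ((hM ▸ Subgroup.mem_top b : b ∈ M) : b ∈ C ∨ b * u ∈ C).resolve_left hb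
  have := C.mul_mem (C.mul_mem h1 h2) (C.inv_mem hu2)
  rwa [show a * u * (b * u) * (u * u)⁻¹ = a * b from by
    rw [mul_assoc a u, ← mul_assoc u b u, hc u b, mul_assoc b u u, ← mul_assoc a, mul_inv_cancel_right]] at this

/-- Let S be a finite 2-group whose centre Z(S) has n ≥ 2 distinct maximal subgroups C₁, …, Cₙ with trivial intersection such that each quotient S/Cᵢ is a non-abelian group with exactly one involution (a generalized quaternion group). Then S is the internal direct product of an elementary abelian subgroup and a non-abelian subgroup with exactly one involution. -/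
theorem result {S : Type*} [Group S] [Finite S]
    (hS : IsPGroup 2 S) (n : ℕ) (hn : 2 ≤ n) (C : Fin n → Subgroup ↥(Subgroup.center S))
    (hCmax : ∀ i, IsCoatom (C i)) (hCinj : Function.Injective C) (hCint : ⨅ i, C i = ⊥)
    (hCq : ∀ i, ∃ (_ : ((C i).map (Subgroup.center S).subtype).Normal),
      ¬ IsMulCommutative (S ⧸ (C i).map (Subgroup.center S).subtype) ∧
      ∃! x : S ⧸ (C i).map (Subgroup.center S).subtype, orderOf x = 2) :
    ∃ E Q : Subgroup S, Cfsg.IsInternalDirectProduct E Q ⊤ ∧ Cfsg.IsElementaryAbelian 2 E ∧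
      ¬ IsMulCommutative ↥Q ∧ ∃! x : ↥Q, orderOf x = 2 := by
  classical
  have hi0 : 0 < n := by omega
  set i0 : Fin n := ⟨0, hi0⟩
  obtain ⟨hDn, hna, hu⟩ := hCq i0
  set D' := (C i0).map (Subgroup.center S).subtype
  haveI := hDn
  have hDc : ∀ d ∈ D', ∀ s : S, s * d = d * s := by
    rintro _ ⟨⟨d, hd⟩, -, rfl⟩ s
    exact Subgroup.mem_center_iff.1 hd s
  set Qt := S ⧸ D'
  haveI : Fact (Nat.Prime 2) := ⟨Nat.prime_two⟩
  have hQ : IsPGroup 2 Qt := hS.to_quotient D'
  obtain ⟨t, -, ht⟩ := hu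
  have hone : ∀ A B : Subgroup Qt, Nat.card A = 2 → Nat.card B = 2 → A = B := by
    intro A B hA hB
    obtain ⟨u, hu⟩ := exists_prime_orderOf_dvd_card' (G := A) 2 (by rw [hA])
    obtain ⟨v, hv⟩ := exists_prime_orderOf_dvd_card' (G := B) 2 (by rw [hB])
    rw [← Subgroup.orderOf_coe] at hu hv
    have e : (u : Qt) = v := (ht _ hu).trans (ht _ hv).symm
    have h1 : Subgroup.zpowers (u : Qt) = A :=
      Subgroup.eq_of_le_of_card_ge (Subgroup.zpowers_le.2 u.2) (by rw [Nat.card_zpowers, hA, hu])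
    have h2 : Subgroup.zpowers (v : Qt) = B :=
      Subgroup.eq_of_le_of_card_ge (Subgroup.zpowers_le.2 v.2) (by rw [Nat.card_zpowers, hB, hv])
    rw [← h1, ← h2, e]
  have hcyc : ¬ IsCyclic Qt := fun h => hna h.isMulCommutative
  obtain ⟨-, n', ⟨e⟩⟩ := (Cfsg.Agent.S0016.result 2 hQ hone).resolve_left hcyc
  obtain ⟨x, hx⟩ := QuotientGroup.mk_surjective (e.symm (QuaternionGroup.a 1))
  obtain ⟨y, hy⟩ := QuotientGroup.mk_surjective (e.symm (QuaternionGroup.xa 0))
  have hrel : (y * x * y⁻¹ * x : S) ∈ D' := by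
    rw [← QuotientGroup.eq_one_iff, QuotientGroup.mk_mul, QuotientGroup.mk_mul, QuotientGroup.mk_mul,
      QuotientGroup.mk_inv, hx, hy, ← map_inv, ← map_mul, ← map_mul, ← map_mul]
    rw [show QuaternionGroup.xa 0 * QuaternionGroup.a 1 * (QuaternionGroup.xa (0 : ZMod (2 * 2 ^ _)))⁻¹ * QuaternionGroup.a 1 = 1 from ?_, map_one]
    rw [mul_inv_eq_iff_eq_mul.2 (show QuaternionGroup.xa (0 : ZMod (2 * 2 ^ _)) * QuaternionGroup.a 1 = QuaternionGroup.a (-1) * QuaternionGroup.xa 0 from by
      simp)]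
    rw [QuaternionGroup.a_mul_a, neg_add_cancel]; rfl
  have hgen : ∀ s : S, ∃ d ∈ D', ∃ i : ℕ, s = x ^ i * d ∨ s = y * x ^ i * d := by
    intro s
    haveI : NeZero (2 * 2 ^ n') := ⟨mul_ne_zero two_ne_zero (pow_ne_zero _ two_ne_zero)⟩
    rcases hs : e (s : Qt) with i | i
    · refine ⟨(x ^ i.val)⁻¹ * s, ?_, i.val, Or.inl (by group)⟩
      rw [← QuotientGroup.eq, QuotientGroup.mk_pow, hx, ← map_pow, MulEquiv.symm_apply_eq, hs, QuaternionGroup.a_one_pow, ZMod.natCast_val, ZMod.cast_id]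
    · refine ⟨(y * x ^ i.val)⁻¹ * s, ?_, i.val, Or.inr (by group)⟩
      rw [← QuotientGroup.eq, QuotientGroup.mk_mul, QuotientGroup.mk_pow, hx, hy, ← map_pow, ← map_mul, MulEquiv.symm_apply_eq, hs, QuaternionGroup.a_one_pow, QuaternionGroup.xa_mul_a, zero_add, ZMod.natCast_val, ZMod.cast_id]
  have hnab : ¬ Commute x y := by
    intro hxy
    apply hna
    refine ⟨⟨fun a b => ?_⟩⟩
    induction a using QuotientGroup.induction_on with | H u => ?_
    induction b using QuotientGroup.induction_on with | H v => ?_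
    rw [← QuotientGroup.mk_mul, ← QuotientGroup.mk_mul]
    congr 1
    have hcd : ∀ d ∈ D', ∀ s : S, Commute d s := fun d hd s => (hDc d hd s).symm
    have hxs : ∀ s : S, Commute x s ∧ Commute y s := by
      intro s
      obtain ⟨d, hd, i, rfl | rfl⟩ := hgen s
      · exact ⟨((Commute.refl x).pow_right i).mul_right (hcd d hd x).symm, (hxy.symm.pow_right i).mul_right (hcd d hd y).symm⟩
      · exact ⟨(hxy.mul_right ((Commute.refl x).pow_right i)).mul_right (hcd d hd x).symm,
          ((Commute.refl y).mul_right (hxy.symm.pow_right i)).mul_right (hcd d hd y).symm⟩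
    obtain ⟨d, hd, i, rfl | rfl⟩ := hgen u
    · exact ((((hxs v).1).pow_left i).mul_left (hcd d hd v)).eq
    · exact ((((hxs v).2).mul_left (((hxs v).1).pow_left i)).mul_left (hcd d hd v)).eq
  -- the centre
  have hZcomm : ∀ a b : (Subgroup.center S), a * b = b * a := fun a b => Subtype.ext (Subgroup.mem_center_iff.1 b.2 a.1)
  have hZp : IsPGroup 2 (Subgroup.center S) := hS.to_subgroup _
  have hint : ∀ a : (Subgroup.center S), (∀ i, a ∈ C i) → a = 1 := by
    intro a ha
    have : a ∈ ⨅ i, C i := Subgroup.mem_iInf.2 ha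
    rwa [hCint, Subgroup.mem_bot] at this
  have hel : ∀ a : (Subgroup.center S), a * a = 1 := by
    intro a
    refine hint _ fun i => ?_
    by_cases h : a ∈ C i
    · exact (C i).mul_mem h h
    · exact coatom_mul hZcomm hZp (hCmax i) h h
  -- squares into the centre
  have hout : ∀ g : S, g ∉ (Subgroup.center S) → ∀ (h : g * g ∈ (Subgroup.center S)) (i : Fin n), (⟨g * g, h⟩ : (Subgroup.center S)) ∉ C i := by
    intro g hg h i hmem
    obtain ⟨hn', -, hu'⟩ := hCq i
    haveI := hn'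
    apply hg
    obtain ⟨a, ha⟩ : ∃ a : (Subgroup.center S), a ∉ C i := by
      by_contra hc
      push_neg at hc
      exact (hCmax i).1 (eq_top_iff.2 fun a _ => hc a)
    have hsub : ∀ w : (Subgroup.center S), ((w : S) : S ⧸ (C i).map (Subgroup.center S).subtype) = 1 ↔ w ∈ C i := by
      intro w
      rw [QuotientGroup.eq_one_iff]
      constructor
      · rintro ⟨w', hw', e⟩
        rwa [show w = w' from Subtype.ext e.symm]
      · exact fun hw => ⟨w, hw, rfl⟩
    by_cases hg1 : (g : S ⧸ (C i).map (Subgroup.center S).subtype) = 1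
    · obtain ⟨w, -, e⟩ := (QuotientGroup.eq_one_iff g).1 hg1
      rw [← e]; exact w.2
    · obtain ⟨t', -, ht'⟩ := hu'
      have h1 : orderOf (g : S ⧸ (C i).map (Subgroup.center S).subtype) = 2 :=
        orderOf_eq_prime (by rw [pow_two, ← QuotientGroup.mk_mul]; exact (hsub ⟨g * g, h⟩).2 hmem) hg1
      have h2 : orderOf ((a : S) : S ⧸ (C i).map (Subgroup.center S).subtype) = 2 :=
        orderOf_eq_prime (by rw [pow_two, ← QuotientGroup.mk_mul, ← Subgroup.coe_mul, hel]; rfl) (fun e => ha ((hsub a).1 e))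
      have h3 := (ht' _ h1).trans (ht' _ h2).symm
      rw [QuotientGroup.eq] at h3
      obtain ⟨w, -, hw⟩ := h3
      have : g = (a : S) * (w : S)⁻¹ := by rw [show (w : S) = g⁻¹ * a from hw]; group
      rw [this]
      exact (Subgroup.center S).mul_mem a.2 ((Subgroup.center S).inv_mem w.2)
  have huniq : ∀ a b : (Subgroup.center S), (∀ i, a ∉ C i) → (∀ i, b ∉ C i) → a = b := by
    intro a b ha hb
    have h := hint (a * b) fun i => coatom_mul hZcomm hZp (hCmax i) (ha i) (hb i)
    calc a = a * (b * b) := by rw [hel, mul_one]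
      _ = b := by rw [← mul_assoc, h, one_mul]
  have hinvol : ∀ g : S, g * g = 1 → g ∈ (Subgroup.center S) := by
    intro g hg
    by_contra hgZ
    have hm : g * g ∈ (Subgroup.center S) := by rw [hg]; exact (Subgroup.center S).one_mem
    apply hout g hgZ hm i0
    rw [show (⟨g * g, hm⟩ : (Subgroup.center S)) = 1 from Subtype.ext hg]
    exact (C i0).one_mem
  -- x, y
  have hDZ : ∀ d ∈ D', d ∈ (Subgroup.center S) := fun d hd => Subgroup.mem_center_iff.2 fun s => hDc d hd s
  have hyZ : y ∉ (Subgroup.center S) := fun h => hnab (Subgroup.mem_center_iff.1 h x)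
  have hxZ : x ∉ (Subgroup.center S) := fun h => hnab (Subgroup.mem_center_iff.1 h y).symm
  have hy2 : y * y ∈ (Subgroup.center S) := by
    refine Subgroup.mem_center_iff.2 fun s => ?_
    obtain ⟨d, hd, i, hs⟩ := hgen s
    set d0 := y * x * y⁻¹ * x
    have hd0 : ∀ s, s * d0 = d0 * s := hDc d0 hrel
    have h1 : y * x * y⁻¹ = d0 * x⁻¹ := by show _ = y * x * y⁻¹ * x * x⁻¹; group
    have h2 : Commute (y * y) x := by
      have h3 : y * y * x * (y * y)⁻¹ = x := by
        calc y * y * x * (y * y)⁻¹ = y * (y * x * y⁻¹) * y⁻¹ := by group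
          _ = (y * d0) * x⁻¹ * y⁻¹ := by rw [h1]; group
          _ = d0 * (y * x * y⁻¹)⁻¹ := by rw [hd0 y]; group
          _ = (d0 * x) * d0⁻¹ := by rw [h1]; group
          _ = x := by rw [← hd0 x, mul_inv_cancel_right]
      exact mul_inv_eq_iff_eq_mul.1 h3
    have h4 : Commute (y * y) y := (Commute.refl y).mul_left (Commute.refl y)
    have h5 : Commute (y * y) d := hDc d hd (y * y)
    rcases hs with rfl | rfl
    · exact ((h2.pow_right i).mul_right h5).eq.symm
    · exact ((h4.mul_right (h2.pow_right i)).mul_right h5).eq.symm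
  set z : (Subgroup.center S) := ⟨y * y, hy2⟩
  have hz : ∀ i, z ∉ C i := hout y hyZ hy2
  have hzc : ∀ s : S, s * (y * y) = y * y * s := fun s => Subgroup.mem_center_iff.1 hy2 s
  have hinv : y * x * y⁻¹ = x⁻¹ := by
    set d0 := y * x * y⁻¹ * x
    have h1 : y * x * y⁻¹ = d0 * x⁻¹ := by show _ = y * x * y⁻¹ * x * x⁻¹; group
    have hxy2 : x * y * (x * y) = d0 * (y * y) := by
      calc x * y * (x * y) = x * (y * x * y⁻¹) * (y * y) := by group
        _ = (x * d0) * x⁻¹ * (y * y) := by rw [h1]; group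
        _ = d0 * (y * y) := by rw [hDc d0 hrel x]; group
    have hxyZ : x * y ∉ (Subgroup.center S) := by
      intro h
      apply hnab
      have := Subgroup.mem_center_iff.1 h y
      exact mul_right_cancel (show x * y * y = y * x * y by rw [← this, mul_assoc])
    have hm : x * y * (x * y) ∈ (Subgroup.center S) := by rw [hxy2]; exact (Subgroup.center S).mul_mem (hDZ _ hrel) hy2
    have e : d0 * (y * y) = y * y := by
      rw [← hxy2]; exact congrArg Subtype.val (huniq ⟨_, hm⟩ z (hout _ hxyZ hm) hz)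
    rw [h1, show d0 = 1 from mul_eq_right.1 e, one_mul]
  have hxp : ∀ i : ℕ, x ^ i ∈ (Subgroup.center S) → x ^ i = 1 ∨ x ^ i = y * y := by
    intro i hi
    obtain ⟨k, hk⟩ := hS x
    have hex : ∃ j, x ^ 2 ^ j ∈ (Subgroup.center S) := ⟨k, by rw [hk]; exact (Subgroup.center S).one_mem⟩
    have hj := Nat.find_spec hex
    obtain ⟨j, hje⟩ : ∃ j, Nat.find hex = j + 1 := Nat.exists_eq_succ_of_ne_zero (fun h => hxZ (by
      rw [h, pow_zero, pow_one] at hj; exact hj))
    have hjn : x ^ 2 ^ j ∉ (Subgroup.center S) := Nat.find_min hex (by omega)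
    have hm : x ^ 2 ^ j * x ^ 2 ^ j ∈ (Subgroup.center S) := by rw [← pow_two, ← pow_mul, ← pow_succ, ← hje]; exact hj
    have e : x ^ 2 ^ j * x ^ 2 ^ j = y * y := congrArg Subtype.val (huniq ⟨_, hm⟩ z (hout _ hjn hm) hz)
    -- i is a multiple of 2 ^ (j + 1)
    have hdvd : 2 ^ (j + 1) ∣ i := by
      have ho : orderOf ((x : S ⧸ (Subgroup.center S))) = 2 ^ (j + 1) := by
        refine orderOf_eq_prime_pow ?_ ?_
        · rw [← QuotientGroup.mk_pow, QuotientGroup.eq_one_iff]; exact hjn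
        · rw [← QuotientGroup.mk_pow, QuotientGroup.eq_one_iff, ← hje]; exact hj
      rw [← ho]
      exact orderOf_dvd_of_pow_eq_one (by rw [← QuotientGroup.mk_pow, QuotientGroup.eq_one_iff]; exact hi)
    obtain ⟨l, rfl⟩ := hdvd
    rw [pow_mul, pow_succ, pow_mul, pow_two, e]
    rcases Nat.even_or_odd l with ⟨r, rfl⟩ | ⟨r, rfl⟩
    · left
      rw [← two_mul, pow_mul, pow_two, show y * y * (y * y) = 1 from congrArg Subtype.val (hel z), one_pow]
    · right
      rw [pow_succ, pow_mul, pow_two, show y * y * (y * y) = 1 from congrArg Subtype.val (hel z), one_pow, one_mul]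
  have hconj : ∀ i : ℕ, y * x ^ i * y⁻¹ = (x ^ i)⁻¹ := fun i => by rw [← conj_pow, hinv, inv_pow]
  have hyxZ : ∀ i : ℕ, y * x ^ i ∉ (Subgroup.center S) := by
    intro i h
    apply hnab
    have h1 := Subgroup.mem_center_iff.1 h x
    refine mul_right_cancel (b := x ^ i) ?_
    calc x * y * x ^ i = x * (y * x ^ i) := mul_assoc _ _ _
      _ = y * x ^ i * x := h1
      _ = y * x * x ^ i := by rw [mul_assoc, ← pow_succ, pow_succ', ← mul_assoc]
  set Q := Subgroup.closure ({x, y} : Set S) with hQdef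
  have hord : ∀ i : ℕ, ∃ j : ℕ, (x ^ i)⁻¹ = x ^ j := fun i => ⟨(orderOf x - 1) * i, by
    rw [← inv_pow, show x⁻¹ = x ^ (orderOf x - 1) from inv_eq_of_mul_eq_one_right (by
      rw [← pow_succ', Nat.sub_add_cancel (orderOf_pos x), pow_orderOf_eq_one]), ← pow_mul]⟩
  have hQmem : ∀ q ∈ Q, ∃ (b : ℕ) (i : ℕ), q = y ^ b * x ^ i := by
    intro q hq
    have hmul : ∀ b i b' i' : ℕ, ∃ (B I : ℕ), y ^ b * x ^ i * (y ^ b' * x ^ i') = y ^ B * x ^ I := by
      intro b i b'
      induction b' generalizing i with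
      | zero => intro i'; exact ⟨b, i + i', by rw [pow_zero, one_mul, mul_assoc, pow_add]⟩
      | succ b' ih =>
        intro i'
        obtain ⟨j, hj⟩ := hord i
        have hc : x ^ i * y = y * x ^ j := by
          have h5 : y * x ^ j * y⁻¹ = x ^ i := by rw [hconj, ← hj, inv_inv]
          rw [← h5]; group
        obtain ⟨j', hj'⟩ : ∃ j', x ^ i * y ^ (b' + 1) = y ^ (b' + 1) * x ^ j' := by
          clear ih
          induction b' with
          | zero => exact ⟨j, by rw [zero_add, pow_one, hc]⟩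
          | succ b' ih2 =>
            obtain ⟨j2, h2⟩ := ih2
            obtain ⟨j3, h3⟩ := hord j2
            refine ⟨j3, ?_⟩
            have h5 : y * x ^ j3 * y⁻¹ = x ^ j2 := by rw [hconj, ← h3, inv_inv]
            rw [pow_succ y (b' + 1), ← mul_assoc, h2, ← h5]; group
        exact ⟨b + (b' + 1), j' + i', by rw [mul_assoc, ← mul_assoc (x ^ i), hj', mul_assoc (y ^ (b' + 1)), ← mul_assoc, ← pow_add, ← pow_add]⟩
    refine Subgroup.closure_induction ?_ ?_ ?_ ?_ hq
    · rintro _ (rfl | rfl)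
      · exact ⟨0, 1, by simp⟩
      · exact ⟨1, 0, by simp⟩
    · exact ⟨0, 0, by simp⟩
    · rintro _ _ _ _ ⟨b, i, rfl⟩ ⟨b', i', rfl⟩
      exact hmul b i b' i'
    · intro w _ ⟨b, i, hw⟩
      rw [inv_eq_of_mul_eq_one_right (a := w) (b := w ^ (orderOf w - 1)) (by
        rw [← pow_succ', Nat.sub_add_cancel (orderOf_pos w), pow_orderOf_eq_one])]
      induction orderOf w - 1 with
      | zero => exact ⟨0, 0, by simp⟩
      | succ m ih => obtain ⟨B, I, h⟩ := ih; rw [pow_succ, h, hw]; exact hmul B I b i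
  have hyy : ∀ b : ℕ, y ^ b = 1 ∨ y ^ b = y * y ∨ y ^ b = y ∨ y ^ b = y * (y * y) := by
    intro b
    have h4 : y * y * (y * y) = 1 := congrArg Subtype.val (hel z)
    induction b with
    | zero => left; rw [pow_zero]
    | succ b ih =>
      rw [pow_succ']
      rcases ih with h | h | h | h <;> rw [h]
      · right; right; left; rw [mul_one]
      · right; right; right; rfl
      · right; left; rfl
      · left; rw [← mul_assoc, h4]
  have hQZ : ∀ q ∈ Q, q ∈ (Subgroup.center S) → q = 1 ∨ q = y * y := by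
    intro q hq hqZ
    obtain ⟨b, i, rfl⟩ := hQmem q hq
    have h4 : y * y * (y * y) = 1 := congrArg Subtype.val (hel z)
    rcases hyy b with e | e | e | e <;> rw [e] at hqZ ⊢
    · rw [one_mul] at hqZ ⊢; exact hxp i hqZ
    · have hx' : x ^ i ∈ (Subgroup.center S) := ((Subgroup.center S).mul_mem_cancel_left hy2).1 hqZ
      rcases hxp i hx' with h | h <;> rw [h]
      · right; rw [mul_one]
      · left; exact h4
    · exact absurd hqZ (hyxZ i)
    · exfalso
      refine hyxZ i ?_
      have h6 := (Subgroup.center S).mul_mem hy2 hqZ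
      rwa [← mul_assoc (y * y), ← mul_assoc (y * y), ← hzc y, mul_assoc y, h4, mul_one] at h6
  refine ⟨D', Q, ⟨le_top, le_top, fun a ha b _ => (hDc a ha b).symm, ?_, ?_⟩, ⟨?_, ?_⟩, ?_, ?_⟩
  · rw [eq_bot_iff]
    intro q hq
    obtain ⟨hqD, hqQ⟩ := Subgroup.mem_inf.1 hq
    rw [Subgroup.mem_bot]
    rcases hQZ q hqQ (hDZ q hqD) with h | h
    · exact h
    · obtain ⟨w, hw, e⟩ := hqD
      exact absurd ((show w = z from Subtype.ext (e.trans h)) ▸ hw) (hz i0)
  · rw [eq_top_iff]
    intro s _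
    obtain ⟨d, hd, i, rfl | rfl⟩ := hgen s
    · rw [sup_comm]; exact Subgroup.mul_mem_sup (Q.pow_mem (Subgroup.subset_closure (by simp)) i) hd
    · rw [sup_comm]; exact Subgroup.mul_mem_sup (Q.mul_mem (Subgroup.subset_closure (by simp)) (Q.pow_mem (Subgroup.subset_closure (by simp)) i)) hd
  · exact ⟨⟨fun a b => Subtype.ext (hDc b b.2 a)⟩⟩
  · intro a ha
    have := congrArg Subtype.val (hel ⟨a, hDZ a ha⟩)
    rw [pow_two]; exact this
  · intro hc
    apply hnab
    exact congrArg Subtype.val (hc.is_comm.comm (⟨x, Subgroup.subset_closure (by simp)⟩ : Q) ⟨y, Subgroup.subset_closure (by simp)⟩)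
  · have hyQ : y * y ∈ Q := Q.mul_mem (Subgroup.subset_closure (by simp)) (Subgroup.subset_closure (by simp))
    have hy21 : y * y ≠ 1 := fun e => hyZ (hinvol y e)
    refine ⟨⟨y * y, hyQ⟩, ?_, ?_⟩
    · show orderOf (⟨y * y, hyQ⟩ : Q) = 2
      rw [← Subgroup.orderOf_coe]
      exact orderOf_eq_prime (by rw [pow_two]; exact congrArg Subtype.val (hel z)) hy21
    · intro q hq
      have hq' : orderOf (q : S) = 2 := by rw [Subgroup.orderOf_coe]; exact hq
      have hq1 : (q : S) ≠ 1 := fun e => by rw [e, orderOf_one] at hq'; norm_num at hq'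
      have hqq : (q : S) * q = 1 := by rw [← pow_two, ← hq', pow_orderOf_eq_one]
      exact Subtype.ext ((hQZ q q.2 (hinvol q hqq)).resolve_left hq1)

end Cfsg.Agent.S3201
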