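import Cfsg.Statements.S3202
import Cfsg.Agent.S0016

set_option autoImplicit false
open Cfsg
open scoped commutatorElement

namespace Cfsg.Agent.S3202

/-- Let S be a finite 2-group of 2-rank exactly 2 and D a maximal subgroup of the centre of S such that S/D is a non-abelian group with exactly one involution (a generalized quaternion group). Then S has a nontrivial cyclic characteristic subgroup. -/
theorem result {S : Type*} [Group S]
    [Finite S] (hS : IsPGroup 2 S) (hr2 : Cfsg.PRankLE 2 2 S) (hr1 : ¬ Cfsg.PRankLE 2 1 S)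
    (D : Subgroup ↥(Subgroup.center S)) (hD : IsCoatom D)
    (hq : ∃ (_ : (D.map (Subgroup.center S).subtype).Normal),
      ¬ IsMulCommutative (S ⧸ D.map (Subgroup.center S).subtype) ∧
      ∃! x : S ⧸ D.map (Subgroup.center S).subtype, orderOf x = 2) :
    ∃ C : Subgroup S, C ≠ ⊥ ∧ IsCyclic ↥C ∧ C.Characteristic := by
  classical
  obtain ⟨hDn, hna, hu⟩ := hq
  set D' := D.map (Subgroup.center S).subtype
  haveI := hDn
  have hDc : ∀ d ∈ D', ∀ s : S, s * d = d * s := by
    rintro _ ⟨⟨d, hd⟩, -, rfl⟩ s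
    exact Subgroup.mem_center_iff.1 hd s
  set Q := S ⧸ D'
  haveI : Fact (Nat.Prime 2) := ⟨Nat.prime_two⟩
  have hQ : IsPGroup 2 Q := hS.to_quotient D'
  obtain ⟨t, -, ht⟩ := hu
  have hone : ∀ A B : Subgroup Q, Nat.card A = 2 → Nat.card B = 2 → A = B := by
    intro A B hA hB
    obtain ⟨u, hu⟩ := exists_prime_orderOf_dvd_card' (G := A) 2 (by rw [hA])
    obtain ⟨v, hv⟩ := exists_prime_orderOf_dvd_card' (G := B) 2 (by rw [hB])
    rw [← Subgroup.orderOf_coe] at hu hv
    have e : (u : Q) = v := (ht _ hu).trans (ht _ hv).symm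
    have h1 : Subgroup.zpowers (u : Q) = A :=
      Subgroup.eq_of_le_of_card_ge (Subgroup.zpowers_le.2 u.2) (by rw [Nat.card_zpowers, hA, hu])
    have h2 : Subgroup.zpowers (v : Q) = B :=
      Subgroup.eq_of_le_of_card_ge (Subgroup.zpowers_le.2 v.2) (by rw [Nat.card_zpowers, hB, hv])
    rw [← h1, ← h2, e]
  have hcyc : ¬ IsCyclic Q := fun h => hna h.isMulCommutative
  obtain ⟨-, n, ⟨e⟩⟩ := (Cfsg.Agent.S0016.result 2 hQ hone).resolve_left hcyc
  obtain ⟨x, hx⟩ := QuotientGroup.mk_surjective (e.symm (QuaternionGroup.a 1))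
  obtain ⟨y, hy⟩ := QuotientGroup.mk_surjective (e.symm (QuaternionGroup.xa 0))
  have hrel : (y * x * y⁻¹ * x : S) ∈ D' := by
    rw [← QuotientGroup.eq_one_iff, QuotientGroup.mk_mul, QuotientGroup.mk_mul, QuotientGroup.mk_mul,
      QuotientGroup.mk_inv, hx, hy, ← map_inv, ← map_mul, ← map_mul, ← map_mul]
    rw [show QuaternionGroup.xa 0 * QuaternionGroup.a 1 * (QuaternionGroup.xa (0 : ZMod (2 * 2 ^ n)))⁻¹ * QuaternionGroup.a 1 = 1 from ?_, map_one]
    rw [mul_inv_eq_iff_eq_mul.2 (show QuaternionGroup.xa (0 : ZMod (2 * 2 ^ n)) * QuaternionGroup.a 1 = QuaternionGroup.a (-1) * QuaternionGroup.xa 0 from by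
      simp)]
    rw [QuaternionGroup.a_mul_a, neg_add_cancel]; rfl
  have hgen : ∀ s : S, ∃ d ∈ D', ∃ i : ℕ, s = x ^ i * d ∨ s = y * x ^ i * d := by
    intro s
    haveI : NeZero (2 * 2 ^ n) := ⟨mul_ne_zero two_ne_zero (pow_ne_zero _ two_ne_zero)⟩
    rcases hs : e (s : Q) with i | i
    · refine ⟨(x ^ i.val)⁻¹ * s, ?_, i.val, Or.inl (by group)⟩
      rw [← QuotientGroup.eq, QuotientGroup.mk_pow, hx, ← map_pow, MulEquiv.symm_apply_eq, hs, QuaternionGroup.a_one_pow, ZMod.natCast_val, ZMod.cast_id]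
    · refine ⟨(y * x ^ i.val)⁻¹ * s, ?_, i.val, Or.inr (by group)⟩
      rw [← QuotientGroup.eq, QuotientGroup.mk_mul, QuotientGroup.mk_pow, hx, hy, ← map_pow, ← map_mul, MulEquiv.symm_apply_eq, hs, QuaternionGroup.a_one_pow, QuaternionGroup.xa_mul_a, zero_add, ZMod.natCast_val, ZMod.cast_id]
  set c := x * y * x⁻¹ * y⁻¹
  set d := y * x * y⁻¹ * x with hd
  have hcd : c = x * x * d⁻¹ := by
    have h1 : x * d⁻¹ = d⁻¹ * x := hDc _ (D'.inv_mem hrel) x
    calc c = x * ((x * d⁻¹)) := by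
          rw [hd]; show x * y * x⁻¹ * y⁻¹ = _; group
      _ = x * x * d⁻¹ := by group
  have hxc : x * c * x⁻¹ = c := by
    rw [hcd]
    have h1 : x * d⁻¹ = d⁻¹ * x := hDc _ (D'.inv_mem hrel) x
    calc x * (x * x * d⁻¹) * x⁻¹ = x * x * (x * d⁻¹) * x⁻¹ := by group
      _ = x * x * d⁻¹ := by rw [h1]; group
  have hyc : y * c * y⁻¹ = c⁻¹ := by
    have h1 : y * x * y⁻¹ = d * x⁻¹ := by rw [hd]; group
    have h2 : y * d⁻¹ * y⁻¹ = d⁻¹ := by rw [hDc _ (D'.inv_mem hrel) y, mul_inv_cancel_right]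
    have h3 : x⁻¹ * d = d * x⁻¹ := hDc _ hrel x⁻¹
    calc y * c * y⁻¹ = (y * x * y⁻¹) * (y * x * y⁻¹) * (y * d⁻¹ * y⁻¹) := by rw [hcd]; group
      _ = d * (x⁻¹ * d) * x⁻¹ * d⁻¹ := by rw [h1, h2]; group
      _ = d * d * x⁻¹ * x⁻¹ * d⁻¹ := by rw [h3]; group
      _ = d * (d * x⁻¹ * x⁻¹) * d⁻¹ := by group
      _ = d * (x⁻¹ * x⁻¹ * d) * d⁻¹ := by rw [hDc _ hrel (x⁻¹ * x⁻¹)]; group
      _ = c⁻¹ := by rw [hcd]; group
  set N := Subgroup.zpowers c
  have hDconj : ∀ d' ∈ D', d' * c * d'⁻¹ = c := by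
    intro d' hd'
    rw [← hDc d' hd' c, mul_inv_cancel_right]
  have hpowx : ∀ i : ℕ, x ^ i * c * (x ^ i)⁻¹ = c := by
    intro i
    induction i with
    | zero => simp
    | succ i ih =>
      calc x ^ (i + 1) * c * (x ^ (i + 1))⁻¹ = x ^ i * (x * c * x⁻¹) * (x ^ i)⁻¹ := by rw [pow_succ]; group
        _ = c := by rw [hxc, ih]
  have hcn : ∀ s : S, s * c * s⁻¹ ∈ N := by
    intro s
    obtain ⟨d', hd', i, rfl | rfl⟩ := hgen s
    · rw [show x ^ i * d' * c * (x ^ i * d')⁻¹ = x ^ i * (d' * c * d'⁻¹) * (x ^ i)⁻¹ from by group, hDconj d' hd', hpowx]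
      exact Subgroup.mem_zpowers c
    · rw [show y * x ^ i * d' * c * (y * x ^ i * d')⁻¹ = y * (x ^ i * (d' * c * d'⁻¹) * (x ^ i)⁻¹) * y⁻¹ from by group, hDconj d' hd', hpowx, hyc]
      exact Subgroup.inv_mem _ (Subgroup.mem_zpowers c)
  haveI hN : N.Normal := ⟨by
    rintro _ ⟨k, rfl⟩ s
    show s * c ^ k * s⁻¹ ∈ N
    rw [← conj_zpow]
    exact Subgroup.zpow_mem _ (hcn s) k⟩
  have hab : ∀ a b : S ⧸ N, a * b = b * a := by
    have hxy : Commute (x : S ⧸ N) (y : S ⧸ N) := by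
      have h : ((x * y * x⁻¹ * y⁻¹ : S) : S ⧸ N) = 1 := (QuotientGroup.eq_one_iff _).2 (Subgroup.mem_zpowers c)
      rw [QuotientGroup.mk_mul, QuotientGroup.mk_mul, QuotientGroup.mk_mul, QuotientGroup.mk_inv, QuotientGroup.mk_inv] at h
      exact mul_inv_eq_iff_eq_mul.1 (eq_of_mul_inv_eq_one h)
    have hd' : ∀ d' ∈ D', ∀ u : S ⧸ N, Commute (d' : S ⧸ N) u := by
      intro d' hd' u
      induction u using QuotientGroup.induction_on with | H s => ?_
      show (d' : S ⧸ N) * s = s * d'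
      rw [← QuotientGroup.mk_mul, ← QuotientGroup.mk_mul, hDc d' hd' s]
    have hx' : ∀ u : S ⧸ N, Commute (x : S ⧸ N) u := by
      intro u
      induction u using QuotientGroup.induction_on with | H s => ?_
      obtain ⟨d', hd'', i, rfl | rfl⟩ := hgen s
      · rw [QuotientGroup.mk_mul, QuotientGroup.mk_pow]
        exact ((Commute.refl _).pow_right i).mul_right (hd' _ hd'' _).symm
      · rw [QuotientGroup.mk_mul, QuotientGroup.mk_mul, QuotientGroup.mk_pow]
        exact (hxy.mul_right ((Commute.refl _).pow_right i)).mul_right (hd' _ hd'' _).symm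
    have hy' : ∀ u : S ⧸ N, Commute (y : S ⧸ N) u := by
      intro u
      induction u using QuotientGroup.induction_on with | H s => ?_
      obtain ⟨d', hd'', i, rfl | rfl⟩ := hgen s
      · rw [QuotientGroup.mk_mul, QuotientGroup.mk_pow]
        exact (hxy.symm.pow_right i).mul_right (hd' _ hd'' _).symm
      · rw [QuotientGroup.mk_mul, QuotientGroup.mk_mul, QuotientGroup.mk_pow]
        exact ((Commute.refl _).mul_right (hxy.symm.pow_right i)).mul_right (hd' _ hd'' _).symm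
    intro a b
    induction a using QuotientGroup.induction_on with | H s => ?_
    obtain ⟨d', hd'', i, rfl | rfl⟩ := hgen s
    · rw [QuotientGroup.mk_mul, QuotientGroup.mk_pow]
      exact ((hx' b).pow_left i).mul_left (hd' _ hd'' b)
    · rw [QuotientGroup.mk_mul, QuotientGroup.mk_mul, QuotientGroup.mk_pow]
      exact ((hy' b).mul_left ((hx' b).pow_left i)).mul_left (hd' _ hd'' b)
  have hle : commutator S ≤ N := by
    rw [commutator_def, Subgroup.commutator_le]
    intro a _ b _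
    rw [← QuotientGroup.eq_one_iff, ← QuotientGroup.mk'_apply, map_commutatorElement, commutatorElement_eq_one_iff_mul_comm]
    exact hab _ _
  refine ⟨commutator S, ?_, ?_, inferInstance⟩
  · intro h
    apply hna
    refine ⟨⟨fun a b => ?_⟩⟩
    induction a using QuotientGroup.induction_on with | H u => ?_
    induction b using QuotientGroup.induction_on with | H v => ?_
    have hm : ⁅u, v⁆ ∈ commutator S := Subgroup.commutator_mem_commutator (Subgroup.mem_top _) (Subgroup.mem_top _)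
    rw [h, Subgroup.mem_bot, commutatorElement_eq_one_iff_mul_comm] at hm
    rw [← QuotientGroup.mk_mul, ← QuotientGroup.mk_mul, hm]
  · exact isCyclic_of_injective (f := Subgroup.inclusion hle) (Subgroup.inclusion_injective hle)

end Cfsg.Agent.S3202
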