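import Cfsg.Statements.S3208
import Cfsg.Agent.Lib.StableReplace
import Cfsg.Agent.Lib.CoreOmega

set_option autoImplicit false
open Cfsg

namespace Cfsg.Agent.S3208

/-- Let j be an involution of a finite group G, H a subgroup of G, and T a Sylow 2-subgroup of H ∩ C_G(j) containing j such that ⟨j⟩ is a characteristic subgroup of T. Then T is a Sylow 2-subgroup of H. -/
theorem result {G : Type*} [Group G] [Finite G]
    (j : G) (hj : orderOf j = 2) (H T : Subgroup G) (hT : T ≤ H ⊓ Subgroup.centralizer ({j} : Set G)) (h2 : IsPGroup 2 ↥T)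
    (hSyl : ¬ 2 ∣ T.relIndex (H ⊓ Subgroup.centralizer ({j} : Set G))) (hjT : j ∈ T)
    (hchar : ((Subgroup.zpowers j).subgroupOf T).Characteristic) :
    ¬ 2 ∣ T.relIndex H := by
  haveI : Fact (Nat.Prime 2) := ⟨Nat.prime_two⟩
  intro hdvd
  set C := Subgroup.centralizer ({j} : Set G) with hC
  have hTH : T ≤ H := hT.trans inf_le_left
  obtain ⟨S, hS⟩ := (h2.comap_of_injective H.subtype H.subtype_injective).exists_le_sylow
  have hlt : T < (S : Subgroup H).map H.subtype := by
    refine lt_of_le_of_ne (fun t ht => ⟨⟨t, hTH ht⟩, hS ht, rfl⟩) fun e => ?_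
    refine S.not_dvd_index ?_
    rw [Subgroup.relIndex] at hdvd
    rwa [← Subgroup.comap_map_eq_self_of_injective H.subtype_injective (S : Subgroup H), ← e,
      Subgroup.comap_subtype]
  obtain ⟨g, hgS, hgT, hgN⟩ := CfsgLib.Stable.exists_normalizer_gt hlt (S.2.map H.subtype)
  haveI := hchar
  have hgj : g ∈ C := by
    have hle : g ∈ Subgroup.normalizer ((Subgroup.zpowers j : Subgroup G) : Set G) := by
      have h1 := CfsgLib.Core.le_normalizer_map_of_characteristic
        (Q := T) (A := Subgroup.zpowers g) (Subgroup.zpowers_le.2 hgN)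
        ((Subgroup.zpowers j).subgroupOf T) (Subgroup.mem_zpowers g)
      rwa [Subgroup.subgroupOf_map_subtype, inf_eq_left.2 (Subgroup.zpowers_le.2 hjT)] at h1
    rw [hC, Subgroup.mem_centralizer_singleton_iff]
    obtain ⟨k, hk⟩ := Subgroup.mem_zpowers_iff.1
      ((Subgroup.mem_normalizer_iff.1 hle j).1 (Subgroup.mem_zpowers j))
    have h1 : orderOf (g * j * g⁻¹) = 2 := by
      rw [← MulAut.conj_apply, MulEquiv.orderOf_eq, hj]
    rcases Int.even_or_odd k with hev | hod
    · exfalso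
      obtain ⟨m, rfl⟩ := hev
      rw [← hk, ← two_mul, zpow_mul, show j ^ (2 : ℤ) = 1 by
        rw [show (2 : ℤ) = ((2 : ℕ) : ℤ) from rfl, zpow_natCast, ← hj, pow_orderOf_eq_one],
        one_zpow, orderOf_one] at h1
      exact absurd h1 (by norm_num)
    · obtain ⟨m, rfl⟩ := hod
      rw [zpow_add, zpow_mul, show j ^ (2 : ℤ) = 1 by
        rw [show (2 : ℤ) = ((2 : ℕ) : ℤ) from rfl, zpow_natCast, ← hj, pow_orderOf_eq_one],
        one_zpow, one_mul, zpow_one] at hk
      exact (mul_inv_eq_iff_eq_mul.1 hk.symm)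
  -- a larger two-group in the intersection
  set T' := (S : Subgroup H).map H.subtype ⊓ C with hT'
  have hle : T ≤ T' := le_inf hlt.le (hT.trans inf_le_right)
  have hT'le : T' ≤ H ⊓ C := inf_le_inf_right _ (Subgroup.map_subtype_le _)
  have hlt' : T < T' := lt_of_le_of_ne hle fun e => hgT (e ▸ ⟨hgS, hgj⟩)
  refine hSyl ?_
  rw [← Subgroup.relIndex_mul_relIndex T T' (H ⊓ C) hle hT'le]
  refine Dvd.dvd.mul_right ?_ _
  have hP : IsPGroup 2 T' := (S.2.map H.subtype).to_le inf_le_left
  obtain ⟨k, hk⟩ := IsPGroup.iff_card.1 hP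
  have hd : T.relIndex T' ∣ 2 ^ k := hk ▸ Subgroup.relIndex_dvd_card T T'
  obtain ⟨i, -, hi⟩ := (Nat.dvd_prime_pow Nat.prime_two).1 hd
  rcases Nat.eq_zero_or_pos i with rfl | hi'
  · rw [pow_zero] at hi
    exact absurd (Subgroup.relIndex_eq_one.1 hi) (fun h => hlt'.ne (le_antisymm hle h))
  · exact hi ▸ dvd_pow_self 2 (by omega)

end Cfsg.Agent.S3208
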