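import Cfsg.Statements.S3209
import Cfsg.Agent.Lib.SLTwoSquareRoot

set_option autoImplicit false
open Cfsg
open scoped Pointwise

namespace Cfsg.Agent.S3209

/-- Let L₁ ≅ SL₂(q₁) and L₂ ≅ SL₂(q₂), q₁ and q₂ odd, be elementwise-commuting subgroups of a finite group meeting in ⟨j⟩ for an involution j. Then L₁L₂ has exactly two conjugacy classes of involutions: the central involution j, and one further class (there is an involution x ≠ j in L₁L₂, and every involution of L₁L₂ other than j is conjugate to x by an element of L₁L₂). -/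
theorem result {G : Type*} [Group G] [Finite G]
    {F₁ : Type*} [Field F₁] [Fintype F₁] {F₂ : Type*} [Field F₂] [Fintype F₂]
    (hF₁ : Odd (Fintype.card F₁)) (hF₂ : Odd (Fintype.card F₂)) (L₁ L₂ : Subgroup G)
    (e₁ : ↥L₁ ≃* Matrix.SpecialLinearGroup (Fin 2) F₁) (e₂ : ↥L₂ ≃* Matrix.SpecialLinearGroup (Fin 2) F₂)
    (hc : ∀ x ∈ L₁, ∀ y ∈ L₂, x * y = y * x) (j : G) (hj : orderOf j = 2) (hm : L₁ ⊓ L₂ = Subgroup.zpowers j) :
    ∃ x ∈ L₁ ⊔ L₂, orderOf x = 2 ∧ x ≠ j ∧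
      ∀ y ∈ L₁ ⊔ L₂, orderOf y = 2 → y = j ∨ ∃ g ∈ L₁ ⊔ L₂, g * x * g⁻¹ = y := by
  have hj2 : j ^ 2 = 1 := by rw [← hj]; exact pow_orderOf_eq_one j
  have hj1 : j ≠ 1 := fun h => by rw [h, orderOf_one] at hj; omega
  have hjm : j ∈ L₁ ⊓ L₂ := hm ▸ Subgroup.mem_zpowers j
  have hmem : ∀ z ∈ L₁ ⊓ L₂, z = 1 ∨ z = j := by
    intro z hz
    rw [hm, Subgroup.mem_zpowers_iff] at hz
    obtain ⟨k, rfl⟩ := hz
    rcases Int.even_or_odd k with ⟨i, rfl⟩ | ⟨i, rfl⟩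
    · left
      rw [← two_mul, _root_.zpow_mul, zpow_two, ← pow_two, hj2, one_zpow]
    · right
      rw [_root_.zpow_add, _root_.zpow_mul, zpow_two, ← pow_two, hj2, one_zpow, one_mul, zpow_one]
  obtain ⟨hu₁, w₁, hw₁, hw₁2, hconj₁⟩ := SLTwoSquareRoot.subgroup_facts hF₁ L₁ e₁ hjm.1 hj2 hj1
  obtain ⟨hu₂, w₂, hw₂, hw₂2, hconj₂⟩ := SLTwoSquareRoot.subgroup_facts hF₂ L₂ e₂ hjm.2 hj2 hj1
  have hx : w₁ * w₂ ∈ L₁ ⊔ L₂ :=
    mul_mem (Subgroup.mem_sup_left hw₁) (Subgroup.mem_sup_right hw₂)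
  have hne1 : w₁ * w₂ ≠ 1 ∧ w₁ * w₂ ≠ j := by
    constructor <;> intro h
    · have : w₁ ∈ L₁ ⊓ L₂ := ⟨hw₁, by rw [eq_inv_of_mul_eq_one_left h]; exact L₂.inv_mem hw₂⟩
      rcases hmem _ this with e | e <;> rw [e] at hw₁2
      · exact hj1 (by simpa using hw₁2.symm)
      · exact hj1 (hw₁2.symm.trans hj2)
    · have : w₁ ∈ L₁ ⊓ L₂ := ⟨hw₁, by rw [eq_mul_inv_of_mul_eq h]; exact L₂.mul_mem hjm.2 (L₂.inv_mem hw₂)⟩
      rcases hmem _ this with e | e <;> rw [e] at hw₁2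
      · exact hj1 (by simpa using hw₁2.symm)
      · exact hj1 (hw₁2.symm.trans hj2)
  have hsq : ∀ u ∈ L₁, ∀ v ∈ L₂, (u * v) ^ 2 = u ^ 2 * v ^ 2 := fun u hu v hv =>
    Commute.mul_pow (hc u hu v hv) 2
  refine ⟨w₁ * w₂, hx, ?_, hne1.2, ?_⟩
  · haveI := Fact.mk Nat.prime_two
    exact orderOf_eq_prime (by rw [hsq _ hw₁ _ hw₂, hw₁2, hw₂2, ← pow_two, hj2]) hne1.1
  intro y hy hyo
  have hy2 : y ^ 2 = 1 := by rw [← hyo]; exact pow_orderOf_eq_one y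
  have hy1 : y ≠ 1 := fun h => by rw [h, orderOf_one] at hyo; omega
  have hnorm : L₁ ≤ Subgroup.normalizer (L₂ : Set G) := by
    intro n hn
    refine Subgroup.mem_normalizer_iff.2 fun z => ⟨fun hz => ?_, fun hz => ?_⟩
    · rw [hc n hn z hz, mul_inv_cancel_right]; exact hz
    · have h5 : n⁻¹ * (n * z * n⁻¹) * n = z := by group
      have h6 := hc n hn _ hz
      rw [mul_assoc, ← h6, inv_mul_cancel_left] at h5
      rwa [h5] at hz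
  have hy' : y ∈ (↑(L₁ ⊔ L₂) : Set G) := hy
  rw [Subgroup.coe_mul_of_left_le_normalizer_right L₁ L₂ hnorm, Set.mem_mul] at hy'
  obtain ⟨u, hu, v, hv, huv⟩ := hy'
  subst huv
  rw [hsq u hu v hv] at hy2
  have hu2m : u ^ 2 ∈ L₁ ⊓ L₂ := ⟨pow_mem hu 2, by
    rw [eq_inv_of_mul_eq_one_left hy2]; exact L₂.inv_mem (L₂.pow_mem hv 2)⟩
  rcases hmem _ hu2m with hu2 | hu2 <;> rw [hu2] at hy2
  · rw [one_mul] at hy2
    left
    rcases hu₁ u hu hu2 with rfl | rfl <;> rcases hu₂ v hv hy2 with rfl | rfl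
    · exact absurd (one_mul _) hy1
    · rw [one_mul]
    · rw [mul_one]
    · exact absurd (by rw [← pow_two, hj2]) hy1
  · right
    have hv2 : v ^ 2 = j := by
      rw [← inv_eq_of_mul_eq_one_right hy2]
      exact inv_eq_of_mul_eq_one_right (by rw [← pow_two, hj2])
    obtain ⟨g₁, hg₁, hg₁u⟩ := hconj₁ u hu hu2
    obtain ⟨g₂, hg₂, hg₂v⟩ := hconj₂ v hv hv2
    refine ⟨g₁ * g₂, mul_mem (Subgroup.mem_sup_left hg₁) (Subgroup.mem_sup_right hg₂), ?_⟩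
    have c1 : g₂ * w₁ = w₁ * g₂ := (hc w₁ hw₁ g₂ hg₂).symm
    have c2 : g₁⁻¹ * (g₂ * w₂ * g₂⁻¹) = (g₂ * w₂ * g₂⁻¹) * g₁⁻¹ :=
      hc _ (inv_mem hg₁) _ (mul_mem (mul_mem hg₂ hw₂) (inv_mem hg₂))
    calc g₁ * g₂ * (w₁ * w₂) * (g₁ * g₂)⁻¹
        = g₁ * (g₂ * w₁) * w₂ * g₂⁻¹ * g₁⁻¹ := by group
      _ = g₁ * w₁ * ((g₂ * w₂ * g₂⁻¹) * g₁⁻¹) := by rw [c1]; group
      _ = u * v := by rw [← c2, ← mul_assoc, hg₁u, hg₂v]

end Cfsg.Agent.S3209
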