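import Cfsg.Statements.S3215
import Cfsg.Agent.Lib.CoreLayer
import Cfsg.Agent.Lib.CoreBasic
import Cfsg.Agent.Lib.CoreFpfComplement
import Cfsg.Agent.Lib.LocalFStarAction

set_option autoImplicit false
open Cfsg
open scoped commutatorElement

namespace Cfsg.Agent.S3215

lemma fixed_modEq {H : Type*} [Group H] [Finite H] {q : ℕ} [Fact q.Prime] (Q : Subgroup H) (hQ : IsPGroup q Q)
    (S : Set H) (hS : ∀ a ∈ Q, ∀ x ∈ S, a * x * a⁻¹ ∈ S) :
    Nat.card S ≡ Nat.card {x : H | x ∈ S ∧ ∀ a ∈ Q, a * x * a⁻¹ = x} [MOD q] := by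
  classical
  letI : MulAction Q S :=
    { smul := fun a x => ⟨(a : H) * x * (a : H)⁻¹, hS a a.2 x x.2⟩
      one_smul := fun x => Subtype.ext (by show ((1 : Q) : H) * x * ((1 : Q) : H)⁻¹ = x; simp)
      mul_smul := fun a b x => Subtype.ext (by
        show ((a * b : Q) : H) * x * ((a * b : Q) : H)⁻¹ = (a : H) * ((b : H) * x * (b : H)⁻¹) * (a : H)⁻¹
        rw [Subgroup.coe_mul]; group) }
  refine (hQ.card_modEq_card_fixedPoints S).trans (congrArg (· % q) ?_)
  refine Nat.card_congr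
    { toFun := fun x => ⟨x.1.1, x.1.2, fun a ha => congrArg Subtype.val (x.2 ⟨a, ha⟩)⟩
      invFun := fun x => ⟨⟨x.1, x.2.1⟩, fun a => Subtype.ext (x.2.2 a a.2)⟩
      left_inv := fun x => rfl
      right_inv := fun x => rfl }

lemma invol_commute {H : Type*} [Group H] [Finite H] {t x y : H}
    (hI : Cfsg.HasNormalPComplement 2 ↥(Subgroup.centralizer ({t} : Set H)))
    {Y : Subgroup H} [Y.Normal] (hY : IsPGroup 2 Y) (hx : Odd (orderOf x)) (hxt : Commute x t)
    (hy : y ∈ Y) (hyt : Commute y t) : Commute x y := by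
  set C := Subgroup.centralizer ({t} : Set H)
  obtain ⟨P, K, hK, hc⟩ := hI
  haveI := hK
  have hidx : K.index = Nat.card (P : Subgroup C) := hc.symm.index_eq_card
  have hKodd : Odd (Nat.card K) := by
    have h1 := hc.card_mul
    have h2 := (P : Subgroup C).index_mul_card
    have h3 : Nat.card K = (P : Subgroup C).index :=
      Nat.eq_of_mul_eq_mul_right Nat.card_pos (h1.trans h2.symm)
    rw [← Nat.not_even_iff_odd, even_iff_two_dvd, h3]
    exact P.not_dvd_index
  obtain ⟨m, hm⟩ := IsPGroup.iff_card.1 P.isPGroup'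
  let x' : C := ⟨x, Subgroup.mem_centralizer_singleton_iff.2 hxt.eq⟩
  let y' : C := ⟨y, Subgroup.mem_centralizer_singleton_iff.2 hyt.eq⟩
  have hxK : x' ∈ K := by
    rw [← QuotientGroup.eq_one_iff]
    refine orderOf_eq_one_iff.1 (Nat.eq_one_of_dvd_coprimes (a := orderOf x') (b := 2 ^ m) ?_
      (orderOf_map_dvd (QuotientGroup.mk' K) x') ?_)
    · rw [← Subgroup.orderOf_coe]
      exact (Nat.coprime_two_right.2 hx).pow_right m
    · rw [← hm, ← hidx]
      exact orderOf_dvd_natCard _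
  have h1 : x' * y' * x'⁻¹ * y'⁻¹ ∈ K := by
    rw [show x' * y' * x'⁻¹ * y'⁻¹ = x' * (y' * x'⁻¹ * y'⁻¹) from by group]
    exact K.mul_mem hxK (hK.conj_mem _ (K.inv_mem hxK) _)
  have h2 : x * y * x⁻¹ * y⁻¹ ∈ Y := Y.mul_mem (‹Y.Normal›.conj_mem _ hy _) (Y.inv_mem hy)
  obtain ⟨k, hk⟩ := IsPGroup.iff_card.1 hY
  have h3 : orderOf (x * y * x⁻¹ * y⁻¹) ∣ 2 ^ k := hk ▸ Subgroup.orderOf_dvd_natCard Y h2
  have h4 : orderOf (x * y * x⁻¹ * y⁻¹) ∣ Nat.card K := by
    have h5 : orderOf (x' * y' * x'⁻¹ * y'⁻¹) ∣ Nat.card K := Subgroup.orderOf_dvd_natCard K h1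
    rwa [← Subgroup.orderOf_coe] at h5
  have h6 := orderOf_eq_one_iff.1 (Nat.eq_one_of_dvd_coprimes ((Nat.coprime_two_right.2 hKodd).pow_right k) h4 h3)
  exact mul_inv_eq_iff_eq_mul.1 (eq_of_mul_inv_eq_one h6)

/-- Let H be a finite solvable group with no nontrivial normal subgroup of odd order in which the centralizer of every involution has a normal 2-complement. Let X be a Hall 2'-subgroup of H (odd order, index a power of 2) and Y = O₂(H). Then no non-identity element of X commutes with a non-identity element of Y (so for X ≠ 1 the group XY is a Frobenius group with kernel Y), every Sylow subgroup of X is cyclic, XY is normal in H, and H/XY is a cyclic 2-group. -/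
theorem result {H : Type*} [Group H] [Finite H] (hsol : Group.IsSolvable H)
    (hO : Cfsg.oddCore H = ⊥)
    (hI : ∀ t : H, orderOf t = 2 → Cfsg.HasNormalPComplement 2 ↥(Subgroup.centralizer ({t} : Set H)))
    (X : Subgroup H) (hXodd : Odd (Nat.card X)) (hXidx : ∃ k : ℕ, X.index = 2 ^ k) :
    (∀ x ∈ X, x ≠ 1 → ∀ y ∈ Cfsg.pCore 2 H, y ≠ 1 → x * y ≠ y * x) ∧
      (∀ (p : ℕ) [Fact p.Prime] (P : Sylow p ↥X), IsCyclic ↥(P : Subgroup ↥X)) ∧
      (X ⊔ Cfsg.pCore 2 H).Normal ∧
      ∀ hN : (X ⊔ Cfsg.pCore 2 H).Normal, IsCyclic (H ⧸ (X ⊔ Cfsg.pCore 2 H)) ∧ IsPGroup 2 (H ⧸ (X ⊔ Cfsg.pCore 2 H)) := by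
  classical
  haveI := hsol
  haveI hYn : (Cfsg.pCore 2 H).Normal := CfsgLib.Core.normal_pCore 2
  set Y := Cfsg.pCore 2 H with hYdef
  have hYp : IsPGroup 2 Y := CfsgLib.Core.isPGroup_pCore 2
  obtain ⟨kY, hkY⟩ := IsPGroup.iff_card.1 hYp
  have hCY : Subgroup.centralizer (Y : Set H) ≤ Y := CfsgLib.Core.centralizer_pCore_le hO
  have hodd2 : ∀ x : H, Odd (orderOf x) → x ∈ Y → x = 1 := by
    intro x hx hxY
    exact orderOf_eq_one_iff.1 (Nat.eq_one_of_dvd_coprimes ((Nat.coprime_two_right.2 hx).pow_right kY)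
      (dvd_refl _) (hkY ▸ Subgroup.orderOf_dvd_natCard Y hxY))
  have hinvol : ∀ y : H, y ∈ Y → y ≠ 1 → ∃ i : ℕ, orderOf (y ^ i) = 2 := by
    intro y hy hy1
    have h : orderOf y ∣ 2 ^ kY := hkY ▸ Subgroup.orderOf_dvd_natCard Y hy
    obtain ⟨j, -, hj⟩ := (Nat.dvd_prime_pow Nat.prime_two).1 h
    rcases j with _ | j
    · exact absurd (orderOf_eq_one_iff.1 (by rw [hj, pow_zero])) hy1
    · refine ⟨2 ^ j, ?_⟩
      rw [orderOf_pow, hj, Nat.gcd_eq_right (pow_dvd_pow 2 (Nat.le_succ j)), pow_succ,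
        Nat.mul_div_cancel_left _ (pow_pos two_pos j)]
  -- elements of odd order act freely
  have hfree : ∀ x : H, Odd (orderOf x) → x ≠ 1 → ∀ y ∈ Y, y ≠ 1 → ¬ Commute x y := by
    intro x hx hx1 y hy hy1 hxy
    obtain ⟨i, hi⟩ := hinvol y hy hy1
    have hti : y ^ i ∈ Y := Y.pow_mem hy i
    haveI : Nontrivial Y := ⟨⟨⟨y, hy⟩, 1, fun e => hy1 (congrArg Subtype.val e)⟩⟩
    haveI := hYp.center_nontrivial
    obtain ⟨z, hz⟩ := exists_ne (1 : Subgroup.center Y)
    have hz1 : ((z : Y) : H) ≠ 1 := fun e => hz (Subtype.ext (Subtype.ext e))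
    obtain ⟨j, hj⟩ := hinvol _ (z : Y).2 hz1
    have hzc : ∀ w ∈ Y, Commute (((z : Y) : H) ^ j) w := by
      intro w hw
      have h := congrArg Subtype.val (Subgroup.mem_center_iff.1 z.2 ⟨w, hw⟩)
      exact (show Commute ((z : Y) : H) w from h.symm).pow_left j
    have hxz : Commute x (((z : Y) : H) ^ j) :=
      invol_commute (hI _ hi) hYp hx (hxy.pow_right i) (Y.pow_mem (z : Y).2 j) (hzc _ hti)
    have hxC : x ∈ Subgroup.centralizer (Y : Set H) := Subgroup.mem_centralizer_iff.2 fun w hw =>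
      (invol_commute (hI _ hj) hYp hx hxz hw (hzc w hw).symm).symm.eq
    exact hx1 (hodd2 x hx (hCY hxC))
  have hXord : ∀ x ∈ X, Odd (orderOf x) := fun x hx =>
    hXodd.of_dvd_nat (Subgroup.orderOf_dvd_natCard X hx)
  have hXY : ∀ x ∈ X, x ∈ Y → x = 1 := fun x hx hxY => hodd2 x (hXord x hx) hxY
  have hYne : ∀ x ∈ X, x ≠ 1 → Y ≠ ⊥ := by
    intro x hx hx1 hbot
    apply hx1
    refine hXY x hx (hCY (Subgroup.mem_centralizer_iff.2 fun w hw => ?_))
    rw [hbot] at hw
    simp [Subgroup.mem_bot.1 hw]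
  have hcyc : ∀ (p : ℕ) [Fact p.Prime] (P : Sylow p ↥X), IsCyclic ↥(P : Subgroup ↥X) := by
    intro p _ P
    by_cases hPb : (P : Subgroup X) = ⊥
    · rw [hPb]; infer_instance
    set P' := (P : Subgroup X).map X.subtype
    obtain ⟨⟨g, hgX⟩, hgP, hg1⟩ : ∃ g ∈ (P : Subgroup X), g ≠ 1 := by
      by_contra h
      exact hPb (eq_bot_iff.2 fun g hg => Subgroup.mem_bot.2 (by_contra fun hg1 => h ⟨g, hg, hg1⟩))
    have hYb := hYne g hgX (fun e => hg1 (Subtype.ext e))
    have hp2 : p ≠ 2 := by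
      rintro rfl
      obtain ⟨m, hm⟩ := IsPGroup.iff_card.1 P.isPGroup'
      rcases m with _ | m
      · exact hPb (Subgroup.eq_bot_of_card_eq _ (by rw [hm, pow_zero]))
      · refine (Nat.not_even_iff_odd.2 hXodd) (even_iff_two_dvd.2 ?_)
        exact (dvd_pow_self 2 (Nat.succ_ne_zero m)).trans (hm ▸ Subgroup.card_subgroup_dvd_card (P : Subgroup X))
    have hfp : ∀ a ∈ P', a ≠ 1 → ∀ v ∈ Y, a * v = v * a → v = 1 := by
      intro a ha ha1 v hv hav
      obtain ⟨a', -, rfl⟩ := ha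
      by_contra hv1
      exact hfree _ (hXord _ a'.2) ha1 v hv hv1 hav
    rcases CfsgLib.Core.cyclic_or_quaternion_of_fpf (P := P') (K := Y) (P.isPGroup'.map _)
      (by rw [Subgroup.normalizer_eq_top_iff.2 hYn]; exact le_top) hYb hfp with h | h
    · haveI := h
      exact isCyclic_of_surjective (Subgroup.equivMapOfInjective (P : Subgroup X) X.subtype (Subgroup.subtype_injective _)).symm.toMonoidHom
        (Subgroup.equivMapOfInjective (P : Subgroup X) X.subtype (Subgroup.subtype_injective _)).symm.surjective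
    · exact absurd h.1 hp2
  refine ⟨fun x hx hx1 y hy hy1 h => hfree x (hXord x hx) hx1 y hy hy1 h, hcyc, ?_⟩
  -- the quotient by Y
  haveI : IsZGroup X := ⟨fun p hp P => by haveI := Fact.mk hp; exact hcyc p P⟩
  set π := QuotientGroup.mk' Y
  set X' := X.map π
  let eX : X →* X' := π.subgroupMap X
  have hinj : Function.Injective eX := by
    rw [injective_iff_map_eq_one]
    intro a ha
    exact Subtype.ext (hXY a a.2 ((QuotientGroup.eq_one_iff _).1 (congrArg Subtype.val ha)))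
  have hsurjX : Function.Surjective eX := π.subgroupMap_surjective X
  have hX'odd : Odd (Nat.card X') := hXodd.of_dvd_nat (X.card_map_dvd π)
  obtain ⟨kX, hkX⟩ := hXidx
  have hX'idx : X'.index ∣ 2 ^ kX := hkX ▸ X.index_map_dvd (QuotientGroup.mk'_surjective _)
  -- the Fitting subgroup of the quotient
  have hO2 : Cfsg.pCore 2 (H ⧸ Y) = ⊥ := CfsgLib.Core.pCore_quotient_pCore 2
  set R := Cfsg.fittingSubgroup (H ⧸ Y) with hR
  haveI hRn : R.Normal := CfsgLib.Core.normal_fittingSubgroup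
  haveI : Group.IsNilpotent R := CfsgLib.Core.isNilpotent_fittingSubgroup
  haveI : Group.IsSolvable (H ⧸ Y) := solvable_of_surjective (QuotientGroup.mk'_surjective Y)
  have hCR : Subgroup.centralizer (R : Set (H ⧸ Y)) ≤ R := CfsgLib.Core.centralizer_fitting_le
  have hRodd : Odd (Nat.card R) := Nat.coprime_two_right.1 (CfsgLib.Local.FStar.fitting_coprime hO2)
  have hRX : R ≤ X' := by
    have h1 : Nat.card ↥(X' ⊔ R) ∣ Nat.card R * Nat.card X' := by
      rw [sup_comm, ← Subgroup.relIndex_bot_left (R ⊔ X'),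
        ← Subgroup.relIndex_mul_relIndex ⊥ R (R ⊔ X') bot_le le_sup_left, Subgroup.relIndex_bot_left, sup_comm,
        Subgroup.relIndex_sup_right]
      exact Nat.mul_dvd_mul_left _ (Subgroup.relIndex_dvd_card _ _)
    have h2 : (X'.relIndex (X' ⊔ R)) ∣ Nat.card ↥(X' ⊔ R) := Subgroup.relIndex_dvd_card _ _
    have h3 : (X'.relIndex (X' ⊔ R)) ∣ 2 ^ kX := (Subgroup.relIndex_mul_index (le_sup_left (a := X') (b := R)) ▸ Dvd.intro _ rfl : _ ∣ X'.index).trans hX'idx
    have h4 : Odd (Nat.card ↥(X' ⊔ R)) := (hRodd.mul hX'odd).of_dvd_nat h1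
    have h5 := Nat.eq_one_of_dvd_coprimes ((Nat.coprime_two_right.2 h4).pow_right kX) h2 h3
    exact le_trans le_sup_right (Subgroup.relIndex_eq_one.1 h5)
  haveI : IsZGroup X' := IsZGroup.of_surjective (f := eX) hsurjX
  haveI : IsZGroup R := IsZGroup.of_injective (f := Subgroup.inclusion hRX) (Subgroup.inclusion_injective hRX)
  haveI hRc : IsCyclic R := inferInstance
  have hcomm : ∀ a b : H ⧸ Y, ⁅a, b⁆ ∈ R := by
    intro a b
    apply hCR
    rw [Subgroup.mem_centralizer_iff]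
    intro r hr
    let φ : H ⧸ Y →* MulAut R := MulAut.conjNormal
    have hab : ∀ u v : MulAut R, u * v = v * u := by
      intro u v
      apply (IsCyclic.mulAutMulEquiv R).injective
      rw [map_mul, map_mul, mul_comm]
    have h : φ ⁅a, b⁆ = 1 := by
      rw [map_commutatorElement, commutatorElement_eq_one_iff_mul_comm]
      exact hab _ _
    have h2 := congrArg (fun u : MulAut R => ((u ⟨r, hr⟩ : R) : H ⧸ Y)) h
    have h3 : ⁅a, b⁆ * r * ⁅a, b⁆⁻¹ = r := h2
    rw [mul_inv_eq_iff_eq_mul] at h3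
    exact h3.symm
  have hX'n : X'.Normal := ⟨fun x hx g => by
    have h := X'.mul_mem (hRX (hcomm g x)) hx
    rwa [commutatorElement_def, inv_mul_cancel_right] at h⟩
  have hcomap : X ⊔ Y = X'.comap π := by
    rw [Subgroup.comap_map_eq, QuotientGroup.ker_mk']
  refine ⟨hcomap ▸ hX'n.comap π, fun hN => ?_⟩
  haveI := hN
  set N := X ⊔ Y
  have hNq : IsPGroup 2 (H ⧸ N) := by
    refine IsPGroup.iff_card.2 ?_
    rw [← Subgroup.index_eq_card]
    have : N.index ∣ 2 ^ kX := hkX ▸ Subgroup.index_dvd_of_le le_sup_left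
    obtain ⟨j, -, hj⟩ := (Nat.dvd_prime_pow Nat.prime_two).1 this
    exact ⟨j, hj⟩
  refine ⟨?_, hNq⟩
  -- abelian
  letI : CommGroup (H ⧸ N) :=
    { (inferInstance : Group (H ⧸ N)) with
      mul_comm := by
        intro u v
        induction u using QuotientGroup.induction_on with | H a => ?_
        induction v using QuotientGroup.induction_on with | H b => ?_
        rw [← QuotientGroup.mk_mul, ← QuotientGroup.mk_mul, QuotientGroup.eq]
        have hh : ⁅b⁻¹, a⁻¹⁆ ∈ N := by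
          rw [hcomap, Subgroup.mem_comap, map_commutatorElement]
          exact hRX (hcomm _ _)
        rw [commutatorElement_def] at hh
        convert hh using 1
        group }
  -- key: involutions of the quotient by Y act freely on R
  have hkey : ∀ t : H ⧸ Y, t * t = 1 → t ≠ 1 → ∀ r ∈ R, t * r = r * t → r = 1 := by
    intro t ht2 ht1 r0 hr0 htr0
    by_contra hr01
    have ho0 : orderOf r0 ≠ 1 := fun e => hr01 (orderOf_eq_one_iff.1 e)
    obtain ⟨q, hq, hqd⟩ := Nat.exists_prime_and_dvd ho0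
    haveI := Fact.mk hq
    set r := r0 ^ (orderOf r0 / q)
    have hrq : orderOf r = q := orderOf_pow_orderOf_div (orderOf_pos r0).ne' hqd
    have hrR : r ∈ R := R.pow_mem hr0 _
    have htr : t * r = r * t := ((show Commute t r0 from htr0).pow_right _).eq
    obtain ⟨rr, hrrX, hrr⟩ := hRX hrR
    have hrq' : orderOf rr = q := by
      rw [← hrq, ← hrr]
      have e : (⟨rr, hrrX⟩ : X) = ⟨rr, hrrX⟩ := rfl
      have h := orderOf_injective eX hinj ⟨rr, hrrX⟩
      rw [← Subgroup.orderOf_coe, ← Subgroup.orderOf_coe] at h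
      exact h.symm
    obtain ⟨tt, rfl⟩ := QuotientGroup.mk'_surjective Y t
    have hq2 : q ≠ 2 := by
      rintro rfl
      have := hXord rr hrrX
      rw [hrq'] at this
      exact absurd this (by decide)
    -- a fixed point of rr in the coset tt Y
    let S : Set H := {x | π x = π tt}
    have hS : ∀ a ∈ Subgroup.zpowers rr, ∀ x ∈ S, a * x * a⁻¹ ∈ S := by
      intro a ha x hx
      obtain ⟨n, rfl⟩ := ha
      show π (rr ^ n * x * (rr ^ n)⁻¹) = π tt
      rw [map_mul, map_mul, map_inv, map_zpow, show π x = π tt from hx, hrr]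
      have hc : Commute (r ^ n) (π tt) := ((show Commute (π tt) r from htr).zpow_right n).symm
      rw [hc.eq, mul_inv_cancel_right]
    have hQ : IsPGroup q (Subgroup.zpowers rr) := IsPGroup.iff_card.2 ⟨1, by rw [Nat.card_zpowers, hrq', pow_one]⟩
    have hScard : Nat.card S = Nat.card Y := Nat.card_congr
      { toFun := fun x => ⟨tt⁻¹ * x, by
          rw [← QuotientGroup.eq]; exact (show π x = π tt from x.2).symm⟩
        invFun := fun y => ⟨tt * y, by
          show π (tt * y) = π tt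
          rw [map_mul, show π (y : H) = 1 from (QuotientGroup.eq_one_iff _).2 y.2, mul_one]⟩
        left_inv := fun x => Subtype.ext (mul_inv_cancel_left _ _)
        right_inv := fun y => Subtype.ext (inv_mul_cancel_left _ _) }
    have hmod := fixed_modEq (Subgroup.zpowers rr) hQ S hS
    obtain ⟨t', ht'S, ht'c⟩ : ∃ x, x ∈ S ∧ ∀ a ∈ Subgroup.zpowers rr, a * x * a⁻¹ = x := by
      by_contra hne
      have h0 : Nat.card {x : H | x ∈ S ∧ ∀ a ∈ Subgroup.zpowers rr, a * x * a⁻¹ = x} = 0 := by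
        rw [Nat.card_eq_zero]
        exact Or.inl ⟨fun x => hne ⟨x.1, x.2⟩⟩
      rw [h0, hScard, hkY, Nat.modEq_zero_iff_dvd] at hmod
      exact hq2 ((Nat.prime_dvd_prime_iff_eq hq Nat.prime_two).1 (hq.dvd_of_dvd_pow hmod))
    have hct : Commute rr t' := mul_inv_eq_iff_eq_mul.1 (ht'c rr (Subgroup.mem_zpowers rr))
    have hrodd : Odd (orderOf rr) := hXord rr hrrX
    have hr1 : rr ≠ 1 := by
      intro e; rw [e, orderOf_one] at hrq'; exact hq.ne_one hrq'.symm
    have ht'2 : t' * t' = 1 := by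
      by_contra hne
      refine hfree rr hrodd hr1 (t' * t') ?_ hne (hct.mul_right hct)
      rw [← QuotientGroup.eq_one_iff]
      show π (t' * t') = 1
      rw [map_mul, show π t' = π tt from ht'S]
      exact ht2
    have ht'1 : t' ≠ 1 := fun e => ht1 (by rw [← show π t' = π tt from ht'S, e, map_one])
    have ht'o : orderOf t' = 2 := orderOf_eq_prime (by rw [pow_two, ht'2]) ht'1
    have hP2 : IsPGroup 2 (Subgroup.zpowers t') := IsPGroup.iff_card.2 ⟨1, by rw [Nat.card_zpowers, ht'o, pow_one]⟩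
    have hmod2 := fixed_modEq (Subgroup.zpowers t') hP2 (Y : Set H) (fun a _ x hx => hYn.conj_mem x hx a)
    obtain ⟨y, hyY, hy1, hyc⟩ : ∃ y, y ∈ Y ∧ y ≠ 1 ∧ ∀ a ∈ Subgroup.zpowers t', a * y * a⁻¹ = y := by
      by_contra hne
      have h0 : Nat.card {x : H | x ∈ (Y : Set H) ∧ ∀ a ∈ Subgroup.zpowers t', a * x * a⁻¹ = x} = 1 := by
        rw [Nat.card_eq_one_iff_unique]
        refine ⟨⟨fun u v => Subtype.ext ?_⟩, ⟨⟨1, Y.one_mem, fun a _ => by simp⟩⟩⟩
        have hu : (u : H) = 1 := by_contra fun h => hne ⟨u, u.2.1, h, u.2.2⟩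
        have hv : (v : H) = 1 := by_contra fun h => hne ⟨v, v.2.1, h, v.2.2⟩
        rw [hu, hv]
      have hY1 : kY ≠ 0 := by
        intro e
        apply hYne rr hrrX hr1
        exact Subgroup.eq_bot_of_card_eq _ (by rw [hkY, e, pow_zero])
      rw [h0, show Nat.card (Y : Set H) = Nat.card Y from rfl, hkY, Nat.ModEq, Nat.pow_mod] at hmod2
      simp [zero_pow hY1] at hmod2
    have hyt : Commute y t' := (mul_inv_eq_iff_eq_mul.1 (hyc t' (Subgroup.mem_zpowers t'))).symm
    exact hfree rr hrodd hr1 y hyY hy1 (invol_commute (hI t' ht'o) hYp hrodd hct hyY hyt)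
  -- lift involutions
  have hlift : ∀ u : H ⧸ N, u * u = 1 → u ≠ 1 →
      ∃ g : H, (g : H ⧸ N) = u ∧ π g * π g = 1 ∧ π g ≠ 1 := by
    intro u hu2 hu1
    obtain ⟨g, rfl⟩ := QuotientGroup.mk_surjective u
    obtain ⟨a, b, hb, hab⟩ := Nat.exists_eq_two_pow_mul_odd (orderOf_pos g).ne'
    refine ⟨g ^ b, ?_, ?_, ?_⟩
    · obtain ⟨c, rfl⟩ := hb
      rw [QuotientGroup.mk_pow, pow_succ, pow_mul, pow_two, hu2, one_pow, one_mul]
    · have h1 : π (g ^ b * g ^ b) ∈ X' := by
        rw [← Subgroup.mem_comap, ← hcomap]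
        show g ^ b * g ^ b ∈ N
        rw [← QuotientGroup.eq_one_iff, QuotientGroup.mk_mul, QuotientGroup.mk_pow, ← (show Commute (g : H ⧸ N) (g : H ⧸ N) from rfl).mul_pow, hu2, one_pow]
      have h2 : orderOf (π (g ^ b * g ^ b)) ∣ 2 ^ a := by
        refine orderOf_dvd_of_pow_eq_one ?_
        rw [← map_pow, ← pow_add, ← pow_mul, show (b + b) * 2 ^ a = orderOf g * 2 from by rw [hab]; ring, pow_mul,
          pow_orderOf_eq_one, one_pow, map_one]
      rw [← map_mul]
      exact orderOf_eq_one_iff.1 (Nat.eq_one_of_dvd_coprimes ((Nat.coprime_two_right.2 hX'odd).pow_right a)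
        (Subgroup.orderOf_dvd_natCard _ h1) h2)
    · intro h
      apply hu1
      obtain ⟨c, rfl⟩ := hb
      rw [QuotientGroup.eq_one_iff]
      have h2 : g ^ (2 * c + 1) ∈ N := by
        rw [hcomap, Subgroup.mem_comap, h]; exact X'.one_mem
      rw [← QuotientGroup.eq_one_iff, QuotientGroup.mk_pow, pow_succ, pow_mul, pow_two, hu2, one_pow, one_mul] at h2
      rwa [← QuotientGroup.eq_one_iff]
  have hinv : ∀ t : H ⧸ Y, t * t = 1 → t ≠ 1 → ∀ r ∈ R, t * r * t⁻¹ = r⁻¹ := by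
    intro t ht2 ht1 r hr
    have ht' : t⁻¹ = t := inv_eq_of_mul_eq_one_right ht2
    have hm : r * (t * r * t⁻¹) ∈ R := R.mul_mem hr (hRn.conj_mem r hr t)
    have hcm : r * (t * r * t⁻¹) = (t * r * t⁻¹) * r := by
      letI := hRc.commGroup
      exact congrArg Subtype.val (mul_comm (⟨r, hr⟩ : R) ⟨_, hRn.conj_mem r hr t⟩)
    refine eq_inv_of_mul_eq_one_right (hkey t ht2 ht1 _ hm ?_)
    calc t * (r * (t * r * t⁻¹)) = (t * r * t⁻¹) * (t * t) * r * t⁻¹ := by group
      _ = (t * r * t⁻¹) * r * t⁻¹ := by rw [ht2, mul_one]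
      _ = r * (t * r * t⁻¹) * t := by rw [← hcm, ht']
  have huniq : ∀ u v : H ⧸ N, u * u = 1 → u ≠ 1 → v * v = 1 → v ≠ 1 → u = v := by
    intro u v hu hu1 hv hv1
    obtain ⟨g, hg, hg2, hg1⟩ := hlift u hu hu1
    obtain ⟨h, hh, hh2, hh1⟩ := hlift v hv hv1
    have hc : π (g * h) ∈ Subgroup.centralizer (R : Set (H ⧸ Y)) := by
      rw [Subgroup.mem_centralizer_iff]
      intro r hr
      have e1 := hinv _ hh2 hh1 r hr
      have e2 := hinv _ hg2 hg1 r⁻¹ (R.inv_mem hr)
      rw [inv_inv] at e2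
      rw [← e1] at e2
      rw [map_mul]
      calc r * (π g * π h) = π g * (π h * r * (π h)⁻¹) * (π g)⁻¹ * (π g * π h) := by rw [e2]
        _ = π g * π h * r := by group
    have hN' : g * h ∈ N := by rw [hcomap, Subgroup.mem_comap]; exact hRX (hCR hc)
    rw [← QuotientGroup.eq_one_iff, QuotientGroup.mk_mul, hg, hh] at hN'
    calc u = u * (v * v) := by rw [hv, mul_one]
      _ = v := by rw [← mul_assoc, hN', one_mul]
  have huq : ∀ A B : Subgroup (H ⧸ N), Nat.card A = 2 → Nat.card B = 2 → A = B := by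
    intro A B hA hB
    haveI : Fact (Nat.Prime 2) := ⟨Nat.prime_two⟩
    obtain ⟨u, hu⟩ := exists_prime_orderOf_dvd_card' (G := A) 2 (by rw [hA])
    obtain ⟨v, hv⟩ := exists_prime_orderOf_dvd_card' (G := B) 2 (by rw [hB])
    rw [← Subgroup.orderOf_coe] at hu hv
    have hu' := orderOf_eq_prime_iff.1 hu
    have hv' := orderOf_eq_prime_iff.1 hv
    rw [pow_two] at hu' hv'
    have e := huniq _ _ hu'.1 hu'.2 hv'.1 hv'.2
    have hA' : Subgroup.zpowers (u : H ⧸ N) = A :=
      Subgroup.eq_of_le_of_card_ge (Subgroup.zpowers_le.2 u.2) (by rw [Nat.card_zpowers, hA, hu])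
    have hB' : Subgroup.zpowers (v : H ⧸ N) = B :=
      Subgroup.eq_of_le_of_card_ge (Subgroup.zpowers_le.2 v.2) (by rw [Nat.card_zpowers, hB, hv])
    rw [← hA', ← hB', e]
  rcases Cfsg.Agent.S0016.result 2 hNq huq with h | ⟨-, n, ⟨e⟩⟩
  · exact h
  · rcases n with _ | n
    · haveI : IsCyclic (QuaternionGroup (2 ^ 0)) := QuaternionGroup.quaternionGroup_one_isCyclic
      exact isCyclic_of_surjective e.symm.toMonoidHom e.symm.surjective
    · exfalso
      have h := mul_comm (e.symm (QuaternionGroup.a 1)) (e.symm (QuaternionGroup.xa 0))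
      rw [← map_mul, ← map_mul] at h
      have h2 := e.symm.injective h
      simp only [QuaternionGroup.a_mul_xa, QuaternionGroup.xa_mul_a, QuaternionGroup.xa.injEq] at h2
      have h3 : ((2 : ℕ) : ZMod (2 * 2 ^ (n + 1))) = 0 := by push_cast; linear_combination -h2
      rw [ZMod.natCast_eq_zero_iff] at h3
      have h4 := Nat.le_of_dvd two_pos h3
      have : 1 ≤ 2 ^ n := Nat.one_le_two_pow
      rw [pow_succ] at h4; omega

end Cfsg.Agent.S3215
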