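import Cfsg.Statements.S3224
import Cfsg.Agent.Lib.TransferMaximalClass

set_option autoImplicit false
open Cfsg

namespace Cfsg.Agent.S3224

/-- A finite 2-group containing an involution whose centralizer has order 4 is dihedral, quasi-dihedral (semidihedral), or of order 4. -/
theorem result {S : Type*} [Group S] [Finite S] (hS : IsPGroup 2 S)
    (x : S) (hx : orderOf x = 2) (hC : Nat.card ↥(Subgroup.centralizer ({x} : Set S)) = 4) :
    (∃ n : ℕ, Nonempty (S ≃* DihedralGroup n)) ∨ Cfsg.IsQuasiDihedral S ∨ Nat.card S = 4 := by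
  classical
  obtain ⟨n, hn⟩ := IsPGroup.iff_card.1 hS
  let A : Subgroup S := Subgroup.centralizer ({x} : Set S)
  have hA4 : Nat.card A = 2 ^ 2 := hC
  rcases Nat.lt_or_ge n 3 with hn3 | hn3
  · right; right
    have h4 : 4 ∣ Nat.card S := hC ▸ Subgroup.card_subgroup_dvd_card A
    rw [hn] at h4 ⊢
    interval_cases n <;> simp_all
  have hxA : x ∈ A := Subgroup.mem_centralizer_singleton_iff.2 rfl
  have hab : IsMulCommutative A := ⟨⟨IsPGroup.commutative_of_card_eq_prime_sq (p := 2) hA4⟩⟩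
  have hAA : Subgroup.centralizer (A : Set S) = A := by
    refine le_antisymm (fun g hg => ?_) (fun a ha => Subgroup.mem_centralizer_iff.2 fun b hb =>
      congrArg Subtype.val (hab.is_comm.comm (⟨b, hb⟩ : A) ⟨a, ha⟩))
    exact Subgroup.mem_centralizer_singleton_iff.2 (Subgroup.mem_centralizer_iff.1 hg x hxA).symm
  have hcl := CfsgLib.Transfer.maximal_class_of_self_centralizing n hn A hA4 hAA
  have hidx := (CfsgLib.Transfer.card_commutator_of_maximal_class n hn3 hn hcl).1
  obtain ⟨-, ⟨C, hCc, hC2⟩, -⟩ := CfsgLib.Transfer.two_maximal_class n (by omega) hn (by rw [hidx]; norm_num)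
  obtain ⟨c, rfl⟩ := (Subgroup.isCyclic_iff_exists_zpowers_eq_top C).1 hCc
  haveI hCn : (Subgroup.zpowers c).Normal := Subgroup.normal_of_index_eq_two hC2
  have hN : orderOf c = 2 ^ (n - 1) := by
    have h := Subgroup.card_mul_index (Subgroup.zpowers c)
    rw [Nat.card_zpowers, hC2, hn, show n = n - 1 + 1 by omega, pow_succ] at h
    omega
  have hxx : x * x = 1 := by rw [← sq, ← hx]; exact pow_orderOf_eq_one x
  have hxinv : x⁻¹ = x := inv_eq_of_mul_eq_one_right hxx
  obtain ⟨m, rfl⟩ : ∃ m, n = m + 3 := ⟨n - 3, by omega⟩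
  simp only [show m + 3 - 1 = m + 2 by omega] at hN
  -- `x` is outside the cyclic subgroup
  have hxC : x ∉ Subgroup.zpowers c := by
    intro hmem
    have hcen : ∀ g : S, g * x = x * g := fun g => by
      have h1 : g * x * g⁻¹ ∈ Subgroup.zpowers c := hCn.conj_mem x hmem g
      have h2 : orderOf (g * x * g⁻¹) = 2 := by
        rw [← hx]
        exact orderOf_injective (MulAut.conj g).toMonoidHom (MulAut.conj g).injective x
      have huniq : ∀ y ∈ Subgroup.zpowers c, orderOf y = 2 → y = c ^ (2 ^ (m + 1)) := by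
        intro y hy hy2
        obtain ⟨k, hk⟩ := mem_zpowers_iff_mem_range_orderOf.1 hy |> Finset.mem_image.1
        obtain ⟨hk1, hk2⟩ := hk
        rw [Finset.mem_range, hN] at hk1
        subst hk2
        have hd : 2 ^ (m + 2) ∣ k * 2 := by
          rw [← hN, orderOf_dvd_iff_pow_eq_one, pow_mul, ← hy2, pow_orderOf_eq_one]
        rw [pow_succ] at hd hk1
        obtain ⟨q, hq⟩ := Nat.dvd_of_mul_dvd_mul_right (by norm_num) hd
        have hq2 : q < 2 := by
          by_contra hq2
          have := Nat.mul_le_mul_left (2 ^ (m + 1)) (show 2 ≤ q by omega)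
          omega
        interval_cases q
        · rw [hq, mul_zero, pow_zero, orderOf_one] at hy2
          exact absurd hy2 (by norm_num)
        · rw [hq, mul_one]
      exact mul_inv_eq_iff_eq_mul.1 ((huniq _ h1 h2).trans (huniq _ hmem hx).symm)
    have : A = ⊤ := eq_top_iff.2 fun g _ => Subgroup.mem_centralizer_singleton_iff.2 (hcen g)
    rw [this, Subgroup.card_top, hn] at hA4
    have := Nat.pow_right_injective (le_refl 2) hA4
    omega
  obtain ⟨a, haN, hca⟩ : ∃ a < orderOf c, x * c * x⁻¹ = c ^ a := by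
    obtain ⟨a, ha⟩ := (mem_zpowers_iff_mem_range_orderOf.1 (hCn.conj_mem c (Subgroup.mem_zpowers c) x)) |> Finset.mem_image.1
    exact ⟨a, Finset.mem_range.1 ha.1, ha.2.symm⟩
  have hcak : ∀ k : ℕ, x * c ^ k * x⁻¹ = c ^ (a * k) := fun k => by
    rw [← conj_pow, hca, pow_mul]
  have haa : a * a ≡ 1 [MOD 2 ^ (m + 2)] := by
    rw [← hN, ← pow_eq_pow_iff_modEq, pow_one, ← hcak a, ← hca, hxinv]
    rw [show x * (x * c * x) * x = (x * x) * c * (x * x) by group, hxx, one_mul, mul_one]
  have hodd : a % 2 = 1 := by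
    have h2 : a * a ≡ 1 [MOD 2] := haa.of_dvd (dvd_pow_self 2 (by omega))
    rcases Nat.mod_two_eq_zero_or_one a with h | h
    · simp [Nat.ModEq, Nat.mul_mod, h] at h2
    · exact h
  have h4 : a % 4 = 3 := by
    by_contra h4
    have h1 : a % 4 = 1 := by omega
    have hcm : c ^ (2 ^ m) ∈ A := by
      refine Subgroup.mem_centralizer_singleton_iff.2 ?_
      have : x * c ^ (2 ^ m) * x⁻¹ = c ^ (2 ^ m) := by
        rw [hcak, pow_eq_pow_iff_modEq, hN, show (2:ℕ) ^ (m + 2) = 4 * 2 ^ m by ring]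
        have : a ≡ 1 [MOD 4] := h1
        simpa using this.mul_right' (2 ^ m)
      exact (mul_inv_eq_iff_eq_mul.1 this).symm
    have ho : orderOf (c ^ (2 ^ m)) = 4 := by
      rw [orderOf_pow_of_dvd (by positivity), hN, show (2:ℕ) ^ (m + 2) = 2 ^ m * 4 by ring, Nat.mul_div_cancel_left _ (by positivity)]
      rw [hN]; exact pow_dvd_pow 2 (by omega)
    have hle : Subgroup.zpowers (c ^ (2 ^ m)) = A :=
      Subgroup.eq_of_le_of_card_ge (Subgroup.zpowers_le.2 hcm) (by rw [Nat.card_zpowers, ho, hA4]; norm_num)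
    exact hxC (Subgroup.zpowers_le.2 (pow_mem (Subgroup.mem_zpowers c) _) (hle.ge hxA))
  have hdvd : 2 ^ (m + 1) ∣ a + 1 := by
    have hle : 1 ≤ a * a := Nat.one_le_iff_ne_zero.2 (by simp; omega)
    have h := (Nat.modEq_iff_dvd' hle).1 haa.symm
    obtain ⟨b, hb⟩ : ∃ b, a - 1 = 2 * b ∧ b % 2 = 1 := ⟨(a - 1) / 2, by omega, by omega⟩
    rw [show a * a - 1 = (a + 1) * (a - 1) by rw [← Nat.sq_sub_sq, sq, one_pow], hb.1,
      show (a + 1) * (2 * b) = 2 * ((a + 1) * b) by ring, pow_succ' 2 (m + 1)] at h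
    exact ((Nat.coprime_two_left.2 (Nat.odd_iff.2 hb.2)).pow_left (m + 1)).dvd_of_dvd_mul_right
      (Nat.dvd_of_mul_dvd_mul_left (by norm_num) h)
  obtain ⟨d, hd⟩ := hdvd
  have hcases : a + 1 = 2 ^ (m + 1) ∨ a + 1 = 2 ^ (m + 2) := by
    have hp : (2:ℕ) ^ (m + 2) = 2 ^ (m + 1) * 2 := pow_succ 2 (m + 1)
    have hd2 : d ≤ 2 := by
      by_contra h
      have := Nat.mul_le_mul_left (2 ^ (m + 1)) (show 3 ≤ d by omega)
      rw [hN] at haN
      omega
    interval_cases d
    · omega
    · left; omega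
    · right; omega
  rcases hcases with h | h
  · obtain ⟨m, rfl⟩ : ∃ k, m = k + 1 := ⟨m - 1, by rcases m with _ | m <;> simp_all⟩
    exact Or.inr (Or.inl ⟨m + 3, by omega, hn, c, x, hN, hx, by
      rw [hca, show m + 3 - 1 = m + 2 by omega, show 2 ^ (m + 2) - 1 = a by (rw [show m + 1 + 1 = m + 2 from rfl] at h; omega)]⟩)
  left
  refine ⟨orderOf c, ?_⟩
  haveI : NeZero (orderOf c) := ⟨(orderOf_pos c).ne'⟩
  let P : ZMod (orderOf c) → S := fun i => c ^ i.val
  have hPadd : ∀ i j, P (i + j) = P i * P j := fun i j => by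
    show c ^ (i + j).val = c ^ i.val * c ^ j.val
    rw [ZMod.val_add, pow_mod_orderOf, pow_add]
  have hPneg : ∀ i, P (-i) = (P i)⁻¹ := fun i => eq_inv_of_mul_eq_one_left (by
    rw [← hPadd, neg_add_cancel]; simp [P])
  have hinv : x * c * x⁻¹ = c⁻¹ := by
    rw [hca]
    refine eq_inv_of_mul_eq_one_left ?_
    rw [← pow_succ, h, ← hN, pow_orderOf_eq_one]
  have hPx : ∀ i, P i * x = x * P (-i) := fun i => by
    have e : x * c ^ i.val * x⁻¹ = (c ^ i.val)⁻¹ := by rw [← conj_pow, hinv, inv_pow]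
    rw [hPneg, show (P i)⁻¹ = x * c ^ i.val * x⁻¹ from e.symm, hxinv,
      show x * (x * c ^ i.val * x) = (x * x) * (c ^ i.val * x) by group, hxx, one_mul]
  let F : DihedralGroup (orderOf c) → S := fun g => match g with
    | DihedralGroup.r i => P i
    | DihedralGroup.sr i => x * P i
  have hmul : ∀ g g', F (g * g') = F g * F g' := by
    rintro (i | i) (j | j)
    · exact hPadd i j
    · show x * P (j - i) = P i * (x * P j)
      rw [← mul_assoc, hPx, mul_assoc, ← hPadd, sub_eq_add_neg, add_comm]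
    · show x * P (i + j) = x * P i * P j
      rw [hPadd, mul_assoc]
    · show P (j - i) = x * P i * (x * P j)
      rw [show x * P i * (x * P j) = x * (P i * x) * P j by group, hPx, ← mul_assoc, hxx, one_mul, ← hPadd,
        sub_eq_add_neg, add_comm]
  refine ⟨(MulEquiv.ofBijective (MonoidHom.mk' F hmul) ((Nat.bijective_iff_injective_and_card _).2 ⟨?_, ?_⟩)).symm⟩
  · refine (injective_iff_map_eq_one (MonoidHom.mk' F hmul)).2 ?_
    rintro (i | i) he
    · have he' : c ^ i.val = 1 := he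
      rw [← orderOf_dvd_iff_pow_eq_one] at he'
      have : i.val = 0 := Nat.eq_zero_of_dvd_of_lt he' (ZMod.val_lt i)
      rw [(ZMod.val_eq_zero i).1 this]; rfl
    · exfalso
      have he' : x * P i = 1 := he
      exact hxC (eq_inv_of_mul_eq_one_left he' ▸ inv_mem (pow_mem (Subgroup.mem_zpowers c) _))
  · rw [DihedralGroup.nat_card, hn, hN]; ring

end Cfsg.Agent.S3224
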