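import Cfsg.Statements.S3225
import Cfsg.Agent.Lib.TransferApps

set_option autoImplicit false
open Cfsg

namespace Cfsg.Agent.S3225

/-- Let G be a finite group of even order with no subgroup of index 2, S a Sylow 2-subgroup of G and M a subgroup of index 2 in S such that, for some n ≥ 1, every element of S outside M has order greater than 2^(n−1). Then every element of S of order 2ⁿ is conjugate in G to an element of M. -/
theorem result {G : Type*} [Group G] [Finite G] (hev : Even (Nat.card G))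
    (hG : ∀ H : Subgroup G, H.index ≠ 2) (S : Sylow 2 G) (M : Subgroup G) (hMS : M ≤ (S : Subgroup G)) (hM : M.relIndex (S : Subgroup G) = 2)
    (n : ℕ) (hn : 1 ≤ n) (hord : ∀ y ∈ (S : Subgroup G), y ∉ M → 2 ^ (n - 1) < orderOf y)
    (x : G) (hx : x ∈ (S : Subgroup G)) (hxn : orderOf x = 2 ^ n) :
    ∃ g : G, g * x * g⁻¹ ∈ M := by
  classical
  haveI : Fact (Nat.Prime 2) := ⟨Nat.prime_two⟩
  by_contra hno
  push Not at hno
  set Q₀ := M.subgroupOf (S : Subgroup G) with hQ₀
  haveI hnq : Q₀.Normal := Subgroup.normal_of_index_eq_two hM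
  haveI hcy : IsCyclic ((S : Subgroup G) ⧸ Q₀) :=
    isCyclic_of_prime_card (p := 2) (by rw [← Subgroup.index_eq_card]; exact hM)
  letI := IsCyclic.commGroup (α := (S : Subgroup G) ⧸ Q₀)
  let φ := QuotientGroup.mk' Q₀
  set τ := φ ⟨x, hx⟩ with hτ
  have hτ1 : τ ≠ 1 := fun e =>
    hno 1 (by simpa using Subgroup.mem_subgroupOf.mp ((QuotientGroup.eq_one_iff _).mp e))
  have h2c : Nat.card ((S : Subgroup G) ⧸ Q₀) = 2 := by rw [← Subgroup.index_eq_card]; exact hM
  have hsq : ∀ v : (S : Subgroup G) ⧸ Q₀, v ^ 2 = 1 := fun v => by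
    have := pow_card_eq_one' (x := v)
    rwa [h2c] at this
  have huniq : ∀ v : (S : Subgroup G) ⧸ Q₀, v ≠ 1 → v = τ := by
    intro v hv
    obtain ⟨w, -, hw⟩ := (Nat.card_eq_two_iff' (1 : (S : Subgroup G) ⧸ Q₀)).mp h2c
    exact (hw v hv).trans (hw τ hτ1).symm
  set T := MonoidHom.transfer φ with hT
  have hTu : T x = τ := by
    letI := Fintype.ofFinite (Quotient (MulAction.orbitRel (Subgroup.zpowers x) (G ⧸ (S : Subgroup G))))
    rw [hT, MonoidHom.transfer_eq_prod_quotient_orbitRel_zpowers_quot]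
    have hfac : ∀ (g : G) (k : ℕ) (h : g⁻¹ * x ^ k * g ∈ (S : Subgroup G)),
        φ ⟨g⁻¹ * x ^ k * g, h⟩ = τ ^ k := by
      intro g k h
      rcases Nat.even_or_odd k with ⟨j, rfl⟩ | ⟨j, rfl⟩
      · rw [show τ ^ (j + j) = 1 by rw [← two_mul, pow_mul, hsq, one_pow]]
        refine (QuotientGroup.eq_one_iff _).mpr (Subgroup.mem_subgroupOf.mpr ?_)
        show g⁻¹ * x ^ (j + j) * g ∈ M
        by_contra hnM
        have hlt := hord _ h hnM
        have hdvd : orderOf (g⁻¹ * x ^ (j + j) * g) ∣ 2 ^ (n - 1) := by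
          apply orderOf_dvd_of_pow_eq_one
          have hc : (g⁻¹ * x ^ (j + j) * g⁻¹⁻¹) ^ 2 ^ (n - 1) =
              g⁻¹ * (x ^ (j + j)) ^ 2 ^ (n - 1) * g⁻¹⁻¹ := conj_pow
          rw [inv_inv] at hc
          have h2n : 2 * 2 ^ (n - 1) = 2 ^ n := by
            rw [← pow_succ', Nat.sub_add_cancel hn]
          rw [hc, ← pow_mul, show (j + j) * 2 ^ (n - 1) = 2 ^ n * j by rw [← h2n]; ring, pow_mul,
            ← hxn, pow_orderOf_eq_one, one_pow, mul_one, inv_mul_cancel]
        exact absurd (Nat.le_of_dvd (by positivity) hdvd) (by omega)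
      · rw [pow_succ τ, pow_mul, hsq, one_pow, one_mul]
        refine huniq _ fun e => ?_
        have h1 := Subgroup.mem_subgroupOf.mp ((QuotientGroup.eq_one_iff _).mp e)
        change g⁻¹ * x ^ (2 * j + 1) * g ∈ M at h1
        obtain ⟨m, hm⟩ := exists_pow_eq_self_of_coprime (x := x) (n := 2 * j + 1) (by
          rw [hxn]; exact (Nat.coprime_pow_right_iff (by omega) _ _).mpr (by simp))
        have hc : (g⁻¹ * x ^ (2 * j + 1) * g⁻¹⁻¹) ^ m =
            g⁻¹ * (x ^ (2 * j + 1)) ^ m * g⁻¹⁻¹ := conj_pow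
        rw [hm, inv_inv] at hc
        have h3 := M.pow_mem h1 m
        rw [hc] at h3
        exact hno g⁻¹ (by rwa [inv_inv])
    simp only [hfac]
    rw [Finset.prod_pow_eq_pow_sum, ← Subgroup.index_eq_sum_minimalPeriod (S : Subgroup G) x]
    obtain ⟨j, hj⟩ : Odd (S : Subgroup G).index :=
      Nat.not_even_iff_odd.mp fun e => S.not_dvd_index (even_iff_two_dvd.mp e)
    rw [hj, pow_succ, pow_mul, hsq, one_pow, one_mul]
  refine hG T.ker ?_
  rw [Subgroup.index_ker]
  have h2 : Nat.card T.range ∣ 2 := (Subgroup.card_subgroup_dvd_card _).trans h2c.dvd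
  rcases (Nat.dvd_prime Nat.prime_two).mp h2 with e | e
  · exact absurd (Subgroup.mem_bot.mp (Subgroup.card_eq_one.mp e ▸ ⟨x, hTu⟩ : τ ∈ (⊥ : Subgroup _))) hτ1
  · exact e

end Cfsg.Agent.S3225
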