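import Cfsg.Statements.S3247
import Cfsg.Agent.Lib.LocalConstrained

set_option autoImplicit false
open Cfsg
open scoped Pointwise

namespace Cfsg.Agent.S3247

/-- Let G be a finite group and p a prime; here a p-local subgroup means the normalizer of a nontrivial p-subgroup, other than G itself. If every p-local subgroup of G that is maximal among p-local subgroups is p-constrained, or if the centralizer of every element of order p of G is p-constrained, then every p-local subgroup of G is p-constrained. -/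
theorem result {G : Type*} [Group G] [Finite G] (p : ℕ) [hp : Fact p.Prime]
    (h : (∀ M : Subgroup G, (∃ T : Subgroup G, IsPGroup p ↥T ∧ T ≠ ⊥ ∧ M = Subgroup.normalizer (T : Set G)) → M ≠ ⊤ →
        (∀ M' : Subgroup G, (∃ T' : Subgroup G, IsPGroup p ↥T' ∧ T' ≠ ⊥ ∧ M' = Subgroup.normalizer (T' : Set G)) → M' ≠ ⊤ → M ≤ M' → M = M') →
        Cfsg.IsPConstrained p ↥M) ∨
      (∀ x : G, orderOf x = p → Cfsg.IsPConstrained p ↥(Subgroup.centralizer ({x} : Set G))))
    (T : Subgroup G) (hT : IsPGroup p ↥T) (hT1 : T ≠ ⊥) (hTG : Subgroup.normalizer (T : Set G) ≠ ⊤) :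
    Cfsg.IsPConstrained p ↥(Subgroup.normalizer (T : Set G)) := by
  classical
  have hequiv : ∀ {A B : Subgroup G}, A = B → Cfsg.IsPConstrained p ↥A → Cfsg.IsPConstrained p ↥B := fun {A B} e hA => e ▸ hA
  -- monotonicity of `O_{p',p}`
  have hmap : ∀ {A B : Type _} [Group A] [Finite A] [Group B] [Finite B] (ψ : A →* B),
      (Cfsg.pPrimeCore p A).map ψ ≤ Cfsg.pPrimeCore p B → ((Cfsg.pPrimePCore p A).map ψ).Normal →
      (Cfsg.pPrimePCore p A).map ψ ≤ Cfsg.pPrimePCore p B := by
    intro A B _ _ _ _ ψ hO hM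
    haveI := CfsgLib.Core.normal_pPrimeCore (G := A) p
    haveI := CfsgLib.Core.normal_pPrimeCore (G := B) p
    have hle : ((Cfsg.pPrimePCore p A).map ψ).map (QuotientGroup.mk' (Cfsg.pPrimeCore p B)) ≤
        Cfsg.pCore p (B ⧸ Cfsg.pPrimeCore p B) := by
      refine CfsgLib.Core.le_pCore (hM.map _ (QuotientGroup.mk'_surjective _)) ?_
      rintro ⟨_, ⟨_, ⟨a, ha, rfl⟩, rfl⟩⟩
      obtain ⟨k, hk⟩ := CfsgLib.Core.isPGroup_pCore p (⟨QuotientGroup.mk' (Cfsg.pPrimeCore p A) a, ha⟩ : Cfsg.pCore p (A ⧸ Cfsg.pPrimeCore p A))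
      refine ⟨k, Subtype.ext ?_⟩
      have hk' : (QuotientGroup.mk' (Cfsg.pPrimeCore p A)) (a ^ p ^ k) = 1 := by
        rw [map_pow]; exact congrArg Subtype.val hk
      show (QuotientGroup.mk' (Cfsg.pPrimeCore p B)) (ψ a) ^ p ^ k = 1
      rw [← map_pow, ← map_pow]
      exact (QuotientGroup.eq_one_iff _).2 (hO ⟨_, (QuotientGroup.eq_one_iff _).1 hk', rfl⟩)
    exact Subgroup.map_le_iff_le_comap.1 hle
  -- transport along an isomorphism
  have hiso : ∀ {A B : Type _} [Group A] [Finite A] [Group B] [Finite B] (e : A ≃* B),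
      Cfsg.IsPConstrained p A → Cfsg.IsPConstrained p B := by
    intro A B _ _ _ _ e hA
    haveI := CfsgLib.Core.normal_pPrimeCore (G := A) p
    haveI := CfsgLib.Core.normal_pPrimeCore (G := B) p
    rw [CfsgLib.LocalFactor.constrained_iff] at hA ⊢
    refine CfsgLib.LocalFactor.centralizer_pCore_equiv (QuotientGroup.congr _ _ e ?_) hA
    refine le_antisymm (CfsgLib.Core.map_pPrimeCore_le_of_surjective p e.toMonoidHom e.surjective) ?_
    have := CfsgLib.Core.map_pPrimeCore_le_of_surjective p e.symm.toMonoidHom e.symm.surjective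
    intro b hb
    exact ⟨e.symm b, this ⟨b, hb, rfl⟩, e.apply_symm_apply b⟩
  rcases h with h | h
  · let S := {M : Subgroup G | (∃ T : Subgroup G, IsPGroup p ↥T ∧ T ≠ ⊥ ∧ M = Subgroup.normalizer (T : Set G)) ∧ M ≠ ⊤}
    obtain ⟨M, hle, hM⟩ := Set.Finite.exists_le_maximal (Set.toFinite S)
      (show Subgroup.normalizer (T : Set G) ∈ S from ⟨⟨T, hT, hT1, rfl⟩, hTG⟩)
    have hMc := h M hM.1.1 hM.1.2 fun M' h1 h2 h3 => le_antisymm h3 (hM.2 ⟨h1, h2⟩ h3)
    have hTM : T ≤ M := Subgroup.le_normalizer.trans hle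
    have h1 := (CfsgLib.Constrained.constrained_locals hMc (T.subgroupOf M) (hT.comap_of_injective M.subtype M.subtype_injective)).1
    refine hiso ?_ h1
    refine (MulEquiv.subgroupCongr ?_).trans (Subgroup.subgroupOfEquivOfLe hle)
    ext x
    simp only [Subgroup.mem_normalizer_iff, Subgroup.mem_subgroupOf]
    refine ⟨fun hx y => ⟨fun hy => ?_, fun hy => ?_⟩, fun hx y => hx y⟩
    · simpa using (hx ⟨y, hTM hy⟩).1 (by simpa [Subgroup.mem_subgroupOf] using hy)
    · have hyM : y ∈ M := by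
        have := mul_mem (mul_mem (inv_mem x.2) (hTM hy)) x.2
        simpa [mul_assoc] using this
      simpa [Subgroup.mem_subgroupOf] using (hx ⟨y, hyM⟩).2 (by simpa [Subgroup.mem_subgroupOf] using hy)
  · -- choose a central element of order `p`
    haveI : Nontrivial T := (Subgroup.nontrivial_iff_ne_bot _).2 hT1
    obtain ⟨k, hk⟩ := hT.center_nontrivial |> fun hn => (IsPGroup.iff_card.1 (hT.to_subgroup (Subgroup.center T)))
    have hk1 : k ≠ 0 := fun e => by
      haveI := hT.center_nontrivial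
      have := Finite.one_lt_card (α := Subgroup.center T)
      rw [hk, e, pow_zero] at this; omega
    obtain ⟨⟨⟨x, hxT⟩, hxZ⟩, hxo⟩ := exists_prime_orderOf_dvd_card' (G := Subgroup.center T) p (hk ▸ dvd_pow_self p hk1)
    rw [Subgroup.orderOf_mk, Subgroup.orderOf_mk] at hxo
    let C := Subgroup.centralizer ({x} : Set G)
    have hTC : T ≤ C := fun t ht => Subgroup.mem_centralizer_singleton_iff.2
      (congrArg Subtype.val (Subgroup.mem_center_iff.1 hxZ ⟨t, ht⟩))
    have hCC : Subgroup.centralizer (T : Set G) ≤ C := fun g hg =>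
      Subgroup.mem_centralizer_singleton_iff.2 (Subgroup.mem_centralizer_iff.1 hg x hxT).symm
    have hD1 := (CfsgLib.Constrained.constrained_locals (h x hxo) (T.subgroupOf C) (hT.comap_of_injective C.subtype C.subtype_injective)).2
    set N := Subgroup.normalizer (T : Set G) with hN
    let D : Subgroup N := (Subgroup.centralizer (T : Set G)).subgroupOf N
    haveI hDn : D.Normal := Subgroup.normal_subgroupOf_centralizer_normalizer (T : Set G)
    have hDc : Cfsg.IsPConstrained p D := by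
      refine hiso ?_ hD1
      refine ((MulEquiv.subgroupCongr ?_).trans (Subgroup.subgroupOfEquivOfLe hCC)).trans
        (Subgroup.subgroupOfEquivOfLe (Subgroup.centralizer_le_normalizer (T : Set G))).symm
      ext y
      simp only [Subgroup.mem_centralizer_iff, Subgroup.mem_subgroupOf]
      refine ⟨fun hy t ht => ?_, fun hy t ht => Subtype.ext (hy t ht)⟩
      exact congrArg Subtype.val (hy ⟨t, hTC ht⟩ ht)
    intro P c hc
    haveI := CfsgLib.Core.normal_pPrimeCore (G := N) p
    haveI := CfsgLib.Core.normal_pPrimeCore (G := D) p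
    let K := Cfsg.pPrimePCore p N
    let T' : Subgroup N := T.subgroupOf N
    haveI : T'.Normal := Subgroup.normal_in_normalizer
    have hT' : IsPGroup p T' := hT.comap_of_injective N.subtype N.subtype_injective
    have hT'K : T' ≤ K := Subgroup.map_le_iff_le_comap.1
      (CfsgLib.Core.le_pCore (Subgroup.Normal.map ‹T'.Normal› _ (QuotientGroup.mk'_surjective _)) (hT'.map _))
    have hT'P : ∀ t (ht : t ∈ T'), (⟨t, hT'K ht⟩ : K) ∈ (P : Subgroup K) := fun t ht =>
      (P.3 ((hT'.comap_of_injective K.subtype K.subtype_injective).to_sup_of_normal_left P.2) le_sup_right).le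
        (Subgroup.mem_sup_left (show (⟨t, hT'K ht⟩ : K) ∈ T'.subgroupOf K from ht))
    have hcD : c ∈ D := Subgroup.mem_centralizer_iff.2 fun t ht =>
      congrArg Subtype.val (Subgroup.mem_centralizer_iff.1 hc ⟨t, Subgroup.le_normalizer ht⟩ ⟨_, hT'P _ (show (⟨t, Subgroup.le_normalizer ht⟩ : N) ∈ T' from ht), rfl⟩)
    -- `O_{p',p}(D) ≤ O_{p',p}(N)`
    have hconj : ∀ n : N, ∀ d ∈ Cfsg.pPrimePCore p D, (MulAut.conjNormal n : D ≃* D) d ∈ Cfsg.pPrimePCore p D := by
      intro n d hd
      have hOc := CfsgLib.Core.map_pPrimeCore_le_of_surjective p (MulAut.conjNormal n : D ≃* D).toMonoidHom (MulEquiv.surjective _)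
      refine hmap (MulAut.conjNormal n : D ≃* D).toMonoidHom hOc ?_ ⟨d, hd, rfl⟩
      exact Subgroup.Normal.map (Subgroup.Normal.comap (CfsgLib.Core.normal_pCore p) _) _ (MulEquiv.surjective _)
    have hKn : ((Cfsg.pPrimePCore p D).map D.subtype).Normal := ⟨by
      rintro _ ⟨d, hd, rfl⟩ n
      exact ⟨_, hconj n d hd, MulAut.conjNormal_apply n d⟩⟩
    have hKD : (Cfsg.pPrimePCore p D).map D.subtype ≤ K := hmap D.subtype (CfsgLib.Core.pPrimeCore_map_subtype_le hDn) hKn
    let ι : Cfsg.pPrimePCore p D →* K :=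
      (D.subtype.comp (Cfsg.pPrimePCore p D).subtype).codRestrict K fun d => hKD ⟨d, d.2, rfl⟩
    have hιr : ι.range = ((Cfsg.pPrimePCore p D).map D.subtype).subgroupOf K := by
      ext y
      refine ⟨?_, ?_⟩
      · rintro ⟨d, rfl⟩; exact ⟨d, d.2, rfl⟩
      · rintro ⟨d, hd, e⟩; exact ⟨⟨d, hd⟩, Subtype.ext e⟩
    have hιi : Function.Injective ι := fun a b e => Subtype.ext (Subtype.ext (congrArg (Subtype.val : K → N) e))
    haveI : (ι.range).Normal := by rw [hιr]; exact hKn.subgroupOf K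
    -- a Sylow of `O_{p',p}(D)` inside `P`
    obtain ⟨Q⟩ : Nonempty (Sylow p (Cfsg.pPrimePCore p D)) := inferInstance
    obtain ⟨R, hR⟩ := (Q.2.map ι).exists_le_sylow
    obtain ⟨g, hg⟩ := MulAction.exists_smul_eq K R P
    let φ : (Cfsg.pPrimePCore p D) → K := fun d => g * ι d * g⁻¹
    -- the conjugate of `Q` by `g`, as a Sylow of `O_{p',p}(D)`
    have hφ : ∀ d, ∃ d' : Cfsg.pPrimePCore p D, ι d' = φ d := fun d =>
      (inferInstance : ι.range.Normal).conj_mem _ ⟨d, rfl⟩ g
    choose d' hd' using hφ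
    let σ : Cfsg.pPrimePCore p D ≃* Cfsg.pPrimePCore p D := MulEquiv.ofBijective
      (MonoidHom.mk' d' fun a b => hιi (by simp only [hd', map_mul, φ]; group))
      (Finite.injective_iff_bijective.1 fun a b e => hιi (mul_left_cancel (mul_right_cancel
        (show φ a = φ b by rw [← hd', ← hd']; exact congrArg ι e))))
    let Q' : Sylow p (Cfsg.pPrimePCore p D) := Q.mapSurjective (f := σ.toMonoidHom) σ.surjective
    have hQ'P : ∀ q ∈ (Q' : Subgroup (Cfsg.pPrimePCore p D)), ι q ∈ (P : Subgroup K) := by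
      intro q hq
      obtain ⟨q, hq, rfl⟩ := hq
      show ι (d' q) ∈ (P : Subgroup K)
      rw [hd', ← hg, Sylow.coe_subgroup_smul, Subgroup.pointwise_smul_def]
      exact ⟨ι q, hR ⟨q, hq, rfl⟩, rfl⟩
    have hcK : (⟨c, hcD⟩ : D) ∈ Cfsg.pPrimePCore p D := hDc Q' (Subgroup.mem_centralizer_iff.2 fun y hy => by
      obtain ⟨q, hq, rfl⟩ := hy
      exact Subtype.ext (Subgroup.mem_centralizer_iff.1 hc _ ⟨ι q, hQ'P q hq, rfl⟩))
    exact hKD ⟨_, hcK, rfl⟩

end Cfsg.Agent.S3247
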