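import Cfsg.Statements.S3269
import Cfsg.Agent.S0215

set_option autoImplicit false
open Cfsg

namespace Cfsg.Agent.S3269

/-- Let G be a finite group whose Sylow 2-subgroup S is an internal direct product Q × R with Q generalized quaternion (of order at least 8) and R a subgroup all of whose involutions are central in R. Then G is not simple. In particular no finite simple group has a Sylow 2-subgroup that is a direct product of one or more generalized quaternion groups. -/
theorem result {G : Type*} [Group G] [Finite G]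
    (S : Sylow 2 G) (Q R : Subgroup G) (hQR : Cfsg.IsInternalDirectProduct Q R (S : Subgroup G))
    (n : ℕ) (hn : 1 ≤ n) (eQ : ↥Q ≃* QuaternionGroup (2 ^ n))
    (hR : ∀ r ∈ R, orderOf r = 2 → ∀ s ∈ R, r * s = s * r) :
    ¬ IsSimpleGroup G := by
  classical
  intro hGs
  haveI := hGs
  haveI : Fact (Nat.Prime 2) := ⟨Nat.prime_two⟩
  obtain ⟨hQS, hRS, hcomm, hdisj, hsup⟩ := hQR
  haveI : NeZero (2 ^ n) := ⟨by positivity⟩
  have hn2 : 2 ≤ 2 ^ n := by
    calc 2 = 2 ^ 1 := rfl
      _ ≤ _ := Nat.pow_le_pow_right (by norm_num) hn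
  -- facts on the quaternion group
  set za : QuaternionGroup (2 ^ n) := QuaternionGroup.a ((2 ^ n : ℕ) : ZMod (2 * 2 ^ n)) with hza
  have hne0 : ((2 ^ n : ℕ) : ZMod (2 * 2 ^ n)) ≠ 0 := by
    rw [Ne, ZMod.natCast_eq_zero_iff]; intro h; have := Nat.le_of_dvd (by omega) h; omega
  have h2ne : ((2 : ℕ) : ZMod (2 * 2 ^ n)) ≠ 0 := by
    rw [Ne, ZMod.natCast_eq_zero_iff]; intro h; have := Nat.le_of_dvd (by norm_num) h; omega
  have hhalf : ∀ i : ZMod (2 * 2 ^ n), i + i = 0 → i = 0 ∨ i = ((2 ^ n : ℕ) : ZMod (2 * 2 ^ n)) := by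
    intro i hi
    haveI : NeZero (2 * 2 ^ n) := ⟨by positivity⟩
    rw [← ZMod.natCast_zmod_val i, ← Nat.cast_add, ZMod.natCast_eq_zero_iff] at hi
    obtain ⟨c, hc⟩ := hi
    have hlt := ZMod.val_lt i
    rcases Nat.lt_or_ge c 1 with h | h
    · left; rw [← ZMod.natCast_zmod_val i]
      have : i.val = 0 := by
        interval_cases c
        omega
      rw [this, Nat.cast_zero]
    · right; rw [← ZMod.natCast_zmod_val i]
      congr 1
      have : c < 2 := by
        by_contra hc2
        have := Nat.mul_le_mul_left (2 * 2 ^ n) (not_lt.1 hc2)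
        omega
      interval_cases c
      omega
  have hcenQ : ∀ x : QuaternionGroup (2 ^ n), (∀ y, x * y = y * x) → x = 1 ∨ x = za := by
    rintro (i | i) hx
    · have h := hx (QuaternionGroup.xa 0)
      simp at h
      have hi : i + i = 0 := by linear_combination -h
      rcases hhalf i hi with rfl | rfl
      · left; rfl
      · right; rfl
    · exfalso
      have h := hx (QuaternionGroup.a 1)
      simp at h
      refine h2ne ?_
      push_cast
      linear_combination h
  have hinvQ : ∀ x : QuaternionGroup (2 ^ n), x * x = 1 → x = 1 ∨ x = za := by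
    rintro (i | i) hx
    · simp only [QuaternionGroup.a_mul_a, QuaternionGroup.xa_mul_xa, QuaternionGroup.one_def, QuaternionGroup.a.injEq] at hx
      rcases hhalf i hx with rfl | rfl
      · left; rfl
      · right; rfl
    · exfalso
      simp only [QuaternionGroup.a_mul_a, QuaternionGroup.xa_mul_xa, QuaternionGroup.one_def, QuaternionGroup.a.injEq] at hx
      exact hne0 (by simpa using hx)
  -- transported to `Q`
  set z : G := ((eQ.symm za : Q) : G) with hz
  have hzQ : z ∈ Q := (eQ.symm za).2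
  have hzz : z * z = 1 := by
    have h : za * za = 1 := by
      rw [hza, QuaternionGroup.a_mul_a, ← Nat.cast_add, ← two_mul, ZMod.natCast_self]; rfl
    have h' := congrArg (fun x => ((eQ.symm x : Q) : G)) h
    simpa using h'
  have hz1 : z ≠ 1 := by
    intro h
    have h' : eQ.symm za = 1 := Subtype.ext h
    have h'' := congrArg eQ h'
    rw [eQ.apply_symm_apply, map_one, QuaternionGroup.one_def, hza] at h''
    exact hne0 (QuaternionGroup.a.injEq _ _ ▸ h'')
  have hcen : ∀ q ∈ Q, (∀ y ∈ Q, q * y = y * q) → q = 1 ∨ q = z := by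
    intro q hq hc
    rcases hcenQ (eQ ⟨q, hq⟩) (fun y => by
      obtain ⟨⟨y, hy⟩, rfl⟩ := eQ.surjective y
      rw [← map_mul, ← map_mul]; exact congrArg eQ (Subtype.ext (hc y hy))) with h | h
    · left; exact congrArg Subtype.val (eQ.map_eq_one_iff.1 h)
    · right
      have h' := congrArg (fun x => ((eQ.symm x : Q) : G)) h
      simpa using h'
  have hinv : ∀ q ∈ Q, q * q = 1 → q = 1 ∨ q = z := by
    intro q hq hc
    rcases hinvQ (eQ ⟨q, hq⟩) (by rw [← map_mul, show (⟨q, hq⟩ : Q) * ⟨q, hq⟩ = 1 from Subtype.ext hc, map_one])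
      with h | h
    · left; exact congrArg Subtype.val (eQ.map_eq_one_iff.1 h)
    · right
      have h' := congrArg (fun x => ((eQ.symm x : Q) : G)) h
      simpa using h'
  obtain ⟨q₀, hq₀, hq₀1, hq₀z⟩ : ∃ q ∈ Q, q ≠ 1 ∧ q ≠ z := by
    refine ⟨((eQ.symm (QuaternionGroup.xa 0) : Q) : G), (eQ.symm _).2, fun h => ?_, fun h => ?_⟩
    · have h' := congrArg eQ (show eQ.symm (QuaternionGroup.xa 0) = 1 from Subtype.ext h)
      rw [eQ.apply_symm_apply, map_one, QuaternionGroup.one_def] at h'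
      cases h'
    · have h' := congrArg eQ (show eQ.symm (QuaternionGroup.xa 0) = eQ.symm za from Subtype.ext h)
      rw [eQ.apply_symm_apply, eQ.apply_symm_apply, hza] at h'
      cases h'
  -- decompositions
  have hdec : ∀ s ∈ (S : Subgroup G), ∃ q ∈ Q, ∃ r ∈ R, s = q * r := by
    intro s hs
    have hle : Q ⊔ R ≤ (
      { carrier := {s | ∃ q ∈ Q, ∃ r ∈ R, s = q * r}
        one_mem' := ⟨1, Q.one_mem, 1, R.one_mem, by simp⟩
        mul_mem' := by
          rintro _ _ ⟨q, hq, r, hr, rfl⟩ ⟨q', hq', r', hr', rfl⟩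
          refine ⟨q * q', Q.mul_mem hq hq', r * r', R.mul_mem hr hr', ?_⟩
          calc q * r * (q' * r') = q * (r * q') * r' := by group
            _ = q * q' * (r * r') := by rw [← hcomm q' hq' r hr]; group
        inv_mem' := by
          rintro _ ⟨q, hq, r, hr, rfl⟩
          exact ⟨q⁻¹, Q.inv_mem hq, r⁻¹, R.inv_mem hr, by
            rw [mul_inv_rev, hcomm q⁻¹ (Q.inv_mem hq) r⁻¹ (R.inv_mem hr)]⟩ } : Subgroup G) :=
      sup_le (fun q hq => ⟨q, hq, 1, R.one_mem, by simp⟩) (fun r hr => ⟨1, Q.one_mem, r, hr, by simp⟩)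
    exact hle (hsup.symm ▸ hs)
  have huniq : ∀ q ∈ Q, ∀ r ∈ R, ∀ q' ∈ Q, ∀ r' ∈ R, q * r = q' * r' → q = q' ∧ r = r' := by
    intro q hq r hr q' hq' r' hr' h
    have h1 : q'⁻¹ * q = r' * r⁻¹ := by
      calc q'⁻¹ * q = q'⁻¹ * (q * r) * r⁻¹ := by group
        _ = r' * r⁻¹ := by rw [h]; group
    have h2 : q'⁻¹ * q ∈ Q ⊓ R := ⟨Q.mul_mem (Q.inv_mem hq') hq, h1 ▸ R.mul_mem hr' (R.inv_mem hr)⟩
    rw [hdisj, Subgroup.mem_bot] at h2
    refine ⟨by rw [← mul_one q', ← h2]; group, ?_⟩
    rw [h2] at h1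
    calc r = 1 * r := (one_mul r).symm
      _ = r' * r⁻¹ * r := by rw [← h1]
      _ = r' := by group
  -- involutions of `S` are central
  have hinvS : ∀ s ∈ (S : Subgroup G), s * s = 1 → s ∈ Subgroup.centralizer ((S : Subgroup G) : Set G) := by
    intro s hs hs2
    obtain ⟨q, hq, r, hr, rfl⟩ := hdec s hs
    have h : (q * q) * (r * r) = 1 * 1 := by
      rw [mul_one, ← hs2]
      calc q * q * (r * r) = q * (q * r) * r := by group
        _ = q * (r * q) * r := by rw [hcomm q hq r hr]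
        _ = q * r * (q * r) := by group
    obtain ⟨e1, e2⟩ := huniq _ (Q.mul_mem hq hq) _ (R.mul_mem hr hr) _ Q.one_mem _ R.one_mem h
    have hrc : ∀ y ∈ R, r * y = y * r := by
      intro y hy
      by_cases hr1 : r = 1
      · simp [hr1]
      · exact hR r hr (orderOf_eq_prime (by rw [pow_two]; exact e2) hr1) y hy
    have hqc : ∀ y ∈ Q, q * y = y * q := by
      intro y hy
      rcases hinv q hq e1 with rfl | rfl
      · simp
      · have := congrArg (fun x : QuaternionGroup (2 ^ n) => ((eQ.symm x : Q) : G))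
          (show za * eQ ⟨y, hy⟩ = eQ ⟨y, hy⟩ * za by
            rcases eQ ⟨y, hy⟩ with i | i
            · simp [hza, add_comm]
            · simp only [hza, QuaternionGroup.a_mul_xa, QuaternionGroup.xa_mul_a]
              congr 1
              have : ((2 ^ n : ℕ) : ZMod (2 * 2 ^ n)) + ((2 ^ n : ℕ) : ZMod (2 * 2 ^ n)) = 0 := by
                rw [← Nat.cast_add, ← two_mul, ZMod.natCast_self]
              linear_combination -this)
        simpa using this
    rw [Subgroup.mem_centralizer_iff]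
    intro t ht
    obtain ⟨a, ha, b, hb, rfl⟩ := hdec t ht
    calc a * b * (q * r) = a * (b * q) * r := by group
      _ = a * q * (b * r) := by rw [← hcomm q hq b hb]; group
      _ = q * (a * r) * b := by rw [← hrc b hb, ← hqc a ha]; group
      _ = q * r * (a * b) := by rw [hcomm a ha r hr]; group
  -- the exchange property
  have hexch : ∀ m ∈ Subgroup.normalizer ((S : Subgroup G) : Set G), m * z * m⁻¹ = z ∨ m * z * m⁻¹ ∈ R := by
    intro m hm
    have hmem : ∀ x : G, x ∈ (S : Subgroup G) → m * x * m⁻¹ ∈ (S : Subgroup G) :=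
      fun x hx => (Subgroup.mem_normalizer_iff.1 hm x).1 hx
    obtain ⟨a, ha, c, hc, hac⟩ := hdec _ (hmem z (hQS hzQ))
    by_cases hc1 : c = 1
    · left
      rw [hac, hc1, mul_one]
      rcases hinv a ha (by
        have h : (m * z * m⁻¹) * (m * z * m⁻¹) = 1 := by
          calc (m * z * m⁻¹) * (m * z * m⁻¹) = m * (z * z) * m⁻¹ := by group
            _ = 1 := by rw [hzz]; group
        rwa [hac, hc1, mul_one] at h) with h | h
      · exfalso
        refine hz1 ?_
        rw [hc1, mul_one, h] at hac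
        calc z = m⁻¹ * (m * z * m⁻¹) * m := by group
          _ = 1 := by rw [hac]; group
      · exact h
    by_cases ha1 : a = 1
    · right; rw [hac, ha1, one_mul]; exact hc
    exfalso
    -- the two projections of the conjugate decomposition
    have hproj : ∀ s : (S : Subgroup G), ∃ p : Q × R, (s : G) = p.1 * p.2 := fun s => by
      obtain ⟨q, hq, r, hr, h⟩ := hdec s s.2
      exact ⟨(⟨q, hq⟩, ⟨r, hr⟩), h⟩
    choose pr hpr using hproj
    have hprm : ∀ s t : (S : Subgroup G), pr (s * t) = pr s * pr t := by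
      intro s t
      obtain ⟨e1, e2⟩ := huniq _ (pr (s * t)).1.2 _ (pr (s * t)).2.2 _ (Q.mul_mem (pr s).1.2 (pr t).1.2) _
        (R.mul_mem (pr s).2.2 (pr t).2.2) (by
          rw [← hpr, Subgroup.coe_mul, hpr s, hpr t]
          calc ((pr s).1 : G) * (pr s).2 * ((pr t).1 * (pr t).2) = (pr s).1 * ((pr s).2 * (pr t).1) * (pr t).2 := by group
            _ = _ := by rw [← hcomm _ (pr t).1.2 _ (pr s).2.2]; group)
      exact Prod.ext (Subtype.ext e1) (Subtype.ext e2)
    let P : (S : Subgroup G) →* Q × R := MonoidHom.mk' pr hprm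
    let cj : Q →* (S : Subgroup G) :=
      { toFun := fun q => ⟨m * q * m⁻¹, hmem _ (hQS q.2)⟩
        map_one' := Subtype.ext (by simp)
        map_mul' := fun x y => Subtype.ext (by simp only [Subgroup.coe_mul]; group) }
    let α : Q →* Q := (MonoidHom.fst Q R).comp (P.comp cj)
    let β : Q →* R := (MonoidHom.snd Q R).comp (P.comp cj)
    have hPz : pr (cj ⟨z, hzQ⟩) = (⟨a, ha⟩, ⟨c, hc⟩) := by
      obtain ⟨e1, e2⟩ := huniq _ (pr (cj ⟨z, hzQ⟩)).1.2 _ (pr (cj ⟨z, hzQ⟩)).2.2 a ha c hc (by rw [← hpr]; exact hac)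
      exact Prod.ext (Subtype.ext e1) (Subtype.ext e2)
    have hker : ∀ {H : Type _} [Group H] (f : Q →* H), f ⟨z, hzQ⟩ ≠ 1 → Function.Injective f := by
      intro H _ f hf
      rw [← MonoidHom.ker_eq_bot_iff]
      by_contra hne
      have hp : IsPGroup 2 Q := (S.2.to_le hQS)
      have h2 : 2 ∣ Nat.card f.ker := by
        obtain ⟨k, hk⟩ := (IsPGroup.iff_card.1 (hp.to_subgroup f.ker))
        rcases k with _ | k
        · exact absurd (Subgroup.card_eq_one.1 (by simpa using hk)) hne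
        · exact ⟨2 ^ k, by rw [hk, pow_succ]; ring⟩
      obtain ⟨x, hx⟩ := exists_prime_orderOf_dvd_card' 2 h2
      have hx' : orderOf ((x : Q) : G) = 2 := by rw [Subgroup.orderOf_coe, Subgroup.orderOf_coe, hx]
      rcases hinv _ (x : Q).2 (by rw [← pow_two, ← hx', pow_orderOf_eq_one]) with h | h
      · rw [h, orderOf_one] at hx'; omega
      · exact hf (by rw [show (⟨z, hzQ⟩ : Q) = (x : Q) from Subtype.ext h.symm]; exact x.2)
    have hα : Function.Injective α := hker α (fun h => ha1 (by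
      have := congrArg (fun q : Q => (q : G)) h
      simpa [α, P, hPz] using this))
    have hβ : Function.Injective β := hker β (fun h => hc1 (by
      have := congrArg (fun q : R => (q : G)) h
      simpa [β, P, hPz] using this))
    have hαs : Function.Surjective α := Finite.surjective_of_injective hα
    have hm' : ∀ x : G, x ∈ (S : Subgroup G) → m⁻¹ * x * m ∈ (S : Subgroup G) :=
      fun x hx => (Subgroup.mem_normalizer_iff''.1 hm x).1 hx
    obtain ⟨q', hq', r', hr', hqr⟩ := hdec _ (hm' q₀ (hQS hq₀))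
    set rS : (S : Subgroup G) := ⟨m * r' * m⁻¹, hmem _ (hRS hr')⟩ with hrS
    have hc0 : ∀ x : Q, Commute (P (cj x)) (P rS) := fun x => by
      refine Commute.map (Subtype.ext ?_ : cj x * rS = rS * cj x) P
      show m * x * m⁻¹ * (m * r' * m⁻¹) = m * r' * m⁻¹ * (m * x * m⁻¹)
      calc m * x * m⁻¹ * (m * r' * m⁻¹) = m * ((x : G) * r') * m⁻¹ := by group
        _ = m * (r' * x) * m⁻¹ := by rw [hcomm x x.2 r' hr']
        _ = _ := by group
    have hsplit : (⟨q₀, hQS hq₀⟩ : (S : Subgroup G)) = cj ⟨q', hq'⟩ * rS := by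
      refine Subtype.ext ?_
      show q₀ = m * q' * m⁻¹ * (m * r' * m⁻¹)
      calc q₀ = m * (m⁻¹ * q₀ * m) * m⁻¹ := by group
        _ = _ := by rw [hqr]; group
    have hPq0 : pr ⟨q₀, hQS hq₀⟩ = (⟨q₀, hq₀⟩, 1) := by
      obtain ⟨e1, e2⟩ := huniq _ (pr ⟨q₀, hQS hq₀⟩).1.2 _ (pr ⟨q₀, hQS hq₀⟩).2.2 q₀ hq₀ 1 R.one_mem
        (by rw [← hpr, mul_one])
      exact Prod.ext (Subtype.ext e1) (Subtype.ext e2)
    have hP := congrArg P hsplit
    rw [map_mul, show P ⟨q₀, hQS hq₀⟩ = (⟨q₀, hq₀⟩, 1) from hPq0] at hP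
    have h1 : β ⟨q', hq'⟩ * (P rS).2 = 1 := (congrArg Prod.snd hP).symm
    have h1' : α ⟨q', hq'⟩ * (P rS).1 = ⟨q₀, hq₀⟩ := (congrArg Prod.fst hP).symm
    have hq'c : ∀ y ∈ Q, q' * y = y * q' := by
      intro y hy
      have hc' : Commute (β ⟨y, hy⟩) (β ⟨q', hq'⟩) := by
        rw [eq_inv_of_mul_eq_one_left h1]
        have hh : Commute (β ⟨y, hy⟩) (P rS).2 := congrArg Prod.snd (hc0 ⟨y, hy⟩).eq
        exact hh.inv_right
      rw [Commute, SemiconjBy, ← map_mul, ← map_mul] at hc'
      exact (congrArg Subtype.val (hβ hc')).symm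
    have hrc : ∀ y ∈ Q, ((P rS).1 : G) * y = y * ((P rS).1 : G) := by
      intro y hy
      obtain ⟨x, hx⟩ := hαs ⟨y, hy⟩
      have h : (P (cj x)).1 * (P rS).1 = (P rS).1 * (P (cj x)).1 := congrArg Prod.fst (hc0 x).eq
      rw [show (P (cj x)).1 = ⟨y, hy⟩ from hx] at h
      exact (congrArg Subtype.val h).symm
    have hαc : ∀ y ∈ Q, (α ⟨q', hq'⟩ : G) * y = y * (α ⟨q', hq'⟩ : G) := by
      intro y hy
      obtain ⟨x, hx⟩ := hαs ⟨y, hy⟩
      have h : α (⟨q', hq'⟩ * x) = α (x * ⟨q', hq'⟩) := congrArg α (Subtype.ext (hq'c x x.2))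
      rw [map_mul, map_mul, hx] at h
      exact congrArg Subtype.val h
    rcases hcen q₀ hq₀ (fun y hy => by
      rw [show q₀ = (α ⟨q', hq'⟩ : G) * ((P rS).1 : G) from (congrArg Subtype.val h1').symm]
      rw [mul_assoc, hrc y hy, ← mul_assoc, hαc y hy, mul_assoc]) with h | h
    · exact hq₀1 h
    · exact hq₀z h
  -- the orbit product
  let A : Subgroup G := (S : Subgroup G) ⊓ Subgroup.centralizer ((S : Subgroup G) : Set G)
  letI : CommGroup A :=
    { (inferInstance : Group A) with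
      mul_comm := fun x y => Subtype.ext (Subgroup.mem_centralizer_iff.1 y.2.2 x x.2.1) }
  haveI := Fintype.ofFinite G
  have hzA : ∀ k ∈ Subgroup.normalizer ((S : Subgroup G) : Set G), k * z * k⁻¹ ∈ A := by
    intro k hk
    have hS' := (Subgroup.mem_normalizer_iff.1 hk z).1 (hQS hzQ)
    refine ⟨hS', hinvS _ hS' ?_⟩
    calc (k * z * k⁻¹) * (k * z * k⁻¹) = k * (z * z) * k⁻¹ := by group
      _ = 1 := by rw [hzz]; group
  let O : Finset A := Finset.univ.filter fun x => ∃ k ∈ Subgroup.normalizer ((S : Subgroup G) : Set G), (x : G) = k * z * k⁻¹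
  have hzA1 : z ∈ A := by simpa using hzA 1 (Subgroup.one_mem _)
  have hzO : (⟨z, hzA1⟩ : A) ∈ O := Finset.mem_filter.2 ⟨Finset.mem_univ _, 1, Subgroup.one_mem _, by simp⟩
  set w : A := ∏ x ∈ O, x with hw
  have hw2 : w * w = 1 := by
    rw [hw, ← Finset.prod_mul_distrib]
    refine Finset.prod_eq_one fun x hx => ?_
    obtain ⟨k, -, hxk⟩ := (Finset.mem_filter.1 hx).2
    refine Subtype.ext ?_
    show (x : G) * x = 1
    rw [hxk]
    calc (k * z * k⁻¹) * (k * z * k⁻¹) = k * (z * z) * k⁻¹ := by group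
      _ = 1 := by rw [hzz]; group
  have hrest : ((∏ x ∈ O.erase ⟨z, hzA1⟩, x : A) : G) ∈ R := by
    refine Finset.prod_induction (fun x : A => x) (fun x : A => (x : G) ∈ R) (fun x y hx hy => R.mul_mem hx hy) R.one_mem ?_
    intro x hx
    obtain ⟨hne, hxO⟩ := Finset.mem_erase.1 hx
    obtain ⟨k, hk, hxk⟩ := (Finset.mem_filter.1 hxO).2
    rcases hexch k hk with h | h
    · exact absurd (Subtype.ext (hxk.trans h)) hne
    · exact hxk ▸ h
  have hw1 : (w : G) ≠ 1 := by
    intro h
    rw [hw, ← Finset.mul_prod_erase O (fun x => x) hzO] at h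
    have h' : z * ((∏ x ∈ O.erase ⟨z, hzA1⟩, x : A) : G) = 1 := h
    have hzR : z ∈ R := by rw [eq_inv_of_mul_eq_one_left h']; exact R.inv_mem hrest
    have : z ∈ Q ⊓ R := ⟨hzQ, hzR⟩
    rw [hdisj, Subgroup.mem_bot] at this
    exact hz1 this
  have hwfix : ∀ k ∈ Subgroup.normalizer ((S : Subgroup G) : Set G), k * (w : G) * k⁻¹ = w := by
    intro k hk
    have hAk : ∀ x ∈ A, k * x * k⁻¹ ∈ A := by
      intro x hx
      refine ⟨(Subgroup.mem_normalizer_iff.1 hk x).1 hx.1, Subgroup.mem_centralizer_iff.2 fun s hs => ?_⟩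
      have h := Subgroup.mem_centralizer_iff.1 hx.2 (k⁻¹ * s * k) ((Subgroup.mem_normalizer_iff''.1 hk s).1 hs)
      calc s * (k * x * k⁻¹) = k * (k⁻¹ * s * k * x) * k⁻¹ := by group
        _ = k * (x * (k⁻¹ * s * k)) * k⁻¹ := by rw [h]
        _ = k * x * k⁻¹ * s := by group
    let ψ : A →* A :=
      { toFun := fun x => ⟨k * x * k⁻¹, hAk x x.2⟩
        map_one' := Subtype.ext (by simp)
        map_mul' := fun x y => Subtype.ext (by simp only [Subgroup.coe_mul]; group) }
    have hψ : Function.Injective ψ := fun x y h => Subtype.ext (by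
      have h' : k * (x : G) * k⁻¹ = k * (y : G) * k⁻¹ := congrArg Subtype.val h
      exact mul_left_cancel (mul_right_cancel h'))
    have himg : O.image ψ = O := by
      refine Finset.eq_of_subset_of_card_le (fun y hy => ?_) (le_of_eq (Finset.card_image_of_injective O hψ).symm)
      obtain ⟨x, hx, rfl⟩ := Finset.mem_image.1 hy
      obtain ⟨l, hl, hxl⟩ := (Finset.mem_filter.1 hx).2
      refine Finset.mem_filter.2 ⟨Finset.mem_univ _, k * l, Subgroup.mul_mem _ hk hl, ?_⟩
      show k * (x : G) * k⁻¹ = k * l * z * (k * l)⁻¹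
      rw [hxl]; group
    have : ψ w = w := by
      rw [hw, map_prod]
      conv_rhs => rw [← himg, Finset.prod_image fun x _ y _ h => hψ h]
    exact congrArg Subtype.val this
  have hwo : orderOf (w : G) = 2 := orderOf_eq_prime (by
    rw [pow_two]; exact congrArg Subtype.val hw2) hw1
  obtain ⟨N, hNn, hNodd, hNc⟩ := Cfsg.Agent.S0215.result S (w : G) hwo w.2.1 (by
    intro g hg
    have h2 : g * (w : G) * g⁻¹ ∈ Subgroup.centralizer ((S : Subgroup G) : Set G) := by
      refine hinvS _ hg ?_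
      have hww : (w : G) * w = 1 := congrArg Subtype.val hw2
      calc g * (w : G) * g⁻¹ * (g * w * g⁻¹) = g * ((w : G) * w) * g⁻¹ := by group
        _ = 1 := by rw [hww]; group
    obtain ⟨k, hk, he⟩ := Sylow.conj_eq_normalizer_conj_of_mem_centralizer S (w : G) g⁻¹ w.2.2 (by rw [inv_inv]; exact h2)
    rw [inv_inv] at he
    rw [he]
    have := hwfix k⁻¹ (Subgroup.inv_mem _ hk)
    rwa [inv_inv] at this)
  rcases hNn.eq_bot_or_eq_top with rfl | rfl
  · have hcenw : (w : G) ∈ Subgroup.center G := Subgroup.mem_center_iff.2 fun g => by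
      have h := Subgroup.mem_bot.1 (hNc g)
      calc g * (w : G) = ((w : G) * g * (w : G)⁻¹ * g⁻¹) * g * (w : G) := by rw [h]; group
        _ = (w : G) * g := by group
    rcases (inferInstance : (Subgroup.center G).Normal).eq_bot_or_eq_top with hb | ht
    · rw [hb, Subgroup.mem_bot] at hcenw; exact hw1 hcenw
    · refine absurd ?_ hq₀z
      rcases hcen q₀ hq₀ (fun y _ => (Subgroup.mem_center_iff.1 (ht ▸ Subgroup.mem_top q₀) y).symm) with h | h
      · exact absurd h hq₀1
      · exact h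
  · rw [Subgroup.card_top] at hNodd
    exact Nat.not_even_iff_odd.2 hNodd (even_iff_two_dvd.2 (hwo ▸ orderOf_dvd_natCard _))

end Cfsg.Agent.S3269
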