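import Cfsg.Statements.S3276


set_option autoImplicit false
open Cfsg

namespace Cfsg.Agent.S3276

/-- Let x and y be commuting, non-conjugate involutions of a finite group G, and suppose that for every involution u commuting with x, each conjugate of y that commutes with u also commutes with y. Then the normal closure of y is a proper, normal, elementary abelian 2-subgroup of G; and if y is the only involution of that normal closure commuting with x, it has order at most 4. -/
theorem result {G : Type*} [Group G] [Finite G] (x y : G) (hx : orderOf x = 2) (hy : orderOf y = 2)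
    (hxy : Commute x y) (hnc : ¬ IsConj x y)
    (hstar : ∀ u : G, orderOf u = 2 → Commute u x → ∀ g : G, Commute (g * y * g⁻¹) u → Commute (g * y * g⁻¹) y) :
    Subgroup.normalClosure ({y} : Set G) ≠ ⊤ ∧ Cfsg.IsElementaryAbelian 2 (Subgroup.normalClosure ({y} : Set G)) ∧
      ((∀ u ∈ Subgroup.normalClosure ({y} : Set G), orderOf u = 2 → Commute u x → u = y) →
        Nat.card ↥(Subgroup.normalClosure ({y} : Set G)) ≤ 4) := by
  classical
  -- two non-conjugate involutions commute with a common involution in their product's group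
  have key : ∀ a b : G, orderOf a = 2 → orderOf b = 2 → ¬ IsConj a b → ∃ u : G, orderOf u = 2 ∧ Commute u a ∧ Commute u b := by
    intro a b ha hb hne
    have ha2 : a * a = 1 := by rw [← pow_two, ← ha]; exact pow_orderOf_eq_one a
    have hb2 : b * b = 1 := by rw [← pow_two, ← hb]; exact pow_orderOf_eq_one b
    have hai : a⁻¹ = a := inv_eq_of_mul_eq_one_right ha2
    have hbi : b⁻¹ = b := inv_eq_of_mul_eq_one_right hb2
    have hinv : a * (a * b) * a⁻¹ = (a * b)⁻¹ := by rw [← mul_assoc, ha2, one_mul, mul_inv_rev, hbi]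
    have hpw : ∀ k : ℕ, a * (a * b) ^ k * a⁻¹ = ((a * b) ^ k)⁻¹ := fun k => by rw [← conj_pow, hinv, inv_pow]
    rcases Nat.even_or_odd (orderOf (a * b)) with ⟨j, hj⟩ | ⟨j, hj⟩
    · refine ⟨(a * b) ^ j, ?_, ?_, ?_⟩
      · have hj0 : j ≠ 0 := by have := orderOf_pos (a * b); omega
        rw [orderOf_pow_of_dvd hj0 ⟨2, by omega⟩, hj, ← two_mul, Nat.mul_div_left _ (Nat.pos_of_ne_zero hj0)]
      · have hu : ((a * b) ^ j)⁻¹ = (a * b) ^ j := inv_eq_of_mul_eq_one_right (by rw [← pow_add, ← hj, pow_orderOf_eq_one])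
        show (a * b) ^ j * a = a * (a * b) ^ j
        have := hpw j
        rw [hu, mul_inv_eq_iff_eq_mul] at this
        exact this.symm
      · have hu : ((a * b) ^ j)⁻¹ = (a * b) ^ j := inv_eq_of_mul_eq_one_right (by rw [← pow_add, ← hj, pow_orderOf_eq_one])
        have e := hpw j
        rw [hu, mul_inv_eq_iff_eq_mul] at e
        have hb' : b = a * (a * b) := by rw [← mul_assoc, ha2, one_mul]
        show (a * b) ^ j * b = b * (a * b) ^ j
        have hac : Commute ((a * b) ^ j) a := e.symm
        have hres : Commute ((a * b) ^ j) (a * (a * b)) := hac.mul_right ((Commute.refl (a * b)).pow_left j)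
        rw [← hb'] at hres
        exact hres.eq
    · exfalso
      apply hne
      refine isConj_iff.2 ⟨((a * b) ^ (j + 1))⁻¹, ?_⟩
      rw [inv_inv]
      have := hpw (j + 1)
      rw [mul_inv_eq_iff_eq_mul] at this
      rw [mul_assoc, this, ← mul_assoc, ← mul_inv_rev, ← pow_add, show j + 1 + (j + 1) = orderOf (a * b) + 1 by omega,
        pow_succ, pow_orderOf_eq_one, one_mul, mul_inv_rev, hbi, hai, mul_assoc, ha2, mul_one]
  have hy2 : y * y = 1 := by rw [← pow_two, ← hy]; exact pow_orderOf_eq_one y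
  have hconj : ∀ g : G, orderOf (g * y * g⁻¹) = 2 := fun g => by
    rw [← hy]; exact (orderOf_injective (MulAut.conj g).toMonoidHom (MulAut.conj g).injective y)
  have hcy : ∀ g : G, Commute (g * y * g⁻¹) y := fun g => by
    obtain ⟨u, hu, hux, huz⟩ := key x (g * y * g⁻¹) hx (hconj g) (fun h => hnc (h.trans (isConj_iff.2 ⟨g⁻¹, by group⟩)))
    exact hstar u hu hux g huz.symm
  have hcc : ∀ g h : G, Commute (g * y * g⁻¹) (h * y * h⁻¹) := fun g h => by
    have := (hcy (h⁻¹ * g)).map (MulAut.conj h).toMonoidHom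
    simpa [MulAut.conj_apply, mul_assoc] using this
  set N := Subgroup.normalClosure ({y} : Set G) with hN
  have hgen : N = Subgroup.closure {z : G | ∃ g : G, g * y * g⁻¹ = z} := by
    rw [hN, Subgroup.normalClosure]
    congr 1
    ext z
    simp [Group.mem_conjugatesOfSet_iff, isConj_iff]
  haveI hcomm : IsMulCommutative N := by
    rw [hgen]
    exact Subgroup.isMulCommutative_closure (by rintro _ ⟨g, rfl⟩ _ ⟨h, rfl⟩; exact hcc g h)
  have hNc : ∀ a ∈ N, ∀ b ∈ N, a * b = b * a := fun a ha b hb => congrArg Subtype.val (hcomm.is_comm.comm ⟨a, ha⟩ ⟨b, hb⟩)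
  have hexp : ∀ a ∈ N, a ^ 2 = 1 := by
    intro a ha
    rw [hgen] at ha
    induction ha using Subgroup.closure_induction with
    | mem z hz => obtain ⟨g, rfl⟩ := hz; rw [← hconj g]; exact pow_orderOf_eq_one _
    | one => simp
    | mul u v hu hv iu iv =>
      rw [(show Commute u v from hNc u (hgen ▸ hu) v (hgen ▸ hv)).mul_pow, iu, iv, one_mul]
    | inv u _ iu => rw [inv_pow, iu, inv_one]
  have hyN : y ∈ N := Subgroup.subset_normalClosure rfl
  refine ⟨fun htop => ?_, ⟨hcomm, hexp⟩, fun huniq => ?_⟩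
  · have hall : ∀ a b : G, a * b = b * a := fun a b => hNc a (htop ▸ Subgroup.mem_top a) b (htop ▸ Subgroup.mem_top b)
    have : N ≤ Subgroup.zpowers y := by
      rw [hgen, Subgroup.closure_le]
      rintro _ ⟨g, rfl⟩
      rw [hall g y, mul_inv_cancel_right]
      exact Subgroup.mem_zpowers y
    obtain ⟨k, hk⟩ := Subgroup.mem_zpowers_iff.1 (this (htop ▸ Subgroup.mem_top x))
    rcases Int.even_or_odd k with ⟨j, rfl⟩ | ⟨j, rfl⟩
    · rw [zpow_add, ← (Commute.refl y).mul_zpow, hy2, one_zpow] at hk
      rw [← hk, orderOf_one] at hx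
      omega
    · rw [zpow_add, zpow_mul, show y ^ (2 : ℤ) = 1 by rw [zpow_two, hy2], one_zpow, one_mul, zpow_one] at hk
      exact hnc (hk ▸ IsConj.refl y)
  · have hx2 : x * x = 1 := by rw [← pow_two, ← hx]; exact pow_orderOf_eq_one x
    haveI := hcomm
    have hnx : ∀ a ∈ N, x * a * x⁻¹ ∈ N := fun a ha => Subgroup.normalClosure_normal.conj_mem a ha x
    let f : N →* N :=
      { toFun := fun a => ⟨(a : G) * (x * a * x⁻¹), N.mul_mem a.2 (hnx a a.2)⟩
        map_one' := Subtype.ext (by simp)
        map_mul' := fun a b => Subtype.ext (by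
          show (a : G) * b * (x * (a * b) * x⁻¹) = (a : G) * (x * a * x⁻¹) * ((b : G) * (x * b * x⁻¹))
          rw [mul_assoc (a : G) (b : G), mul_assoc (a : G) (x * a * x⁻¹), ← mul_assoc (x * a * x⁻¹),
            hNc _ (hnx a a.2) b b.2]
          group) }
    have hfix : ∀ a ∈ N, x * a * x⁻¹ = a → a = 1 ∨ a = y := fun a ha h => by
      by_cases h1 : a = 1
      · exact Or.inl h1
      · exact Or.inr (huniq a ha (orderOf_eq_prime (hexp a ha) h1) (mul_inv_eq_iff_eq_mul.1 h).symm)
    have hle : ∀ (H : Subgroup N), (∀ a ∈ H, x * (a : G) * x⁻¹ = a) → Nat.card H ≤ 2 := fun H hH => by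
      have : Nat.card H ≤ Nat.card ({1, y} : Set G) :=
        Nat.card_le_card_of_injective (fun a => ⟨((a : N) : G), hfix _ (a : N).2 (hH _ a.2)⟩)
          (fun a b h => by
            have e := congrArg Subtype.val h
            exact Subtype.ext (Subtype.ext e))
      refine this.trans ?_
      rw [Nat.card_coe_set_eq]
      exact (Set.ncard_insert_le _ _).trans (by rw [Set.ncard_singleton])
    have hker : ∀ a ∈ f.ker, x * (a : G) * x⁻¹ = a := fun a ha => by
      have h2 : (a : G) * (x * a * x⁻¹) = 1 := congrArg Subtype.val (MonoidHom.mem_ker.1 ha)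
      rw [← inv_eq_of_mul_eq_one_right h2]
      exact inv_eq_of_mul_eq_one_right (by rw [← pow_two]; exact hexp a a.2)
    have hran : ∀ a ∈ f.range, x * (a : G) * x⁻¹ = a := by
      rintro _ ⟨b, rfl⟩
      show x * ((b : G) * (x * b * x⁻¹)) * x⁻¹ = (b : G) * (x * b * x⁻¹)
      have hxi : x⁻¹ = x := inv_eq_of_mul_eq_one_right hx2
      calc x * ((b : G) * (x * b * x⁻¹)) * x⁻¹ = (x * b * x⁻¹) * ((x * x) * b * (x⁻¹ * x⁻¹)) := by group
        _ = (x * b * x⁻¹) * b := by rw [hxi, hx2, one_mul, mul_one]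
        _ = _ := hNc _ (hnx b b.2) b b.2
    calc Nat.card N = Nat.card (N ⧸ f.ker) * Nat.card f.ker := Subgroup.card_eq_card_quotient_mul_card_subgroup _
      _ = Nat.card f.range * Nat.card f.ker := by rw [Nat.card_congr (QuotientGroup.quotientKerEquivRange f).toEquiv]
      _ ≤ 2 * 2 := Nat.mul_le_mul (hle _ hran) (hle _ hker)
      _ = 4 := rfl

end Cfsg.Agent.S3276
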