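import Cfsg.Statements.S3279
import Cfsg.Agent.Lib.ZStarCorollaries
import Cfsg.Agent.Lib.ZStarTwoGroup
import Cfsg.Agent.Lib.TransferApps
import Cfsg.Agent.Lib.InvolSylow

set_option autoImplicit false
open Cfsg CfsgLib.Invol

namespace Cfsg.Agent.S3279

universe u

section TwoGroup

variable {P : Type u} [Group P] [Finite P]

theorem inv_of_sq {y : P} (h : y * y = 1) : y⁻¹ = y := inv_eq_of_mul_eq_one_right h

theorem index_centralizer_le {w z : P} (hz : ∀ s, Commute s z)
    (h : ∀ s, s * w * s⁻¹ = w ∨ s * w * s⁻¹ = w * z) (hz2 : z * z = 1) :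
    (Subgroup.centralizer ({w} : Set P)).index ≤ 2 := by
  by_cases hall : ∀ s, s * w * s⁻¹ = w
  · rw [show Subgroup.centralizer ({w} : Set P) = ⊤ from eq_top_iff.mpr fun s _ =>
      Subgroup.mem_centralizer_singleton_iff.mpr (mul_inv_eq_iff_eq_mul.mp (hall s)),
      Subgroup.index_top]
    omega
  · push Not at hall
    obtain ⟨a, ha⟩ := hall
    have ha' := (h a).resolve_left ha
    refine le_of_eq (Subgroup.index_eq_two_iff.mpr ⟨a, fun b => ?_⟩)
    have key : ∀ c : P, c ∈ Subgroup.centralizer ({w} : Set P) ↔ c * w * c⁻¹ = w := fun c => by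
      rw [Subgroup.mem_centralizer_singleton_iff, mul_inv_eq_iff_eq_mul]
    have hba : (b * a) * w * (b * a)⁻¹ = b * w * b⁻¹ * z := by
      have e : (b * a) * w * (b * a)⁻¹ = b * (a * w * a⁻¹) * b⁻¹ := by group
      rw [e, ha', show b * (w * z) * b⁻¹ = b * w * (z * b⁻¹) by group, (hz b⁻¹).eq.symm]
      group
    have hzne : w * z ≠ w := fun e => ha (ha'.trans e)
    rw [key, key, hba]
    rcases h b with e | e <;> rw [e]
    · exact Or.inr ⟨rfl, hzne⟩
    · refine Or.inl ⟨by rw [mul_assoc, hz2, mul_one], hzne⟩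

theorem exists_step (hP : IsPGroup 2 P) {N M : Subgroup P} [N.Normal] [M.Normal] (hNM : N ≤ M)
    (hne : N ≠ M) : ∃ w ∈ M, w ∉ N ∧ w * w ∈ N ∧ ∀ s : P, s * w * s⁻¹ * w⁻¹ ∈ N := by
  haveI : Fact (Nat.Prime 2) := ⟨Nat.prime_two⟩
  set f := QuotientGroup.mk' N with hf
  haveI : (M.map f).Normal := Subgroup.Normal.map inferInstance f (QuotientGroup.mk'_surjective N)
  haveI : Group.IsNilpotent (P ⧸ N) := (hP.to_quotient N).isNilpotent
  have hMf : M.map f ≠ ⊥ := fun e => hne (le_antisymm hNM fun x hx =>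
    (QuotientGroup.eq_one_iff x).1 (Subgroup.mem_bot.1 (e ▸ ⟨x, hx, rfl⟩ : f x ∈ (⊥ : Subgroup _))))
  obtain ⟨⟨wb, hwb⟩, hw1⟩ := Subgroup.ne_bot_iff_exists_ne_one.1
    (CfsgLib.Core.nilpotent_inf_center_ne_bot hMf)
  have hw1' : wb ≠ 1 := fun e => hw1 (Subtype.ext e)
  obtain ⟨k, hk⟩ := IsPGroup.iff_orderOf.1 (hP.to_quotient N) wb
  have hk0 : k ≠ 0 := fun e => hw1' (orderOf_eq_one_iff.1 (by rw [hk, e, pow_zero]))
  set vb := wb ^ 2 ^ (k - 1) with hvb
  have hv2 : orderOf vb = 2 := by
    rw [hvb, orderOf_pow' _ (by positivity), hk, Nat.gcd_eq_right (pow_dvd_pow 2 (by omega)),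
      Nat.pow_div (by omega) two_pos, show k - (k - 1) = 1 by omega, pow_one]
  have hvmem := Subgroup.pow_mem _ hwb (2 ^ (k - 1))
  obtain ⟨⟨v, hvM, hv⟩, hvc⟩ : vb ∈ M.map f ∧ vb ∈ Subgroup.center (P ⧸ N) := hvmem
  refine ⟨v, hvM, fun h => ?_, ?_, fun s => ?_⟩
  · have : vb = 1 := by rw [← hv]; exact (QuotientGroup.eq_one_iff v).2 h
    rw [this, orderOf_one] at hv2
    omega
  · rw [← QuotientGroup.eq_one_iff]
    show f (v * v) = 1
    rw [map_mul, hv, ← pow_two, ← hv2, pow_orderOf_eq_one]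
  · rw [← QuotientGroup.eq_one_iff]
    show f (s * v * s⁻¹ * v⁻¹) = 1
    rw [map_mul, map_mul, map_mul, map_inv, map_inv, hv, Subgroup.mem_center_iff.1 hvc (f s)]
    group

theorem eq_or_of_mem_zpowers {z u : P} (hz : orderOf z = 2) (h : u ∈ Subgroup.zpowers z) :
    u = 1 ∨ u = z := by
  obtain ⟨i, rfl⟩ := h
  show z ^ i = 1 ∨ z ^ i = z
  rw [← zpow_mod_orderOf, hz]
  rcases Int.emod_two_eq_zero_or_one i with h | h <;> simp [h]

/-- A subgroup of index at most two in which thin involutions are almost central. -/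
theorem exists_good_subgroup (hP : IsPGroup 2 P) {z x : P} (hz : orderOf z = 2)
    (hzc : ∀ s, Commute s z) (hx : orderOf x = 2) (hxz : x ≠ z) :
    ∃ M : Subgroup P, M.index ≤ 2 ∧ ∀ y ∈ M, orderOf y = 2 → y ≠ z →
      (∀ u : P, orderOf u = 2 → Commute u y → u = y ∨ u = z ∨ u = y * z) →
      ∀ s, s * y * s⁻¹ = y ∨ s * y * s⁻¹ = y * z := by
  classical
  haveI : Fact (Nat.Prime 2) := ⟨Nat.prime_two⟩
  have hz2 : z * z = 1 := by rw [← pow_two, ← hz, pow_orderOf_eq_one]
  have hz1 : z ≠ 1 := fun e => by rw [e, orderOf_one] at hz; omega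
  obtain ⟨A, hAn, hAc, hAself⟩ := CfsgLib.TwoGroup.exists_self_centralizing hP
  have hzA : z ∈ A := hAself (Subgroup.mem_centralizer_iff.mpr fun a _ => (hzc a).eq)
  by_cases hcyc : ∀ t ∈ A, orderOf t = 2 → t = z
  · -- the cyclic case
    obtain ⟨a, haA, hgen⟩ := CfsgLib.TwoGroup.exists_generator hP hAc hcyc
    obtain ⟨k, hk⟩ := IsPGroup.iff_orderOf.1 hP a
    have hA2 : ¬ ∀ u ∈ A, u * u = 1 := by
      intro h
      have hcen : ∀ u ∈ A, ∀ s : P, Commute s u := by
        intro u hu s
        by_cases hu1 : u = 1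
        · rw [hu1]; exact Commute.one_right s
        · rw [hcyc u hu (orderOf_eq_prime (by rw [pow_two]; exact h u hu) hu1)]; exact hzc s
      have hxA : x ∈ A := hAself (Subgroup.mem_centralizer_iff.mpr fun u hu => (hcen u hu x).eq.symm)
      exact hxz (hcyc x hxA hx)
    have hk2 : 2 ≤ k := by
      by_contra hcon
      refine hA2 fun u hu => ?_
      have h1 : orderOf u ∣ 2 ^ k := hk ▸ orderOf_dvd_of_mem_zpowers (hgen u hu)
      rw [← pow_two, ← orderOf_dvd_iff_pow_eq_one]
      exact h1.trans (by simpa using pow_dvd_pow 2 (show k ≤ 1 by omega))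
    set d := a ^ 2 ^ (k - 2) with hd
    have hdA : d ∈ A := pow_mem haA _
    have hdd : d * d = z := by
      refine hcyc _ (mul_mem hdA hdA) ?_
      rw [hd, ← pow_add, orderOf_pow' _ (by positivity), hk, ← two_mul, ← pow_succ',
        show k - 2 + 1 = k - 1 by omega, Nat.gcd_eq_right (pow_dvd_pow 2 (by omega)),
        Nat.pow_div (by omega) two_pos, show k - (k - 1) = 1 by omega, pow_one]
    have hsq1 : ∀ u ∈ A, u * u = 1 → u = 1 ∨ u = z := fun u hu h =>
      (em (u = 1)).imp id fun hu1 => hcyc u hu (orderOf_eq_prime (by rw [pow_two]; exact h) hu1)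
    have hroot : ∀ u ∈ A, u * u = z → u = d ∨ u = d * z := by
      intro u hu h
      rcases hsq1 (d⁻¹ * u) (mul_mem (inv_mem hdA) hu) (by
        rw [mul_assoc, ← mul_assoc u, hAc u hu _ (inv_mem hdA), mul_assoc, h, ← mul_assoc,
          ← mul_inv_rev, hdd, inv_mul_cancel]) with h1 | h1
      · left; rw [inv_mul_eq_one] at h1; exact h1.symm
      · right; rw [← h1, mul_inv_cancel_left]
    have hconj : ∀ s, s * d * s⁻¹ = d ∨ s * d * s⁻¹ = d * z := fun s =>
      hroot _ (hAn.conj_mem d hdA s) (by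
        rw [show s * d * s⁻¹ * (s * d * s⁻¹) = s * (d * d) * s⁻¹ by group, hdd, (hzc s).eq,
          mul_inv_cancel_right])
    refine ⟨_, index_centralizer_le hzc hconj hz2, fun y hyM hy _ _ s => ?_⟩
    have hyd : y * d = d * y := Subgroup.mem_centralizer_singleton_iff.mp hyM
    have hy2 : y * y = 1 := by rw [← pow_two, ← hy, pow_orderOf_eq_one]
    obtain ⟨i, hi⟩ := hgen _ (hAn.conj_mem a haA y)
    have hact : ∀ u ∈ A, y * u * y⁻¹ = u ^ i := by
      intro u hu
      obtain ⟨j, rfl⟩ := hgen u hu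
      have h2 := map_zpow (MulAut.conj y) a j
      simp only [MulAut.conj_apply] at h2
      rw [h2, ← hi, ← zpow_mul, ← zpow_mul, mul_comm]
    set b := y⁻¹ * (s * y * s⁻¹) with hb
    have hact' : ∀ u ∈ A, (s * y * s⁻¹) * u * (s * y * s⁻¹)⁻¹ = u ^ i := by
      intro u hu
      have h1 : s⁻¹ * u * (s⁻¹)⁻¹ ∈ A := hAn.conj_mem u hu _
      rw [inv_inv] at h1
      have e : (s * y * s⁻¹) * u * (s * y * s⁻¹)⁻¹ = s * (y * (s⁻¹ * u * s) * y⁻¹) * s⁻¹ := by group
      have h2 := map_zpow (MulAut.conj s) (s⁻¹ * u * s) i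
      simp only [MulAut.conj_apply] at h2
      rw [e, hact _ h1, h2]
      group
    have hbA : b ∈ A := by
      refine hAself (Subgroup.mem_centralizer_iff.mpr fun u hu => ?_)
      have h1 := hact u hu
      have h2 := hact' u hu
      rw [← h1] at h2
      have h3 : b * u * b⁻¹ = u := by
        rw [hb, show y⁻¹ * (s * y * s⁻¹) * u * (y⁻¹ * (s * y * s⁻¹))⁻¹ =
          y⁻¹ * ((s * y * s⁻¹) * u * (s * y * s⁻¹)⁻¹) * y by group, h2]
        group
      exact (mul_inv_eq_iff_eq_mul.mp h3).symm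
    have hbinv : y * b * y⁻¹ = b⁻¹ := by
      rw [hb, show y * (y⁻¹ * (s * y * s⁻¹)) * y⁻¹ = (s * y * s⁻¹) * y⁻¹ by group,
        show (y⁻¹ * (s * y * s⁻¹))⁻¹ = (s * y⁻¹ * s⁻¹) * y by group, inv_of_sq hy2]
    have hb2 : b * b = 1 := by
      by_contra hbb
      obtain ⟨r, hr⟩ := IsPGroup.iff_orderOf.1 hP b
      have hr2 : 2 ≤ r := by
        by_contra hcon
        refine hbb ?_
        rw [← pow_two, ← orderOf_dvd_iff_pow_eq_one, hr]
        simpa using pow_dvd_pow 2 (show r ≤ 1 by omega)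
      set e := b ^ 2 ^ (r - 2) with he
      have hee : e * e = z := by
        refine hcyc _ (mul_mem (pow_mem hbA _) (pow_mem hbA _)) ?_
        rw [he, ← pow_add, orderOf_pow' _ (by positivity), hr, ← two_mul, ← pow_succ',
          show r - 2 + 1 = r - 1 by omega, Nat.gcd_eq_right (pow_dvd_pow 2 (by omega)),
          Nat.pow_div (by omega) two_pos, show r - (r - 1) = 1 by omega, pow_one]
      have hfix : y * e * y⁻¹ = e := by
        rcases hroot e (pow_mem hbA _) hee with h | h <;> rw [h]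
        · rw [hyd, mul_inv_cancel_right]
        · rw [← mul_assoc, hyd, mul_assoc d, (hzc y).eq, ← mul_assoc, mul_inv_cancel_right]
      have hinv : y * e * y⁻¹ = e⁻¹ := by
        have h2 := map_pow (MulAut.conj y) b (2 ^ (r - 2))
        simp only [MulAut.conj_apply] at h2
        rw [he, h2, hbinv, inv_pow]
      rw [hfix, eq_inv_iff_mul_eq_one, hee] at hinv
      exact hz1 hinv
    have hs : s * y * s⁻¹ = y * b := by rw [hb, mul_inv_cancel_left]
    rcases hsq1 b hbA hb2 with h | h <;> rw [hs, h]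
    · exact Or.inl (mul_one y)
    · exact Or.inr rfl
  · push Not at hcyc
    obtain ⟨t, htA, ht, htz⟩ := hcyc
    let W : Subgroup P :=
      { carrier := {u | u ∈ A ∧ u * u = 1}
        one_mem' := ⟨A.one_mem, one_mul 1⟩
        mul_mem' := fun {u v} hu hv => ⟨A.mul_mem hu.1 hv.1, by
          rw [show u * v * (u * v) = u * (v * u) * v by group, hAc v hv.1 u hu.1,
            show u * (u * v) * v = (u * u) * (v * v) by group, hu.2, hv.2, one_mul]⟩
        inv_mem' := fun {u} hu => ⟨A.inv_mem hu.1, by rw [← mul_inv_rev, hu.2, inv_one]⟩ }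
    haveI : W.Normal := ⟨fun u hu s => ⟨hAn.conj_mem u hu.1 s, by
      rw [show s * u * s⁻¹ * (s * u * s⁻¹) = s * (u * u) * s⁻¹ by group, hu.2, mul_one,
        mul_inv_cancel]⟩⟩
    haveI : (Subgroup.zpowers z).Normal := ⟨fun u hu s => by
      rcases eq_or_of_mem_zpowers hz hu with rfl | rfl
      · simp
      · rw [(hzc s).eq, mul_inv_cancel_right]; exact Subgroup.mem_zpowers _⟩
    have hle : Subgroup.zpowers z ≤ W := Subgroup.zpowers_le.mpr ⟨hzA, hz2⟩
    have hne : Subgroup.zpowers z ≠ W := fun e => by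
      have : t ∈ Subgroup.zpowers z := e ▸ (⟨htA, by rw [← pow_two, ← ht, pow_orderOf_eq_one]⟩ : t ∈ W)
      rcases eq_or_of_mem_zpowers hz this with h | h
      · rw [h, orderOf_one] at ht; omega
      · exact htz h
    obtain ⟨w, ⟨hwA, hw2⟩, hwz, -, hws⟩ := exists_step hP hle hne
    have hw1 : w ≠ 1 := fun e => hwz (e ▸ one_mem _)
    have hwz' : w ≠ z := fun e => hwz (e ▸ Subgroup.mem_zpowers z)
    have hconj : ∀ s, s * w * s⁻¹ = w ∨ s * w * s⁻¹ = w * z := fun s => by
      rcases eq_or_of_mem_zpowers hz (hws s) with h | h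
      · exact Or.inl (mul_inv_eq_one.mp h)
      · exact Or.inr (by rw [mul_inv_eq_iff_eq_mul.mp h, (hzc w).eq])
    refine ⟨_, index_centralizer_le hzc hconj hz2, fun y hyM _ _ hthin s => ?_⟩
    have hwy : Commute w y := (Subgroup.mem_centralizer_singleton_iff.mp hyM : y * w = w * y).symm
    rcases hthin w (orderOf_eq_prime (by rw [pow_two]; exact hw2) hw1) hwy with h | h | h
    · exact h ▸ hconj s
    · exact absurd h hwz'
    · have hy : y = w * z := by rw [h, mul_assoc, hz2, mul_one]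
      have e : s * y * s⁻¹ = s * w * s⁻¹ * z := by
        rw [hy, show s * (w * z) * s⁻¹ = s * w * (z * s⁻¹) by group, (hzc s⁻¹).eq.symm]
        group
      rw [e, hy]
      exact (hconj s).imp (fun h => by rw [h]) (fun h => by rw [h])

end TwoGroup

section Simple

variable {G : Type u} [Group G] [Finite G] [IsSimpleGroup G]

theorem sq_one {u : G} (h : orderOf u = 2) : u * u = 1 := by
  rw [← pow_two, ← h, pow_orderOf_eq_one]

theorem center_bot (hnc : ∃ a b : G, a * b ≠ b * a) : Subgroup.center G = ⊥ := by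
  rcases (Subgroup.center G).normal_of_characteristic.eq_bot_or_eq_top with h | h
  · exact h
  · obtain ⟨a, b, hab⟩ := hnc
    exact absurd (Subgroup.mem_center_iff.mp (h ▸ Subgroup.mem_top b) a) hab

theorem exists_conj_ne (hnc : ∃ a b : G, a * b ≠ b * a) (S : Sylow 2 G) {u : G}
    (hu : orderOf u = 2) (huS : u ∈ (S : Subgroup G)) :
    ∃ g : G, g * u * g⁻¹ ∈ (S : Subgroup G) ∧ g * u * g⁻¹ ≠ u := by
  by_contra hno
  push Not at hno
  haveI : Fact (Nat.Prime 2) := ⟨Nat.prime_two⟩
  have h := CfsgLib.ZStar.inZStar_of_iso (CfsgLib.ZStar.iso_of_sylow S hu huS hno)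
  have hcore : Cfsg.pPrimeCore 2 G = ⊥ := by
    rcases (CfsgLib.Core.normal_pPrimeCore (G := G) 2).eq_bot_or_eq_top with e | e
    · exact e
    · have hodd := CfsgLib.Core.odd_card_pPrimeCore_two (G := G)
      rw [e, Subgroup.card_top] at hodd
      exact absurd (hu ▸ orderOf_dvd_natCard u) (by
        rw [← even_iff_two_dvd, Nat.not_even_iff_odd]; exact hodd)
  have hc : u ∈ Subgroup.center G := Subgroup.mem_center_iff.2 fun g => by
    have h1 := h g
    rw [hcore, Subgroup.mem_bot, mul_inv_eq_one, mul_inv_eq_iff_eq_mul] at h1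
    exact h1
  rw [center_bot hnc, Subgroup.mem_bot] at hc
  rw [hc, orderOf_one] at hu
  omega

theorem exists_conj_mem_maximal (hnc : ∃ a b : G, a * b ≠ b * a) (S : Sylow 2 G) (Q : Subgroup G)
    (hQ : Q ≤ (S : Subgroup G)) (hi : Q.relIndex (S : Subgroup G) ≤ 2) {u : G}
    (hu : orderOf u = 2) (huS : u ∈ (S : Subgroup G)) : ∃ g : G, g * u * g⁻¹ ∈ Q := by
  by_cases huQ : u ∈ Q
  · exact ⟨1, by simpa using huQ⟩
  haveI : Fact (Nat.Prime 2) := ⟨Nat.prime_two⟩
  have h2 : Q.relIndex (S : Subgroup G) = 2 := by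
    have h1 : Q.relIndex (S : Subgroup G) ≠ 1 := fun e => huQ (Subgroup.relIndex_eq_one.mp e huS)
    have h0 : Q.relIndex (S : Subgroup G) ≠ 0 := Subgroup.index_ne_zero_of_finite
    omega
  rcases CfsgLib.Transfer.thompson_transfer S Q hQ h2 u hu huS huQ with ⟨M, hMn, hM2, -⟩ | h
  · exfalso
    rcases hMn.eq_bot_or_eq_top with e | e
    · rw [e, Subgroup.index_bot] at hM2
      haveI : IsCyclic G := isCyclic_of_prime_card hM2
      obtain ⟨a, b, hab⟩ := hnc
      obtain ⟨c, hc⟩ := IsCyclic.exists_generator (α := G)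
      obtain ⟨i, rfl⟩ := hc a
      obtain ⟨j, rfl⟩ := hc b
      exact hab (Commute.zpow_zpow_self c i j)
    · rw [e, Subgroup.index_top] at hM2
      omega
  · exact h

/-- An involution with thin centralizer is central in a Sylow subgroup. -/
theorem card_sylow_dvd (hnc : ∃ a b : G, a * b ≠ b * a) (x : G) (hx : orderOf x = 2)
    (hthin : ∀ u v : G, orderOf u = 2 → orderOf v = 2 → Commute u x → Commute v x → u ≠ x → v ≠ x →
      v = u ∨ v = x * u) (S : Sylow 2 G) :
    Nat.card (S : Subgroup G) ∣ Nat.card (Subgroup.centralizer ({x} : Set G)) := by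
  classical
  by_contra hdvd
  haveI : Fact (Nat.Prime 2) := ⟨Nat.prime_two⟩
  obtain ⟨g0, hg0⟩ := CfsgLib.Invol.exists_conj_mem_sylow_two S hx
  have hS0 : IsPGroup 2 (S : Subgroup G) := S.isPGroup'
  haveI : Nontrivial (S : Subgroup G) :=
    ⟨⟨⟨g0 * x * g0⁻¹, hg0⟩, 1, fun e => by
      have h := congrArg Subtype.val e
      simp only [OneMemClass.coe_one, mul_inv_eq_one, mul_eq_left] at h
      rw [h, orderOf_one] at hx; omega⟩⟩
  haveI := hS0.center_nontrivial
  obtain ⟨⟨zS, hzc⟩, hzo⟩ := exists_prime_orderOf_dvd_card' 2 (G := Subgroup.center (S : Subgroup G)) (by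
    obtain ⟨k, hk0, hk⟩ := (IsPGroup.nontrivial_iff_card (hS0.to_subgroup (Subgroup.center (S : Subgroup G)))).1 inferInstance
    exact hk ▸ dvd_pow_self 2 hk0.ne')
  rw [Subgroup.orderOf_mk] at hzo
  set z : G := (zS : G) with hzdef
  have hz : orderOf z = 2 := by rw [hzdef, Subgroup.orderOf_coe]; exact hzo
  have hzcomm : ∀ s : (S : Subgroup G), Commute s zS := fun s => Subgroup.mem_center_iff.mp hzc s
  have hzS : ∀ s ∈ (S : Subgroup G), Commute s z := fun s hs =>
    (congrArg Subtype.val (hzcomm ⟨s, hs⟩).eq : s * z = z * s)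
  have hz2 := sq_one hz
  have hnzx : ∀ g : G, g * x * g⁻¹ ≠ z := by
    intro g hg
    refine hdvd ?_
    have hle : (S : Subgroup G).map (MulAut.conj g⁻¹).toMonoidHom ≤
        Subgroup.centralizer ({x} : Set G) := by
      rintro _ ⟨s, hs, rfl⟩
      rw [Subgroup.mem_centralizer_singleton_iff]
      show g⁻¹ * s * (g⁻¹)⁻¹ * x = x * (g⁻¹ * s * (g⁻¹)⁻¹)
      have h := (hzS s hs).eq
      rw [← hg] at h
      calc g⁻¹ * s * (g⁻¹)⁻¹ * x = g⁻¹ * (s * (g * x * g⁻¹)) * g := by group
        _ = g⁻¹ * ((g * x * g⁻¹) * s) * g := by rw [h]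
        _ = x * (g⁻¹ * s * (g⁻¹)⁻¹) := by group
    have hc := Subgroup.card_dvd_of_le hle
    rwa [Subgroup.card_map_of_injective (MulEquiv.injective _)] at hc
  set x₁ : (S : Subgroup G) := ⟨g0 * x * g0⁻¹, hg0⟩
  obtain ⟨M, hMi, hM⟩ := exists_good_subgroup hS0 hzo hzcomm (x := x₁)
    (by rw [Subgroup.orderOf_mk, orderOf_conj]; exact hx)
    (fun e => hnzx g0 (congrArg Subtype.val e))
  obtain ⟨g1, hg1⟩ := exists_conj_mem_maximal hnc S (M.map (S : Subgroup G).subtype)
    (Subgroup.map_subtype_le M) (by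
      rw [Subgroup.relIndex, Subgroup.subgroupOf, Subgroup.comap_map_eq_self_of_injective
        (S : Subgroup G).subtype_injective]
      exact hMi)
    (u := g0 * x * g0⁻¹) (by rw [orderOf_conj]; exact hx) hg0
  rw [show g1 * (g0 * x * g0⁻¹) * g1⁻¹ = (g1 * g0) * x * (g1 * g0)⁻¹ by group] at hg1
  generalize g1 * g0 = c at hg1
  obtain ⟨yS, hyM, hyS⟩ := hg1
  set y : G := c * x * c⁻¹ with hy
  have hyS' : (yS : G) = y := hyS
  have hyo : orderOf y = 2 := by rw [hy, orderOf_conj]; exact hx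
  have hy2 := sq_one hyo
  have hymem : y ∈ (S : Subgroup G) := hyS' ▸ yS.2
  have hyz : y ≠ z := hnzx c
  have hyzc : Commute y z := hzS y hymem
  have hthiny : ∀ u : G, orderOf u = 2 → Commute u y → u = y ∨ u = z ∨ u = y * z := by
    intro u hu huy
    by_cases huy' : u = y
    · exact Or.inl huy'
    right
    have hconj : ∀ w : G, Commute w y → Commute (c⁻¹ * w * c) x := fun w hw => by
      have h : w * (c * x * c⁻¹) = (c * x * c⁻¹) * w := hw
      calc c⁻¹ * w * c * x = c⁻¹ * (w * (c * x * c⁻¹)) * c := by group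
        _ = c⁻¹ * ((c * x * c⁻¹) * w) * c := by rw [h]
        _ = x * (c⁻¹ * w * c) := by group
    have ho : ∀ w : G, orderOf (c⁻¹ * w * c) = orderOf w := fun w => by
      have := orderOf_conj c⁻¹ w
      rwa [inv_inv] at this
    have hne : ∀ w : G, w ≠ y → c⁻¹ * w * c ≠ x := fun w hw e => hw (by rw [hy, ← e]; group)
    rcases hthin _ _ ((ho z).trans hz) ((ho u).trans hu) (hconj z hyzc.symm) (hconj u huy)
      (hne z hyz.symm) (hne u huy') with h | h
    · left
      simpa using h
    · right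
      have h' : u = c * (x * (c⁻¹ * z * c)) * c⁻¹ := by rw [← h]; group
      rw [h', hy]; group
  have hyconj : ∀ s ∈ (S : Subgroup G), s * y * s⁻¹ = y ∨ s * y * s⁻¹ = y * z := by
    intro s hs
    have hyo' : orderOf yS = 2 := by rw [← Subgroup.orderOf_coe, hyS']; exact hyo
    have h := hM yS hyM hyo' (fun e => hyz (by rw [← hyS', e])) (fun u hu huy => by
      rcases hthiny u (by rw [Subgroup.orderOf_coe]; exact hu)
        (by rw [← hyS']; exact congrArg Subtype.val huy.eq) with h | h | h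
      · exact Or.inl (Subtype.ext (h.trans hyS'.symm))
      · exact Or.inr (Or.inl (Subtype.ext h))
      · exact Or.inr (Or.inr (Subtype.ext (by rw [h, Subgroup.coe_mul, hyS'])))) ⟨s, hs⟩
    rcases h with h | h
    · left
      have := congrArg Subtype.val h
      simpa [hyS'] using this
    · right
      have := congrArg Subtype.val h
      simpa [hyS', ← hzdef] using this
  have hyzy : ∀ g : G, g * (y * z) * g⁻¹ ≠ z ∨ ∀ s ∈ (S : Subgroup G), s * y * s⁻¹ = y := by
    intro g
    by_cases hall : ∀ s ∈ (S : Subgroup G), s * y * s⁻¹ = y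
    · exact Or.inr hall
    left
    push Not at hall
    obtain ⟨s, hs, hsy⟩ := hall
    rw [← (hyconj s hs).resolve_left hsy, hy]
    intro e
    exact hnzx (g * s * c) (by rw [← e]; group)
  have hmoved : ∃ s0 ∈ (S : Subgroup G), s0 * y * s0⁻¹ = y * z := by
    by_contra hno
    push Not at hno
    refine hdvd ?_
    have hle : (S : Subgroup G) ≤ Subgroup.centralizer ({y} : Set G) := fun s hs =>
      Subgroup.mem_centralizer_singleton_iff.mpr
        (mul_inv_eq_iff_eq_mul.mp ((hyconj s hs).resolve_right (hno s hs)))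
    have hc := Subgroup.card_dvd_of_le hle
    have e : (Subgroup.centralizer ({x} : Set G)).map (MulAut.conj c).toMonoidHom =
        Subgroup.centralizer ({y} : Set G) := by
      ext w
      rw [Subgroup.mem_map_equiv, Subgroup.mem_centralizer_singleton_iff,
        Subgroup.mem_centralizer_singleton_iff, MulAut.conj_symm_apply, hy]
      constructor <;> intro h
      · calc w * (c * x * c⁻¹) = c * (c⁻¹ * w * c * x) * c⁻¹ := by group
          _ = c * (x * (c⁻¹ * w * c)) * c⁻¹ := by rw [h]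
          _ = c * x * c⁻¹ * w := by group
      · calc c⁻¹ * w * c * x = c⁻¹ * (w * (c * x * c⁻¹)) * c := by group
          _ = c⁻¹ * ((c * x * c⁻¹) * w) * c := by rw [h]
          _ = x * (c⁻¹ * w * c) := by group
    rwa [← e, Subgroup.card_map_of_injective (MulEquiv.injective _)] at hc
  obtain ⟨s0, hs0, hs0y⟩ := hmoved
  have hnzy : ∀ g : G, g * y * g⁻¹ ≠ z := fun g e => hnzx (g * c) (by rw [← e, hy]; group)
  have hnzyz : ∀ g : G, g * (y * z) * g⁻¹ ≠ z := fun g => (hyzy g).resolve_right fun h => by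
    have := h s0 hs0
    rw [hs0y, mul_eq_left] at this
    rw [this, orderOf_one] at hz
    omega
  -- the squares of `S` centralize `y`
  have hsqy : ∀ s ∈ (S : Subgroup G), Commute (s * s) y := by
    intro s hs
    have h2 : s * s * y * (s * s)⁻¹ = y := by
      rw [show s * s * y * (s * s)⁻¹ = s * (s * y * s⁻¹) * s⁻¹ by group]
      rcases hyconj s hs with h | h <;> rw [h]
      · exact h
      · rw [show s * (y * z) * s⁻¹ = s * y * (z * s⁻¹) by group,
          ((hzS s hs).inv_left).eq.symm, ← mul_assoc, h, mul_assoc, hz2, mul_one]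
    exact mul_inv_eq_iff_eq_mul.mp h2
  -- the conjugate `t` of `z`
  obtain ⟨g2, hg2S, hg2z⟩ := exists_conj_ne hnc S hz zS.2
  set t : G := g2 * z * g2⁻¹ with ht
  have hto : orderOf t = 2 := by rw [ht, orderOf_conj]; exact hz
  have htT : ¬ Commute t y := by
    intro h
    rcases hthiny t hto h with e | e | e
    · exact hnzy g2⁻¹ (by rw [← e, ht]; group)
    · exact hg2z e
    · exact hnzyz g2⁻¹ (by rw [← e, ht]; group)
  have hty : t * y * t⁻¹ = y * z :=
    (hyconj t hg2S).resolve_left fun e => htT (mul_inv_eq_iff_eq_mul.mp e)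
  have htinv : t⁻¹ = t := inv_eq_of_mul_eq_one_right (sq_one hto)
  -- move `C_S(t)` into `S`
  set D := (S : Subgroup G) ⊓ Subgroup.centralizer ({t} : Set G) with hD
  set D' := D.map (MulAut.conj g2⁻¹).toMonoidHom with hD'
  have hD'C : D' ≤ Subgroup.centralizer ({z} : Set G) := by
    rintro _ ⟨w, ⟨-, hw⟩, rfl⟩
    rw [Subgroup.mem_centralizer_singleton_iff]
    show g2⁻¹ * w * (g2⁻¹)⁻¹ * z = z * (g2⁻¹ * w * (g2⁻¹)⁻¹)
    have hw' : w * (g2 * z * g2⁻¹) = (g2 * z * g2⁻¹) * w := Subgroup.mem_centralizer_singleton_iff.mp hw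
    calc g2⁻¹ * w * (g2⁻¹)⁻¹ * z = g2⁻¹ * (w * (g2 * z * g2⁻¹)) * g2 := by group
      _ = g2⁻¹ * ((g2 * z * g2⁻¹) * w) * g2 := by rw [hw']
      _ = z * (g2⁻¹ * w * (g2⁻¹)⁻¹) := by group
  have hSC : (S : Subgroup G) ≤ Subgroup.centralizer ({z} : Set G) := fun s hs =>
    Subgroup.mem_centralizer_singleton_iff.mpr (hzS s hs).eq
  have hD'p : IsPGroup 2 (D'.subgroupOf (Subgroup.centralizer ({z} : Set G))) :=
    (((hS0.to_le (inf_le_left : D ≤ (S : Subgroup G))).map _).of_equiv
      (Subgroup.subgroupOfEquivOfLe hD'C).symm)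
  obtain ⟨R, hR⟩ := hD'p.exists_le_sylow
  obtain ⟨h0, hh0⟩ := MulAction.exists_smul_eq (Subgroup.centralizer ({z} : Set G)) R (S.subtype hSC)
  set g3 : G := (h0 : G) * g2⁻¹ with hg3
  have hh0z : (h0 : G) * z * (h0 : G)⁻¹ = z :=
    mul_inv_eq_iff_eq_mul.mpr (Subgroup.mem_centralizer_singleton_iff.mp h0.2)
  have hg3t : g3 * t * g3⁻¹ = z := by
    rw [hg3, ht]
    conv_rhs => rw [← hh0z]
    group
  have hg3D : ∀ w ∈ D, g3 * w * g3⁻¹ ∈ (S : Subgroup G) := by
    intro w hw
    have h1 : g2⁻¹ * w * (g2⁻¹)⁻¹ ∈ D' := ⟨w, hw, rfl⟩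
    have h2 := CfsgLib.Invol.conj_mem_of_smul_eq hh0
      (z := ⟨_, hD'C h1⟩) (hR (Subgroup.mem_subgroupOf.mpr h1))
    have h3 : (h0 : G) * (g2⁻¹ * w * (g2⁻¹)⁻¹) * (h0 : G)⁻¹ ∈ (S : Subgroup G) := h2
    rw [hg3, show (h0 : G) * g2⁻¹ * w * ((h0 : G) * g2⁻¹)⁻¹ =
      (h0 : G) * (g2⁻¹ * w * (g2⁻¹)⁻¹) * (h0 : G)⁻¹ by group]
    exact h3
  have hnosq : ∀ u ∈ (S : Subgroup G), Commute u t → u * u ≠ z := by
    intro u hu hut huu
    have hv := hg3D u ⟨hu, Subgroup.mem_centralizer_singleton_iff.mpr hut.eq⟩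
    have hsq := hsqy _ hv
    rw [show g3 * u * g3⁻¹ * (g3 * u * g3⁻¹) = g3 * (u * u) * g3⁻¹ by group, huu] at hsq
    rcases hthiny _ (by rw [orderOf_conj]; exact hz) hsq with e | e | e
    · exact hnzy g3⁻¹ (by rw [← e]; group)
    · have : t = z := by
        have h' : g3 * t * g3⁻¹ = g3 * z * g3⁻¹ := by rw [hg3t, e]
        simpa using h'
      exact hg2z this
    · exact hnzyz g3⁻¹ (by rw [← e]; group)
  -- `C_S(y)` is the four group
  let V : Subgroup G :=
    { carrier := {u | u = 1 ∨ u = y ∨ u = z ∨ u = y * z}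
      one_mem' := Or.inl rfl
      mul_mem' := by
        have h1 : z * y = y * z := hyzc.eq.symm
        have h2 : y * (y * z) = z := by rw [← mul_assoc, hy2, one_mul]
        have h3 : z * (y * z) = y := by rw [← mul_assoc, h1, mul_assoc, hz2, mul_one]
        have h4 : y * z * y = z := by rw [mul_assoc, h1, h2]
        have h5 : y * z * z = y := by rw [mul_assoc, hz2, mul_one]
        have h6 : y * z * (y * z) = 1 := by rw [mul_assoc, h3, hy2]
        rintro u v (rfl | rfl | rfl | rfl) (rfl | rfl | rfl | rfl) <;>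
          simp [hy2, hz2, h1, h2, h3, h4, h5, h6]
      inv_mem' := by
        rintro u (rfl | rfl | rfl | rfl)
        · simp
        · exact Or.inr (Or.inl (inv_eq_of_mul_eq_one_right hy2))
        · exact Or.inr (Or.inr (Or.inl (inv_eq_of_mul_eq_one_right hz2)))
        · exact Or.inr (Or.inr (Or.inr (by
            rw [mul_inv_rev, inv_eq_of_mul_eq_one_right hy2, inv_eq_of_mul_eq_one_right hz2]
            exact hyzc.eq.symm))) }
  have hconjV : ∀ s ∈ (S : Subgroup G), ∀ u ∈ V, s * u * s⁻¹ ∈ V := by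
    have hzz : ∀ s ∈ (S : Subgroup G), s * z * s⁻¹ = z := fun s hs => by
      rw [(hzS s hs).eq, mul_inv_cancel_right]
    rintro s hs u (rfl | rfl | rfl | rfl)
    · exact Or.inl (by group)
    · rcases hyconj s hs with h | h <;> rw [h]
      · exact Or.inr (Or.inl rfl)
      · exact Or.inr (Or.inr (Or.inr rfl))
    · exact Or.inr (Or.inr (Or.inl (hzz s hs)))
    · rw [show s * (y * z) * s⁻¹ = (s * y * s⁻¹) * (s * z * s⁻¹) by group, hzz s hs]
      rcases hyconj s hs with h | h <;> rw [h]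
      · exact Or.inr (Or.inr (Or.inr rfl))
      · exact Or.inr (Or.inl (by rw [mul_assoc, hz2, mul_one]))
  have hVS : V ≤ (S : Subgroup G) ⊓ Subgroup.centralizer ({y} : Set G) := by
    rintro u (rfl | rfl | rfl | rfl) <;>
      refine ⟨?_, Subgroup.mem_centralizer_singleton_iff.mpr ?_⟩
    · exact one_mem _
    · simp
    · exact hymem
    · rfl
    · exact zS.2
    · exact hyzc.eq.symm
    · exact mul_mem hymem zS.2
    · rw [mul_assoc, hyzc.eq.symm]
  set T := (S : Subgroup G) ⊓ Subgroup.centralizer ({y} : Set G) with hT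
  have hTV : T ≤ V := by
    by_contra hTV
    haveI hVn : (V.subgroupOf (S : Subgroup G)).Normal :=
      ⟨fun u hu s => hconjV s s.2 _ hu⟩
    haveI hTn : (T.subgroupOf (S : Subgroup G)).Normal := by
      refine ⟨fun u hu s => ?_⟩
      refine ⟨(s * u * s⁻¹).2, Subgroup.mem_centralizer_singleton_iff.mpr ?_⟩
      have huy : (u : G) * y = y * (u : G) := Subgroup.mem_centralizer_singleton_iff.mp hu.2
      have huy2 : (u : G) * (y * z) = (y * z) * (u : G) :=
        (Commute.mul_right (huy : Commute (u : G) y) (hzS u u.2)).eq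
      show (s : G) * u * (s : G)⁻¹ * y = y * ((s : G) * u * (s : G)⁻¹)
      rcases hyconj (s : G)⁻¹ (inv_mem s.2) with h | h <;> rw [inv_inv] at h
      · have e : (u : G) * ((s : G)⁻¹ * y * s) = ((s : G)⁻¹ * y * s) * u := by rw [h]; exact huy
        calc (s : G) * u * (s : G)⁻¹ * y = s * ((u : G) * ((s : G)⁻¹ * y * s)) * (s : G)⁻¹ := by group
          _ = s * (((s : G)⁻¹ * y * s) * u) * (s : G)⁻¹ := by rw [e]
          _ = _ := by group
      · have e : (u : G) * ((s : G)⁻¹ * y * s) = ((s : G)⁻¹ * y * s) * u := by rw [h]; exact huy2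
        calc (s : G) * u * (s : G)⁻¹ * y = s * ((u : G) * ((s : G)⁻¹ * y * s)) * (s : G)⁻¹ := by group
          _ = s * (((s : G)⁻¹ * y * s) * u) * (s : G)⁻¹ := by rw [e]
          _ = _ := by group
    obtain ⟨aS, haT, haV, haa, has⟩ := exists_step hS0 (N := V.subgroupOf (S : Subgroup G))
      (M := T.subgroupOf (S : Subgroup G)) (fun u hu => hVS hu) (fun e => hTV fun u hu => by
        have hu' : (⟨u, hu.1⟩ : (S : Subgroup G)) ∈ T.subgroupOf (S : Subgroup G) := hu
        rw [← e] at hu'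
        exact hu')
    set a : G := (aS : G) with ha
    have haS : a ∈ (S : Subgroup G) := aS.2
    have hay : Commute a y := Subgroup.mem_centralizer_singleton_iff.mp haT.2
    have haz : Commute a z := hzS a haS
    have haV' : a ∉ V := haV
    have haa' : a * a ∈ V := haa
    have htz : t * z * t⁻¹ = z := by rw [(hzS t hg2S).eq, mul_inv_cancel_right]
    have haa1 : a * a ≠ 1 := by
      intro e
      by_cases ha1 : a = 1
      · exact haV' (ha1 ▸ V.one_mem)
      exact haV' (Or.inr (hthiny a (orderOf_eq_prime (by rw [pow_two]; exact e) ha1) hay))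
    obtain ⟨v, hv, hav⟩ : ∃ v ∈ V, t * a * t⁻¹ = v * a :=
      ⟨t * a * t⁻¹ * a⁻¹, has ⟨t, hg2S⟩, (inv_mul_cancel_right _ _).symm⟩
    have hvc : Commute v a := by
      rcases hv with rfl | rfl | rfl | rfl
      · exact Commute.one_left a
      · exact hay.symm
      · exact haz.symm
      · exact (hay.symm).mul_left haz.symm
    have hv2 : v * v = 1 := by
      rcases hv with rfl | rfl | rfl | rfl
      · exact one_mul 1
      · exact hy2
      · exact hz2
      · rw [mul_assoc, ← mul_assoc z, hyzc.eq.symm, mul_assoc y, hz2, mul_one, hy2]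
    have hfix : t * (a * a) * t⁻¹ = a * a := by
      rw [show t * (a * a) * t⁻¹ = (t * a * t⁻¹) * (t * a * t⁻¹) by group, hav,
        show v * a * (v * a) = v * (a * v) * a by group, hvc.eq.symm,
        show v * (v * a) * a = v * v * (a * a) by group, hv2, one_mul]
    have haz' : a * a = z := by
      rcases haa' with e | e | e | e
      · exact absurd e haa1
      · rw [e, hty, mul_eq_left] at hfix
        rw [hfix, orderOf_one] at hz; omega
      · exact e
      · rw [e, show t * (y * z) * t⁻¹ = (t * y * t⁻¹) * (t * z * t⁻¹) by group, hty, htz,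
          mul_assoc, hz2, mul_one] at hfix
        have h' : z = 1 := mul_eq_left.mp hfix.symm
        rw [h', orderOf_one] at hz; omega
    have hvv : (t * v * t⁻¹) * v = 1 := by
      have h2 : t * (v * a) * t⁻¹ = a := by rw [← hav, htinv]; simp only [← mul_assoc]; rw [sq_one hto, one_mul, mul_assoc, sq_one hto, mul_one]
      rw [show t * (v * a) * t⁻¹ = (t * v * t⁻¹) * (t * a * t⁻¹) by group, hav, ← mul_assoc] at h2
      exact mul_eq_right.mp h2
    have hcases : v = 1 ∨ v = z := by
      rcases hv with e | e | e | e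
      · exact Or.inl e
      · rw [e, hty, mul_assoc, hyzc.eq.symm, ← mul_assoc, hy2, one_mul] at hvv
        rw [hvv, orderOf_one] at hz; omega
      · exact Or.inr e
      · rw [e, show t * (y * z) * t⁻¹ = (t * y * t⁻¹) * (t * z * t⁻¹) by group, hty, htz,
          show y * z * z * (y * z) = y * (z * z) * y * z by group, hz2, mul_one, hy2, one_mul] at hvv
        rw [hvv, orderOf_one] at hz; omega
    rcases hcases with rfl | rfl
    · rw [one_mul] at hav
      exact hnosq a haS (mul_inv_eq_iff_eq_mul.mp hav).symm haz'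
    · refine hnosq (a * y) (mul_mem haS hymem) ?_ ?_
      · have e : t * (a * y) * t⁻¹ = a * y := by
          rw [show t * (a * y) * t⁻¹ = (t * a * t⁻¹) * (t * y * t⁻¹) by group, hav, hty,
            ← haz.eq, show a * z * (y * z) = a * (z * y) * z by group, hyzc.eq.symm,
            show a * (y * z) * z = a * y * (z * z) by group, hz2, mul_one]
        exact (mul_inv_eq_iff_eq_mul.mp e).symm
      · rw [show a * y * (a * y) = a * (y * a) * y by group, hay.eq.symm,
          show a * (a * y) * y = a * a * (y * y) by group, haz', hy2, mul_one]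
  -- `S` is dihedral of order eight
  have hwS : y * t ∈ (S : Subgroup G) := mul_mem hymem hg2S
  have hw2 : (y * t) ^ 2 = z := by
    rw [pow_two, show y * t * (y * t) = y * (t * y * t) by group]
    conv_lhs => arg 2; arg 2; rw [← htinv]
    rw [hty, ← mul_assoc, hy2, one_mul]
  have hw4 : orderOf (y * t) = 4 := by
    refine orderOf_eq_prime_pow (p := 2) (n := 1) ?_ ?_
    · rw [pow_one, hw2]; intro e; rw [e, orderOf_one] at hz; omega
    · rw [show (2 : ℕ) ^ (1 + 1) = 2 * 2 from rfl, pow_mul, hw2, pow_two, hz2]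
  have hSeq : ∀ s ∈ (S : Subgroup G), ∃ v ∈ V, s = v ∨ s = t * v := by
    intro s hs
    rcases hyconj s hs with h | h
    · exact ⟨s, hTV ⟨hs, Subgroup.mem_centralizer_singleton_iff.mpr (mul_inv_eq_iff_eq_mul.mp h)⟩,
        Or.inl rfl⟩
    · refine ⟨t⁻¹ * s, hTV ⟨(S : Subgroup G).mul_mem ((S : Subgroup G).inv_mem hg2S) hs, Subgroup.mem_centralizer_singleton_iff.mpr
        (mul_inv_eq_iff_eq_mul.mp ?_)⟩, Or.inr (mul_inv_cancel_left t s).symm⟩
      rw [show t⁻¹ * s * y * (t⁻¹ * s)⁻¹ = t⁻¹ * (s * y * s⁻¹) * t by group, h,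
        ← hty]
      group
  have hcardS : Nat.card (S : Subgroup G) ≤ 8 := by
    have hcover : ((S : Subgroup G) : Set G) ⊆
        {1, y, z, y * z, t, t * y, t * z, t * (y * z)} := by
      intro s hs
      obtain ⟨v, hv, hsv⟩ := hSeq s hs
      rcases hv with rfl | rfl | rfl | rfl <;> rcases hsv with rfl | rfl <;> simp
    have h1 := Set.ncard_le_ncard hcover (Set.toFinite _)
    rw [← Nat.card_coe_set_eq] at h1
    refine h1.trans ?_
    refine (Set.ncard_insert_le _ _).trans ?_
    refine (Nat.add_le_add_right (Set.ncard_insert_le _ _) 1).trans ?_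
    refine (Nat.add_le_add_right (Nat.add_le_add_right (Set.ncard_insert_le _ _) 1) 1).trans ?_
    refine (Nat.add_le_add_right (Nat.add_le_add_right (Nat.add_le_add_right (Set.ncard_insert_le _ _) 1) 1) 1).trans ?_
    refine (Nat.add_le_add_right (Nat.add_le_add_right (Nat.add_le_add_right (Nat.add_le_add_right (Set.ncard_insert_le _ _) 1) 1) 1) 1).trans ?_
    refine (Nat.add_le_add_right (Nat.add_le_add_right (Nat.add_le_add_right (Nat.add_le_add_right (Nat.add_le_add_right (Set.ncard_insert_le _ _) 1) 1) 1) 1) 1).trans ?_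
    refine (Nat.add_le_add_right (Nat.add_le_add_right (Nat.add_le_add_right (Nat.add_le_add_right (Nat.add_le_add_right (Nat.add_le_add_right (Set.ncard_insert_le _ _) 1) 1) 1) 1) 1) 1).trans ?_
    simp
  have hQ : Subgroup.zpowers (y * t) ≤ (S : Subgroup G) := Subgroup.zpowers_le.mpr hwS
  obtain ⟨g4, hg4⟩ := exists_conj_mem_maximal hnc S _ hQ (by
    have h := Subgroup.relIndex_mul_index hQ
    have h2 := Subgroup.card_mul_index (Subgroup.zpowers (y * t))
    have h3 := Subgroup.card_mul_index (S : Subgroup G)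
    rw [Nat.card_zpowers, hw4] at h2
    have hpos : 0 < (S : Subgroup G).index := Nat.pos_of_ne_zero Subgroup.index_ne_zero_of_finite
    refine Nat.le_of_mul_le_mul_right ?_ hpos
    rw [h]
    nlinarith) hyo hymem
  obtain ⟨i₀, hi₀⟩ := Subgroup.mem_zpowers_iff.mp hg4
  obtain ⟨i, hi⟩ : ∃ i : ℕ, (y * t) ^ i = g4 * y * g4⁻¹ :=
    ⟨(i₀ % 4).toNat, by
      rw [← hi₀, ← zpow_natCast, Int.toNat_of_nonneg (Int.emod_nonneg _ (by norm_num))]
      conv_rhs => rw [← zpow_mod_orderOf, hw4]
      norm_num⟩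
  have hu : orderOf ((y * t) ^ i) = 2 := by rw [hi, orderOf_conj]; exact hyo
  refine hnzy g4 (hi.symm.trans ?_)
  rw [← pow_mod_orderOf, hw4] at hu ⊢
  have : i % 4 < 4 := Nat.mod_lt _ (by norm_num)
  generalize i % 4 = j at hu this ⊢
  interval_cases j
  · rw [pow_zero, orderOf_one] at hu; omega
  · rw [pow_one, hw4] at hu; omega
  · exact hw2
  · rw [orderOf_pow' _ (by norm_num), hw4] at hu; norm_num at hu

end Simple


/-- Let G be a finite simple group and x an involution of G whose centralizer contains at most three involutions. Then C_G(x) contains a Sylow 2-subgroup of G, and all involutions of G are conjugate. -/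
theorem result {G : Type*} [Group G] [Finite G] [IsSimpleGroup G] (x : G) (hx : orderOf x = 2)
    (h3 : Nat.card {u : ↥(Subgroup.centralizer ({x} : Set G)) // orderOf u = 2} ≤ 3) :
    (∃ S : Sylow 2 G, (S : Subgroup G) ≤ Subgroup.centralizer ({x} : Set G)) ∧
      ∀ u v : G, orderOf u = 2 → orderOf v = 2 → IsConj u v := by
  classical
  haveI : Fact (Nat.Prime 2) := ⟨Nat.prime_two⟩
  by_cases hcomm : ∀ a b : G, a * b = b * a
  · obtain ⟨S⟩ : Nonempty (Sylow 2 G) := inferInstance
    have htop : ∀ u : G, orderOf u = 2 → Subgroup.zpowers u = ⊤ := fun u hu => by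
      have hn : (Subgroup.zpowers u).Normal := ⟨fun v hv s => by
        rwa [hcomm s v, mul_inv_cancel_right]⟩
      refine hn.eq_bot_or_eq_top.resolve_left fun e => ?_
      rw [Subgroup.zpowers_eq_bot] at e
      rw [e, orderOf_one] at hu
      omega
    refine ⟨⟨S, fun s _ => Subgroup.mem_centralizer_singleton_iff.mpr (hcomm s x)⟩, fun u v hu hv => ?_⟩
    have hv' : v ∈ Subgroup.zpowers u := htop u hu ▸ Subgroup.mem_top v
    rcases eq_or_of_mem_zpowers hu hv' with rfl | rfl
    · rw [orderOf_one] at hv; omega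
    · exact IsConj.refl _
  push Not at hcomm
  have hnc : ∃ a b : G, a * b ≠ b * a := hcomm
  have hxx := sq_one hx
  have hx1 : x ≠ 1 := fun e => by rw [e, orderOf_one] at hx; omega
  have hthin : ∀ u v : G, orderOf u = 2 → orderOf v = 2 → Commute u x → Commute v x → u ≠ x → v ≠ x →
      v = u ∨ v = x * u := by
    intro u v hu hv hux hvx hune hvne
    by_contra hcon
    push Not at hcon
    have hu1 : u ≠ 1 := fun e => by rw [e, orderOf_one] at hu; omega
    have hxu : orderOf (x * u) = 2 := by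
      refine orderOf_eq_prime ?_ ?_
      · rw [hux.symm.mul_pow, pow_two, pow_two, hxx, sq_one hu, one_mul]
      · intro e
        exact hune ((eq_inv_of_mul_eq_one_right e).trans (inv_eq_of_mul_eq_one_right hxx))
    set C := Subgroup.centralizer ({x} : Set G)
    have hm : ∀ {w : G}, Commute w x → w ∈ C := fun h => Subgroup.mem_centralizer_singleton_iff.mpr h
    let f : Fin 4 → {w : ↥C // orderOf w = 2} :=
      ![⟨⟨x, hm (Commute.refl x)⟩, by rw [Subgroup.orderOf_mk]; exact hx⟩,
        ⟨⟨u, hm hux⟩, by rw [Subgroup.orderOf_mk]; exact hu⟩,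
        ⟨⟨x * u, hm ((Commute.refl x).mul_left hux)⟩, by rw [Subgroup.orderOf_mk]; exact hxu⟩,
        ⟨⟨v, hm hvx⟩, by rw [Subgroup.orderOf_mk]; exact hv⟩]
    have hf : Function.Injective f := by
      intro i j hij
      have h' := congrArg (fun w : {w : ↥C // orderOf w = 2} => ((w : ↥C) : G)) hij
      fin_cases i <;> fin_cases j <;> simp [f] at h' <;>
        first
        | rfl
        | exact absurd h' hune
        | exact absurd h'.symm hune
        | exact absurd h' hvne
        | exact absurd h'.symm hvne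
        | exact absurd h' hu1
        | exact absurd h'.symm hu1
        | exact absurd h' hx1
        | exact absurd h'.symm hx1
        | exact absurd h' hcon.1
        | exact absurd h'.symm hcon.1
        | exact absurd h' hcon.2
        | exact absurd h'.symm hcon.2
    have h4 := Nat.card_le_card_of_injective f hf
    rw [Nat.card_eq_fintype_card, Fintype.card_fin] at h4
    omega
  obtain ⟨S₀⟩ : Nonempty (Sylow 2 G) := inferInstance
  have hdvd := card_sylow_dvd hnc x hx hthin S₀
  obtain ⟨Q⟩ : Nonempty (Sylow 2 (Subgroup.centralizer ({x} : Set G))) := inferInstance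
  set C := Subgroup.centralizer ({x} : Set G)
  obtain ⟨S, hS⟩ := (Q.isPGroup'.map C.subtype).exists_le_sylow
  have hQS : (Q : Subgroup C).map C.subtype = (S : Subgroup G) := by
    refine Subgroup.eq_of_le_of_card_ge hS ?_
    rw [Subgroup.card_map_of_injective C.subtype_injective, Sylow.card_eq_multiplicity Q,
      Sylow.card_eq_multiplicity S]
    refine Nat.pow_le_pow_right two_pos ?_
    rw [← Nat.prime_two.pow_dvd_iff_le_factorization Nat.card_pos.ne', ← Sylow.card_eq_multiplicity S₀]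
    exact hdvd
  have hSC : (S : Subgroup G) ≤ C := hQS ▸ Subgroup.map_subtype_le _
  have hxS : x ∈ (S : Subgroup G) := by
    have hxS' : ∀ s ∈ (S : Subgroup G), Commute s x := fun s hs =>
      Subgroup.mem_centralizer_singleton_iff.mp (hSC hs)
    have hp : IsPGroup 2 ↥((S : Subgroup G) ⊔ Subgroup.zpowers x) := by
      refine IsPGroup.to_sup_of_normal_left' S.isPGroup'
        (IsPGroup.of_card (n := 1) (by rw [Nat.card_zpowers, hx, pow_one])) ?_
      rw [Subgroup.zpowers_le, Subgroup.mem_normalizer_iff]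
      intro s
      constructor <;> intro hs
      · rwa [← (hxS' s hs).eq, mul_inv_cancel_right]
      · have h' := hxS' _ hs
        rw [Commute, SemiconjBy, inv_mul_cancel_right] at h'
        rwa [← mul_left_cancel h'] at hs
    exact (S.3 hp le_sup_left).le (Subgroup.mem_sup_right (Subgroup.mem_zpowers x))
  refine ⟨⟨S, hSC⟩, fun u v hu hv => ?_⟩
  obtain ⟨g, hgS, hgne⟩ := exists_conj_ne hnc S hx hxS
  set a := g * x * g⁻¹ with ha
  have hao : orderOf a = 2 := by rw [ha, orderOf_conj]; exact hx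
  have hmem : ∀ w ∈ (S : Subgroup G), orderOf w = 2 → IsConj x w := by
    have hax : IsConj x a := isConj_iff.mpr ⟨g, rfl⟩
    have hcases : ∀ w ∈ (S : Subgroup G), orderOf w = 2 → w = x ∨ w = a ∨ w = x * a := by
      intro w hw hwo
      by_cases hwx : w = x
      · exact Or.inl hwx
      exact Or.inr (hthin a w hao hwo (Subgroup.mem_centralizer_singleton_iff.mp (hSC hgS))
        (Subgroup.mem_centralizer_singleton_iff.mp (hSC hw)) hgne hwx)
    intro w hw hwo
    rcases hcases w hw hwo with rfl | rfl | rfl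
    · exact IsConj.refl _
    · exact hax
    · obtain ⟨k, hkS, hkne⟩ := exists_conj_ne hnc S hwo hw
      have hc : IsConj (x * a) (k * (x * a) * k⁻¹) := isConj_iff.mpr ⟨k, rfl⟩
      rcases hcases _ hkS (by rw [orderOf_conj]; exact hwo) with h | h | h
      · rw [h] at hc; exact hc.symm
      · rw [h] at hc; exact hax.trans hc.symm
      · exact absurd h hkne
  have hto : ∀ w : G, orderOf w = 2 → IsConj x w := fun w hw => by
    obtain ⟨k, hk⟩ := CfsgLib.Invol.exists_conj_mem_sylow_two S hw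
    exact (hmem _ hk (by rw [orderOf_conj]; exact hw)).trans (isConj_iff.mpr ⟨k, rfl⟩ : IsConj w _).symm
  exact (hto u hu).symm.trans (hto v hv)

end Cfsg.Agent.S3279
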