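import Cfsg.Statements.S3303
import Cfsg.Agent.Lib.CoreLayer

set_option autoImplicit false
open Cfsg
open scoped Pointwise

namespace Cfsg.Agent.S3303

/-- Let G be a finite solvable group in which the intersection of any two distinct Sylow 2-subgroups is cyclic. Then G/O(G) has a normal Sylow 2-subgroup, where O(G) is the largest normal subgroup of odd order. -/
theorem result {G : Type*} [Group G] [Finite G] (hs : Group.IsSolvable G)
    (hC : ∀ S T : Sylow 2 G, S ≠ T → IsCyclic ↥((S : Subgroup G) ⊓ (T : Subgroup G))) :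
    ∃ P : Sylow 2 (G ⧸ Cfsg.oddCore G), (P : Subgroup (G ⧸ Cfsg.oddCore G)).Normal := by
  classical
  haveI : Fact (Nat.Prime 2) := ⟨Nat.prime_two⟩
  haveI := CfsgLib.Core.normal_pPrimeCore (G := G) 2
  set Q := G ⧸ Cfsg.pPrimeCore 2 G with hQdef
  set π := QuotientGroup.mk' (Cfsg.pPrimeCore 2 G) with hπ
  have hπs : Function.Surjective π := QuotientGroup.mk'_surjective _
  obtain ⟨P⟩ : Nonempty (Sylow 2 Q) := inferInstance
  refine ⟨P, ?_⟩
  suffices huniq : ∀ P₁ P₂ : Sylow 2 Q, (P₁ : Subgroup Q) = P₂ by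
    refine ⟨fun x hx g => ?_⟩
    have h := huniq (g • P) P
    rw [Sylow.coe_subgroup_smul] at h
    show g * x * g⁻¹ ∈ (P : Subgroup Q)
    rw [← h]
    exact ⟨x, hx, rfl⟩
  intro P₁ P₂
  by_contra hne
  haveI : Group.IsSolvable Q := solvable_of_surjective hπs
  haveI hEn := CfsgLib.Core.normal_pCore (G := Q) 2
  set E := Cfsg.pCore 2 Q with hE
  have hEp : IsPGroup 2 E := CfsgLib.Core.isPGroup_pCore 2
  have hCE : Subgroup.centralizer (E : Set Q) ≤ E :=
    CfsgLib.Core.centralizer_pCore_le (CfsgLib.Core.pPrimeCore_quotient_pPrimeCore 2)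
  set K := E.comap π with hK
  haveI : K.Normal := inferInstance
  have hOK : Nat.card (Cfsg.pPrimeCore 2 G) * Nat.card E = Nat.card K := by
    have h1 := Subgroup.index_comap_of_surjective E hπs
    have h2 := Subgroup.card_eq_card_quotient_mul_card_subgroup (Cfsg.pPrimeCore 2 G)
    have h3 := K.card_mul_index
    have h4 := E.card_mul_index
    rw [h1, h2, ← h4] at h3
    refine (Nat.eq_of_mul_eq_mul_right (Nat.pos_of_ne_zero (Subgroup.index_ne_zero_of_finite (H := E))) ?_).symm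
    rw [h3]; ring
  have hodd : ¬ 2 ∣ Nat.card (Cfsg.pPrimeCore 2 G) :=
    Nat.prime_two.coprime_iff_not_dvd.1 (CfsgLib.Core.coprime_card_pPrimeCore (G := G) 2).symm
  -- a Sylow subgroup over `P` meets `K` in a lift of `E`
  have hlift : ∀ S : Sylow 2 G, ((S : Subgroup G) ⊓ K).map π = E ∧ Nat.card ↥((S : Subgroup G) ⊓ K) = Nat.card E := by
    intro S
    have hle : E ≤ (S : Subgroup G).map π :=
      (CfsgLib.Core.pCore_le_sylow (S.mapSurjective hπs)).trans (le_of_eq (Sylow.coe_mapSurjective hπs S))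
    have h1 : ((S : Subgroup G) ⊓ K).map π = E := by
      refine le_antisymm (Subgroup.map_le_iff_le_comap.2 inf_le_right) fun e he => ?_
      obtain ⟨s, hs, rfl⟩ := hle he
      exact ⟨s, ⟨hs, he⟩, rfl⟩
    refine ⟨h1, ?_⟩
    let f : ↥((S : Subgroup G) ⊓ K) →* Q := π.comp ((S : Subgroup G) ⊓ K).subtype
    have hf : Function.Injective f := by
      rw [injective_iff_map_eq_one]
      intro x hx
      have hxO : (x : G) ∈ Cfsg.pPrimeCore 2 G := (QuotientGroup.eq_one_iff (x : G)).1 hx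
      obtain ⟨n, hn⟩ := S.2 ⟨x, x.2.1⟩
      have hn' : (x : G) ^ 2 ^ n = 1 := congrArg Subtype.val hn
      refine Subtype.ext (orderOf_eq_one_iff.1 ?_)
      exact Nat.eq_one_of_dvd_coprimes ((Nat.prime_two.coprime_iff_not_dvd.2 hodd).pow_left n)
        (orderOf_dvd_of_pow_eq_one hn') (Subgroup.orderOf_dvd_natCard _ hxO)
    rw [Nat.card_congr (MonoidHom.ofInjective hf).toEquiv, ← h1, MonoidHom.range_comp, Subgroup.range_subtype]
  obtain ⟨S, hS⟩ := Sylow.mapSurjective_surjective hπs 2 P₁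
  obtain ⟨T, hT⟩ := Sylow.mapSurjective_surjective hπs 2 P₂
  -- make both lifts the same
  have hsyl : ∀ S : Sylow 2 G, ¬ 2 ∣ (((S : Subgroup G) ⊓ K).subgroupOf K).index := by
    intro S h2
    refine hodd ?_
    have h := (((S : Subgroup G) ⊓ K).subgroupOf K).card_mul_index
    rw [← hOK, Nat.card_congr (Subgroup.subgroupOfEquivOfLe inf_le_right).toEquiv, (hlift S).2, mul_comm (Nat.card (Cfsg.pPrimeCore 2 G))] at h
    rwa [Nat.eq_of_mul_eq_mul_left Nat.card_pos h] at h2
  have hpg : ∀ S : Sylow 2 G, IsPGroup 2 (((S : Subgroup G) ⊓ K).subgroupOf K) := fun S =>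
    (S.2.to_le inf_le_left).of_equiv (Subgroup.subgroupOfEquivOfLe inf_le_right).symm
  obtain ⟨k, hk⟩ := MulAction.exists_smul_eq K ((hpg T).toSylow (hsyl T)) ((hpg S).toSylow (hsyl S))
  have hne' : ((k : G) • T : Sylow 2 G) ≠ S := by
    intro h
    refine hne ?_
    have hkP : π k ∈ Subgroup.normalizer ((P₂ : Subgroup Q) : Set Q) :=
      Subgroup.le_normalizer ((CfsgLib.Core.pCore_le_sylow P₂) k.2)
    have e2 : ((P₂ : Subgroup Q) : Subgroup Q) = (T : Subgroup G).map π := by rw [← hT, Sylow.coe_mapSurjective]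
    have e1 : ((P₁ : Subgroup Q) : Subgroup Q) = (S : Subgroup G).map π := by rw [← hS, Sylow.coe_mapSurjective]
    rw [e1, e2, ← h, Sylow.coe_subgroup_smul]
    rw [e2] at hkP
    ext x
    constructor
    · rintro ⟨_, ⟨t, ht, rfl⟩, rfl⟩
      show π ((k : G) * t * (k : G)⁻¹) ∈ (T : Subgroup G).map π
      rw [map_mul, map_mul, map_inv]
      exact (Subgroup.mem_normalizer_iff.1 hkP _).1 ⟨t, ht, rfl⟩
    · intro hx
      have hx' := (Subgroup.mem_normalizer_iff.1 (Subgroup.inv_mem _ hkP) x).1 hx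
      obtain ⟨t, ht, e⟩ := hx'
      refine ⟨(k : G) * t * (k : G)⁻¹, ⟨t, ht, rfl⟩, ?_⟩
      rw [map_mul, map_mul, map_inv, e]; group
  have hFle : (S : Subgroup G) ⊓ K ≤ (S : Subgroup G) ⊓ ((k : G) • T : Sylow 2 G) := by
    intro x hx
    refine ⟨hx.1, ?_⟩
    have hxS : (⟨x, hx.2⟩ : K) ∈ (((hpg S).toSylow (hsyl S)) : Subgroup K) := hx
    rw [← hk, Sylow.coe_subgroup_smul] at hxS
    obtain ⟨u, hu, hux⟩ := hxS
    have hu' : (u : G) ∈ (T : Subgroup G) ⊓ K := hu
    have hux' : (k : G) * u * (k : G)⁻¹ = x := congrArg Subtype.val hux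
    rw [← hux']
    show (k : G) * u * (k : G)⁻¹ ∈ (((k : G) • T : Sylow 2 G) : Subgroup G)
    rw [Sylow.coe_subgroup_smul]
    exact ⟨u, hu'.1, rfl⟩
  haveI := hC S ((k : G) • T) (Ne.symm hne')
  haveI : IsCyclic ↥((S : Subgroup G) ⊓ K) :=
    isCyclic_of_injective (Subgroup.inclusion hFle) (Subgroup.inclusion_injective hFle)
  haveI : IsCyclic E := by
    rw [← (hlift S).1]
    exact isCyclic_of_surjective (π.subgroupMap _) (π.subgroupMap_surjective _)
  have hAut : IsPGroup 2 (MulAut E) := by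
    obtain ⟨j, hj⟩ := IsPGroup.iff_card.1 hEp
    refine IsPGroup.of_card (n := j - 1) ?_
    rw [IsCyclic.card_mulAut, hj]
    rcases j with _ | j
    · simp
    · rw [Nat.totient_prime_pow Nat.prime_two (Nat.succ_pos j)]; simp
  -- hence the quotient is a 2-group
  let φ : Q →* MulAut E := MulAut.conjNormal
  have hker : φ.ker ≤ E := fun x hx => hCE fun e he => by
    have h0 : φ x ⟨e, he⟩ = ⟨e, he⟩ := by rw [MonoidHom.mem_ker.1 hx]; rfl
    have h : x * e * x⁻¹ = e := congrArg Subtype.val h0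
    calc e * x = (x * e * x⁻¹) * x := by rw [h]
      _ = x * e := by group
  have hQ : IsPGroup 2 Q := by
    intro x
    obtain ⟨a, ha⟩ := hAut (φ x)
    rw [← map_pow] at ha
    obtain ⟨b, hb⟩ := hEp ⟨_, hker ha⟩
    refine ⟨a + b, ?_⟩
    rw [pow_add, pow_mul]
    exact congrArg Subtype.val hb
  have htop : ∀ R : Sylow 2 Q, (R : Subgroup Q) = ⊤ := fun R => (R.3 (hQ.to_subgroup ⊤) le_top).symm
  exact hne ((htop P₁).trans (htop P₂).symm)

end Cfsg.Agent.S3303
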