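import Cfsg.Statements.S3305


set_option autoImplicit false
open Cfsg

namespace Cfsg.Agent.S3305

/-- If any two distinct Sylow 2-subgroups of the finite group G intersect in a cyclic group, then the same holds in every quotient group G/H, H a normal subgroup of G. -/
theorem result {G : Type*} [Group G] [Finite G]
    (hC : ∀ S T : Sylow 2 G, S ≠ T → IsCyclic ↥((S : Subgroup G) ⊓ (T : Subgroup G))) (H : Subgroup G) [H.Normal] :
    ∀ S T : Sylow 2 (G ⧸ H), S ≠ T → IsCyclic ↥((S : Subgroup (G ⧸ H)) ⊓ (T : Subgroup (G ⧸ H))) := by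
  intro S T hST
  haveI : Fact (Nat.Prime 2) := ⟨Nat.prime_two⟩
  set f : G →* G ⧸ H := QuotientGroup.mk' H with hf
  have hfs : Function.Surjective f := QuotientGroup.mk'_surjective H
  set K : Subgroup G := ((S : Subgroup (G ⧸ H)) ⊓ (T : Subgroup (G ⧸ H))).comap f with hK
  -- a Sylow subgroup of the preimage maps onto the intersection
  obtain ⟨P⟩ : Nonempty (Sylow 2 ↥K) := inferInstance
  set φ : ↥K →* ↥((S : Subgroup (G ⧸ H)) ⊓ (T : Subgroup (G ⧸ H))) :=
    f.subgroupComap _ with hφ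
  have hφs : Function.Surjective φ := by
    rintro ⟨y, hy⟩
    obtain ⟨g, rfl⟩ := hfs y
    exact ⟨⟨g, hy⟩, rfl⟩
  have hint : IsPGroup 2 ↥((S : Subgroup (G ⧸ H)) ⊓ (T : Subgroup (G ⧸ H))) :=
    S.isPGroup'.to_le inf_le_left
  have hPtop : (P.mapSurjective hφs).toSubgroup = ⊤ := by
    refine ((P.mapSurjective hφs).is_maximal' ?_ le_top).symm
    exact hint.of_equiv Subgroup.topEquiv.symm
  -- Sylow subgroups above it
  have hlift : ∀ U : Sylow 2 (G ⧸ H), ((S : Subgroup (G ⧸ H)) ⊓ (T : Subgroup (G ⧸ H))) ≤ U →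
      ∃ U' : Sylow 2 G, (P : Subgroup ↥K).map K.subtype ≤ U' ∧
        (U' : Subgroup G).map f = U := by
    intro U hU
    set L : Subgroup G := (U : Subgroup (G ⧸ H)).comap f with hL
    have hKL : K ≤ L := Subgroup.comap_mono hU
    have hp : IsPGroup 2 ↥((P : Subgroup ↥K).map K.subtype) := P.isPGroup'.map _
    have hle : (P : Subgroup ↥K).map K.subtype ≤ L := (Subgroup.map_subtype_le _).trans hKL
    obtain ⟨Q, hQ⟩ := (hp.of_equiv (Subgroup.subgroupOfEquivOfLe hle).symm).exists_le_sylow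
    set ψ : ↥L →* ↥(U : Subgroup (G ⧸ H)) := f.subgroupComap _ with hψ
    have hψs : Function.Surjective ψ := by
      rintro ⟨y, hy⟩
      obtain ⟨g, rfl⟩ := hfs y
      exact ⟨⟨g, hy⟩, rfl⟩
    have hQtop : (Q.mapSurjective hψs).toSubgroup = ⊤ := by
      refine ((Q.mapSurjective hψs).is_maximal' ?_ le_top).symm
      exact U.isPGroup'.of_equiv Subgroup.topEquiv.symm
    obtain ⟨U', hU'⟩ := (Q.isPGroup'.map L.subtype).exists_le_sylow
    refine ⟨U', ?_, ?_⟩
    · intro x hx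
      exact hU' ⟨⟨x, hle hx⟩, hQ hx, rfl⟩
    · refine U.is_maximal' (U'.isPGroup'.map f) ?_
      intro y hy
      have : (⟨y, hy⟩ : ↥(U : Subgroup (G ⧸ H))) ∈ (Q.mapSurjective hψs).toSubgroup := by
        rw [hQtop]; trivial
      rw [Sylow.coe_mapSurjective, Subgroup.mem_map] at this
      obtain ⟨q, hq, hqy⟩ := this
      exact ⟨(q : G), hU' ⟨q, hq, rfl⟩, congrArg Subtype.val hqy⟩
  obtain ⟨S', hS', hS'f⟩ := hlift S inf_le_left
  obtain ⟨T', hT', hT'f⟩ := hlift T inf_le_right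
  have hne : S' ≠ T' := by
    intro h
    apply hST
    apply Sylow.ext
    rw [← hS'f, ← hT'f, h]
  haveI := hC S' T' hne
  have hPi : (P : Subgroup ↥K).map K.subtype ≤ (S' : Subgroup G) ⊓ T' := le_inf hS' hT'
  haveI : IsCyclic ↥((P : Subgroup ↥K).map K.subtype) :=
    isCyclic_of_injective (Subgroup.inclusion hPi) (Subgroup.inclusion_injective hPi)
  haveI : IsCyclic ↥(P : Subgroup ↥K) :=
    ((P : Subgroup ↥K).equivMapOfInjective K.subtype K.subtype_injective).isCyclic.mpr inferInstance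
  refine isCyclic_of_surjective (φ.comp (P : Subgroup ↥K).subtype) ?_
  intro y
  have : y ∈ (P.mapSurjective hφs).toSubgroup := by rw [hPtop]; trivial
  rw [Sylow.coe_mapSurjective, Subgroup.mem_map] at this
  obtain ⟨q, hq, hqy⟩ := this
  exact ⟨⟨q, hq⟩, hqy⟩

end Cfsg.Agent.S3305
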