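import Cfsg.Statements.S3309
import Cfsg.Agent.Lib.ZStarCorollaries
import Cfsg.Agent.Lib.TransferApps

set_option autoImplicit false
open Cfsg

namespace Cfsg.Agent.S3309

abbrev E₁₆ : Type := Multiplicative (ZMod 2) × DihedralGroup 4

def zz : E₁₆ := (1, DihedralGroup.r 2)

def cc : E₁₆ := (Multiplicative.ofAdd 1, 1)

def f (ρ σ : ZMod 2) (x : E₁₆) : ZMod 2 :=
  Multiplicative.toAdd x.1 + (match x.2 with
    | DihedralGroup.r i => ρ * (i.val : ZMod 2)
    | DihedralGroup.sr i => ρ * (i.val : ZMod 2) + σ)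

def t (γ : ZMod 2) (i : ZMod 4) : E₁₆ := (Multiplicative.ofAdd γ, DihedralGroup.sr i)

def rep (x : E₁₆) : E₁₆ :=
  match x.2 with
  | DihedralGroup.r _ => x
  | DihedralGroup.sr i => (x.1, DihedralGroup.sr ((i.val % 2 : ℕ) : ZMod 4))

theorem zz_eq : zz = (1, DihedralGroup.r 1) * (1, DihedralGroup.r 1) := by decide
theorem zz_ne : ¬ zz = 1 := by decide
theorem zz_ne' : ¬ (1 : E₁₆) = cc ∧ ¬ (1 : E₁₆) = cc * zz ∧ ¬ zz = cc ∧ ¬ zz = cc * zz := by decide

theorem orderOf_cj {G : Type*} [Group G] (g x : G) : orderOf (g * x * g⁻¹) = orderOf x :=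
  (MulAut.conj g).orderOf_eq x

theorem comb_aux : ∀ C₁ C₂ C₃ C₄ D₁ D₂ D₃ D₄ : Bool,
    ((C₁ || C₂) && (C₃ || C₄) && (C₁ || C₄) && (C₂ || C₃) &&
      (D₁ || D₂) && (D₃ || D₄) && (D₁ || D₄) && (D₂ || D₃) &&
      !(C₁ && D₁) && !(C₂ && D₂) && !(C₃ && D₃) && !(C₄ && D₄)) = true →
    (C₁ || D₁) = true ∧ (C₂ || D₂) = true ∧ (C₃ || D₃) = true ∧ (C₄ || D₄) = true := by decide

theorem comb (C D Z : E₁₆ → Prop)
    (h1 : (C (t 0 0) ∨ C (t 0 1)) ∧ (C (t 1 0) ∨ C (t 1 1)) ∧ (C (t 0 0) ∨ C (t 1 1)) ∧ (C (t 0 1) ∨ C (t 1 0)))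
    (h2 : (D (t 0 0) ∨ D (t 0 1)) ∧ (D (t 1 0) ∨ D (t 1 1)) ∧ (D (t 0 0) ∨ D (t 1 1)) ∧ (D (t 0 1) ∨ D (t 1 0)))
    (d1 : ∀ u, C u → D u → False) (d2 : ∀ u, C u → Z u → False) (d3 : ∀ u, D u → Z u → False)
    (h : Z (t 0 0) ∨ Z (t 0 1) ∨ Z (t 1 0) ∨ Z (t 1 1)) : False := by
  classical
  have key := comb_aux (decide (C (t 0 0))) (decide (C (t 0 1))) (decide (C (t 1 0))) (decide (C (t 1 1)))
    (decide (D (t 0 0))) (decide (D (t 0 1))) (decide (D (t 1 0))) (decide (D (t 1 1)))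
  have a := d1 (t 0 0); have b := d1 (t 0 1); have c := d1 (t 1 0); have d := d1 (t 1 1)
  simp only [Bool.and_eq_true, Bool.or_eq_true, Bool.not_eq_true', Bool.and_eq_false_imp,
    decide_eq_true_eq, decide_eq_false_iff_not] at key
  obtain ⟨k1, k2, k3, k4⟩ := key ⟨⟨⟨⟨⟨⟨⟨⟨⟨⟨⟨h1.1, h1.2.1⟩, h1.2.2.1⟩, h1.2.2.2⟩, h2.1⟩, h2.2.1⟩,
    h2.2.2.1⟩, h2.2.2.2⟩, a⟩, b⟩, c⟩, d⟩
  rcases h with h | h | h | h
  · exact k1.elim (fun k => d2 _ k h) (fun k => d3 _ k h)
  · exact k2.elim (fun k => d2 _ k h) (fun k => d3 _ k h)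
  · exact k3.elim (fun k => d2 _ k h) (fun k => d3 _ k h)
  · exact k4.elim (fun k => d2 _ k h) (fun k => d3 _ k h)

theorem sq_cases : ∀ x : E₁₆, x * x = 1 ∨ x * x = zz := by decide

theorem four : ∀ x : E₁₆, (∀ y, y * x = x * y) → x = 1 ∨ x = zz ∨ (x = cc ∨ x = cc * zz) := by decide

theorem swap_cases (x y y' : E₁₆) (_ : ∀ w, w * x = x * w) (hy : ∀ w, w * y = y * w)
    (hy' : ∀ w, w * y' = y' * w) (h : x = cc ∨ x = cc * zz) (h1 : y ≠ 1 ∧ y ≠ zz)
    (h2 : y' ≠ 1 ∧ y' ≠ zz) (h3 : y ≠ x) (h4 : y' ≠ y) : y' = x := by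
  rcases four y hy with e | e | e
  · exact absurd e h1.1
  · exact absurd e h1.2
  rcases four y' hy' with e' | e' | e'
  · exact absurd e' h2.1
  · exact absurd e' h2.2
  rcases h with h | h <;> rcases e with e | e <;> rcases e' with e' | e' <;> subst_vars <;> first | rfl | contradiction

theorem f_mul : ∀ ρ σ x y, f ρ σ (x * y) = f ρ σ x + f ρ σ y := by decide
theorem f_one : ∀ ρ σ, f ρ σ 1 = 0 := by decide
theorem f_card : ∀ ρ σ, Fintype.card {x // f ρ σ x = 0} = 8 := by decide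
theorem conj_rep : ∀ b : E₁₆, b * b = 1 → ¬ (∀ x, x * b = b * x) → ∃ x, x * b * x⁻¹ = rep b := by decide
theorem rep00 : ∀ b, f 0 0 b = 0 → b * b = 1 → ¬ (∀ x, x * b = b * x) → rep b = t 0 0 ∨ rep b = t 0 1 := by
  decide
theorem rep01 : ∀ b, f 0 1 b = 0 → b * b = 1 → ¬ (∀ x, x * b = b * x) → rep b = t 1 0 ∨ rep b = t 1 1 := by
  decide
theorem rep10 : ∀ b, f 1 0 b = 0 → b * b = 1 → ¬ (∀ x, x * b = b * x) → rep b = t 0 0 ∨ rep b = t 1 1 := by
  decide
theorem rep11 : ∀ b, f 1 1 b = 0 → b * b = 1 → ¬ (∀ x, x * b = b * x) → rep b = t 0 1 ∨ rep b = t 1 0 := by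
  decide
theorem rep_cases : ∀ b : E₁₆, b * b = 1 → ¬ (∀ x, x * b = b * x) →
    rep b = t 0 0 ∨ rep b = t 0 1 ∨ rep b = t 1 0 ∨ rep b = t 1 1 := by decide

theorem hcC : ∀ x : E₁₆, x * cc = cc * x := by decide
theorem hcD : ∀ x : E₁₆, x * (cc * zz) = (cc * zz) * x := by decide
theorem hcZ : ∀ x : E₁₆, x * zz = zz * x := by decide
theorem sqs : cc * cc = 1 ∧ cc * zz * (cc * zz) = 1 ∧ zz * zz = 1 := by decide
theorem fne : (∀ ρ σ, f ρ σ cc ≠ 0) ∧ ∀ ρ σ, f ρ σ (cc * zz) ≠ 0 := by decide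
theorem nes : cc ≠ cc * zz ∧ cc ≠ zz ∧ cc * zz ≠ zz := by decide

set_option maxHeartbeats 1000000 in
/-- A finite group whose Sylow 2-subgroups are isomorphic to the direct product of a group of order 2 and the dihedral group of order 8 is not a non-abelian simple group. -/
theorem result {G : Type*} [Group G] [Finite G] (S : Sylow 2 G) (hS : Nonempty (↥(S : Subgroup G) ≃* Multiplicative (ZMod 2) × DihedralGroup 4))
    [IsSimpleGroup G] (hG : ¬ IsMulCommutative G) : False := by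
  classical
  haveI : Fact (Nat.Prime 2) := ⟨Nat.prime_two⟩
  obtain ⟨e⟩ := hS
  let ι : E₁₆ →* G :=
    (S : Subgroup G).subtype.comp e.symm.toMonoidHom
  have hιinj : Function.Injective ι :=
    (S : Subgroup G).subtype_injective.comp e.symm.injective
  have hιS : ∀ x, ι x ∈ (S : Subgroup G) := fun x => (e.symm x).2
  have hι : ∀ s : G, ∀ hs : s ∈ (S : Subgroup G), ι (e ⟨s, hs⟩) = s := fun s hs => by
    simp [ι]
  let R : E₁₆ → E₁₆ → Prop :=
    fun a b => ∃ g : G, g * ι a * g⁻¹ = ι b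
  have hRs : ∀ a b, R a b → R b a := fun a b ⟨g, hg⟩ => ⟨g⁻¹, by rw [← hg]; group⟩
  have hRt : ∀ a b c, R a b → R b c → R a c := fun a b c ⟨g, hg⟩ ⟨g', hg'⟩ =>
    ⟨g' * g, by rw [← hg', ← hg]; group⟩
  have hRc : ∀ a b : E₁₆, (∃ x, x * a * x⁻¹ = b) → R a b :=
    fun a b ⟨x, hx⟩ => ⟨ι x, by rw [← hx, map_mul, map_mul, map_inv]⟩
  have hord : ∀ a : E₁₆, a ≠ 1 → a * a = 1 →
      orderOf (ι a) = 2 := fun a h1 h2 => by
    refine orderOf_eq_prime ?_ fun h => h1 (hιinj (h.trans (map_one ι).symm))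
    rw [← map_pow, pow_two, h2, map_one]
  have hbot : ∀ N : Subgroup G, N.Normal → N = ⊥ ∨ N = ⊤ := fun N hN => hN.eq_bot_or_eq_top
  have heven : 2 ∣ Nat.card G := by
    have h1 := Subgroup.card_subgroup_dvd_card (S : Subgroup G)
    rw [Nat.card_congr e.toEquiv, Nat.card_prod] at h1
    exact (dvd_mul_of_dvd_left (by simp) _).trans h1
  -- Glauberman
  have hZ : ∀ a : E₁₆, a ≠ 1 → a * a = 1 →
      ∃ b, b ≠ a ∧ R a b := by
    intro a h1 h2
    by_contra hno
    push Not at hno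
    have hiso := CfsgLib.ZStar.iso_of_sylow S (hord a h1 h2) (hιS a) fun g hg => by
      by_contra hne
      refine hno (e ⟨_, hg⟩) (fun he => hne ?_) ⟨g, (hι _ hg).symm⟩
      rw [← hι _ hg, he]
    have hcore := CfsgLib.ZStar.inZStar_of_iso hiso
    have hO : Cfsg.pPrimeCore 2 G = ⊥ := by
      rcases hbot _ (CfsgLib.Core.normal_pPrimeCore 2) with h | h
      · exact h
      · have hodd : Odd (Nat.card (Cfsg.pPrimeCore 2 G)) := CfsgLib.Core.odd_card_pPrimeCore_two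
        rw [h, Subgroup.card_top] at hodd
        have := Nat.odd_iff.1 hodd
        omega
    have hcen : ι a ∈ Subgroup.center G := Subgroup.mem_center_iff.2 fun g => by
      have h3 := hcore g
      rw [hO, Subgroup.mem_bot] at h3
      exact mul_inv_eq_iff_eq_mul.1 (mul_inv_eq_one.1 h3)
    rcases hbot (Subgroup.center G) inferInstance with h | h
    · rw [h, Subgroup.mem_bot] at hcen
      exact h1 (hιinj (hcen.trans (map_one ι).symm))
    · exact hG ⟨⟨fun x y => Subgroup.mem_center_iff.1 (h ▸ Subgroup.mem_top y) x⟩⟩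
  -- Thompson transfer
  have hT : ∀ Q : Subgroup (E₁₆), Nat.card Q = 8 → ∀ a, a ∉ Q →
      a ≠ 1 → a * a = 1 → ∃ b, b ∈ Q ∧ b * b = 1 ∧ b ≠ 1 ∧ R a b := by
    intro Q hQ a haQ h1 h2
    have hindex : Q.index = 2 := by
      have h := Subgroup.card_mul_index Q
      rw [hQ, Nat.card_prod, DihedralGroup.nat_card] at h
      simp at h
      omega
    have hQi : (Q.map ι).relIndex (S : Subgroup G) = 2 := by
      have : Q.map ι = (Q.comap e.toMonoidHom).map (S : Subgroup G).subtype := by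
        rw [show ι = (S : Subgroup G).subtype.comp e.symm.toMonoidHom from rfl, ← Subgroup.map_map]
        congr 1
        exact (Subgroup.comap_equiv_eq_map_symm e Q).symm
      rw [this, Subgroup.relIndex, Subgroup.subgroupOf,
        Subgroup.comap_map_eq_self_of_injective (S : Subgroup G).subtype_injective,
        Subgroup.index_comap_of_surjective _ e.surjective, hindex]
    rcases CfsgLib.Transfer.thompson_transfer S (Q.map ι)
      (by rintro _ ⟨x, -, rfl⟩; exact hιS x) hQi (ι a) (hord a h1 h2) (hιS a)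
      (fun h => by obtain ⟨x, hx, hxa⟩ := h; exact haQ (hιinj hxa ▸ hx)) with ⟨M, hM, hMi, hMu⟩ | ⟨g, hg⟩
    · rcases hbot M hM with h | h
      · rw [h, Subgroup.index_bot] at hMi
        have h4 := Subgroup.card_subgroup_dvd_card (S : Subgroup G)
        rw [Nat.card_congr e.toEquiv, Nat.card_prod, DihedralGroup.nat_card, hMi] at h4
        simp at h4
        all_goals exact absurd (Nat.le_of_dvd (by norm_num) h4) (by norm_num)
      · exact absurd (h ▸ Subgroup.mem_top _) hMu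
    · obtain ⟨b, hb, hb'⟩ := hg
      have hb2 : orderOf (ι b) = 2 := by rw [hb', orderOf_cj]; exact hord a h1 h2
      rw [orderOf_eq_prime_iff] at hb2
      refine ⟨b, hb, hιinj ?_, fun h => hb2.2 (by rw [h, map_one]), g, hb'.symm⟩
      rw [map_mul, map_one, ← pow_two]; exact hb2.1
  -- fusion in the centre
  have hC : ∀ a b : E₁₆, (∀ x, x * a = a * x) → (∀ x, x * b = b * x) → R a b → a = b := by
    intro a b hac hbc hab
    have hcen : ∀ a : E₁₆, (∀ x, x * a = a * x) →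
        ι a ∈ Subgroup.centralizer ((S : Subgroup G) : Set G) := fun a ha => by
      intro s hs
      rw [← hι s hs, ← map_mul, ← map_mul, ha]
    obtain ⟨g, hg⟩ := hab
    obtain ⟨n, hn, hnab⟩ := Sylow.conj_eq_normalizer_conj_of_mem_centralizer S (ι a) g⁻¹
      (hcen a hac) (by rw [inv_inv, hg]; exact hcen b hbc)
    rw [inv_inv, hg] at hnab
    have hψ : ∀ x : E₁₆, (∀ y, y * x = x * y) →
        ∃ y, (∀ w, w * y = y * w) ∧ n * ι x * n⁻¹ = ι y := by
      intro x hx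
      have h1 := (Subgroup.mem_normalizer_iff.1 hn _).1 (hιS x)
      refine ⟨e ⟨_, h1⟩, fun w => hιinj ?_, (hι _ h1).symm⟩
      have h2 : n⁻¹ * ι w * n ∈ (S : Subgroup G) :=
        (Subgroup.mem_normalizer_iff''.1 hn _).1 (hιS w)
      have h3 := hcen x hx _ h2
      rw [map_mul, map_mul, hι, show ι w = n * (n⁻¹ * ι w * n) * n⁻¹ by group]
      calc n * (n⁻¹ * ι w * n) * n⁻¹ * (n * ι x * n⁻¹) = n * ((n⁻¹ * ι w * n) * ι x) * n⁻¹ := by group
        _ = n * (ι x * (n⁻¹ * ι w * n)) * n⁻¹ := by rw [h3]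
        _ = n * ι x * n⁻¹ * (n * (n⁻¹ * ι w * n) * n⁻¹) := by group
    -- conjugation by `n` fixes the squares
    have key : n * ι zz * n⁻¹ = ι zz := by
      have h1 : n * ι (1, DihedralGroup.r 1) * n⁻¹ ∈ (S : Subgroup G) :=
        (Subgroup.mem_normalizer_iff.1 hn _).1 (hιS _)
      have h2 : ι ((e ⟨_, h1⟩) * (e ⟨_, h1⟩)) = n * ι zz * n⁻¹ := by
        rw [map_mul, hι, zz_eq, map_mul]
        group
      rcases sq_cases (e ⟨_, h1⟩) with h | h
      · rw [h, map_one] at h2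
        have h3 : ι zz = 1 := conj_eq_one_iff.1 h2.symm
        exact absurd (hιinj (h3.trans (map_one ι).symm)) zz_ne
      · rw [← h2, h]
    have hinj : ∀ x x' y, n * ι x * n⁻¹ = ι y → n * ι x' * n⁻¹ = ι y → x = x' :=
      fun x x' y h h' => hιinj (mul_left_cancel (mul_right_cancel (h.trans h'.symm)))
    have h1' : n * ι 1 * n⁻¹ = ι 1 := by rw [map_one]; group
    have hsq : ∀ x : E₁₆, (∀ y, y * x = x * y) → Commute (n * n) (ι x) := by
      intro x hx
      obtain ⟨y, hy, hxy⟩ := hψ x hx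
      obtain ⟨y', hy', hyy⟩ := hψ y hy
      have hval : y' = x := by
        rcases four x hx with rfl | rfl | h
        · obtain rfl : y = 1 := hιinj (hxy.symm.trans h1')
          exact hιinj (hyy.symm.trans h1')
        · obtain rfl : y = zz := hιinj (hxy.symm.trans key)
          exact hιinj (hyy.symm.trans key)
        · have hy1 : y ≠ 1 ∧ y ≠ zz := by
            constructor
            · rintro rfl
              rcases h with h | h
              · exact zz_ne'.1 ((hinj _ _ _ hxy h1').symm.trans h)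
              · exact zz_ne'.2.1 ((hinj _ _ _ hxy h1').symm.trans h)
            · rintro rfl
              rcases h with h | h
              · exact zz_ne'.2.2.1 ((hinj _ _ _ hxy key).symm.trans h)
              · exact zz_ne'.2.2.2 ((hinj _ _ _ hxy key).symm.trans h)
          have hy2 : y' ≠ 1 ∧ y' ≠ zz :=
            ⟨fun he => hy1.1 (hinj _ _ _ hyy (he ▸ h1')), fun he => hy1.2 (hinj _ _ _ hyy (he ▸ key))⟩
          by_cases hyx : y = x
          · subst hyx; exact hιinj (hyy.symm.trans hxy)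
          · have hne : y' ≠ y := fun he => hyx (hinj _ _ _ hyy (he ▸ hxy))
            exact swap_cases x y y' hx hy hy' h hy1 hy2 hyx hne
      show n * n * ι x = ι x * (n * n)
      conv_rhs => rw [← hval]
      rw [← hyy, ← hxy]
      group
    -- an odd power of `n` lies in `S`
    set M := orderOf n with hM
    have hMpos : M ≠ 0 := (orderOf_pos n).ne'
    obtain ⟨j, hj⟩ : Odd (M / 2 ^ M.factorization 2) := Nat.not_even_iff_odd.1 fun h =>
      Nat.not_dvd_ordCompl Nat.prime_two hMpos (even_iff_two_dvd.1 h)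
    set k := M / 2 ^ M.factorization 2 with hkdef
    have hp : IsPGroup 2 (Subgroup.zpowers (n ^ k)) := by
      intro x
      obtain ⟨i, hi⟩ := x.2
      have h0 : (n ^ k) ^ (2 ^ M.factorization 2) = 1 := by
        rw [← pow_mul, hkdef, Nat.div_mul_cancel (Nat.ordProj_dvd M 2), hM, pow_orderOf_eq_one]
      refine ⟨M.factorization 2, Subtype.ext ?_⟩
      rw [SubgroupClass.coe_pow, ← hi, Subgroup.coe_one]
      show ((n ^ k) ^ i) ^ (2 ^ M.factorization 2) = 1
      rw [← zpow_natCast ((n ^ k) ^ i), ← zpow_mul, mul_comm, zpow_mul, zpow_natCast, h0, one_zpow]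
    obtain ⟨Q, hQ⟩ := (hp.to_sup_of_normal_right' S.2
      (by rw [Subgroup.zpowers_le]; exact pow_mem hn k)).exists_le_sylow
    have hnkS : n ^ k ∈ (S : Subgroup G) := by
      have h := S.is_maximal' Q.2 (le_sup_right.trans hQ)
      rw [← h]; exact hQ (Subgroup.mem_sup_left (Subgroup.mem_zpowers _))
    have hck : Commute (n ^ k) (ι a) := hcen a hac _ hnkS
    have hc2 : Commute (n ^ (2 * j)) (ι a) := by
      rw [pow_mul, pow_two]; exact (hsq a hac).pow_left j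
    have hc1 : Commute n (ι a) := by
      have h := hck.mul_left hc2.inv_left
      rwa [hj, show n ^ (2 * j + 1) * (n ^ (2 * j))⁻¹ = n by rw [pow_succ']; group] at h
    refine hιinj ?_
    have h : n⁻¹ * ι a * n = ι a := by rw [mul_assoc, hc1.symm.eq, inv_mul_cancel_left]
    exact h.symm.trans hnab.symm
  let Q : ZMod 2 → ZMod 2 → Subgroup E₁₆ := fun ρ σ =>
    { carrier := {x | f ρ σ x = 0}
      one_mem' := f_one ρ σ
      mul_mem' := fun {x y} hx hy => by
        show f ρ σ (x * y) = 0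
        rw [f_mul, show f ρ σ x = 0 from hx, show f ρ σ y = 0 from hy, add_zero]
      inv_mem' := fun {x} hx => by
        show f ρ σ x⁻¹ = 0
        have h := f_mul ρ σ x x⁻¹
        rw [mul_inv_cancel, f_one, show f ρ σ x = 0 from hx, zero_add] at h
        exact h.symm }
  have hQc : ∀ ρ σ, Nat.card (Q ρ σ) = 8 := fun ρ σ => by
    rw [show Nat.card (Q ρ σ) = Nat.card {x // f ρ σ x = 0} from rfl, Nat.card_eq_fintype_card]
    exact f_card ρ σ
  have hcl : ∀ b : E₁₆, b * b = 1 → ¬ (∀ x, x * b = b * x) → R b (rep b) :=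
    fun b h h' => hRc _ _ (conj_rep b h h')
  have hmeet : ∀ a : E₁₆, (∀ x, x * a = a * x) → a * a = 1 → a ≠ 1 → ∀ ρ σ, f ρ σ a ≠ 0 →
      ∃ b : E₁₆, f ρ σ b = 0 ∧ b * b = 1 ∧ (¬ ∀ x, x * b = b * x) ∧ R a (rep b) := by
    intro a hac h2 h1 ρ σ hf
    obtain ⟨b, hbQ, hb2, hb1, hab⟩ := hT (Q ρ σ) (hQc ρ σ) a hf h1 h2
    by_cases hb : ∀ x, x * b = b * x
    · exact absurd (show f ρ σ a = 0 by rw [hC a b hac hb hab]; exact hbQ) hf
    · exact ⟨b, hbQ, hb2, hb, hRt _ _ _ hab (hcl b hb2 hb)⟩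
  have hpair : ∀ a : E₁₆, (∀ x, x * a = a * x) → a * a = 1 → (∀ ρ σ, f ρ σ a ≠ 0) →
      (R a (t 0 0) ∨ R a (t 0 1)) ∧ (R a (t 1 0) ∨ R a (t 1 1)) ∧
      (R a (t 0 0) ∨ R a (t 1 1)) ∧ (R a (t 0 1) ∨ R a (t 1 0)) := by
    intro a hac h2 hf
    have h1 : a ≠ 1 := fun h => hf 0 0 (h ▸ f_one 0 0)
    refine ⟨?_, ?_, ?_, ?_⟩
    · obtain ⟨b, hb, hb2, hb', hab⟩ := hmeet a hac h2 h1 0 0 (hf 0 0)
      rcases rep00 b hb hb2 hb' with h | h
      · exact Or.inl (h ▸ hab)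
      · exact Or.inr (h ▸ hab)
    · obtain ⟨b, hb, hb2, hb', hab⟩ := hmeet a hac h2 h1 0 1 (hf 0 1)
      rcases rep01 b hb hb2 hb' with h | h
      · exact Or.inl (h ▸ hab)
      · exact Or.inr (h ▸ hab)
    · obtain ⟨b, hb, hb2, hb', hab⟩ := hmeet a hac h2 h1 1 0 (hf 1 0)
      rcases rep10 b hb hb2 hb' with h | h
      · exact Or.inl (h ▸ hab)
      · exact Or.inr (h ▸ hab)
    · obtain ⟨b, hb, hb2, hb', hab⟩ := hmeet a hac h2 h1 1 1 (hf 1 1)
      rcases rep11 b hb hb2 hb' with h | h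
      · exact Or.inl (h ▸ hab)
      · exact Or.inr (h ▸ hab)
  have h1 := hpair cc hcC sqs.1 fne.1
  have h2 := hpair (cc * zz) hcD sqs.2.1 fne.2
  have hdis : ∀ a b u : E₁₆, (∀ x, x * a = a * x) → (∀ x, x * b = b * x) → a ≠ b →
      R a u → R b u → False := fun a b u ha hb hne h h' => hne (hC a b ha hb (hRt _ _ _ h (hRs _ _ h')))
  obtain ⟨b, hbne, hzb⟩ := hZ zz zz_ne sqs.2.2
  have hb2 : b * b = 1 := by
    obtain ⟨g, hg⟩ := hzb
    apply hιinj
    rw [map_mul, map_one, ← hg, show g * ι zz * g⁻¹ * (g * ι zz * g⁻¹) = g * (ι zz * ι zz) * g⁻¹ by group,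
      ← map_mul, sqs.2.2, map_one]
    group
  by_cases hb : ∀ x, x * b = b * x
  · exact hbne (hC zz b hcZ hb hzb).symm
  have hzu := hRt _ _ _ hzb (hcl b hb2 hb)
  have d1 := fun u => hdis cc (cc * zz) u hcC hcD nes.1
  have d2 := fun u => hdis cc zz u hcC hcZ nes.2.1
  have d3 := fun u => hdis (cc * zz) zz u hcD hcZ nes.2.2
  refine comb (R cc) (R (cc * zz)) (R zz) h1 h2 d1 d2 d3 ?_
  rcases rep_cases b hb2 hb with h | h | h | h
  · exact Or.inl (h ▸ hzu)
  · exact Or.inr (Or.inl (h ▸ hzu))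
  · exact Or.inr (Or.inr (Or.inl (h ▸ hzu)))
  · exact Or.inr (Or.inr (Or.inr (h ▸ hzu)))

end Cfsg.Agent.S3309
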