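import Cfsg.Statements.S3349
import Cfsg.Agent.Lib.PermSmallFacts

set_option autoImplicit false
open Cfsg

namespace Cfsg.Agent.S3349

/-- Let Q be a finite extraspecial p-group and α an automorphism of Q fixing every element of some maximal abelian subgroup of Q. Then the order of α is a power of p. -/
theorem result {Q : Type*} [Group Q] [Finite Q]
    (p : ℕ) [Fact p.Prime] (hQ : Cfsg.IsExtraspecial p Q) (α : MulAut Q)
    (A : Subgroup Q) (hA : IsMulCommutative A) (hmax : ∀ B : Subgroup Q, A ≤ B → IsMulCommutative B → B = A)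
    (hfix : ∀ a ∈ A, α a = a) :
    ∃ k : ℕ, orderOf α = p ^ k := by
  haveI := Fact.out (p := p.Prime)
  -- the centralizer of `A` is `A`
  have hself : ∀ x : Q, (∀ a ∈ A, a * x = x * a) → x ∈ A := by
    intro x hx
    have hcomm : IsMulCommutative ↥(Subgroup.closure ((A : Set Q) ∪ {x})) := by
      refine Subgroup.isMulCommutative_closure ?_
      rintro u (hu | hu) v (hv | hv)
      · exact congrArg Subtype.val (hA.is_comm.comm ⟨u, hu⟩ ⟨v, hv⟩)
      · rw [Set.mem_singleton_iff.1 hv]; exact hx u hu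
      · rw [Set.mem_singleton_iff.1 hu]; exact (hx v hv).symm
      · rw [Set.mem_singleton_iff.1 hu, Set.mem_singleton_iff.1 hv]
    have hle : A ≤ Subgroup.closure ((A : Set Q) ∪ {x}) := fun a ha => Subgroup.subset_closure (Or.inl ha)
    rw [← hmax _ hle hcomm]
    exact Subgroup.subset_closure (Or.inr rfl)
  -- `A` is normal
  have hnorm : ∀ (q : Q) (a : Q), a ∈ A → q * a * q⁻¹ ∈ A := by
    intro q a ha
    have hc : q * a * q⁻¹ * a⁻¹ ∈ Subgroup.center Q := by
      have h1 := hQ.1.2.2
      have h2 : q * a * q⁻¹ * a⁻¹ ∈ commutator Q := by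
        rw [commutator_def, ← commutatorElement_def]
        exact Subgroup.commutator_mem_commutator (Subgroup.mem_top q) (Subgroup.mem_top a)
      rwa [h1] at h2
    have h3 : q * a * q⁻¹ * a⁻¹ ∈ A := hself _ fun b _ => (Subgroup.mem_center_iff.1 hc b)
    have := mul_mem h3 ha
    rwa [inv_mul_cancel_right] at this
  have hdisp : ∀ q : Q, α q * q⁻¹ ∈ A := by
    intro q
    refine hself _ fun a ha => ?_
    have hb : q⁻¹ * a * q ∈ A := by simpa using hnorm q⁻¹ a ha
    have h1 : α (q⁻¹ * a * q) = q⁻¹ * a * q := hfix _ hb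
    rw [map_mul, map_mul, map_inv, hfix a ha] at h1
    calc a * (α q * q⁻¹) = α q * ((α q)⁻¹ * a * α q) * q⁻¹ := by group
      _ = α q * (q⁻¹ * a * q) * q⁻¹ := by rw [h1]
      _ = _ := by group
  have hiter : ∀ (k : ℕ) (q : Q), (α ^ k) q = (α q * q⁻¹) ^ k * q := by
    intro k
    induction k with
    | zero => intro q; simp
    | succ k ih =>
      intro q
      rw [pow_succ', MulAut.mul_apply, ih, map_mul, map_pow, hfix _ (hdisp q), pow_succ, mul_assoc,
        mul_assoc, inv_mul_cancel, mul_one]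
  have hpQ : IsPGroup p Q := hQ.1.1
  obtain ⟨j, hj⟩ := IsPGroup.iff_card.1 hpQ
  haveI : Finite (MulAut Q) := Finite.of_injective (fun e : MulAut Q => (e : Q → Q)) DFunLike.coe_injective
  have hα : α ^ p ^ j = 1 := by
    refine MulEquiv.ext fun q => ?_
    rw [hiter, ← hj, pow_card_eq_one', one_mul]
    rfl
  exact (Nat.dvd_prime_pow Fact.out).1 (orderOf_dvd_of_pow_eq_one hα) |>.imp fun k hk => hk.2

end Cfsg.Agent.S3349
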