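import Cfsg.Statements.S3376


set_option autoImplicit false
open Cfsg

namespace Cfsg.Agent.S3376

section Aux

/-- The permutation of the coordinates induced by an element of the dihedral group of order six. -/
def coordPerm : DihedralGroup 3 → Equiv.Perm (ZMod 3)
  | .r i => Equiv.addLeft i
  | .sr i => (Equiv.addLeft i).trans (Equiv.neg _)

theorem coordPerm_mul (g h : DihedralGroup 3) : coordPerm (g * h) = coordPerm g * coordPerm h := by
  ext k
  rcases g with i | i <;> rcases h with j | j <;>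
    simp [coordPerm, DihedralGroup.r_mul_r, DihedralGroup.r_mul_sr, DihedralGroup.sr_mul_r, DihedralGroup.sr_mul_sr] <;> ring

def coordHom : DihedralGroup 3 →* MulAut (ZMod 3 → Multiplicative (ZMod 3)) :=
  MonoidHom.mk' (fun h =>
    { toFun := fun a j => a ((coordPerm h).symm j)
      invFun := fun a j => a (coordPerm h j)
      left_inv := fun a => funext fun j => by simp
      right_inv := fun a => funext fun j => by simp
      map_mul' := fun a b => rfl }) fun g h => by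
    refine MulEquiv.ext fun a => funext fun j => ?_
    show a ((coordPerm (g * h)).symm j) = a ((coordPerm h).symm ((coordPerm g).symm j))
    rw [coordPerm_mul]; rfl

abbrev Model := (ZMod 3 → Multiplicative (ZMod 3)) ⋊[coordHom] DihedralGroup 3

theorem card_model : Nat.card Model = 162 := by
  rw [SemidirectProduct.card, Nat.card_fun, DihedralGroup.nat_card, Nat.card_congr Multiplicative.toAdd, Nat.card_zmod]
  norm_num

variable {G : Type*} [Group G]

theorem inv_inv_of_cube {a : G} (h : a ^ 3 = 1) : a⁻¹ * a⁻¹ = a := by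
  calc a⁻¹ * a⁻¹ = a * (a ^ 3)⁻¹ := by group
    _ = a := by rw [h, inv_one, mul_one]

/-- `i ↦ y ^ i` for `y ^ 3 = 1`. -/
def powHom (y : G) (hy : y ^ 3 = 1) : Multiplicative (ZMod 3) →* G :=
  AddMonoidHom.toMultiplicativeLeft (ZMod.lift 3 ⟨zmultiplesHom (Additive G) (Additive.ofMul y), by
    show ((3 : ℕ) : ℤ) • Additive.ofMul y = 0
    rw [natCast_zsmul, ← ofMul_pow, hy]; rfl⟩)

theorem powHom_one (y : G) (hy : y ^ 3 = 1) : powHom y hy (Multiplicative.ofAdd 1) = y := by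
  show Additive.toMul (ZMod.lift 3 _ ((1 : ℤ) : ZMod 3)) = y
  rw [ZMod.lift_coe]
  simp

theorem exists_hom (v y t : G) (hv : v ^ 3 = 1) (hy : y ^ 3 = 1) (ht : t ^ 2 = 1) (hty : t * y * t⁻¹ = y⁻¹)
    (hcomm : Commute v (y * v * y⁻¹)) (htv : t * v * t⁻¹ = v) :
    ∃ f : Model →* G, v ∈ f.range ∧ y ∈ f.range ∧ t ∈ f.range := by
  let E : ZMod 3 → G := fun i => powHom y hy (Multiplicative.ofAdd i)
  have hE : ∀ i j, E (i + j) = E i * E j := fun i j => map_mul (powHom y hy) (Multiplicative.ofAdd i) (Multiplicative.ofAdd j)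
  have hE0 : E 0 = 1 := map_one _
  have hE1 : E 1 = y := powHom_one y hy
  have hEn : ∀ i, E (-i) = (E i)⁻¹ := fun i => map_inv (powHom y hy) (Multiplicative.ofAdd i)
  have htE : ∀ i, t * E i * t⁻¹ = E (-i) := by
    intro i
    obtain ⟨k, rfl⟩ := ZMod.natCast_zmod_surjective i
    have hk : ∀ k : ℕ, E (k : ZMod 3) = y ^ k := by
      intro k
      induction k with
      | zero => simpa using hE0
      | succ k ih => rw [Nat.cast_succ, hE, ih, hE1, pow_succ]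
    rw [hEn, hk, ← conj_pow, hty, inv_pow]
  have ht' : t⁻¹ = t := inv_eq_of_mul_eq_one_right (by rw [← pow_two, ht])
  let w : ZMod 3 → G := fun k => E k * v * (E k)⁻¹
  have hw3 : ∀ k, w k ^ 3 = 1 := fun k => by simp [w, conj_pow, hv]
  have hconjw : ∀ i k, E i * w k * (E i)⁻¹ = w (i + k) := fun i k => by
    simp only [w, hE]; group
  have hwc : ∀ i j, Commute (w i) (w j) := by
    have h01 : Commute (w 0) (w 1) := by simpa [w, hE0, hE1] using hcomm
    have hstep : ∀ i, Commute (w i) (w (i + 1)) := fun i => by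
      have h' := h01.map (MulAut.conj (E i))
      simp only [MulAut.conj_apply, hconjw, add_zero] at h'
      exact h'
    intro i j
    have hc : j = i ∨ j = i + 1 ∨ i = j + 1 := by revert i j; decide
    rcases hc with h | h | h
    · rw [h]
    · rw [h]; exact hstep i
    · rw [h]; exact (hstep j).symm
  let fA : (ZMod 3 → Multiplicative (ZMod 3)) →* G :=
    MonoidHom.noncommPiCoprod (fun k => powHom (w k) (hw3 k)) (fun i j _ a b => by
      obtain ⟨a, rfl⟩ := Multiplicative.ofAdd.surjective a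
      obtain ⟨b, rfl⟩ := Multiplicative.ofAdd.surjective b
      obtain ⟨m, rfl⟩ := ZMod.intCast_surjective a
      obtain ⟨l, rfl⟩ := ZMod.intCast_surjective b
      show Commute (Additive.toMul (ZMod.lift 3 _ (m : ZMod 3))) (Additive.toMul (ZMod.lift 3 _ (l : ZMod 3)))
      rw [ZMod.lift_coe, ZMod.lift_coe]
      exact ((hwc i j).zpow_left m).zpow_right l)
  have hfA : ∀ k a, fA (Pi.mulSingle k a) = powHom (w k) (hw3 k) a := fun k a =>
    MonoidHom.noncommPiCoprod_mulSingle (fun k => powHom (w k) (hw3 k)) k a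
  let ρf : DihedralGroup 3 → G := fun h => match h with
    | .r i => E i
    | .sr i => t * E i
  let ρ : DihedralGroup 3 →* G := MonoidHom.mk' ρf (fun g h => by
    have hsw : ∀ i, E i * t = t * E (-i) := fun i => by rw [← htE i, ht']; simp [mul_assoc, ← pow_two, ht]; rw [← mul_assoc, ← pow_two, ht, one_mul]
    rcases g with i | i <;> rcases h with j | j
    · simp only [ρf, DihedralGroup.r_mul_r, hE]
    · simp only [ρf, DihedralGroup.r_mul_sr]
      rw [← mul_assoc, hsw, mul_assoc, ← hE, neg_add_eq_sub]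
    · simp only [ρf, DihedralGroup.sr_mul_r, hE, mul_assoc]
    · simp only [ρf, DihedralGroup.sr_mul_sr]
      rw [← mul_assoc, mul_assoc t (E i) t, hsw, ← mul_assoc, ← pow_two, ht, one_mul, ← hE, neg_add_eq_sub])
  have hρw : ∀ h k, ρ h * w k * (ρ h)⁻¹ = w (coordPerm h k) := by
    intro h k
    rcases h with i | i
    · exact hconjw i k
    · show t * E i * w k * (t * E i)⁻¹ = w (-(i + k))
      calc t * E i * w k * (t * E i)⁻¹ = (t * E (i + k) * t⁻¹) * (t * v * t⁻¹) * (t * E (i + k) * t⁻¹)⁻¹ := by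
            simp only [w, hE]; group
        _ = _ := by rw [htE, htv]
  have hcompat : ∀ h, fA.comp (coordHom h).toMonoidHom = (MulAut.conj (ρ h)).toMonoidHom.comp fA := by
    intro h
    apply MonoidHom.pi_ext
    intro k a
    show fA (fun j => (Pi.mulSingle k a : ZMod 3 → Multiplicative (ZMod 3)) ((coordPerm h).symm j)) = ρ h * fA (Pi.mulSingle k a) * (ρ h)⁻¹
    have e : (fun j => (Pi.mulSingle k a : ZMod 3 → Multiplicative (ZMod 3)) ((coordPerm h).symm j)) = Pi.mulSingle (coordPerm h k) a := by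
      funext j
      by_cases hj : j = coordPerm h k
      · subst hj; simp
      · rw [Pi.mulSingle_eq_of_ne hj, Pi.mulSingle_eq_of_ne (fun e => hj (by rw [← e, Equiv.apply_symm_apply]))]
    rw [e, hfA, hfA]
    obtain ⟨a, rfl⟩ := Multiplicative.ofAdd.surjective a
    obtain ⟨m, rfl⟩ := ZMod.intCast_surjective a
    show Additive.toMul (ZMod.lift 3 _ (m : ZMod 3)) = ρ h * Additive.toMul (ZMod.lift 3 _ (m : ZMod 3)) * (ρ h)⁻¹
    rw [ZMod.lift_coe, ZMod.lift_coe]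
    show (w (coordPerm h k)) ^ m = ρ h * (w k) ^ m * (ρ h)⁻¹
    rw [← hρw, conj_zpow]
  refine ⟨SemidirectProduct.lift fA ρ hcompat, ?_, ?_, ?_⟩
  · refine ⟨SemidirectProduct.inl (Pi.mulSingle 0 (Multiplicative.ofAdd 1)), ?_⟩
    rw [SemidirectProduct.lift_inl, hfA, powHom_one]
    simp [w, hE0]
  · exact ⟨SemidirectProduct.inr (.r 1), by rw [SemidirectProduct.lift_inr]; exact hE1⟩
  · exact ⟨SemidirectProduct.inr (.sr 0), by rw [SemidirectProduct.lift_inr]; show t * E 0 = t; rw [hE0, mul_one]⟩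

theorem card_centralizer_le :
    Nat.card (Subgroup.centralizer ({Equiv.swap (0 : Fin 9) 1 * Equiv.swap 1 2 * Equiv.swap 3 4 * Equiv.swap 4 5 * Equiv.swap 6 7 * Equiv.swap 7 8} : Set (Equiv.Perm (Fin 9)))) ≤ 162 := by
  set c : Equiv.Perm (Fin 9) := Equiv.swap (0 : Fin 9) 1 * Equiv.swap 1 2 * Equiv.swap 3 4 * Equiv.swap 4 5 * Equiv.swap 6 7 * Equiv.swap 7 8 with hc
  let T := (Finset.univ : Finset (Fin 9 × Fin 9 × Fin 9)).filter fun x =>
    (x.1 : ℕ) / 3 ≠ (x.2.1 : ℕ) / 3 ∧ (x.1 : ℕ) / 3 ≠ (x.2.2 : ℕ) / 3 ∧ (x.2.1 : ℕ) / 3 ≠ (x.2.2 : ℕ) / 3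
  have hT : T.card = 162 := by decide +kernel
  have hblock : ∀ a b : Fin 9, (a : ℕ) / 3 = (b : ℕ) / 3 → ∃ i : Fin 3, (c ^ (i : ℕ)) a = b := by
    rw [hc]; decide +kernel
  have hsep : ∀ i : Fin 3, (c ^ (i : ℕ)) 0 ≠ 3 ∧ (c ^ (i : ℕ)) 0 ≠ 6 ∧ (c ^ (i : ℕ)) 3 ≠ 6 := by
    rw [hc]; decide +kernel
  have hcov : ∀ a : Fin 9, ∃ i : Fin 3, (c ^ (i : ℕ)) 0 = a ∨ (c ^ (i : ℕ)) 3 = a ∨ (c ^ (i : ℕ)) 6 = a := by
    rw [hc]; decide +kernel
  rw [← hT, ← Nat.card_eq_finsetCard]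
  have hg : ∀ g ∈ Subgroup.centralizer ({c} : Set (Equiv.Perm (Fin 9))), ∀ (i : ℕ) a, g ((c ^ i) a) = (c ^ i) (g a) := by
    intro g hg i a
    have h : Commute g (c ^ i) := Commute.pow_right (Subgroup.mem_centralizer_singleton_iff.1 hg) i
    exact congrArg (fun σ : Equiv.Perm (Fin 9) => σ a) h.eq
  refine Nat.card_le_card_of_injective (fun g => ⟨(g.1 0, g.1 3, g.1 6), ?_⟩) ?_
  · refine Finset.mem_filter.2 ⟨Finset.mem_univ _, fun h => ?_, fun h => ?_, fun h => ?_⟩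
    all_goals
      obtain ⟨i, hi⟩ := hblock _ _ h
      rw [← hg _ g.2] at hi
      have := g.1.injective hi
      first
        | exact (hsep i).1 this
        | exact (hsep i).2.1 this
        | exact (hsep i).2.2 this
  · intro g g' h
    simp only [Subtype.mk.injEq, Prod.mk.injEq] at h
    refine Subtype.ext (Equiv.ext fun a => ?_)
    obtain ⟨i, hi | hi | hi⟩ := hcov a <;> rw [← hi, hg _ g.2, hg _ g'.2]
    · rw [h.1]
    · rw [h.2.1]
    · rw [h.2.2]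

variable {J Z : Subgroup G}

/-- `j ↦ u j u⁻¹ j⁻¹` on an abelian normal subgroup. -/
def adHom [J.Normal] (hcm : ∀ a ∈ J, ∀ b ∈ J, a * b = b * a) (u : G) : J →* J :=
  MonoidHom.mk' (fun j => ⟨u * j * u⁻¹ * (j : G)⁻¹, mul_mem (Subgroup.Normal.conj_mem inferInstance _ j.2 u) (inv_mem j.2)⟩)
    (fun a b => Subtype.ext (by
      have h := hcm _ (Subgroup.Normal.conj_mem inferInstance _ b.2 u) _ (inv_mem a.2)
      show u * (a * b : G) * u⁻¹ * ((a : G) * b)⁻¹ = (u * a * u⁻¹ * (a : G)⁻¹) * (u * b * u⁻¹ * (b : G)⁻¹)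
      calc u * (a * b : G) * u⁻¹ * ((a : G) * b)⁻¹ = u * a * u⁻¹ * ((u * b * u⁻¹) * (b : G)⁻¹ * (a : G)⁻¹) := by group
        _ = u * a * u⁻¹ * ((a : G)⁻¹ * ((u * b * u⁻¹) * (b : G)⁻¹)) := by
            rw [hcm _ (mul_mem (Subgroup.Normal.conj_mem inferInstance _ b.2 u) (inv_mem b.2)) _ (inv_mem a.2)]
        _ = _ := by group))

theorem ad_twice [J.Normal] (hcm : ∀ a ∈ J, ∀ b ∈ J, a * b = b * a) (hJexp : ∀ a ∈ J, a ^ 3 = 1) (u : G) {j : G} (hj : j ∈ J) :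
    u * (u * j * u⁻¹ * j⁻¹) * u⁻¹ * (u * j * u⁻¹ * j⁻¹)⁻¹ = (u * u * j * (u * u)⁻¹) * (u * j * u⁻¹) * j := by
  have h1 : u * j * u⁻¹ ∈ J := Subgroup.Normal.conj_mem inferInstance _ hj u
  have h2 : u * u * j * (u * u)⁻¹ ∈ J := Subgroup.Normal.conj_mem inferInstance _ hj (u * u)
  have c1 : Commute j (u * j * u⁻¹) := hcm _ hj _ h1
  have e3 : (u * j * u⁻¹)⁻¹ * (u * j * u⁻¹)⁻¹ = u * j * u⁻¹ := inv_inv_of_cube (hJexp _ h1)
  calc u * (u * j * u⁻¹ * j⁻¹) * u⁻¹ * (u * j * u⁻¹ * j⁻¹)⁻¹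
      = (u * u * j * (u * u)⁻¹) * ((u * j * u⁻¹)⁻¹ * (j * (u * j * u⁻¹)⁻¹)) := by group
    _ = (u * u * j * (u * u)⁻¹) * (((u * j * u⁻¹)⁻¹ * (u * j * u⁻¹)⁻¹) * j) := by rw [c1.inv_right.eq]; group
    _ = _ := by rw [e3]; group

theorem fixed_all {S : Subgroup G} [J.Normal] (hcm : ∀ a ∈ J, ∀ b ∈ J, a * b = b * a) (hJexp : ∀ a ∈ J, a ^ 3 = 1)
    (_hJS : J ≤ S) {u t : G} (hu : u ∈ S) (huJ : u ∉ J)
    (hfixJ : ∀ u ∈ S, u ∉ J → ∀ j ∈ J, u * j = j * u → j ∈ Z)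
    (htZ : ∀ z ∈ Z, t * z * t⁻¹ = z) (hy : t * u * t⁻¹ * u⁻¹ ∈ J) (ht2 : t ^ 2 = 1)
    (hpJ : ∀ u ∈ S, u ^ 3 ∈ J) (_hZ : Z = S ⊓ Subgroup.centralizer (S : Set G)) :
    ∀ j ∈ J, t * j * t⁻¹ = j := by
  let D := adHom hcm u
  let E := adHom hcm t
  have hker : ∀ x : J, D x = 1 → E x = 1 := by
    intro x hx
    have e : u * x * u⁻¹ * (x : G)⁻¹ = 1 := congrArg Subtype.val hx
    have hz := hfixJ u hu huJ x x.2 (mul_inv_eq_iff_eq_mul.1 (mul_inv_eq_one.1 e))
    exact Subtype.ext (show t * x * t⁻¹ * (x : G)⁻¹ = 1 by rw [htZ _ hz, mul_inv_cancel])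
  have hD3 : ∀ x : J, D (D (D x)) = 1 := by
    intro x
    apply Subtype.ext
    show u * (D (D x) : G) * u⁻¹ * ((D (D x) : J) : G)⁻¹ = 1
    have e : ((D (D x) : J) : G) = (u * u * x * (u * u)⁻¹) * (u * x * u⁻¹) * x := ad_twice hcm hJexp u x.2
    have hu3 : u * u * u * x * (u * u * u)⁻¹ = x :=
      mul_inv_eq_iff_eq_mul.2 (by
        have := hcm _ (hpJ u hu) _ x.2
        rwa [show u ^ 3 = u * u * u by rw [pow_succ, pow_two]] at this)
    rw [e, mul_inv_eq_one]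
    have h1 : u * x * u⁻¹ ∈ J := Subgroup.Normal.conj_mem inferInstance _ x.2 u
    have h2 : u * u * x * (u * u)⁻¹ ∈ J := Subgroup.Normal.conj_mem inferInstance _ x.2 (u * u)
    calc u * ((u * u * x * (u * u)⁻¹) * (u * x * u⁻¹) * x) * u⁻¹
        = (u * u * u * x * (u * u * u)⁻¹) * ((u * u * x * (u * u)⁻¹) * (u * x * u⁻¹)) := by group
      _ = (x : G) * ((u * u * x * (u * u)⁻¹) * (u * x * u⁻¹)) := by rw [hu3]
      _ = _ := hcm _ x.2 _ (mul_mem h2 h1)
  have hDE : ∀ x : J, E (D x) = D (E x) := by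
    intro x
    apply Subtype.ext
    show t * (u * x * u⁻¹ * (x : G)⁻¹) * t⁻¹ * (u * x * u⁻¹ * (x : G)⁻¹)⁻¹ = u * (t * x * t⁻¹ * (x : G)⁻¹) * u⁻¹ * (t * x * t⁻¹ * (x : G)⁻¹)⁻¹
    have htx : t * x * t⁻¹ ∈ J := Subgroup.Normal.conj_mem inferInstance _ x.2 t
    have e1 : t * (u * x * u⁻¹) * t⁻¹ = u * (t * x * t⁻¹) * u⁻¹ := by
      calc t * (u * x * u⁻¹) * t⁻¹ = (t * u * t⁻¹ * u⁻¹) * (u * (t * x * t⁻¹) * u⁻¹) * (t * u * t⁻¹ * u⁻¹)⁻¹ := by group
        _ = _ := by rw [hcm _ hy _ (Subgroup.Normal.conj_mem inferInstance _ htx u), mul_inv_cancel_right]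
    have hux : u * x * u⁻¹ ∈ J := Subgroup.Normal.conj_mem inferInstance _ x.2 u
    have hutx : u * (t * x * t⁻¹) * u⁻¹ ∈ J := Subgroup.Normal.conj_mem inferInstance _ htx u
    calc t * (u * x * u⁻¹ * (x : G)⁻¹) * t⁻¹ * (u * x * u⁻¹ * (x : G)⁻¹)⁻¹
        = (t * (u * x * u⁻¹) * t⁻¹) * (((t * x * t⁻¹)⁻¹ * x) * (u * x * u⁻¹)⁻¹) := by group
      _ = (u * (t * x * t⁻¹) * u⁻¹) * ((u * x * u⁻¹)⁻¹ * ((t * x * t⁻¹)⁻¹ * x)) := by
          rw [e1, hcm _ (mul_mem (inv_mem htx) x.2) _ (inv_mem hux)]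
      _ = u * (t * x * t⁻¹ * (x : G)⁻¹) * u⁻¹ * ((t * x * t⁻¹)⁻¹ * x) := by group
      _ = _ := by
          rw [hcm _ (inv_mem htx) _ x.2]; group
  have hEE : ∀ x : J, E (E x) = E x := by
    intro x
    apply Subtype.ext
    show t * (t * x * t⁻¹ * (x : G)⁻¹) * t⁻¹ * (t * x * t⁻¹ * (x : G)⁻¹)⁻¹ = t * x * t⁻¹ * (x : G)⁻¹
    have htt : t * t = 1 := by rw [← pow_two, ht2]
    have hm := (E x).2
    have he : t * (t * x * t⁻¹ * (x : G)⁻¹) * t⁻¹ = (t * x * t⁻¹ * (x : G)⁻¹)⁻¹ := by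
      calc t * (t * x * t⁻¹ * (x : G)⁻¹) * t⁻¹ = (t * t) * x * t⁻¹ * (x : G)⁻¹ * t⁻¹ := by group
        _ = x * t⁻¹ * (x : G)⁻¹ * t⁻¹ := by rw [htt, one_mul]
        _ = _ := by rw [inv_eq_of_mul_eq_one_right htt]; simp [mul_assoc, inv_eq_of_mul_eq_one_right htt]
    rw [he]
    exact inv_inv_of_cube (hJexp _ hm)
  have key : ∀ x : J, E x = 1 := by
    intro x
    have h1 : D (D (E x)) = 1 := by rw [← hDE, ← hDE]; exact hker _ (hD3 x)
    have h2 : E (D x) = 1 := by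
      rw [← hEE, hDE]; exact hker _ h1
    have h3 : D (E x) = 1 := by rw [← hDE]; exact h2
    rw [← hEE]; exact hker _ h3
  intro j hj
  exact mul_inv_eq_one.1 (congrArg Subtype.val (key ⟨j, hj⟩))

theorem fixed_top [Finite G] {S : Subgroup G} (hcm : ∀ a ∈ J, ∀ b ∈ J, a * b = b * a) (hJexp : ∀ a ∈ J, a ^ 3 = 1)
    (hfixJ : ∀ u ∈ S, u ∉ J → ∀ j ∈ J, u * j = j * u → j ∈ Z) {y t : G} (hy : y ∈ S) (hyJ : y ∉ J)
    (hty : t * y * t⁻¹ = y⁻¹) (ht2 : t ^ 2 = 1) (hJn : J.Normal) (hJcard : Nat.card J = 27) (hZcard : Nat.card Z = 3)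
    (hy3 : y ^ 3 = 1) (htZ : ∀ z ∈ Z, t * z * t⁻¹ = z) :
    ∃ v ∈ J, t * v * t⁻¹ = v ∧ y * (y * v * y⁻¹ * v⁻¹) * y⁻¹ * (y * v * y⁻¹ * v⁻¹)⁻¹ ≠ 1 := by
  let D := adHom hcm y
  have hkerZ : ∀ x : J, D x = 1 → (x : G) ∈ Z := fun x hx =>
    hfixJ y hy hyJ x x.2 (mul_inv_eq_iff_eq_mul.1 (mul_inv_eq_one.1 (congrArg Subtype.val hx)))
  obtain ⟨j, hj⟩ : ∃ j : J, D (D j) ≠ 1 := by
    by_contra h
    push_neg at h
    have h1 : Nat.card D.ker ≤ 3 := hZcard ▸ Nat.card_le_card_of_injective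
      (fun x : D.ker => (⟨((x : J) : G), hkerZ _ x.2⟩ : Z)) (fun a b e => Subtype.ext (Subtype.ext (Subtype.mk.injEq _ _ _ _ ▸ e :)))
    have h2 : Nat.card D.range ≤ 3 := hZcard ▸ Nat.card_le_card_of_injective
      (fun x : D.range => (⟨((x : J) : G), hkerZ _ (by obtain ⟨a, ha⟩ := x.2; rw [← ha]; exact h a)⟩ : Z))
      (fun a b e => Subtype.ext (Subtype.ext (Subtype.mk.injEq _ _ _ _ ▸ e :)))
    have h3 := Subgroup.card_mul_index D.ker
    rw [Subgroup.index_ker, hJcard] at h3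
    nlinarith
  have hjt : t * j * t⁻¹ ∈ J := hJn.conj_mem _ j.2 t
  have htt : t * t = 1 := by rw [← pow_two, ht2]
  refine ⟨j * (t * j * t⁻¹), mul_mem j.2 hjt, ?_, ?_⟩
  · calc t * (j * (t * j * t⁻¹)) * t⁻¹ = (t * j * t⁻¹) * ((t * t) * j * (t * t)⁻¹) := by group
      _ = _ := by rw [htt, one_mul, inv_one, mul_one, hcm _ hjt _ j.2]
  · intro h
    apply hj
    have h' : D (D (j * ⟨t * j * t⁻¹, hjt⟩)) = 1 := Subtype.ext h
    rw [map_mul, map_mul] at h'
    have e : D (D ⟨t * j * t⁻¹, hjt⟩) = D (D j) := by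
      apply Subtype.ext
      have e1 : ((D (D ⟨t * j * t⁻¹, hjt⟩) : J) : G) = (y * y * (t * j * t⁻¹) * (y * y)⁻¹) * (y * (t * j * t⁻¹) * y⁻¹) * (t * j * t⁻¹) :=
        ad_twice hcm hJexp y hjt
      have e2 : ((D (D j) : J) : G) = (y * y * j * (y * y)⁻¹) * (y * j * y⁻¹) * j := ad_twice hcm hJexp y j.2
      have hty' : t * (y * y) * t⁻¹ = y := by
        rw [← pow_two, ← conj_pow, hty, pow_two]
        calc y⁻¹ * y⁻¹ = y * (y ^ 3)⁻¹ := by group
          _ = y := by rw [hy3, inv_one, mul_one]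
      have hty'' : t * y * t⁻¹ = y * y := by
        rw [hty]
        calc y⁻¹ = y * y * (y ^ 3)⁻¹ := by group
          _ = _ := by rw [hy3, inv_one, mul_one]
      have hz : t * ((D (D j) : J) : G) * t⁻¹ = ((D (D j) : J) : G) := by
        refine htZ _ (hkerZ _ ?_)
        apply Subtype.ext
        show y * ((D (D j) : J) : G) * y⁻¹ * ((D (D j) : J) : G)⁻¹ = 1
        rw [e2, mul_inv_eq_one]
        calc y * (y * y * j * (y * y)⁻¹ * (y * j * y⁻¹) * j) * y⁻¹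
            = ((y * y * y) * j * (y * y * y)⁻¹) * ((y * y * j * (y * y)⁻¹) * (y * j * y⁻¹)) := by group
          _ = _ := by rw [show y * y * y = 1 by rw [← hy3, pow_succ, pow_two], one_mul, inv_one, mul_one, hcm _ j.2 _ (mul_mem (hJn.conj_mem _ j.2 _) (hJn.conj_mem _ j.2 _))]
      rw [e1, ← hz, e2]
      calc y * y * (t * j * t⁻¹) * (y * y)⁻¹ * (y * (t * j * t⁻¹) * y⁻¹) * (t * j * t⁻¹)
          = y * (t * j * t⁻¹) * y⁻¹ * (y * y * (t * j * t⁻¹) * (y * y)⁻¹) * (t * j * t⁻¹) := by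
            rw [hcm _ (hJn.conj_mem _ hjt (y * y)) _ (hJn.conj_mem _ hjt y)]
        _ = (t * (y * y) * t⁻¹) * (t * j * t⁻¹) * (t * (y * y) * t⁻¹)⁻¹ * ((t * y * t⁻¹) * (t * j * t⁻¹) * (t * y * t⁻¹)⁻¹) * (t * j * t⁻¹) := by
            rw [hty', hty'']
        _ = _ := by group
    rw [e] at h'
    have h3 : ((D (D j) : J) : G) ^ 3 = 1 := hJexp _ (D (D j)).2
    apply Subtype.ext
    have h4 : ((D (D j) : J) : G) * ((D (D j) : J) : G) = 1 := congrArg Subtype.val h'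
    calc ((D (D j) : J) : G) = ((D (D j) : J) : G) ^ 3 * (((D (D j) : J) : G) * ((D (D j) : J) : G))⁻¹ := by group
      _ = 1 := by rw [h3, h4, inv_one, mul_one]

theorem generated [Finite G] (hG : Nat.card G = 162) {S T : Subgroup G} (hcm : ∀ a ∈ J, ∀ b ∈ J, a * b = b * a)
    (hJexp : ∀ a ∈ J, a ^ 3 = 1) (hJS : J ≤ S) (hJcard : Nat.card J = 27) {v y t : G} (hvJ : v ∈ J)
    (hvZ : y * (y * v * y⁻¹ * v⁻¹) * y⁻¹ * (y * v * y⁻¹ * v⁻¹)⁻¹ ≠ 1) (hyS : y ∈ S) (hyJ : y ∉ J) (ht1 : t ≠ 1)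
    (hgenS : ∀ u ∈ S, u ∉ J → J ⊔ Subgroup.zpowers u = S) (htT : t ∈ T) (hTcard : Nat.card T = 2)
    (hScard : Nat.card S = 81) (hJn : J.Normal) (hy3 : y ^ 3 = 1) : Subgroup.closure ({v, y, t} : Set G) = ⊤ := by
  set K := Subgroup.closure ({v, y, t} : Set G) with hK
  have hvK : v ∈ K := Subgroup.subset_closure (by simp)
  have hyK : y ∈ K := Subgroup.subset_closure (by simp)
  have htK : t ∈ K := Subgroup.subset_closure (by simp)
  set P : Subgroup J := K.subgroupOf J with hP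
  let D := adHom hcm y
  let D' : P →* J := D.comp P.subtype
  have hDP : ∀ x : J, x ∈ P → D x ∈ P := fun x hx => Subgroup.mem_subgroupOf.2
    (mul_mem (mul_mem (mul_mem hyK (Subgroup.mem_subgroupOf.1 hx)) (inv_mem hyK)) (inv_mem (Subgroup.mem_subgroupOf.1 hx)))
  have hvP : (⟨v, hvJ⟩ : J) ∈ P := hvK
  have h3 : D (D (D ⟨v, hvJ⟩)) = 1 := by
    apply Subtype.ext
    show y * ((D (D ⟨v, hvJ⟩) : J) : G) * y⁻¹ * ((D (D ⟨v, hvJ⟩) : J) : G)⁻¹ = 1
    rw [show ((D (D ⟨v, hvJ⟩) : J) : G) = (y * y * v * (y * y)⁻¹) * (y * v * y⁻¹) * v from ad_twice hcm hJexp y hvJ, mul_inv_eq_one]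
    calc y * (y * y * v * (y * y)⁻¹ * (y * v * y⁻¹) * v) * y⁻¹
        = ((y * y * y) * v * (y * y * y)⁻¹) * ((y * y * v * (y * y)⁻¹) * (y * v * y⁻¹)) := by group
      _ = _ := by rw [show y * y * y = 1 by rw [← hy3, pow_succ, pow_two], one_mul, inv_one, mul_one, hcm _ hvJ _ (mul_mem (hJn.conj_mem _ hvJ _) (hJn.conj_mem _ hvJ _))]
  have hd2 : D (D ⟨v, hvJ⟩) ≠ 1 := fun e => hvZ (congrArg Subtype.val e)
  have h27 : ∀ (Q : Subgroup J), Nat.card Q ∣ 27 := fun Q => hJcard ▸ Subgroup.card_subgroup_dvd_card Q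
  have hk : 3 ≤ Nat.card D'.ker := by
    have hne : D'.ker ≠ ⊥ := fun e => hd2 (by
      have : (⟨D (D ⟨v, hvJ⟩), hDP _ (hDP _ hvP)⟩ : P) ∈ D'.ker := h3
      rw [e, Subgroup.mem_bot] at this
      exact congrArg Subtype.val this)
    have h1 : 1 < Nat.card D'.ker := (Subgroup.one_lt_card_iff_ne_bot _).2 hne
    have h2 : Nat.card D'.ker ∣ 27 := (Subgroup.card_subgroup_dvd_card _).trans (h27 P)
    obtain ⟨k, hk, hk'⟩ := (Nat.dvd_prime_pow Nat.prime_three (m := 3)).1 h2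
    rw [hk'] at h1 ⊢
    interval_cases k <;> omega
  have hr : 9 ≤ Nat.card D'.range := by
    obtain ⟨k, hk, hk'⟩ := (Nat.dvd_prime_pow Nat.prime_three (m := 3)).1 (h27 D'.range)
    rw [hk']
    by_contra hlt
    have hcase : k = 0 ∨ k = 1 := by
      interval_cases k <;> omega
    have hm1 : D ⟨v, hvJ⟩ ∈ D'.range := ⟨⟨_, hvP⟩, rfl⟩
    have hm2 : D (D ⟨v, hvJ⟩) ∈ D'.range := ⟨⟨_, hDP _ hvP⟩, rfl⟩
    rcases hcase with hk0 | hk1
    · rw [hk0, pow_zero] at hk'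
      rw [Subgroup.card_eq_one.1 hk', Subgroup.mem_bot] at hm2
      exact hd2 hm2
    · rw [hk1, pow_one] at hk'
      have hle : D'.range ≤ D.ker := by
        have hz : Subgroup.zpowers (D (D ⟨v, hvJ⟩)) = D'.range := by
          refine Subgroup.eq_of_le_of_card_ge (Subgroup.zpowers_le.2 hm2) ?_
          rw [hk', Nat.card_zpowers]
          exact le_of_eq (orderOf_eq_prime (Subtype.ext (hJexp _ (D (D ⟨v, hvJ⟩)).2)) hd2).symm
        rw [← hz, Subgroup.zpowers_le]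
        exact h3
      exact hd2 (hle hm1)
  have hPtop : P = ⊤ := by
    refine Subgroup.eq_top_of_le_card _ ?_
    have := Subgroup.card_mul_index D'.ker
    rw [Subgroup.index_ker] at this
    rw [hJcard]; nlinarith
  have hJK : J ≤ K := Subgroup.subgroupOf_eq_top.1 hPtop
  have hSK : S ≤ K := hgenS y hyS hyJ ▸ sup_le hJK (Subgroup.zpowers_le.2 hyK)
  refine Subgroup.eq_top_of_le_card _ ?_
  have h1 : 81 ∣ Nat.card K := hScard ▸ Subgroup.card_dvd_of_le hSK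
  have h2 : Nat.card (Subgroup.zpowers t) ∣ Nat.card K := Subgroup.card_dvd_of_le (Subgroup.zpowers_le.2 htK)
  rw [Nat.card_zpowers] at h2
  have h3 : orderOf t = 2 := by
    refine orderOf_eq_prime ?_ ht1
    have h := pow_card_eq_one' (x := (⟨t, htT⟩ : T))
    rw [hTcard] at h
    exact congrArg Subtype.val h
  rw [h3] at h2
  rw [hG]
  exact Nat.le_of_dvd Nat.card_pos (Nat.Coprime.mul_dvd_of_dvd_of_dvd (by norm_num : Nat.Coprime 2 81) h2 h1)

theorem structure_data [Finite G] (hG : Nat.card G = 162)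
    (S : Sylow 3 G) (T : Sylow 2 G) (J : Subgroup G) [hJn : J.Normal] (hJcomm : IsMulCommutative J)
    (hJexp : ∀ a ∈ J, a ^ 3 = 1) (hJcard : Nat.card J = 27)
    (Z : Subgroup G) (hZ : Z = (S : Subgroup G) ⊓ Subgroup.centralizer ((S : Subgroup G) : Set G)) (hZcard : Nat.card Z = 3)
    (hZT : Z ≤ Subgroup.centralizer ((T : Subgroup G) : Set G))
    (hST : (S : Subgroup G) ⊓ Subgroup.centralizer ((T : Subgroup G) : Set G) ≠ S) :
    ∃ v y t : G, v ^ 3 = 1 ∧ y ^ 3 = 1 ∧ t ^ 2 = 1 ∧ t * y * t⁻¹ = y⁻¹ ∧ Commute v (y * v * y⁻¹) ∧ t * v * t⁻¹ = v ∧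
      Subgroup.closure ({v, y, t} : Set G) = ⊤ := by
  haveI : Fact (Nat.Prime 3) := ⟨Nat.prime_three⟩
  haveI : Fact (Nat.Prime 2) := ⟨Nat.prime_two⟩
  have hScard : Nat.card (S : Subgroup G) = 81 := by
    rw [S.card_eq_multiplicity, hG, show (162 : ℕ) = 2 * 3 ^ 4 by norm_num,
      Nat.factorization_mul (by norm_num) (by norm_num), Finsupp.add_apply, Nat.prime_two.factorization,
      Nat.Prime.factorization_pow Nat.prime_three]
    simp
  have hTcard : Nat.card (T : Subgroup G) = 2 := by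
    rw [T.card_eq_multiplicity, hG, show (162 : ℕ) = 2 * 3 ^ 4 by norm_num,
      Nat.factorization_mul (by norm_num) (by norm_num), Finsupp.add_apply, Nat.prime_two.factorization,
      Nat.Prime.factorization_pow Nat.prime_three]
    simp
  have hSidx : (S : Subgroup G).index = 2 := by
    have := (S : Subgroup G).card_mul_index
    rw [hScard, hG] at this; omega
  haveI hSn : (S : Subgroup G).Normal := Subgroup.normal_of_index_eq_two hSidx
  have hJS : J ≤ S := by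
    obtain ⟨Q, hQ⟩ := (IsPGroup.of_card (p := 3) (n := 3) hJcard).exists_le_sylow
    obtain ⟨g, hg⟩ := MulAction.exists_smul_eq G Q S
    intro x hx
    rw [← hg]
    have := hJn.conj_mem x hx g⁻¹
    exact ⟨g⁻¹ * x * g⁻¹⁻¹, hQ this, by simp [mul_assoc]⟩
  have hcm : ∀ a ∈ J, ∀ b ∈ J, a * b = b * a := fun a ha b hb => congrArg Subtype.val (hJcomm.is_comm.comm ⟨a, ha⟩ ⟨b, hb⟩)
  have hmemZ : ∀ x ∈ (S : Subgroup G), (∀ s ∈ (S : Subgroup G), s * x = x * s) → x ∈ Z := fun x hx h => by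
    rw [hZ]; exact ⟨hx, Subgroup.mem_centralizer_iff.2 h⟩
  obtain ⟨t, htT, ht1⟩ : ∃ t ∈ (T : Subgroup G), t ≠ 1 := by
    refine (T : Subgroup G).bot_or_exists_ne_one.resolve_left fun h => ?_
    rw [h, Subgroup.card_bot] at hTcard; omega
  have ht2 : t ^ 2 = 1 := by
    have h := pow_card_eq_one' (x := (⟨t, htT⟩ : (T : Subgroup G)))
    rw [hTcard] at h
    exact congrArg Subtype.val h
  have ht' : t⁻¹ = t := inv_eq_of_mul_eq_one_right (by rw [← pow_two, ht2])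
  have hTgen : ∀ x ∈ (T : Subgroup G), x = 1 ∨ x = t := by
    intro x hx
    by_contra h
    push_neg at h
    classical
    have h3 : ({⟨1, one_mem _⟩, ⟨t, htT⟩, ⟨x, hx⟩} : Finset (↥(T : Subgroup G))).card = 3 := by
      rw [Finset.card_eq_three]
      exact ⟨_, _, _, by simpa using Ne.symm ht1, by simpa using Ne.symm h.1, by simpa using Ne.symm h.2, rfl⟩
    haveI := Fintype.ofFinite (T : Subgroup G)
    have := Finset.card_le_univ ({⟨1, one_mem _⟩, ⟨t, htT⟩, ⟨x, hx⟩} : Finset (↥(T : Subgroup G)))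
    rw [h3, ← Nat.card_eq_fintype_card, hTcard] at this
    omega
  have htZ : ∀ z ∈ Z, t * z * t⁻¹ = z := fun z hz =>
    mul_inv_eq_iff_eq_mul.2 (Subgroup.mem_centralizer_iff.1 (hZT hz) t htT)
  -- maximal subgroup J of S
  have hgenS : ∀ u ∈ (S : Subgroup G), u ∉ J → J ⊔ Subgroup.zpowers u = S := by
    intro u hu huJ
    refine Subgroup.eq_of_le_of_card_ge (sup_le hJS (Subgroup.zpowers_le.2 hu)) ?_
    have h1 : Nat.card J ∣ Nat.card (J ⊔ Subgroup.zpowers u : Subgroup G) := Subgroup.card_dvd_of_le le_sup_left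
    have h2 : Nat.card (J ⊔ Subgroup.zpowers u : Subgroup G) ∣ 81 := hScard ▸ Subgroup.card_dvd_of_le (sup_le hJS (Subgroup.zpowers_le.2 hu))
    obtain ⟨k, hk, hk'⟩ := (Nat.dvd_prime_pow Nat.prime_three (m := 4)).1 h2
    have hne : J ≠ J ⊔ Subgroup.zpowers u := fun h => huJ (h ▸ le_sup_right (a := J) (Subgroup.mem_zpowers u))
    have hlt : 27 < Nat.card (J ⊔ Subgroup.zpowers u : Subgroup G) := by
      refine lt_of_le_of_ne (hJcard ▸ Nat.le_of_dvd Nat.card_pos h1) fun h => hne ?_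
      exact Subgroup.eq_of_le_of_card_ge le_sup_left (by rw [hJcard, h])
    rw [hScard, hk']
    interval_cases k <;> omega
  have hnotab : ¬ ∀ a ∈ (S : Subgroup G), ∀ b ∈ (S : Subgroup G), a * b = b * a := fun h => by
    have : (S : Subgroup G) ≤ Z := fun x hx => hmemZ x hx fun s hs => h s hs x hx
    have := Subgroup.card_dvd_of_le this
    rw [hScard, hZcard] at this
    norm_num at this
  have hfixJ : ∀ u ∈ (S : Subgroup G), u ∉ J → ∀ j ∈ J, u * j = j * u → j ∈ Z := by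
    intro u hu huJ j hj hc
    refine hmemZ j (hJS hj) fun s hs => ?_
    have hle : J ⊔ Subgroup.zpowers u ≤ Subgroup.centralizer ({j} : Set G) := sup_le
      (fun a ha => Subgroup.mem_centralizer_singleton_iff.2 (hcm a ha j hj))
      (Subgroup.zpowers_le.2 (Subgroup.mem_centralizer_singleton_iff.2 hc))
    rw [hgenS u hu huJ] at hle
    exact Subgroup.mem_centralizer_singleton_iff.1 (hle hs)
  have hpJ : ∀ u ∈ (S : Subgroup G), u ^ 3 ∈ J := by
    intro u hu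
    by_cases huJ : u ∈ J
    · exact pow_mem huJ 3
    by_contra h
    have hidx : J.relIndex (S : Subgroup G) = 3 := by
      have := Subgroup.card_mul_index (J.subgroupOf S)
      rw [Nat.card_congr (Subgroup.subgroupOfEquivOfLe hJS).toEquiv, hJcard, hScard] at this
      rw [Subgroup.relIndex]; omega
    haveI : (J.subgroupOf (S : Subgroup G)).Normal := inferInstance
    have h' := Subgroup.pow_index_mem (J.subgroupOf (S : Subgroup G)) ⟨u, hu⟩
    rw [← Subgroup.relIndex, hidx] at h'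
    exact h h'
  -- an element inverted by t outside J
  obtain ⟨u, hu, huJ⟩ : ∃ u ∈ (S : Subgroup G), u ∉ J := by
    by_contra h
    push_neg at h
    have := Subgroup.card_dvd_of_le (fun x hx => h x hx : (S : Subgroup G) ≤ J)
    rw [hScard, hJcard] at this; norm_num at this
  have htS : ∀ x ∈ (S : Subgroup G), t * x * t⁻¹ ∈ (S : Subgroup G) := fun x hx => hSn.conj_mem x hx t
  set y := t * u * t⁻¹ * u⁻¹ with hydef
  have hyS : y ∈ (S : Subgroup G) := mul_mem (htS u hu) (inv_mem hu)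
  have hty : t * y * t⁻¹ = y⁻¹ := by
    calc t * y * t⁻¹ = (t * t) * u * t⁻¹ * u⁻¹ * t⁻¹ := by rw [hydef]; group
      _ = y⁻¹ := by rw [← pow_two, ht2, one_mul, hydef]; simp only [mul_inv_rev, inv_inv, ht', mul_assoc]
  -- commutators with elements of S outside J, and the fixed point set of t
  have hyJ : y ∉ J := by
    intro hy
    -- t centralises S / J, hence acts trivially on every layer of J, hence centralises S
    apply hST
    refine inf_eq_left.2 ?_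
    have hJtriv : ∀ j ∈ J, t * j * t⁻¹ = j := fixed_all hcm hJexp hJS hu huJ hfixJ htZ hy ht2 hpJ hZ
    have hcube : u ^ 3 ∈ J := hpJ u hu
    have e : t * u * t⁻¹ = y * u := by rw [hydef]; group
    have e2 : t * y * t⁻¹ = y := hJtriv y hy
    rw [hty] at e2
    have y1 : y = 1 := by
      have hy3 := hJexp y hy
      calc y = y ^ 3 * (y ^ 2)⁻¹ := by group
        _ = 1 := by rw [hy3, pow_two]; nth_rewrite 1 [← e2]; rw [inv_mul_cancel, inv_one, mul_one]
    have hut : t * u * t⁻¹ = u := by rw [e, y1, one_mul]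
    intro x hx
    refine Subgroup.mem_centralizer_iff.2 fun s hs => ?_
    rcases hTgen s hs with rfl | rfl
    · simp
    have hle : J ⊔ Subgroup.zpowers u ≤ Subgroup.centralizer ({s} : Set G) := sup_le
      (fun a ha => Subgroup.mem_centralizer_singleton_iff.2 (mul_inv_eq_iff_eq_mul.1 (hJtriv a ha)).symm)
      (Subgroup.zpowers_le.2 (Subgroup.mem_centralizer_singleton_iff.2 (mul_inv_eq_iff_eq_mul.1 hut).symm))
    rw [hgenS u hu huJ] at hle
    exact (Subgroup.mem_centralizer_singleton_iff.1 (hle hx)).symm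
  have hy3 : y ^ 3 = 1 := by
    have hz : y ^ 3 ∈ Z := hfixJ y hyS hyJ _ (hpJ y hyS) ((Commute.refl y).pow_right 3).eq
    have h1 := htZ _ hz
    rw [← conj_pow, hty, inv_pow] at h1
    have h2 : (y ^ 3) ^ 3 = 1 := hJexp _ (hpJ y hyS)
    calc y ^ 3 = (y ^ 3) ^ 3 * ((y ^ 3) ^ 2)⁻¹ := by group
      _ = 1 := by rw [h2, pow_two]; nth_rewrite 1 [← h1]; rw [inv_mul_cancel, inv_one, mul_one]
  -- a fixed element of J outside the image of ad y
  let N : J → J := fun j => ⟨y * j * y⁻¹ * (j : G)⁻¹, mul_mem (hJn.conj_mem _ j.2 y) (inv_mem j.2)⟩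
  obtain ⟨v, hvJ, htv, hvZ⟩ : ∃ v ∈ J, t * v * t⁻¹ = v ∧
      y * (y * v * y⁻¹ * v⁻¹) * y⁻¹ * (y * v * y⁻¹ * v⁻¹)⁻¹ ≠ 1 := fixed_top hcm hJexp hfixJ hyS hyJ hty ht2 hJn hJcard hZcard hy3 htZ
  refine ⟨v, y, t, hJexp v hvJ, hy3, ht2, hty, hcm v hvJ _ (hJn.conj_mem v hvJ y), htv, ?_⟩
  exact generated hG hcm hJexp hJS hJcard hvJ hvZ hyS hyJ ht1 hgenS htT hTcard hScard hJn hy3
end Aux

/-- Let G be a group of order 162 = 3⁴·2 with Sylow 3-subgroup S and Sylow 2-subgroup T, having an elementary abelian normal subgroup J of order 27, such that Z = Z(S) has order 3, Z centralizes T, and C_S(T) ≠ S. Then G is isomorphic to the centralizer in Sym(9) of a product of three disjoint 3-cycles. -/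
theorem result {G : Type*} [Group G] [Finite G] (hG : Nat.card G = 162)
    (S : Sylow 3 G) (T : Sylow 2 G) (J : Subgroup G) [hJn : J.Normal] (hJcomm : IsMulCommutative J)
    (hJexp : ∀ a ∈ J, a ^ 3 = 1) (hJcard : Nat.card J = 27)
    (Z : Subgroup G) (hZ : Z = (S : Subgroup G) ⊓ Subgroup.centralizer ((S : Subgroup G) : Set G)) (hZcard : Nat.card Z = 3)
    (hZT : Z ≤ Subgroup.centralizer ((T : Subgroup G) : Set G))
    (hST : (S : Subgroup G) ⊓ Subgroup.centralizer ((T : Subgroup G) : Set G) ≠ S) :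
    Nonempty (G ≃* Subgroup.centralizer ({Equiv.swap (0 : Fin 9) 1 * Equiv.swap 1 2 * Equiv.swap 3 4 * Equiv.swap 4 5 * Equiv.swap 6 7 * Equiv.swap 7 8} : Set (Equiv.Perm (Fin 9)))) := by
  classical
  haveI : Fact (Nat.Prime 3) := ⟨Nat.prime_three⟩
  haveI : Fact (Nat.Prime 2) := ⟨Nat.prime_two⟩
  obtain ⟨v, y, t, hv, hy, ht, hty, hcomm, htv, hgen⟩ := structure_data hG S T J hJcomm hJexp hJcard Z hZ hZcard hZT hST
  let c : Equiv.Perm (Fin 9) := Equiv.swap (0 : Fin 9) 1 * Equiv.swap 1 2 * Equiv.swap 3 4 * Equiv.swap 4 5 * Equiv.swap 6 7 * Equiv.swap 7 8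
  let H := Subgroup.centralizer ({c} : Set (Equiv.Perm (Fin 9)))
  -- the model inside `H`
  let v₀ : Equiv.Perm (Fin 9) := Equiv.swap (0 : Fin 9) 1 * Equiv.swap 1 2
  let y₀ : Equiv.Perm (Fin 9) := Equiv.swap (0 : Fin 9) 3 * Equiv.swap 3 6 * Equiv.swap 1 4 * Equiv.swap 4 7 * Equiv.swap 2 5 * Equiv.swap 5 8
  let t₀ : Equiv.Perm (Fin 9) := Equiv.swap (3 : Fin 9) 6 * Equiv.swap 4 7 * Equiv.swap 5 8
  have hv₀ : v₀ ∈ H := Subgroup.mem_centralizer_singleton_iff.2 (by decide +kernel)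
  have hy₀ : y₀ ∈ H := Subgroup.mem_centralizer_singleton_iff.2 (by decide +kernel)
  have ht₀ : t₀ ∈ H := Subgroup.mem_centralizer_singleton_iff.2 (by decide +kernel)
  obtain ⟨f, -, -, -⟩ := exists_hom v y t hv hy ht hty hcomm htv
  let v' : H := ⟨v₀, hv₀⟩
  let y' : H := ⟨y₀, hy₀⟩
  let t' : H := ⟨t₀, ht₀⟩
  have r1 : v' ^ 3 = 1 := Subtype.ext (by show v₀ ^ 3 = 1; decide +kernel)
  have r2 : y' ^ 3 = 1 := Subtype.ext (by show y₀ ^ 3 = 1; decide +kernel)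
  have r3 : t' ^ 2 = 1 := Subtype.ext (by show t₀ ^ 2 = 1; decide +kernel)
  have r4 : t' * y' * t'⁻¹ = y'⁻¹ := Subtype.ext (by show t₀ * y₀ * t₀⁻¹ = y₀⁻¹; decide +kernel)
  have r5 : Commute v' (y' * v' * y'⁻¹) :=
    Subtype.ext (by show v₀ * (y₀ * v₀ * y₀⁻¹) = (y₀ * v₀ * y₀⁻¹) * v₀; decide +kernel)
  have r6 : t' * v' * t'⁻¹ = v' := Subtype.ext (by show t₀ * v₀ * t₀⁻¹ = v₀; decide +kernel)
  obtain ⟨f, hf1, hf2, hf3⟩ := exists_hom v y t hv hy ht hty hcomm htv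
  obtain ⟨g, hg1, hg2, hg3⟩ := exists_hom v' y' t' r1 r2 r3 r4 r5 r6
  have hfs : Function.Surjective f := by
    rw [← MonoidHom.range_eq_top, eq_top_iff, ← hgen, Subgroup.closure_le]
    rintro x (rfl | rfl | rfl)
    · exact hf1
    · exact hf2
    · exact hf3
  have hM : Nat.card Model = 162 := card_model
  haveI : Finite Model := Nat.finite_of_card_ne_zero (by rw [hM]; norm_num)
  have hfb : Function.Bijective f := (Nat.bijective_iff_surjective_and_card f).2 ⟨hfs, by rw [hM, hG]⟩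
  refine ⟨(MulEquiv.ofBijective f hfb).symm.trans (MulEquiv.ofBijective g ?_)⟩
  have hgi : Function.Injective g := by
    have hK : 162 ≤ Nat.card g.range := by
      have hsub : ((Finset.univ : Finset (Fin 3 × Fin 3 × Fin 3 × Fin 3 × Fin 2)).image fun x =>
          (fun σ : Equiv.Perm (Fin 9) => (σ 0, σ 3, σ 6))
            (v₀ ^ (x.1 : ℕ) * (y₀ * v₀ * y₀⁻¹) ^ (x.2.1 : ℕ) * (y₀⁻¹ * v₀ * y₀) ^ (x.2.2.1 : ℕ) * y₀ ^ (x.2.2.2.1 : ℕ) * t₀ ^ (x.2.2.2.2 : ℕ))).card = 162 := by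
        decide +kernel
      haveI := Fintype.ofFinite g.range
      rw [← hsub, Nat.card_eq_fintype_card]
      refine le_trans (Finset.card_le_card (t := (Finset.univ : Finset g.range).image
        fun σ => ((σ.1 : Equiv.Perm (Fin 9)) 0, (σ.1 : Equiv.Perm (Fin 9)) 3, (σ.1 : Equiv.Perm (Fin 9)) 6)) ?_) Finset.card_image_le
      intro z hz
      obtain ⟨a, -, ha⟩ := Finset.mem_image.1 hz
      exact Finset.mem_image.2 ⟨⟨_, mul_mem (mul_mem (mul_mem (mul_mem (pow_mem hg1 (a.1 : ℕ)) (pow_mem (mul_mem (mul_mem hg2 hg1) (inv_mem hg2)) (a.2.1 : ℕ)))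
          (pow_mem (mul_mem (mul_mem (inv_mem hg2) hg1) hg2) (a.2.2.1 : ℕ))) (pow_mem hg2 (a.2.2.2.1 : ℕ))) (pow_mem hg3 (a.2.2.2.2 : ℕ))⟩,
        Finset.mem_univ _, ha⟩
    have h1 := MonoidHom.rangeRestrict_surjective g
    have h2 : Function.Bijective g.rangeRestrict := (Nat.bijective_iff_surjective_and_card _).2
      ⟨h1, le_antisymm (by rw [hM]; exact hK) (Nat.card_le_card_of_surjective _ h1)⟩
    exact fun a b h => h2.1 (Subtype.ext h)
  refine (Nat.bijective_iff_injective_and_card g).2 ⟨hgi, le_antisymm (Nat.card_le_card_of_injective g hgi) ?_⟩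
  rw [hM]
  exact card_centralizer_le

end Cfsg.Agent.S3376
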