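import Cfsg.Statements.S3389


set_option autoImplicit false
open Cfsg
open scoped Pointwise

namespace Cfsg.Agent.S3389

/-- Let G be a finite group acting faithfully and transitively on a finite set Ω with fixity k ≥ 1: every non-identity element fixes at most k points and some non-identity element fixes exactly k points. Then |Z(G)| divides k; if k = 2 then |G| is even; and for every prime p > k dividing |G| and every point α, either p does not divide |G_α| or G_α contains a Sylow p-subgroup of G. -/
theorem result {G : Type*} [Group G] [Finite G] {Ω : Type*} [Fintype Ω] [MulAction G Ω] [FaithfulSMul G Ω]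
    (htr : MulAction.IsPretransitive G Ω) (k : ℕ) (hk : 1 ≤ k)
    (hfix : ∀ g : G, g ≠ 1 → Nat.card (MulAction.fixedBy Ω g) ≤ k) (hex : ∃ g : G, g ≠ 1 ∧ Nat.card (MulAction.fixedBy Ω g) = k) :
    Nat.card (Subgroup.center G) ∣ k ∧ (k = 2 → 2 ∣ Nat.card G) ∧
      ∀ (p : ℕ), p.Prime → k < p → p ∣ Nat.card G → ∀ α : Ω,
        ¬ p ∣ Nat.card (MulAction.stabilizer G α) ∨ ¬ p ∣ (MulAction.stabilizer G α).index := by
  classical
  haveI := htr
  obtain ⟨g₀, hg₀, hg₀k⟩ := hex
  -- central elements act semiregularly
  have hsemi : ∀ z ∈ Subgroup.center G, ∀ ω : Ω, z • ω = ω → z = 1 := by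
    intro z hz ω hω
    refine FaithfulSMul.eq_of_smul_eq_smul (α := Ω) fun ω' => ?_
    obtain ⟨g, rfl⟩ := MulAction.exists_smul_eq G ω ω'
    rw [one_smul, smul_smul, ← Subgroup.mem_center_iff.1 hz g, mul_smul, hω]
  have key : ∀ (p : ℕ), p.Prime → ∀ (α : Ω) (P : Subgroup G), IsPGroup p P → P ≤ MulAction.stabilizer G α →
      (∀ Q : Subgroup G, IsPGroup p Q → P ≤ Q → Q ≤ MulAction.stabilizer G α → Q = P) →
      (∀ Q : Subgroup G, IsPGroup p Q → Q ≤ Subgroup.normalizer (P : Set G) → P ≤ Q → Q ≤ MulAction.stabilizer G α) →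
      ∀ S : Sylow p G, P ≤ (S : Subgroup G) → P = (S : Subgroup G) := by
    intro p hp α P hP hPα hmax hnorm S hPS
    by_contra hne
    haveI : Fact p.Prime := ⟨hp⟩
    haveI : Group.IsNilpotent ↥(S : Subgroup G) := S.2.isNilpotent
    have hlt : P.subgroupOf (S : Subgroup G) < ⊤ := by
      rw [lt_top_iff_ne_top]
      intro h
      exact hne (le_antisymm hPS (Subgroup.subgroupOf_eq_top.1 h))
    have h := normalizerCondition_of_isNilpotent (G := ↥(S : Subgroup G)) _ hlt
    obtain ⟨x, hx, hxP⟩ := SetLike.exists_of_lt h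
    set Q := (Subgroup.normalizer (P.subgroupOf (S : Subgroup G) : Set ↥(S : Subgroup G))).map (S : Subgroup G).subtype with hQ
    have hQp : IsPGroup p Q := S.2.to_le (Subgroup.map_subtype_le _)
    have hPQ : P ≤ Q := fun y hy => ⟨⟨y, hPS hy⟩, Subgroup.le_normalizer hy, rfl⟩
    have hQN : Q ≤ Subgroup.normalizer (P : Set G) := by
      rintro _ ⟨y, hy, rfl⟩
      rw [Subgroup.mem_normalizer_iff]
      intro z
      have hy' := Subgroup.mem_normalizer_iff.1 hy
      constructor
      · intro hz
        exact (hy' ⟨z, hPS hz⟩).1 hz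
      · intro hz
        have hzS : z ∈ (S : Subgroup G) := by
          have := (S : Subgroup G).mul_mem ((S : Subgroup G).mul_mem ((S : Subgroup G).inv_mem y.2) (hPS hz)) y.2
          simpa [mul_assoc] using this
        exact (hy' ⟨z, hzS⟩).2 hz
    have := hmax Q hQp hPQ (hnorm Q hQp hQN hPQ)
    exact hxP (show (x : G) ∈ P from this ▸ ⟨x, hx, rfl⟩)
  refine ⟨?_, ?_, ?_⟩
  · -- the centre permutes the fixed points of `g₀` freely
    let X : SubMulAction (Subgroup.center G) Ω :=
      { carrier := MulAction.fixedBy Ω g₀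
        smul_mem' := fun z ω hω => by
          show g₀ • ((z : G) • ω) = (z : G) • ω
          rw [smul_smul, Subgroup.mem_center_iff.1 z.2 g₀, mul_smul, show g₀ • ω = ω from hω] }
    have hfree : ∀ x : X, MulAction.stabilizer (Subgroup.center G) x = ⊥ := fun x => by
      rw [eq_bot_iff]
      intro z hz
      exact Subgroup.mem_bot.2 (Subtype.ext (hsemi z z.2 x (congrArg Subtype.val hz)))
    have h := Nat.card_congr (MulAction.selfEquivOrbitsQuotientProd hfree)
    rw [Nat.card_prod] at h
    rw [← hg₀k]
    exact ⟨_, h.trans (mul_comm _ _)⟩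
  · intro hk2
    by_contra hodd
    -- an element with exactly two fixed points has odd order
    obtain ⟨α, β, hαβ, hset⟩ := Set.ncard_eq_two.1 (show (MulAction.fixedBy Ω g₀).ncard = 2 by rw [← Nat.card_coe_set_eq, hg₀k, hk2])
    set S := MulAction.stabilizer G α ⊓ MulAction.stabilizer G β with hS
    have hg₀S : g₀ ∈ S := by
      have ha : α ∈ MulAction.fixedBy Ω g₀ := by rw [hset]; simp
      have hb : β ∈ MulAction.fixedBy Ω g₀ := by rw [hset]; simp
      exact ⟨ha, hb⟩
    obtain ⟨p, hp, hpS⟩ := Nat.exists_prime_and_dvd (show Nat.card S ≠ 1 from fun h => hg₀ (by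
      rw [Subgroup.card_eq_one.1 h] at hg₀S
      exact hg₀S))
    haveI : Fact p.Prime := ⟨hp⟩
    obtain ⟨P₀⟩ : Nonempty (Sylow p S) := inferInstance
    set P : Subgroup G := (P₀ : Subgroup S).map S.subtype with hP
    have hPp : IsPGroup p P := P₀.2.map _
    have hPle : P ≤ S := Subgroup.map_subtype_le _
    have hPne : P ≠ ⊥ := by
      rw [hP, ne_eq, Subgroup.map_eq_bot_iff_of_injective _ S.subtype_injective]
      intro hb
      have := P₀.dvd_card_of_dvd_card hpS
      rw [hb, Subgroup.card_bot] at this
      exact hp.ne_one (Nat.dvd_one.1 this)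
    have hfixP : ∀ ω : Ω, (∀ x ∈ P, x • ω = ω) → ω = α ∨ ω = β := by
      intro ω hω
      obtain ⟨x, hx, hx1⟩ := (Subgroup.bot_or_exists_ne_one P).resolve_left hPne
      by_contra hne
      push Not at hne
      have h3 : 3 ≤ Nat.card (MulAction.fixedBy Ω x) := by
        rw [Nat.card_coe_set_eq]
        have : ({α, β, ω} : Set Ω) ⊆ MulAction.fixedBy Ω x := by
          intro u hu
          rcases hu with rfl | rfl | rfl
          exacts [(hPle hx).1, (hPle hx).2, hω x hx]
        refine le_trans ?_ (Set.ncard_le_ncard this)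
        rw [Set.ncard_eq_three.2 ⟨α, β, ω, hαβ, hne.1.symm, hne.2.symm, rfl⟩]
      have := hfix x hx1
      omega
    have hN : ∀ y ∈ Subgroup.normalizer (P : Set G), y ∈ S := by
      intro y hy
      have hmove : ∀ u : Ω, (u = α ∨ u = β) → y • u = α ∨ y • u = β := by
        intro u hu
        refine hfixP _ fun x hx => ?_
        have hx' : y⁻¹ * x * y ∈ P := by
          have := (Subgroup.mem_normalizer_iff.1 ((Subgroup.normalizer (P : Set G)).inv_mem hy) x).1 hx
          simpa using this
        have hfu : (y⁻¹ * x * y) • u = u := by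
          rcases hu with rfl | rfl
          exacts [(hPle hx').1, (hPle hx').2]
        calc x • y • u = y • ((y⁻¹ * x * y) • u) := by rw [smul_smul, smul_smul]; congr 1; group
          _ = y • u := by rw [hfu]
      rcases hmove α (Or.inl rfl) with h1 | h1
      · rcases hmove β (Or.inr rfl) with h2 | h2
        · exact absurd (MulAction.injective y (h1.trans h2.symm)) hαβ
        · exact ⟨h1, h2⟩
      · exfalso
        rcases hmove β (Or.inr rfl) with h2 | h2
        · have ho : Odd (orderOf y) := Nat.not_even_iff_odd.1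
            fun h => hodd ((even_iff_two_dvd.1 h).trans (orderOf_dvd_natCard y))
          obtain ⟨j, hj⟩ := ho
          have he : ∀ n : ℕ, y ^ (2 * n) • α = α := by
            intro n
            induction n with
            | zero => simp
            | succ n ih => rw [Nat.mul_succ, pow_add, mul_smul, pow_two, mul_smul, h1, h2, ih]
          have := pow_orderOf_eq_one y
          rw [hj, pow_succ'] at this
          have h3 : y • (y ^ (2 * j) • α) = α := by rw [smul_smul, this, one_smul]
          rw [he, h1] at h3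
          exact hαβ h3.symm
        · exact hαβ (MulAction.injective y (h1.trans h2.symm))
    -- `P` is a Sylow subgroup of `G`
    obtain ⟨T, hPT⟩ := hPp.exists_le_sylow
    have hmax : ∀ Q : Subgroup G, IsPGroup p Q → P ≤ Q → Q ≤ S → Q = P := by
      intro Q hQ hPQ hQS
      have hQ' : IsPGroup p (Q.subgroupOf S) := hQ.comap_of_injective S.subtype S.subtype_injective
      have h2 : (P₀ : Subgroup S) ≤ Q.subgroupOf S := fun z hz => hPQ ⟨z, hz, rfl⟩
      have h3 := P₀.3 hQ' h2
      rw [hP, ← h3, Subgroup.map_subgroupOf_eq_of_le hQS]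
    have hPα : P ≤ MulAction.stabilizer G α := hPle.trans inf_le_left
    have hPT' : P = (T : Subgroup G) := by
      refine key p hp α P hPp hPα (fun Q hQ hPQ hQα => ?_) (fun Q _ hQN _ y hy => (hN y (hQN hy)).1) T hPT
      by_contra hne
      haveI : Group.IsNilpotent ↥Q := hQ.isNilpotent
      have hlt : P.subgroupOf Q < ⊤ := by
        rw [lt_top_iff_ne_top]
        intro h
        exact hne (le_antisymm (Subgroup.subgroupOf_eq_top.1 h) hPQ)
      obtain ⟨x, hx, hxP⟩ := SetLike.exists_of_lt (normalizerCondition_of_isNilpotent (G := ↥Q) _ hlt)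
      have hxN : (x : G) ∈ Subgroup.normalizer (P : Set G) := by
        rw [Subgroup.mem_normalizer_iff]
        intro z
        have hy' := Subgroup.mem_normalizer_iff.1 hx
        constructor
        · intro hz; exact (hy' ⟨z, hPQ hz⟩).1 hz
        · intro hz
          have hzQ : z ∈ Q := by
            have := Q.mul_mem (Q.mul_mem (Q.inv_mem x.2) (hPQ hz)) x.2
            simpa [mul_assoc] using this
          exact (hy' ⟨z, hzQ⟩).2 hz
      have hQ' : IsPGroup p ↥(P ⊔ Subgroup.zpowers (x : G)) := hQ.to_le (sup_le hPQ (Subgroup.zpowers_le.2 x.2))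
      have hle : P ⊔ Subgroup.zpowers (x : G) ≤ S := sup_le hPle (Subgroup.zpowers_le.2 (hN _ hxN))
      have := hmax _ hQ' le_sup_left hle
      exact hxP (show (x : G) ∈ P from this ▸ (le_sup_right : Subgroup.zpowers (x : G) ≤ _) (Subgroup.mem_zpowers _))
    -- but then the normaliser is transitive on the fixed points
    obtain ⟨h, hh⟩ := MulAction.exists_smul_eq G α β
    have hconj : ((MulAut.conj h⁻¹) • T : Sylow p G).toSubgroup ≤ MulAction.stabilizer G α := by
      intro z hz
      change z ∈ MulAut.conj h⁻¹ • (T : Subgroup G) at hz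
      rw [← hPT'] at hz
      obtain ⟨w, hw, rfl⟩ := hz
      show (h⁻¹ * w * h⁻¹⁻¹) • α = α
      rw [inv_inv, mul_smul, mul_smul, hh, (hPle hw).2, ← hh, inv_smul_smul]
    have hTα : (T : Subgroup G) ≤ MulAction.stabilizer G α := hPT' ▸ hPα
    obtain ⟨a, ha⟩ := MulAction.exists_smul_eq (MulAction.stabilizer G α) (T.subtype hTα) (((MulAut.conj h⁻¹) • T : Sylow p G).subtype hconj)
    have hmem : h * (a : G) ∈ Subgroup.normalizer (P : Set G) := by
      rw [hPT']
      refine Sylow.smul_eq_iff_mem_normalizer.1 ?_
      rw [mul_smul]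
      have ha' : (a : G) • T = MulAut.conj h⁻¹ • T := by
        apply Sylow.subtype_injective (N := MulAction.stabilizer G α)
        rw [← ha]
        exact (Sylow.smul_subtype hTα a).symm
      rw [ha', show MulAut.conj h⁻¹ • T = h⁻¹ • T from rfl, smul_inv_smul]
    have h5 : (h * (a : G)) • α = α := (hN _ hmem).1
    rw [show (h * (a : G)) • α = β by rw [mul_smul, show (a : G) • α = α from a.2, hh]] at h5
    exact hαβ h5.symm
  · intro p hp hkp hpG α
    by_contra hcon
    push Not at hcon
    obtain ⟨hp1, hp2⟩ := hcon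
    haveI : Fact p.Prime := ⟨hp⟩
    obtain ⟨P₀⟩ : Nonempty (Sylow p (MulAction.stabilizer G α)) := inferInstance
    set H := MulAction.stabilizer G α
    set P : Subgroup G := (P₀ : Subgroup H).map H.subtype with hP
    have hPp : IsPGroup p P := P₀.2.map _
    have hPle : P ≤ H := Subgroup.map_subtype_le _
    obtain ⟨T, hPT⟩ := hPp.exists_le_sylow
    have hmax : ∀ Q : Subgroup G, IsPGroup p Q → P ≤ Q → Q ≤ H → Q = P := by
      intro Q hQ hPQ hQS
      have h2 : (P₀ : Subgroup H) ≤ Q.subgroupOf H := fun z hz => hPQ ⟨z, hz, rfl⟩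
      have h3 := P₀.3 (hQ.comap_of_injective H.subtype H.subtype_injective) h2
      rw [hP, ← h3]
      exact (Subgroup.map_subgroupOf_eq_of_le hQS).symm
    have hPne : P ≠ ⊥ := by
      rw [hP, ne_eq, Subgroup.map_eq_bot_iff_of_injective _ H.subtype_injective]
      intro hb
      have := P₀.dvd_card_of_dvd_card hp1
      rw [hb, Subgroup.card_bot] at this
      exact hp.ne_one (Nat.dvd_one.1 this)
    obtain ⟨x, hx, hx1⟩ := (Subgroup.bot_or_exists_ne_one P).resolve_left hPne
    have hPT' : P = (T : Subgroup G) := by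
      refine key p hp α P hPp hPle hmax (fun Q hQ hQN hPQ y hy => ?_) T hPT
      -- `Q` acts on the fixed points of `P`, fewer than `p`
      let F : SubMulAction Q Ω :=
        { carrier := {ω | ∀ z ∈ P, z • ω = ω}
          smul_mem' := fun c ω hω z hz => by
            show z • ((c : G) • ω) = (c : G) • ω
            have hz' : (c : G)⁻¹ * z * (c : G) ∈ P := by
              have := (Subgroup.mem_normalizer_iff.1 (hQN (Q.inv_mem c.2)) z).1 hz
              simpa using this
            calc z • ((c : G) • ω) = (c : G) • (((c : G)⁻¹ * z * (c : G)) • ω) := by rw [smul_smul, smul_smul]; congr 1; group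
              _ = _ := by rw [hω _ hz'] }
      have hFle : Nat.card F ≤ k := by
        refine le_trans ?_ (hfix x hx1)
        exact Nat.card_le_card_of_injective (fun ω : F => (⟨(ω : Ω), ω.2 x hx⟩ : MulAction.fixedBy Ω x))
          (fun a b h => Subtype.ext (congrArg Subtype.val h :))
      let αF : F := ⟨α, fun z hz => hPle hz⟩
      obtain ⟨e, he⟩ := hQ.index (MulAction.stabilizer Q αF)
      rw [MulAction.index_stabilizer] at he
      have hle : (MulAction.orbit Q αF).ncard < p := by
        refine lt_of_le_of_lt (le_trans ?_ hFle) hkp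
        rw [← Set.ncard_univ]
        exact Set.ncard_le_ncard (Set.subset_univ _)
      rw [he] at hle
      have he0 : e = 0 := by
        by_contra h0
        have := Nat.le_self_pow h0 p
        omega
      rw [he0, pow_zero, Set.ncard_eq_one] at he
      obtain ⟨u, hu⟩ := he
      have h1 : (⟨y, hy⟩ : Q) • αF ∈ MulAction.orbit Q αF := MulAction.mem_orbit _ _
      have h2 : αF ∈ MulAction.orbit Q αF := MulAction.mem_orbit_self _
      rw [hu, Set.mem_singleton_iff] at h1 h2
      exact congrArg Subtype.val (h1.trans h2.symm)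
    have : H.index ∣ (T : Subgroup G).index := Subgroup.index_dvd_of_le (hPT' ▸ hPle)
    exact T.not_dvd_index (hp2.trans this)

end Cfsg.Agent.S3389
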