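import Cfsg.Statements.S3495


set_option autoImplicit false
open Cfsg
open scoped Pointwise

namespace Cfsg.Agent.S3495

/-- Let a finite group G act faithfully and primitively on a finite set Ω with non-trivial point stabilizers, each acting primitively on every one of its orbits (an extremely primitive group), and suppose G has an elementary abelian normal p-subgroup N acting regularly on Ω (affine type). Then every non-trivial subgroup M of a point stabilizer G_α that is normal in G_α has the same orbits on Ω as G_α, and normalizes no subgroup of N other than 1 and N. -/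
theorem result {G : Type*} [Group G] [Finite G] {Ω : Type*} [Fintype Ω] [MulAction G Ω] [FaithfulSMul G Ω] (hprim : MulAction.IsPreprimitive G Ω) (hH : ∀ α : Ω, MulAction.stabilizer G α ≠ ⊥) (hep : ∀ (α : Ω) (ω : Ω), MulAction.IsPreprimitive (MulAction.stabilizer G α) (MulAction.orbit (MulAction.stabilizer G α) ω))
    (N : Subgroup G) [N.Normal] (hNc : IsMulCommutative N) (p : ℕ) (hp : p.Prime) (hNp : ∀ n ∈ N, n ^ p = 1)
    (hNtr : MulAction.IsPretransitive N Ω) (hNreg : ∀ ω : Ω, MulAction.stabilizer N ω = ⊥) (α : Ω) (M : Subgroup G) (hM : M ≠ ⊥) (hMle : M ≤ MulAction.stabilizer G α)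
    (hMn : MulAction.stabilizer G α ≤ Subgroup.normalizer (M : Set G)) :
    (∀ ω : Ω, MulAction.orbit M ω = MulAction.orbit (MulAction.stabilizer G α) ω) ∧
    (∀ L : Subgroup G, L ≤ N → M ≤ Subgroup.normalizer (L : Set G) → L = ⊥ ∨ L = N) := by
  classical
  set H := MulAction.stabilizer G α with hHdef
  haveI := hNtr
  haveI := hprim
  have htr : ∀ ω : Ω, ∃ n : G, n ∈ N ∧ n • α = ω := fun ω => by
    obtain ⟨⟨n, hn⟩, h⟩ := MulAction.exists_smul_eq N α ω
    exact ⟨n, hn, h⟩
  have hinj : ∀ n ∈ N, ∀ n' ∈ N, n • α = n' • α → n = n' := by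
    intro n hn n' hn' h
    have h1 : (⟨n'⁻¹ * n, N.mul_mem (N.inv_mem hn') hn⟩ : N) ∈ MulAction.stabilizer N α := by
      show (n'⁻¹ * n) • α = α
      rw [mul_smul, h, inv_smul_smul]
    rw [hNreg α, Subgroup.mem_bot] at h1
    exact (inv_mul_eq_one.1 (congrArg Subtype.val h1)).symm
  have hconj : ∀ h ∈ H, ∀ n : G, (h * n * h⁻¹) • α = h • (n • α) := fun h hh n => by
    rw [mul_smul, mul_smul, MulAction.mem_stabilizer_iff.1 (H.inv_mem hh)]
  -- subgroups of `N` invariant under the stabilizer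
  have hL : ∀ L : Subgroup G, L ≤ N → (∀ h ∈ H, ∀ l ∈ L, h * l * h⁻¹ ∈ L) → L = ⊥ ∨ L = N := by
    intro L hLN hinv
    by_cases hLH : L ≤ H
    · left
      rw [eq_bot_iff]
      intro l hl
      rw [Subgroup.mem_bot]
      exact hinj l (hLN hl) 1 N.one_mem (by rw [one_smul]; exact hLH hl)
    right
    refine le_antisymm hLN fun n hn => ?_
    haveI : Nontrivial Ω := by
      by_contra hne
      haveI := not_nontrivial_iff_subsingleton.1 hne
      exact hH α (eq_bot_iff.2 fun x _ => Subgroup.mem_bot.2 (FaithfulSMul.eq_of_smul_eq_smul (α := Ω) fun ω => Subsingleton.elim _ _))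
    have hco : IsCoatom H := MulAction.IsPreprimitive.isCoatom_stabilizer_of_isPreprimitive (G := G) (a := α)
    have hsup : H ⊔ L = ⊤ := hco.2 _ (lt_of_le_of_ne le_sup_left fun he => hLH (by rw [he]; exact le_sup_right))
    let S : Set Ω := (fun l : G => l • α) '' (L : Set G)
    have hstab : H ⊔ L ≤ MulAction.stabilizer G S := by
      refine sup_le (fun h hh => ?_) (fun l hl => ?_)
      · rw [MulAction.mem_stabilizer_set]
        intro ω
        constructor
        · rintro ⟨l, hl, hlw⟩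
          refine ⟨h⁻¹ * l * h⁻¹⁻¹, hinv _ (H.inv_mem hh) l hl, ?_⟩
          show (h⁻¹ * l * h⁻¹⁻¹) • α = ω
          rw [hconj _ (H.inv_mem hh), show l • α = h • ω from hlw, inv_smul_smul]
        · rintro ⟨l, hl, rfl⟩
          exact ⟨h * l * h⁻¹, hinv h hh l hl, hconj h hh l⟩
      · rw [MulAction.mem_stabilizer_set]
        intro ω
        constructor
        · rintro ⟨l', hl', hlw⟩
          exact ⟨l⁻¹ * l', L.mul_mem (L.inv_mem hl) hl', by show (l⁻¹ * l') • α = ω; rw [mul_smul, show l' • α = l • ω from hlw, inv_smul_smul]⟩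
        · rintro ⟨l', hl', rfl⟩
          exact ⟨l * l', L.mul_mem hl hl', mul_smul _ _ _⟩
    have hS := (MulAction.mem_stabilizer_set.1 (hstab (by rw [hsup]; exact Subgroup.mem_top n)) α).2 ⟨1, L.one_mem, one_smul _ _⟩
    obtain ⟨l, hl, hlw⟩ := hS
    rw [← hinj l (hLN hl) n hn hlw]
    exact hl
  have hMH : ∀ h ∈ H, ∀ m ∈ M, h * m * h⁻¹ ∈ M := fun h hh m hm => (Subgroup.mem_normalizer_iff.1 (hMn hh) m).1 hm
  -- `M` fixes only `α`
  have hfix : ∀ ω : Ω, (∀ m ∈ M, m • ω = ω) → ω = α := by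
    have hC : N ⊓ Subgroup.centralizer (M : Set G) = ⊥ := by
      have hinvC : ∀ h ∈ H, ∀ c ∈ N ⊓ Subgroup.centralizer (M : Set G), h * c * h⁻¹ ∈ N ⊓ Subgroup.centralizer (M : Set G) := by
        intro h hh c hc
        refine ⟨Subgroup.Normal.conj_mem inferInstance c hc.1 h, ?_⟩
        intro m hm
        have := hc.2 (h⁻¹ * m * h⁻¹⁻¹) (hMH _ (H.inv_mem hh) m hm)
        calc m * (h * c * h⁻¹) = h * ((h⁻¹ * m * h⁻¹⁻¹) * c) * h⁻¹ := by group
          _ = h * (c * (h⁻¹ * m * h⁻¹⁻¹)) * h⁻¹ := by rw [this]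
          _ = h * c * h⁻¹ * m := by group
      rcases hL (N ⊓ Subgroup.centralizer (M : Set G)) inf_le_left hinvC with h | h
      · exact h
      · exfalso
        refine hM (eq_bot_iff.2 fun m hm => Subgroup.mem_bot.2 (FaithfulSMul.eq_of_smul_eq_smul (α := Ω) fun ω => ?_))
        obtain ⟨n, hn, rfl⟩ := htr ω
        have hnC : n ∈ N ⊓ Subgroup.centralizer (M : Set G) := h.symm ▸ hn
        rw [one_smul, smul_smul, hnC.2 m hm, mul_smul, MulAction.mem_stabilizer_iff.1 (hMle hm)]
    intro ω hω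
    obtain ⟨n, hn, rfl⟩ := htr ω
    have hnC : n ∈ N ⊓ Subgroup.centralizer (M : Set G) := ⟨hn, fun m hm => by
      have := hinj _ (Subgroup.Normal.conj_mem inferInstance n hn m) n hn (by rw [hconj m (hMle hm), hω m hm])
      exact mul_inv_eq_iff_eq_mul.1 this⟩
    rw [hC, Subgroup.mem_bot] at hnC
    rw [hnC, one_smul]
  have horbit : ∀ ω : Ω, MulAction.orbit M ω = MulAction.orbit H ω := by
    intro ω
    have horb : ∀ ω : Ω, MulAction.orbit M ω ⊆ MulAction.orbit H ω := by
      rintro ω _ ⟨m, rfl⟩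
      exact ⟨⟨(m : G), hMle m.2⟩, rfl⟩
    refine Set.Subset.antisymm (horb ω) ?_
    rintro u ⟨h, rfl⟩
    by_cases hω : ω = α
    · rw [hω]
      exact ⟨1, by simp [MulAction.mem_stabilizer_iff.1 h.2, Subgroup.smul_def]⟩
    haveI := hep α ω
    haveI : (M.subgroupOf H).Normal := ⟨fun m hm x => by
      rw [Subgroup.mem_subgroupOf] at hm ⊢
      push_cast
      exact hMH x x.2 m hm⟩
    have hne : MulAction.fixedPoints (M.subgroupOf H) (MulAction.orbit H ω) ≠ Set.univ := by
      intro he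
      refine hω (hfix ω fun m hm => ?_)
      have := (Set.eq_univ_iff_forall.1 he ⟨ω, MulAction.mem_orbit_self ω⟩) ⟨⟨m, hMle hm⟩, hm⟩
      exact congrArg Subtype.val this
    haveI := MulAction.IsQuasiPreprimitive.isPretransitive_of_normal hne
    obtain ⟨⟨⟨m, hm'⟩, hm⟩, hmu⟩ := MulAction.exists_smul_eq (M.subgroupOf H) (⟨ω, MulAction.mem_orbit_self ω⟩ : MulAction.orbit H ω) ⟨h • ω, MulAction.mem_orbit ω h⟩
    exact ⟨⟨m, hm⟩, congrArg Subtype.val hmu⟩
  refine ⟨horbit, fun L hLN hML => hL L hLN fun h hh l hl => ?_⟩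
  have hmem : h • l • α ∈ MulAction.orbit M (l • α) := by
    rw [horbit]
    exact MulAction.mem_orbit (l • α) (⟨h, hh⟩ : H)
  obtain ⟨⟨m, hm⟩, hmu⟩ := hmem
  have hmu' : m • l • α = h • l • α := hmu
  have hmL : m * l * m⁻¹ ∈ L := (Subgroup.mem_normalizer_iff.1 (hML hm) l).1 hl
  rw [← hinj _ (hLN hmL) _ (Subgroup.Normal.conj_mem inferInstance l (hLN hl) h) (by rw [hconj m (hMle hm), hconj h hh, hmu'])]
  exact hmL

end Cfsg.Agent.S3495
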