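import Cfsg.Statements.S3496
import Cfsg.Agent.Lib.PermExtremelyPrimitive

set_option autoImplicit false
open Cfsg MulAction

namespace Cfsg.Agent.S3496

set_option maxHeartbeats 1000000 in
/-- The soluble extremely primitive groups. Let a finite solvable group G act faithfully and primitively on a finite set Ω with p ^ d points (p prime), with non-trivial point stabilizers each acting primitively on every one of its orbits. Then there is a prime q such that every orbit of a point stabilizer G_α other than {α} has exactly q points, q divides p ^ d − 1 but no p ^ i − 1 with 0 < i < d, and G_α has a normal subgroup T of order q with G_α generated by T and one further element and the order of G_α dividing q·d (so G_α is cyclic of order q, or an extension of T by a cyclic group of order dividing d). -/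
theorem result {G : Type*} [Group G] [Finite G] {Ω : Type*} [Fintype Ω] [MulAction G Ω] [FaithfulSMul G Ω] [Group.IsSolvable G] (p d : ℕ) (hp : p.Prime) (hcard : Fintype.card Ω = p ^ d)
    (hprim : MulAction.IsPreprimitive G Ω) (hH : ∀ α : Ω, MulAction.stabilizer G α ≠ ⊥) (hep : ∀ (α : Ω) (ω : Ω), MulAction.IsPreprimitive (MulAction.stabilizer G α) (MulAction.orbit (MulAction.stabilizer G α) ω)) (α : Ω) :
    ∃ q : ℕ, q.Prime ∧ (∀ ω : Ω, ω ≠ α → Nat.card (MulAction.orbit (MulAction.stabilizer G α) ω) = q) ∧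
      q ∣ p ^ d - 1 ∧ (∀ i : ℕ, 0 < i → i < d → ¬ q ∣ p ^ i - 1) ∧
      ∃ T : Subgroup G, T ≤ MulAction.stabilizer G α ∧ MulAction.stabilizer G α ≤ Subgroup.normalizer (T : Set G) ∧ Nat.card T = q ∧
        (∃ h : G, MulAction.stabilizer G α = T ⊔ Subgroup.zpowers h) ∧ Nat.card (MulAction.stabilizer G α) ∣ q * d := by
  classical
  haveI := hprim
  haveI : Fact p.Prime := ⟨hp⟩
  set H := stabilizer G α with hHdef
  have hH1 : H ≠ ⊥ := hH α
  haveI : Nontrivial Ω := by
    by_contra hc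
    haveI := not_nontrivial_iff_subsingleton.1 hc
    refine hH1 ((Subgroup.eq_bot_iff_forall _).2 fun g _ => eq_of_smul_eq_smul fun y : Ω => Subsingleton.elim _ _)
  obtain ⟨N, ⟨hNn, hN1⟩, hmin⟩ := Set.Finite.exists_minimal
    (s := {R : Subgroup G | R.Normal ∧ R ≠ ⊥}) (Set.toFinite _) ⟨⊤, inferInstance, by
      intro h
      exact hH1 (le_bot_iff.1 (le_top.trans h.le))⟩
  haveI := hNn
  have hminN : ∀ R : Subgroup G, R.Normal → R ≤ N → R = ⊥ ∨ R = N := fun R h1 h3 => by
    by_cases h : R = ⊥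
    · exact Or.inl h
    · exact Or.inr (le_antisymm h3 (hmin ⟨h1, h⟩ h3))
  haveI hNc : IsMulCommutative N := by
    rcases hminN ((commutator N).map N.subtype) ConjAct.normal_of_characteristic_of_normal
      (Subgroup.map_subtype_le _) with h | h
    · rw [Subgroup.map_eq_bot_iff_of_injective _ N.subtype_injective] at h
      refine ⟨⟨fun x y => ?_⟩⟩
      have := Subgroup.commutator_mem_commutator (Subgroup.mem_top x) (Subgroup.mem_top y)
      rw [← commutator_def, h, Subgroup.mem_bot, commutatorElement_eq_one_iff_mul_comm] at this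
      exact this
    · exfalso
      haveI : Nontrivial N := (Subgroup.nontrivial_iff_ne_bot N).2 hN1
      refine (Group.IsSolvable.commutator_lt_top_of_nontrivial N).ne ?_
      exact Subgroup.map_injective N.subtype_injective (by
        rw [h, ← MonoidHom.range_eq_map, Subgroup.range_subtype])
  haveI hNt : IsPretransitive N Ω := by
    refine IsQuasiPreprimitive.isPretransitive_of_normal fun h => hN1 ?_
    rw [Subgroup.eq_bot_iff_forall]
    intro g hg
    refine eq_of_smul_eq_smul fun y : Ω => ?_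
    rw [one_smul]
    exact (h.symm ▸ Set.mem_univ y : y ∈ fixedPoints N Ω) ⟨g, hg⟩
  have hfaith : ∀ g : G, g • α = α → (∀ n ∈ N, g * n = n * g) → g = 1 := by
    intro g hg hc
    refine eq_of_smul_eq_smul fun y : Ω => ?_
    obtain ⟨n, rfl⟩ := exists_smul_eq N α y
    show g • (n : G) • α = (1 : G) • (n : G) • α
    rw [smul_smul, hc n n.2, ← smul_smul, hg, one_smul]
  have hinjN : ∀ n ∈ N, ∀ m ∈ N, n • α = m • α → n = m := fun n hn m hm h => by
    refine (inv_mul_eq_one.1 (hfaith (m⁻¹ * n) (by rw [mul_smul, h, inv_smul_smul]) fun x hx => ?_)).symm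
    exact congrArg Subtype.val (hNc.is_comm.comm (⟨_, mul_mem (inv_mem hm) hn⟩ : N) ⟨x, hx⟩)
  have hNcard : Nat.card N = p ^ d := by
    rw [← hcard, ← Nat.card_eq_fintype_card]
    exact Nat.card_congr (Equiv.ofBijective (fun r : N => (r : G) • α)
      ⟨fun r r' h => Subtype.ext (hinjN _ r.2 _ r'.2 h), fun y => exists_smul_eq N α y⟩)
  have hdec : ∀ g : G, ∃ n ∈ N, ∃ h ∈ H, g = n * h := by
    intro g
    obtain ⟨n, hn⟩ := exists_smul_eq N α (g • α)
    refine ⟨n, n.2, (n : G)⁻¹ * g, ?_, by group⟩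
    rw [hHdef, mem_stabilizer_iff, mul_smul, ← hn]
    exact inv_smul_smul (n : G) α
  -- subgroups of `N` normalised by `H`
  have hinv : ∀ W : Subgroup G, W ≤ N → (∀ h ∈ H, ∀ w ∈ W, h * w * h⁻¹ ∈ W) → W = ⊥ ∨ W = N := by
    intro W hW hWH
    refine hminN W ⟨fun w hw g => ?_⟩ hW
    obtain ⟨n, hn, h, hh, rfl⟩ := hdec g
    have h1 := hWH h hh w hw
    have h2 : n * (h * w * h⁻¹) = (h * w * h⁻¹) * n :=
      congrArg Subtype.val (hNc.is_comm.comm (⟨n, hn⟩ : N) ⟨_, hW h1⟩)
    have e : n * h * w * (n * h)⁻¹ = h * w * h⁻¹ := by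
      rw [show n * h * w * (n * h)⁻¹ = n * (h * w * h⁻¹) * n⁻¹ by group, h2, mul_inv_cancel_right]
    rwa [e]
  haveI : Nontrivial N := (Subgroup.nontrivial_iff_ne_bot N).2 hN1
  -- exponent `p`
  have hNp : ∀ n ∈ N, n ^ p = 1 := by
    let W : Subgroup G :=
      { carrier := {w | w ∈ N ∧ w ^ p = 1}
        one_mem' := ⟨one_mem N, one_pow p⟩
        mul_mem' := fun {x y} hx hy => ⟨mul_mem hx.1 hy.1, by
          rw [(show Commute x y from congrArg Subtype.val
            (hNc.is_comm.comm (⟨x, hx.1⟩ : N) ⟨y, hy.1⟩)).mul_pow, hx.2, hy.2, one_mul]⟩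
        inv_mem' := fun {x} hx => ⟨inv_mem hx.1, by rw [inv_pow, hx.2, inv_one]⟩ }
    rcases hinv W (fun w hw => hw.1) (fun h _ w hw => ⟨hNn.conj_mem w hw.1 h, by
      rw [conj_pow, hw.2]; group⟩) with h | h
    · obtain ⟨w, hw⟩ := exists_prime_orderOf_dvd_card' (G := N) p (by
        rw [hNcard]
        refine dvd_pow_self p ?_
        rintro rfl
        exact (Finite.one_lt_card (α := N)).ne' (by rw [hNcard, pow_zero]))
      have hwW : (w : G) ∈ W := ⟨w.2, by rw [← hw, ← Subgroup.orderOf_coe, pow_orderOf_eq_one]⟩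
      rw [h, Subgroup.mem_bot, ← orderOf_eq_one_iff, Subgroup.orderOf_coe, hw] at hwW
      exact absurd hwW hp.ne_one
    · intro n hn; exact (h.ge hn).2
  -- a minimal normal subgroup of the stabilizer
  haveI : Nontrivial H := (Subgroup.nontrivial_iff_ne_bot H).2 hH1
  obtain ⟨R, ⟨hRn, hR1⟩, hRmin⟩ := Set.Finite.exists_minimal
    (s := {R : Subgroup H | R.Normal ∧ R ≠ ⊥}) (Set.toFinite _) ⟨⊤, inferInstance, top_ne_bot⟩
  haveI := hRn
  haveI hRc : IsMulCommutative R := by
    haveI : Nontrivial R := (Subgroup.nontrivial_iff_ne_bot R).2 hR1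
    have hlt := Group.IsSolvable.commutator_lt_top_of_nontrivial R
    by_cases hb : (commutator R).map R.subtype = ⊥
    · rw [Subgroup.map_eq_bot_iff_of_injective _ R.subtype_injective] at hb
      refine ⟨⟨fun x y => ?_⟩⟩
      have := Subgroup.commutator_mem_commutator (Subgroup.mem_top x) (Subgroup.mem_top y)
      rw [← commutator_def, hb, Subgroup.mem_bot, commutatorElement_eq_one_iff_mul_comm] at this
      exact this
    · exfalso
      refine hlt.ne (Subgroup.map_injective R.subtype_injective (le_antisymm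
        (Subgroup.map_mono le_top) ?_))
      rw [← MonoidHom.range_eq_map, Subgroup.range_subtype]
      exact hRmin ⟨ConjAct.normal_of_characteristic_of_normal, hb⟩ (Subgroup.map_subtype_le _)
  set C₀ : Subgroup G := N ⊓ Subgroup.centralizer ((R.map H.subtype : Subgroup G) : Set G) with hC₀
  have hC0 : C₀ = ⊥ := by
    rcases hinv C₀ inf_le_left (fun h hh w hw => ⟨hNn.conj_mem w hw.1 h, Subgroup.mem_centralizer_iff.2 (by
      rintro _ ⟨r, hr, rfl⟩
      have h1 := Subgroup.mem_centralizer_iff.1 hw.2 _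
        ⟨_, hRn.conj_mem r hr (⟨h, hh⟩ : H)⁻¹, rfl⟩
      simp only [Subgroup.subtype_apply, Subgroup.coe_mul, Subgroup.coe_inv, inv_inv] at h1 ⊢
      calc (r : G) * (h * w * h⁻¹) = h * ((h⁻¹ * r * h) * w) * h⁻¹ := by group
        _ = h * (w * (h⁻¹ * r * h)) * h⁻¹ := by rw [h1]
        _ = h * w * h⁻¹ * r := by group)⟩) with h | h
    · exact h
    · exfalso
      refine hR1 ((Subgroup.eq_bot_iff_forall _).2 fun r hr => Subtype.ext ?_)
      exact hfaith r r.2 fun n hn => Subgroup.mem_centralizer_iff.1 (h.ge hn).2 r ⟨r, hr, rfl⟩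
  have hsmul : ∀ h ∈ H, ∀ n : G, h • n • α = (h * n * h⁻¹) • α := by
    intro h hh n
    rw [smul_smul, mul_smul (h * n) h⁻¹ α, inv_smul_eq_iff.2 (mem_stabilizer_iff.1 hh).symm]
  -- every non-trivial orbit is regular for `R`
  have horb : ∀ n ∈ N, n ≠ 1 → (∀ r ∈ R, r • (n • α) = n • α → r = 1) ∧
      ∀ h : H, ∃ r ∈ R, h • (n • α) = r • (n • α) := by
    intro n hn hn1
    obtain ⟨r₀, hr₀, hr₀n⟩ : ∃ r₀ ∈ R, r₀ • (n • α) ≠ n • α := by
      by_contra hno
      push Not at hno
      refine hn1 (Subgroup.mem_bot.1 (hC0 ▸ (⟨hn, Subgroup.mem_centralizer_iff.2 ?_⟩ : n ∈ C₀)))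
      rintro _ ⟨r, hr, rfl⟩
      have h1 : (r : G) • n • α = n • α := hno r hr
      rw [hsmul r r.2] at h1
      have := hinjN _ (hNn.conj_mem n hn r) n hn h1
      exact mul_inv_eq_iff_eq_mul.1 this
    have hmax : IsCoatom (stabilizer H (n • α)) := CfsgLib.ExtPrim.stab_isCoatom _ (r₀ • (n • α))
      (hep α _) (mem_orbit _ _) hr₀n
    set L := stabilizer H (n • α) with hLdef
    have hRL : R ⊔ L = ⊤ := hmax.2 _ (lt_of_le_of_ne le_sup_right fun e =>
      hr₀n (e.ge (Subgroup.mem_sup_left hr₀)))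
    have hall : ∀ h : H, ∃ r ∈ R, h • (n • α) = r • (n • α) := by
      intro h
      obtain ⟨r, hr, l, hl, rfl⟩ := Subgroup.mem_sup_of_normal_left.1 (hRL.ge (Subgroup.mem_top h))
      exact ⟨r, hr, by rw [mul_smul, mem_stabilizer_iff.1 hl]⟩
    refine ⟨fun c hc hcn => ?_, hall⟩
    -- `c` fixes the whole orbit
    have hfix : ∀ h : H, c • h • (n • α) = h • (n • α) := by
      intro h
      obtain ⟨r, hr, e⟩ := hall h
      rw [e, smul_smul, show c * r = r * c from congrArg Subtype.val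
        (hRc.is_comm.comm (⟨c, hc⟩ : R) ⟨r, hr⟩), mul_smul, hcn]
    let W : Subgroup G := N ⊓ Subgroup.centralizer
      ((Subgroup.closure {d : G | ∃ h : H, d = h * c * h⁻¹} : Subgroup G) : Set G)
    have hnW : n ∈ W := by
      refine ⟨hn, ?_⟩
      show n ∈ Subgroup.centralizer _
      rw [Subgroup.centralizer_closure, Subgroup.mem_centralizer_iff]
      rintro _ ⟨h, rfl⟩
      have h1 := hfix h⁻¹
      have h2 : ((h : G) * c * (h : G)⁻¹) • n • α = n • α := by
        have e := congrArg (fun x => (h : G) • x) h1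
        simp only [Subgroup.smul_def, Subgroup.coe_inv, smul_inv_smul] at e
        rw [mul_smul, mul_smul]; exact e
      have hmem : (h : G) * c * (h : G)⁻¹ ∈ H := mul_mem (mul_mem h.2 c.2) (inv_mem h.2)
      rw [hsmul _ hmem] at h2
      exact mul_inv_eq_iff_eq_mul.1 (hinjN _ (hNn.conj_mem n hn _) n hn h2)
    rcases hinv W inf_le_left (fun g hg w hw => ⟨hNn.conj_mem w hw.1 g, by
      have hw2 : w ∈ Subgroup.centralizer _ := hw.2
      show g * w * g⁻¹ ∈ Subgroup.centralizer _
      rw [Subgroup.centralizer_closure, Subgroup.mem_centralizer_iff] at hw2 ⊢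
      rintro _ ⟨h, rfl⟩
      have h1 := hw2 _ ⟨(⟨g, hg⟩ : H)⁻¹ * h, rfl⟩
      simp only [Subgroup.coe_mul, Subgroup.coe_inv, mul_inv_rev, inv_inv] at h1
      calc (h : G) * c * (h : G)⁻¹ * (g * w * g⁻¹)
          = g * ((g⁻¹ * h * c * ((h : G)⁻¹ * g)) * w) * g⁻¹ := by group
        _ = g * (w * (g⁻¹ * h * c * ((h : G)⁻¹ * g))) * g⁻¹ := by rw [h1]
        _ = g * w * g⁻¹ * ((h : G) * c * (h : G)⁻¹) := by group⟩) with e | e
    · exact absurd (Subgroup.mem_bot.1 (e ▸ hnW)) hn1
    · refine Subtype.ext (hfaith c c.2 fun m hm => ?_)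
      exact Subgroup.mem_centralizer_iff.1 (e.ge hm).2 c (Subgroup.subset_closure ⟨1, by simp⟩)
  -- linear algebra
  let cg : CommGroup N := { (inferInstance : Group N) with mul_comm := fun a b => hNc.is_comm.comm a b }
  letI := cg
  let V := Additive N
  let ρ : H →* AddMonoid.End V :=
    { toFun := fun g => MonoidHom.toAdditive (MulAut.conjNormal (g : G) : MulAut N).toMonoidHom
      map_one' := AddMonoidHom.ext fun v => Additive.toMul.injective (Subtype.ext (by
        show ((MulAut.conjNormal ((1 : H) : G) : MulAut N) (Additive.toMul v) : G) = (Additive.toMul v : N)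
        rw [MulAut.conjNormal_apply, Subgroup.coe_one]; group))
      map_mul' := fun g h => AddMonoidHom.ext fun v => Additive.toMul.injective (Subtype.ext (by
        show ((MulAut.conjNormal ((g * h : H) : G) : MulAut N) (Additive.toMul v) : G) =
          ((MulAut.conjNormal (g : G) : MulAut N) ((MulAut.conjNormal (h : G) : MulAut N) (Additive.toMul v)) : G)
        rw [MulAut.conjNormal_apply, MulAut.conjNormal_apply, MulAut.conjNormal_apply, Subgroup.coe_mul]
        group)) }
  have hρv : ∀ (h : H) (v : V), ((Additive.toMul (ρ h v) : N) : G) =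
      (h : G) * ((Additive.toMul v : N) : G) * (h : G)⁻¹ :=
    fun h v => MulAut.conjNormal_apply (h : G) (Additive.toMul v)
  have hρ : ∀ h : H, ρ h = 1 → h = 1 := fun h e => Subtype.ext (hfaith h h.2 fun n hn => by
    have := hρv h (Additive.ofMul ⟨n, hn⟩)
    rw [e] at this
    exact (mul_inv_eq_iff_eq_mul.1 this.symm))
  let gens : Set (AddMonoid.End V) := {f | ∃ r ∈ R, f = ρ r}
  have hmul : ∀ (f g : AddMonoid.End V) (v : V), (f * g) v = f (g v) := fun _ _ _ => rfl
  haveI : Finite (AddMonoid.End V) := Finite.of_injective (fun f => (f : V → V)) DFunLike.coe_injective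
  let A : Subring (AddMonoid.End V) := Subring.closure gens
  have hgc : ∀ x ∈ gens, ∀ y ∈ gens, x * y = y * x := by
    rintro _ ⟨r, hr, rfl⟩ _ ⟨s, hs, rfl⟩
    rw [← map_mul, ← map_mul, show r * s = s * r from congrArg Subtype.val
      (hRc.is_comm.comm (⟨r, hr⟩ : R) ⟨s, hs⟩)]
  letI : CommRing A := Subring.closureCommRingOfComm hgc
  let π : R →* A :=
    { toFun := fun r => ⟨ρ r, Subring.subset_closure ⟨r, r.2, rfl⟩⟩
      map_one' := Subtype.ext (map_one ρ)
      map_mul' := fun r s => Subtype.ext (map_mul ρ _ _) }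
  -- conjugation by `H` stabilises `A`
  have hA : ∀ (h : H) (f : AddMonoid.End V), f ∈ A → ρ h * f * ρ h⁻¹ ∈ A := by
    intro h f hf
    have e1 : ρ h⁻¹ * ρ h = 1 := by rw [← map_mul, inv_mul_cancel, map_one]
    have e2 : ρ h * ρ h⁻¹ = 1 := by rw [← map_mul, mul_inv_cancel, map_one]
    induction hf using Subring.closure_induction with
    | mem x hx =>
      obtain ⟨r, hr, rfl⟩ := hx
      exact Subring.subset_closure ⟨_, hRn.conj_mem r hr h, by rw [map_mul, map_mul]⟩
    | zero => rw [mul_zero, zero_mul]; exact A.zero_mem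
    | one => rw [mul_one, e2]; exact A.one_mem
    | add x y _ _ hx hy => rw [mul_add, add_mul]; exact A.add_mem hx hy
    | neg x _ hx =>
      have e : ρ h * -x * ρ h⁻¹ = -(ρ h * x * ρ h⁻¹) := AddMonoidHom.ext fun v => map_neg (ρ h) _
      rw [e]; exact A.neg_mem hx
    | mul x y _ _ hx hy =>
      have e : ρ h * (x * y) * ρ h⁻¹ = (ρ h * x * ρ h⁻¹) * (ρ h * y * ρ h⁻¹) := by
        conv_rhs => rw [← mul_assoc, ← mul_assoc, mul_assoc (ρ h * x) (ρ h⁻¹) (ρ h), e1, mul_one]
        simp only [mul_assoc]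
      rw [e]; exact A.mul_mem hx hy
  -- every non-zero vector is cyclic
  have hcyc : ∀ v : V, v ≠ 0 → ∀ w : V, ∃ f : A, (f : AddMonoid.End V) v = w := by
    intro v hv w
    let W : Subgroup G :=
      { carrier := {x | ∃ f : A, ((Additive.toMul ((f : AddMonoid.End V) v) : N) : G) = x}
        one_mem' := ⟨0, rfl⟩
        mul_mem' := by rintro _ _ ⟨f, rfl⟩ ⟨g, rfl⟩; exact ⟨f + g, rfl⟩
        inv_mem' := by rintro _ ⟨f, rfl⟩; exact ⟨-f, rfl⟩ }
    let n : G := ((Additive.toMul v : N) : G)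
    have hn1 : n ≠ 1 := fun e => hv (Additive.toMul.injective (Subtype.ext e))
    have hWH : ∀ h ∈ H, ∀ x ∈ W, h * x * h⁻¹ ∈ W := by
      rintro h hh _ ⟨f, rfl⟩
      obtain ⟨r, hr, e⟩ := (horb n (Additive.toMul v).2 hn1).2 ⟨h, hh⟩
      have e1 : ρ ⟨h, hh⟩ v = ρ r v := by
        apply Additive.toMul.injective
        apply Subtype.ext
        rw [hρv, hρv]
        simp only [Subgroup.smul_def] at e
        rw [hsmul _ hh, hsmul _ r.2] at e
        exact hinjN _ (hNn.conj_mem _ (Additive.toMul v).2 _) _ (hNn.conj_mem _ (Additive.toMul v).2 _) e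
      refine ⟨⟨_, hA ⟨h, hh⟩ f f.2⟩ * π ⟨r, hr⟩, ?_⟩
      rw [← hρv ⟨h, hh⟩ ((f : AddMonoid.End V) v)]
      congr 2
      show ρ ⟨h, hh⟩ ((f : AddMonoid.End V) (ρ (⟨h, hh⟩ : H)⁻¹ (ρ r v))) = _
      rw [← e1, ← hmul (ρ _) (ρ _) v, ← map_mul, inv_mul_cancel, map_one]
      rfl
    have hle : W ≤ N := by rintro _ ⟨f, rfl⟩; exact Subtype.prop _
    rcases hinv W hle hWH with e | e
    · have : n ∈ W := ⟨1, rfl⟩
      rw [e, Subgroup.mem_bot] at this
      exact absurd this hn1
    · obtain ⟨f, hf⟩ : ((Additive.toMul w : N) : G) ∈ W := e.ge (Additive.toMul w).2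
      exact ⟨f, Additive.toMul.injective (Subtype.ext hf)⟩
  obtain ⟨n₀, hn₀⟩ := exists_ne (1 : N)
  set v₀ : V := Additive.ofMul n₀ with hv₀
  have hv₀0 : v₀ ≠ 0 := fun e => hn₀ (congrArg Additive.toMul e)
  have hinjA : ∀ v : V, v ≠ 0 → ∀ f : A, (f : AddMonoid.End V) v = 0 → f = 0 := by
    intro v hv f hf
    refine Subtype.ext (AddMonoidHom.ext fun w => ?_)
    obtain ⟨g, rfl⟩ := hcyc v hv w
    show (f : AddMonoid.End V) ((g : AddMonoid.End V) v) = 0
    rw [← hmul, show (f : AddMonoid.End V) * g = g * f from congrArg Subtype.val (mul_comm f g),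
      hmul, hf, map_zero]
  haveI : Fintype A := Fintype.ofFinite A
  haveI : Nontrivial A := ⟨⟨0, 1, fun e => hv₀0 (by
    have := congrArg (fun f : A => (f : AddMonoid.End V) v₀) e
    exact this.symm)⟩⟩
  haveI : NoZeroDivisors A := ⟨fun {f g} hfg => by
    by_contra hne
    push Not at hne
    have h1 : (g : AddMonoid.End V) v₀ ≠ 0 := fun e => hne.2 (hinjA v₀ hv₀0 g e)
    refine hne.1 (hinjA _ h1 f ?_)
    have := congrArg (fun k : A => (k : AddMonoid.End V) v₀) hfg
    exact this⟩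
  haveI : IsDomain A := NoZeroDivisors.to_isDomain A
  letI : Field A := Fintype.fieldOfDomain A
  have hcardA : Nat.card A = p ^ d := by
    rw [← hNcard, ← Nat.card_congr (Additive.toMul : V ≃ N)]
    exact Nat.card_congr (Equiv.ofBijective (fun f : A => (f : AddMonoid.End V) v₀)
      ⟨fun f g e => sub_eq_zero.1 (hinjA v₀ hv₀0 (f - g) (by
        show (f : AddMonoid.End V) v₀ - (g : AddMonoid.End V) v₀ = 0
        exact sub_eq_zero.2 e)), hcyc v₀ hv₀0⟩)
  haveI : CharP A p := by
    have h0 : ((p : ℕ) : A) = 0 := by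
      refine hinjA v₀ hv₀0 _ ?_
      have : ((p : ℕ) : A) = p • (1 : A) := by simp
      rw [this]
      show ((p • (1 : A) : A) : AddMonoid.End V) v₀ = 0
      rw [AddSubmonoidClass.coe_nsmul]
      show p • v₀ = 0
      exact congrArg Additive.ofMul (Subtype.ext (hNp n₀ n₀.2))
    exact (CharP.charP_iff_prime_eq_zero hp).2 h0
  letI : Algebra (ZMod p) A := ZMod.algebra A p
  -- `R` is cyclic of prime order
  have hπ : Function.Injective π := fun r s e => by
    have h1 : ρ ((s : H)⁻¹ * r) = 1 := by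
      rw [map_mul, show ρ (r : H) = ρ s from congrArg Subtype.val e, ← map_mul, inv_mul_cancel, map_one]
    exact (Subtype.ext (inv_mul_eq_one.1 (hρ _ h1))).symm
  haveI : IsCyclic R := isCyclic_of_subgroup_isDomain π hπ
  obtain ⟨q, hq, hqd⟩ := Nat.exists_prime_and_dvd (show Nat.card R ≠ 1 from fun e => hR1 (Subgroup.card_eq_one.1 e))
  have hRq : Nat.card R = q := by
    haveI : Fact q.Prime := ⟨hq⟩
    obtain ⟨x, hx⟩ := exists_prime_orderOf_dvd_card' q hqd
    let Q : Subgroup H :=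
      { carrier := {h | h ∈ R ∧ h ^ q = 1}
        one_mem' := ⟨one_mem R, one_pow q⟩
        mul_mem' := fun {y z} hy hz => ⟨mul_mem hy.1 hz.1, by
          rw [(show Commute y z from congrArg Subtype.val
            (hRc.is_comm.comm (⟨y, hy.1⟩ : R) ⟨z, hz.1⟩)).mul_pow, hy.2, hz.2, one_mul]⟩
        inv_mem' := fun {y} hy => ⟨inv_mem hy.1, by rw [inv_pow, hy.2, inv_one]⟩ }
    have hxQ : (x : H) ∈ Q := ⟨x.2, by rw [← hx, ← Subgroup.orderOf_coe, pow_orderOf_eq_one]⟩
    have h : R ≤ Q := hRmin ⟨⟨fun y hy g => ⟨hRn.conj_mem y hy.1 g, by rw [conj_pow, hy.2]; group⟩⟩,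
      fun e => by
        rw [e, Subgroup.mem_bot, ← orderOf_eq_one_iff, Subgroup.orderOf_coe, hx] at hxQ
        exact hq.ne_one hxQ⟩ (fun y hy => hy.1)
    refine Nat.dvd_antisymm ?_ hqd
    rw [← IsCyclic.exponent_eq_card]
    exact Monoid.exponent_dvd_of_forall_pow_eq_one fun r => Subtype.ext (h r.2).2
  have hpt : ∀ ω : Ω, ω ≠ α → ∃ n ∈ N, n ≠ 1 ∧ n • α = ω := fun ω hω => by
    obtain ⟨n, rfl⟩ := exists_smul_eq N α ω
    exact ⟨n, n.2, fun e => hω (by show (n : G) • α = α; rw [e, one_smul]), rfl⟩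
  have hlen : ∀ ω : Ω, ω ≠ α → Nat.card (orbit H ω) = q := by
    intro ω hω
    obtain ⟨n, hn, hn1, rfl⟩ := hpt ω hω
    rw [← hRq]
    symm
    refine Nat.card_congr (Equiv.ofBijective (fun r : R => (⟨(r : H) • n • α, mem_orbit _ _⟩ : orbit H (n • α)))
      ⟨fun r s e => ?_, ?_⟩)
    · have e' : (r : H) • n • α = (s : H) • n • α := congrArg Subtype.val e
      have := (horb n hn hn1).1 ((s : H)⁻¹ * r) (mul_mem (inv_mem s.2) r.2)
        (by rw [mul_smul, e', inv_smul_smul])
      exact (Subtype.ext (inv_mul_eq_one.1 this)).symm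
    · rintro ⟨_, h, rfl⟩
      obtain ⟨r, hr, e⟩ := (horb n hn hn1).2 h
      exact ⟨⟨r, hr⟩, Subtype.ext e.symm⟩
  obtain ⟨x, hx⟩ := IsCyclic.exists_generator (α := R)
  have hxo : orderOf (π x) = q := by
    rw [orderOf_injective π hπ, orderOf_eq_card_of_forall_mem_zpowers hx, hRq]
  have hA0 : π x ≠ 0 := fun e => by
    rw [e, orderOf_zero] at hxo; exact hq.ne_zero hxo.symm
  have hqdiv : q ∣ p ^ d - 1 := by
    rw [← hxo, ← hcardA, Nat.card_eq_fintype_card]
    exact orderOf_dvd_of_pow_eq_one (FiniteField.pow_card_sub_one_eq_one _ hA0)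
  have hord : ∀ i : ℕ, 0 < i → i < d → ¬ q ∣ p ^ i - 1 := by
    intro i hi hid hdvd
    have hpi : 1 < p ^ i := Nat.one_lt_pow hi.ne' hp.one_lt
    have hfix : ∀ r : R, (π r) ^ p ^ i = π r := by
      intro r
      have h1 : (π r) ^ (p ^ i - 1) = 1 := by
        obtain ⟨k, hk⟩ := hdvd
        rw [hk, pow_mul, ← map_pow, ← hRq, pow_card_eq_one', map_one, one_pow]
      rw [show p ^ i = (p ^ i - 1) + 1 by omega, pow_succ, h1, one_mul]
    have hall : ∀ f : A, f ^ p ^ i = f := by
      rintro ⟨f, hf⟩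
      induction hf using Subring.closure_induction with
      | mem y hy => obtain ⟨r, hr, rfl⟩ := hy; exact hfix ⟨r, hr⟩
      | zero => exact zero_pow (by omega)
      | one => exact one_pow _
      | add y z hy hz h1 h2 =>
        show (⟨y, hy⟩ + ⟨z, hz⟩ : A) ^ p ^ i = ⟨y, hy⟩ + ⟨z, hz⟩
        rw [add_pow_char_pow, h1, h2]
      | neg y hy h1 =>
        show (-(⟨y, hy⟩ : A)) ^ p ^ i = -⟨y, hy⟩
        rw [eq_neg_iff_add_eq_zero]
        nth_rw 2 [← h1]
        rw [← add_pow_char_pow, neg_add_cancel, zero_pow (by omega)]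
      | mul y z hy hz h1 h2 =>
        show (⟨y, hy⟩ * ⟨z, hz⟩ : A) ^ p ^ i = ⟨y, hy⟩ * ⟨z, hz⟩
        rw [mul_pow, h1, h2]
    have hle : Fintype.card A ≤ p ^ i := by
      have hpoly : (Polynomial.X ^ p ^ i - Polynomial.X : Polynomial A) ≠ 0 :=
        FiniteField.X_pow_card_sub_X_ne_zero A hpi
      calc Fintype.card A = (Finset.univ : Finset A).card := Finset.card_univ.symm
        _ ≤ (Polynomial.X ^ p ^ i - Polynomial.X : Polynomial A).roots.toFinset.card :=
          Finset.card_le_card fun f _ => by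
            rw [Multiset.mem_toFinset, Polynomial.mem_roots hpoly]; simp [hall f]
        _ ≤ _ := (Multiset.toFinset_card_le _).trans ((Polynomial.card_roots' _).trans
          (FiniteField.X_pow_card_sub_X_natDegree_eq A hpi).le)
    rw [← Nat.card_eq_fintype_card, hcardA] at hle
    exact absurd ((Nat.pow_le_pow_iff_right hp.one_lt).1 hle) (by omega)
  -- a point stabilizer in `H`
  set ω₀ : Ω := (n₀ : G) • α with hω₀
  have hn₀' : (n₀ : G) ≠ 1 := fun e => hn₀ (Subtype.ext e)
  set L := stabilizer H ω₀ with hL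
  let σ : L →* (A ≃ₐ[ZMod p] A) :=
    { toFun := fun l => AlgEquiv.ofRingEquiv (f :=
        { toFun := fun f => ⟨ρ l * f * ρ (l : H)⁻¹, hA l f f.2⟩
          invFun := fun f => ⟨ρ (l : H)⁻¹ * f * ρ (l : H), by simpa using hA (l : H)⁻¹ f f.2⟩
          left_inv := fun f => Subtype.ext (by
            show ρ (l : H)⁻¹ * (ρ l * f * ρ (l : H)⁻¹) * ρ (l : H) = f
            simp only [mul_assoc]
            rw [← map_mul, inv_mul_cancel, map_one, mul_one, ← mul_assoc, ← map_mul, inv_mul_cancel, map_one, one_mul])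
          right_inv := fun f => Subtype.ext (by
            show ρ (l : H) * (ρ (l : H)⁻¹ * f * ρ (l : H)) * ρ (l : H)⁻¹ = f
            simp only [mul_assoc]
            rw [← map_mul, mul_inv_cancel, map_one, mul_one, ← mul_assoc, ← map_mul, mul_inv_cancel, map_one, one_mul])
          map_mul' := fun f g => Subtype.ext (by
            show ρ l * (f * g : AddMonoid.End V) * ρ (l : H)⁻¹ = (ρ l * f * ρ (l : H)⁻¹) * (ρ l * g * ρ (l : H)⁻¹)
            simp only [mul_assoc]
            rw [← mul_assoc (ρ (l : H)⁻¹) (ρ l), ← map_mul, inv_mul_cancel, map_one, one_mul])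
          map_add' := fun f g => Subtype.ext (by
            show ρ l * (f + g : AddMonoid.End V) * ρ (l : H)⁻¹ = ρ l * f * ρ (l : H)⁻¹ + ρ l * g * ρ (l : H)⁻¹
            rw [mul_add, add_mul]) }) (fun c => ?_)
      map_one' := AlgEquiv.ext fun f => Subtype.ext (by
        show ρ ((1 : L) : H) * f * ρ ((1 : L) : H)⁻¹ = f
        rw [Subgroup.coe_one, inv_one, map_one, one_mul, mul_one])
      map_mul' := fun l m => AlgEquiv.ext fun f => Subtype.ext (by
        show ρ ((l * m : L) : H) * f * ρ ((l * m : L) : H)⁻¹ =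
          ρ (l : H) * (ρ (m : H) * f * ρ (m : H)⁻¹) * ρ (l : H)⁻¹
        rw [Subgroup.coe_mul, mul_inv_rev, map_mul, map_mul]
        simp only [mul_assoc]) }
  · have hσ : Function.Injective σ := by
      rw [injective_iff_map_eq_one]
      intro l hl
      have hcl : ∀ f : A, ρ (l : H) * (f : AddMonoid.End V) * ρ (l : H)⁻¹ = f := fun f =>
        congrArg Subtype.val (AlgEquiv.congr_fun hl f)
      have hlv : ρ (l : H) v₀ = v₀ := by
        apply Additive.toMul.injective
        apply Subtype.ext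
        rw [hρv]
        have h1 : (l : H) • ω₀ = ω₀ := l.2
        simp only [hω₀, Subgroup.smul_def] at h1
        rw [hsmul _ (l : H).2] at h1
        exact hinjN _ (hNn.conj_mem _ n₀.2 _) _ n₀.2 h1
      refine Subtype.ext (hρ _ (AddMonoidHom.ext fun w => ?_))
      obtain ⟨f, rfl⟩ := hcyc v₀ hv₀0 w
      show ρ (l : H) ((f : AddMonoid.End V) v₀) = (f : AddMonoid.End V) v₀
      conv_rhs => rw [← hcl f]
      rw [hmul, hmul]
      congr 2
      conv_lhs => rw [← show ρ (l : H)⁻¹ (ρ (l : H) v₀) = v₀ by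
        rw [← hmul, ← map_mul, inv_mul_cancel, map_one]; rfl]
      rw [hlv]
    haveI : IsCyclic L := isCyclic_of_injective σ hσ
    obtain ⟨l, hl⟩ := IsCyclic.exists_generator (α := L)
    have hLd : Nat.card L ∣ d := by
      have h1 := Subgroup.card_dvd_of_injective σ hσ
      have h2 : Module.finrank (ZMod p) A = d := by
        have h3 := Module.card_eq_pow_finrank (K := ZMod p) (V := A)
        rw [ZMod.card, ← Nat.card_eq_fintype_card, hcardA] at h3
        exact (Nat.pow_right_injective hp.two_le h3).symm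
      rwa [IsGalois.card_aut_eq_finrank, h2] at h1
    have hsup : ∀ h : H, ∃ r ∈ R, ∃ m ∈ L, h = r * m := by
      intro h
      obtain ⟨r, hr, e⟩ := (horb n₀ n₀.2 hn₀').2 h
      refine ⟨r, hr, r⁻¹ * h, ?_, by group⟩
      show (r⁻¹ * h) • ω₀ = ω₀
      rw [mul_smul, hω₀, e, inv_smul_smul]
    refine ⟨q, hq, hlen, hqdiv, hord, R.map H.subtype, Subgroup.map_subtype_le _, ?_, ?_, ⟨((l : H) : G), ?_⟩, ?_⟩
    · intro g hg
      refine Subgroup.mem_normalizer_iff.2 fun y => ⟨?_, fun hy => ?_⟩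
      · rintro ⟨r, hr, rfl⟩
        exact ⟨_, hRn.conj_mem r hr ⟨g, hg⟩, rfl⟩
      · obtain ⟨r, hr, e⟩ := hy
        refine ⟨_, hRn.conj_mem r hr (⟨g, hg⟩ : H)⁻¹, ?_⟩
        have e' : (r : G) = g * y * g⁻¹ := e
        show g⁻¹ * r * g⁻¹⁻¹ = y
        rw [e']; group
    · rw [Subgroup.card_map_of_injective H.subtype_injective, hRq]
    · refine le_antisymm (fun g hg => ?_) (sup_le (Subgroup.map_subtype_le _) (by
        rw [Subgroup.zpowers_le]; exact (l : H).2))
      obtain ⟨r, hr, m, hm, e⟩ := hsup ⟨g, hg⟩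
      obtain ⟨k, hk⟩ := hl ⟨m, hm⟩
      rw [show g = (r : G) * (m : G) from congrArg Subtype.val e]
      refine mul_mem (Subgroup.mem_sup_left ⟨r, hr, rfl⟩) (Subgroup.mem_sup_right ⟨k, ?_⟩)
      have := congrArg (fun z : L => ((z : H) : G)) hk
      simpa using this
    · have h1 := Subgroup.card_mul_index L
      have h2 : L.index = q := by
        rw [← hlen ω₀ (fun e => hn₀' (hinjN _ n₀.2 1 (one_mem N) (by rw [one_smul]; exact e))),
          Subgroup.index_eq_card]
        exact (Nat.card_congr (orbitEquivQuotientStabilizer H ω₀)).symm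
      rw [← h1, h2, mul_comm]
      exact mul_dvd_mul_left q hLd
  · rw [← ZMod.natCast_zmod_val c, map_natCast, map_natCast]

end Cfsg.Agent.S3496
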