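import Cfsg.Statements.S3498
import Cfsg.Agent.Lib.CoreThompsonFpf
import Cfsg.Agent.Lib.StableReplace

set_option autoImplicit false
open Cfsg

namespace Cfsg.Agent.S3498

/-- A maximal subgroup of a finite almost simple group does not have prime order. Here G is almost simple in the sense that it has a non-abelian simple normal subgroup T with trivial centralizer. -/
theorem result {G : Type*} [Group G] [Finite G] (T : Subgroup G) [T.Normal] (hT : IsSimpleGroup T) (hTc : ¬ IsMulCommutative T)
    (hC : Subgroup.centralizer (T : Set G) = ⊥) (H : Subgroup G) (hmax : IsCoatom H) : ¬ (Nat.card H).Prime := by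
  classical
  intro hr
  obtain ⟨r, hrdef⟩ : ∃ r, r = Nat.card H := ⟨_, rfl⟩
  rw [← hrdef] at hr
  haveI := Fact.mk hr
  haveI hTs := hT
  have hTbot : T ≠ ⊥ := fun e => by
    subst e
    haveI := hT.toNontrivial
    exact not_nontrivial ↥(⊥ : Subgroup G) inferInstance
  -- `H` is not normal and self-normalizing
  have hHn : Subgroup.normalizer (H : Set G) = H := by
    rcases (Subgroup.le_normalizer : H ≤ Subgroup.normalizer (H : Set G)).eq_or_lt with h | h
    · exact h.symm
    exfalso
    haveI : H.Normal := Subgroup.normalizer_eq_top_iff.1 (hmax.2 _ h)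
    -- a normal subgroup of prime order meets `T` trivially or contains it
    haveI := hT
    rcases (inferInstance : (H.subgroupOf T).Normal).eq_bot_or_eq_top with h1 | h1
    · have hle : H ≤ Subgroup.centralizer (T : Set G) := by
        intro x hx
        rw [Subgroup.mem_centralizer_iff]
        intro t ht
        have hmem : t * x * t⁻¹ * x⁻¹ ∈ H ⊓ T := ⟨H.mul_mem (Subgroup.Normal.conj_mem inferInstance x hx t) (H.inv_mem hx), by
          rw [mul_assoc, mul_assoc, ← mul_assoc x]
          exact T.mul_mem ht (Subgroup.Normal.conj_mem inferInstance _ (T.inv_mem ht) x)⟩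
        rw [Subgroup.subgroupOf_eq_bot] at h1
        have := h1.le_bot hmem
        rw [Subgroup.mem_bot, mul_inv_eq_one, mul_inv_eq_iff_eq_mul] at this
        exact this
      rw [hC, le_bot_iff] at hle
      rw [hle, Subgroup.card_bot] at hrdef
      exact hr.ne_one hrdef
    · rw [Subgroup.subgroupOf_eq_top] at h1
      refine hTc ⟨⟨fun a b => ?_⟩⟩
      haveI : IsCyclic H := isCyclic_of_prime_card hrdef.symm
      have := (IsCyclic.commutative (α := H)).is_comm.comm ⟨a, h1 a.2⟩ ⟨b, h1 b.2⟩
      exact Subtype.ext (congrArg (fun z : H => (z : G)) this)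
  have hHp : IsPGroup r H := IsPGroup.of_card (n := 1) (by rw [pow_one, hrdef])
  obtain ⟨S, hS⟩ := hHp.exists_le_sylow
  have hSH : (S : Subgroup G) = H := by
    rcases hS.eq_or_lt with h | h
    · exact h.symm
    · obtain ⟨g, -, hgH, hgN⟩ := CfsgLib.Stable.exists_normalizer_gt h S.2
      exact absurd (hHn ▸ hgN) hgH
  haveI : IsCyclic H := isCyclic_of_prime_card hrdef.symm
  have hHc : H ≤ Subgroup.centralizer (H : Set G) := fun x hx => Subgroup.mem_centralizer_iff.2 fun y hy =>
    congrArg (fun z : H => (z : G)) ((IsCyclic.commutative (α := H)).is_comm.comm ⟨y, hy⟩ ⟨x, hx⟩)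
  have hburn : Subgroup.normalizer ((S : Subgroup G) : Set G) ≤ Subgroup.centralizer ((S : Subgroup G) : Set G) := by
    rw [hSH, hHn]; exact hHc
  set K := (MonoidHom.transferSylow S hburn).ker with hK
  have hcompl := MonoidHom.ker_transferSylow_isComplement' S hburn
  have hdisj : K ⊓ H = ⊥ := by rw [← hSH]; exact hcompl.disjoint.eq_bot
  have hTK : T ≤ K := by
    haveI := hT
    rcases (inferInstance : (K.subgroupOf T).Normal).eq_bot_or_eq_top with h1 | h1
    · exfalso
      rw [Subgroup.subgroupOf_eq_bot] at h1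
      have hle : K ≤ Subgroup.centralizer (T : Set G) := by
        intro x hx
        rw [Subgroup.mem_centralizer_iff]
        intro t ht
        have hmem : t * x * t⁻¹ * x⁻¹ ∈ K ⊓ T := ⟨K.mul_mem (Subgroup.Normal.conj_mem inferInstance x hx t) (K.inv_mem hx), by
          rw [mul_assoc, mul_assoc, ← mul_assoc x]
          exact T.mul_mem ht (Subgroup.Normal.conj_mem inferInstance _ (T.inv_mem ht) x)⟩
        have := h1.le_bot hmem
        rw [Subgroup.mem_bot, mul_inv_eq_one, mul_inv_eq_iff_eq_mul] at this
        exact this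
      rw [hC, le_bot_iff] at hle
      have htop := hcompl.sup_eq_top
      rw [← hK, hle, bot_sup_eq, hSH] at htop
      exact hmax.1 htop
    · exact Subgroup.subgroupOf_eq_top.1 h1
  obtain ⟨h, hh⟩ := exists_prime_orderOf_dvd_card' (G := H) r (by rw [hrdef])
  have hfix : ∀ x : K, (MulAut.conjNormal (h : G)) x = x → x = 1 := by
    intro x hx
    have h1 : (h : G) * (x : G) * (h : G)⁻¹ = x := congrArg Subtype.val hx
    have hxN : (x : G) ∈ Subgroup.normalizer (H : Set G) := by
      have hgen : H = Subgroup.zpowers (h : G) := by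
        refine (Subgroup.eq_of_le_of_card_ge (Subgroup.zpowers_le.2 h.2) ?_).symm
        rw [Nat.card_zpowers, Subgroup.orderOf_coe, hh, hrdef]
      rw [hgen]
      refine Subgroup.centralizer_le_normalizer _ ?_
      rw [Subgroup.mem_centralizer_iff]
      intro z hz
      obtain ⟨j, rfl⟩ := Subgroup.mem_zpowers_iff.1 hz
      exact ((show Commute (h : G) (x : G) from mul_inv_eq_iff_eq_mul.1 h1).zpow_left j).eq
    rw [hHn] at hxN
    exact Subtype.ext (Subgroup.mem_bot.1 (hdisj ▸ ⟨x.2, hxN⟩))
  have hpow : (MulAut.conjNormal (h : G) : MulAut K) ^ r = 1 := by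
    have hp1 : ((h : G)) ^ r = 1 :=
      orderOf_dvd_iff_pow_eq_one.1 (by rw [Subgroup.orderOf_coe, hh])
    rw [← map_pow, hp1, map_one]
  have hnil : Group.IsNilpotent K :=
    CfsgLib.Core.isNilpotent_of_fpf_prime hr _ K le_rfl _ hpow hfix
  haveI := hnil
  haveI : Group.IsNilpotent T :=
    nilpotent_of_mulEquiv (Subgroup.subgroupOfEquivOfLe hTK)
  refine hTc ⟨⟨fun a b => ?_⟩⟩
  haveI := hT
  rcases (inferInstance : (Subgroup.center T).Normal).eq_bot_or_eq_top with h1 | h1
  · exfalso
    haveI := hT.toNontrivial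
    exact (Group.IsNilpotent.center_ne_bot (G := T)) h1
  · exact (Subgroup.mem_center_iff.1 (h1 ▸ Subgroup.mem_top b) a)

end Cfsg.Agent.S3498
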