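import Cfsg.Statements.S3504


set_option autoImplicit false
open Cfsg

namespace Cfsg.Agent.S3504

/-- For n ≥ 5, the fixed-point-free permutations of prime order in the symmetric group of degree n form a single conjugacy class if and only if n is a prime power. -/
theorem result (n : ℕ) (hn : 5 ≤ n) :
    Nat.card {c : ConjClasses (Equiv.Perm (Fin n)) // ∃ g : Equiv.Perm (Fin n), ConjClasses.mk g = c ∧ (orderOf g).Prime ∧ ∀ i : Fin n, g i ≠ i} = 1 ↔ IsPrimePow n := by
  classical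
  have hex : ∀ p : ℕ, p.Prime → p ∣ n → ∃ g : Equiv.Perm (Fin n), g.cycleType = Multiset.replicate (n / p) p := fun p hp hpn =>
    (Equiv.Perm.exists_with_cycleType_iff (Fin n)).2 ⟨by rw [Multiset.sum_replicate, smul_eq_mul, Nat.div_mul_cancel hpn, Fintype.card_fin],
      fun a ha => by rw [Multiset.eq_of_mem_replicate ha]; exact hp.two_le⟩
  choose σ hσ using hex
  have hord : ∀ p (hp : p.Prime) (hpn : p ∣ n), orderOf (σ p hp hpn) = p := fun p hp hpn => by
    rw [← Equiv.Perm.lcm_cycleType, hσ]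
    refine Nat.dvd_antisymm (Multiset.lcm_dvd.2 fun a ha => (Multiset.eq_of_mem_replicate ha).symm ▸ dvd_rfl) (Multiset.dvd_lcm (Multiset.mem_replicate.2 ⟨?_, rfl⟩))
    exact (Nat.div_pos (Nat.le_of_dvd (by omega) hpn) hp.pos).ne'
  have hfpf : ∀ g : Equiv.Perm (Fin n), g.cycleType.sum = n ↔ ∀ i, g i ≠ i := fun g => by
    rw [Equiv.Perm.sum_cycleType]
    constructor
    · intro h i
      rw [← Equiv.Perm.mem_support, Finset.eq_univ_of_card g.support (h.trans (Fintype.card_fin n).symm)]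
      exact Finset.mem_univ i
    · intro h
      rw [show g.support = Finset.univ from Finset.eq_univ_of_forall fun i => Equiv.Perm.mem_support.2 (h i), Finset.card_univ, Fintype.card_fin]
  let f : {p : ℕ // p.Prime ∧ p ∣ n} → {c : ConjClasses (Equiv.Perm (Fin n)) // ∃ g : Equiv.Perm (Fin n), ConjClasses.mk g = c ∧ (orderOf g).Prime ∧ ∀ i : Fin n, g i ≠ i} :=
    fun p => ⟨ConjClasses.mk (σ p.1 p.2.1 p.2.2), σ p.1 p.2.1 p.2.2, rfl, by rw [hord]; exact p.2.1, (hfpf _).1 (by rw [hσ, Multiset.sum_replicate, smul_eq_mul, Nat.div_mul_cancel p.2.2])⟩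
  have hf : Function.Bijective f := by
    refine ⟨fun p q h => ?_, fun c => ?_⟩
    · have h' := ConjClasses.mk_eq_mk_iff_isConj.1 (congrArg Subtype.val h)
      have h'' := Equiv.Perm.isConj_iff_cycleType_eq.1 h'
      rw [hσ, hσ] at h''
      have hm : p.1 ∈ Multiset.replicate (n / q.1) q.1 := by
        rw [← h'', Multiset.mem_replicate]
        exact ⟨(Nat.div_pos (Nat.le_of_dvd (by omega) p.2.2) p.2.1.pos).ne', rfl⟩
      exact Subtype.ext (Multiset.eq_of_mem_replicate hm)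
    · obtain ⟨g, hg, hgp, hg'⟩ := c.2
      obtain ⟨k, hk⟩ := Equiv.Perm.cycleType_prime_order hgp
      have hs := (hfpf g).2 hg'
      rw [hk, Multiset.sum_replicate, smul_eq_mul] at hs
      refine ⟨⟨orderOf g, hgp, Dvd.intro_left _ hs⟩, Subtype.ext ?_⟩
      rw [← hg]
      refine ConjClasses.mk_eq_mk_iff_isConj.2 (Equiv.Perm.isConj_iff_cycleType_eq.2 ?_)
      rw [hσ, hk]
      congr 1
      exact Nat.div_eq_of_eq_mul_left hgp.pos hs.symm
  rw [← Nat.card_eq_of_bijective f hf, isPrimePow_iff_unique_prime_dvd, Nat.card_eq_one_iff_exists]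
  constructor
  · rintro ⟨p, hp⟩
    exact ⟨p.1, p.2, fun q hq => congrArg Subtype.val (hp ⟨q, hq⟩)⟩
  · rintro ⟨p, hp, hu⟩
    exact ⟨⟨p, hp⟩, fun q => Subtype.ext (hu q.1 q.2)⟩

end Cfsg.Agent.S3504
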