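import Cfsg.Statements.S3508
import Cfsg.Agent.Lib.PermAffineElemOrder

set_option autoImplicit false
open Cfsg
open scoped IsMulCommutative

namespace Cfsg.Agent.S3508

/-- Let a finite group G act faithfully on a set Ω with p ^ m points (p prime) and have an elementary abelian normal p-subgroup N acting regularly on Ω (so G is a group of affine transformations of an m-dimensional space over the field with p elements). If G contains an element of order p ^ r with r ≥ 1, then p ^ (r − 1) ≤ m. In particular an element of order p ^ m forces m ≤ 2, and m ≤ 1 when p is odd. -/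
theorem result {G : Type*} [Group G] [Finite G] {Ω : Type*} [Fintype Ω] [MulAction G Ω] [FaithfulSMul G Ω] (p m : ℕ) (hp : p.Prime) (hcard : Fintype.card Ω = p ^ m)
    (N : Subgroup G) [N.Normal] (hNc : IsMulCommutative N) (hNp : ∀ n ∈ N, n ^ p = 1)
    (hNtr : MulAction.IsPretransitive N Ω) (hNreg : ∀ ω : Ω, MulAction.stabilizer N ω = ⊥)
    (g : G) (r : ℕ) (hr : 1 ≤ r) (hg : orderOf g = p ^ r) :
    p ^ (r - 1) ≤ m ∧ (r = m → m ≤ 2 ∧ (2 < p → m ≤ 1)) := by
  classical
  haveI : Fact p.Prime := ⟨hp⟩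
  haveI := hNtr
  obtain ⟨α⟩ : Nonempty Ω := by
    rw [← Fintype.card_pos_iff, hcard]; exact pow_pos hp.pos m
  have hNcard : Nat.card N = p ^ m := by
    rw [← hcard, ← Nat.card_eq_fintype_card, ← MulAction.index_stabilizer_of_transitive N α, hNreg, Subgroup.index_bot]
  obtain ⟨⟨n₀, hn₀⟩, hn₀α⟩ := MulAction.exists_smul_eq N α (g • α)
  set h := n₀⁻¹ * g with hh
  have hhα : h • α = α := by rw [hh, mul_smul, ← show n₀ • α = g • α from hn₀α, inv_smul_smul]
  let c : N →* N :=
    { toFun := fun x => ⟨h * x * h⁻¹, Subgroup.Normal.conj_mem inferInstance _ x.2 h⟩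
      map_one' := Subtype.ext (by simp)
      map_mul' := fun x y => Subtype.ext (by show h * (x * y : G) * h⁻¹ = h * x * h⁻¹ * (h * y * h⁻¹); group) }
  have hcg : ∀ x : N, ((c x : N) : G) = g * x * g⁻¹ := fun x => by
    show h * (x : G) * h⁻¹ = _
    have hc1 : n₀ * (h * x * h⁻¹) = h * x * h⁻¹ * n₀ :=
      congrArg Subtype.val (hNc.is_comm.comm (⟨n₀, hn₀⟩ : N) ⟨h * x * h⁻¹, Subgroup.Normal.conj_mem inferInstance _ x.2 h⟩)
    calc h * (x : G) * h⁻¹ = (h * x * h⁻¹ * n₀) * n₀⁻¹ := by group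
      _ = n₀ * (h * x * h⁻¹) * n₀⁻¹ := by rw [hc1]
      _ = g * x * g⁻¹ := by rw [hh]; group
  have hA : ∀ (j : ℕ) (x : N), ((c^[j] x : N) : G) = g ^ j * x * (g ^ j)⁻¹ := by
    intro j
    induction j with
    | zero => intro x; simp
    | succ j ih =>
      intro x
      rw [Function.iterate_succ_apply, ih, hcg, pow_succ]; group
  have hcpow : ∀ x : N, c^[p ^ r] x = x := fun x => Subtype.ext (by rw [hA, ← hg, pow_orderOf_eq_one]; simp)
  have hpow : ∀ j : ℕ, g ^ j = ((∏ i ∈ Finset.range j, c^[i] (⟨n₀, hn₀⟩ : N) : N) : G) * h ^ j := by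
    intro j
    induction j with
    | zero => simp
    | succ j ih =>
      rw [Finset.prod_range_succ, Subgroup.coe_mul, hA, pow_succ h j]
      calc g ^ (j + 1) = (g ^ j * n₀ * (g ^ j)⁻¹) * (g ^ j * (n₀⁻¹ * g)) := by rw [pow_succ]; group
        _ = (g ^ j * n₀ * (g ^ j)⁻¹) * (((∏ i ∈ Finset.range j, c^[i] (⟨n₀, hn₀⟩ : N) : N) : G) * h ^ j * h) := by rw [← hh, ← ih]
        _ = _ := by
          have hc2 : ∀ a b : N, (a : G) * b = b * a := fun a b => congrArg Subtype.val (hNc.is_comm.comm a b)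
          have hc3 := hc2 ⟨g ^ j * n₀ * (g ^ j)⁻¹, Subgroup.Normal.conj_mem inferInstance n₀ hn₀ (g ^ j)⟩ (∏ i ∈ Finset.range j, c^[i] (⟨n₀, hn₀⟩ : N))
          generalize hP : ((∏ i ∈ Finset.range j, c^[i] (⟨n₀, hn₀⟩ : N) : N) : G) = P at hc3 ⊢
          calc g ^ j * n₀ * (g ^ j)⁻¹ * (P * h ^ j * h) = (g ^ j * n₀ * (g ^ j)⁻¹ * P) * (h ^ j * h) := by group
            _ = P * (g ^ j * n₀ * (g ^ j)⁻¹) * (h ^ j * h) := by rw [show g ^ j * n₀ * (g ^ j)⁻¹ * P = P * (g ^ j * n₀ * (g ^ j)⁻¹) from hc3]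
  have hkey : m < p ^ (r - 1) → False := by
    intro hlt
    have key := fun x : N => CfsgLib.Perm.AffineElemOrder.group (p := p) (fun y : N => Subtype.ext (hNp _ y.2)) hNcard c hcpow hlt x
    have hgq : g ^ p ^ (r - 1) = h ^ p ^ (r - 1) := by rw [hpow, (key _).1]; simp
    have hgq1 : g ^ p ^ (r - 1) = 1 := by
      refine FaithfulSMul.eq_of_smul_eq_smul (α := Ω) fun ω => ?_
      obtain ⟨x, rfl⟩ := MulAction.exists_smul_eq N α ω
      show g ^ p ^ (r - 1) • (x : G) • α = (1 : G) • (x : G) • α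
      have hfix : g ^ p ^ (r - 1) • α = α := by
        rw [hgq]; exact MulAction.mem_stabilizer_iff.1 (Subgroup.pow_mem _ (MulAction.mem_stabilizer_iff.2 hhα) _)
      have hcx : g ^ p ^ (r - 1) * (x : G) * (g ^ p ^ (r - 1))⁻¹ = x := by rw [← hA, (key x).2]
      rw [one_smul, smul_smul, mul_inv_eq_iff_eq_mul.1 hcx, mul_smul, hfix]
    have := Nat.le_of_dvd (pow_pos hp.pos _) (orderOf_dvd_of_pow_eq_one hgq1)
    rw [hg] at this
    exact absurd this (not_le.2 (Nat.pow_lt_pow_right hp.one_lt (by omega)))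
  have hle : p ^ (r - 1) ≤ m := not_lt.1 hkey
  refine ⟨hle, fun hrm => ?_⟩
  subst hrm
  refine ⟨?_, fun hp2 => ?_⟩
  · by_contra h3
    have h2 : ∀ j, 3 ≤ j → j < 2 ^ (j - 1) := by
      intro j hj
      induction j, hj using Nat.le_induction with
      | base => norm_num
      | succ j hj ih => rw [show j + 1 - 1 = j - 1 + 1 by omega, pow_succ]; omega
    have := h2 r (by omega)
    have := Nat.pow_le_pow_left hp.two_le (r - 1)
    omega
  · by_contra h1
    have h2 : ∀ j, 2 ≤ j → j < 3 ^ (j - 1) := by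
      intro j hj
      induction j, hj using Nat.le_induction with
      | base => norm_num
      | succ j hj ih => rw [show j + 1 - 1 = j - 1 + 1 by omega, pow_succ]; omega
    have := h2 r (by omega)
    have := Nat.pow_le_pow_left (show 3 ≤ p by omega) (r - 1)
    omega

end Cfsg.Agent.S3508
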