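import Cfsg.Statements.S3511


set_option autoImplicit false
open Cfsg

namespace Cfsg.Agent.S3511

/-- Let a finite group G act faithfully on a set Ω. If every element of G of square-free order has a regular cycle (an orbit of the cyclic group it generates with trivial stabilizer), then every element of G has a regular cycle. -/
theorem result {G : Type*} [Group G] [Finite G] {Ω : Type*} [MulAction G Ω] [FaithfulSMul G Ω]
    (h : ∀ g : G, Squarefree (orderOf g) → ∃ ω : Ω, MulAction.stabilizer (Subgroup.zpowers g) ω = ⊥) (g : G) :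
    ∃ ω : Ω, MulAction.stabilizer (Subgroup.zpowers g) ω = ⊥ := by
  classical
  have hn := orderOf_pos g
  set n := orderOf g
  set d := ∏ q ∈ n.primeFactors, q with hd
  have hdn : d ∣ n := Nat.prod_primeFactors_dvd n
  have hd0 : d ≠ 0 := fun h => by rw [h, zero_dvd_iff] at hdn; omega
  have ho : orderOf (g ^ (n / d)) = d := by
    rw [orderOf_pow_of_dvd (Nat.div_pos (Nat.le_of_dvd hn hdn) (Nat.pos_of_ne_zero hd0)).ne' (Nat.div_dvd_of_dvd hdn), Nat.div_div_self hdn hn.ne']
  have hsq : Squarefree (orderOf (g ^ (n / d))) := by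
    rw [ho, hd]
    exact Finset.squarefree_prod_of_pairwise_isCoprime
      (fun a ha b hb hab => Nat.coprime_iff_isRelPrime.1 ((Nat.coprime_primes (Nat.prime_of_mem_primeFactors ha) (Nat.prime_of_mem_primeFactors hb)).2 hab))
      (fun q hq => (Nat.prime_of_mem_primeFactors hq).squarefree)
  obtain ⟨ω, hω⟩ := h _ hsq
  refine ⟨ω, ?_⟩
  by_contra hne
  obtain ⟨⟨z, hz⟩, hzω, hz1⟩ := (Subgroup.bot_or_exists_ne_one _).resolve_left hne
  obtain ⟨q, hq, hqz⟩ := Nat.exists_prime_and_dvd (show orderOf z ≠ 1 from fun e => hz1 (Subtype.ext (orderOf_eq_one_iff.1 e)))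
  set w := z ^ (orderOf z / q) with hw
  have hwo : orderOf w = q := by
    rw [hw, orderOf_pow_of_dvd (Nat.div_pos (Nat.le_of_dvd (orderOf_pos z) hqz) hq.pos).ne' (Nat.div_dvd_of_dvd hqz), Nat.div_div_self hqz (orderOf_pos z).ne']
  have hwg : w ∈ Subgroup.zpowers g := pow_mem hz _
  have hqn : q ∈ n.primeFactors := Nat.mem_primeFactors.2 ⟨hq, hwo ▸ orderOf_dvd_of_mem_zpowers hwg, hn.ne'⟩
  -- the unique subgroup of that order lies in the smaller cyclic group
  have hwd : w ∈ Subgroup.zpowers (g ^ (n / d)) := by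
    obtain ⟨k, hk⟩ := Subgroup.mem_zpowers_iff.1 hwg
    have hqd : q ∣ d := Finset.dvd_prod_of_mem _ hqn
    have h1 : g ^ (k * d) = 1 := by rw [zpow_mul, hk, zpow_natCast, ← orderOf_dvd_iff_pow_eq_one, hwo]; exact hqd
    have h2 : (n : ℤ) ∣ k * d := orderOf_dvd_iff_zpow_eq_one.2 h1
    obtain ⟨e, he⟩ := hdn
    have h3 : (e : ℤ) ∣ k := by
      rw [he] at h2
      push_cast at h2
      rw [mul_comm k] at h2
      exact Int.dvd_of_mul_dvd_mul_left (by exact_mod_cast hd0) h2
    obtain ⟨c, rfl⟩ := h3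
    refine Subgroup.mem_zpowers_iff.2 ⟨c, ?_⟩
    rw [← hk, he, Nat.mul_div_cancel_left _ (Nat.pos_of_ne_zero hd0), ← zpow_natCast, ← zpow_mul]
  have hwfix : w • ω = ω := by
    have hzfix : z • ω = ω := hzω
    exact (MulAction.stabilizer G ω).pow_mem hzfix _
  have : (⟨w, hwd⟩ : Subgroup.zpowers (g ^ (n / d))) ∈ (⊥ : Subgroup _) := hω ▸ hwfix
  rw [Subgroup.mem_bot] at this
  have := congrArg Subtype.val this
  rw [show w = 1 from this, orderOf_one] at hwo
  exact hq.ne_one hwo.symm

end Cfsg.Agent.S3511
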