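import Cfsg.Statements.S3514
import Cfsg.Agent.Lib.PermRelIndexNormal

set_option autoImplicit false
open Cfsg

namespace Cfsg.Agent.S3514

/-- Let p be a prime, V a finite vector space over the field with p elements, and H a group of linear transformations of V all of whose orbits on V have size coprime to p. (i) Every normal subgroup K of H has all its orbits on V of size coprime to p. (ii) If N is a group of linear transformations of V of order coprime to p that is normalized by H, then the group generated by N and H has all its orbits on V of size coprime to p. -/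
theorem result (p : ℕ) [Fact p.Prime] {V : Type*} [AddCommGroup V] [Module (ZMod p) V] [Finite V]
    (H : Subgroup (V ≃ₗ[ZMod p] V)) (hH : ∀ v : V, ¬ p ∣ Nat.card {u : V | ∃ h ∈ H, h v = u}) :
    (∀ K : Subgroup (V ≃ₗ[ZMod p] V), K ≤ H → H ≤ Subgroup.normalizer (K : Set (V ≃ₗ[ZMod p] V)) →
        ∀ v : V, ¬ p ∣ Nat.card {u : V | ∃ k ∈ K, k v = u}) ∧
    (∀ N : Subgroup (V ≃ₗ[ZMod p] V), ¬ p ∣ Nat.card N → H ≤ Subgroup.normalizer (N : Set (V ≃ₗ[ZMod p] V)) →
        ∀ v : V, ¬ p ∣ Nat.card {u : V | ∃ x ∈ N ⊔ H, x v = u}) := by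
  classical
  have horb : ∀ (K : Subgroup (V ≃ₗ[ZMod p] V)) v, Nat.card {u : V | ∃ h ∈ K, h v = u} = (MulAction.stabilizer K v).index := by
    intro K v
    rw [MulAction.index_stabilizer, Nat.card_coe_set_eq]
    congr 1
    ext u
    constructor
    · rintro ⟨h, hh, rfl⟩; exact ⟨⟨h, hh⟩, rfl⟩
    · rintro ⟨h, rfl⟩; exact ⟨h, h.2, rfl⟩
  have key : ∀ (K L : Subgroup (V ≃ₗ[ZMod p] V)) v, K ≤ L → Nat.card {u : V | ∃ h ∈ L, h v = u} = (MulAction.stabilizer L v).index ∧
      (MulAction.stabilizer K v).index = (MulAction.stabilizer L v).relIndex (K.subgroupOf L) := by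
    intro K L v hKL
    refine ⟨horb L v, ?_⟩
    rw [Subgroup.relIndex, show (MulAction.stabilizer L v).subgroupOf (K.subgroupOf L) = (MulAction.stabilizer K v).comap (Subgroup.subgroupOfEquivOfLe hKL).toMonoidHom from rfl]
    exact ((MulAction.stabilizer K v).index_comap_of_surjective (Subgroup.subgroupOfEquivOfLe hKL).surjective).symm
  constructor
  · intro K hK hN v hdvd
    apply hH v
    obtain ⟨h1, h2⟩ := key K H v hK
    rw [horb K v, h2] at hdvd
    rw [h1]
    haveI : (K.subgroupOf H).Normal := Subgroup.normal_subgroupOf_of_le_normalizer hN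
    haveI : Finite (V ≃ₗ[ZMod p] V) := Finite.of_injective (fun f => (f : V → V)) DFunLike.coe_injective
    exact hdvd.trans (CfsgLib.RelIdxNormal.relIndex_dvd_index _ _)
  · intro N hNp hN v hdvd
    obtain ⟨-, h2⟩ := key H (N ⊔ H) v le_sup_right
    rw [horb (N ⊔ H) v] at hdvd
    set S := MulAction.stabilizer ↥(N ⊔ H) v with hS
    set H' := H.subgroupOf (N ⊔ H) with hH'
    set N' := N.subgroupOf (N ⊔ H) with hN'
    haveI : N'.Normal := Subgroup.normal_subgroupOf_of_le_normalizer (sup_le Subgroup.le_normalizer hN)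
    have hpp : p.Prime := Fact.out
    haveI : Finite (V ≃ₗ[ZMod p] V) := Finite.of_injective (fun f => (f : V → V)) DFunLike.coe_injective
    -- `[G : S]` divides `|N| · [H : H ∩ S]`
    have h4 : (S ⊔ N').index ∣ S.relIndex H' := by
      have e : (S ⊔ N').relIndex H' ∣ S.relIndex H' := Subgroup.relIndex_dvd_of_le_left _ le_sup_left
      have hmul : ∀ x : ↥(N ⊔ H), ∃ h ∈ H', ∃ s ∈ (S ⊔ N'), x = h * s := by
        intro x
        have hx : x ∈ H' ⊔ N' := by
          have e2 : (N ⊔ H).subgroupOf (N ⊔ H) = N' ⊔ H' := Subgroup.subgroupOf_sup le_sup_left le_sup_right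
          rw [sup_comm H' N', ← e2]
          exact x.2
        rw [← SetLike.mem_coe, Subgroup.mul_normal] at hx
        obtain ⟨h, hh, n, hn, rfl⟩ := hx
        exact ⟨h, hh, n, le_sup_right (a := S) hn, rfl⟩
      refine dvd_trans (dvd_of_eq ?_) e
      refine le_antisymm ?_ ?_
      · let f : ↥H' ⧸ (S ⊔ N').subgroupOf H' → ↥(N ⊔ H) ⧸ (S ⊔ N') := fun q => Quotient.liftOn' q (fun b => ((b : ↥(N ⊔ H)) : ↥(N ⊔ H) ⧸ (S ⊔ N')))
          (fun b b' hb => QuotientGroup.eq.2 (show ((b⁻¹ * b' : H') : ↥(N ⊔ H)) ∈ S ⊔ N' from Subgroup.mem_subgroupOf.1 (QuotientGroup.leftRel_apply.1 hb)))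
        refine Nat.card_le_card_of_surjective f fun q => ?_
        induction q using QuotientGroup.induction_on with
        | H x =>
          obtain ⟨h, hh, s, hs, rfl⟩ := hmul x
          exact ⟨((⟨h, hh⟩ : H') : ↥H' ⧸ (S ⊔ N').subgroupOf H'), QuotientGroup.eq.2 (show h⁻¹ * (h * s) ∈ S ⊔ N' by simpa using hs)⟩
      · calc (S ⊔ N').relIndex H' ≤ (S ⊔ N').relIndex ⊤ :=
              Nat.card_le_card_of_injective _ (Subgroup.quotientSubgroupOfEmbeddingOfLE _ (le_top : H' ≤ ⊤)).injective
          _ = _ := Subgroup.relIndex_top_right _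
    have h5 : S.index = S.relIndex (S ⊔ N') * (S ⊔ N').index := (Subgroup.relIndex_mul_index le_sup_left).symm
    rw [h5] at hdvd
    rcases hpp.dvd_mul.1 hdvd with h | h
    · apply hNp
      rw [CfsgLib.RelIdxNormal.relIndex_normal_sup] at h
      refine h.trans ((Subgroup.index_dvd_card _).trans (dvd_of_eq ?_))
      exact Nat.card_congr (Subgroup.subgroupOfEquivOfLe le_sup_left).toEquiv
    · apply hH v
      rw [horb H v, h2]
      exact h.trans h4

end Cfsg.Agent.S3514
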