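import Cfsg.Statements.S3515


set_option autoImplicit false
open Cfsg

namespace Cfsg.Agent.S3515

theorem four : ∀ y : Fin 2 → ZMod 2, y = 0 ∨ y = Pi.single 0 1 ∨ y = Pi.single 1 1 ∨ y = Pi.single 0 1 + Pi.single 1 1 := by
  decide

/-- Every primitive affine permutation group of degree p² is 3-closed. Let p be a prime and G a group of permutations of the plane V = F_p² consisting of affine maps x ↦ Ax + b, containing all translations, and acting primitively on V. Then any permutation σ of V that agrees on every triple of points with some element of G (σ preserves every G-orbit on ordered triples) already lies in G. -/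
theorem result (p : ℕ) [Fact p.Prime] (G : Subgroup (Equiv.Perm (Fin 2 → ZMod p)))
    (haff : (G : Set (Equiv.Perm (Fin 2 → ZMod p))) ⊆ {τ : Equiv.Perm (Fin 2 → ZMod p) | ∃ (A : (Fin 2 → ZMod p) ≃ₗ[ZMod p] (Fin 2 → ZMod p)) (b : Fin 2 → ZMod p), ∀ x, τ x = A x + b})
    (htrans : ∀ b : Fin 2 → ZMod p, ∃ g ∈ G, ∀ x, g x = x + b) (hprim : MulAction.IsPreprimitive G (Fin 2 → ZMod p))
    (σ : Equiv.Perm (Fin 2 → ZMod p)) (hσ : (∀ t : Fin 3 → (Fin 2 → ZMod p), ∃ g ∈ G, ∀ i, σ (t i) = g (t i))) : σ ∈ G := by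
  classical
  let e₁ : Fin 2 → ZMod p := Pi.single 0 1
  let e₂ : Fin 2 → ZMod p := Pi.single 1 1
  obtain ⟨g, hg, hgt⟩ := hσ ![0, e₁, e₂]
  have h0 : σ 0 = g 0 := hgt 0
  have h1 : σ e₁ = g e₁ := hgt 1
  have h2 : σ e₂ = g e₂ := hgt 2
  suffices h : ∀ x, σ x = g x by
    rw [Equiv.ext h]; exact hg
  intro x
  by_cases hp : p = 2
  · subst hp
    by_contra hne
    -- a permutation is determined by its values at all but one point
    have hall : ∀ y : Fin 2 → ZMod 2, y = 0 ∨ y = e₁ ∨ y = e₂ ∨ y = e₁ + e₂ := four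
    obtain ⟨y, hy⟩ : ∃ y, g y = σ x := g.surjective _
    have hx : x = e₁ + e₂ := by
      rcases hall x with h | h | h | h
      · exact absurd (h ▸ h0) hne
      · exact absurd (h ▸ h1) hne
      · exact absurd (h ▸ h2) hne
      · exact h
    rcases hall y with h | h | h | h
    · rw [h, ← h0] at hy; rw [σ.injective hy.symm] at hne; exact hne h0
    · rw [h, ← h1] at hy; rw [σ.injective hy.symm] at hne; exact hne h1
    · rw [h, ← h2] at hy; rw [σ.injective hy.symm] at hne; exact hne h2
    · exact hne (by rw [← hy, h, hx])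
  have h2' : (2 : ZMod p) ≠ 0 := by
    intro h
    have : ((2 : ℕ) : ZMod p) = 0 := by exact_mod_cast h
    exact hp ((Nat.prime_dvd_prime_iff_eq (Fact.out) Nat.prime_two).1 ((ZMod.natCast_eq_zero_iff 2 p).1 this))
  have key : ∀ (a b : Fin 2 → ZMod p) (r : ZMod p), σ (a + r • (b - a)) = σ a + r • (σ b - σ a) := by
    intro a b r
    obtain ⟨g', hg', hgt'⟩ := hσ ![a, b, a + r • (b - a)]
    obtain ⟨A, c, hA⟩ := haff hg'
    have k0 := hgt' 0; have k1 := hgt' 1; have k2 := hgt' 2
    simp only [Matrix.cons_val_zero, Matrix.cons_val_one, Matrix.cons_val, hA] at k0 k1 k2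
    rw [k0, k1, k2]
    simp only [map_add, map_smul, map_sub, add_sub_add_right_eq_sub]
    abel
  obtain ⟨A, c, hA⟩ := haff hg
  have hc : c = σ 0 := by rw [h0, hA, map_zero, zero_add]
  have k1 : ∀ r : ZMod p, σ (r • e₁) = g (r • e₁) := fun r => by
    have := key 0 e₁ r
    simp only [zero_add, sub_zero] at this
    rw [this, h1, hA, hA, map_smul, ← hc, add_sub_cancel_right, add_comm]
  have k2 : ∀ r : ZMod p, σ (r • e₂) = g (r • e₂) := fun r => by
    have := key 0 e₂ r
    simp only [zero_add, sub_zero] at this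
    rw [this, h2, hA, hA, map_smul, ← hc, add_sub_cancel_right, add_comm]
  have hx : x = ((2 : ZMod p) * x 0) • e₁ + (2⁻¹ : ZMod p) • (((2 : ZMod p) * x 1) • e₂ - ((2 : ZMod p) * x 0) • e₁) := by
    funext i
    fin_cases i <;> simp [e₁, e₂] <;> field_simp <;> ring
  rw [hx, key, k1, k2, hA, hA, hA]
  simp only [map_add, map_smul, map_sub, add_sub_add_right_eq_sub]
  abel

end Cfsg.Agent.S3515
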