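import Cfsg.Statements.S3516


set_option autoImplicit false
open Cfsg

namespace Cfsg.Agent.S3516

theorem agree {K : Type*} [Field K] {d : ℕ} (hd : 3 ≤ d) (A : (Fin d → K) ≃ₗ[K] (Fin d → K)) (u w : Fin d → K) :
    ∃ A' : (Fin d → K) ≃ₗ[K] (Fin d → K), LinearMap.det (A' : (Fin d → K) →ₗ[K] (Fin d → K)) = 1 ∧ A' u = A u ∧ A' w = A w := by
  classical
  set W := Submodule.span K ({u, w} : Set (Fin d → K)) with hW
  have hne : W ≠ ⊤ := by
    intro h
    have h0 := finrank_span_finset_le_card (R := K) ({u, w} : Finset (Fin d → K))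
    rw [Set.finrank, Finset.coe_insert, Finset.coe_singleton] at h0
    have h1 : Module.finrank K W ≤ 2 := h0.trans Finset.card_le_two
    rw [h, finrank_top, Module.finrank_fin_fun] at h1
    omega
  obtain ⟨φ, hφ, hφW⟩ := Submodule.exists_le_ker_of_lt_top W (lt_top_iff_ne_top.2 hne)
  obtain ⟨v, hv⟩ : ∃ v, φ v ≠ 0 := by
    by_contra h
    exact hφ (LinearMap.ext fun x => by by_contra hx; exact h ⟨x, hx⟩)
  set c := (LinearMap.det (A : (Fin d → K) →ₗ[K] (Fin d → K)))⁻¹ with hc
  have hdA : LinearMap.det (A : (Fin d → K) →ₗ[K] (Fin d → K)) ≠ 0 := (LinearEquiv.isUnit_det' A).ne_zero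
  let D : (Fin d → K) →ₗ[K] (Fin d → K) := LinearMap.id + φ.smulRight (((c - 1) / φ v) • v)
  have hD : LinearMap.det D = c := by
    rw [← LinearMap.det_toMatrix', show LinearMap.toMatrix' D =
        1 + Matrix.replicateCol Unit (((c - 1) / φ v) • v) * Matrix.replicateRow Unit (fun i => φ (Pi.single i 1)) from ?_,
      Matrix.det_one_add_replicateCol_mul_replicateRow]
    · have : (fun i => φ (Pi.single i 1)) ⬝ᵥ (((c - 1) / φ v) • v) = φ (((c - 1) / φ v) • v) := by
        conv_rhs => rw [pi_eq_sum_univ' (((c - 1) / φ v) • v)]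
        simp only [map_sum, map_smul, dotProduct, smul_eq_mul]
        exact Finset.sum_congr rfl fun i _ => by ring
      rw [this, map_smul, smul_eq_mul, div_mul_cancel₀ _ hv]; ring
    · ext i j
      simp [D, LinearMap.toMatrix'_apply, Matrix.mul_apply, Matrix.one_apply, Pi.single_apply, mul_comm]
      ring
  have hdet : LinearMap.det ((A : (Fin d → K) →ₗ[K] (Fin d → K)) ∘ₗ D) = 1 := by
    rw [LinearMap.det_comp, hD, hc, mul_inv_cancel₀ hdA]
  refine ⟨LinearMap.equivOfDetNeZero _ (hdet ▸ one_ne_zero), ?_, ?_, ?_⟩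
  · convert hdet using 1
    congr 1
  · show A (D u) = A u
    have : φ u = 0 := hφW (Submodule.subset_span (by simp))
    simp [D, this]
  · show A (D w) = A w
    have : φ w = 0 := hφW (Submodule.subset_span (by simp))
    simp [D, this]

/-- Let p be an odd prime, d ≥ 3, and G a group of affine permutations x ↦ Ax + b of V = F_p^d containing all translations and all maps x ↦ Ax with A of determinant 1. Then the 3-closure of G is the full affine group: a permutation σ of V agrees on every triple of points with some element of G if and only if σ is an affine map. -/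
theorem result (p : ℕ) [Fact p.Prime] (hp : p ≠ 2) (d : ℕ) (hd : 3 ≤ d) (G : Subgroup (Equiv.Perm (Fin d → ZMod p)))
    (haff : (G : Set (Equiv.Perm (Fin d → ZMod p))) ⊆ {τ : Equiv.Perm (Fin d → ZMod p) | ∃ (A : (Fin d → ZMod p) ≃ₗ[ZMod p] (Fin d → ZMod p)) (b : Fin d → ZMod p), ∀ x, τ x = A x + b})
    (htrans : ∀ b : Fin d → ZMod p, ∃ g ∈ G, ∀ x, g x = x + b)
    (hsl : ∀ A : (Fin d → ZMod p) ≃ₗ[ZMod p] (Fin d → ZMod p), LinearMap.det (A : (Fin d → ZMod p) →ₗ[ZMod p] (Fin d → ZMod p)) = 1 → ∃ g ∈ G, ∀ x, g x = A x)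
    (σ : Equiv.Perm (Fin d → ZMod p)) :
    (∀ t : Fin 3 → (Fin d → ZMod p), ∃ g ∈ G, ∀ i, σ (t i) = g (t i)) ↔ σ ∈ {τ : Equiv.Perm (Fin d → ZMod p) | ∃ (A : (Fin d → ZMod p) ≃ₗ[ZMod p] (Fin d → ZMod p)) (b : Fin d → ZMod p), ∀ x, τ x = A x + b} := by
  classical
  have h2 : (2 : ZMod p) ≠ 0 := by
    intro h
    have : ((2 : ℕ) : ZMod p) = 0 := by exact_mod_cast h
    exact hp ((Nat.prime_dvd_prime_iff_eq (Fact.out) Nat.prime_two).1 ((ZMod.natCast_eq_zero_iff 2 p).1 this))
  constructor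
  · intro h
    have key : ∀ (a b : Fin d → ZMod p) (r : ZMod p), σ (a + r • (b - a)) = σ a + r • (σ b - σ a) := by
      intro a b r
      obtain ⟨g, hg, hgt⟩ := h ![a, b, a + r • (b - a)]
      obtain ⟨A, c, hA⟩ := haff hg
      have h0 := hgt 0; have h1 := hgt 1; have h2 := hgt 2
      simp only [Matrix.cons_val_zero, Matrix.cons_val_one, Matrix.cons_val, hA] at h0 h1 h2
      rw [h0, h1, h2]
      simp only [map_add, map_smul, map_sub, add_sub_add_right_eq_sub]
      abel
    let τ : (Fin d → ZMod p) → (Fin d → ZMod p) := fun x => σ x - σ 0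
    have hsmul : ∀ (r : ZMod p) x, τ (r • x) = r • τ x := fun r x => by
      have := key 0 x r
      simp only [zero_add, sub_zero] at this
      simp only [τ, this, add_sub_cancel_left]
    have hadd : ∀ x y, τ (x + y) = τ x + τ y := by
      intro x y
      have h1 := key x y (2⁻¹ : ZMod p)
      have e : x + (2⁻¹ : ZMod p) • (y - x) = (2⁻¹ : ZMod p) • (x + y) := by
        funext i; simp only [Pi.add_apply, Pi.smul_apply, Pi.sub_apply, smul_eq_mul]; field_simp; ring
      rw [e] at h1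
      have h3 : τ ((2⁻¹ : ZMod p) • (x + y)) = (2⁻¹ : ZMod p) • (τ x + τ y) := by
        simp only [τ, h1]
        funext i; simp only [Pi.add_apply, Pi.smul_apply, Pi.sub_apply, smul_eq_mul]; field_simp; ring
      rw [hsmul] at h3
      exact (smul_right_injective _ (inv_ne_zero h2)) h3
    let L : (Fin d → ZMod p) →ₗ[ZMod p] (Fin d → ZMod p) := { toFun := τ, map_add' := hadd, map_smul' := hsmul }
    have hinj : Function.Injective L := fun x y e => σ.injective (sub_left_injective (show σ x - σ 0 = σ y - σ 0 from e))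
    refine ⟨LinearEquiv.ofBijective L ⟨hinj, Finite.surjective_of_injective hinj⟩, σ 0, fun x => ?_⟩
    show σ x = (σ x - σ 0) + σ 0
    rw [sub_add_cancel]
  · rintro ⟨A, b, hA⟩ t
    obtain ⟨A', hdet, hA'1, hA'2⟩ : ∃ A' : (Fin d → ZMod p) ≃ₗ[ZMod p] (Fin d → ZMod p),
        LinearMap.det (A' : (Fin d → ZMod p) →ₗ[ZMod p] (Fin d → ZMod p)) = 1 ∧
        A' (t 1 - t 0) = A (t 1 - t 0) ∧ A' (t 2 - t 0) = A (t 2 - t 0) := agree hd A _ _
    obtain ⟨g1, hg1, hg1'⟩ := hsl A' hdet
    obtain ⟨g2, hg2, hg2'⟩ := htrans (A (t 0) + b - A' (t 0))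
    refine ⟨g2 * g1, mul_mem hg2 hg1, fun i => ?_⟩
    rw [Equiv.Perm.mul_apply, hg1', hg2', hA]
    have e : ∀ i, A' (t i - t 0) = A (t i - t 0) := by
      intro i
      fin_cases i
      · simp
      · exact hA'1
      · exact hA'2
    have := e i
    rw [map_sub, map_sub, sub_eq_iff_eq_add] at this
    rw [this]; abel

end Cfsg.Agent.S3516
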