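import Cfsg.Statements.S3517
import Cfsg.Agent.Lib.PermSmallFacts

set_option autoImplicit false
open Cfsg

namespace Cfsg.Agent.S3517

/-- For d ≥ 3, the 3-closure of the affine group AGL_d(2) acting on F_2^d is the full symmetric group: every permutation of F_2^d agrees on every ordered triple of points with some affine map (AGL_d(2) is 3-transitive). -/
theorem result (d : ℕ) (hd : 3 ≤ d) (σ : Equiv.Perm (Fin d → ZMod 2)) (t : Fin 3 → (Fin d → ZMod 2)) :
    ∃ (A : (Fin d → ZMod 2) ≃ₗ[ZMod 2] (Fin d → ZMod 2)) (b : Fin d → ZMod 2), ∀ i, σ (t i) = A (t i) + b := by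
  classical
  have key : ∀ u v : Fin 2 → (Fin d → ZMod 2), LinearIndependent (ZMod 2) u → LinearIndependent (ZMod 2) v →
      ∃ A : (Fin d → ZMod 2) ≃ₗ[ZMod 2] (Fin d → ZMod 2), ∀ i, A (u i) = v i := by
    intro u v hu hv
    obtain ⟨U', hU⟩ := Submodule.exists_isCompl (Submodule.span (ZMod 2) (Set.range u))
    obtain ⟨V', hV⟩ := Submodule.exists_isCompl (Submodule.span (ZMod 2) (Set.range v))
    have hr : Module.finrank (ZMod 2) U' = Module.finrank (ZMod 2) V' := by
      have h1 := Submodule.finrank_add_eq_of_isCompl hU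
      have h2 := Submodule.finrank_add_eq_of_isCompl hV
      rw [finrank_span_eq_card hu] at h1
      rw [finrank_span_eq_card hv] at h2
      omega
    let e1 := (Module.Basis.span hu).equiv (Module.Basis.span hv) (Equiv.refl _)
    let e2 := LinearEquiv.ofFinrankEq U' V' hr
    refine ⟨(Submodule.prodEquivOfIsCompl _ _ hU).symm ≪≫ₗ (e1.prodCongr e2) ≪≫ₗ
      Submodule.prodEquivOfIsCompl _ _ hV, fun i => ?_⟩
    have hmem : u i ∈ Submodule.span (ZMod 2) (Set.range u) := Submodule.subset_span ⟨i, rfl⟩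
    rw [LinearEquiv.trans_apply, LinearEquiv.trans_apply, show u i = ((⟨u i, hmem⟩ : Submodule.span (ZMod 2) (Set.range u)) : Fin d → ZMod 2) from rfl,
      Submodule.prodEquivOfIsCompl_symm_apply_left, LinearEquiv.prodCongr_apply, map_zero,
      Submodule.coe_prodEquivOfIsCompl', ZeroMemClass.coe_zero, add_zero]
    have hb : (⟨u i, hmem⟩ : Submodule.span (ZMod 2) (Set.range u)) = Module.Basis.span hu i :=
      (Module.Basis.span_apply hu i).symm
    rw [hb, Module.Basis.equiv_apply, Equiv.refl_apply, Module.Basis.span_apply]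
  -- an injective triple through the given one
  have hsmall : (Finset.univ.image t).card ≤ 3 := by
    refine Finset.card_image_le.trans ?_
    simp
  obtain ⟨T, hT, hTc⟩ := Finset.exists_superset_card_eq hsmall (show 3 ≤ Fintype.card (Fin d → ZMod 2) by
    rw [Fintype.card_fun, ZMod.card, Fintype.card_fin]
    exact le_trans (by norm_num) (Nat.pow_le_pow_right (by norm_num) (show 2 ≤ d by omega)))
  let s : Fin 3 → (Fin d → ZMod 2) := fun i => (T.equivFinOfCardEq hTc).symm i
  have hsinj : Function.Injective s := fun i j h =>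
    (T.equivFinOfCardEq hTc).symm.injective (Subtype.ext h)
  have hneg : ∀ x : Fin d → ZMod 2, -x = x := fun x => funext fun i => ZMod.neg_eq_self_mod_two (x i)
  have hli : ∀ r : Fin 3 → (Fin d → ZMod 2), Function.Injective r →
      LinearIndependent (ZMod 2) ![r 1 - r 0, r 2 - r 0] := by
    intro r hr
    rw [LinearIndependent.pair_iff]
    intro a b hab
    have h01 : r 1 - r 0 ≠ 0 := sub_ne_zero.2 fun h => absurd (hr h) (by decide)
    have h02 : r 2 - r 0 ≠ 0 := sub_ne_zero.2 fun h => absurd (hr h) (by decide)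
    have h12 : r 1 - r 0 ≠ r 2 - r 0 := fun h => absurd (hr (sub_left_injective h)) (by decide)
    have hz : ∀ c : ZMod 2, c = 0 ∨ c = 1 := by decide
    rcases hz a with rfl | rfl <;> rcases hz b with rfl | rfl
    · exact ⟨rfl, rfl⟩
    · rw [zero_smul, zero_add, one_smul] at hab; exact absurd hab h02
    · rw [zero_smul, add_zero, one_smul] at hab; exact absurd hab h01
    · rw [one_smul, one_smul, add_eq_zero_iff_eq_neg, hneg] at hab; exact absurd hab h12
  obtain ⟨A, hA⟩ := key _ _ (hli s hsinj) (hli (fun i => σ (s i)) (σ.injective.comp hsinj))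
  refine ⟨A, σ (s 0) - A (s 0), fun i => ?_⟩
  obtain ⟨j, hj⟩ : ∃ j, s j = t i :=
    ⟨T.equivFinOfCardEq hTc ⟨t i, hT (Finset.mem_image_of_mem t (Finset.mem_univ i))⟩, by
      simp only [s, Equiv.symm_apply_apply]⟩
  rw [← hj]
  have h1 : σ (s 1) - σ (s 0) = A (s 1 - s 0) := (hA 0).symm
  have h2 : σ (s 2) - σ (s 0) = A (s 2 - s 0) := (hA 1).symm
  rw [map_sub] at h1 h2
  fin_cases j
  · show σ (s 0) = A (s 0) + (σ (s 0) - A (s 0))
    abel
  · show σ (s 1) = A (s 1) + (σ (s 0) - A (s 0))
    rw [eq_add_of_sub_eq h1]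
    abel
  · show σ (s 2) = A (s 2) + (σ (s 0) - A (s 0))
    rw [eq_add_of_sub_eq h2]
    abel

end Cfsg.Agent.S3517
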