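import Cfsg.Statements.S3518
import Cfsg.Agent.Lib.PermPrimeDeg
import Cfsg.Agent.Lib.CorePrimitive

set_option autoImplicit false
open Cfsg

namespace Cfsg.Agent.S3518

/-- Closures of subgroups of the one-dimensional affine group. Let p be a prime and G a group of permutations of F_p lying in the affine group AGL₁(p) = {x ↦ ax + b, a ≠ 0} and containing all translations. (1) If G is a proper subgroup of AGL₁(p), then G is 2-closed: a permutation of F_p agreeing on every ordered pair of points with some element of G lies in G. (2) Every permutation of F_p agrees on every ordered pair with some element of AGL₁(p) (the 2-closure of AGL₁(p) is the symmetric group). (3) AGL₁(p) is 3-closed: a permutation agreeing on every ordered triple with some affine map is affine. -/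
theorem result (p : ℕ) [Fact p.Prime] (G : Subgroup (Equiv.Perm (ZMod p))) (hG : G ≤ Cfsg.affineGroup (ZMod p))
    (htrans : ∀ b : ZMod p, ∃ g ∈ G, ∀ x, g x = x + b) :
    (G ≠ Cfsg.affineGroup (ZMod p) → ∀ σ : Equiv.Perm (ZMod p), (∀ t : Fin 2 → ZMod p, ∃ g ∈ G, ∀ i, σ (t i) = g (t i)) → σ ∈ G) ∧
    (∀ σ : Equiv.Perm (ZMod p), (∀ t : Fin 2 → ZMod p, ∃ g ∈ Cfsg.affineGroup (ZMod p), ∀ i, σ (t i) = g (t i))) ∧
    (∀ σ : Equiv.Perm (ZMod p), (∀ t : Fin 3 → ZMod p, ∃ g ∈ Cfsg.affineGroup (ZMod p), ∀ i, σ (t i) = g (t i)) → σ ∈ Cfsg.affineGroup (ZMod p)) := by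
  classical
  have hp := (Fact.out : p.Prime)
  refine ⟨fun hne σ hσ => ?_, fun σ t => ?_, fun σ hσ => ?_⟩
  · let H : Subgroup (Equiv.Perm (ZMod p)) :=
      { carrier := {π | ∀ x y, ∃ g ∈ G, π x = g x ∧ π y = g y}
        one_mem' := fun x y => ⟨1, one_mem G, rfl, rfl⟩
        mul_mem' := fun {π τ} hπ hτ x y => by
          obtain ⟨g, hg, h1, h2⟩ := hτ x y
          obtain ⟨k, hk, k1, k2⟩ := hπ (g x) (g y)
          exact ⟨k * g, mul_mem hk hg, by simp [h1, k1], by simp [h2, k2]⟩
        inv_mem' := fun {π} hπ x y => by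
          obtain ⟨g, hg, h1, h2⟩ := hπ (π⁻¹ x) (π⁻¹ y)
          refine ⟨g⁻¹, inv_mem hg, ?_, ?_⟩
          · exact Equiv.Perm.eq_inv_iff_eq.2 (h1.symm.trans (π.apply_symm_apply x))
          · exact Equiv.Perm.eq_inv_iff_eq.2 (h2.symm.trans (π.apply_symm_apply y)) }
    have hGH : G ≤ H := fun g hg x y => ⟨g, hg, rfl, rfl⟩
    have hσH : σ ∈ H := fun x y => by
      obtain ⟨g, hg, h⟩ := hσ ![x, y]
      exact ⟨g, hg, h 0, h 1⟩
    haveI : MulAction.IsPretransitive H (ZMod p) := ⟨fun x y => by
      obtain ⟨g, hg, h⟩ := htrans (y - x)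
      exact ⟨⟨g, hGH hg⟩, show g x = y by rw [h]; ring⟩⟩
    have hsol : Group.IsSolvable H := by
      rcases CfsgLib.PrimeDeg.burnside (p := p) H (ZMod.card p) with h | h
      · exact h
      exfalso
      refine hne (le_antisymm hG ?_)
      rintro π ⟨a, b, hπ⟩
      rw [MulAction.is_two_pretransitive_iff] at h
      obtain ⟨⟨k, hk⟩, k0, k1⟩ := h (a := (0 : ZMod p)) (b := 1) (c := 0) (d := (a : ZMod p)) zero_ne_one a.ne_zero.symm
      obtain ⟨g, hg, g0, g1⟩ := hk 0 1
      replace g0 : g 0 = 0 := g0.symm.trans k0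
      replace g1 : g 1 = (a : ZMod p) := g1.symm.trans k1
      obtain ⟨c, d, hgf⟩ := hG hg
      rw [hgf, mul_zero, zero_add] at g0
      subst g0
      rw [hgf, mul_one, add_zero] at g1
      obtain ⟨t, ht, htb⟩ := htrans b
      have : π = t * g := Equiv.ext fun x => by
        rw [Equiv.Perm.mul_apply, htb, hgf, hπ, g1, add_zero]
      exact this ▸ mul_mem ht hg
    obtain ⟨t, ht, htx⟩ := htrans 1
    have hpow : ∀ (n : ℕ) x, (t ^ n) x = x + n := fun n => by
      induction n with
      | zero => simp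
      | succ n ih => intro x; rw [pow_succ', Equiv.Perm.mul_apply, ih, htx, Nat.cast_succ, add_assoc]
    have hord : orderOf t = p := orderOf_eq_prime (Equiv.ext fun x => by
      rw [hpow, ZMod.natCast_self, add_zero]; rfl) fun e => by
      have := htx 0
      rw [e] at this
      exact zero_ne_one (α := ZMod p) (by simp at this)
    -- an abelian normal subgroup
    have hHne : Nontrivial H := ⟨⟨⟨t, hGH ht⟩, 1, fun e => by
      have e' : t = 1 := congrArg Subtype.val e
      rw [e', orderOf_one] at hord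
      exact hp.ne_one hord.symm⟩⟩
    have hex : ∃ n, derivedSeries H n = ⊥ := Group.IsSolvable.solvable
    obtain ⟨n, hn⟩ : ∃ n, Nat.find hex = n + 1 := Nat.exists_eq_succ_of_ne_zero fun h0 => by
      have := Nat.find_spec hex
      rw [h0, derivedSeries_zero] at this
      exact top_ne_bot this
    let A := derivedSeries H n
    have hA : A ≠ ⊥ := Nat.find_min hex (by omega)
    have hAc : ∀ a ∈ A, ∀ b ∈ A, a * b = b * a := fun a ha b hb => by
      have h := Nat.find_spec hex
      rw [hn, derivedSeries_succ] at h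
      exact commutatorElement_eq_one_iff_mul_comm.1 (Subgroup.mem_bot.1 (h ▸ Subgroup.commutator_mem_commutator ha hb))
    have hprim : MulAction.IsPreprimitive H (ZMod p) := MulAction.IsPreprimitive.of_prime_card (by rw [Nat.card_zmod]; exact hp)
    haveI : A.Normal := derivedSeries_normal H n
    have hAt := CfsgLib.Core.Primitive.transitive_of_normal hprim hA
    have hAcard : Nat.card A = p := by
      haveI := hAt
      rw [← Subgroup.index_bot, ← CfsgLib.Core.Primitive.abelian_regular hAt hAc (0 : ZMod p),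
        MulAction.index_stabilizer_of_transitive, Nat.card_zmod]
    have htA : (⟨t, hGH ht⟩ : H) ∈ A := by
      rw [← QuotientGroup.eq_one_iff, ← orderOf_eq_one_iff]
      have h1 : orderOf (QuotientGroup.mk (⟨t, hGH ht⟩ : H) : H ⧸ A) ∣ p :=
        orderOf_dvd_of_pow_eq_one (by
          rw [← QuotientGroup.mk_pow, show (⟨t, hGH ht⟩ : H) ^ p = 1 from Subtype.ext (by
            show t ^ p = 1
            simpa [hord] using pow_orderOf_eq_one t)]
          rfl)
      refine ((Nat.dvd_prime hp).1 h1).resolve_right fun e => ?_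
      have h2 : p * p ∣ Nat.factorial p := by
        have h3 : p ∣ Nat.card (H ⧸ A) := e.symm.dvd.trans (orderOf_dvd_natCard _)
        have h4 := (mul_dvd_mul_right h3 (Nat.card A)).trans (dvd_of_eq (Subgroup.card_eq_card_quotient_mul_card_subgroup A).symm)
        rw [hAcard] at h4
        refine h4.trans ((Subgroup.card_subgroup_dvd_card H).trans (dvd_of_eq ?_))
        rw [Nat.card_perm, Nat.card_zmod]
      rw [← Nat.mul_factorial_pred hp.ne_zero] at h2
      have := (hp.dvd_factorial).1 (Nat.dvd_of_mul_dvd_mul_left hp.pos h2)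
      have := hp.pos
      omega
    have hAeq : A = Subgroup.zpowers (⟨t, hGH ht⟩ : H) := (Subgroup.eq_of_le_of_card_ge (Subgroup.zpowers_le.2 htA) (by
      rw [hAcard, Nat.card_zpowers, Subgroup.orderOf_mk, hord])).symm
    have hmem : (⟨σ, hσH⟩ : H) * ⟨t, hGH ht⟩ * (⟨σ, hσH⟩ : H)⁻¹ ∈ Subgroup.zpowers (⟨t, hGH ht⟩ : H) :=
      hAeq ▸ (derivedSeries_normal H n).conj_mem _ htA _
    obtain ⟨k, hk⟩ := (mem_powers_iff_mem_zpowers).2 hmem
    have hk' : t ^ k = σ * t * σ⁻¹ := congrArg Subtype.val hk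
    have hstep : ∀ x, σ (x + 1) = σ x + k := fun x => by
      rw [← htx, ← hpow k (σ x), hk']; simp
    have haff : ∀ m : ℕ, σ m = (k : ZMod p) * m + σ 0 := fun m => by
      induction m with
      | zero => simp
      | succ m ih => rw [Nat.cast_succ, hstep, ih]; ring
    have haff' : ∀ x, σ x = (k : ZMod p) * x + σ 0 := fun x => by
      obtain ⟨m, rfl⟩ := ZMod.natCast_zmod_surjective x
      exact haff m
    obtain ⟨g, hg, h⟩ := hσ ![0, 1]
    obtain ⟨c, d, hgf⟩ := hG hg
    have h0 : σ 0 = g 0 := h 0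
    have h1 : σ 1 = g 1 := h 1
    rw [hgf, mul_zero, zero_add] at h0
    rw [hgf, haff', h0, mul_one, mul_one, add_right_cancel_iff] at h1
    have : σ = g := Equiv.ext fun x => by rw [haff', hgf, h0, h1]
    exact this ▸ hg
  · by_cases h : t 0 = t 1
    · refine ⟨Equiv.addRight (σ (t 0) - t 0), ⟨1, σ (t 0) - t 0, fun x => by simp⟩, fun i => ?_⟩
      have e : t i = t 0 := by
        fin_cases i
        · rfl
        · exact h.symm
      rw [e]
      simp
    · have hd : (σ (t 0) - σ (t 1)) / (t 0 - t 1) ≠ 0 :=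
        div_ne_zero (sub_ne_zero.2 fun e => h (σ.injective e)) (sub_ne_zero.2 h)
      refine ⟨(Equiv.mulLeft₀ _ hd).trans (Equiv.addRight (σ (t 1) - (σ (t 0) - σ (t 1)) / (t 0 - t 1) * t 1)),
        ⟨Units.mk0 _ hd, _, fun x => rfl⟩, fun i => ?_⟩
      have hd0 := sub_ne_zero.2 h
      fin_cases i
      · simp only [Equiv.trans_apply, Equiv.coe_addRight, Equiv.mulLeft₀_apply, Fin.zero_eta, Fin.isValue]
        field_simp
        ring
      · simp only [Equiv.trans_apply, Equiv.coe_addRight, Equiv.mulLeft₀_apply, Fin.mk_one, Fin.isValue]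
        ring
  · have hd : σ 1 - σ 0 ≠ 0 := sub_ne_zero.2 fun e => one_ne_zero (σ.injective e)
    refine ⟨Units.mk0 _ hd, σ 0, fun x => ?_⟩
    obtain ⟨g, ⟨a, b, hg⟩, h⟩ := hσ ![0, 1, x]
    have h0 : σ 0 = g 0 := h 0
    have h1 : σ 1 = g 1 := h 1
    have h2 : σ x = g x := h 2
    rw [h2, Units.val_mk0, h0, h1, hg, hg, hg]
    ring

end Cfsg.Agent.S3518
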