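import Cfsg.Statements.S3524
import Cfsg.Agent.Lib.PermSmallFacts

set_option autoImplicit false
open Cfsg

namespace Cfsg.Agent.S3524

/-- A permutation group with a base is closed at one level above the base size. Let G be a group of permutations of a set Ω and suppose some k points α₁, …, α_k are fixed simultaneously only by the identity of G (a base of size k). Then G is (k+1)-closed: a permutation of Ω that agrees on every (k+1)-tuple of points with some element of G belongs to G. -/
theorem result {Ω : Type*} (G : Subgroup (Equiv.Perm Ω)) (k : ℕ) (α : Fin k → Ω)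
    (hbase : ∀ g ∈ G, (∀ i, g (α i) = α i) → g = 1) (σ : Equiv.Perm Ω)
    (hσ : ∀ t : Fin (k + 1) → Ω, ∃ g ∈ G, ∀ i, σ (t i) = g (t i)) : σ ∈ G := by
  classical
  rcases isEmpty_or_nonempty Ω with hE | ⟨⟨x₀⟩⟩
  · have : σ = 1 := Equiv.ext fun x => (IsEmpty.false x).elim
    exact this ▸ one_mem G
  obtain ⟨g, hg, hgi⟩ := hσ (Fin.snoc α x₀)
  suffices h : ∀ x, σ x = g x by rw [Equiv.ext h]; exact hg
  intro x
  obtain ⟨g', hg', hgi'⟩ := hσ (Fin.snoc α x)
  have h1 : g⁻¹ * g' = 1 := by
    refine hbase _ (mul_mem (inv_mem hg) hg') fun i => ?_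
    have e1 := hgi i.castSucc
    have e2 := hgi' i.castSucc
    rw [Fin.snoc_castSucc] at e1 e2
    rw [Equiv.Perm.mul_apply, ← e2, e1, Equiv.Perm.coe_inv, Equiv.symm_apply_apply]
  rw [inv_mul_eq_one.1 h1]
  have := hgi' (Fin.last k)
  rwa [Fin.snoc_last] at this

end Cfsg.Agent.S3524
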