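import Cfsg.Statements.S3546
import Cfsg.Agent.Lib.PermSmallFacts

set_option autoImplicit false
open Cfsg

namespace Cfsg.Agent.S3546

/-- Let G act faithfully and transitively on a finite set and let D be the subgroup of G generated by the derangements (the elements fixing no point). Then D is itself transitive, and D contains every element of G whose number of fixed points is different from 1. -/
theorem result {G Ω : Type*} [Group G] [Finite G] [MulAction G Ω] [FaithfulSMul G Ω] [Finite Ω]
    (htrans : MulAction.IsPretransitive G Ω) :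
    MulAction.IsPretransitive ↥(Subgroup.closure {g : G | ∀ ω : Ω, g • ω ≠ ω}) Ω ∧
    ∀ g : G, Nat.card (MulAction.fixedBy Ω g) ≠ 1 → g ∈ Subgroup.closure {g : G | ∀ ω : Ω, g • ω ≠ ω} := by
  classical
  haveI := htrans
  haveI : Fintype G := Fintype.ofFinite G
  haveI : Fintype Ω := Fintype.ofFinite Ω
  set D := Subgroup.closure {g : G | ∀ ω : Ω, g • ω ≠ ω} with hD
  haveI : Fintype D := Fintype.ofFinite D
  rcases isEmpty_or_nonempty Ω with hE | hne
  · refine ⟨⟨fun a => (IsEmpty.false a).elim⟩, fun g _ => ?_⟩
    exact Subgroup.subset_closure fun ω => (IsEmpty.false ω).elim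
  -- Burnside counts
  have hG : ∑ g : G, Nat.card (MulAction.fixedBy Ω g) = Nat.card G := by
    have h := MulAction.sum_card_fixedBy_eq_card_orbits_mul_card_group G Ω
    have h1 : Fintype.card (MulAction.orbitRel.Quotient G Ω) = 1 := by
      haveI : Subsingleton (MulAction.orbitRel.Quotient G Ω) :=
        (MulAction.pretransitive_iff_subsingleton_quotient G Ω).1 htrans
      haveI : Nonempty (MulAction.orbitRel.Quotient G Ω) := ⟨Quotient.mk'' hne.some⟩
      exact Fintype.card_eq_one_iff.2 ⟨Classical.arbitrary _, fun y => Subsingleton.elim _ _⟩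
    rw [h1, one_mul] at h
    rw [Nat.card_eq_fintype_card, ← h]
    exact Finset.sum_congr rfl fun g _ => Nat.card_eq_fintype_card
  set r := Fintype.card (MulAction.orbitRel.Quotient D Ω) with hr
  have hDsum : ∑ g : D, Nat.card (MulAction.fixedBy Ω (g : G)) = r * Nat.card D := by
    have h := MulAction.sum_card_fixedBy_eq_card_orbits_mul_card_group D Ω
    rw [hr, Nat.card_eq_fintype_card, ← h]
    exact Finset.sum_congr rfl fun g _ => Nat.card_eq_fintype_card
  have hr0 : 0 < r := Fintype.card_pos_iff.2 ⟨Quotient.mk'' hne.some⟩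
  have hout : ∀ g : G, g ∉ D → 1 ≤ Nat.card (MulAction.fixedBy Ω g) := by
    intro g hg
    have : ¬ ∀ ω : Ω, g • ω ≠ ω := fun h => hg (Subgroup.subset_closure h)
    push Not at this
    obtain ⟨ω, hω⟩ := this
    haveI : Nonempty (MulAction.fixedBy Ω g) := ⟨⟨ω, hω⟩⟩
    exact Nat.card_pos
  have hsplit := Finset.sum_filter_add_sum_filter_not (Finset.univ : Finset G) (fun g => g ∈ D)
    (fun g => Nat.card (MulAction.fixedBy Ω g))
  rw [hG] at hsplit
  have hinD : ∑ g ∈ Finset.univ.filter (fun g => g ∈ D), Nat.card (MulAction.fixedBy Ω g) = r * Nat.card D := by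
    rw [← hDsum]
    exact Finset.sum_subtype _ (by simp) _
  have hcardD : (Finset.univ.filter (fun g => g ∈ D)).card = Nat.card D := by
    rw [Nat.card_eq_fintype_card, Fintype.card_subtype]
  have hcard := Finset.card_filter_add_card_filter_not (s := (Finset.univ : Finset G)) (fun g => g ∈ D)
  rw [Finset.card_univ, ← Nat.card_eq_fintype_card, hcardD] at hcard
  have hge : (Finset.univ.filter (fun g => g ∉ D)).card ≤
      ∑ g ∈ Finset.univ.filter (fun g => g ∉ D), Nat.card (MulAction.fixedBy Ω g) := by
    rw [Finset.card_eq_sum_ones]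
    exact Finset.sum_le_sum fun g hg => hout g (Finset.mem_filter.1 hg).2
  rw [hinD] at hsplit
  have hDpos : 0 < Nat.card D := Nat.card_pos
  have hr1 : r = 1 := by
    by_contra h
    have : 2 * Nat.card D ≤ r * Nat.card D := Nat.mul_le_mul_right _ (by omega)
    omega
  have hDtr : MulAction.IsPretransitive D Ω :=
    (MulAction.pretransitive_iff_subsingleton_quotient D Ω).2 (Fintype.card_le_one_iff_subsingleton.1 hr1.le)
  refine ⟨hDtr, fun g hg => by_contra fun hgD => ?_⟩
  rw [hr1, one_mul] at hsplit
  have hlt : (Finset.univ.filter (fun g => g ∉ D)).card <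
      ∑ g ∈ Finset.univ.filter (fun g => g ∉ D), Nat.card (MulAction.fixedBy Ω g) := by
    rw [Finset.card_eq_sum_ones]
    refine Finset.sum_lt_sum (fun x hx => hout x (Finset.mem_filter.1 hx).2) ⟨g, ?_, ?_⟩
    · exact Finset.mem_filter.2 ⟨Finset.mem_univ g, hgD⟩
    · have := hout g hgD
      omega
  omega

end Cfsg.Agent.S3546
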