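import Cfsg.Statements.S3547


set_option autoImplicit false
open Cfsg

namespace Cfsg.Agent.S3547

/-- Let G act faithfully and transitively on a finite set Ω, let D be the subgroup generated by the derangements, and let r_G and r_D be the numbers of orbits of G and of D on ordered pairs of points (the permutation ranks). Then r_D − 1 = (r_G − 1)·[G : D]. -/
theorem result {G Ω : Type*} [Group G] [Finite G] [MulAction G Ω] [FaithfulSMul G Ω] [Finite Ω]
    (htrans : MulAction.IsPretransitive G Ω) :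
    Nat.card (MulAction.orbitRel.Quotient ↥(Subgroup.closure {g : G | ∀ ω : Ω, g • ω ≠ ω}) (Ω × Ω)) - 1 =
      (Nat.card (MulAction.orbitRel.Quotient G (Ω × Ω)) - 1) * (Subgroup.closure {g : G | ∀ ω : Ω, g • ω ≠ ω}).index := by
  classical
  letI := Fintype.ofFinite G
  letI := Fintype.ofFinite Ω
  set D := Subgroup.closure {g : G | ∀ ω : Ω, g • ω ≠ ω} with hD
  haveI := htrans
  rcases isEmpty_or_nonempty Ω with hΩ | hΩ
  · simp
  have burn : ∀ (H : Type _) [Group H] [Fintype H] (α : Type _) [MulAction H α] [Fintype α],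
      ∑ h : H, Nat.card (MulAction.fixedBy α h) = Nat.card (MulAction.orbitRel.Quotient H α) * Nat.card H := by
    intro H _ _ α _ _
    letI : Fintype (MulAction.orbitRel.Quotient H α) := Fintype.ofFinite _
    simp only [Nat.card_eq_fintype_card]
    exact MulAction.sum_card_fixedBy_eq_card_orbits_mul_card_group H α
  have hpair : ∀ g : G, Nat.card (MulAction.fixedBy (Ω × Ω) g) = Nat.card (MulAction.fixedBy Ω g) * Nat.card (MulAction.fixedBy Ω g) := fun g => by
    rw [← Nat.card_prod]
    exact Nat.card_congr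
      ⟨fun x => (⟨x.1.1, congrArg Prod.fst x.2⟩, ⟨x.1.2, congrArg Prod.snd x.2⟩), fun x => ⟨(x.1.1, x.2.1), Prod.ext x.1.2 x.2.2⟩,
        fun x => rfl, fun x => rfl⟩
  have hsplit : ∀ f : G → ℕ, ∑ g : G, f g = ∑ d : D, f d + ∑ g ∈ Finset.univ.filter (· ∉ D), f g := fun f => by
    rw [← Finset.sum_filter_add_sum_filter_not Finset.univ (· ∈ D) f, Finset.sum_subtype _ (fun x => by simp : ∀ x, x ∈ Finset.univ.filter (· ∈ D) ↔ x ∈ D)]
  set O := Finset.univ.filter (· ∉ D) with hO
  have hOpos : ∀ g ∈ O, 1 ≤ Nat.card (MulAction.fixedBy Ω g) := by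
    intro g hg
    by_contra h
    refine (Finset.mem_filter.1 hg).2 (Subgroup.subset_closure fun ω hω => h ?_)
    haveI : Nonempty (MulAction.fixedBy Ω g) := ⟨⟨ω, hω⟩⟩
    exact Nat.card_pos
  have hcardO : Nat.card D + O.card = Nat.card G := by
    have := hsplit (fun _ => 1)
    simpa [Nat.card_eq_fintype_card, Finset.card_univ] using this.symm
  have h1 := burn G Ω
  rw [hsplit] at h1
  have hDb := burn D Ω
  have hfix : ∀ d : D, Nat.card (MulAction.fixedBy Ω d) = Nat.card (MulAction.fixedBy Ω (d : G)) := fun d => rfl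
  simp only [hfix] at hDb
  haveI : Subsingleton (MulAction.orbitRel.Quotient G Ω) := (MulAction.pretransitive_iff_subsingleton_quotient G Ω).1 htrans
  haveI : Nonempty (MulAction.orbitRel.Quotient G Ω) := ⟨Quotient.mk'' (Classical.arbitrary Ω)⟩
  rw [Nat.card_unique, one_mul, hDb] at h1
  have hm : 0 < Nat.card (MulAction.orbitRel.Quotient D Ω) := by
    haveI : Nonempty (MulAction.orbitRel.Quotient D Ω) := ⟨Quotient.mk'' (Classical.arbitrary Ω)⟩
    exact Nat.card_pos
  have hOle : O.card ≤ ∑ g ∈ O, Nat.card (MulAction.fixedBy Ω g) := by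
    simpa using Finset.sum_le_sum hOpos
  have hmD := Nat.le_mul_of_pos_left (Nat.card D) hm
  have hsumO : ∑ g ∈ O, Nat.card (MulAction.fixedBy Ω g) = O.card := by omega
  have hone : ∀ g ∈ O, Nat.card (MulAction.fixedBy Ω g) = 1 := by
    intro g hg
    refine le_antisymm ?_ (hOpos g hg)
    by_contra h
    have := Finset.sum_lt_sum hOpos ⟨g, hg, not_le.1 h⟩
    simp only [Finset.sum_const, smul_eq_mul, mul_one] at this
    omega
  have h2 := burn G (Ω × Ω)
  rw [hsplit] at h2
  have hD2 := burn D (Ω × Ω)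
  have hfix2 : ∀ d : D, Nat.card (MulAction.fixedBy (Ω × Ω) d) = Nat.card (MulAction.fixedBy (Ω × Ω) (d : G)) := fun d => rfl
  simp only [hfix2] at hD2
  rw [hD2, Finset.sum_congr rfl (fun g hg => by rw [hpair, hone g hg]; : ∀ g ∈ O, Nat.card (MulAction.fixedBy (Ω × Ω) g) = 1 * 1), Finset.sum_const, smul_eq_mul, mul_one, mul_one] at h2
  have hidx := D.card_mul_index
  have hrD : 1 ≤ Nat.card (MulAction.orbitRel.Quotient D (Ω × Ω)) := by
    haveI : Nonempty (MulAction.orbitRel.Quotient D (Ω × Ω)) := ⟨Quotient.mk'' (Classical.arbitrary Ω, Classical.arbitrary Ω)⟩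
    exact Nat.card_pos
  have hrG : 1 ≤ Nat.card (MulAction.orbitRel.Quotient G (Ω × Ω)) := by
    haveI : Nonempty (MulAction.orbitRel.Quotient G (Ω × Ω)) := ⟨Quotient.mk'' (Classical.arbitrary Ω, Classical.arbitrary Ω)⟩
    exact Nat.card_pos
  refine Nat.eq_of_mul_eq_mul_left (Nat.card_pos : 0 < Nat.card D) ?_
  rw [mul_left_comm, hidx, Nat.mul_sub, Nat.sub_mul, mul_one, one_mul, mul_comm (Nat.card D)]
  omega

end Cfsg.Agent.S3547
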