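import Cfsg.Statements.S3560


set_option autoImplicit false
open Cfsg

namespace Cfsg.Agent.S3560

/-- Let K be a finite group isomorphic to a direct product of r ≥ 2 groups all of the same order m ≥ 3. Then K is not a B-group: there is a primitive but not doubly transitive permutation group (on some finite set) containing a regular subgroup isomorphic to K. -/
theorem result {K : Type*} [Group K] [Finite K] {ι : Type*} [Fintype ι] (F : ι → Type*) [∀ i, Group (F i)]
    (hr : 2 ≤ Fintype.card ι) (m : ℕ) (hm : 3 ≤ m) (hcard : ∀ i, Nat.card (F i) = m) (e : K ≃* (∀ i, F i)) :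
    ∃ (n : ℕ) (G R : Subgroup (Equiv.Perm (Fin n))), R ≤ G ∧ Nonempty (↥R ≃* K) ∧
      MulAction.IsPretransitive ↥R (Fin n) ∧ (∀ a : Fin n, MulAction.stabilizer ↥R a = ⊥) ∧
      MulAction.IsPreprimitive ↥G (Fin n) ∧ ¬ MulAction.IsMultiplyPretransitive ↥G (Fin n) 2 := by
  classical
  have eK : K ≃* (∀ i, F i) := e
  clear e
  haveI : ∀ i, Finite (F i) := fun i => Nat.finite_of_card_ne_zero (by rw [hcard i]; omega)
  haveI : NeZero m := ⟨by omega⟩
  let eF : ∀ i, F i ≃ Fin m := fun i => (Finite.equivFin (F i)).trans (finCongr (hcard i))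
  let n := Fintype.card (ι → Fin m)
  let e : (ι → Fin m) ≃ Fin n := Fintype.equivFin _
  let d : (ι → Fin m) → (ι → Fin m) → ℕ := fun u v => (Finset.univ.filter fun i => u i ≠ v i).card
  let G : Subgroup (Equiv.Perm (Fin n)) :=
    { carrier := {σ | ∀ a b, d (e.symm (σ a)) (e.symm (σ b)) = d (e.symm a) (e.symm b)}
      one_mem' := fun a b => rfl
      mul_mem' := fun {σ τ} hσ hτ a b => (hσ (τ a) (τ b)).trans (hτ a b)
      inv_mem' := fun {σ} hσ a b => by
        have := hσ (σ⁻¹ a) (σ⁻¹ b)
        simpa using this.symm }
  -- coordinatewise permutations and permutations of the coordinates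
  let cw : (ι → Equiv.Perm (Fin m)) → Equiv.Perm (Fin n) := fun π => e.permCongr (Equiv.piCongrRight π)
  have hcw : ∀ π, cw π ∈ G := fun π a b => by
    show d (e.symm (e _)) (e.symm (e _)) = _
    rw [Equiv.symm_apply_apply, Equiv.symm_apply_apply]
    show (Finset.univ.filter fun i => π i (e.symm a i) ≠ π i (e.symm b i)).card =
      (Finset.univ.filter fun i => e.symm a i ≠ e.symm b i).card
    simp only [ne_eq, EmbeddingLike.apply_eq_iff_eq]
  let cp : Equiv.Perm ι → Equiv.Perm (Fin n) := fun π => e.permCongr (Equiv.arrowCongr π (Equiv.refl _))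
  have hcp : ∀ π, cp π ∈ G := fun π a b => by
    show d (e.symm (e _)) (e.symm (e _)) = _
    simp only [Equiv.symm_apply_apply, d]
    refine Finset.card_bij (fun i _ => π.symm i) (fun i hi => ?_) (fun i _ j _ h => π.symm.injective h) (fun j hj => ⟨π j, ?_, by simp⟩)
    · simp only [Finset.mem_filter, Finset.mem_univ, true_and] at hi ⊢
      exact hi
    · simp only [Finset.mem_filter, Finset.mem_univ, true_and] at hj ⊢
      simpa using hj
  have hcwv : ∀ π u, cw π (e u) = e (fun i => π i (u i)) := fun π u => by
    show e (Equiv.piCongrRight π (e.symm (e u))) = _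
    rw [e.symm_apply_apply]; rfl
  have hcpv : ∀ π u, cp π (e u) = e (fun i => u (π.symm i)) := fun π u => by
    show e (Equiv.arrowCongr π (Equiv.refl _) (e.symm (e u))) = _
    rw [e.symm_apply_apply]; rfl
  -- the regular subgroup
  let v : K ≃ Fin n := (eK.toEquiv.trans (Equiv.piCongrRight eF)).trans e
  let ρ : K →* Equiv.Perm (Fin n) :=
    { toFun := fun k => v.permCongr (Equiv.mulLeft k)
      map_one' := Equiv.ext fun a => by simp [Equiv.permCongr_apply]
      map_mul' := fun k l => Equiv.ext fun a => by simp [Equiv.permCongr_apply, mul_assoc] }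
  have hρv : ∀ k a, ρ k a = v (k * v.symm a) := fun _ _ => rfl
  have hρinj : Function.Injective ρ := fun k l h => by
    have := Equiv.congr_fun h (v 1)
    rw [hρv, hρv, v.symm_apply_apply, mul_one, mul_one] at this
    exact v.injective this
  have hρG : ∀ k, ρ k ∈ G := fun k => by
    have he : ρ k = cw fun i => (eF i).permCongr (Equiv.mulLeft (eK k i)) := by
      refine Equiv.ext fun a => ?_
      obtain ⟨u, rfl⟩ := e.surjective a
      rw [hρv, hcwv]
      show e (Equiv.piCongrRight eF (eK (k * eK.symm ((Equiv.piCongrRight eF).symm (e.symm (e u)))))) = _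
      rw [e.symm_apply_apply, map_mul, MulEquiv.apply_symm_apply]
      rfl
    rw [he]; exact hcw _
  haveI htransG : MulAction.IsPretransitive G (Fin n) :=
    ⟨fun a b => ⟨⟨ρ (v.symm b * (v.symm a)⁻¹), hρG _⟩, by
      show ρ _ a = b
      rw [hρv, inv_mul_cancel_right, v.apply_symm_apply]⟩⟩
  refine ⟨n, G, ρ.range, by rintro _ ⟨k, rfl⟩; exact hρG k, ⟨(MonoidHom.ofInjective hρinj).symm⟩, ?_, ?_, ?_, ?_⟩
  · exact ⟨fun a b => ⟨⟨_, v.symm b * (v.symm a)⁻¹, rfl⟩, by
      show ρ _ a = b
      rw [hρv, inv_mul_cancel_right, v.apply_symm_apply]⟩⟩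
  · intro a
    rw [Subgroup.eq_bot_iff_forall]
    rintro ⟨_, k, rfl⟩ h
    have h' : ρ k a = a := h
    rw [hρv] at h'
    have : k = 1 := mul_eq_right.1 (v.injective (h'.trans (v.apply_symm_apply a).symm))
    subst this
    exact Subtype.ext (map_one ρ)
  · refine MulAction.IsPreprimitive.of_isTrivialBlock_base (e fun _ => 0) ?_
    intro B h0 hB
    rw [MulAction.isBlock_iff_smul_eq_of_mem] at hB
    by_cases hs : B.Subsingleton
    · exact Or.inl hs
    right
    have hstab : ∀ g ∈ G, g (e fun _ => 0) ∈ B → ∀ w ∈ B, g w ∈ B := by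
      intro g hg hg0 w hw
      have := hB (g := ⟨g, hg⟩) h0 hg0
      rw [← this]
      exact ⟨w, hw, rfl⟩
    obtain ⟨x, hxB, i, hxi⟩ : ∃ x, e x ∈ B ∧ ∃ i, x i ≠ 0 := by
      by_contra hno
      push Not at hno
      refine hs fun a ha b hb => ?_
      obtain ⟨u, rfl⟩ := e.surjective a
      obtain ⟨u', rfl⟩ := e.surjective b
      rw [show u = fun _ => 0 from funext (hno u ha), show u' = fun _ => 0 from funext (hno u' hb)]
    obtain ⟨c, hc0, hcx⟩ : ∃ c : Fin m, c ≠ 0 ∧ c ≠ x i := by
      by_contra hno
      push Not at hno
      have : (Finset.univ : Finset (Fin m)) ⊆ {0, x i} := fun c _ => by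
        by_cases hc : c = 0
        · simp [hc]
        · simp [hno c hc]
      have := (Finset.card_le_card this).trans Finset.card_le_two
      rw [Finset.card_univ, Fintype.card_fin] at this
      omega
    -- change the coordinate `i`
    have h1 : e (Function.update x i c) ∈ B := by
      have := hstab _ (hcw fun j => if j = i then Equiv.swap (x i) c else 1) (by
        rw [hcwv]
        convert h0 using 2
        funext j
        by_cases hj : j = i
        · rw [if_pos hj, Equiv.swap_apply_of_ne_of_ne hxi.symm hc0.symm]
        · rw [if_neg hj]; rfl) _ hxB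
      rw [hcwv] at this
      convert this using 2
      funext j
      by_cases hj : j = i
      · subst hj; rw [if_pos rfl, Function.update_self, Equiv.swap_apply_left]
      · rw [if_neg hj, Function.update_of_ne hj]; rfl
    -- translate `x` to the origin
    let τ : (ι → Fin m) → ι → Equiv.Perm (Fin m) := fun y j => Equiv.swap 0 (y j)
    have hτ : ∀ y, e y ∈ B → ∀ w ∈ B, cw (τ y) w ∈ B := fun y hy =>
      hstab _ (hcw _) (by
        rw [hcwv, show (fun j => τ y j 0) = y from funext fun j => Equiv.swap_apply_left _ _]
        exact hy)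
    obtain ⟨c', hc', h2⟩ : ∃ c', c' ≠ 0 ∧ e (Function.update (fun _ => 0) i c') ∈ B := by
      refine ⟨Equiv.swap 0 (x i) c, ?_, ?_⟩
      · rw [Equiv.swap_apply_of_ne_of_ne hc0 hcx]; exact hc0
      · have := hτ x hxB _ h1
        rw [hcwv] at this
        convert this using 2
        funext j
        by_cases hj : j = i
        · subst hj; simp [τ]
        · simp [τ, Function.update_of_ne hj]
    have h3 : ∀ j (b : Fin m), e (Function.update (fun _ => 0) j b) ∈ B := by
      intro j b
      by_cases hb : b = 0
      · rw [hb]; convert h0 using 2; exact Function.update_eq_self j _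
      have hg : cp (Equiv.swap i j) (e fun _ => 0) ∈ B := by rw [hcpv]; exact h0
      have h4 := hstab _ (hcp _) hg _ h2
      rw [hcpv] at h4
      have h5 := hstab _ (hcw fun l => if l = j then Equiv.swap c' b else 1) (by
        rw [hcwv]
        convert h0 using 2
        funext l
        by_cases hl : l = j
        · rw [if_pos hl, Equiv.swap_apply_of_ne_of_ne hc'.symm (Ne.symm hb)]
        · rw [if_neg hl]; rfl) _ h4
      rw [hcwv] at h5
      convert h5 using 2
      funext l
      by_cases hl : l = j
      · subst hl; simp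
      · rw [if_neg hl, Function.update_of_ne hl]
        show (0 : Fin m) = Function.update (fun _ => (0 : Fin m)) i c' ((Equiv.swap i j).symm l)
        rw [Function.update_of_ne]
        rw [Equiv.symm_swap]
        intro he
        apply hl
        rw [← Equiv.swap_apply_self i j l, he, Equiv.swap_apply_left]
    have h6 : ∀ y, e y ∈ B → ∀ j b, e (Function.update y j b) ∈ B := by
      intro y hy j b
      have := hτ y hy _ (h3 j (Equiv.swap 0 (y j) b))
      rw [hcwv] at this
      convert this using 2
      funext l
      by_cases hl : l = j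
      · subst hl; simp [τ]
      · simp [τ, Function.update_of_ne hl]
    refine Set.eq_univ_of_forall fun a => ?_
    obtain ⟨u, rfl⟩ := e.surjective a
    suffices h : ∀ s : Finset ι, e (fun j => if j ∈ s then u j else 0) ∈ B by
      simpa using h Finset.univ
    intro s
    induction s using Finset.induction with
    | empty => simpa using h0
    | insert j s hj ih =>
      have := h6 _ ih j (u j)
      convert this using 2
      funext l
      by_cases hl : l = j
      · subst hl; simp
      · simp [Function.update_of_ne hl, hl]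
  · intro h
    rw [MulAction.is_two_pretransitive_iff] at h
    obtain ⟨i, j, hij⟩ := Fintype.exists_pair_of_one_lt_card (show 1 < Fintype.card ι by omega)
    let o : ι → Fin m := fun _ => 0
    let one' : Fin m := ⟨1, by omega⟩
    have h1 : one' ≠ 0 := fun h => by have := congrArg Fin.val h; simp [one'] at this
    let p : ι → Fin m := Function.update o i one'
    let q : ι → Fin m := Function.update p j one'
    have hp : o ≠ p := fun h => h1 (by simpa [p, o] using (congrFun h i).symm)
    have hq : o ≠ q := fun h => h1 (by simpa [q, o] using (congrFun h j).symm)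
    obtain ⟨g, hg0, hg1⟩ := h (e.injective.ne hp) (e.injective.ne hq)
    have hd := g.2 (e o) (e p)
    have hg0' : (g : Equiv.Perm (Fin n)) (e o) = e o := hg0
    have hg1' : (g : Equiv.Perm (Fin n)) (e p) = e q := hg1
    rw [hg0', hg1', e.symm_apply_apply, e.symm_apply_apply, e.symm_apply_apply] at hd
    have d1 : (Finset.univ.filter fun l => o l ≠ p l) = {i} := by
      ext l
      by_cases hl : l = i
      · subst hl; simp [p, o, h1.symm]
      · simp [p, o, Function.update_of_ne hl, hl]
    have d2 : ({i, j} : Finset ι) ⊆ Finset.univ.filter fun l => o l ≠ q l := by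
      intro l hl
      simp only [Finset.mem_insert, Finset.mem_singleton] at hl
      rcases hl with rfl | rfl
      · simp [q, p, o, Function.update_of_ne hij, h1.symm]
      · simp [q, o, h1.symm]
    have h2 := Finset.card_le_card d2
    simp only [d] at hd
    rw [hd, d1, Finset.card_pair hij, Finset.card_singleton] at h2
    omega

end Cfsg.Agent.S3560
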