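import Cfsg.Statements.S3573


set_option autoImplicit false
open Cfsg

namespace Cfsg.Agent.S3573

/-- Let 1 ≤ k with 2k < n and consider the symmetric group of degree n acting on the k-subsets of an n-set. Let r be a prime dividing the number C(n,k) of k-subsets. If r is odd, then every permutation of order r fixes some k-subset if and only if r ≤ k and the remainder of k modulo r is at most the remainder of n modulo r. If r = 2, then every involution fixes some k-subset if and only if k is even or n is odd. -/
theorem result (n k : ℕ) (hk : 1 ≤ k) (hkn : 2 * k < n) (r : ℕ) (hr : r.Prime) (hrd : r ∣ Nat.choose n k) :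
    (r ≠ 2 → ((∀ σ : Equiv.Perm (Fin n), orderOf σ = r → ∃ s : Finset (Fin n), s.card = k ∧ s.image σ = s) ↔
      (r ≤ k ∧ k % r ≤ n % r))) ∧
    (r = 2 → ((∀ σ : Equiv.Perm (Fin n), orderOf σ = 2 → ∃ s : Finset (Fin n), s.card = k ∧ s.image σ = s) ↔
      (Even k ∨ Odd n))) := by
  classical
  haveI : Fact r.Prime := ⟨hr⟩
  have hrn : r ≤ n := by
    by_contra h
    have h1 : ¬ r ∣ n.factorial := fun hd => h ((hr.dvd_factorial).1 hd)
    refine h1 (hrd.trans ⟨k.factorial * (n - k).factorial, ?_⟩)
    rw [← mul_assoc, Nat.choose_mul_factorial_mul_factorial (by omega : k ≤ n)]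
  -- which fixed-point counts occur
  have main : (∀ σ : Equiv.Perm (Fin n), orderOf σ = r → ∃ s : Finset (Fin n), s.card = k ∧ s.image σ = s) ↔ k % r ≤ n % r := by
    constructor
    · intro h
      obtain ⟨σ, hσ⟩ := (Equiv.Perm.exists_with_cycleType_iff (Fin n) (m := Multiset.replicate (n / r) r)).2
        ⟨by rw [Multiset.sum_replicate, smul_eq_mul, Fintype.card_fin]; exact Nat.div_mul_le_self n r,
         fun a ha => by rw [Multiset.eq_of_mem_replicate ha]; exact hr.two_le⟩
      have hord : orderOf σ = r := by
        rw [← Equiv.Perm.lcm_cycleType, hσ]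
        exact Nat.dvd_antisymm (Multiset.lcm_dvd.2 fun a ha => (Multiset.eq_of_mem_replicate ha).symm ▸ dvd_rfl)
          (Multiset.dvd_lcm (Multiset.mem_replicate.2 ⟨(Nat.div_pos hrn hr.pos).ne', rfl⟩))
      obtain ⟨s, hs, hsσ⟩ := h σ hord
      have hmaps : ∀ x, σ x ∈ s ↔ x ∈ s := fun x => by
        constructor
        · intro hx
          rw [← hsσ, Finset.mem_image] at hx
          obtain ⟨y, hy, e⟩ := hx
          exact σ.injective e ▸ hy
        · intro hx
          rw [← hsσ]
          exact Finset.mem_image_of_mem σ hx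
      let τ : Equiv.Perm {x // x ∈ s} := σ.subtypePerm hmaps
      have hτ : τ ^ r ^ 1 = 1 := by
        refine Equiv.ext fun x => Subtype.ext ?_
        rw [pow_one, Equiv.Perm.subtypePerm_pow, Equiv.Perm.subtypePerm_apply, Equiv.Perm.one_apply]
        show (σ ^ r) x.1 = x.1
        rw [← hord, pow_orderOf_eq_one, Equiv.Perm.one_apply]
      have hmod := Equiv.Perm.card_compl_support_modEq (p := r) hτ
      rw [Fintype.card_coe, hs] at hmod
      have hle : τ.supportᶜ.card ≤ n % r := by
        have hsupp : σ.supportᶜ.card = n % r := by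
          rw [Finset.card_compl, Fintype.card_fin, ← Equiv.Perm.sum_cycleType, hσ, Multiset.sum_replicate, smul_eq_mul]
          have := Nat.div_add_mod' n r
          omega
        rw [← hsupp]
        refine Finset.card_le_card_of_injOn (fun x => (x : Fin n)) (fun x hx => ?_) (fun a _ b _ h => Subtype.ext h)
        simp only [Finset.coe_compl, Set.mem_compl_iff, Finset.mem_coe, Equiv.Perm.notMem_support] at hx ⊢
        exact congrArg Subtype.val hx
      rw [← hmod, Nat.mod_eq_of_lt (lt_of_le_of_lt hle (Nat.mod_lt n hr.pos))]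
      exact hle
    · intro hkr σ hσ
      obtain ⟨a, ha⟩ := Equiv.Perm.cycleType_prime_order (hσ ▸ hr : (orderOf σ).Prime)
      rw [hσ] at ha
      have hsupp : σ.support.card = (a + 1) * r := by rw [← Equiv.Perm.sum_cycleType, ha, Multiset.sum_replicate, smul_eq_mul]
      have hle : (a + 1) * r ≤ n := by rw [← hsupp]; simpa using Finset.card_le_univ σ.support
      have hcard : σ.cycleFactorsFinset.card = a + 1 := by
        have := congrArg Multiset.card ha
        rwa [Equiv.Perm.cycleType_def, Multiset.card_map, Multiset.card_replicate] at this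
      have hcyc : ∀ c ∈ σ.cycleFactorsFinset, c.support.card = r := fun c hc => by
        have hm : c.support.card ∈ σ.cycleType := by
          rw [Equiv.Perm.cycleType_def]
          exact Multiset.mem_map.2 ⟨c, hc, rfl⟩
        rw [ha] at hm
        exact Multiset.eq_of_mem_replicate hm
      obtain ⟨T, hT, hTc⟩ := Finset.exists_subset_card_eq (s := σ.cycleFactorsFinset) (n := min (a + 1) (k / r)) (by rw [hcard]; exact min_le_left _ _)
      have hb : (min (a + 1) (k / r)) * r ≤ k := (Nat.mul_le_mul_right r (min_le_right _ _)).trans (Nat.div_mul_le_self k r)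
      obtain ⟨F, hF, hFc⟩ := Finset.exists_subset_card_eq (s := σ.supportᶜ) (n := k - min (a + 1) (k / r) * r) (by
        rw [Finset.card_compl, Fintype.card_fin, hsupp]
        rcases le_total (a + 1) (k / r) with h | h
        · rw [min_eq_left h]; omega
        · rw [min_eq_right h]
          have h1 : a + 1 ≤ n / r := (Nat.le_div_iff_mul_le hr.pos).2 hle
          have h2 := Nat.mul_le_mul_right r h1
          have := Nat.div_add_mod' n r
          have := Nat.div_add_mod' k r
          omega)
      refine ⟨T.biUnion Equiv.Perm.support ∪ F, ?_, ?_⟩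
      · rw [Finset.card_union_of_disjoint, Finset.card_biUnion, Finset.sum_congr rfl (fun c hc => hcyc c (hT hc)), Finset.sum_const, smul_eq_mul, hTc, hFc]
        · omega
        · exact fun c hc d hd hne => (σ.cycleFactorsFinset_pairwise_disjoint (hT hc) (hT hd) hne).disjoint_support
        · refine Finset.disjoint_left.2 fun x hx hxF => ?_
          obtain ⟨c, hc, hxc⟩ := Finset.mem_biUnion.1 hx
          exact Finset.mem_compl.1 (hF hxF) (Equiv.Perm.mem_cycleFactorsFinset_support_le (hT hc) hxc)
      · refine Finset.eq_of_subset_of_card_le (fun y hy => ?_) (by rw [Finset.card_image_of_injective _ σ.injective])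
        obtain ⟨x, hx, rfl⟩ := Finset.mem_image.1 hy
        rcases Finset.mem_union.1 hx with hx | hx
        · obtain ⟨c, hc, hxc⟩ := Finset.mem_biUnion.1 hx
          refine Finset.mem_union_left _ (Finset.mem_biUnion.2 ⟨c, hc, ?_⟩)
          rw [← (Equiv.Perm.mem_cycleFactorsFinset_iff.1 (hT hc)).2 x hxc]
          exact Equiv.Perm.apply_mem_support.2 hxc
        · rw [Equiv.Perm.notMem_support.1 (Finset.mem_compl.1 (hF hx))]
          exact Finset.mem_union_right _ hx
  refine ⟨fun _ => main.trans ⟨fun h => ⟨?_, h⟩, fun h => h.2⟩, fun h2 => ?_⟩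
  · by_contra hlt
    push Not at hlt
    rw [Nat.mod_eq_of_lt hlt] at h
    have hl := Choose.choose_modEq_choose_mod_mul_choose_div_nat (n := n) (k := k) (p := r)
    rw [Nat.mod_eq_of_lt hlt, Nat.div_eq_of_lt hlt, Nat.choose_zero_right, mul_one] at hl
    have h0 : r ∣ (n % r).choose k := (Nat.ModEq.dvd_iff hl dvd_rfl).1 hrd
    have hfac : ¬ r ∣ (n % r).factorial := fun hd => absurd ((hr.dvd_factorial).1 hd) (not_le.2 (Nat.mod_lt n hr.pos))
    refine hfac (h0.trans ⟨k.factorial * (n % r - k).factorial, ?_⟩)
    rw [← mul_assoc, Nat.choose_mul_factorial_mul_factorial h]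
  · subst h2
    refine main.trans ?_
    rw [Nat.even_iff, Nat.odd_iff]
    omega

end Cfsg.Agent.S3573
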