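import Cfsg.Statements.S3599
import Mathlib.FieldTheory.Finite.GaloisField
import Mathlib.GroupTheory.PGroup


set_option autoImplicit false
open Cfsg

namespace Cfsg.Agent.S3599

lemma atom (p q : ℕ) (hp : p.Prime) (hq : q.Prime) (hpq : p ≠ q) :
    ∃ (G : Type) (_ : Group G) (_ : Finite G) (k : ℕ) (P : Subgroup G),
      k ≠ 0 ∧ P.Normal ∧ Nat.card P = p ^ k ∧ Nat.card G = p ^ k * q ∧
      (∀ x : G, orderOf x = 1 ∨ orderOf x = p ∨ orderOf x = q) ∧
      (∀ H : Subgroup G, p ∣ Nat.card H → q ∣ Nat.card H → H = ⊤) ∧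
      (∀ N : Subgroup G, N.Normal → N ≠ ⊥ → p ^ k ∣ Nat.card N) := by
  classical
  haveI : Fact p.Prime := ⟨hp⟩
  haveI : Fact q.Prime := ⟨hq⟩
  have hq1 : q - 1 ≠ 0 := by have := hq.two_le; omega
  let L := GaloisField p (q - 1)
  haveI : Finite L := Nat.finite_of_card_ne_zero (by rw [GaloisField.card p _ hq1]; exact pow_ne_zero _ hp.ne_zero)
  have hdvd : q ∣ Nat.card Lˣ := by
    rw [Nat.card_units, GaloisField.card p _ hq1]
    have hne : (p : ZMod q) ≠ 0 := by
      intro h
      exact hpq ((Nat.prime_dvd_prime_iff_eq hq hp).1 ((ZMod.natCast_eq_zero_iff _ _).1 h)).symm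
    have := ZMod.pow_card_sub_one_eq_one hne
    rw [← ZMod.natCast_eq_zero_iff, Nat.cast_sub (Nat.one_le_pow _ _ hp.pos), Nat.cast_pow, Nat.cast_one, this, sub_self]
  obtain ⟨z, hz⟩ := exists_prime_orderOf_dvd_card' q hdvd
  have hzq : z ^ q = 1 := by have := pow_orderOf_eq_one z; rwa [hz] at this
  let V : AddSubgroup L := AddSubgroup.closure (Set.range fun i : ℕ => ((z ^ i : Lˣ) : L))
  have hV1 : (1 : L) ∈ V := AddSubgroup.subset_closure ⟨0, by simp⟩
  have hVz : ∀ (i : ℕ) (v : L), v ∈ V → ((z ^ i : Lˣ) : L) * v ∈ V := by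
    intro i v hv
    refine AddSubgroup.closure_induction ?_ ?_ ?_ ?_ hv
    · rintro _ ⟨j, rfl⟩
      exact AddSubgroup.subset_closure ⟨i + j, by simp [pow_add]⟩
    · rw [mul_zero]; exact V.zero_mem
    · intro x y _ _ hx hy; rw [mul_add]; exact V.add_mem hx hy
    · intro x _ hx; rw [mul_neg]; exact V.neg_mem hx
  let G : Subgroup (Equiv.Perm L) :=
    { carrier := {f | ∃ (i : ℕ) (v : L), v ∈ V ∧ ∀ x, f x = ((z ^ i : Lˣ) : L) * x + v}
      one_mem' := ⟨0, 0, V.zero_mem, fun x => by simp⟩
      mul_mem' := by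
        rintro f g ⟨i, v, hv, hf⟩ ⟨j, w, hw, hg⟩
        refine ⟨i + j, ((z ^ i : Lˣ) : L) * w + v, V.add_mem (hVz i w hw) hv, fun x => ?_⟩
        rw [Equiv.Perm.mul_apply, hf, hg, pow_add, Units.val_mul]
        ring
      inv_mem' := by
        rintro f ⟨i, v, hv, hf⟩
        refine ⟨(q - 1) * i, -(((z ^ ((q - 1) * i) : Lˣ) : L) * v), V.neg_mem (hVz _ v hv), fun x => ?_⟩
        apply f.injective
        rw [show f (f⁻¹ x) = x from f.apply_symm_apply x, hf]
        have h1 : ((z ^ i : Lˣ) : L) * ((z ^ ((q - 1) * i) : Lˣ) : L) = 1 := by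
          rw [← Units.val_mul, ← pow_add, show i + (q - 1) * i = q * i from by
            have := hq.two_le; nlinarith [Nat.sub_add_cancel (show 1 ≤ q by omega)], pow_mul, hzq, one_pow, Units.val_one]
        linear_combination (v - x) * h1 }
  have hspec : ∀ f : G, ∃ (i : ℕ) (v : L), v ∈ V ∧ ∀ x, f.1 x = ((z ^ i : Lˣ) : L) * x + v := fun f => f.2
  let sl : G →* L :=
    { toFun := fun f => f.1 1 - f.1 0
      map_one' := by simp
      map_mul' := fun f g => by
        obtain ⟨i, v, _, hf⟩ := hspec f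
        obtain ⟨j, w, _, hg⟩ := hspec g
        show (f.1 * g.1) 1 - (f.1 * g.1) 0 = (f.1 1 - f.1 0) * (g.1 1 - g.1 0)
        rw [Equiv.Perm.mul_apply, Equiv.Perm.mul_apply, hg, hg, hf, hf, hf, hf]
        ring }
  have haff : ∀ (f : G) x, f.1 x = sl f * x + f.1 0 := by
    intro f x
    obtain ⟨i, v, _, hf⟩ := hspec f
    show f.1 x = (f.1 1 - f.1 0) * x + f.1 0
    rw [hf, hf, hf]; ring
  have hV0 : ∀ f : G, f.1 0 ∈ V := by
    intro f
    obtain ⟨i, v, hv, hf⟩ := hspec f
    rw [hf, mul_zero, zero_add]; exact hv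
  let σ : G →* Lˣ := sl.toHomUnits
  have hσ : ∀ f : G, ((σ f : Lˣ) : L) = sl f := fun f => MonoidHom.coe_toHomUnits sl f
  -- translations
  have mktr : ∀ v ∈ V, ∃ f : G, ∀ x, f.1 x = x + v := fun v hv =>
    ⟨⟨Equiv.addRight v, 0, v, hv, fun x => by simp⟩, fun x => rfl⟩
  choose! tr htr using mktr
  let Z : Equiv.Perm L :=
    { toFun := fun x => (z : L) * x
      invFun := fun x => ((z⁻¹ : Lˣ) : L) * x
      left_inv := fun x => by simp
      right_inv := fun x => by simp }
  let Zg : G := ⟨Z, 1, 0, V.zero_mem, fun x => by simp [Z]⟩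
  have hZsl : sl Zg = (z : L) := by show (z : L) * 1 - (z : L) * 0 = _; simp
  have hrange : σ.range = Subgroup.zpowers z := by
    refine le_antisymm ?_ ?_
    · rintro _ ⟨f, rfl⟩
      obtain ⟨i, v, _, hf⟩ := hspec f
      refine ⟨(i : ℤ), ?_⟩
      show z ^ (i : ℤ) = _
      rw [zpow_natCast]
      refine Units.ext ?_
      rw [hσ]
      show _ = f.1 1 - f.1 0
      rw [hf, hf]; ring
    · rw [Subgroup.zpowers_le]
      exact ⟨Zg, Units.ext (by rw [hσ, hZsl])⟩
  have hker : ∀ f : G, f ∈ σ.ker ↔ sl f = 1 := by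
    intro f
    rw [MonoidHom.mem_ker, Units.ext_iff, hσ, Units.val_one]
  have hkf : ∀ f : G, f ∈ σ.ker → f = tr (f.1 0) := by
    intro f hf
    refine Subtype.ext (Equiv.ext fun x => ?_)
    rw [htr _ (hV0 f), haff f x, (hker f).1 hf, one_mul]
  have hvf : ∀ v ∈ V, (tr v).1 0 = v ∧ tr v ∈ σ.ker := by
    intro v hv
    refine ⟨by rw [htr v hv, zero_add], ?_⟩
    rw [hker]
    show (tr v).1 1 - (tr v).1 0 = 1
    rw [htr v hv, htr v hv]; ring
  have eK : σ.ker ≃ V :=
    { toFun := fun f => ⟨f.1.1 0, hV0 _⟩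
      invFun := fun v => ⟨tr v, (hvf v v.2).2⟩
      left_inv := fun f => Subtype.ext (hkf f.1 f.2).symm
      right_inv := fun v => Subtype.ext (hvf v v.2).1 }
  -- card of V
  have hexp : ∀ v : V, p • v = 0 := by
    intro v
    apply Subtype.ext
    rw [AddSubgroup.coe_nsmul, AddSubgroup.coe_zero, nsmul_eq_mul, CharP.cast_eq_zero, zero_mul]
  obtain ⟨k, hk⟩ : ∃ k, Nat.card (Multiplicative V) = p ^ k := by
    refine (IsPGroup.iff_card).1 (fun g => ⟨1, ?_⟩)
    rw [pow_one]
    exact hexp (Multiplicative.toAdd g)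
  have hkV : Nat.card V = p ^ k := by rw [← hk]; exact Nat.card_congr Multiplicative.ofAdd
  have hk0 : k ≠ 0 := by
    rintro rfl
    rw [pow_zero] at hkV
    haveI := (Nat.card_eq_one_iff_unique.1 hkV).1
    have := Subsingleton.elim (⟨1, hV1⟩ : V) 0
    exact one_ne_zero (congrArg Subtype.val this)
  have hcardK : Nat.card σ.ker = p ^ k := by rw [Nat.card_congr eK, hkV]
  have hcardG : Nat.card G = p ^ k * q := by
    rw [← σ.ker.card_mul_index, hcardK, Subgroup.index_ker]
    congr 1
    rw [hrange, Nat.card_zpowers, hz]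
  -- invariant subgroups of translations
  have hfull : ∀ (H : Subgroup G) (g : G), g ∈ σ.ker → g ≠ 1 → g ∈ H → ∀ f : G, f ∈ H → sl f ≠ 1 → σ.ker ≤ H := by
    intro H g hg hg1 hgH f hf hf1
    let A : AddSubgroup L :=
      { carrier := {v | v ∈ V ∧ tr v ∈ H}
        zero_mem' := ⟨V.zero_mem, by
          have : tr 0 = 1 := Subtype.ext (Equiv.ext fun x => by rw [htr 0 V.zero_mem, add_zero]; rfl)
          rw [this]; exact H.one_mem⟩
        add_mem' := fun {a b} ha hb => ⟨V.add_mem ha.1 hb.1, by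
          have : tr (a + b) = tr a * tr b := Subtype.ext (Equiv.ext fun x => by
            show _ = (tr a).1 ((tr b).1 x)
            rw [htr _ (V.add_mem ha.1 hb.1), htr _ ha.1, htr _ hb.1]; ring)
          rw [this]; exact H.mul_mem ha.2 hb.2⟩
        neg_mem' := fun {a} ha => ⟨V.neg_mem ha.1, by
          have : tr (-a) = (tr a)⁻¹ := eq_inv_of_mul_eq_one_left (Subtype.ext (Equiv.ext fun x => by
            show (tr (-a)).1 ((tr a).1 x) = x
            rw [htr _ (V.neg_mem ha.1), htr _ ha.1]; ring))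
          rw [this]; exact H.inv_mem ha.2⟩ }
    have hconj : ∀ h : G, h ∈ H → ∀ a ∈ A, sl h * a ∈ A := by
      intro h hh a ha
      obtain ⟨i, v, _, hv⟩ := hspec h
      have hsl : sl h = ((z ^ i : Lˣ) : L) := by
        show h.1 1 - h.1 0 = _
        rw [hv, hv]; ring
      have hmem : sl h * a ∈ V := by rw [hsl]; exact hVz i a ha.1
      refine ⟨hmem, ?_⟩
      have : tr (sl h * a) = h * tr a * h⁻¹ := by
        rw [eq_mul_inv_iff_mul_eq]
        refine Subtype.ext (Equiv.ext fun x => ?_)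
        show (tr (sl h * a)).1 (h.1 x) = h.1 ((tr a).1 x)
        rw [htr _ hmem, htr _ ha.1, haff h x, haff h (x + a)]
        ring
      rw [this]
      exact H.mul_mem (H.mul_mem hh ha.2) (H.inv_mem hh)
    -- the slope of f generates
    have hgen : Subgroup.zpowers (σ f) = Subgroup.zpowers z := by
      refine Subgroup.eq_of_le_of_card_ge (Subgroup.zpowers_le.2 (hrange ▸ ⟨f, rfl⟩)) (le_of_eq ?_)
      rw [Nat.card_zpowers, Nat.card_zpowers, hz]
      have h1 : orderOf (σ f) ∣ q := (orderOf_dvd_of_mem_zpowers (hrange ▸ ⟨f, rfl⟩ : σ f ∈ Subgroup.zpowers z)).trans (dvd_of_eq hz)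
      rcases hq.eq_one_or_self_of_dvd _ h1 with h | h
      · exfalso
        apply hf1
        rw [← hσ, orderOf_eq_one_iff.1 h, Units.val_one]
      · exact h.symm
    have hsmul : ∀ (i : ℕ) (a : L), a ∈ A → ((z ^ i : Lˣ) : L) * a ∈ A := by
      intro i a ha
      obtain ⟨j, hj⟩ : ∃ j : ℕ, (σ f) ^ j = z ^ i := by
        have : z ^ i ∈ Subgroup.zpowers (σ f) := hgen ▸ Subgroup.pow_mem _ (Subgroup.mem_zpowers z) i
        rw [← mem_powers_iff_mem_zpowers, Submonoid.mem_powers_iff] at this
        exact this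
      have : ((z ^ i : Lˣ) : L) = sl (f ^ j) := by rw [← hj, ← map_pow, hσ]
      rw [this]
      exact hconj _ (H.pow_mem hf j) a ha
    set a := g.1 0
    have haA : a ∈ A := ⟨hV0 g, hkf g hg ▸ hgH⟩
    have ha0 : a ≠ 0 := by
      intro h0
      apply hg1
      rw [hkf g hg, show g.1 0 = 0 from h0]
      exact Subtype.ext (Equiv.ext fun x => by rw [htr 0 V.zero_mem, add_zero]; rfl)
    have hVA : ∀ v ∈ V, v * a ∈ A := by
      intro v hv
      refine AddSubgroup.closure_induction ?_ ?_ ?_ ?_ hv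
      · rintro _ ⟨j, rfl⟩
        exact hsmul j a haA
      · rw [zero_mul]; exact A.zero_mem
      · intro x y _ _ hx hy; rw [add_mul]; exact A.add_mem hx hy
      · intro x _ hx; rw [neg_mul]; exact A.neg_mem hx
    let mlt : V → V := fun v => ⟨v.1 * a, (hVA v v.2).1⟩
    have hinj : Function.Injective mlt := fun v w h => Subtype.ext (mul_right_cancel₀ ha0 (congrArg Subtype.val h))
    intro h hh
    obtain ⟨v, hv⟩ := (Finite.surjective_of_injective hinj) ⟨h.1 0, hV0 h⟩
    rw [hkf h hh, ← show v.1 * a = h.1 0 from congrArg Subtype.val hv]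
    exact (hVA v v.2).2
  refine ⟨G, inferInstance, inferInstance, k, σ.ker, hk0, inferInstance, hcardK, hcardG, ?_, ?_, ?_⟩
  · intro f
    by_cases hs : sl f = 1
    · have h1 : f ^ p = 1 := by
        have hpw : ∀ (n : ℕ) x, (f ^ n).1 x = x + n * f.1 0 := by
          intro n
          induction n with
          | zero => intro x; simp
          | succ n ih =>
            intro x
            rw [pow_succ]
            show (f ^ n).1 (f.1 x) = _
            rw [ih, haff f x, hs]; push_cast; ring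
        refine Subtype.ext (Equiv.ext fun x => ?_)
        rw [hpw, CharP.cast_eq_zero, zero_mul, add_zero]; rfl
      rcases hp.eq_one_or_self_of_dvd _ (orderOf_dvd_of_pow_eq_one h1) with h | h
      · exact Or.inl h
      · exact Or.inr (Or.inl h)
    · set c := f.1 0 / (1 - sl f)
      have hd : (1 - sl f) ≠ 0 := sub_ne_zero.2 (Ne.symm hs)
      have hc : f.1 0 = c * (1 - sl f) := (div_mul_cancel₀ _ hd).symm
      have hpw : ∀ (n : ℕ) x, (f ^ n).1 x = (sl f) ^ n * (x - c) + c := by
        intro n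
        induction n with
        | zero => intro x; simp
        | succ n ih =>
          intro x
          rw [pow_succ]
          show (f ^ n).1 (f.1 x) = _
          rw [ih, haff f x, hc, pow_succ]; ring
      have hsq : sl f ^ q = 1 := by
        obtain ⟨i, hi⟩ : σ f ∈ Subgroup.zpowers z := hrange ▸ ⟨f, rfl⟩
        have h2 : (σ f) ^ q = 1 := by
          rw [← hi]
          show (z ^ i) ^ q = 1
          rw [← zpow_natCast, ← zpow_mul, mul_comm, zpow_mul, zpow_natCast, hzq, one_zpow]
        rw [← hσ, ← Units.val_pow_eq_pow_val, h2, Units.val_one]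
      have h1 : f ^ q = 1 := Subtype.ext (Equiv.ext fun x => by rw [hpw, hsq]; simp)
      rcases hq.eq_one_or_self_of_dvd _ (orderOf_dvd_of_pow_eq_one h1) with h | h
      · exact Or.inl h
      · exact Or.inr (Or.inr h)
  · intro H h1 h2
    obtain ⟨g, hg⟩ := exists_prime_orderOf_dvd_card' p h1
    obtain ⟨f, hf⟩ := exists_prime_orderOf_dvd_card' q h2
    have hcopr : Nat.Coprime (p ^ k) q := ((Nat.coprime_primes hp hq).2 hpq).pow_left k
    have hgk : (g : G) ∈ σ.ker := by
      have h3 : orderOf (σ g) ∣ p := (orderOf_map_dvd σ _).trans (dvd_of_eq (by rw [Subgroup.orderOf_coe]; exact hg))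
      have h4 : orderOf (σ g) ∣ q := (orderOf_dvd_of_mem_zpowers (hrange ▸ ⟨g, rfl⟩ : σ g ∈ Subgroup.zpowers z)).trans (dvd_of_eq hz)
      rw [MonoidHom.mem_ker]
      exact orderOf_eq_one_iff.1 (Nat.eq_one_of_dvd_coprimes ((Nat.coprime_primes hp hq).2 hpq) h3 h4)
    have hg1 : (g : G) ≠ 1 := by
      intro e
      rw [← Subgroup.orderOf_coe, e, orderOf_one] at hg
      exact hp.ne_one hg.symm
    have hfk : sl (f : G) ≠ 1 := by
      intro e
      have hfk : (f : G) ∈ σ.ker := (hker _).2 e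
      have h3 : orderOf (f : G) ∣ p ^ k := hcardK ▸ Subgroup.orderOf_dvd_natCard σ.ker hfk
      rw [Subgroup.orderOf_coe, hf] at h3
      exact hq.ne_one (Nat.eq_one_of_dvd_coprimes hcopr h3 (dvd_refl q))
    have hle := hfull H g hgk hg1 g.2 f f.2 hfk
    refine Subgroup.eq_top_of_card_eq _ (Nat.dvd_antisymm H.card_subgroup_dvd_card ?_)
    rw [hcardG]
    exact hcopr.mul_dvd_of_dvd_of_dvd (hcardK ▸ Subgroup.card_dvd_of_le hle) h2
  · intro N hN hne
    by_cases hb : ∃ g ∈ N, g ∈ σ.ker ∧ g ≠ 1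
    · obtain ⟨g, hgN, hgk, hg1⟩ := hb
      have hle : σ.ker ≤ N := by
        have hle' : σ.ker ≤ N ⊔ Subgroup.zpowers Zg := hfull _ g hgk hg1 (Subgroup.mem_sup_left hgN) Zg
          (Subgroup.mem_sup_right (Subgroup.mem_zpowers _)) (by
            rw [hZsl]; intro e
            rw [Units.val_eq_one] at e
            rw [e, orderOf_one] at hz
            exact hq.ne_one hz.symm)
        intro x hx
        haveI := hN
        obtain ⟨n, hn, w, hw, rfl⟩ := Subgroup.mem_sup_of_normal_left.1 (hle' hx)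
        obtain ⟨j, rfl⟩ := hw
        have hZq : Zg ^ q = 1 := Subtype.ext (Equiv.ext fun y => by
          have hpw : ∀ m : ℕ, (Zg ^ m).1 y = (z : L) ^ m * y := by
            intro m
            induction m with
            | zero => simp
            | succ m ih =>
              rw [pow_succ']
              show (z : L) * (Zg ^ m).1 y = _
              rw [ih, pow_succ']; ring
          rw [hpw, ← Units.val_pow_eq_pow_val, hzq]; simp)
        -- the image of x in G ⧸ N has order dividing p^k and q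
        have h5 : ((n * Zg ^ j : G) : G ⧸ N) = ((Zg ^ j : G) : G ⧸ N) := by
          rw [QuotientGroup.mk_mul, (QuotientGroup.eq_one_iff n).2 hn, one_mul]
        have h6 : orderOf ((n * Zg ^ j : G) : G ⧸ N) ∣ q := by
          rw [h5]
          refine orderOf_dvd_of_pow_eq_one ?_
          rw [← QuotientGroup.mk_pow, ← zpow_natCast, ← zpow_mul, mul_comm, zpow_mul, zpow_natCast, hZq, one_zpow, QuotientGroup.mk_one]
        have h7 : orderOf ((n * Zg ^ j : G) : G ⧸ N) ∣ p ^ k :=
          (orderOf_map_dvd (QuotientGroup.mk' N) _).trans (hcardK ▸ Subgroup.orderOf_dvd_natCard σ.ker hx)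
        exact (QuotientGroup.eq_one_iff _).1 (orderOf_eq_one_iff.1
          (Nat.eq_one_of_dvd_coprimes (((Nat.coprime_primes hp hq).2 hpq).pow_left k) h7 h6))
      exact hcardK ▸ Subgroup.card_dvd_of_le hle
    · exfalso
      push_neg at hb
      apply hne
      rw [eq_bot_iff]
      intro f hf
      rw [Subgroup.mem_bot]
      refine hb f hf ?_
      rw [hker]
      have hcomm : f * tr 1 = tr 1 * f := by
        have h1 : f * tr 1 * f⁻¹ * (tr 1)⁻¹ ∈ N := by
          rw [show f * tr 1 * f⁻¹ * (tr 1)⁻¹ = f * (tr 1 * f⁻¹ * (tr 1)⁻¹) from by group]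
          exact N.mul_mem hf (hN.conj_mem _ (N.inv_mem hf) _)
        have h2 : f * tr 1 * f⁻¹ * (tr 1)⁻¹ ∈ σ.ker :=
          σ.ker.mul_mem ((inferInstance : σ.ker.Normal).conj_mem _ (hvf 1 hV1).2 _) (σ.ker.inv_mem (hvf 1 hV1).2)
        exact mul_inv_eq_iff_eq_mul.1 (eq_of_mul_inv_eq_one (hb _ h1 h2))
      have := congrArg (fun g : G => g.1 0) hcomm
      simp only [Subgroup.coe_mul, Equiv.Perm.mul_apply] at this
      rw [htr 1 hV1, htr 1 hV1, haff f (0 + 1)] at this
      linear_combination this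

/-- A finite group is critical with respect to a set Ω of natural numbers when its set of element orders is Ω while no proper section H/N (H a subgroup, N normal in H, (H, N) ≠ (whole group, 1)) has Ω as its set of element orders. Let s ≥ 1 and let p(j,0), p(j,1) (j < s) be 2s pairwise distinct primes, and let Ω be the set of all products c(0)·…·c(s−1) with each c(j) ∈ {1, p(j,0), p(j,1)}. Then there are 2^s pairwise non-isomorphic finite groups critical with respect to Ω. -/
theorem result (s : ℕ) (hs : 1 ≤ s) (p : Fin s → Fin 2 → ℕ)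
    (hp : ∀ j i, (p j i).Prime) (hinj : ∀ j i j' i', p j i = p j' i' → j = j' ∧ i = i') :
    ∃ (G : Fin (2 ^ s) → Type) (_ : ∀ a, Group (G a)) (_ : ∀ a, Fintype (G a)),
      (∀ a b, a ≠ b → ¬ Nonempty (G a ≃* G b)) ∧
      ∀ a, Set.range (orderOf : (G a) → ℕ) = {m : ℕ | ∃ c : Fin s → ℕ, (∀ j, c j = 1 ∨ c j = p j 0 ∨ c j = p j 1) ∧ m = ∏ j, c j} ∧
      ∀ (H : Subgroup (G a)) (N : Subgroup ↥H) [N.Normal], (H ≠ ⊤ ∨ N ≠ ⊥) → Set.range (orderOf : (↥H ⧸ N) → ℕ) ≠ {m : ℕ | ∃ c : Fin s → ℕ, (∀ j, c j = 1 ∨ c j = p j 0 ∨ c j = p j 1) ∧ m = ∏ j, c j} := by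
  classical
  have hne01 : ∀ (j : Fin s) (i i' : Fin 2), i ≠ i' → p j i ≠ p j i' := fun j i i' h e => h (hinj j i j i' e).2
  have hexA : ∀ (j : Fin s) (o : Fin 2), ∃ (G : Type) (_ : Group G) (_ : Finite G) (k : ℕ) (P : Subgroup G),
      k ≠ 0 ∧ P.Normal ∧ Nat.card P = p j o ^ k ∧ Nat.card G = p j o ^ k * p j (1 - o) ∧
      (∀ x : G, orderOf x = 1 ∨ orderOf x = p j o ∨ orderOf x = p j (1 - o)) ∧
      (∀ H : Subgroup G, p j o ∣ Nat.card H → p j (1 - o) ∣ Nat.card H → H = ⊤) ∧
      (∀ N : Subgroup G, N.Normal → N ≠ ⊥ → p j o ^ k ∣ Nat.card N) :=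
    fun j o => atom _ _ (hp j o) (hp j (1 - o)) (hne01 j _ _ (by revert o; decide))
  choose A iG iF k P hk hPn hPc hAc hord htop hnor using hexA
  letI : ∀ j o, Group (A j o) := iG
  haveI : ∀ j o, Finite (A j o) := iF
  let E : Fin (2 ^ s) ≃ (Fin s → Fin 2) := finFunctionFinEquiv.symm
  let G : Fin (2 ^ s) → Type := fun a => (j : Fin s) → A j (E a j)
  have hprime : ∀ (j : Fin s) (o : Fin 2) (r : ℕ), r.Prime → r ∣ Nat.card (A j o) → r = p j o ∨ r = p j (1 - o) := by
    intro j o r hr h
    rw [hAc] at h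
    rcases hr.dvd_mul.1 h with h | h
    · exact Or.inl ((Nat.prime_dvd_prime_iff_eq hr (hp _ _)).1 (hr.dvd_of_dvd_pow h))
    · exact Or.inr ((Nat.prime_dvd_prime_iff_eq hr (hp _ _)).1 h)
  have hcop : ∀ (j l : Fin s) (o o' : Fin 2), j ≠ l → Nat.Coprime (Nat.card (A j o)) (Nat.card (A l o')) := by
    intro j l o o' hjl
    refine Nat.coprime_of_dvd fun r hr h1 h2 => ?_
    rcases hprime j o r hr h1 with e | e <;> rcases hprime l o' r hr h2 with e' | e' <;>
      exact hjl (hinj _ _ _ _ (e.symm.trans e')).1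
  have hproddvd : ∀ (o : Fin s → Fin 2) (n : ℕ) (d : Fin s → ℕ),
      (∀ j, d j ∣ Nat.card (A j (o j))) → (∀ j, d j ∣ n) → ∏ j, d j ∣ n := by
    intro o n d hd hn
    suffices h : ∀ S : Finset (Fin s), ∏ j ∈ S, d j ∣ n from h _
    intro S
    induction S using Finset.induction with
    | empty => simp
    | insert j S hjS ih =>
      rw [Finset.prod_insert hjS]
      refine (Nat.Coprime.prod_right fun l hl => ?_).mul_dvd_of_dvd_of_dvd (hn j) ih
      exact Nat.Coprime.of_dvd (hd j) (hd l) (hcop j l _ _ (fun e => hjS (e ▸ hl)))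
  let ev : ∀ (a : Fin (2 ^ s)) (j : Fin s), G a →* A j (E a j) := fun a j => Pi.evalMonoidHom (fun l => A l (E a l)) j
  have hbit : ∀ o : Fin 2, (1 - o) ≠ o ∧ ∀ i : Fin 2, i = o ∨ i = 1 - o := by decide
  have horder : ∀ (a : Fin (2 ^ s)) (x : G a), orderOf x = ∏ j, orderOf (x j) := by
    intro a x
    refine Nat.dvd_antisymm (orderOf_dvd_of_pow_eq_one (funext fun j => ?_)) ?_
    · rw [Pi.pow_apply, Pi.one_apply]
      exact orderOf_dvd_iff_pow_eq_one.1 (Finset.dvd_prod_of_mem _ (Finset.mem_univ j))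
    · exact hproddvd _ _ _ (fun j => orderOf_dvd_natCard _) (fun j => orderOf_map_dvd (ev a j) x)
  refine ⟨G, fun a => inferInstance, fun a => Fintype.ofFinite _, ?_, fun a => ⟨?_, ?_⟩⟩
  · intro a b hab
    rintro ⟨e⟩
    obtain ⟨j, hj⟩ : ∃ j, E a j ≠ E b j := by
      by_contra h
      push_neg at h
      exact hab (E.injective (funext h))
    let M : Subgroup (G a) :=
      { carrier := {x | x j ∈ P j (E a j) ∧ ∀ l, l ≠ j → x l = 1}
        one_mem' := ⟨Subgroup.one_mem _, fun l _ => rfl⟩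
        mul_mem' := fun {x y} hx hy => ⟨Subgroup.mul_mem _ hx.1 hy.1, fun l hl => by rw [Pi.mul_apply, hx.2 l hl, hy.2 l hl, one_mul]⟩
        inv_mem' := fun {x} hx => ⟨Subgroup.inv_mem _ hx.1, fun l hl => by rw [Pi.inv_apply, hx.2 l hl, inv_one]⟩ }
    haveI hMn : M.Normal := ⟨fun x hx g => ⟨(hPn j (E a j)).conj_mem _ hx.1 _, fun l hl => by
      show g l * x l * (g l)⁻¹ = 1
      rw [hx.2 l hl]; group⟩⟩
    have eM : M ≃ P j (E a j) :=
      { toFun := fun x => ⟨x.1 j, x.2.1⟩
        invFun := fun y => ⟨Pi.mulSingle j (y : A j (E a j)),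
          by
            show Pi.mulSingle (M := fun l => A l (E a l)) j (y : A j (E a j)) j ∈ _
            rw [Pi.mulSingle_eq_same]; exact y.2,
          fun l hl => Pi.mulSingle_eq_of_ne hl _⟩
        left_inv := fun x => Subtype.ext (funext fun l => by
          by_cases hl : l = j
          · subst hl; exact Pi.mulSingle_eq_same (M := fun l => A l (E a l)) _ _
          · exact (Pi.mulSingle_eq_of_ne (M := fun l => A l (E a l)) hl _).trans (x.2.2 l hl).symm)
        right_inv := fun y => Subtype.ext (Pi.mulSingle_eq_same (M := fun l => A l (E a l)) _ _) }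
    have hMc : Nat.card M = p j (E a j) ^ k j (E a j) := by rw [Nat.card_congr eM, hPc]
    set M' := M.map (e : G a →* G b)
    have hM'c : Nat.card M' = p j (E a j) ^ k j (E a j) := by
      rw [← hMc]
      exact (Nat.card_congr (Subgroup.equivMapOfInjective M _ e.injective).toEquiv).symm
    haveI hM'n : M'.Normal := hMn.map _ e.surjective
    have hbot : M' = ⊥ := by
      rw [eq_bot_iff]
      intro x hx
      rw [Subgroup.mem_bot]
      funext l
      have hb : M'.map (ev b l) = ⊥ := by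
        by_contra hne
        have h1 := (hnor l (E b l) _ (hM'n.map _ (fun y => ⟨Pi.mulSingle l y, Pi.mulSingle_eq_same (M := fun l => A l (E b l)) l y⟩)) hne).trans (M'.card_map_dvd (ev b l))
        rw [hM'c] at h1
        have h2 : p l (E b l) ∣ p j (E a j) ^ k j (E a j) := (dvd_pow_self _ (hk l (E b l))).trans h1
        have h3 := (Nat.prime_dvd_prime_iff_eq (hp _ _) (hp _ _)).1 ((hp _ _).dvd_of_dvd_pow h2)
        obtain ⟨rfl, h4⟩ := hinj _ _ _ _ h3
        exact hj h4.symm
      have : ev b l x ∈ M'.map (ev b l) := Subgroup.mem_map_of_mem _ hx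
      rw [hb, Subgroup.mem_bot] at this
      exact this
    rw [hbot, Subgroup.card_bot] at hM'c
    exact (one_lt_pow₀ (hp j (E a j)).one_lt (hk _ _)).ne hM'c
  · ext m
    constructor
    · rintro ⟨x, rfl⟩
      refine ⟨fun j => orderOf (x j), fun j => ?_, horder a x⟩
      beta_reduce
      rcases hord j (E a j) (x j) with h | h | h
      · exact Or.inl h
      · rcases (hbit 0).2 (E a j) with e | e <;> rw [h, e]
        · exact Or.inr (Or.inl rfl)
        · exact Or.inr (Or.inr rfl)
      · rcases (hbit 0).2 (E a j) with e | e <;> rw [h, e]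
        · exact Or.inr (Or.inr rfl)
        · exact Or.inr (Or.inl rfl)
    · rintro ⟨c, hc, rfl⟩
      have hel : ∀ j, ∃ y : A j (E a j), orderOf y = c j := by
        intro j
        have hd : ∀ i, p j i ∣ Nat.card (A j (E a j)) := by
          intro i
          rw [hAc]
          rcases (hbit (E a j)).2 i with e | e <;> rw [e]
          · exact Dvd.dvd.mul_right (dvd_pow_self _ (hk _ _)) _
          · exact Dvd.intro_left _ rfl
        rcases hc j with e | e | e
        · exact ⟨1, by rw [orderOf_one, e]⟩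
        · haveI : Fact (p j 0).Prime := ⟨hp j 0⟩
          rw [e]; exact exists_prime_orderOf_dvd_card' _ (hd 0)
        · haveI : Fact (p j 1).Prime := ⟨hp j 1⟩
          rw [e]; exact exists_prime_orderOf_dvd_card' _ (hd 1)
      choose y hy using hel
      exact ⟨(y : G a), by rw [horder a]; exact Finset.prod_congr rfl fun j _ => hy j⟩
  · intro H N hNn hne heq
    have hdiv : ∀ j i, p j i ∣ Nat.card (↥H ⧸ N) := by
      intro j i
      have : p j i ∈ Set.range (orderOf : (↥H ⧸ N) → ℕ) := by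
        rw [heq]
        refine ⟨fun l => if l = j then p j i else 1, fun l => ?_, ?_⟩
        · by_cases hl : l = j
          · subst hl
            simp only [if_true]
            rcases (hbit 0).2 i with e | e <;> rw [e]
            · exact Or.inr (Or.inl rfl)
            · exact Or.inr (Or.inr rfl)
          · exact Or.inl (if_neg hl)
        · simp
      obtain ⟨x, hx⟩ := this
      exact hx ▸ orderOf_dvd_natCard x
    have hdivH : ∀ j i, p j i ∣ Nat.card H := fun j i => (hdiv j i).trans (Subgroup.card_quotient_dvd_card N)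
    -- projections of H are everything
    have hproj : ∀ j, H.map (ev a j) = ⊤ := by
      intro j
      have hsub : ∀ i, p j i ∣ Nat.card (H.map (ev a j)) := by
        intro i
        haveI : Fact (p j i).Prime := ⟨hp j i⟩
        obtain ⟨x, hx⟩ := exists_prime_orderOf_dvd_card' _ (hdivH j i)
        rw [← Subgroup.orderOf_coe, horder a] at hx
        obtain ⟨l, -, hl⟩ := (hp j i).prime.exists_mem_finset_dvd (dvd_of_eq hx.symm)
        obtain rfl : j = l := by
          rcases hprime l _ _ (hp j i) (hl.trans (orderOf_dvd_natCard _)) with e | e <;> exact (hinj _ _ _ _ e).1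
        exact hl.trans (Subgroup.orderOf_dvd_natCard _ (Subgroup.mem_map_of_mem (ev a j) x.2))
      exact htop j (E a j) _ (hsub _) (hsub _)
    have hcardG : Nat.card (G a) = ∏ j, Nat.card (A j (E a j)) := Nat.card_pi
    have hH : H = ⊤ := by
      refine Subgroup.eq_top_of_card_eq _ (Nat.dvd_antisymm H.card_subgroup_dvd_card ?_)
      rw [hcardG]
      refine hproddvd _ _ _ (fun j => dvd_refl _) (fun j => ?_)
      have := H.card_map_dvd (ev a j)
      rwa [hproj j, Subgroup.card_top] at this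
    have hN : N ≠ ⊥ := hne.resolve_left (not_not.2 hH)
    apply hN
    rw [eq_bot_iff]
    intro x hx
    rw [Subgroup.mem_bot]
    apply Subtype.ext
    funext j
    let φ : H →* A j (E a j) := (ev a j).comp H.subtype
    have hsurj : Function.Surjective φ := by
      intro y
      have : y ∈ H.map (ev a j) := by rw [hproj j]; exact Subgroup.mem_top _
      obtain ⟨g, hg, rfl⟩ := this
      exact ⟨⟨g, hg⟩, rfl⟩
    have hb : N.map φ = ⊥ := by
      by_contra hb
      have h1 := (hnor j (E a j) _ (hNn.map φ hsurj) hb).trans (N.card_map_dvd φ)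
      have h2 : p j (E a j) * p j (E a j) ^ k j (E a j) ∣ Nat.card H := by
        rw [N.card_eq_card_quotient_mul_card_subgroup]
        exact Nat.mul_dvd_mul (hdiv j _) h1
      have h3 := h2.trans H.card_subgroup_dvd_card
      rw [hcardG, ← Finset.mul_prod_erase Finset.univ _ (Finset.mem_univ j)] at h3
      have hco : Nat.Coprime (p j (E a j) * p j (E a j) ^ k j (E a j))
          (∏ l ∈ Finset.univ.erase j, Nat.card (A l (E a l))) := by
        refine Nat.Coprime.prod_right fun l hl => ?_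
        rw [← pow_succ']
        refine ((Nat.Prime.coprime_iff_not_dvd (hp _ _)).2 fun hd => ?_).pow_left _
        rcases hprime l _ _ (hp _ _) hd with e | e <;> exact (Finset.ne_of_mem_erase hl) (hinj _ _ _ _ e).1.symm
      have h4 := hco.dvd_of_dvd_mul_right h3
      rw [hAc, mul_comm] at h4
      have h5 := Nat.dvd_of_mul_dvd_mul_left (pow_pos (hp _ _).pos _) h4
      exact hne01 j _ _ (hbit (E a j)).1.symm ((Nat.prime_dvd_prime_iff_eq (hp _ _) (hp _ _)).1 h5)
    have : φ x ∈ N.map φ := Subgroup.mem_map_of_mem _ hx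
    rw [hb, Subgroup.mem_bot] at this
    exact this

end Cfsg.Agent.S3599
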