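import Cfsg.Statements.S3619


set_option autoImplicit false
open Cfsg
open scoped Pointwise

namespace Cfsg.Agent.S3619

/-- Let G act faithfully on a finite set in such a way that every non-trivial normal subgroup of G is transitive (G is quasiprimitive). Let Γ be a subset with more than one point and not the whole set, such that the pointwise stabilizer of the complement of Γ acts transitively on Γ (a Jordan set). If that pointwise stabilizer acts primitively on Γ, then G is k-fold transitive where k is one more than the number of points outside Γ (the Jordan set is a trivial one). -/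
theorem result {G Ω : Type*} [Group G] [Finite G] [MulAction G Ω] [FaithfulSMul G Ω] [Finite Ω]
    (hqp : ∀ N : Subgroup G, N.Normal → N ≠ ⊥ → MulAction.IsPretransitive ↥N Ω)
    (Γ : Set Ω) (hΓ1 : 1 < Γ.ncard) (hΓ2 : Γ.ncard < Nat.card Ω)
    (hJ : MulAction.IsPretransitive ↥(fixingSubgroup G Γᶜ) ↥(SubMulAction.ofFixingSubgroup G Γᶜ))
    (hJp : MulAction.IsPreprimitive ↥(fixingSubgroup G Γᶜ) ↥(SubMulAction.ofFixingSubgroup G Γᶜ)) :
    MulAction.IsMultiplyPretransitive G Ω (Nat.card Ω - Γ.ncard + 1) := by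
  classical
  set K := fixingSubgroup G Γᶜ with hK
  have hfix : ∀ k : K, ∀ x ∉ Γ, (k : G) • x = x := fun k x hx =>
    (mem_fixingSubgroup_iff G).1 k.2 x hx
  have hstable : ∀ k : K, ∀ x ∈ Γ, (k : G) • x ∈ Γ := by
    intro k x hx
    by_contra h
    have h1 := hfix k _ h
    exact h ((MulAction.injective (k : G) h1).symm ▸ hx)
  have htr : ∀ x ∈ Γ, ∀ y ∈ Γ, ∃ k : K, (k : G) • x = y := by
    intro x hx y hy
    have := hJ
    obtain ⟨k, hk⟩ := MulAction.exists_smul_eq ↥K
      (⟨x, by rw [SubMulAction.mem_ofFixingSubgroup_iff]; exact not_not.2 hx⟩ : ↥(SubMulAction.ofFixingSubgroup G Γᶜ))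
      ⟨y, by rw [SubMulAction.mem_ofFixingSubgroup_iff]; exact not_not.2 hy⟩
    exact ⟨k, congrArg Subtype.val hk⟩
  obtain ⟨u, hu, v, hv, huv⟩ := (Set.one_lt_ncard).1 hΓ1
  have hKne : K ≠ ⊥ := by
    intro h
    obtain ⟨k, hk⟩ := htr u hu v hv
    have h1 : (k : G) = 1 := by
      have := k.2
      simp only [h, Subgroup.mem_bot] at this
      exact this
    rw [h1, one_smul] at hk
    exact huv hk
  haveI : MulAction.IsPretransitive G Ω := by
    have h1 : (⊤ : Subgroup G) ≠ ⊥ := fun h => hKne (le_bot_iff.1 (h ▸ le_top))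
    haveI := hqp ⊤ inferInstance h1
    exact ⟨fun x y => by
      obtain ⟨g, hg⟩ := MulAction.exists_smul_eq ↥(⊤ : Subgroup G) x y
      exact ⟨g, hg⟩⟩
  have hprim : MulAction.IsPreprimitive G Ω := by
    refine ⟨fun {B} hB => ?_⟩
    by_contra hnt
    have hns : ¬ B.Subsingleton := fun h => hnt (Or.inl h)
    have hnu : B ≠ Set.univ := fun h => hnt (Or.inr h)
    have hmeet : ∀ g : G, (g • B ∩ Γ).Nonempty → Γ ⊆ g • B := by
      rintro g ⟨x, hxB, hxΓ⟩
      by_cases hout : ∃ w ∈ g • B, w ∉ Γ
      · obtain ⟨w, hwB, hwΓ⟩ := hout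
        intro y hy
        obtain ⟨k, hk⟩ := htr x hxΓ y hy
        have h1 : ((k : G) * g) • B = g • B := by
          rcases (MulAction.isBlock_iff_smul_eq_smul_or_disjoint.1 hB) ((k : G) * g) g with h | h
          · exact h
          · exfalso
            refine Set.disjoint_left.1 h ?_ hwB
            rw [mul_smul, ← hfix k w hwΓ]
            exact Set.smul_mem_smul_set hwB
        rw [← h1, mul_smul, ← hk]
        exact Set.smul_mem_smul_set hxB
      · push Not at hout
        haveI := hJp
        set B' : Set ↥(SubMulAction.ofFixingSubgroup G Γᶜ) := Subtype.val ⁻¹' (g • B) with hB'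
        have hblk : MulAction.IsBlock ↥K B' := by
          rw [MulAction.isBlock_iff_smul_eq_smul_or_disjoint]
          intro k₁ k₂
          rcases (MulAction.isBlock_iff_smul_eq_smul_or_disjoint.1 hB) ((k₁ : G) * g) ((k₂ : G) * g)
            with h | h
          · refine Or.inl (Set.ext fun z => ?_)
            rw [Set.mem_smul_set_iff_inv_smul_mem, Set.mem_smul_set_iff_inv_smul_mem]
            show ((k₁⁻¹ : K) : G) • (z : Ω) ∈ g • B ↔ ((k₂⁻¹ : K) : G) • (z : Ω) ∈ g • B
            rw [Subgroup.coe_inv, Subgroup.coe_inv, ← Set.mem_smul_set_iff_inv_smul_mem,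
              ← Set.mem_smul_set_iff_inv_smul_mem, ← mul_smul, ← mul_smul, h]
          · refine Or.inr (Set.disjoint_left.2 fun z h1 h2 => ?_)
            rw [Set.mem_smul_set_iff_inv_smul_mem] at h1 h2
            change ((k₁⁻¹ : K) : G) • (z : Ω) ∈ g • B at h1
            change ((k₂⁻¹ : K) : G) • (z : Ω) ∈ g • B at h2
            rw [Subgroup.coe_inv, ← Set.mem_smul_set_iff_inv_smul_mem, ← mul_smul] at h1 h2
            exact Set.disjoint_left.1 h h1 h2
        rcases MulAction.IsPreprimitive.isTrivialBlock_of_isBlock hblk with h | h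
        · exfalso
          apply hns
          intro a ha b hb
          have hm : ∀ z ∈ B, g • z ∈ SubMulAction.ofFixingSubgroup G Γᶜ := fun z hz => by
            rw [SubMulAction.mem_ofFixingSubgroup_iff]
            exact not_not.2 (hout _ (Set.smul_mem_smul_set hz))
          have h2 := h (x := ⟨g • a, hm a ha⟩) (Set.smul_mem_smul_set ha : g • a ∈ g • B)
            (y := ⟨g • b, hm b hb⟩) (Set.smul_mem_smul_set hb : g • b ∈ g • B)
          exact MulAction.injective g (congrArg Subtype.val h2)
        · intro y hy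
          have h2 : (⟨y, by rw [SubMulAction.mem_ofFixingSubgroup_iff]; exact not_not.2 hy⟩ :
              ↥(SubMulAction.ofFixingSubgroup G Γᶜ)) ∈ B' := by rw [h]; trivial
          exact h2
    set N : Subgroup G := ⨅ g : G, MulAction.stabilizer G (g • B) with hN
    have hNn : N.Normal := by
      constructor
      intro n hn h
      rw [hN, Subgroup.mem_iInf] at hn ⊢
      intro g
      have := hn (h⁻¹ * g)
      rw [MulAction.mem_stabilizer_iff] at this ⊢
      rw [mul_smul] at this
      rw [mul_smul, mul_smul, this, smul_inv_smul]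
    have hKN : K ≤ N := by
      intro k hk
      rw [hN, Subgroup.mem_iInf]
      intro g
      rw [MulAction.mem_stabilizer_iff]
      have hsub : ∀ k : K, ∀ x ∈ g • B, (k : G) • x ∈ g • B := by
        intro k x hx
        by_cases hxΓ : x ∈ Γ
        · exact hmeet g ⟨x, hx, hxΓ⟩ (hstable k x hxΓ)
        · rw [hfix k x hxΓ]; exact hx
      refine Set.Subset.antisymm ?_ fun x hx => ?_
      · rintro _ ⟨x, hx, rfl⟩
        exact hsub ⟨k, hk⟩ x hx
      · rw [Set.mem_smul_set_iff_inv_smul_mem]
        exact hsub ⟨k⁻¹, K.inv_mem hk⟩ x hx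
    haveI := hqp N hNn (fun h => hKne (le_bot_iff.1 (h ▸ hKN)))
    apply hnu
    obtain ⟨b, hb⟩ := (Set.not_subsingleton_iff.1 hns).nonempty
    refine Set.eq_univ_iff_forall.2 fun x => ?_
    obtain ⟨n, hn⟩ := MulAction.exists_smul_eq ↥N b x
    have h1 : (n : G) ∈ MulAction.stabilizer G ((1 : G) • B) := Subgroup.mem_iInf.1 n.2 1
    rw [one_smul, MulAction.mem_stabilizer_iff] at h1
    rw [← h1, ← hn]
    exact Set.smul_mem_smul_set hb
  have hc : Γᶜ.ncard = Nat.card Ω - Γ.ncard := by
    have := Set.ncard_add_ncard_compl Γ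
    omega
  haveI := hprim.isMultiplyPreprimitive (s := Γᶜ) (n := Γᶜ.ncard - 1) (by omega) (by omega) hJp
  rw [show Nat.card Ω - Γ.ncard + 1 = Γᶜ.ncard - 1 + 2 by omega]
  exact MulAction.IsMultiplyPreprimitive.isMultiplyPretransitive ..

end Cfsg.Agent.S3619
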