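import Cfsg.Statements.S3639
import Cfsg.Agent.Lib.PrimeGraphExt
import Cfsg.Agent.Lib.SuzukiFix

set_option autoImplicit false
open Cfsg

namespace Cfsg.Agent.S3639

/-- Let S be the Suzuki group over the field with q = 2^(2m+1) ≥ 8 elements. Then there are finite groups of arbitrarily large order with the same prime graph as S. -/
theorem result {F : Type*} [Field F] [Fintype F] {m : ℕ} (hm : 1 ≤ m) (hF : Fintype.card F = 2 ^ (2 * m + 1)) (N : ℕ) :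
    ∃ (H : Type) (_ : Group H) (_ : Fintype H), N < Fintype.card H ∧ ((∀ r : ℕ, r.Prime → (r ∣ Nat.card ↥(Cfsg.Lie.Sz F (2 ^ (m + 1))) ↔ r ∣ Nat.card H)) ∧
      (∀ r s : ℕ, r.Prime → s.Prime → r ≠ s → ((∃ x : ↥(Cfsg.Lie.Sz F (2 ^ (m + 1))), orderOf x = r * s) ↔ (∃ y : H, orderOf y = r * s)))) := by
  classical
  obtain ⟨p, hpc⟩ := CharP.exists F
  obtain ⟨k, hp, hk⟩ := FiniteField.card F p
  have h2 : p = 2 := by
    have : p ∣ 2 ^ (2 * m + 1) := by rw [← hF, hk]; exact dvd_pow_self _ k.ne_zero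
    exact (Nat.prime_dvd_prime_iff_eq hp Nat.prime_two).mp (hp.dvd_of_dvd_pow this)
  subst h2
  obtain ⟨g, hg, hg1, hg2⟩ := CfsgLib.SuzukiFix.involution_mem_Sz (F := F) (2 ^ (m + 1)) (by positivity)
  have hdvd : 2 ∣ Nat.card ↥(Cfsg.Lie.Sz F (2 ^ (m + 1))) := by
    have h := orderOf_dvd_natCard (⟨g, hg⟩ : ↥(Cfsg.Lie.Sz F (2 ^ (m + 1))))
    rwa [← Subgroup.orderOf_coe, orderOf_eq_prime (p := 2) hg2 hg1] at h
  let act : ↥(Cfsg.Lie.Sz F (2 ^ (m + 1))) →* Module.End F (Fin 4 → F) :=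
    (Matrix.toLinAlgEquiv'.toAlgHom.toMonoidHom.comp (Units.coeHom _)).comp
      (Cfsg.Lie.Sz F (2 ^ (m + 1))).subtype
  letI : DistribMulAction ↥(Cfsg.Lie.Sz F (2 ^ (m + 1))) (Fin 4 → F) :=
    DistribMulAction.compHom _ act
  have hfix : ∀ (x : ↥(Cfsg.Lie.Sz F (2 ^ (m + 1)))) (v : Fin 4 → F), v ≠ 0 → x • v = v →
      ∃ k : ℕ, orderOf x = 2 ^ k := by
    intro x v hv hx
    have hx' : ((x : GL (Fin 4) F) : Matrix (Fin 4) (Fin 4) F).mulVec v = v := hx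
    have h4 := CfsgLib.SuzukiFix.pow_four_eq_one (m + 1) x.2 hv hx'
    have hd : orderOf x ∣ 2 ^ 2 := orderOf_dvd_of_pow_eq_one (Subtype.ext (by simpa using h4))
    obtain ⟨j, -, hj⟩ := (Nat.dvd_prime_pow Nat.prime_two).mp hd
    exact ⟨j, hj⟩
  obtain ⟨H, i1, i2, h1, h2, h3⟩ := CfsgLib.PrimeGraphExt.exists_large 2 Nat.prime_two hdvd
    (fun v : Fin 4 → F => funext fun i => by simp [CharTwo.two_eq_zero]) hfix N
  letI := i2
  letI := Fintype.ofFinite H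
  refine ⟨H, i1, inferInstance, ?_, h2, h3⟩
  rw [← Nat.card_eq_fintype_card]; exact h1

end Cfsg.Agent.S3639
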