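import Cfsg.Statements.S3660
import Cfsg.Agent.Lib.PrimeGraphExt

set_option autoImplicit false
open Cfsg

namespace Cfsg.Agent.S3660

/-- The prime graph of a finite group has the prime divisors of its order as vertices, two distinct primes p, q being joined when the group has an element of order pq; two groups have the same prime graph when they have the same prime divisors and the same joined pairs. Let F be a finite field of characteristic 2 with at least 4 elements. Then there are finite groups of arbitrarily large order with the same prime graph as PSL(2,F); in particular PSL(2,F) is not determined by its prime graph. -/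
theorem result {F : Type*} [Field F] [Fintype F] [CharP F 2] (hF : 4 ≤ Fintype.card F) (N : ℕ) :
    ∃ (H : Type) (_ : Group H) (_ : Finite H), N < Nat.card H ∧
      ((∀ p : ℕ, p.Prime → (p ∣ Nat.card (Matrix.ProjectiveSpecialLinearGroup (Fin 2) F) ↔ p ∣ Nat.card H)) ∧
      (∀ p q : ℕ, p.Prime → q.Prime → p ≠ q → ((∃ g : (Matrix.ProjectiveSpecialLinearGroup (Fin 2) F), orderOf g = p * q) ↔ (∃ g : H, orderOf g = p * q)))) := by
  classical
  have hbot : Subgroup.center (Matrix.SpecialLinearGroup (Fin 2) F) = ⊥ := by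
    rw [eq_bot_iff]
    intro A hA
    obtain ⟨r, hr, hA⟩ := Matrix.SpecialLinearGroup.mem_center_iff.mp hA
    have hr1 : r = 1 := by
      have h2 : r ^ 2 = 1 := by simpa using hr
      have : (r + 1) * (r + 1) = 0 := by linear_combination h2 + (r + 1) * CharTwo.two_eq_zero (R := F)
      exact CharTwo.add_eq_zero.mp (mul_self_eq_zero.mp this)
    rw [Subgroup.mem_bot]
    apply Matrix.SpecialLinearGroup.ext
    intro i j
    rw [← hA, hr1]; simp
  let e : Matrix.SpecialLinearGroup (Fin 2) F ≃* Matrix.ProjectiveSpecialLinearGroup (Fin 2) F :=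
    MulEquiv.ofBijective (QuotientGroup.mk' (Subgroup.center (Matrix.SpecialLinearGroup (Fin 2) F)))
      ⟨by rw [← MonoidHom.ker_eq_bot_iff, QuotientGroup.ker_mk', hbot], QuotientGroup.mk'_surjective _⟩
  let act : Matrix.SpecialLinearGroup (Fin 2) F →* Module.End F (Fin 2 → F) :=
    Matrix.toLinAlgEquiv'.toAlgHom.toMonoidHom.comp
      ((Units.coeHom _).comp Matrix.SpecialLinearGroup.toGL)
  letI : DistribMulAction (Matrix.SpecialLinearGroup (Fin 2) F) (Fin 2 → F) :=
    DistribMulAction.compHom _ act
  have hfix : ∀ (x : Matrix.SpecialLinearGroup (Fin 2) F) (v : Fin 2 → F), v ≠ 0 → x • v = v →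
      ∃ k : ℕ, orderOf x = 2 ^ k := by
    intro x v hv hx
    have hx' : (x : Matrix (Fin 2) (Fin 2) F).mulVec v = v := hx
    set a : Matrix (Fin 2) (Fin 2) F := (x : Matrix (Fin 2) (Fin 2) F) with ha
    have hdet : a 0 0 * a 1 1 - a 0 1 * a 1 0 = 1 := by rw [← Matrix.det_fin_two]; exact x.2
    have e0 : a 0 0 * v 0 + a 0 1 * v 1 = v 0 := by
      have := congrFun hx' 0; simpa [Matrix.mulVec, dotProduct, Fin.sum_univ_two] using this
    have e1 : a 1 0 * v 0 + a 1 1 * v 1 = v 1 := by
      have := congrFun hx' 1; simpa [Matrix.mulVec, dotProduct, Fin.sum_univ_two] using this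
    have two : (2 : F) = 0 := CharTwo.two_eq_zero
    have hv' : v 0 ≠ 0 ∨ v 1 ≠ 0 := by
      by_contra! h
      exact hv (funext fun i => by fin_cases i <;> simp [h.1, h.2])
    have htr : a 0 0 + a 1 1 = 0 := by
      rcases hv' with h | h
      · apply mul_right_cancel₀ h
        linear_combination (-(a 1 1 - 1)) * e0 + a 0 1 * e1 + v 0 * hdet + v 0 * two
      · apply mul_right_cancel₀ h
        linear_combination (-(a 0 0 - 1)) * e1 + a 1 0 * e0 + v 1 * hdet + v 1 * two
    have hsq : x ^ 2 = 1 := by
      apply Matrix.SpecialLinearGroup.ext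
      intro i j
      rw [Matrix.SpecialLinearGroup.coe_pow, ← ha, pow_two, Matrix.SpecialLinearGroup.coe_one]
      fin_cases i <;> fin_cases j <;> simp [Matrix.mul_apply, Fin.sum_univ_two]
      · linear_combination a 0 0 * htr - hdet - two
      · linear_combination a 0 1 * htr
      · linear_combination a 1 0 * htr
      · linear_combination a 1 1 * htr - hdet - two
    obtain ⟨j, -, hj⟩ := (Nat.dvd_prime_pow Nat.prime_two).mp
      (show orderOf x ∣ 2 ^ 1 by simpa using orderOf_dvd_of_pow_eq_one hsq)
    exact ⟨j, hj⟩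
  have hdvd : 2 ∣ Nat.card (Matrix.SpecialLinearGroup (Fin 2) F) := by
    let g : Matrix.SpecialLinearGroup (Fin 2) F := ⟨!![1, 1; 0, 1], by simp [Matrix.det_fin_two]⟩
    have hg : orderOf g = 2 := by
      refine orderOf_eq_prime (p := 2) ?_ ?_
      · apply Matrix.SpecialLinearGroup.ext
        intro i j
        rw [Matrix.SpecialLinearGroup.coe_pow, pow_two, Matrix.SpecialLinearGroup.coe_one]
        fin_cases i <;> fin_cases j <;> simp [g, CharTwo.add_self_eq_zero]
      · intro h
        have := congrArg (fun y : Matrix.SpecialLinearGroup (Fin 2) F => (y : Matrix (Fin 2) (Fin 2) F) 0 1) h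
        simp [g] at this
    have := orderOf_dvd_natCard g
    rwa [hg] at this
  obtain ⟨H, i1, i2, h1, h2, h3⟩ := CfsgLib.PrimeGraphExt.exists_large 2 Nat.prime_two hdvd
    (fun v : Fin 2 → F => funext fun i => by simp [CharTwo.two_eq_zero]) hfix N
  refine ⟨H, i1, i2, h1, ?_, ?_⟩
  · intro p hp
    rw [← Nat.card_congr e.toEquiv]; exact h2 p hp
  · intro p q hp hq hpq
    refine Iff.trans ?_ (h3 p q hp hq hpq)
    constructor
    · rintro ⟨g, hg⟩; exact ⟨e.symm g, by rw [MulEquiv.orderOf_eq, hg]⟩
    · rintro ⟨g, hg⟩; exact ⟨e g, by rw [MulEquiv.orderOf_eq, hg]⟩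

end Cfsg.Agent.S3660
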