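import Cfsg.Statements.S3669
import Cfsg.Agent.S0157
import Cfsg.Agent.Lib.DicksonListAux
import Cfsg.Agent.Lib.CharDegree
import Cfsg.Agent.Lib.CharLinear
import Cfsg.Agent.Lib.CharPowDeg
import Cfsg.Agent.Lib.TransferMore

set_option autoImplicit false
open Cfsg
open scoped Pointwise

namespace Cfsg.Agent.S3669

/-- The character degree graph of a finite group has as vertices the primes dividing some irreducible complex character degree, two distinct primes being joined when their product divides some irreducible character degree; two groups have the same character degree graph when they have the same vertices and the same joined pairs. A finite group of order 60 with the same character degree graph as the alternating group A₅ (whose character degrees are 1, 3, 4, 5, so the graph has vertices 2, 3, 5 and no edges) is isomorphic to A₅. -/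
theorem result {G : Type*} [Group G] [Finite G] (hcard : Nat.card G = 60)
    (hΓ : Cfsg.degreePrimes G = Cfsg.degreePrimes (alternatingGroup (Fin 5)) ∧ Cfsg.degreeGraph G = Cfsg.degreeGraph (alternatingGroup (Fin 5))) : Nonempty (G ≃* alternatingGroup (Fin 5)) := by
  classical
  haveI : Fact (Nat.Prime 3) := ⟨Nat.prime_three⟩
  haveI : Fact (Nat.Prime 5) := ⟨Nat.prime_five⟩
  have hA60 : Nat.card (alternatingGroup (Fin 5)) = 60 := by
    rw [nat_card_alternatingGroup, Nat.card_fin]; decide
  have hsix : ∀ {K : Type} [Group K] [Finite K], Nat.card K = 60 → Nat.card (Sylow 5 K) ≠ 1 →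
      Nat.card (Sylow 5 K) = 6 := fun {K} _ _ hK hne => by
    obtain ⟨P⟩ : Nonempty (Sylow 5 K) := inferInstance
    have hP : Nat.card P = 5 := by
      rw [P.card_eq_multiplicity, hK, show (60 : ℕ) = 5 ^ 1 * 12 from rfl,
        Nat.factorization_mul (by norm_num) (by norm_num), Finsupp.add_apply,
        Nat.Prime.factorization_pow Nat.prime_five,
        Nat.factorization_eq_zero_of_not_dvd (by norm_num : ¬ 5 ∣ 12)]
      simp
    have hd := CfsgLib.Perm.card_sylow_mul_card_normalizer P
    obtain ⟨k, hk⟩ : 5 ∣ Nat.card (Subgroup.normalizer ((P : Subgroup K) : Set K)) :=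
      hP.symm.dvd.trans (Subgroup.card_dvd_of_le Subgroup.le_normalizer)
    rw [hk, hK] at hd
    have h12 : Nat.card (Sylow 5 K) ∣ 12 := ⟨k, by linarith⟩
    have := Nat.le_of_dvd (by norm_num) h12
    have hn := card_sylow_modEq_one 5 K
    rw [Nat.ModEq] at hn
    generalize Nat.card (Sylow 5 K) = v at hne this hn h12
    interval_cases v <;> omega
  -- five is a character degree prime of the alternating group
  have hA5 : 5 ∈ Cfsg.degreePrimes (alternatingGroup (Fin 5)) := by
    have hne : Nat.card (Sylow 5 (alternatingGroup (Fin 5))) ≠ 1 := fun h => by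
      haveI : Subsingleton (Sylow 5 (alternatingGroup (Fin 5))) := Finite.card_le_one_iff_subsingleton.1 h.le
      obtain ⟨P⟩ : Nonempty (Sylow 5 (alternatingGroup (Fin 5))) := inferInstance
      have hn := Sylow.normal_of_subsingleton P
      rcases hn.eq_bot_or_eq_top with h' | h'
      · exact P.ne_bot_of_dvd_card (by rw [hA60]; norm_num) h'
      · have h2 : IsPGroup 5 (⊤ : Subgroup (alternatingGroup (Fin 5))) := h' ▸ P.2
        obtain ⟨k, hk⟩ := h2.exists_card_eq
        rw [Subgroup.card_top, hA60] at hk
        have : 2 ∣ 5 ^ k := hk ▸ (by norm_num : 2 ∣ 60)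
        exact absurd (Nat.Prime.dvd_of_dvd_pow Nat.prime_two this) (by norm_num)
    have h6 := hsix hA60 hne
    haveI : MulAction.IsMultiplyPretransitive (alternatingGroup (Fin 5)) (Sylow 5 (alternatingGroup (Fin 5))) 2 := by
      rw [MulAction.is_two_pretransitive_iff]
      have key : ∀ P Q R : Sylow 5 (alternatingGroup (Fin 5)), Q ≠ P → R ≠ P →
          ∃ g : alternatingGroup (Fin 5), g • P = P ∧ g • Q = R := by
        intro P Q R hQ hR
        have hP5 : Nat.card P = 5 := by
          rw [P.card_eq_multiplicity, hA60, show (60 : ℕ) = 5 ^ 1 * 12 from rfl,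
            Nat.factorization_mul (by norm_num) (by norm_num), Finsupp.add_apply,
            Nat.Prime.factorization_pow Nat.prime_five,
            Nat.factorization_eq_zero_of_not_dvd (by norm_num : ¬ 5 ∣ 12)]
          simp
        have horb : Nat.card (MulAction.orbit (P : Subgroup (alternatingGroup (Fin 5))) Q) = 5 := by
          have h := MulAction.index_stabilizer (P : Subgroup (alternatingGroup (Fin 5))) Q
          have hd : Nat.card (MulAction.orbit (P : Subgroup (alternatingGroup (Fin 5))) Q) ∣ 5 := by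
            rw [Nat.card_coe_set_eq, ← h]; exact (Subgroup.index_dvd_card _).trans (dvd_of_eq hP5)
          refine ((Nat.dvd_prime Nat.prime_five).1 hd).resolve_left fun e => hQ ?_
          rw [Nat.card_coe_set_eq, ← h, Subgroup.index_eq_one, Subgroup.eq_top_iff'] at e
          have hle : (P : Subgroup (alternatingGroup (Fin 5))) ≤ Subgroup.normalizer ((Q : Subgroup (alternatingGroup (Fin 5))) : Set (alternatingGroup (Fin 5))) :=
            fun g hg => Sylow.smul_eq_iff_mem_normalizer.1 (e ⟨g, hg⟩)
          have hle' : (P : Subgroup (alternatingGroup (Fin 5))) ≤ Q := by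
            rw [← inf_eq_left, ← P.2.inf_normalizer_sylow Q, inf_eq_left]
            exact hle
          exact Sylow.ext (P.3 Q.2 hle')
        have horb' : MulAction.orbit (P : Subgroup (alternatingGroup (Fin 5))) Q = {P}ᶜ := by
          refine Set.eq_of_subset_of_ncard_le ?_ ?_ (Set.toFinite _)
          · rintro _ ⟨g, rfl⟩ (h : (g : alternatingGroup (Fin 5)) • Q = P)
            have h2 : (g : alternatingGroup (Fin 5)) • P = P :=
              Sylow.smul_eq_iff_mem_normalizer.2 (Subgroup.le_normalizer g.2)
            exact hQ (MulAction.injective _ (h.trans h2.symm))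
          · rw [Set.ncard_compl, Set.ncard_singleton, h6, ← Nat.card_coe_set_eq, horb]
        obtain ⟨g, hg⟩ : R ∈ MulAction.orbit (P : Subgroup (alternatingGroup (Fin 5))) Q := horb' ▸ hR
        exact ⟨g, Sylow.smul_eq_iff_mem_normalizer.2 (Subgroup.le_normalizer g.2), hg⟩
      intro a b c d hab hcd
      obtain ⟨g, hg⟩ := MulAction.exists_smul_eq (alternatingGroup (Fin 5)) a c
      obtain ⟨k, hk1, hk2⟩ := key c (g • b) d (fun h => hab (MulAction.injective g (hg.trans h.symm))) hcd.symm
      exact ⟨k * g, by rw [mul_smul, hg, hk1], by rw [mul_smul, hk2]⟩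
    have hirr := (Cfsg.Agent.S0157.result (G := alternatingGroup (Fin 5)) (Sylow 5 (alternatingGroup (Fin 5))) (by omega)).2 this
    refine ⟨Nat.prime_five, 5, ⟨⟨_, hirr⟩, ?_⟩, dvd_refl 5⟩
    show ⌊((_ : ℂ) - 1).re⌋₊ = 5
    rw [show MulAction.fixedBy (Sylow 5 (alternatingGroup (Fin 5))) (1 : alternatingGroup (Fin 5)) = Set.univ from
      Set.eq_univ_of_forall fun x => one_smul _ x, Nat.card_congr (Equiv.Set.univ _), h6]
    norm_num
  have hG5 : 5 ∈ Cfsg.degreePrimes G := hΓ.1 ▸ hA5
  obtain ⟨P⟩ : Nonempty (Sylow 5 G) := inferInstance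
  obtain ⟨Q⟩ : Nonempty (Sylow 3 G) := inferInstance
  have hP : Nat.card P = 5 := by
    rw [P.card_eq_multiplicity, hcard, show (60 : ℕ) = 5 ^ 1 * 12 from rfl,
      Nat.factorization_mul (by norm_num) (by norm_num), Finsupp.add_apply,
      Nat.Prime.factorization_pow Nat.prime_five,
      Nat.factorization_eq_zero_of_not_dvd (by norm_num : ¬ 5 ∣ 12)]
    simp
  have hQ : Nat.card Q = 3 := by
    rw [Q.card_eq_multiplicity, hcard, show (60 : ℕ) = 3 ^ 1 * 20 from rfl,
      Nat.factorization_mul (by norm_num) (by norm_num), Finsupp.add_apply,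
      Nat.Prime.factorization_pow Nat.prime_three,
      Nat.factorization_eq_zero_of_not_dvd (by norm_num : ¬ 3 ∣ 20)]
    simp
  have hne : Nat.card (Sylow 5 G) ≠ 1 := fun h => by
    haveI := Fintype.ofFinite G
    haveI : Subsingleton (Sylow 5 G) := Finite.card_le_one_iff_subsingleton.1 h.le
    haveI := Sylow.normal_of_subsingleton P
    haveI := Fintype.ofFinite (P : Subgroup G)
    haveI : IsCyclic (P : Subgroup G) := isCyclic_of_prime_card hP
    obtain ⟨-, d, ⟨χ, rfl⟩, hd⟩ := hG5
    obtain ⟨θ, hθ, hcon⟩ := CfsgLib.Char.exists_irr_under (H := (P : Subgroup G)) χ.2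
    obtain ⟨k, hk, hdvd⟩ := CfsgLib.Char.degree_ratio χ.2 hθ hcon
    rw [CfsgLib.Char.irr_degree_one_of_comm (fun a b => (IsCyclic.commutative (α := (P : Subgroup G))).is_comm.comm a b) hθ, mul_one] at hk
    rw [Cfsg.charDegree, hk, Complex.natCast_re, Nat.floor_natCast] at hd
    have h := Subgroup.index_mul_card (P : Subgroup G)
    rw [hP, hcard] at h
    have := hd.trans hdvd
    omega
  have hPN : Nat.card (Subgroup.normalizer ((P : Subgroup G) : Set G)) * Nat.card (Sylow 5 G) = 60 := by
    rw [mul_comm, CfsgLib.Perm.card_sylow_mul_card_normalizer P, hcard]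
  have h5 : Nat.card (Sylow 5 G) = 6 := by
    have hd : Nat.card (Sylow 5 G) ∣ 12 := by
      obtain ⟨k, hk⟩ : 5 ∣ Nat.card (Subgroup.normalizer ((P : Subgroup G) : Set G)) :=
        hP.symm.dvd.trans (Subgroup.card_dvd_of_le Subgroup.le_normalizer)
      exact ⟨k, by rw [hk] at hPN; linarith⟩
    have := Nat.le_of_dvd (by norm_num) hd
    have hn := card_sylow_modEq_one 5 G
    rw [Nat.ModEq] at hn
    generalize Nat.card (Sylow 5 G) = v at hne this hn hd
    interval_cases v <;> omega
  rw [h5] at hPN
  -- a subgroup containing a Sylow five and normal contains them all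
  have hnormK : ∀ K : Subgroup G, K.Normal → 5 ∣ Nat.card K → 24 < Nat.card K := by
    intro K hK h5K
    have hsub : {g : G | orderOf g = 5} ⊆ (K : Set G) := by
      obtain ⟨⟨a, ha⟩, hao⟩ := exists_prime_orderOf_dvd_card' (G := K) 5 h5K
      rw [Subgroup.orderOf_mk] at hao
      intro g (hg : orderOf g = 5)
      have hpg : ∀ u : G, orderOf u = 5 → ∃ R : Sylow 5 G, (R : Subgroup G) = Subgroup.zpowers u := fun u hu => by
        obtain ⟨R, hR⟩ := (IsPGroup.of_card (n := 1) (by rw [Nat.card_zpowers, hu, pow_one]) : IsPGroup 5 (Subgroup.zpowers u)).exists_le_sylow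
        exact ⟨R, (Subgroup.eq_of_le_of_card_ge hR (by rw [CfsgLib.Perm.card_eq_of_card_sylow hP R, Nat.card_zpowers, hu])).symm⟩
      obtain ⟨R₁, hR₁⟩ := hpg a hao
      obtain ⟨R₂, hR₂⟩ := hpg g hg
      obtain ⟨w, hw⟩ := MulAction.exists_smul_eq G R₁ R₂
      have h1 : g ∈ ((w • R₁ : Sylow 5 G) : Subgroup G) := by rw [hw, hR₂]; exact Subgroup.mem_zpowers g
      rw [Sylow.coe_subgroup_smul, Subgroup.pointwise_smul_def] at h1
      obtain ⟨u, hu, rfl⟩ := h1
      exact hK.conj_mem u ((Subgroup.zpowers_le.2 ha) (hR₁ ▸ hu)) w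
    have h24 := CfsgLib.Perm.card_orderOf_prime hP
    rw [h5] at h24
    have hins : insert 1 {g : G | orderOf g = 5} ⊆ (K : Set G) := Set.insert_subset (one_mem K) hsub
    have hc := Set.ncard_le_ncard hins (Set.toFinite _)
    rw [Set.ncard_insert_of_notMem (by simp [orderOf_one]) (Set.toFinite _), ← Nat.card_coe_set_eq, ← Nat.card_coe_set_eq] at hc
    simp only [Set.coe_setOf, SetLike.coe_sort_coe] at hc
    omega
  have hQN : Nat.card (Sylow 3 G) * Nat.card (Subgroup.normalizer ((Q : Subgroup G) : Set G)) = 60 := by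
    rw [CfsgLib.Perm.card_sylow_mul_card_normalizer Q, hcard]
  have h3 : Nat.card (Sylow 3 G) = 10 := by
    have hd : Nat.card (Sylow 3 G) ∣ 20 := by
      obtain ⟨k, hk⟩ : 3 ∣ Nat.card (Subgroup.normalizer ((Q : Subgroup G) : Set G)) :=
        hQ.symm.dvd.trans (Subgroup.card_dvd_of_le Subgroup.le_normalizer)
      exact ⟨k, by rw [hk] at hQN; linarith⟩
    have := Nat.le_of_dvd (by norm_num) hd
    have hn := card_sylow_modEq_one 3 G
    rw [Nat.ModEq] at hn
    have h1 : Nat.card (Sylow 3 G) ≠ 1 := fun h => by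
      haveI : Subsingleton (Sylow 3 G) := Finite.card_le_one_iff_subsingleton.1 h.le
      haveI := Sylow.normal_of_subsingleton Q
      let N := Subgroup.normalizer ((P : Subgroup G) : Set G)
      have hN : Nat.card N = 10 := by show Nat.card (Subgroup.normalizer ((P : Subgroup G) : Set G)) = 10; omega
      have hsup : (Q : Subgroup G) ⊔ (P : Subgroup G) ≤ N := by
        refine sup_le ?_ Subgroup.le_normalizer
        intro q hq
        refine Subgroup.centralizer_le_normalizer _ (Subgroup.mem_centralizer_iff.2 fun u hu => ?_)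
        by_cases hq1 : q = 1
        · rw [hq1, mul_one, one_mul]
        have hqo : orderOf q = 3 := by
          refine ((Nat.dvd_prime Nat.prime_three).1 (hQ ▸ Subgroup.orderOf_dvd_natCard _ hq)).resolve_left fun e => hq1 (orderOf_eq_one_iff.1 e)
        have hconj : ∀ v : G, ∃ k, v * q * v⁻¹ = q ^ k ∧ k < 3 := fun v => by
          have hm : v * q * v⁻¹ ∈ Subgroup.zpowers q := by
            have he : Subgroup.zpowers q = (Q : Subgroup G) := Subgroup.eq_of_le_of_card_ge (Subgroup.zpowers_le.2 hq) (by rw [Nat.card_zpowers, hqo, hQ])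
            rw [he]
            exact (inferInstance : (Q : Subgroup G).Normal).conj_mem q hq v
          obtain ⟨k, hk, hk'⟩ := Finset.mem_image.1 (mem_zpowers_iff_mem_range_orderOf.1 hm)
          exact ⟨k, hk'.symm, hqo ▸ Finset.mem_range.1 hk⟩
        obtain ⟨k, hk, hk3⟩ := hconj u
        have h2 : Commute (u ^ 2) q := by
          refine mul_inv_eq_iff_eq_mul.1 ?_
          rw [pow_two, show u * u * q * (u * u)⁻¹ = u * (u * q * u⁻¹) * u⁻¹ by group, hk, ← conj_pow, hk, ← pow_mul]
          have hk0 : k ≠ 0 := fun e => hq1 (conj_eq_one_iff.1 (by rw [hk, e, pow_zero] : u * q * u⁻¹ = 1))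
          rw [← pow_mod_orderOf, hqo]
          interval_cases k <;> first | omega | simp
        have hu5 : u ^ 5 = 1 := orderOf_dvd_iff_pow_eq_one.1 (hP ▸ Subgroup.orderOf_dvd_natCard _ hu)
        have hu2 : u = (u ^ 2) ^ 3 := by rw [← pow_mul, show 2 * 3 = 5 + 1 from rfl, pow_succ, hu5, one_mul]
        have := h2.pow_left 3
        rw [← hu2] at this
        exact this.eq
      have := Subgroup.card_dvd_of_le (le_sup_left.trans hsup)
      rw [hQ, hN] at this
      omega
    have h4 : Nat.card (Sylow 3 G) ≠ 4 := fun h => by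
      let f := MulAction.toPermHom G (Sylow 3 G)
      have h5K : 5 ∣ Nat.card f.ker := by
        have h1 := Subgroup.index_mul_card f.ker
        rw [hcard, Subgroup.index_ker] at h1
        have h2 := Subgroup.card_subgroup_dvd_card f.range
        rw [Nat.card_perm, h] at h2
        norm_num [Nat.factorial] at h2
        refine (Nat.prime_five.dvd_mul.1 (h1 ▸ (by norm_num : 5 ∣ 60))).resolve_left fun h' => ?_
        exact absurd (h'.trans h2) (by norm_num)
      have h24 := hnormK _ f.normal_ker h5K
      have hle : f.ker ≤ MulAction.stabilizer G Q := fun g hg => congrArg (fun σ : Equiv.Perm _ => σ Q) hg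
      have hst : (MulAction.stabilizer G Q).index = 4 := by
        rw [MulAction.index_stabilizer_of_transitive, h]
      have := Subgroup.index_mul_card (MulAction.stabilizer G Q)
      rw [hst, hcard] at this
      have := Nat.le_of_dvd (by omega) (Subgroup.card_dvd_of_le hle)
      omega
    generalize Nat.card (Sylow 3 G) = v at h1 h4 this hn hd
    interval_cases v <;> omega
  refine CfsgLib.Dickson.alt_five_of_sixty hcard h3 fun x g hx hxg hg3 => ?_
  by_contra hg1
  rw [h3] at hQN
  obtain ⟨R, hR⟩ := (IsPGroup.of_card (n := 1) (by rw [Nat.card_zpowers, hx, pow_one]) : IsPGroup 3 (Subgroup.zpowers x)).exists_le_sylow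
  have hRx : (R : Subgroup G) = Subgroup.zpowers x :=
    (Subgroup.eq_of_le_of_card_ge hR (by rw [CfsgLib.Perm.card_eq_of_card_sylow hQ R, Nat.card_zpowers, hx])).symm
  have hRN : Nat.card (Subgroup.normalizer ((R : Subgroup G) : Set G)) = 6 := by
    have := CfsgLib.Perm.card_sylow_mul_card_normalizer R
    rw [h3, hcard] at this
    omega
  have hgC : g ∈ Subgroup.centralizer ((R : Subgroup G) : Set G) := by
    rw [hRx, Subgroup.zpowers_eq_closure, Subgroup.centralizer_closure, Subgroup.mem_centralizer_singleton_iff]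
    exact hxg.eq
  have hxC : x ∈ Subgroup.centralizer ((R : Subgroup G) : Set G) := by
    rw [hRx, Subgroup.zpowers_eq_closure, Subgroup.centralizer_closure, Subgroup.mem_centralizer_singleton_iff]
  have hC6 : Subgroup.normalizer ((R : Subgroup G) : Set G) ≤ Subgroup.centralizer ((R : Subgroup G) : Set G) := by
    refine (Subgroup.eq_of_le_of_card_ge (Subgroup.centralizer_le_normalizer _) ?_).ge
    rw [hRN]
    have hg6 := Subgroup.orderOf_dvd_natCard _ (Subgroup.centralizer_le_normalizer _ hgC)
    rw [hRN] at hg6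
    have h3' := Subgroup.orderOf_dvd_natCard _ hxC
    rw [hx] at h3'
    have h2 : 2 ∣ Nat.card (Subgroup.centralizer ((R : Subgroup G) : Set G)) := by
      refine dvd_trans ?_ (Subgroup.orderOf_dvd_natCard _ hgC)
      have := Nat.le_of_dvd (by norm_num) hg6
      have h0 := orderOf_pos g
      have h1 : orderOf g ≠ 1 := fun e => hg1 (orderOf_eq_one_iff.1 e)
      generalize orderOf g = v at hg3 hg6 this h0 h1
      interval_cases v <;> omega
    exact Nat.le_of_dvd Nat.card_pos (Nat.Coprime.mul_dvd_of_dvd_of_dvd (by norm_num : Nat.Coprime 3 2) h3' h2)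
  obtain ⟨R', K, hK, hKc⟩ := CfsgLib.Transfer.burnside R hC6
  have hKcard : Nat.card K = 20 := by
    have := hKc.card_mul
    rw [hcard, CfsgLib.Perm.card_eq_of_card_sylow hQ R'] at this
    omega
  have := hnormK K hK (by rw [hKcard]; norm_num)
  omega

end Cfsg.Agent.S3669
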