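import Cfsg.Statements.S3678
import Cfsg.Agent.Lib.PrimeGraphExt
import Mathlib

set_option autoImplicit false
open Cfsg

namespace Cfsg.Agent.S3678

/-- three pairwise coprime prime-power bounds on element orders leave no edge and no other prime -/
theorem graph_of_orders {G : Type*} [Group G] (a b c : ℕ) (h : ∀ g : G, g ^ a = 1 ∨ g ^ b = 1 ∨ g ^ c = 1)
    (ha : IsPrimePow a) (hb : IsPrimePow b) (hc : IsPrimePow c) {r s : ℕ} (hr : r.Prime) (hs : s.Prime)
    (hrs : r ≠ s) : ¬ ∃ g : G, orderOf g = r * s := by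
  rintro ⟨g, hg⟩
  have key : ∀ n, IsPrimePow n → g ^ n = 1 → False := by
    intro n hn h1
    obtain ⟨q, k, hq, -, rfl⟩ := (isPrimePow_nat_iff n).mp hn
    have hd := orderOf_dvd_of_pow_eq_one h1
    rw [hg] at hd
    exact hrs (((Nat.prime_dvd_prime_iff_eq hr hq).mp (hr.dvd_of_dvd_pow ((dvd_mul_right r s).trans hd))).trans
      ((Nat.prime_dvd_prime_iff_eq hs hq).mp (hs.dvd_of_dvd_pow ((dvd_mul_left s r).trans hd))).symm)
  rcases h g with h1 | h1 | h1
  exacts [key a ha h1, key b hb h1, key c hc h1]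

theorem prime_iff {G : Type*} [Group G] [Finite G] (p q r i j k : ℕ) (hp : p.Prime) (hq : q.Prime) (hr : r.Prime)
    (h : ∀ g : G, g ^ p ^ i = 1 ∨ g ^ q ^ j = 1 ∨ g ^ r ^ k = 1)
    (x y z : G) (hx : orderOf x = p) (hy : orderOf y = q) (hz : orderOf z = r)
    (l : ℕ) (hl : l.Prime) : l ∣ Nat.card G ↔ l = p ∨ l = q ∨ l = r := by
  constructor
  · intro hd
    haveI := Fact.mk hl
    obtain ⟨g, hg⟩ := exists_prime_orderOf_dvd_card' l hd
    have key : ∀ n m : ℕ, n.Prime → g ^ n ^ m = 1 → l = n := by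
      intro n m hn h1
      have h2 := orderOf_dvd_of_pow_eq_one h1
      rw [hg] at h2
      exact (Nat.prime_dvd_prime_iff_eq hl hn).mp (hl.dvd_of_dvd_pow h2)
    rcases h g with h1 | h1 | h1
    exacts [Or.inl (key p i hp h1), Or.inr (Or.inl (key q j hq h1)), Or.inr (Or.inr (key r k hr h1))]
  · rintro (h | h | h) <;> subst h
    exacts [hx ▸ orderOf_dvd_natCard x, hy ▸ orderOf_dvd_natCard y, hz ▸ orderOf_dvd_natCard z]

theorem ch {R : Type*} [CommRing R] (g : Matrix (Fin 2) (Fin 2) R) (hg : g.det = 1) :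
    g * g = (g 0 0 + g 1 1) • g - 1 := by
  rw [Matrix.det_fin_two] at hg
  ext i j
  fin_cases i <;> fin_cases j <;> simp [Matrix.mul_apply, Fin.sum_univ_two]
  · linear_combination -hg
  · ring
  · ring
  · linear_combination -hg

theorem pow_step {R : Type*} [CommRing R] {g : Matrix (Fin 2) (Fin 2) R} {t : R} (h : g * g = t • g - 1)
    {u v : R} {n : ℕ} (hn : g ^ n = u • g + v • 1) : g ^ (n + 1) = (u * t + v) • g + (-u) • 1 := by
  rw [pow_succ, hn, add_mul, smul_mul_assoc, smul_mul_assoc, h, one_mul, smul_sub, smul_smul, add_smul,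
    neg_smul]
  abel

/-- orders in SL(2, 8) divide 2, 7 or 9 -/
theorem sl8 {F : Type*} [Field F] [Fintype F] [CharP F 2] (hF : Fintype.card F = 8)
    (g : Matrix.SpecialLinearGroup (Fin 2) F) : g ^ 2 ^ 1 = 1 ∨ g ^ 3 ^ 2 = 1 ∨ g ^ 7 ^ 1 = 1 := by
  have two : (2 : F) = 0 := CharTwo.two_eq_zero
  have h := ch (g : Matrix (Fin 2) (Fin 2) F) g.2
  set M : Matrix (Fin 2) (Fin 2) F := (g : Matrix (Fin 2) (Fin 2) F)
  set t : F := M 0 0 + M 1 1
  have q1 : M ^ 1 = (1 : F) • M + (0 : F) • 1 := by simp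
  have q2 := pow_step h q1
  have q3 := pow_step h q2
  have q4 := pow_step h q3
  have q5 := pow_step h q4
  have q6 := pow_step h q5
  have q7 := pow_step h q6
  have q8 := pow_step h q7
  have q9 := pow_step h q8
  have mk : ∀ n, M ^ n = 1 → g ^ n = 1 := fun n hn =>
    Matrix.SpecialLinearGroup.ext _ _ fun i j => by rw [Matrix.SpecialLinearGroup.coe_pow, hn]; rfl
  have ev : ∀ (n : ℕ) (u v : F), M ^ n = u • M + v • 1 → u = 0 → v = 1 → g ^ n = 1 := by
    intro n u v hn hu hv
    exact mk n (by rw [hn, hu, hv, zero_smul, zero_add, one_smul])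
  by_cases ht : t = 0
  · exact Or.inl (ev 2 _ _ q2 (by rw [ht]; ring) (by linear_combination -two))
  have h7 : t ^ 7 = 1 := by
    have := FiniteField.pow_card_sub_one_eq_one t ht
    rwa [hF] at this
  have hprod : ((t + 1) * (t ^ 3 + t + 1)) * (t ^ 3 + t ^ 2 + 1) = 0 := by
    linear_combination h7 + (t ^ 6 + t ^ 5 + 2 * t ^ 4 + 2 * t ^ 3 + t ^ 2 + t + 1) * two
  rcases mul_eq_zero.mp hprod with hz | hz
  · refine Or.inr (Or.inl (ev 9 _ _ q9 ?_ ?_))
    · linear_combination ((t + 1) * (t ^ 3 + t + 1)) * hz + (-(t ^ 7) - 5 * t ^ 6 - 3 * t ^ 5 + 4 * t ^ 4 - 3 * t ^ 3 - 8 * t ^ 2 - 2 * t) * two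
    · linear_combination h7 + (-(t ^ 7) + 3 * t ^ 5 - 5 * t ^ 3 + 2 * t) * two
  · refine Or.inr (Or.inr (ev 7 _ _ q7 ?_ ?_))
    · linear_combination (t ^ 3 + t ^ 2 + 1) * hz + (-(t ^ 5) - 3 * t ^ 4 - t ^ 3 + 2 * t ^ 2 - 1) * two
    · linear_combination (-(t ^ 2) + t + 1) * hz + (t ^ 3 - 2 * t - 1) * two

theorem zmod7_trace : ∀ a : ZMod 7, ((a * a * a - 2 * a = 0) ∨ a * a - 1 = 0) ∨
    a ^ 6 - 5 * a ^ 4 + 6 * a ^ 2 - 1 = 0 := by decide

/-- orders in PSL(2, 7) divide 4, 3 or 7 -/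
theorem psl7 {F : Type*} [Field F] [Fintype F] (hF : Fintype.card F = 7)
    (g : Matrix.ProjectiveSpecialLinearGroup (Fin 2) F) : g ^ 2 ^ 2 = 1 ∨ g ^ 3 ^ 1 = 1 ∨ g ^ 7 ^ 1 = 1 := by
  haveI : CharP F 7 := by
    haveI := Fact.mk (show Nat.Prime 7 by norm_num)
    exact charP_of_card_eq_prime hF
  have seven : (7 : F) = 0 := CharP.cast_eq_zero F 7
  obtain ⟨x, rfl⟩ := QuotientGroup.mk_surjective g
  have h := ch (x : Matrix (Fin 2) (Fin 2) F) x.2
  set M : Matrix (Fin 2) (Fin 2) F := (x : Matrix (Fin 2) (Fin 2) F)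
  set t : F := M 0 0 + M 1 1
  have q1 : M ^ 1 = (1 : F) • M + (0 : F) • 1 := by simp
  have q2 := pow_step h q1
  have q3 := pow_step h q2
  have q4 := pow_step h q3
  have q5 := pow_step h q4
  have q6 := pow_step h q5
  have q7 := pow_step h q6
  have mk : ∀ (n : ℕ) (u v : F), M ^ n = u • M + v • 1 → u = 0 →
      (x : Matrix.ProjectiveSpecialLinearGroup (Fin 2) F) ^ n = 1 := by
    intro n u v hn hu
    rw [← QuotientGroup.mk_pow, QuotientGroup.eq_one_iff, Matrix.SpecialLinearGroup.mem_center_iff]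
    rw [hu, zero_smul, zero_add] at hn
    refine ⟨v, ?_, ?_⟩
    · have := (x ^ n).2
      rw [Matrix.SpecialLinearGroup.coe_pow, hn, Matrix.det_smul, Matrix.det_one, mul_one] at this
      exact this
    · rw [Matrix.SpecialLinearGroup.coe_pow, hn]
      ext i j
      simp [Matrix.scalar_apply, Matrix.one_apply, Matrix.diagonal_apply]
  haveI := Fact.mk (show Nat.Prime 7 by norm_num)
  obtain ⟨e, he⟩ : ∃ e : ZMod 7, ZMod.castHom (dvd_refl 7) F e = t :=
    ((Fintype.bijective_iff_injective_and_card _).mpr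
      ⟨(ZMod.castHom (dvd_refl 7) F).injective, by rw [ZMod.card, hF]⟩).2 t
  set f := ZMod.castHom (dvd_refl 7) F
  have hc : ∀ a : ZMod 7, ((a * a * a - 2 * a = 0) ∨ a * a - 1 = 0) ∨
      a ^ 6 - 5 * a ^ 4 + 6 * a ^ 2 - 1 = 0 := zmod7_trace
  rcases hc e with (h0 | h0) | h0 <;> have h0' := congrArg f h0 <;>
    simp only [map_sub, map_mul, map_add, map_pow, map_zero, map_one, map_ofNat, f, he] at h0'
  · exact Or.inl (mk 4 _ _ q4 (by linear_combination h0'))
  · exact Or.inr (Or.inl (mk 3 _ _ q3 (by linear_combination h0')))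
  · exact Or.inr (Or.inr (mk 7 _ _ q7 (by linear_combination h0')))

theorem order_of_pow_prime {G : Type*} [Group G] (x : G) (p : ℕ) (hp : p.Prime) (h1 : x ^ p = 1) (h2 : x ≠ 1) :
    orderOf x = p := by
  haveI := Fact.mk hp
  exact orderOf_eq_prime h1 h2


/-- The prime graph of a finite group has the prime divisors of its order as vertices, two distinct primes p, q being joined when the group has an element of order pq; two groups have the same prime graph when they have the same prime divisors and the same joined pairs. Let F be the field with 7 elements. There are finite groups of arbitrarily large order with the same prime graph as PSL(2,F) (the graph on {2, 3, 7} with no edges, which is also the prime graph of PSL(2,8)). -/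
theorem result {F : Type*} [Field F] [Fintype F] (hF : Fintype.card F = 7) (N : ℕ) :
    ∃ (H : Type) (_ : Group H) (_ : Finite H), N < Nat.card H ∧
      ((∀ p : ℕ, p.Prime → (p ∣ Nat.card (Matrix.ProjectiveSpecialLinearGroup (Fin 2) F) ↔ p ∣ Nat.card H)) ∧
      (∀ p q : ℕ, p.Prime → q.Prime → p ≠ q → ((∃ g : (Matrix.ProjectiveSpecialLinearGroup (Fin 2) F), orderOf g = p * q) ↔ (∃ g : H, orderOf g = p * q)))) := by
  classical
  let K := GaloisField 2 3
  letI : Fintype K := Fintype.ofFinite K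
  have hK : Fintype.card K = 8 := by rw [← Nat.card_eq_fintype_card, GaloisField.card 2 3 (by norm_num)]; norm_num
  let G := Matrix.SpecialLinearGroup (Fin 2) K
  let act : G →* Module.End K (Fin 2 → K) :=
    Matrix.toLinAlgEquiv'.toAlgHom.toMonoidHom.comp
      ((Units.coeHom _).comp Matrix.SpecialLinearGroup.toGL)
  letI : DistribMulAction G (Fin 2 → K) := DistribMulAction.compHom _ act
  have two : (2 : K) = 0 := CharTwo.two_eq_zero
  -- only involutions fix a vector
  have hfix : ∀ (x : G) (v : Fin 2 → K), v ≠ 0 → x • v = v → ∃ k : ℕ, orderOf x = 2 ^ k := by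
    intro x v hv hx
    have hx' : (x : Matrix (Fin 2) (Fin 2) K).mulVec v = v := hx
    set a : Matrix (Fin 2) (Fin 2) K := (x : Matrix (Fin 2) (Fin 2) K) with ha
    have hdet : a 0 0 * a 1 1 - a 0 1 * a 1 0 = 1 := by rw [← Matrix.det_fin_two]; exact x.2
    have e0 : a 0 0 * v 0 + a 0 1 * v 1 = v 0 := by
      have := congrFun hx' 0; simpa [Matrix.mulVec, dotProduct, Fin.sum_univ_two] using this
    have e1 : a 1 0 * v 0 + a 1 1 * v 1 = v 1 := by
      have := congrFun hx' 1; simpa [Matrix.mulVec, dotProduct, Fin.sum_univ_two] using this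
    have hv' : v 0 ≠ 0 ∨ v 1 ≠ 0 := by
      by_contra! h
      exact hv (funext fun i => by fin_cases i <;> simp [h.1, h.2])
    have htr : a 0 0 + a 1 1 = 0 := by
      rcases hv' with h | h
      · apply mul_right_cancel₀ h
        linear_combination (-(a 1 1 - 1)) * e0 + a 0 1 * e1 + v 0 * hdet + v 0 * two
      · apply mul_right_cancel₀ h
        linear_combination (-(a 0 0 - 1)) * e1 + a 1 0 * e0 + v 1 * hdet + v 1 * two
    have h2 : a * a = 1 := by
      rw [ch a x.2, htr, zero_smul, zero_sub]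
      ext i j; simp [CharTwo.neg_eq]
    have hsq : x ^ 2 = 1 :=
      Matrix.SpecialLinearGroup.ext _ _ fun i j => by
        rw [Matrix.SpecialLinearGroup.coe_pow, pow_two, ← ha, h2]; rfl
    obtain ⟨j, -, hj⟩ := (Nat.dvd_prime_pow Nat.prime_two).mp
      (show orderOf x ∣ 2 ^ 1 by simpa using orderOf_dvd_of_pow_eq_one hsq)
    exact ⟨j, hj⟩
  have hne : ∀ (A : G) (i j : Fin 2), (A : Matrix (Fin 2) (Fin 2) K) i j ≠ (1 : Matrix (Fin 2) (Fin 2) K) i j → A ≠ 1 :=
    fun A i j h hA => h (by rw [hA]; rfl)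
  obtain ⟨x2, hx2⟩ : ∃ x : G, orderOf x = 2 := by
    let g : G := ⟨!![1, 1; 0, 1], by simp [Matrix.det_fin_two]⟩
    refine ⟨g, order_of_pow_prime g 2 Nat.prime_two ?_ (hne g 0 1 (by simp [g]))⟩
    apply Matrix.SpecialLinearGroup.ext
    intro i j
    rw [Matrix.SpecialLinearGroup.coe_pow, pow_two, Matrix.SpecialLinearGroup.coe_one]
    fin_cases i <;> fin_cases j <;> simp [g, CharTwo.add_self_eq_zero]
  obtain ⟨x3, hx3⟩ : ∃ x : G, orderOf x = 3 := by
    let g : G := ⟨!![1, 1; 1, 0], by simp [Matrix.det_fin_two, CharTwo.neg_eq]⟩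
    refine ⟨g, order_of_pow_prime g 3 Nat.prime_three ?_ (hne g 0 1 (by simp [g]))⟩
    apply Matrix.SpecialLinearGroup.ext
    intro i j
    rw [Matrix.SpecialLinearGroup.coe_pow, pow_succ, pow_two, Matrix.SpecialLinearGroup.coe_one]
    fin_cases i <;> fin_cases j <;> simp [g, CharTwo.add_self_eq_zero]
  obtain ⟨x7, hx7⟩ : ∃ x : G, orderOf x = 7 := by
    obtain ⟨t, ht, htne⟩ : ∃ t : K, t ≠ 0 ∧ (t + 1) * (t ^ 3 + t + 1) ≠ 0 := by
      by_contra! hall
      open Polynomial in
      have hsub : (Finset.univ.erase (0 : K)) ⊆ ((X + 1) * (X ^ 3 + X + 1) : K[X]).roots.toFinset := by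
        intro a ha
        rw [Multiset.mem_toFinset, mem_roots']
        refine ⟨?_, by simpa using hall a (Finset.ne_of_mem_erase ha)⟩
        intro h0
        have := congrArg (fun P : K[X] => P.eval 0) h0
        simp at this
      open Polynomial in
      have h4 : ((X + 1) * (X ^ 3 + X + 1) : K[X]).natDegree ≤ 4 := by compute_degree
      have := (Finset.card_le_card hsub).trans ((Multiset.toFinset_card_le _).trans ((Polynomial.card_roots' _).trans h4))
      rw [Finset.card_erase_of_mem (Finset.mem_univ _), Finset.card_univ, hK] at this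
      omega
    let g : G := ⟨!![t, 1; 1, 0], by simp [Matrix.det_fin_two, CharTwo.neg_eq]⟩
    refine ⟨g, order_of_pow_prime g 7 (by norm_num) ?_ (hne g 0 1 (by simp [g]))⟩
    have h7 : t ^ 7 = 1 := by
      have := FiniteField.pow_card_sub_one_eq_one t ht
      rwa [hK] at this
    have hz : t ^ 3 + t ^ 2 + 1 = 0 := by
      have hprod : ((t + 1) * (t ^ 3 + t + 1)) * (t ^ 3 + t ^ 2 + 1) = 0 := by
        linear_combination h7 + (t ^ 6 + t ^ 5 + 2 * t ^ 4 + 2 * t ^ 3 + t ^ 2 + t + 1) * two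
      exact (mul_eq_zero.mp hprod).resolve_left htne
    have h := ch (g : Matrix (Fin 2) (Fin 2) K) g.2
    have e : (g : Matrix (Fin 2) (Fin 2) K) 0 0 + (g : Matrix (Fin 2) (Fin 2) K) 1 1 = t := by simp [g]
    rw [e] at h
    have q1 : (g : Matrix (Fin 2) (Fin 2) K) ^ 1 = (1 : K) • (g : Matrix (Fin 2) (Fin 2) K) + (0 : K) • 1 := by simp
    have q7 := pow_step h (pow_step h (pow_step h (pow_step h (pow_step h (pow_step h q1)))))
    apply Matrix.SpecialLinearGroup.ext
    intro i j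
    rw [Matrix.SpecialLinearGroup.coe_pow, Matrix.SpecialLinearGroup.coe_one, q7]
    have hu : ∀ u v : K, u = 0 → v = 1 →
        (u • (g : Matrix (Fin 2) (Fin 2) K) + v • (1 : Matrix (Fin 2) (Fin 2) K)) = 1 := by
      intro u v hu hv; simp [hu, hv]
    rw [hu _ _ ?_ ?_]
    · linear_combination (t ^ 3 + t ^ 2 + 1) * hz + (-(t ^ 5) - 3 * t ^ 4 - t ^ 3 + 2 * t ^ 2 - 1) * two
    · linear_combination (-(t ^ 2) + t + 1) * hz + (t ^ 3 - 2 * t - 1) * two
  obtain ⟨H, i1, i2, h1, h2, h3⟩ := CfsgLib.PrimeGraphExt.exists_large 2 Nat.prime_two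
    (hx2 ▸ orderOf_dvd_natCard x2) (fun v : Fin 2 → K => funext fun i => by simp [two]) hfix N
  refine ⟨H, i1, i2, h1, ?_, ?_⟩
  · intro p hp
    rw [← h2 p hp, prime_iff 2 3 7 1 2 1 Nat.prime_two Nat.prime_three (by norm_num) (sl8 hK) x2 x3 x7 hx2 hx3 hx7 p hp]
    haveI : CharP F 7 := by
      haveI := Fact.mk (show Nat.Prime 7 by norm_num)
      exact charP_of_card_eq_prime hF
    have seven : (7 : F) = 0 := CharP.cast_eq_zero F 7
    have nc : ∀ x : Matrix.SpecialLinearGroup (Fin 2) F, (x : Matrix (Fin 2) (Fin 2) F) 0 1 ≠ 0 →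
        (x : Matrix.ProjectiveSpecialLinearGroup (Fin 2) F) ≠ 1 := by
      intro x hx h
      rw [QuotientGroup.eq_one_iff, Matrix.SpecialLinearGroup.mem_center_iff] at h
      obtain ⟨r, -, hr⟩ := h
      exact hx (by rw [← hr]; simp)
    have pc : ∀ (x : Matrix.SpecialLinearGroup (Fin 2) F) (n : ℕ) (r : F), (x : Matrix (Fin 2) (Fin 2) F) ^ n = Matrix.scalar (Fin 2) r →
        (x : Matrix.ProjectiveSpecialLinearGroup (Fin 2) F) ^ n = 1 := by
      intro x n r h
      rw [← QuotientGroup.mk_pow, QuotientGroup.eq_one_iff, Matrix.SpecialLinearGroup.mem_center_iff]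
      refine ⟨r, ?_, by rw [Matrix.SpecialLinearGroup.coe_pow, h]⟩
      have := (x ^ n).2
      rw [Matrix.SpecialLinearGroup.coe_pow, h] at this
      simpa [Matrix.det_diagonal] using this
    let a : Matrix.SpecialLinearGroup (Fin 2) F := ⟨!![0, -1; 1, 0], by simp [Matrix.det_fin_two]⟩
    let b : Matrix.SpecialLinearGroup (Fin 2) F := ⟨!![1, -1; 1, 0], by simp [Matrix.det_fin_two]⟩
    let c : Matrix.SpecialLinearGroup (Fin 2) F := ⟨!![1, 1; 0, 1], by simp [Matrix.det_fin_two]⟩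
    refine (prime_iff 2 3 7 2 1 1 Nat.prime_two Nat.prime_three (by norm_num) (psl7 hF) (a : Matrix.ProjectiveSpecialLinearGroup (Fin 2) F) b c ?_ ?_ ?_ p hp)
    · refine order_of_pow_prime _ 2 Nat.prime_two (pc a 2 (-1) ?_) (nc a (by simp [a]))
      ext i j
      fin_cases i <;> fin_cases j <;> simp [a, pow_two, Matrix.mul_apply, Fin.sum_univ_two]
    · refine order_of_pow_prime _ 3 Nat.prime_three (pc b 3 (-1) ?_) (nc b (by simp [b]))
      ext i j
      fin_cases i <;> fin_cases j <;> simp [b, pow_succ, Matrix.mul_apply, Fin.sum_univ_two]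
    · refine order_of_pow_prime _ 7 (by norm_num) (pc c 7 1 ?_) (nc c (by simp [c]))
      ext i j
      fin_cases i <;> fin_cases j <;> simp [c, pow_succ, Matrix.mul_apply, Fin.sum_univ_two]
      linear_combination seven
  · intro p q hp hq hpq
    rw [← h3 p q hp hq hpq]
    exact iff_of_false
      (graph_of_orders _ _ _ (psl7 hF) (Nat.prime_two.isPrimePow.pow (by norm_num)) (Nat.prime_three.isPrimePow.pow (by norm_num))
        ((show Nat.Prime 7 by norm_num).isPrimePow.pow (by norm_num)) hp hq hpq)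
      (graph_of_orders _ _ _ (sl8 hK) (Nat.prime_two.isPrimePow.pow (by norm_num)) (Nat.prime_three.isPrimePow.pow (by norm_num))
        ((show Nat.Prime 7 by norm_num).isPrimePow.pow (by norm_num)) hp hq hpq)

end Cfsg.Agent.S3678
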