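import Cfsg.Statements.S3681


set_option autoImplicit false
open Cfsg

namespace Cfsg.Agent.S3681

/-- Bochert's bound for primitive groups. Let a finite group G act faithfully and primitively on a finite set Ω with n elements, and suppose the image of G in the symmetric group of Ω does not contain the alternating group of Ω. Then |G| · ⌊(n + 1)/2⌋! ≤ n!, that is, the index of G in the symmetric group is at least ⌊(n + 1)/2⌋!. -/
theorem result {G Ω : Type*} [Group G] [Finite G] [MulAction G Ω] [FaithfulSMul G Ω] [Fintype Ω] [DecidableEq Ω]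
    (hprim : MulAction.IsPreprimitive G Ω) (hA : ¬ alternatingGroup Ω ≤ (MulAction.toPermHom G Ω).range) :
    Nat.card G * Nat.factorial ((Fintype.card Ω + 1) / 2) ≤ Nat.factorial (Fintype.card Ω) := by
  classical
  set φ := MulAction.toPermHom G Ω with hφ
  have hφi : Function.Injective φ := MulAction.toPerm_injective
  have hP : MulAction.IsPreprimitive ↥φ.range Ω := by
    haveI := hprim
    let f : Ω →ₑ[φ.rangeRestrict] Ω := { toFun := id, map_smul' := fun g x => rfl }
    exact MulAction.IsPreprimitive.of_surjective (f := f) Function.surjective_id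
  -- no three-cycles
  have hno : ∀ g h : G, ∀ d : Ω, g • d ≠ d → h • d ≠ d →
      (∀ x, x ≠ d → g • x = x ∨ h • x = x) → False := by
    intro g h d hg hh hdisj
    set γ := φ g with hγ
    set η := φ h with hη
    have hd : ∀ x, x ≠ d → γ x = x ∨ η x = x := hdisj
    have hγd : γ d ≠ d := hg
    have hηd : η d ≠ d := hh
    have ai : ∀ (σ : Equiv.Perm Ω) x, σ (σ⁻¹ x) = x := fun σ x => σ.apply_symm_apply x
    have ia : ∀ (σ : Equiv.Perm Ω) x, σ⁻¹ (σ x) = x := fun σ x => σ.symm_apply_apply x
    have sym : ∀ (σ : Equiv.Perm Ω) x, σ x = x → σ⁻¹ x = x := fun σ x e =>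
      σ.injective (by rw [ai]; exact e.symm)
    set a := γ d with ha
    set b := η d with hb
    set k := γ * η * γ⁻¹ * η⁻¹ with hk
    have hka : η a = a := (hd a hγd).resolve_left fun e => hγd (γ.injective e)
    have hkb : γ b = b := (hd b hηd).resolve_right fun e => hηd (η.injective e)
    have hab : a ≠ b := fun e => hγd (γ.injective (show γ a = a by rw [e]; exact hkb))
    have k1 : k d = a := by
      have hc : η⁻¹ d ≠ d := fun e => hηd (by
        rw [hb]; nth_rewrite 1 [← e]; exact ai _ _)
      have hc2 : γ (η⁻¹ d) = η⁻¹ d := (hd _ hc).resolve_right fun e => hc (by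
        rw [ai] at e; exact e.symm)
      simp only [hk, Equiv.Perm.mul_apply, sym _ _ hc2, ai]; rfl
    have k2 : k a = b := by
      simp only [hk, Equiv.Perm.mul_apply, sym _ _ hka]
      rw [show γ⁻¹ a = d from ia _ _, ← hb, hkb]
    have k3 : k b = d := by
      have he : γ⁻¹ d ≠ d := fun e => hγd (by
        rw [ha]; nth_rewrite 1 [← e]; exact ai _ _)
      have he2 : η (γ⁻¹ d) = γ⁻¹ d := (hd _ he).resolve_left fun e => he (by
        rw [ai] at e; exact e.symm)
      simp only [hk, Equiv.Perm.mul_apply]
      rw [show η⁻¹ b = d from ia _ _, he2, ai]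
    have k4 : ∀ x, x ≠ d → x ≠ a → x ≠ b → k x = x := by
      intro x h1 h2 h3
      simp only [hk, Equiv.Perm.mul_apply]
      rcases hd x h1 with hx | hx
      · have hy : η⁻¹ x ≠ d := fun e => h3 (by rw [hb, ← e, ai])
        rcases hd _ hy with hy2 | hy2
        · rw [sym _ _ hy2, ai, hx]
        · rw [ai] at hy2
          have he : η x = x := by
            have := ai η x
            rwa [← hy2] at this
          rw [← hy2, sym _ _ hx, he, hx]
      · rw [sym _ _ hx]
        have hy : γ⁻¹ x ≠ d := fun e => h2 (by rw [ha, ← e, ai])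
        rcases hd _ hy with hy2 | hy2
        · rw [ai] at hy2
          rw [← hy2, hx]
          nth_rewrite 1 [hy2]
          exact ai _ _
        · rw [hy2, ai]
    have hsupp : k.support = {d, a, b} := by
      ext x
      simp only [Equiv.Perm.mem_support, Finset.mem_insert, Finset.mem_singleton]
      constructor
      · intro hx
        by_contra hc
        push Not at hc
        exact hx (k4 x hc.1 hc.2.1 hc.2.2)
      · rintro (rfl | rfl | rfl)
        · rw [k1]; exact hγd
        · rw [k2]; exact hab.symm
        · rw [k3]; exact hηd.symm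
    have h3 : k.IsThreeCycle := by
      rw [← card_support_eq_three_iff, hsupp, Finset.card_insert_of_notMem, Finset.card_pair hab]
      simp [hγd.symm, hηd.symm]
    exact hA (Equiv.Perm.alternatingGroup_le_of_isPreprimitive_of_isThreeCycle_mem hP h3
      ⟨g * h * g⁻¹ * h⁻¹, by simp [hk, hγ, hη]⟩)
  -- a small base
  let S : Finset (Finset Ω) :=
    Finset.univ.filter fun D => ∀ g : G, (∀ x ∈ D, g • x = x) → g = 1
  have hS : S.Nonempty := ⟨Finset.univ, Finset.mem_filter.2 ⟨Finset.mem_univ _, fun g hg =>
    FaithfulSMul.eq_of_smul_eq_smul fun x : Ω => by rw [hg x (Finset.mem_univ x), one_smul]⟩⟩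
  obtain ⟨D, hD, hDmin⟩ := S.exists_min_image Finset.card hS
  simp only [S, Finset.mem_filter, Finset.mem_univ, true_and] at hD hDmin
  have hsmall : 2 * D.card ≤ Fintype.card Ω := by
    by_contra hlt
    obtain ⟨g, hg, hg1⟩ : ∃ g : G, (∀ x ∈ Dᶜ, g • x = x) ∧ g ≠ 1 := by
      by_contra hc
      push Not at hc
      have := hDmin Dᶜ hc
      rw [Finset.card_compl] at this
      omega
    obtain ⟨d, hdD, hdg⟩ : ∃ d ∈ D, g • d ≠ d := by
      by_contra hc
      push Not at hc
      exact hg1 (hD g hc)
    obtain ⟨h, hh, hh1⟩ : ∃ h : G, (∀ x ∈ D.erase d, h • x = x) ∧ h ≠ 1 := by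
      by_contra hc
      push Not at hc
      have := hDmin (D.erase d) hc
      have := Finset.card_erase_lt_of_mem hdD
      omega
    refine hno g h d hdg ?_ ?_
    · intro e
      refine hh1 (hD h fun x hx => ?_)
      rcases eq_or_ne x d with rfl | hne
      · exact e
      · exact hh x (Finset.mem_erase.2 ⟨hne, hx⟩)
    · intro x hx
      by_cases hxD : x ∈ D
      · exact Or.inr (hh x (Finset.mem_erase.2 ⟨hx, hxD⟩))
      · exact Or.inl (hg x (Finset.mem_compl.2 hxD))
  -- counting
  let F : G × Equiv.Perm {x // x ∉ D} → Equiv.Perm Ω := fun p => φ p.1 * Equiv.Perm.ofSubtype p.2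
  have hF : Function.Injective F := by
    rintro ⟨g, σ⟩ ⟨g', σ'⟩ he
    have hgg : g = g' := by
      have : g⁻¹ * g' = 1 := hD _ fun x hx => by
        have h1 := Equiv.Perm.congr_fun he x
        simp only [F, Equiv.Perm.mul_apply] at h1
        rw [Equiv.Perm.ofSubtype_apply_of_not_mem (p := fun x => x ∉ D) _ (not_not.2 hx),
          Equiv.Perm.ofSubtype_apply_of_not_mem (p := fun x => x ∉ D) _ (not_not.2 hx)] at h1
        change g • x = g' • x at h1
        rw [mul_smul, ← h1, inv_smul_smul]
      exact inv_mul_eq_one.1 this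
    subst hgg
    exact Prod.ext rfl (Equiv.Perm.ofSubtype_injective (mul_left_cancel he))
  have hle := Nat.card_le_card_of_injective F hF
  rw [Nat.card_prod, Nat.card_perm, Nat.card_perm, Nat.card_eq_fintype_card (α := {x // x ∉ D}),
    Fintype.card_subtype_compl, Fintype.card_coe, Nat.card_eq_fintype_card (α := Ω)] at hle
  refine le_trans (Nat.mul_le_mul_left _ (Nat.factorial_le ?_)) hle
  omega

end Cfsg.Agent.S3681
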