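import Cfsg.Statements.S3683
import Cfsg.Agent.Lib.PermSmallFacts

set_option autoImplicit false
open Cfsg

namespace Cfsg.Agent.S3683

/-- Let a finite group G act faithfully and primitively on a set Ω, and suppose the stabilizer of a point a fixes a second point b ≠ a (a suborbit of length 1 other than {a}). Then the stabilizer of a is trivial and G is cyclic of prime order. -/
theorem result {G Ω : Type*} [Group G] [Finite G] [MulAction G Ω] [FaithfulSMul G Ω] [Finite Ω]
    (hprim : MulAction.IsPreprimitive G Ω) (a b : Ω) (hab : a ≠ b) (hfix : ∀ g : G, g • a = a → g • b = b) :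
    MulAction.stabilizer G a = ⊥ ∧ IsCyclic G ∧ (Nat.card G).Prime := by
  classical
  haveI := hprim
  haveI : Nontrivial Ω := ⟨a, b, hab⟩
  obtain ⟨g, hg⟩ := MulAction.exists_smul_eq G a b
  set H := MulAction.stabilizer G a with hH
  have hHb : MulAction.stabilizer G b = H := by
    symm
    refine Subgroup.eq_of_le_of_card_ge (fun x hx => hfix x hx) ?_
    rw [← hg, MulAction.stabilizer_smul_eq_stabilizer_map_conj]
    exact (Subgroup.card_map_of_injective (MulAut.conj g).injective).le
  have hgN : g ∈ Subgroup.normalizer (H : Set G) := by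
    refine Subgroup.mem_normalizer_iff.2 fun x => ?_
    rw [← hH] at *
    constructor
    · intro hx
      rw [← hHb, ← hg, MulAction.stabilizer_smul_eq_stabilizer_map_conj]
      exact ⟨x, hx, rfl⟩
    · intro hx
      rw [← hHb, ← hg, MulAction.stabilizer_smul_eq_stabilizer_map_conj] at hx
      obtain ⟨y, hy, hye⟩ := hx
      have : y = x := (MulAut.conj g).injective hye
      exact this ▸ hy
  have hmax : IsCoatom H := (MulAction.isCoatom_stabilizer_iff_preprimitive G a).2 hprim
  have hgH : g ∉ H := fun h => hab ((MulAction.mem_stabilizer_iff.1 h).symm.trans hg)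
  have hnormal : H.Normal := by
    rw [← Subgroup.normalizer_eq_top_iff]
    exact hmax.2 _ (lt_of_le_of_ne Subgroup.le_normalizer fun e => hgH (e ▸ hgN))
  have hbot : H = ⊥ := by
    rw [eq_bot_iff]
    intro x hx
    rw [Subgroup.mem_bot]
    refine FaithfulSMul.eq_of_smul_eq_smul fun y : Ω => ?_
    obtain ⟨k, rfl⟩ := MulAction.exists_smul_eq G a y
    have h1 : k⁻¹ * x * k ∈ H := by simpa using hnormal.conj_mem x hx k⁻¹
    rw [one_smul]
    calc x • k • a = k • ((k⁻¹ * x * k) • a) := by rw [smul_smul, smul_smul]; congr 1; group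
      _ = k • a := by rw [MulAction.mem_stabilizer_iff.1 h1]
  refine ⟨hbot, ?_⟩
  rw [hbot] at hmax
  have hgen : ∀ x : G, x ≠ 1 → Subgroup.zpowers x = ⊤ := fun x hx =>
    hmax.2 _ (lt_of_le_of_ne bot_le fun e => hx (Subgroup.mem_bot.1 (e ▸ Subgroup.mem_zpowers x)))
  haveI : Nontrivial G := by
    refine ⟨g, 1, fun e => hab ?_⟩
    rw [← hg, e, one_smul]
  obtain ⟨x, hx⟩ := exists_ne (1 : G)
  have hcyc : IsCyclic G := ⟨x, fun y => Subgroup.mem_zpowers_iff.1 ((hgen x hx).ge (Subgroup.mem_top y))⟩
  refine ⟨hcyc, ?_⟩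
  obtain ⟨r, hr, hrd⟩ := Nat.exists_prime_and_dvd (Finite.one_lt_card (α := G)).ne'
  haveI := Fact.mk hr
  obtain ⟨y, hy⟩ := exists_prime_orderOf_dvd_card' r hrd
  have h := hgen y (fun e => hr.ne_one (by rw [← hy, e, orderOf_one]))
  have h2 : Nat.card G = r := by rw [← hy, ← Nat.card_zpowers, h, Subgroup.card_top]
  exact h2 ▸ hr

end Cfsg.Agent.S3683
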