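import Cfsg.Statements.S3684
import Cfsg.Agent.Lib.StableZJ

set_option autoImplicit false
open Cfsg

namespace Cfsg.Agent.S3684

/-- Let a finite group G act faithfully and primitively on a set Ω, and suppose the stabilizer of a point a has an orbit of length 2. Then the stabilizer of a has order 2 and G is isomorphic to the dihedral group of order 2p for some prime p. -/
theorem result {G Ω : Type*} [Group G] [Finite G] [MulAction G Ω] [FaithfulSMul G Ω] [Finite Ω]
    (hprim : MulAction.IsPreprimitive G Ω) (a b : Ω) (h2 : Nat.card (MulAction.orbit (MulAction.stabilizer G a) b) = 2) :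
    Nat.card (MulAction.stabilizer G a) = 2 ∧ ∃ p : ℕ, p.Prime ∧ Nonempty (G ≃* DihedralGroup p) := by
  classical
  haveI := hprim
  set H := MulAction.stabilizer G a with hH
  have hab : b ≠ a := by
    rintro rfl
    haveI : Subsingleton (MulAction.orbit H b) := ⟨fun x y => by
      obtain ⟨_, u, rfl⟩ := x
      obtain ⟨_, v, rfl⟩ := y
      exact Subtype.ext ((MulAction.mem_stabilizer_iff.1 u.2).trans (MulAction.mem_stabilizer_iff.1 v.2).symm)⟩
    have := Finite.card_le_one_iff_subsingleton.2 this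
    omega
  haveI : Nontrivial Ω := ⟨a, b, hab.symm⟩
  have hmax : ∀ x : Ω, IsCoatom (MulAction.stabilizer G x) := fun x =>
    (MulAction.isCoatom_stabilizer_iff_preprimitive G x).2 hprim
  -- stabilizers contain no normal subgroup
  have hcore : ∀ N : Subgroup G, N.Normal → N ≤ H → N = ⊥ := by
    intro N hN hle
    rw [eq_bot_iff]
    intro x hx
    rw [Subgroup.mem_bot]
    refine FaithfulSMul.eq_of_smul_eq_smul fun y : Ω => ?_
    obtain ⟨k, rfl⟩ := MulAction.exists_smul_eq G a y
    have h1 : k⁻¹ * x * k ∈ H := hle (by simpa using hN.conj_mem x hx k⁻¹)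
    rw [one_smul]
    calc x • k • a = k • ((k⁻¹ * x * k) • a) := by rw [smul_smul, smul_smul]; congr 1; group
      _ = k • a := by rw [MulAction.mem_stabilizer_iff.1 h1]
  obtain ⟨g, hg⟩ := MulAction.exists_smul_eq G a b
  set H' := MulAction.stabilizer G b with hH'
  have hcard : Nat.card H' = Nat.card H := by
    rw [hH', ← hg, MulAction.stabilizer_smul_eq_stabilizer_map_conj]
    exact Subgroup.card_map_of_injective (MulAut.conj g).injective
  have hidx : (H'.subgroupOf H).index = 2 := by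
    rw [← h2]
    have h := Nat.card_congr (MulAction.orbitEquivQuotientStabilizer H b)
    have he : MulAction.stabilizer H b = H'.subgroupOf H := by
      ext x
      rw [Subgroup.mem_subgroupOf, MulAction.mem_stabilizer_iff, MulAction.mem_stabilizer_iff]
      rfl
    rw [he] at h
    rw [h, Subgroup.index]
  have hidx' : (H.subgroupOf H').index = 2 := by
    have h1 := Subgroup.card_mul_index (H'.subgroupOf H)
    have h3 := Subgroup.card_mul_index (H.subgroupOf H')
    have h4 : Nat.card (H'.subgroupOf H) = Nat.card (H.subgroupOf H') := by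
      rw [← Subgroup.card_subtype, Subgroup.subgroupOf_map_subtype, ← Subgroup.card_subtype H',
        Subgroup.subgroupOf_map_subtype, inf_comm]
    rw [hidx] at h1
    rw [hcard, ← h1, h4] at h3
    exact Nat.eq_of_mul_eq_mul_left Nat.card_pos h3
  have hne : H' ≠ H := fun e => by
    rw [e, Subgroup.subgroupOf_self, Subgroup.index_top] at hidx
    exact absurd hidx (by norm_num)
  have hK : H ⊓ H' = ⊥ := by
    refine hcore _ ?_ inf_le_left
    rw [← Subgroup.normalizer_eq_top_iff]
    have h1 : H ≤ Subgroup.normalizer ((H ⊓ H' : Subgroup G) : Set G) := by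
      haveI := Subgroup.normal_of_index_eq_two hidx
      intro x hx
      have h1 := Subgroup.le_normalizer_map H.subtype
        (show x ∈ (Subgroup.normalizer ((H'.subgroupOf H : Subgroup H) : Set H)).map H.subtype from
          ⟨⟨x, hx⟩, by rw [Subgroup.normalizer_eq_top]; exact Subgroup.mem_top _, rfl⟩)
      rwa [Subgroup.subgroupOf_map_subtype, inf_comm] at h1
    have h3 : H' ≤ Subgroup.normalizer ((H ⊓ H' : Subgroup G) : Set G) := by
      haveI := Subgroup.normal_of_index_eq_two hidx'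
      intro x hx
      have h1 := Subgroup.le_normalizer_map H'.subtype
        (show x ∈ (Subgroup.normalizer ((H.subgroupOf H' : Subgroup H') : Set H')).map H'.subtype from
          ⟨⟨x, hx⟩, by rw [Subgroup.normalizer_eq_top]; exact Subgroup.mem_top _, rfl⟩)
      rwa [Subgroup.subgroupOf_map_subtype] at h1
    rcases h1.eq_or_lt with h | h
    · exfalso
      rcases (hmax b).le_iff.1 (le_refl H') with h' | h'
      · exact (hmax b).1 h'
      · exact hne (Subgroup.eq_of_le_of_card_ge (h3.trans h.ge) hcard.ge)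
    · exact (hmax a).2 _ h
  have hH2 : Nat.card H = 2 := by
    have h1 := Subgroup.card_mul_index (H'.subgroupOf H)
    rw [hidx, Subgroup.subgroupOf_eq_bot.2 (disjoint_iff.2 (inf_comm H' H ▸ hK)), Subgroup.card_bot] at h1
    omega
  refine ⟨hH2, ?_⟩
  haveI : Fact (Nat.Prime 2) := ⟨Nat.prime_two⟩
  obtain ⟨⟨s, hsH⟩, hs⟩ := exists_prime_orderOf_dvd_card' (G := H) 2 (by rw [hH2])
  obtain ⟨⟨t, htH⟩, ht⟩ := exists_prime_orderOf_dvd_card' (G := H') 2 (by rw [hcard, hH2])
  rw [← Subgroup.orderOf_coe] at hs ht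
  simp only at hs ht
  have hss : s * s = 1 := by rw [← pow_two, ← hs, pow_orderOf_eq_one]
  have htt : t * t = 1 := by rw [← pow_two, ← ht, pow_orderOf_eq_one]
  have hsH' : H = Subgroup.zpowers s := (Subgroup.eq_of_le_of_card_ge (Subgroup.zpowers_le.2 hsH)
    (by rw [Nat.card_zpowers, hs, hH2])).symm
  have htH' : H' = Subgroup.zpowers t := (Subgroup.eq_of_le_of_card_ge (Subgroup.zpowers_le.2 htH)
    (by rw [Nat.card_zpowers, ht, hcard, hH2])).symm
  obtain ⟨x, hx⟩ : ∃ x, x = s * t := ⟨_, rfl⟩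
  have hgen : Subgroup.zpowers s ⊔ Subgroup.zpowers x = ⊤ := by
    refine (hmax a).2 _ ?_
    rw [← hH, hsH']
    refine lt_of_le_of_ne le_sup_left fun e => ?_
    have h1 : x ∈ H := hsH' ▸ e ▸ Subgroup.mem_sup_right (Subgroup.mem_zpowers x)
    have h3 : t ∈ H ⊓ H' := ⟨by
      have := H.mul_mem hsH h1
      rwa [hx, ← mul_assoc, hss, one_mul] at this, htH⟩
    rw [hK, Subgroup.mem_bot] at h3
    rw [h3, orderOf_one] at ht
    norm_num at ht
  have hconj : s * x * s⁻¹ = x⁻¹ := by
    rw [hx, mul_inv_rev, inv_eq_of_mul_eq_one_right hss, inv_eq_of_mul_eq_one_right htt,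
      show s * (s * t) * s = s * s * t * s by group, hss, one_mul]
  have hn : (Subgroup.zpowers x).Normal := by
    rw [← Subgroup.normalizer_eq_top_iff, eq_top_iff, ← hgen]
    refine sup_le (Subgroup.zpowers_le.2 ?_) Subgroup.le_normalizer
    refine Subgroup.mem_normalizer_iff.2 fun y => ⟨fun hy => ?_, fun hy => ?_⟩
    · obtain ⟨j, rfl⟩ := Subgroup.mem_zpowers_iff.1 hy
      rw [← conj_zpow, hconj]
      exact Subgroup.zpow_mem _ (Subgroup.inv_mem _ (Subgroup.mem_zpowers x)) j
    · obtain ⟨j, hj⟩ := Subgroup.mem_zpowers_iff.1 hy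
      have h1 : y = s * (s * y * s⁻¹) * s⁻¹ := by
        rw [inv_eq_of_mul_eq_one_right hss]
        rw [show s * (s * y * s) * s = (s * s) * y * (s * s) by group, hss, one_mul, mul_one]
      rw [h1, ← hj, ← conj_zpow, hconj]
      exact Subgroup.zpow_mem _ (Subgroup.inv_mem _ (Subgroup.mem_zpowers x)) j
  have hsx : s ∉ Subgroup.zpowers x := by
    intro h
    have htop : Subgroup.zpowers x = ⊤ := by
      rw [← hgen]; exact (sup_eq_right.2 (Subgroup.zpowers_le.2 h)).symm
    have hHn : H.Normal := by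
      refine ⟨fun y hy z => ?_⟩
      have hz : z ∈ Subgroup.zpowers x := htop ▸ Subgroup.mem_top z
      have hy' : y ∈ Subgroup.zpowers x := htop ▸ Subgroup.mem_top y
      obtain ⟨i, rfl⟩ := Subgroup.mem_zpowers_iff.1 hz
      obtain ⟨j, rfl⟩ := Subgroup.mem_zpowers_iff.1 hy'
      rwa [(Commute.zpow_zpow (Commute.refl x) i j).eq, mul_inv_cancel_right]
    have := hcore H hHn le_rfl
    rw [this, Subgroup.card_bot] at hH2
    norm_num at hH2
  obtain ⟨m, hm⟩ : ∃ m, m = orderOf x := ⟨_, rfl⟩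
  haveI : NeZero m := ⟨hm ▸ (orderOf_pos x).ne'⟩
  have hxm : x ^ (m : ℤ) = 1 := by rw [zpow_natCast, hm, pow_orderOf_eq_one]
  have hz : ∀ i : ℤ, x ^ ((((i : ZMod m)).cast : ℤ)) = x ^ i := by
    intro i
    rw [ZMod.coe_intCast, hm, zpow_mod_orderOf]
  have hsz : ∀ i : ℤ, x ^ i * s = s * x ^ (-i) := by
    intro i
    have h1 : s * x ^ (-i) * s⁻¹ = x ^ i := by rw [← conj_zpow, hconj, inv_zpow', neg_neg]
    rw [← h1, inv_mul_cancel_right]
  let φ : DihedralGroup m →* G :=
    { toFun := fun z => match z with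
        | DihedralGroup.r i => x ^ (i.cast : ℤ)
        | DihedralGroup.sr i => s * x ^ (i.cast : ℤ)
      map_one' := by
        show x ^ ((0 : ZMod m).cast : ℤ) = 1
        simp
      map_mul' := by
        have hadd : ∀ i j : ZMod m, x ^ ((i + j).cast : ℤ) = x ^ (i.cast : ℤ) * x ^ (j.cast : ℤ) := by
          intro i j
          rw [← zpow_add, ← hz ((i.cast : ℤ) + (j.cast : ℤ))]
          simp
        have hsub : ∀ i j : ZMod m, x ^ ((j - i).cast : ℤ) = x ^ (-(i.cast : ℤ)) * x ^ (j.cast : ℤ) := by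
          intro i j
          rw [← zpow_add, ← hz (-(i.cast : ℤ) + (j.cast : ℤ))]
          simp [sub_eq_neg_add]
        rintro (i | i) (j | j)
        · show x ^ ((i + j).cast : ℤ) = _
          exact hadd i j
        · show s * x ^ ((j - i).cast : ℤ) = x ^ (i.cast : ℤ) * (s * x ^ (j.cast : ℤ))
          rw [hsub, ← mul_assoc (x ^ (i.cast : ℤ)), hsz, mul_assoc]
        · show s * x ^ ((i + j).cast : ℤ) = _
          rw [hadd, mul_assoc]
        · show x ^ ((j - i).cast : ℤ) = s * x ^ (i.cast : ℤ) * (s * x ^ (j.cast : ℤ))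
          rw [hsub, mul_assoc s, ← mul_assoc (x ^ (i.cast : ℤ)), hsz, mul_assoc s, ← mul_assoc s, hss,
            one_mul] }
  have hinj : Function.Injective φ := by
    rw [injective_iff_map_eq_one]
    rintro (i | i) hi
    · have hi' : x ^ (i.cast : ℤ) = 1 := hi
      rw [DihedralGroup.one_def]
      congr 1
      rw [← ZMod.intCast_zmod_cast i, ZMod.intCast_zmod_eq_zero_iff_dvd]
      exact (congrArg (fun k : ℕ => (k : ℤ)) hm).symm ▸ orderOf_dvd_iff_zpow_eq_one.2 hi'
    · exfalso
      have hi' : s * x ^ (i.cast : ℤ) = 1 := hi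
      exact hsx (Subgroup.mem_zpowers_iff.2 ⟨-(i.cast : ℤ), by rw [zpow_neg]; exact (eq_inv_of_mul_eq_one_left hi').symm⟩)
  have hsurj : Function.Surjective φ := by
    intro y
    have hy : y ∈ φ.range := by
      have htop : (⊤ : Subgroup G) ≤ φ.range := by
        rw [← hgen]
        refine sup_le (Subgroup.zpowers_le.2 ⟨DihedralGroup.sr 0, ?_⟩) (Subgroup.zpowers_le.2 ⟨DihedralGroup.r ((1 : ℤ) : ZMod m), ?_⟩)
        · show s * x ^ ((0 : ZMod m).cast : ℤ) = s
          simp
        · show x ^ ((((1 : ℤ) : ZMod m)).cast : ℤ) = x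
          rw [hz, zpow_one]
      exact htop (Subgroup.mem_top y)
    exact hy
  refine ⟨m, ?_, ⟨(MulEquiv.ofBijective φ ⟨hinj, hsurj⟩).symm⟩⟩
  -- maximality of the stabilizer gives primality
  have hm1 : 1 < m := by
    rcases Nat.lt_or_ge 1 m with h | h
    · exact h
    exfalso
    have hm0 : m ≠ 0 := NeZero.ne m
    have : x = 1 := orderOf_eq_one_iff.1 (by omega)
    rw [this, Subgroup.zpowers_one_eq_bot, sup_bot_eq, ← hsH'] at hgen
    exact (hmax a).1 hgen
  refine Nat.prime_def_lt'.2 ⟨hm1, fun d hd hdm hdvd => ?_⟩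
  obtain ⟨y, hy⟩ : ∃ y, y = x ^ (d : ℤ) := ⟨_, rfl⟩
  -- the subgroup generated by `s` and a power of `x` is everything
  have hN : Subgroup.zpowers y ≤ Subgroup.zpowers x := Subgroup.zpowers_le.2 (hy ▸ Subgroup.zpow_mem _ (Subgroup.mem_zpowers x) _)
  have hsN : Subgroup.zpowers s ≤ Subgroup.normalizer ((Subgroup.zpowers y : Subgroup G) : Set G) := by
    refine Subgroup.zpowers_le.2 (CfsgLib.Stable.mem_normalizer_of_map_eq fun z hz' => ?_)
    obtain ⟨j, rfl⟩ := Subgroup.mem_zpowers_iff.1 hz'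
    rw [hy, ← zpow_mul, ← conj_zpow, hconj, inv_zpow, zpow_mul]
    exact Subgroup.inv_mem _ (Subgroup.zpow_mem _ (Subgroup.mem_zpowers _) j)
  have htop : Subgroup.zpowers s ⊔ Subgroup.zpowers y = ⊤ := by
    refine (hmax a).2 _ ?_
    rw [← hH, hsH']
    refine lt_of_le_of_ne le_sup_left fun e => ?_
    have h1 : y ∈ Subgroup.zpowers s := e ▸ Subgroup.mem_sup_right (Subgroup.mem_zpowers y)
    have h3 : y = 1 ∨ y = s := by
      obtain ⟨j, rfl⟩ := Subgroup.mem_zpowers_iff.1 h1
      rw [← zpow_mod_orderOf, hs]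
      rcases Int.emod_two_eq_zero_or_one j with h | h <;> simp [h]
    rcases h3 with h3 | h3
    · rw [hy, zpow_natCast] at h3
      have := Nat.le_of_dvd (by omega) (orderOf_dvd_of_pow_eq_one h3)
      omega
    · exact hsx (hN (h3 ▸ Subgroup.mem_zpowers y))
  have hxmem : x ∈ Subgroup.zpowers s ⊔ Subgroup.zpowers y := htop ▸ Subgroup.mem_top x
  rw [← SetLike.mem_coe, Subgroup.coe_mul_of_left_le_normalizer_right _ _ hsN, Set.mem_mul] at hxmem
  obtain ⟨u, hu, v, hv, huv⟩ := hxmem
  have hux : u ∈ Subgroup.zpowers x := by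
    rw [← mul_inv_eq_iff_eq_mul.2 huv.symm]
    exact Subgroup.mul_mem _ (Subgroup.mem_zpowers x) (Subgroup.inv_mem _ (hN hv))
  have hu1 : u = 1 := by
    obtain ⟨j, rfl⟩ := Subgroup.mem_zpowers_iff.1 hu
    rw [← zpow_mod_orderOf, hs] at hux ⊢
    rcases Int.emod_two_eq_zero_or_one j with h | h <;> simp [h] at hux ⊢
    exact absurd hux hsx
  rw [hu1, one_mul] at huv
  obtain ⟨j, hj⟩ := Subgroup.mem_zpowers_iff.1 hv
  rw [huv, hy, ← zpow_mul] at hj
  have h1 : x ^ ((d : ℤ) * j - 1) = 1 := by rw [zpow_sub, hj, zpow_one, mul_inv_cancel]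
  have h2' : (m : ℤ) ∣ (d : ℤ) * j - 1 := hm ▸ orderOf_dvd_iff_zpow_eq_one.2 h1
  have h3 : (d : ℤ) ∣ 1 := by
    have := (Int.natCast_dvd_natCast.2 hdvd).trans h2'
    simpa using dvd_sub (dvd_mul_right (d : ℤ) j) this
  have := Int.le_of_dvd (by norm_num) h3
  omega

end Cfsg.Agent.S3684
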