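import Cfsg.Statements.S3696
import Mathlib.Analysis.MeanInequalities


set_option autoImplicit false
open Cfsg

namespace Cfsg.Agent.S3696

/-- Let p be a prime, Ω a finite set with n ≥ p elements, and A an abelian p-subgroup of the symmetric group on Ω whose elements of order dividing p number p^k (so k is the rank of A). Then |A| · k^k ≤ n^k, that is, |A| ≤ (n/k)^k. -/
theorem result {Ω : Type*} [Fintype Ω] [DecidableEq Ω]
    (p : ℕ) (hp : p.Prime) (hn : p ≤ Fintype.card Ω) (A : Subgroup (Equiv.Perm Ω)) (hA : IsPGroup p A) (hab : IsMulCommutative A)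
    (k : ℕ) (hk : Nat.card {x : A // x ^ p = 1} = p ^ k) :
    Nat.card A * k ^ k ≤ Fintype.card Ω ^ k := by
  classical
  haveI : Fact p.Prime := ⟨hp⟩
  let T : Subgroup (Equiv.Perm Ω) → Type _ := fun B => {x : B // x ^ p = 1}
  -- orbit and stabilizer of a point inside a subgroup
  have hos : ∀ (B : Subgroup (Equiv.Perm Ω)) (ω : Ω),
      Nat.card B = (MulAction.orbit B ω).ncard * Nat.card ↥(B ⊓ MulAction.stabilizer (Equiv.Perm Ω) ω) := fun B ω => by
    rw [← MulAction.index_stabilizer, ← (MulAction.stabilizer B ω).card_mul_index, mul_comm]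
    congr 1
    refine Nat.card_congr ⟨fun x => ⟨x.1.1, x.1.2, x.2⟩, fun x => ⟨⟨x.1, x.2.1⟩, x.2.2⟩, fun x => rfl, fun x => rfl⟩
  suffices main : ∀ (c : ℕ) (B : Subgroup (Equiv.Perm Ω)), Nat.card B = c → B ≤ A → ∀ k : ℕ, Nat.card (T B) = p ^ k →
      ∃ L : List ℕ, L.length = k ∧ Nat.card B ≤ L.prod ∧ L.sum ≤ (Finset.univ.filter fun ω : Ω => ∃ g ∈ B, g ω ≠ ω).card by
    obtain ⟨L, hLk, hLp, hLs⟩ := main _ A rfl le_rfl k hk
    have hLn : L.sum ≤ Fintype.card Ω := hLs.trans (Finset.card_le_univ _)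
    rcases Nat.eq_zero_or_pos k with h0 | h0
    · rw [h0] at hLk
      rw [List.length_eq_zero_iff.1 hLk] at hLp
      simpa [h0] using hLp
    have hamgm : L.prod * k ^ k ≤ L.sum ^ k := by
      have h := Real.geom_mean_le_arith_mean Finset.univ (fun _ : Fin L.length => (1 : ℝ)) (fun i => ((L.get i : ℕ) : ℝ))
        (fun _ _ => zero_le_one) (by simp [hLk, h0]) (fun i _ => Nat.cast_nonneg _)
      simp only [Real.rpow_one, Finset.sum_const, Finset.card_univ, Fintype.card_fin, nsmul_eq_mul, mul_one, one_mul, hLk] at h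
      rw [← Nat.cast_prod, ← Nat.cast_sum] at h
      have e1 : ∏ i, L.get i = L.prod := by rw [← List.prod_ofFn, List.ofFn_get]
      have e2 : ∑ i, L.get i = L.sum := by rw [← List.sum_ofFn, List.ofFn_get]
      rw [e1, e2] at h
      have h2 := pow_le_pow_left₀ (Real.rpow_nonneg (Nat.cast_nonneg _) _) h k
      rw [Real.rpow_inv_natCast_pow (Nat.cast_nonneg _) h0.ne', div_pow, le_div_iff₀ (by positivity)] at h2
      exact_mod_cast h2
    exact (Nat.mul_le_mul_right _ hLp).trans (hamgm.trans (Nat.pow_le_pow_left hLn k))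
  intro c
  induction c using Nat.strong_induction_on with
  | _ c ih =>
    intro B hc hBA k hk
    by_cases hB1 : B = ⊥
    · subst hB1
      refine ⟨[], ?_, by simp, by simp⟩
      haveI : Subsingleton (T (⊥ : Subgroup (Equiv.Perm Ω))) := ⟨fun a b => Subtype.ext (Subsingleton.elim _ _)⟩
      haveI : Nonempty (T (⊥ : Subgroup (Equiv.Perm Ω))) := ⟨⟨1, one_pow p⟩⟩
      rw [Nat.card_unique] at hk
      rcases k with _ | k
      · rfl
      · exact absurd hk (Nat.one_lt_pow (Nat.succ_ne_zero k) hp.one_lt).ne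
    -- an element of order `p` and a point it moves
    have hBp : IsPGroup p B := hA.to_le hBA
    obtain ⟨x, hx⟩ := exists_prime_orderOf_dvd_card' (G := B) p (by
      obtain ⟨n, hn⟩ := (IsPGroup.iff_card (p := p)).1 hBp
      rcases n with _ | n
      · exact absurd (Subgroup.card_eq_one.1 (hn.trans (pow_zero p))) hB1
      · exact ⟨p ^ n, hn.trans (pow_succ' p n)⟩)
    obtain ⟨ω, hω⟩ : ∃ ω, (x : Equiv.Perm Ω) ω ≠ ω := by
      by_contra h
      push Not at h
      have : x = 1 := Subtype.ext (Equiv.ext h)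
      rw [this, orderOf_one] at hx
      exact hp.ne_one hx.symm
    set B' := B ⊓ MulAction.stabilizer (Equiv.Perm Ω) ω with hB'
    let TB : Subgroup (Equiv.Perm Ω) :=
      { carrier := {y | y ∈ B ∧ y ^ p = 1}
        one_mem' := ⟨B.one_mem, one_pow p⟩
        mul_mem' := fun {a b} ha hb => ⟨B.mul_mem ha.1 hb.1, by
          have hcm : Commute a b := congrArg Subtype.val (hab.is_comm.comm (⟨a, hBA ha.1⟩ : A) ⟨b, hBA hb.1⟩)
          rw [hcm.mul_pow, ha.2, hb.2, one_mul]⟩
        inv_mem' := fun {a} ha => ⟨B.inv_mem ha.1, by rw [inv_pow, ha.2, inv_one]⟩ }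
    have hTB : Nat.card TB = p ^ k := by
      rw [← hk]
      exact Nat.card_congr ⟨fun y => ⟨⟨y.1, y.2.1⟩, Subtype.ext y.2.2⟩, fun y => ⟨y.1.1, y.1.2, congrArg Subtype.val y.2⟩, fun y => rfl, fun y => rfl⟩
    have hTB' : Nat.card (T B') = Nat.card ↥(TB ⊓ MulAction.stabilizer (Equiv.Perm Ω) ω) :=
      Nat.card_congr ⟨fun y => ⟨y.1.1, ⟨y.1.2.1, congrArg Subtype.val y.2⟩, y.1.2.2⟩, fun y => ⟨⟨y.1, y.2.1.1, y.2.2⟩, Subtype.ext y.2.1.2⟩, fun y => rfl, fun y => rfl⟩
    obtain ⟨e, he⟩ := (hBp.index (MulAction.stabilizer B ω))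
    rw [MulAction.index_stabilizer] at he
    obtain ⟨d, hd⟩ := ((hA.to_le (show TB ≤ A from fun y hy => hBA hy.1)).index (MulAction.stabilizer TB ω))
    rw [MulAction.index_stabilizer] at hd
    obtain ⟨k', hk'⟩ := (IsPGroup.iff_card (p := p)).1 (hA.to_le (show TB ⊓ MulAction.stabilizer (Equiv.Perm Ω) ω ≤ A from fun y hy => hBA hy.1.1))
    have hkk : k = d + k' := by
      have h := hos TB ω
      rw [hTB, hd, hk', ← pow_add] at h
      exact Nat.pow_right_injective hp.two_le h
    have hsub : MulAction.orbit TB ω ⊆ MulAction.orbit B ω := by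
      rintro _ ⟨⟨y, hy⟩, rfl⟩; exact ⟨⟨y, hy.1⟩, rfl⟩
    have hde : d ≤ e := by
      have := Set.ncard_le_ncard hsub (Set.toFinite _)
      rw [hd, he] at this
      exact (Nat.pow_le_pow_iff_right hp.one_lt).1 this
    have hd1 : 1 ≤ d := by
      by_contra h0
      rw [show d = 0 by omega, pow_zero, Set.ncard_eq_one] at hd
      obtain ⟨u, hu⟩ := hd
      have h1 : ω ∈ MulAction.orbit TB ω := MulAction.mem_orbit_self ω
      have h2 : (x : Equiv.Perm Ω) ω ∈ MulAction.orbit TB ω := ⟨⟨x, x.2, by rw [← Subgroup.orderOf_coe] at hx; rw [← hx, pow_orderOf_eq_one]⟩, rfl⟩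
      rw [hu, Set.mem_singleton_iff] at h1 h2
      exact hω (h2.trans h1.symm)
    have hcB : Nat.card B = p ^ e * Nat.card B' := by rw [hos B ω, he]
    have hlt : Nat.card B' < c := by
      rw [← hc, hcB]
      exact lt_mul_of_one_lt_left Nat.card_pos (Nat.one_lt_pow (by omega) hp.one_lt)
    obtain ⟨L, hLk, hLp, hLs⟩ := ih _ hlt B' rfl (inf_le_left.trans hBA) k' (hTB'.trans hk')
    refine ⟨List.replicate (d - 1) p ++ p ^ (e - (d - 1)) :: L, by simp [hLk]; omega, ?_, ?_⟩
    · rw [List.prod_append, List.prod_replicate, List.prod_cons, ← mul_assoc, ← pow_add, show d - 1 + (e - (d - 1)) = e by omega, hcB]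
      exact Nat.mul_le_mul_left _ hLp
    · rw [List.sum_append, List.sum_replicate, List.sum_cons, smul_eq_mul, ← add_assoc]
      have hfin : ∀ j e : ℕ, 1 ≤ e → j * p + p ^ e ≤ p ^ (j + e) := by
        intro j
        induction j with
        | zero => intro e _; simp
        | succ j ihj =>
          intro e he
          rw [show j + 1 + e = j + e + 1 by omega, pow_succ, add_mul, one_mul]
          have h1 := ihj e he
          have h2 : p ≤ p ^ (j + e) := Nat.le_self_pow (by omega) p
          have h3 : 2 * p ^ (j + e) ≤ p ^ (j + e) * p := by rw [mul_comm]; exact Nat.mul_le_mul_left _ hp.two_le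
          omega
      have h4 := hfin (d - 1) (e - (d - 1)) (by omega)
      rw [show d - 1 + (e - (d - 1)) = e by omega, ← he, Set.ncard_eq_toFinset_card'] at h4
      refine le_trans (Nat.add_le_add h4 hLs) ?_
      rw [← Finset.card_union_of_disjoint]
      · refine Finset.card_le_card fun u hu => Finset.mem_filter.2 ⟨Finset.mem_univ u, ?_⟩
        rcases Finset.mem_union.1 hu with hu | hu
        · rw [Set.mem_toFinset] at hu
          obtain ⟨⟨y, hy⟩, rfl⟩ := hu
          refine ⟨x, x.2, fun h => hω ?_⟩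
          have hcm : (x : Equiv.Perm Ω) * y = y * x := congrArg Subtype.val (hab.is_comm.comm (⟨x, hBA x.2⟩ : A) ⟨y, hBA hy⟩)
          have h' : y ((x : Equiv.Perm Ω) ω) = y ω := by
            rw [← Equiv.Perm.mul_apply, ← hcm]; exact h
          exact y.injective h'
        · obtain ⟨g, hg, hgu⟩ := (Finset.mem_filter.1 hu).2
          exact ⟨g, hg.1, hgu⟩
      · refine Finset.disjoint_left.2 fun u hu hu' => ?_
        rw [Set.mem_toFinset] at hu
        obtain ⟨⟨y, hy⟩, rfl⟩ := hu
        obtain ⟨g, hg, hgu⟩ := (Finset.mem_filter.1 hu').2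
        refine hgu ?_
        have hcm : g * y = y * g := congrArg Subtype.val (hab.is_comm.comm (⟨g, hBA hg.1⟩ : A) ⟨y, hBA hy⟩)
        show g (y ω) = y ω
        rw [← Equiv.Perm.mul_apply, hcm, Equiv.Perm.mul_apply]
        exact congrArg y hg.2

end Cfsg.Agent.S3696
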