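import Cfsg.Statements.S3703
import Cfsg.Agent.Lib.CorePGroup
import Cfsg.Agent.Lib.CoreCoprime2

set_option autoImplicit false
open Cfsg
open scoped Pointwise

namespace Cfsg.Agent.S3703

/-- Let N be a normal subgroup of the finite group G such that G/N is a Frobenius group with kernel F and cyclic complement H, where the order of F is coprime to that of N and F is not contained in the image of C_G(N) in G/N. Then G has an element of order p·#H for some prime p dividing the order of N. (A standard tool in recognising groups by their element orders.) -/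
theorem result {G : Type*} [Group G] [Finite G] (N : Subgroup G) [N.Normal]
    (Fb Hb : Subgroup (G ⧸ N)) [Fb.Normal] (hHb : Cfsg.IsFrobeniusComplement Hb) (hker : Cfsg.frobeniusKernel Hb = (Fb : Set (G ⧸ N)))
    (hcyc : IsCyclic Hb) (hcop : (Nat.card Fb).Coprime (Nat.card N))
    (hnot : ¬ Fb ≤ (Subgroup.centralizer (N : Set G)).map (QuotientGroup.mk' N)) :
    ∃ p : ℕ, p.Prime ∧ p ∣ Nat.card N ∧ ∃ g : G, orderOf g = p * Nat.card Hb := by
  classical
  set f := QuotientGroup.mk' N with hfdef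
  have hfs : Function.Surjective f := QuotientGroup.mk'_surjective _
  set m := Nat.card Hb with hm
  set Ft := Fb.comap f with hFt
  haveI : Ft.Normal := inferInstance
  have hNF : N ≤ Ft := fun x hx => by
    show f x ∈ Fb
    rw [hfdef, QuotientGroup.mk'_apply, (QuotientGroup.eq_one_iff x).2 hx]; exact one_mem _
  have hFtcard : Nat.card Ft = Nat.card N * Nat.card Fb := by
    let ψ : Ft →* Fb := (f.comp Ft.subtype).codRestrict Fb fun x => x.2
    have hs : Function.Surjective ψ := fun y => by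
      obtain ⟨x, hx⟩ := hfs y.1
      exact ⟨⟨x, show f x ∈ Fb by rw [hx]; exact y.2⟩, Subtype.ext hx⟩
    have hk : ψ.ker = N.subgroupOf Ft := by
      ext x
      rw [MonoidHom.mem_ker, Subgroup.mem_subgroupOf, ← QuotientGroup.eq_one_iff (N := N) (x : G)]
      exact Subtype.ext_iff
    have := Subgroup.index_mul_card ψ.ker
    rw [Subgroup.index_ker, MonoidHom.range_eq_top.2 hs, Subgroup.card_top, hk,
      Nat.card_congr (Subgroup.subgroupOfEquivOfLe hNF).toEquiv] at this
    rw [← this, mul_comm]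
  have hNne : ∀ g : G, g ∈ N → f g = 1 := fun g hg => (QuotientGroup.eq_one_iff g).2 hg
  -- an element whose image has order `m` is of order `m`, or we are done
  by_contra hcon
  push Not at hcon
  have hord : ∀ g : G, orderOf (f g) = m → g ^ m = 1 := by
    intro g hg
    by_contra hne
    obtain ⟨t, ht⟩ : m ∣ orderOf g := hg ▸ orderOf_map_dvd f g
    have hgm : g ^ m ∈ N := (QuotientGroup.eq_one_iff _).1 (by
      show f (g ^ m) = 1
      rw [map_pow, ← hg, pow_orderOf_eq_one])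
    have hm0 : m ≠ 0 := Nat.card_pos.ne'
    have hto : orderOf (g ^ m) = t := by
      rw [orderOf_pow' _ hm0, ht, Nat.gcd_mul_right_left, Nat.mul_div_cancel_left _ (Nat.pos_of_ne_zero hm0)]
    have ht1 : t ≠ 1 := fun e => hne (orderOf_eq_one_iff.1 (hto.trans e))
    obtain ⟨r, hr, hrt⟩ := Nat.exists_prime_and_dvd ht1
    have hrN : r ∣ Nat.card N := hrt.trans (hto ▸ Subgroup.orderOf_dvd_natCard N hgm)
    obtain ⟨s, hs⟩ := hrt
    have hs0 : s ≠ 0 := fun e => by
      rw [hs, e, mul_zero, mul_zero] at ht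
      exact (orderOf_pos g).ne' ht
    refine hcon r hr hrN (g ^ s) ?_
    rw [orderOf_pow' _ hs0, ht, hs, show m * (r * s) = (r * m) * s by ring, Nat.gcd_mul_left_left,
      Nat.mul_div_cancel _ (Nat.pos_of_ne_zero hs0)]
  -- a prime `q` and a Sylow subgroup not centralizing `N`
  obtain ⟨q, hq, hqF, Q0, hQ0⟩ : ∃ (q : ℕ) (_ : q.Prime) (_ : q ∣ Nat.card Fb) (Q : Sylow q Ft),
      ¬ (Q : Subgroup Ft).map Ft.subtype ≤ Subgroup.centralizer (N : Set G) := by
    by_contra hno
    push Not at hno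
    refine hnot ?_
    let W := (Subgroup.centralizer (N : Set G) ⊓ Ft).map f
    have hWF : W ≤ Fb := by rintro _ ⟨x, ⟨-, hx⟩, rfl⟩; exact hx
    have hdvd : Nat.card Fb ∣ Nat.card W := by
      rw [Nat.dvd_iff_prime_pow_dvd_dvd]
      intro q k hq hk
      rcases Nat.eq_zero_or_pos k with rfl | hk0
      · simp
      haveI := Fact.mk hq
      have hqF : q ∣ Nat.card Fb := (dvd_pow_self q hk0.ne').trans hk
      obtain ⟨Q⟩ : Nonempty (Sylow q Ft) := inferInstance
      have hqN : ¬ q ∣ Nat.card N := fun h => hq.ne_one (Nat.eq_one_of_dvd_coprimes hcop hqF h)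
      let ψ : (Q : Subgroup Ft) →* G ⧸ N := f.comp (Ft.subtype.comp (Q : Subgroup Ft).subtype)
      have hinj : Function.Injective ψ := by
        refine (injective_iff_map_eq_one ψ).2 fun a ha => ?_
        have h1 : ((a : Ft) : G) ∈ N := (QuotientGroup.eq_one_iff _).1 ha
        obtain ⟨j, hj⟩ := (IsPGroup.iff_orderOf.1 Q.2) a
        have h2 : orderOf ((a : Ft) : G) = q ^ j := by rw [Subgroup.orderOf_coe, Subgroup.orderOf_coe, hj]
        have h3 : orderOf ((a : Ft) : G) = 1 := by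
          have h4 := Subgroup.orderOf_dvd_natCard N h1
          rw [h2] at h4 ⊢
          exact Nat.eq_one_of_dvd_coprimes ((hq.coprime_iff_not_dvd.2 hqN).pow_left j) dvd_rfl h4
        exact Subtype.ext (Subtype.ext (orderOf_eq_one_iff.1 h3))
      have hle : ψ.range ≤ W := by
        rintro _ ⟨a, rfl⟩
        exact ⟨((a : Ft) : G), ⟨hno q hq hqF Q ⟨(a : Ft), a.2, rfl⟩, (a : Ft).2⟩, rfl⟩
      refine dvd_trans ?_ (Subgroup.card_dvd_of_le hle)
      rw [← Nat.card_congr (MonoidHom.ofInjective hinj).toEquiv]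
      exact Q.pow_dvd_card_of_pow_dvd_card (hk.trans (hFtcard ▸ dvd_mul_left _ _))
    exact le_of_eq_of_le (Subgroup.eq_of_le_of_card_ge hWF (Nat.le_of_dvd Nat.card_pos hdvd)).symm
      (Subgroup.map_mono inf_le_left)
  haveI := Fact.mk hq
  have hqN : ¬ q ∣ Nat.card N := fun h => hq.ne_one (Nat.eq_one_of_dvd_coprimes hcop hqF h)
  -- a prime `p`
  obtain ⟨p, hp, hpN, hbad⟩ : ∃ (p : ℕ) (_ : p.Prime) (_ : p ∣ Nat.card N), ∀ P : Sylow p N,
      ¬ (P : Subgroup N).map N.subtype ≤ Subgroup.centralizer (((Q0 : Subgroup Ft).map Ft.subtype : Subgroup G) : Set G) := by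
    by_contra hno
    push Not at hno
    apply hQ0
    let C := Subgroup.centralizer (((Q0 : Subgroup Ft).map Ft.subtype : Subgroup G) : Set G) ⊓ N
    have hdvd : Nat.card N ∣ Nat.card C := by
      rw [Nat.dvd_iff_prime_pow_dvd_dvd]
      intro p k hp hk
      rcases Nat.eq_zero_or_pos k with rfl | hk0
      · simp
      haveI := Fact.mk hp
      obtain ⟨P, hP⟩ := hno p hp ((dvd_pow_self p hk0.ne').trans hk)
      refine dvd_trans ?_ (Subgroup.card_dvd_of_le (show (P : Subgroup N).map N.subtype ≤ C from le_inf hP (Subgroup.map_subtype_le _)))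
      rw [Subgroup.card_subtype]
      exact P.pow_dvd_card_of_pow_dvd_card hk
    have hCN : C = N := Subgroup.eq_of_le_of_card_ge inf_le_right (Nat.le_of_dvd Nat.card_pos hdvd)
    exact Subgroup.le_centralizer_iff.1 (inf_eq_right.1 hCN)
  haveI := Fact.mk hp
  have hqp : q ≠ p := fun e => hqN (e ▸ hpN)
  obtain ⟨P⟩ : Nonempty (Sylow p N) := inferInstance
  set PG := (P : Subgroup N).map N.subtype with hPG
  have hPGp : IsPGroup p PG := P.2.map _
  set M := Subgroup.normalizer (PG : Set G) with hM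
  have hMN : M ⊔ N = ⊤ := Sylow.normalizer_sup_eq_top P
  have hlift : ∀ x : G, ∃ y ∈ M, f y = f x := fun x => by
    obtain ⟨y, hy, n, hn, rfl⟩ := Subgroup.mem_sup_of_normal_right.1 (hMN.ge (Subgroup.mem_top x))
    exact ⟨y, hy, by rw [map_mul, hNne n hn, mul_one]⟩
  let FM : Subgroup M := Ft.subgroupOf M
  obtain ⟨Q⟩ : Nonempty (Sylow q FM) := inferInstance
  let incl : FM →* Ft := (M.subtype.comp FM.subtype).codRestrict Ft fun x => x.2
  have hincl : Function.Injective incl := fun a b e => Subtype.ext (Subtype.ext (congrArg (Subtype.val : Ft → G) e))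
  have hQcard : Nat.card Q = Nat.card Q0 := by
    rw [Q.card_eq_multiplicity, Q0.card_eq_multiplicity]
    congr 1
    let ψ : FM →* Fb := (f.comp (M.subtype.comp FM.subtype)).codRestrict Fb fun x => x.2
    have hs : Function.Surjective ψ := fun y => by
      obtain ⟨x, hx⟩ := hfs y.1
      obtain ⟨z, hz, hzx⟩ := hlift x
      exact ⟨⟨⟨z, hz⟩, show f z ∈ Fb by rw [hzx, hx]; exact y.2⟩, Subtype.ext (hzx.trans hx)⟩
    have h1 := Subgroup.index_mul_card ψ.ker
    rw [Subgroup.index_ker, MonoidHom.range_eq_top.2 hs, Subgroup.card_top] at h1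
    have h2 := Subgroup.card_dvd_of_injective incl hincl
    rw [hFtcard, ← h1] at h2
    obtain ⟨c, hc⟩ := h2
    have hpos : 0 < Nat.card Fb := Nat.card_pos
    have hk : Nat.card ψ.ker ∣ Nat.card N := ⟨c, Nat.eq_of_mul_eq_mul_left hpos (by rw [mul_comm, hc, mul_assoc])⟩
    rw [← h1, hFtcard, Nat.factorization_mul Nat.card_pos.ne' Nat.card_pos.ne', Nat.factorization_mul Nat.card_pos.ne' Nat.card_pos.ne',
      Finsupp.add_apply, Finsupp.add_apply, Nat.factorization_eq_zero_of_not_dvd hqN,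
      Nat.factorization_eq_zero_of_not_dvd (fun h => hqN (h.trans hk))]
    omega
  set Q1 := ((Q : Subgroup FM).map FM.subtype).map M.subtype with hQ1
  have hQ1M : Q1 ≤ M := Subgroup.map_subtype_le _
  -- `Q1` does not centralize `PG`
  have hnc : ¬ Q1 ≤ Subgroup.centralizer (PG : Set G) := by
    intro hc
    obtain ⟨R, hR⟩ := (Q.2.map incl).exists_le_sylow
    have hRQ : (Q : Subgroup FM).map incl = R := Subgroup.eq_of_le_of_card_ge hR (by
      rw [Nat.card_congr ((Q : Subgroup FM).equivMapOfInjective incl hincl).symm.toEquiv]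
      show Nat.card R ≤ Nat.card Q
      rw [hQcard, R.card_eq_multiplicity, Q0.card_eq_multiplicity])
    obtain ⟨g, hg⟩ := MulAction.exists_smul_eq Ft R Q0
    refine hbad ((MulAut.conjNormal (g : G) : MulAut N) • P) ?_
    rintro _ ⟨u, hu, rfl⟩
    obtain ⟨v, hv, rfl⟩ := hu
    refine Subgroup.mem_centralizer_iff.2 ?_
    rintro _ ⟨w, hw, rfl⟩
    rw [← hg, Sylow.coe_subgroup_smul, Subgroup.pointwise_smul_def, ← hRQ] at hw
    obtain ⟨_, ⟨z, hz, rfl⟩, rfl⟩ := hw
    have := Subgroup.mem_centralizer_iff.1 (hc ⟨_, ⟨z, hz, rfl⟩, rfl⟩) (v : G) ⟨v, hv, rfl⟩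
    show (g : G) * ((z : M) : G) * (g : G)⁻¹ * ((g : G) * (v : G) * (g : G)⁻¹) = (g : G) * (v : G) * (g : G)⁻¹ * ((g : G) * ((z : M) : G) * (g : G)⁻¹)
    calc (g : G) * ((z : M) : G) * (g : G)⁻¹ * ((g : G) * (v : G) * (g : G)⁻¹)
        = (g : G) * (((z : M) : G) * (v : G)) * (g : G)⁻¹ := by group
      _ = (g : G) * ((v : G) * ((z : M) : G)) * (g : G)⁻¹ := congrArg (fun x => (g : G) * x * (g : G)⁻¹) this.symm
      _ = _ := by group
  -- a Frobenius generator in `M` normalizing `Q1`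
  obtain ⟨⟨b, hbH⟩, hb⟩ := hcyc.exists_generator
  have hbo : orderOf b = m := by
    rw [← Subgroup.orderOf_mk b hbH, orderOf_eq_card_of_forall_mem_zpowers hb]
  obtain ⟨x0, hx0⟩ := hfs b
  obtain ⟨y0, hy0, hy0x⟩ := hlift x0
  obtain ⟨h', hh', k, hk, hhk⟩ := Subgroup.mem_sup_of_normal_right.1
    ((Sylow.normalizer_sup_eq_top Q).ge (Subgroup.mem_top (⟨y0, hy0⟩ : M)))
  set h : G := (h' : G) with hhdef
  have hhM : h ∈ M := h'.2
  have hfh : ∃ φ ∈ Fb, f h = b * φ := by
    refine ⟨(f (k : G))⁻¹, inv_mem hk, ?_⟩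
    rw [eq_mul_inv_iff_mul_eq, ← map_mul, ← hx0, ← hy0x]
    exact congrArg (fun z : M => f (z : G)) hhk
  obtain ⟨φ, hφ, hfh⟩ := hfh
  have hinter : ∀ x ∈ Fb, x ∈ Hb → x = 1 := fun x hx hxH => by
    have hx' : x ∈ Cfsg.frobeniusKernel Hb := hker.symm ▸ hx
    rcases hx' with h1 | h1
    · exact h1
    · exact absurd (by rw [map_one, one_smul]; exact hxH) (h1 1)
  have hb1 : b ≠ 1 := fun e => hHb.1 (Subgroup.card_eq_one.1 (by rw [← hm, ← hbo, e, orderOf_one]))
  have hnotF : f h ∉ Fb := fun hc => hb1 (hinter b (by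
    have := mul_mem hc (inv_mem hφ); rwa [hfh, mul_inv_cancel_right] at this) hbH)
  obtain ⟨g, hg⟩ : ∃ g : G ⧸ N, f h ∈ MulAut.conj g • Hb := by
    by_contra hno
    push Not at hno
    exact hnotF (by
      have : f h ∈ Cfsg.frobeniusKernel Hb := Or.inr hno
      rw [hker] at this; exact this)
  rw [Subgroup.pointwise_smul_def] at hg
  obtain ⟨e, heH, he⟩ := hg
  replace he : g * e * g⁻¹ = f h := he
  have hpowF : ∀ i : ℕ, (f h) ^ i ∈ Fb → m ∣ i := fun i hi => by
    rw [← hbo, orderOf_dvd_iff_pow_eq_one]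
    refine hinter _ ?_ (pow_mem hbH i)
    rw [← QuotientGroup.eq_one_iff (N := Fb), QuotientGroup.mk_pow] at hi ⊢
    rwa [hfh, QuotientGroup.mk_mul, (QuotientGroup.eq_one_iff φ).2 hφ, mul_one] at hi
  have hem : (f h) ^ m = 1 := by
    have h1 : e ^ m = 1 := by
      have := congrArg Subtype.val (pow_card_eq_one' (x := (⟨e, heH⟩ : Hb)))
      rwa [SubmonoidClass.coe_pow, OneMemClass.coe_one, ← hm] at this
    rw [← he, conj_pow, h1, mul_one, mul_inv_cancel]
  have hfo : orderOf (f h) = m := Nat.dvd_antisymm (orderOf_dvd_of_pow_eq_one hem)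
    (hpowF _ (by rw [pow_orderOf_eq_one]; exact one_mem _))
  have hfix : ∀ i : ℕ, ¬ m ∣ i → ∀ u ∈ Fb, Commute ((f h) ^ i) u → u = 1 := by
    intro i hi u hu hcu
    by_contra hu1
    have hei : e ^ i ∈ Hb := pow_mem heH i
    have hu' : g⁻¹ * u * g ∈ Fb := by
      simpa using (inferInstance : Fb.Normal).conj_mem u hu g⁻¹
    have hne : g⁻¹ * u * g ≠ 1 := fun e' => hu1 (by
      calc u = g * (g⁻¹ * u * g) * g⁻¹ := by group
        _ = 1 := by rw [e', mul_one, mul_inv_cancel])
    have hnotH : g⁻¹ * u * g ∉ Hb := fun hc => hne (hinter _ hu' hc)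
    have hc2 : Commute (e ^ i) (g⁻¹ * u * g) := by
      have : e ^ i = g⁻¹ * (f h) ^ i * g := by rw [← he, conj_pow]; group
      rw [this]
      show g⁻¹ * (f h) ^ i * g * (g⁻¹ * u * g) = g⁻¹ * u * g * (g⁻¹ * (f h) ^ i * g)
      calc g⁻¹ * (f h) ^ i * g * (g⁻¹ * u * g) = g⁻¹ * ((f h) ^ i * u) * g := by group
        _ = g⁻¹ * (u * (f h) ^ i) * g := by rw [hcu.eq]
        _ = _ := by group
    have hmem : e ^ i ∈ Hb ⊓ MulAut.conj (g⁻¹ * u * g) • Hb := by
      refine ⟨hei, ?_⟩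
      rw [Subgroup.pointwise_smul_def]
      exact ⟨e ^ i, hei, show (g⁻¹ * u * g) * e ^ i * (g⁻¹ * u * g)⁻¹ = e ^ i by rw [← hc2.eq, mul_inv_cancel_right]⟩
    rw [hHb.2.2 _ hnotH, Subgroup.mem_bot] at hmem
    exact hi (hpowF i (by rw [← he, conj_pow, hmem, mul_one, mul_inv_cancel]; exact one_mem _))
  -- `h` normalizes `Q1`
  have hhQ : ∀ u ∈ Q1, h * u * h⁻¹ ∈ Q1 := by
    rintro _ ⟨z, hz, rfl⟩
    exact ⟨h' * z * h'⁻¹, (Subgroup.mem_normalizer_iff.1 hh' z).1 hz, rfl⟩
  have hhiQ : ∀ (i : ℕ), ∀ u ∈ Q1, h ^ i * u * (h ^ i)⁻¹ ∈ Q1 := fun i => by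
    induction i with
    | zero => intro u hu; simpa using hu
    | succ i ih =>
      intro u hu
      rw [pow_succ', mul_inv_rev, show h * h ^ i * u * ((h ^ i)⁻¹ * h⁻¹) = h * (h ^ i * u * (h ^ i)⁻¹) * h⁻¹ by group]
      exact hhQ _ (ih u hu)
  have hQ1F : ∀ u ∈ Q1, f u ∈ Fb := by
    rintro _ ⟨_, ⟨z, -, rfl⟩, rfl⟩
    exact z.2
  have hQ1card : Nat.card Q1 = Nat.card Q := by rw [hQ1, Subgroup.card_subtype, Subgroup.card_subtype]
  have hQ1p : IsPGroup q Q1 := (Q.2.map _).map _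
  -- the Frattini quotient of `PG`
  let V := PG ⧸ frattini PG
  have hVcomm : ∀ a b : V, a * b = b * a := fun a b => by
    induction a using QuotientGroup.induction_on with
    | H a => induction b using QuotientGroup.induction_on with
      | H b =>
        rw [← QuotientGroup.mk_mul, ← QuotientGroup.mk_mul, QuotientGroup.eq]
        have := CfsgLib.Core.pgroup_commutator_le_frattini hPGp (Subgroup.commutator_mem_commutator (Subgroup.mem_top b⁻¹) (Subgroup.mem_top a⁻¹))
        simpa [commutatorElement_def, mul_assoc] using this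
  letI : CommGroup V := { (inferInstance : Group V) with mul_comm := hVcomm }
  let π : G → V := fun x => if hx : x ∈ PG then QuotientGroup.mk ⟨x, hx⟩ else 1
  have hπ : ∀ x y, x ∈ PG → y ∈ PG → π (x * y) = π x * π y := fun x y hx hy => by
    simp only [π, dif_pos hx, dif_pos hy, dif_pos (mul_mem hx hy)]
    rfl
  have hπ1 : π 1 = 1 := by simp only [π, dif_pos (one_mem PG)]; rfl
  let c : G → G → G := fun a x => a * x * a⁻¹
  have hcP : ∀ a ∈ M, ∀ x ∈ PG, c a x ∈ PG := fun a ha x hx => (Subgroup.mem_normalizer_iff.1 ha x).1 hx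
  -- trace vanishes
  have htrace : ∀ g ∈ M, orderOf (f g) = m → ∀ y ∈ PG, ∏ i ∈ Finset.range m, π (c (g ^ i) y) = 1 := by
    intro g hgM hgo y hy
    have hgm : g ^ m = 1 := hord g hgo
    have hyg : (y * g) ^ m = 1 := hord _ (by rw [map_mul, hNne y (Subgroup.map_subtype_le _ hy), one_mul, hgo])
    have key : ∀ k : ℕ, (y * g) ^ k * (g ^ k)⁻¹ ∈ PG ∧
        π ((y * g) ^ k * (g ^ k)⁻¹) = ∏ i ∈ Finset.range k, π (c (g ^ i) y) := by
      intro k
      induction k with
      | zero => simp [hπ1, one_mem]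
      | succ k ih =>
        have e : (y * g) ^ (k + 1) * (g ^ (k + 1))⁻¹ = ((y * g) ^ k * (g ^ k)⁻¹) * c (g ^ k) y := by
          rw [pow_succ, pow_succ, mul_inv_rev]; simp only [c]; group
        have h2 := hcP _ (pow_mem hgM k) y hy
        exact ⟨e ▸ mul_mem ih.1 h2, by rw [e, hπ _ _ ih.1 h2, ih.2, Finset.prod_range_succ]⟩
    have := (key m).2
    rw [hyg, hgm, inv_one, mul_one, hπ1] at this
    exact this.symm
  haveI := Fintype.ofFinite Q1
  have hm0 : m ≠ 0 := Nat.card_pos.ne'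
  obtain ⟨m', hm'⟩ : ∃ j, m = j + 1 := ⟨m - 1, by omega⟩
  -- average over `Q1`
  have havg : ∀ y ∈ PG, ∏ u : Q1, π (c (u : G) y) = π y ^ Fintype.card Q1 := by
    intro y hy
    have hc : ∀ a b x, c a (c b x) = c (a * b) x := fun a b x => by simp only [c]; group
    have hconjpow : ∀ (u : G) (i : ℕ), (u * h * u⁻¹) ^ i = u * h ^ i * u⁻¹ := fun u i => conj_pow
    have hordc : ∀ u : G, orderOf (f (u * h * u⁻¹)) = m := fun u => by
      rw [map_mul, map_mul, map_inv, ← hfo]
      exact orderOf_injective (MulAut.conj (f u)).toMonoidHom (MulAut.conj (f u)).injective (f h)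
    -- first sum
    have h1 : ∀ u : Q1, π y * ∏ i ∈ Finset.range m', π (c ((u : G) * h ^ (i + 1) * (u : G)⁻¹) y) = 1 := fun u => by
      have := htrace ((u : G) * h * (u : G)⁻¹) (mul_mem (mul_mem (hQ1M u.2) hhM) (inv_mem (hQ1M u.2))) (hordc _) y hy
      rw [hm', Finset.prod_range_succ'] at this
      simp only [hconjpow, pow_zero, mul_one, mul_inv_cancel] at this
      rw [show c (1:G) y = y by simp [c]] at this
      rwa [mul_comm]
    have h2 : ∀ u : Q1, π (c (u : G) y) * ∏ i ∈ Finset.range m', π (c ((u : G) * h ^ (i + 1)) y) = 1 := fun u => by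
      have := htrace ((u : G) * h * (u : G)⁻¹) (mul_mem (mul_mem (hQ1M u.2) hhM) (inv_mem (hQ1M u.2))) (hordc _) (c (u : G) y) (hcP _ (hQ1M u.2) y hy)
      rw [hm', Finset.prod_range_succ'] at this
      simp only [hconjpow, hc, pow_zero, mul_one, mul_inv_cancel, one_mul, inv_mul_cancel_right] at this
      rwa [mul_comm]
    have hre : ∀ i < m', ∏ u : Q1, π (c ((u : G) * h ^ (i + 1) * (u : G)⁻¹) y) = ∏ u : Q1, π (c ((u : G) * h ^ (i + 1)) y) := by
      intro i hi
      have hmem : ∀ u : Q1, (u : G) * (h ^ (i + 1) * (u : G)⁻¹ * (h ^ (i + 1))⁻¹) ∈ Q1 := fun u =>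
        mul_mem u.2 (hhiQ _ _ (inv_mem u.2))
      let τ : Q1 → Q1 := fun u => ⟨_, hmem u⟩
      have hτe : ∀ u : Q1, (τ u : G) * h ^ (i + 1) = (u : G) * h ^ (i + 1) * (u : G)⁻¹ := fun u => by
        show (u : G) * (h ^ (i + 1) * (u : G)⁻¹ * (h ^ (i + 1))⁻¹) * h ^ (i + 1) = _
        group
      have hτ : Function.Bijective τ := by
        rw [← Finite.injective_iff_bijective]
        intro u v e
        have e' : (u : G) * h ^ (i + 1) * (u : G)⁻¹ = (v : G) * h ^ (i + 1) * (v : G)⁻¹ := by rw [← hτe, ← hτe, e]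
        have hcm : Commute (h ^ (i + 1)) ((v : G)⁻¹ * u) := by
          show h ^ (i + 1) * ((v : G)⁻¹ * u) = (v : G)⁻¹ * u * h ^ (i + 1)
          calc h ^ (i + 1) * ((v : G)⁻¹ * u) = (v : G)⁻¹ * ((v : G) * h ^ (i + 1) * (v : G)⁻¹) * u := by group
            _ = (v : G)⁻¹ * ((u : G) * h ^ (i + 1) * (u : G)⁻¹) * u := by rw [e']
            _ = (v : G)⁻¹ * u * h ^ (i + 1) := by group
        have hw : (v : G)⁻¹ * u ∈ Q1 := mul_mem (inv_mem v.2) u.2
        have hfw := hfix (i + 1) (fun hd => by have := Nat.le_of_dvd (by omega) hd; omega) _ (hQ1F _ hw) (by rw [← map_pow]; exact hcm.map f)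
        obtain ⟨j, hj⟩ := (IsPGroup.iff_orderOf.1 hQ1p) ⟨_, hw⟩
        rw [Subgroup.orderOf_mk] at hj
        have h4 := Subgroup.orderOf_dvd_natCard N ((QuotientGroup.eq_one_iff _).1 hfw)
        have h5 : orderOf ((v : G)⁻¹ * u) = 1 := by
          rw [hj] at h4 ⊢
          exact Nat.eq_one_of_dvd_coprimes ((hq.coprime_iff_not_dvd.2 hqN).pow_left j) dvd_rfl h4
        exact Subtype.ext (inv_mul_eq_one.1 (orderOf_eq_one_iff.1 h5)).symm
      rw [← (Equiv.ofBijective τ hτ).prod_comp (fun u : Q1 => π (c ((u : G) * h ^ (i + 1)) y))]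
      exact Finset.prod_congr rfl fun u _ => by rw [Equiv.ofBijective_apply, hτe]
    have e1 : π y ^ Fintype.card Q1 * ∏ i ∈ Finset.range m', ∏ u : Q1, π (c ((u : G) * h ^ (i + 1)) y) = 1 := by
      rw [Finset.prod_congr rfl fun i hi => (hre i (Finset.mem_range.1 hi)).symm, Finset.prod_comm,
        ← Finset.card_univ, ← Finset.prod_const, ← Finset.prod_mul_distrib]
      exact Finset.prod_eq_one fun u _ => h1 u
    have e2 : (∏ u : Q1, π (c (u : G) y)) * ∏ i ∈ Finset.range m', ∏ u : Q1, π (c ((u : G) * h ^ (i + 1)) y) = 1 := by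
      rw [Finset.prod_comm, ← Finset.prod_mul_distrib]
      exact Finset.prod_eq_one fun u _ => h2 u
    exact mul_right_cancel (e2.trans e1.symm)
  refine hnc (CfsgLib.Core.le_centralizer_of_trivial_mod_frattini hQ1M ?_ fun a ha y hy => ?_)
  · obtain ⟨i, hi⟩ := hPGp.exists_card_eq
    obtain ⟨j, hj⟩ := hQ1p.exists_card_eq
    have hd := Subgroup.card_subgroup_dvd_card (frattini PG)
    rw [hi] at hd
    rw [hj]
    exact Nat.Coprime.coprime_dvd_right hd (((Nat.coprime_primes hq hp).2 hqp).pow _ _)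
  · have hca : c a y ∈ PG := hcP a (hQ1M ha) y hy
    have e : π (c a y) ^ Fintype.card Q1 = π y ^ Fintype.card Q1 := by
      rw [← havg _ hca, ← havg y hy]
      refine Fintype.prod_equiv (Equiv.mulRight (⟨a, ha⟩ : Q1)) _ _ fun u => ?_
      show π (c (u : G) (c a y)) = π (c ((u : G) * a) y)
      congr 1; simp only [c]; group
    have hco : (Nat.card V).Coprime (Fintype.card Q1) := by
      obtain ⟨i, hi⟩ := (IsPGroup.to_quotient hPGp (frattini PG)).exists_card_eq
      obtain ⟨j, hj⟩ := hQ1p.exists_card_eq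
      rw [← Nat.card_eq_fintype_card, hj, hi]
      exact ((Nat.coprime_primes hp hq).2 (Ne.symm hqp)).pow _ _
    have e' : π (c a y) = π y := (powCoprime hco).injective (by simpa [powCoprime] using e)
    have hmem : a * y * a⁻¹ * y⁻¹ ∈ PG := mul_mem hca (inv_mem hy)
    refine ⟨⟨_, hmem⟩, ?_, rfl⟩
    have h1 := hπ _ _ hmem hy
    rw [inv_mul_cancel_right, show a * y * a⁻¹ = c a y from rfl, e'] at h1
    have h2 : π (a * y * a⁻¹ * y⁻¹) = 1 := by
      have := h1.symm
      rwa [mul_eq_right] at this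
    simp only [π, dif_pos hmem] at h2
    exact (QuotientGroup.eq_one_iff _).1 h2

end Cfsg.Agent.S3703
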