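import Cfsg.Statements.S3803
import Cfsg.Agent.Lib.CoreOmega
import Cfsg.Agent.Lib.CoreCoprime2
import Cfsg.Agent.Lib.CorePGroup

set_option autoImplicit false
open Cfsg

namespace Cfsg.Agent.S3803
universe w

variable {X : Type w} [Group X] [Finite X]

theorem commute_of_cyclic {H : Subgroup X} [hH : IsCyclic H] {a x : X} (ha : Odd (orderOf a))
    (haH : a ∈ Subgroup.normalizer (H : Set X)) (hx : x ∈ H) (hx4 : x ^ 4 = 1) :
    a * x * a⁻¹ = x := by
  classical
  haveI := Fintype.ofFinite H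
  set o := orderOf x with ho
  have hcard : ∀ y ∈ H, y ^ o = 1 → y ∈ Subgroup.zpowers x := by
    intro y hy hyo
    by_contra hyn
    let f : Option (Subgroup.zpowers x) → {z : H // z ^ o = 1} := fun t => match t with
      | none => ⟨⟨y, hy⟩, Subtype.ext (by push_cast; exact hyo)⟩
      | some z => ⟨⟨z, (Subgroup.zpowers_le.2 hx) z.2⟩, Subtype.ext (by
          obtain ⟨i, hi⟩ := Subgroup.mem_zpowers_iff.1 z.2
          push_cast
          rw [← hi, ← zpow_natCast, ← zpow_mul, mul_comm, zpow_mul, zpow_natCast,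
            pow_orderOf_eq_one, one_zpow])⟩
    have hf : Function.Injective f := by
      rintro (_ | s) (_ | t) h <;> simp only [f, Subtype.mk.injEq] at h
      · rfl
      · exact absurd (h ▸ t.2) hyn
      · exact absurd (h ▸ s.2) hyn
      · rw [Subtype.ext h]
    have h1 := Nat.card_le_card_of_injective f hf
    rw [Finite.card_option, Nat.card_zpowers, Nat.card_eq_fintype_card, Fintype.card_subtype] at h1
    have h2 := IsCyclic.card_pow_eq_one_le (α := H) (n := o) (orderOf_pos x)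
    omega
  have hmem := hcard _ ((Subgroup.mem_normalizer_iff.1 haH x).1 hx)
    (by rw [conj_pow, pow_orderOf_eq_one, mul_one, mul_inv_cancel])
  obtain ⟨i, hi : x ^ i = a * x * a⁻¹⟩ := Submonoid.mem_powers_iff _ _ |>.1
    (mem_powers_iff_mem_zpowers.2 hmem)
  -- `i` is odd or `x = 1`, so conjugating twice fixes `x`
  have h2 : a ^ 2 * x * (a ^ 2)⁻¹ = x := by
    have e : a ^ 2 * x * (a ^ 2)⁻¹ = x ^ (i * i) := by
      rw [pow_mul, hi, conj_pow, hi, pow_two]; group
    rw [e]
    rcases Nat.even_or_odd i with ⟨j, rfl⟩ | ⟨j, rfl⟩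
    · have hx2 : x ^ 2 = 1 := by
        have h3 : (a * x * a⁻¹) ^ 2 = 1 := by
          rw [← hi, ← pow_mul, show (j + j) * 2 = 4 * j by ring, pow_mul, hx4, one_pow]
        rwa [conj_pow, conj_eq_one_iff] at h3
      have h4 : x ^ (j + j) = 1 := by rw [← two_mul, pow_mul, hx2, one_pow]
      rw [h4] at hi
      rw [conj_eq_one_iff.1 hi.symm, one_pow]
    · rw [show (2 * j + 1) * (2 * j + 1) = 4 * (j * (j + 1)) + 1 by ring, pow_add, pow_mul, hx4,
        one_pow, one_mul, pow_one]
  obtain ⟨k, hk⟩ := ha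
  have hc : Commute (a ^ 2) x := by
    show a ^ 2 * x = x * a ^ 2
    conv_rhs => rw [← h2]
    group
  have h5 := hc.pow_left (k + 1)
  rw [← pow_mul, show 2 * (k + 1) = orderOf a + 1 by omega, pow_add, pow_orderOf_eq_one, one_mul,
    pow_one] at h5
  rw [h5.eq, mul_inv_cancel_right]

theorem aux (A : Subgroup X) (hA : Odd (Nat.card A)) (k : ℕ) (hk : 1 ≤ k) : ∀ (n : ℕ)
    (P : Subgroup X), Nat.card P = n → IsPGroup 2 P → A ≤ Subgroup.normalizer (P : Set X) →
    2 ^ k < Nat.card P →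
    (∀ E : Subgroup X, E ≤ P → (Nat.card E = 2 ^ k ∨ (2 ^ k = 2 ∧ Nat.card E = 4)) →
      A ≤ Subgroup.normalizer (E : Set X)) →
    A ≤ Subgroup.centralizer (P : Set X) := by
  haveI : Fact (Nat.Prime 2) := ⟨Nat.prime_two⟩
  intro n
  induction n using Nat.strong_induction_on with
  | h n ih =>
  intro P hn hP hAP hkP hinv
  have hAodd : ∀ a ∈ A, Odd (orderOf a) := fun a ha =>
    hA.of_dvd_nat (Subgroup.orderOf_dvd_natCard A ha)
  have hord : ∀ {H : Subgroup X}, H ≤ P → ∃ e, Nat.card H = 2 ^ e :=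
    fun hH => IsPGroup.iff_card.1 (hP.to_le hH)
  obtain ⟨e, he⟩ := hord (le_refl P)
  have hke : k < e := (Nat.pow_lt_pow_iff_right (by norm_num)).1 (he ▸ hkP)
  -- subgroups of prescribed order through a given subgroup
  have hext : ∀ (H : Subgroup X) (j m : ℕ), H ≤ P → Nat.card H = 2 ^ j → j ≤ m → m ≤ e →
      ∃ K : Subgroup X, H ≤ K ∧ K ≤ P ∧ Nat.card K = 2 ^ m := by
    intro H j m hH hj hjm hme
    obtain ⟨K, hK, hHK⟩ := Sylow.exists_subgroup_card_pow_prime_le (p := 2) (n := j) (m := m)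
      (G := ↥P) (he ▸ pow_dvd_pow 2 hme) (H.subgroupOf P)
      (by rw [CfsgLib.Core.card_subgroupOf_of_le hH, hj]) hjm
    exact ⟨K.map P.subtype,
      (Subgroup.map_subgroupOf_eq_of_le hH).symm.le.trans (Subgroup.map_mono hHK),
      Subgroup.map_subtype_le _, by rw [Subgroup.card_map_of_injective P.subtype_injective, hK]⟩
  by_cases hPk : e = k + 1
  · -- all maximal subgroups are invariant
    refine CfsgLib.Core.le_centralizer_of_trivial_mod_frattini hAP ?_ fun a ha x hx => ?_
    · obtain ⟨i, hi⟩ := IsPGroup.iff_card.1 (hP.to_subgroup (frattini P))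
      rw [hi]
      exact (Nat.coprime_two_right.2 hA).pow_right i
    have hxa : a * x * a⁻¹ * x⁻¹ ∈ P :=
      mul_mem ((Subgroup.mem_normalizer_iff.1 (hAP ha) x).1 hx) (inv_mem hx)
    refine ⟨⟨_, hxa⟩, Subgroup.mem_iInf.2 fun M => Subgroup.mem_iInf.2 fun hM => ?_, rfl⟩
    have hMi := (CfsgLib.Core.index_of_coatom_pgroup hP hM).2
    have hMc : Nat.card (M.map P.subtype) = 2 ^ k := by
      rw [Subgroup.card_map_of_injective P.subtype_injective]
      have := M.card_mul_index
      rw [hMi, he, hPk, pow_succ] at this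
      omega
    have hnorm := hinv _ (Subgroup.map_subtype_le _) (Or.inl hMc) ha
    have hiff : (⟨a * x * a⁻¹, (Subgroup.mem_normalizer_iff.1 (hAP ha) x).1 hx⟩ : P) ∈ M ↔
        (⟨x, hx⟩ : P) ∈ M := by
      rw [← Subgroup.mem_map_iff_mem P.subtype_injective (K := M),
        ← Subgroup.mem_map_iff_mem P.subtype_injective (K := M)]
      exact (Subgroup.mem_normalizer_iff.1 hnorm x).symm
    rw [show (⟨a * x * a⁻¹ * x⁻¹, hxa⟩ : P) =
      ⟨a * x * a⁻¹, (Subgroup.mem_normalizer_iff.1 (hAP ha) x).1 hx⟩ * (⟨x, hx⟩ : P)⁻¹ from rfl,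
      Subgroup.mul_mem_iff_of_index_two hMi, inv_mem_iff]
    exact hiff
  -- every element of order at most four is centralised
  intro a ha
  refine CfsgLib.Core.mem_centralizer_of_fixes_omega hP (hAP ha)
    (Nat.coprime_two_right.2 (hAodd a ha)) fun x hx hx24 => ?_
  have hx4 : x ^ 4 = 1 := by
    rcases hx24 with h | ⟨-, h⟩
    · rw [show 4 = 2 * 2 from rfl, pow_mul, h, one_pow]
    · exact h
  obtain ⟨j, hj⟩ := hord (Subgroup.zpowers_le.2 hx)
  by_cases hjk : j ≤ k
  · obtain ⟨H, hxH, hHP, hHc⟩ := hext _ j k (Subgroup.zpowers_le.2 hx) hj hjk hke.le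
    have hxH' : x ∈ H := hxH (Subgroup.mem_zpowers x)
    by_cases hcyc : IsCyclic H
    · exact commute_of_cyclic (hAodd a ha) (hinv H hHP (Or.inl hHc) ha) hxH' hx4
    obtain ⟨K, hHK, hKP, hKc⟩ := hext H k (k + 1) hHP hHc (Nat.le_succ k) hke
    -- `K` is generated by its subgroups of order `2 ^ k`
    have hKA : A ≤ Subgroup.normalizer (K : Set X) := fun b hb =>
      Subgroup.mem_normalizer_fintype fun y hy => by
        show b * y * b⁻¹ ∈ K
        have hzy : ∃ M : Subgroup X, M ≤ K ∧ Nat.card M = 2 ^ k ∧ y ∈ M := by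
          rcases eq_top_or_exists_le_coatom (Subgroup.zpowers (⟨y, hy⟩ : K)) with h | ⟨M, hM, hle⟩
          · exfalso
            haveI : IsCyclic K := isCyclic_iff_exists_zpowers_eq_top.2 ⟨_, h⟩
            exact hcyc (Subgroup.isCyclic_of_le hHK)
          · refine ⟨M.map K.subtype, Subgroup.map_subtype_le _, ?_,
              ⟨_, hle (Subgroup.mem_zpowers _), rfl⟩⟩
            rw [Subgroup.card_map_of_injective K.subtype_injective]
            have := M.card_mul_index
            rw [(CfsgLib.Core.index_of_coatom_pgroup (hP.to_le hKP) hM).2, hKc, pow_succ] at this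
            omega
        obtain ⟨M, hMK, hMc, hyM⟩ := hzy
        exact hMK ((Subgroup.mem_normalizer_iff.1 (hinv M (hMK.trans hKP) (Or.inl hMc) hb) y).1 hyM)
    have hlt : Nat.card K < n := by
      rw [← hn, hKc, he]
      exact Nat.pow_lt_pow_right (by norm_num) (by omega)
    have := ih _ hlt K rfl (hP.to_le hKP) hKA
      (hKc ▸ Nat.pow_lt_pow_right (by norm_num) (Nat.lt_succ_self k))
      (fun E hE h => hinv E (hE.trans hKP) h) ha
    rw [← Subgroup.mem_centralizer_iff.1 this x (hHK hxH'), mul_inv_cancel_right]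
  · -- only for `k = 1` and `x` of order four
    have hle : 2 ^ j ≤ 2 ^ 2 := by
      rw [← hj, Nat.card_zpowers]; exact Nat.le_of_dvd (by norm_num) (orderOf_dvd_of_pow_eq_one hx4)
    have hj2 : j = 2 := by
      have := (Nat.pow_le_pow_iff_right (by norm_num : 1 < 2)).1 hle
      omega
    exact commute_of_cyclic (hAodd a ha) (hinv _ (Subgroup.zpowers_le.2 hx)
      (Or.inr ⟨by rw [show k = 1 by omega, pow_one], by rw [hj, hj2]; rfl⟩) ha)
      (Subgroup.mem_zpowers x) hx4

private theorem main (P A D : Subgroup X) (hP : IsPGroup 2 P) (hA : Odd (Nat.card A))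
    (hAP : A ≤ Subgroup.normalizer (P : Set X)) (hDP : D ≤ P) (hD1 : 1 < Nat.card D)
    (hD2 : Nat.card D < Nat.card P)
    (hinv : ∀ E : Subgroup X, E ≤ P → (Nat.card E = Nat.card D ∨ (Nat.card D = 2 ∧ Nat.card E = 4)) →
      A ≤ Subgroup.normalizer (E : Set X)) :
    A ≤ Subgroup.centralizer (P : Set X) := by
  haveI : Fact (Nat.Prime 2) := ⟨Nat.prime_two⟩
  obtain ⟨k, hk⟩ := IsPGroup.iff_card.1 (hP.to_le hDP)
  refine aux A hA k ?_ _ P rfl hP hAP (hk ▸ hD2) fun E hE h => hinv E hE (hk ▸ h)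
  rw [hk] at hD1
  by_contra h0
  simp [show k = 0 by omega] at hD1


/-- Let P be a 2-subgroup and A a subgroup of odd order of a finite group, with A normalizing P. Let D ≤ P with 1 < |D| < |P|. If every subgroup of P of order |D|, and also every subgroup of P of order 4 in case |D| = 2, is normalized by A, then A centralizes P. -/
theorem result {X : Type*} [Group X] [Finite X] (P A D : Subgroup X) (hP : IsPGroup 2 P) (hA : Odd (Nat.card A))
    (hAP : A ≤ Subgroup.normalizer (P : Set X)) (hDP : D ≤ P) (hD1 : 1 < Nat.card D) (hD2 : Nat.card D < Nat.card P)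
    (hinv : ∀ E : Subgroup X, E ≤ P → (Nat.card E = Nat.card D ∨ (Nat.card D = 2 ∧ Nat.card E = 4)) → A ≤ Subgroup.normalizer (E : Set X)) :
    A ≤ Subgroup.centralizer (P : Set X) := by
  exact main P A D hP hA hAP hDP hD1 hD2 hinv

end Cfsg.Agent.S3803
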