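import Cfsg.Statements.S3815
import Cfsg.Agent.Lib.CoreBasic

set_option autoImplicit false
open Cfsg

namespace Cfsg.Agent.S3815

/-- Let G be a finite group, p a prime and d ∈ G an element of order prime to p. If dg has order prime to p for every element g ∈ G of order prime to p, then d ∈ O_{p'}(G). -/
theorem result {G : Type*} [Group G] [Finite G] {p : ℕ} [Fact p.Prime]
    (d : G) (hd : (orderOf d).Coprime p)
    (h : ∀ g : G, (orderOf g).Coprime p → (orderOf (d * g)).Coprime p) :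
    d ∈ Cfsg.pPrimeCore p G := by
  classical
  let T : Set G := {d | (orderOf d).Coprime p ∧ ∀ g : G, (orderOf g).Coprime p → (orderOf (d * g)).Coprime p}
  have h1 : (1 : G) ∈ T := ⟨by rw [orderOf_one]; exact Nat.coprime_one_left p, fun g hg => by rwa [one_mul]⟩
  have hmul : ∀ a b : G, a ∈ T → b ∈ T → a * b ∈ T := fun a b ha hb =>
    ⟨ha.2 b hb.1, fun g hg => by rw [mul_assoc]; exact ha.2 _ (hb.2 g hg)⟩
  let M : Submonoid G := { carrier := T, one_mem' := h1, mul_mem' := fun {a b} ha hb => hmul a b ha hb }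
  have hinv : ∀ x ∈ T, x⁻¹ ∈ T := fun x hx => by
    have hpow : x ^ (orderOf x - 1) ∈ M := M.pow_mem hx _
    rwa [show x ^ (orderOf x - 1) = x⁻¹ from eq_inv_of_mul_eq_one_left (by
      rw [← pow_succ, Nat.sub_add_cancel (orderOf_pos x), pow_orderOf_eq_one])] at hpow
  let D : Subgroup G := { M with inv_mem' := fun {x} hx => hinv x hx }
  have ho : ∀ c x : G, orderOf (c * x * c⁻¹) = orderOf x := fun c x => (MulAut.conj c).orderOf_eq x
  have hn : D.Normal := ⟨fun x hx c => ⟨by rw [ho]; exact hx.1, fun g hg => by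
    rw [show c * x * c⁻¹ * g = c * (x * (c⁻¹ * g * c⁻¹⁻¹)) * c⁻¹ by group, ho]
    exact hx.2 _ (by rwa [ho])⟩⟩
  refine CfsgLib.Core.le_pPrimeCore hn ?_ (show d ∈ D from ⟨hd, h⟩)
  rw [Nat.coprime_comm, (Fact.out : p.Prime).coprime_iff_not_dvd]
  intro hdvd
  obtain ⟨⟨x, hx⟩, hxo⟩ := exists_prime_orderOf_dvd_card' p hdvd
  rw [Subgroup.orderOf_mk] at hxo
  have := hx.1
  rw [hxo, Nat.coprime_self] at this
  exact (Fact.out : p.Prime).one_lt.ne' this

end Cfsg.Agent.S3815
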