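import Cfsg.Statements.S3820
import Cfsg.Agent.Lib.CoreBasic

set_option autoImplicit false
open Cfsg

namespace Cfsg.Agent.S3820

theorem mc {G : Type*} [Group G] (H : Subgroup G) (a b : G) :
    (H.map (MulAut.conj b).toMonoidHom).map (MulAut.conj a).toMonoidHom = H.map (MulAut.conj (a * b)).toMonoidHom := by
  rw [Subgroup.map_map]
  congr 1
  ext x
  simp [mul_assoc]

theorem mem_norm {G : Type*} [Group G] (H : Subgroup G) (n : G) (h : H.map (MulAut.conj n).toMonoidHom = H) :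
    n ∈ Subgroup.normalizer (H : Set G) := by
  refine Subgroup.mem_normalizer_iff.2 fun x => ⟨fun hx => ?_, fun hx => ?_⟩
  · have h1 : n * x * n⁻¹ ∈ H.map (MulAut.conj n).toMonoidHom := ⟨x, hx, rfl⟩
    rwa [h] at h1
  · rw [← h] at hx
    obtain ⟨y, hy, e⟩ := hx
    have e' : n * y * n⁻¹ = n * x * n⁻¹ := e
    rw [mul_left_inj, mul_right_inj] at e'
    exact e' ▸ hy

theorem eq_norm {G : Type*} [Group G] [Finite G] (H : Subgroup G) (n : G) (h : n ∈ Subgroup.normalizer (H : Set G)) :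
    H.map (MulAut.conj n).toMonoidHom = H := by
  refine le_antisymm ?_ fun x hx => ?_
  · rintro _ ⟨x, hx, rfl⟩; exact (Subgroup.mem_normalizer_iff.1 h x).1 hx
  · refine ⟨n⁻¹ * x * n, ?_, ?_⟩
    · have := (Subgroup.mem_normalizer_iff.1 (inv_mem h) x).1 hx
      rwa [inv_inv] at this
    · show n * (n⁻¹ * x * n) * n⁻¹ = x
      group


/-- Call a subgroup H of G pronormal if H and gHg⁻¹ are conjugate inside ⟨H, gHg⁻¹⟩ for every g ∈ G. Let S ≤ H ≤ G be subgroups of a finite group with S pronormal in G (for instance S a Sylow subgroup). Then H is pronormal in G if and only if H and gHg⁻¹ are conjugate inside ⟨H, gHg⁻¹⟩ for every g ∈ N_G(S). In particular H is pronormal whenever N_G(S) ≤ H. -/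
theorem result {G : Type*} [Group G] [Finite G] (S H : Subgroup G) (hSH : S ≤ H)
    (hS : Cfsg.IsPronormal S) :
    Cfsg.IsPronormal H ↔
      ∀ g ∈ Subgroup.normalizer (S : Set G), ∃ w ∈ H ⊔ H.map (MulAut.conj g).toMonoidHom,
        H.map (MulAut.conj g).toMonoidHom = H.map (MulAut.conj w).toMonoidHom := by
  refine ⟨fun h g _ => h g, fun h g => ?_⟩
  obtain ⟨x, hx, hxe⟩ := hS g
  have hle : S ⊔ S.map (MulAut.conj g).toMonoidHom ≤ H ⊔ H.map (MulAut.conj g).toMonoidHom :=
    sup_le_sup hSH (Subgroup.map_mono hSH)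
  set J := H ⊔ H.map (MulAut.conj g).toMonoidHom with hJ
  have hxJ : x ∈ J := hle hx
  have hn : x⁻¹ * g ∈ Subgroup.normalizer (S : Set G) := by
    refine mem_norm S _ ?_
    rw [← mc, hxe, mc, inv_mul_cancel]
    exact (congrArg (fun f => S.map f) (MonoidHom.ext fun y => by simp)).trans (Subgroup.map_id S)
  obtain ⟨w, hw, hwe⟩ := h _ hn
  have hle2 : H ⊔ H.map (MulAut.conj (x⁻¹ * g)).toMonoidHom ≤ J := by
    refine sup_le le_sup_left ?_
    rw [← mc]
    rintro _ ⟨y, hy, rfl⟩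
    exact J.mul_mem (J.mul_mem (J.inv_mem hxJ) (le_sup_right (a := H) hy))
      (J.inv_mem (J.inv_mem hxJ))
  refine ⟨x * w, J.mul_mem hxJ (hle2 hw), ?_⟩
  rw [← mc H x w, ← hwe, mc, mul_inv_cancel_left]

end Cfsg.Agent.S3820
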