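import Cfsg.Statements.S3821
import Cfsg.Agent.Lib.CoreBasic

set_option autoImplicit false
open Cfsg

namespace Cfsg.Agent.S3821

theorem mc {G : Type*} [Group G] (H : Subgroup G) (a b : G) :
    (H.map (MulAut.conj b).toMonoidHom).map (MulAut.conj a).toMonoidHom = H.map (MulAut.conj (a * b)).toMonoidHom := by
  rw [Subgroup.map_map]
  congr 1
  ext x
  simp [mul_assoc]

theorem mem_norm {G : Type*} [Group G] (H : Subgroup G) (n : G) (h : H.map (MulAut.conj n).toMonoidHom = H) :
    n ∈ Subgroup.normalizer (H : Set G) := by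
  refine Subgroup.mem_normalizer_iff.2 fun x => ⟨fun hx => ?_, fun hx => ?_⟩
  · have h1 : n * x * n⁻¹ ∈ H.map (MulAut.conj n).toMonoidHom := ⟨x, hx, rfl⟩
    rwa [h] at h1
  · rw [← h] at hx
    obtain ⟨y, hy, e⟩ := hx
    have e' : n * y * n⁻¹ = n * x * n⁻¹ := e
    rw [mul_left_inj, mul_right_inj] at e'
    exact e' ▸ hy

theorem eq_norm {G : Type*} [Group G] [Finite G] (H : Subgroup G) (n : G) (h : n ∈ Subgroup.normalizer (H : Set G)) :
    H.map (MulAut.conj n).toMonoidHom = H := by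
  refine le_antisymm ?_ fun x hx => ?_
  · rintro _ ⟨x, hx, rfl⟩; exact (Subgroup.mem_normalizer_iff.1 h x).1 hx
  · refine ⟨n⁻¹ * x * n, ?_, ?_⟩
    · have := (Subgroup.mem_normalizer_iff.1 (inv_mem h) x).1 hx
      rwa [inv_inv] at this
    · show n * (n⁻¹ * x * n) * n⁻¹ = x
      group


/-- Let A be a normal subgroup of the finite group G and H a subgroup of A. Then H is pronormal in G (H and gHg⁻¹ conjugate inside ⟨H, gHg⁻¹⟩ for every g ∈ G) if and only if H is pronormal in A and G = A · N_G(H). -/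
theorem result {G : Type*} [Group G] [Finite G] (A H : Subgroup G) [A.Normal] (hHA : H ≤ A) :
    Cfsg.IsPronormal H ↔ (Cfsg.IsPronormal (H.subgroupOf A) ∧ A ⊔ Subgroup.normalizer (H : Set G) = ⊤) := by
  have key : ∀ a : A, (H.subgroupOf A).map (MulAut.conj a).toMonoidHom =
      (H.map (MulAut.conj (a : G)).toMonoidHom).subgroupOf A := by
    intro a
    refine Subgroup.map_injective A.subtype_injective ?_
    rw [Subgroup.map_map, show A.subtype.comp (MulAut.conj a).toMonoidHom =
      (MulAut.conj (a : G)).toMonoidHom.comp A.subtype from MonoidHom.ext fun y => rfl, ← Subgroup.map_map,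
      Subgroup.map_subgroupOf_eq_of_le hHA, Subgroup.map_subgroupOf_eq_of_le]
    rintro _ ⟨y, hy, rfl⟩
    exact A.mul_mem (A.mul_mem a.2 (hHA hy)) (A.inv_mem a.2)
  have hconj : ∀ g : G, H.map (MulAut.conj g).toMonoidHom ≤ A := by
    rintro g _ ⟨y, hy, rfl⟩
    exact (inferInstance : A.Normal).conj_mem y (hHA hy) g
  have hjoin : ∀ a : A, ((H.subgroupOf A) ⊔ (H.subgroupOf A).map (MulAut.conj a).toMonoidHom).map A.subtype =
      H ⊔ H.map (MulAut.conj (a : G)).toMonoidHom := fun a => by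
    rw [Subgroup.map_sup, key, Subgroup.map_subgroupOf_eq_of_le hHA, Subgroup.map_subgroupOf_eq_of_le (hconj _)]
  constructor
  · intro h
    refine ⟨fun a => ?_, ?_⟩
    · obtain ⟨x, hx, hxe⟩ := h (a : G)
      rw [← hjoin] at hx
      obtain ⟨x', hx', rfl⟩ := hx
      exact ⟨x', hx', by rw [key, key]; exact congrArg (fun K : Subgroup G => K.subgroupOf A) hxe⟩
    · rw [eq_top_iff]
      intro g _
      obtain ⟨x, hx, hxe⟩ := h g
      have hxA : x ∈ A := sup_le hHA (hconj g) hx
      rw [← mul_inv_cancel_left x g]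
      refine Subgroup.mul_mem_sup hxA (mem_norm H _ ?_)
      rw [← mc, hxe, mc, inv_mul_cancel]
      exact (congrArg (fun f => H.map f) (MonoidHom.ext fun y => by simp)).trans (Subgroup.map_id H)
  · rintro ⟨h, htop⟩ g
    obtain ⟨a, ha, n, hn, rfl⟩ := Subgroup.mem_sup_of_normal_left.1 (htop.symm ▸ Subgroup.mem_top g : g ∈ A ⊔ Subgroup.normalizer (H : Set G))
    have e : H.map (MulAut.conj (a * n)).toMonoidHom = H.map (MulAut.conj a).toMonoidHom := by
      rw [← mc, eq_norm H n hn]
    rw [e]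
    obtain ⟨x, hx, hxe⟩ := h ⟨a, ha⟩
    refine ⟨(x : G), hjoin ⟨a, ha⟩ ▸ Subgroup.mem_map_of_mem A.subtype hx, ?_⟩
    rw [key, key] at hxe
    have h2 := congrArg (fun K : Subgroup A => K.map A.subtype) hxe
    simp only [Subgroup.map_subgroupOf_eq_of_le (hconj _)] at h2
    exact h2

end Cfsg.Agent.S3821
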