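import Cfsg.Statements.S3825

set_option autoImplicit false
open Cfsg

namespace Cfsg.Agent.S3825

open scoped commutatorElement

/-- Let U be a subgroup of a finite group H and w an involution of H normalizing U and commuting with exactly two elements of U, the identity and y. If V is a non-cyclic elementary abelian 2-subgroup of U containing y which is normal in U and invariant under w, then V is a Sylow 2-subgroup of U, V has order 4, and U/V is abelian. -/
theorem result {H : Type*} [Group H] [Finite H] (U : Subgroup H) (w : H) (hw : orderOf w = 2)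
    (hwU : w ∈ Subgroup.normalizer (U : Set H)) (y : H) (hy : y ≠ 1) (hyU : y ∈ U)
    (hfix : ∀ u ∈ U, w * u * w⁻¹ = u ↔ (u = 1 ∨ u = y))
    (V : Subgroup H) (hVU : V ≤ U) (hVn : (V.subgroupOf U).Normal) (hVw : ∀ v ∈ V, w * v * w⁻¹ ∈ V)
    (hVe : Cfsg.IsElementaryAbelian 2 V) (hVc : ¬ IsCyclic ↥V) (hyV : y ∈ V) :
    ¬ 2 ∣ V.relIndex U ∧ Nat.card ↥V = 4 ∧ ⁅U, U⁆ ≤ V := by
  classical
  haveI := hVn
  have hwinv : w⁻¹ = w := by
    have h := pow_orderOf_eq_one w
    rw [hw, pow_two] at h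
    exact inv_eq_of_mul_eq_one_right h
  have hUw : ∀ u ∈ U, w * u * w⁻¹ ∈ U := fun u hu => (Subgroup.mem_normalizer_iff.mp hwU u).mp hu
  have hsq : ∀ x : H, w * (w * x * w⁻¹) * w⁻¹ = x := by
    intro x
    have hww : w * w = 1 := by nth_rewrite 1 [← hwinv]; exact inv_mul_cancel w
    calc w * (w * x * w⁻¹) * w⁻¹ = (w * w) * x * (w * w)⁻¹ := by group
      _ = x := by rw [hww, one_mul, inv_one, mul_one]
  have hVcomm : ∀ a ∈ V, ∀ b ∈ V, a * b = b * a := fun a ha b hb =>
    congrArg Subtype.val (hVe.1.is_comm.comm ⟨a, ha⟩ ⟨b, hb⟩)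
  have hV2 : ∀ a ∈ V, a * a = 1 := fun a ha => by rw [← pow_two]; exact hVe.2 a ha
  -- `V` has order four
  let g : ↥V →* ↥V :=
    { toFun := fun v => ⟨v.1 * (w * v.1 * w⁻¹), mul_mem v.2 (hVw v.1 v.2)⟩
      map_one' := Subtype.ext (by simp)
      map_mul' := fun a b => Subtype.ext (by
        show a.1 * b.1 * (w * (a.1 * b.1) * w⁻¹) = a.1 * (w * a.1 * w⁻¹) * (b.1 * (w * b.1 * w⁻¹))
        rw [show w * (a.1 * b.1) * w⁻¹ = (w * a.1 * w⁻¹) * (w * b.1 * w⁻¹) by group, mul_assoc,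
          ← mul_assoc b.1, hVcomm b.1 b.2 _ (hVw a.1 a.2)]
        group) }
  have hsmall : ∀ K : Subgroup ↥V, (∀ v ∈ K, w * v.1 * w⁻¹ = v.1) → Nat.card K ≤ 2 := by
    intro K hK
    have hinj : Function.Injective fun v : ↥K => (decide ((v : ↥V).1 = 1) : Bool) := by
      intro a b hab
      simp only [decide_eq_decide] at hab
      rcases (hfix _ (hVU (a : ↥V).2)).1 (hK _ a.2) with ha | ha <;>
        rcases (hfix _ (hVU (b : ↥V).2)).1 (hK _ b.2) with hb | hb
      · exact Subtype.ext (Subtype.ext (ha.trans hb.symm))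
      · exact absurd (hab.1 ha) (by rw [hb]; exact hy)
      · exact absurd (hab.2 hb) (by rw [ha]; exact hy)
      · exact Subtype.ext (Subtype.ext (ha.trans hb.symm))
    simpa using Nat.card_le_card_of_injective _ hinj
  have hker : Nat.card g.ker ≤ 2 := by
    refine hsmall _ fun v hv => ?_
    have h1 : v.1 * (w * v.1 * w⁻¹) = 1 := congrArg Subtype.val hv
    rw [← mul_left_cancel_iff (a := v.1), h1, hV2 v.1 v.2]
  have hrange : Nat.card g.range ≤ 2 := by
    refine hsmall _ ?_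
    rintro _ ⟨v, rfl⟩
    show w * (v.1 * (w * v.1 * w⁻¹)) * w⁻¹ = v.1 * (w * v.1 * w⁻¹)
    rw [show w * (v.1 * (w * v.1 * w⁻¹)) * w⁻¹ =
      (w * v.1 * w⁻¹) * (w * (w * v.1 * w⁻¹) * w⁻¹) by group, hsq]
    exact hVcomm _ (hVw v.1 v.2) _ v.2
  have hV4 : Nat.card V = 4 := by
    have h1 := Subgroup.card_mul_index g.ker
    rw [Subgroup.index_ker] at h1
    have h2 : Nat.card V ≤ 4 := by rw [← h1]; exact Nat.mul_le_mul hker hrange
    have h3 : ∀ k, k.Prime → Nat.card V ≠ k := fun k hk h => by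
      haveI := Fact.mk hk
      exact hVc (isCyclic_of_prime_card h)
    have h4 : Nat.card V ≠ 1 := fun h => hy (by
      have := Subgroup.eq_bot_of_card_eq V h
      rw [this] at hyV
      exact Subgroup.mem_bot.1 hyV)
    have := h3 2 Nat.prime_two
    have := h3 3 Nat.prime_three
    have := Nat.card_pos (α := V)
    omega
  -- the action on `U ⧸ V`
  set N := V.subgroupOf U with hN
  let φ : ↥U →* ↥U :=
    { toFun := fun u => ⟨w * u.1 * w⁻¹, hUw u.1 u.2⟩
      map_one' := Subtype.ext (by simp)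
      map_mul' := fun a b => Subtype.ext (by
        show w * (a.1 * b.1) * w⁻¹ = w * a.1 * w⁻¹ * (w * b.1 * w⁻¹)
        group) }
  let θ : ↥U ⧸ N →* ↥U ⧸ N := QuotientGroup.map N N φ fun x hx => hVw x.1 hx
  have hfree : ∀ z, θ z = z → z = 1 := by
    intro z
    obtain ⟨u, rfl⟩ := QuotientGroup.mk_surjective z
    intro hz
    have hv : (φ u)⁻¹ * u ∈ N := QuotientGroup.eq.1 hz
    set v := (w * u.1 * w⁻¹)⁻¹ * u.1 with hvdef
    have hvV : v ∈ V := hv
    have hvfix : w * v * w⁻¹ = v := by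
      have h1 : w * v * w⁻¹ = v⁻¹ := by
        rw [hvdef, show w * ((w * u.1 * w⁻¹)⁻¹ * u.1) * w⁻¹ =
          (w * (w * u.1 * w⁻¹) * w⁻¹)⁻¹ * (w * u.1 * w⁻¹) by simp [mul_assoc], hsq]
        group
      rw [h1]
      exact inv_eq_of_mul_eq_one_right (hV2 v hvV)
    rw [QuotientGroup.eq_one_iff]
    show u.1 ∈ V
    -- all such elements already lie in `V`
    let S := {x : ↥U // (w * x.1 * w⁻¹)⁻¹ * x.1 ∈ ({1, y} : Set H)}
    have hScard : Nat.card S ≤ 4 := by
      let f : S → Bool := fun x => decide ((w * x.1.1 * w⁻¹)⁻¹ * x.1.1 = 1)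
      have hfib : ∀ a b : S, f a = f b → (a.1.1 * b.1.1⁻¹ = 1 ∨ a.1.1 * b.1.1⁻¹ = y) := by
        intro a b hab
        have hcab : (w * a.1.1 * w⁻¹)⁻¹ * a.1.1 = (w * b.1.1 * w⁻¹)⁻¹ * b.1.1 := by
          simp only [f, decide_eq_decide] at hab
          rcases a.2 with ha | ha <;> rcases b.2 with hb | hb
          · exact ha.trans hb.symm
          · rw [Set.mem_singleton_iff] at hb
            exact absurd (hab.1 ha) (by rw [hb]; exact hy)
          · rw [Set.mem_singleton_iff] at ha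
            exact absurd (hab.2 hb) (by rw [ha]; exact hy)
          · exact ha.trans hb.symm
        refine (hfix _ (mul_mem a.1.2 (inv_mem b.1.2))).1 ?_
        rw [show w * (a.1.1 * b.1.1⁻¹) * w⁻¹ = a.1.1 * ((w * a.1.1 * w⁻¹)⁻¹ * a.1.1)⁻¹ *
          ((w * b.1.1 * w⁻¹)⁻¹ * b.1.1) * b.1.1⁻¹ by group, hcab]
        group
      have hx : ∀ b : Bool, Nat.card {x : S // f x = b} ≤ 2 := by
        intro b
        by_cases hne : Nonempty {x : S // f x = b}
        · obtain ⟨x₀⟩ := hne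
          refine le_trans (Nat.card_le_card_of_injective
            (fun x : {x : S // f x = b} => (decide (x.1.1.1 * x₀.1.1.1⁻¹ = 1) : Bool)) ?_) (by simp)
          intro a c hac
          simp only [decide_eq_decide] at hac
          have h1 := hfib a.1 x₀.1 (a.2.trans x₀.2.symm)
          have h2 := hfib c.1 x₀.1 (c.2.trans x₀.2.symm)
          have h3 : a.1.1.1 * x₀.1.1.1⁻¹ = c.1.1.1 * x₀.1.1.1⁻¹ := by
            rcases h1 with h1 | h1 <;> rcases h2 with h2 | h2
            · rw [h1, h2]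
            · exact absurd (hac.1 h1) (by rw [h2]; exact hy)
            · exact absurd (hac.2 h2) (by rw [h1]; exact hy)
            · rw [h1, h2]
          exact Subtype.ext (Subtype.ext (Subtype.ext (mul_right_cancel h3)))
        · haveI := not_nonempty_iff.1 hne
          simp
      haveI : Fintype S := Fintype.ofFinite S
      rw [Nat.card_congr (Equiv.sigmaFiberEquiv f).symm, Nat.card_sigma]
      calc _ ≤ ∑ _b : Bool, 2 := Finset.sum_le_sum fun b _ => hx b
        _ = 4 := by simp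
    let ι : ↥V → S := fun x => ⟨⟨x.1, hVU x.2⟩, by
      have hmem : (w * x.1 * w⁻¹)⁻¹ * x.1 ∈ V := mul_mem (inv_mem (hVw x.1 x.2)) x.2
      have hfx : w * ((w * x.1 * w⁻¹)⁻¹ * x.1) * w⁻¹ = (w * x.1 * w⁻¹)⁻¹ * x.1 := by
        rw [show w * ((w * x.1 * w⁻¹)⁻¹ * x.1) * w⁻¹ =
          (w * (w * x.1 * w⁻¹) * w⁻¹)⁻¹ * (w * x.1 * w⁻¹) by simp [mul_assoc], hsq,
          inv_eq_of_mul_eq_one_right (hV2 x.1 x.2),
          inv_eq_of_mul_eq_one_right (hV2 _ (hVw x.1 x.2))]
        exact hVcomm _ x.2 _ (hVw x.1 x.2)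
      exact (hfix _ (hVU hmem)).1 hfx⟩
    have hιinj : Function.Injective ι := fun a b hab =>
      Subtype.ext (congrArg (fun s : S => s.1.1) hab)
    have hsurj : Function.Surjective ι :=
      (hιinj.bijective_of_nat_card_le (hV4.symm ▸ hScard)).2
    obtain ⟨x, hx⟩ := hsurj ⟨u, (hfix _ (hVU hvV)).1 hvfix⟩
    rw [← (congrArg (fun s : S => s.1.1) hx : x.1 = u.1)]
    exact x.2
  have hθ2 : ∀ z, θ (θ z) = z := by
    intro z
    obtain ⟨u, rfl⟩ := QuotientGroup.mk_surjective z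
    exact congrArg (QuotientGroup.mk' N) (Subtype.ext (hsq u.1))
  have hinv : ∀ t, θ t = t⁻¹ := by
    have hinj : Function.Injective fun z => z⁻¹ * θ z := by
      intro a b hab
      have h1 : θ (b * a⁻¹) = b * a⁻¹ := by
        have h2 : a⁻¹ * θ a = b⁻¹ * θ b := hab
        rw [map_mul, map_inv, show θ b = b * (a⁻¹ * θ a) by rw [h2, mul_inv_cancel_left]]
        group
      exact (mul_inv_eq_one.1 (hfree _ h1)).symm
    intro t
    obtain ⟨z, rfl⟩ := Finite.surjective_of_injective hinj t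
    simp only [map_mul, map_inv, hθ2]
    group
  refine ⟨?_, hV4, ?_⟩
  · intro h2
    haveI : Fact (Nat.Prime 2) := ⟨Nat.prime_two⟩
    obtain ⟨t, ht⟩ := exists_prime_orderOf_dvd_card' (G := ↥U ⧸ N) 2 h2
    have h1 : t⁻¹ = t := inv_eq_of_mul_eq_one_right (by rw [← pow_two, ← ht, pow_orderOf_eq_one])
    have h3 := hfree t ((hinv t).trans h1)
    rw [h3, orderOf_one] at ht
    exact absurd ht (by norm_num)
  · rw [Subgroup.commutator_le]
    intro a ha b hb
    have hcomm : ∀ s t : ↥U ⧸ N, s * t = t * s := fun s t => by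
      have h := map_mul θ t⁻¹ s⁻¹
      rw [hinv, hinv, hinv, mul_inv_rev, inv_inv, inv_inv] at h
      exact h
    have h1 : ((⁅(⟨a, ha⟩ : ↥U), (⟨b, hb⟩ : ↥U)⁆ : ↥U) : ↥U ⧸ N) = 1 := by
      have key : ∀ s t : ↥U ⧸ N, s * t * s⁻¹ * t⁻¹ = 1 := fun s t => by
        rw [hcomm s t, mul_inv_cancel_right, mul_inv_cancel]
      rw [commutatorElement_def]
      exact key (QuotientGroup.mk' N ⟨a, ha⟩) (QuotientGroup.mk' N ⟨b, hb⟩)
    exact (QuotientGroup.eq_one_iff (N := N) _).1 h1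

end Cfsg.Agent.S3825
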