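import Cfsg.Statements.S3835
import Cfsg.Agent.Lib.QuadPairQd
import Cfsg.Agent.Lib.CoreBasic

set_option autoImplicit false
open Cfsg

namespace Cfsg.Agent.S3835

/-- Let p be an odd prime and n a natural number. The alternating group of degree n has a subgroup isomorphic to Qd(p) (the natural semidirect product of an elementary abelian group of order p² by SL₂(p)) if and only if n ≥ p²; and if n < p² then Qd(p) is not even involved in it. -/
theorem result {p : ℕ} [Fact p.Prime] (hp : p ≠ 2) (n : ℕ) : ((∃ H : Subgroup (alternatingGroup (Fin n)), Nonempty (↥H ≃* ↥(Cfsg.qd p))) ↔ p ^ 2 ≤ n) ∧ (n < p ^ 2 → ¬ Cfsg.Involves ↥(Cfsg.qd p) ↥(alternatingGroup (Fin n))) := by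
  classical
  have hp' := (inferInstance : Fact p.Prime).out
  open CfsgLib.QuadPair in
  -- the affine action
  let V := Fin 2 → ZMod p
  have hex : ∀ g : ↥(Cfsg.qd p), ∃ v M, (g : Matrix.SpecialLinearGroup (Fin 3) (ZMod p)) = CfsgLib.QuadPair.affine v M :=
    fun g => CfsgLib.QuadPair.exists_affine_of_mem g.2
  choose tr li hg using hex
  have hmul : ∀ a b, tr (a * b) = tr a + (li a).1.mulVec (tr b) ∧ li (a * b) = li a * li b := fun a b =>
    CfsgLib.QuadPair.affine_injective ((hg (a * b)).symm.trans (by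
      rw [Subgroup.coe_mul, hg a, hg b, CfsgLib.QuadPair.affine_mul]))
  have hone : tr 1 = 0 ∧ li 1 = 1 :=
    CfsgLib.QuadPair.affine_injective ((hg 1).symm.trans CfsgLib.QuadPair.affine_zero_one.symm)
  letI : MulAction ↥(Cfsg.qd p) V :=
    { smul := fun g v => (li g).1.mulVec v + tr g
      one_smul := fun v => by
        show (li 1).1.mulVec v + tr 1 = v
        rw [hone.1, hone.2, Matrix.SpecialLinearGroup.coe_one, Matrix.one_mulVec, add_zero]
      mul_smul := fun a b v => by
        show (li (a * b)).1.mulVec v + tr (a * b) = (li a).1.mulVec ((li b).1.mulVec v + tr b) + tr a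
        rw [(hmul a b).1, (hmul a b).2, Matrix.SpecialLinearGroup.coe_mul, Matrix.mulVec_add,
          Matrix.mulVec_mulVec]
        abel }
  let φ : ↥(Cfsg.qd p) →* Equiv.Perm V := MulAction.toPermHom _ _
  have hφ : Function.Injective φ := by
    rw [injective_iff_map_eq_one]
    intro g h
    have h0 : ∀ v : V, (li g).1.mulVec v + tr g = v := fun v => Equiv.ext_iff.mp h v
    have htr : tr g = 0 := by simpa using h0 0
    have hli : li g = 1 := by
      refine Subtype.ext (Matrix.ext fun i j => ?_)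
      have := congrFun (h0 (Pi.single j 1)) i
      simpa [htr, Matrix.mulVec_single, Matrix.one_apply, Pi.single_apply, eq_comm] using this
    exact Subtype.ext ((hg g).trans (by rw [htr, hli]; exact CfsgLib.QuadPair.affine_zero_one))
  -- it is even
  have hodd : ∀ x : ↥(Cfsg.qd p), x ^ p = 1 → Equiv.Perm.sign (φ x) = 1 := by
    intro x hx
    rcases Int.units_eq_one_or (Equiv.Perm.sign (φ x)) with h | h
    · exact h
    · exfalso
      have h1 : (Equiv.Perm.sign (φ x)) ^ p = 1 := by rw [← map_pow, ← map_pow, hx, map_one, map_one]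
      rw [h, (hp'.odd_of_ne_two hp).neg_one_pow] at h1
      exact absurd h1 (by decide)
  have htrp : ∀ v, (CfsgLib.QuadPair.transHom p (Multiplicative.ofAdd v)) ^ p = 1 := fun v => by
    rw [← map_pow, ← ofAdd_nsmul, show p • v = 0 from funext fun i => by simp, ofAdd_zero, map_one]
  let U : ZMod p → Matrix.SpecialLinearGroup (Fin 2) (ZMod p) := fun t => ⟨!![1, t; 0, 1], by simp [Matrix.det_fin_two]⟩
  let L : ZMod p → Matrix.SpecialLinearGroup (Fin 2) (ZMod p) := fun t => ⟨!![1, 0; t, 1], by simp [Matrix.det_fin_two]⟩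
  have hUadd : ∀ s t, U (s + t) = U s * U t := fun s t => Subtype.ext (Matrix.ext fun i j => by
    rw [Matrix.SpecialLinearGroup.coe_mul]
    fin_cases i <;> fin_cases j <;> simp [U, Matrix.mul_apply, Fin.sum_univ_two, add_comm])
  have hLadd : ∀ s t, L (s + t) = L s * L t := fun s t => Subtype.ext (Matrix.ext fun i j => by
    rw [Matrix.SpecialLinearGroup.coe_mul]
    fin_cases i <;> fin_cases j <;> simp [L, Matrix.mul_apply, Fin.sum_univ_two, add_comm])
  have hpow : ∀ (F : ZMod p → Matrix.SpecialLinearGroup (Fin 2) (ZMod p)), (∀ s t, F (s + t) = F s * F t) →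
      ∀ t, F t ^ p = 1 := by
    intro F hF t
    have h0 : F 0 = 1 := by
      have := hF 0 0
      rwa [add_zero, eq_comm, mul_eq_left] at this
    have hn : ∀ n : ℕ, F t ^ n = F ((n : ZMod p) * t) := by
      intro n
      induction n with
      | zero => simp [h0]
      | succ n ih => rw [pow_succ, ih, ← hF, Nat.cast_succ, add_mul, one_mul]
    rw [hn, ZMod.natCast_self, zero_mul, h0]
  let σ : Matrix.SpecialLinearGroup (Fin 2) (ZMod p) →* ℤˣ :=
    (Equiv.Perm.sign.comp φ).comp (CfsgLib.QuadPair.linHom p)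
  have hσU : ∀ t, σ (U t) = 1 := fun t => hodd _ (by rw [← map_pow, hpow U hUadd, map_one])
  have hσL : ∀ t, σ (L t) = 1 := fun t => hodd _ (by rw [← map_pow, hpow L hLadd, map_one])
  have hc : ∀ M : Matrix.SpecialLinearGroup (Fin 2) (ZMod p), M.1 1 0 ≠ 0 → σ M = 1 := by
    intro M hM
    have hd := M.2
    rw [Matrix.det_fin_two] at hd
    have e : M = U ((M.1 0 0 - 1) / M.1 1 0) * L (M.1 1 0) * U ((M.1 1 1 - 1) / M.1 1 0) := by
      refine Subtype.ext (Matrix.ext fun i j => ?_)
      rw [Matrix.SpecialLinearGroup.coe_mul, Matrix.SpecialLinearGroup.coe_mul]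
      fin_cases i <;> fin_cases j <;> simp [U, L, Matrix.mul_apply, Fin.sum_univ_two] <;> field_simp
      · ring
      · linear_combination -hd
      · ring
    rw [e, map_mul, map_mul, hσU, hσL, hσU, one_mul, one_mul]
  have hσ : ∀ M, σ M = 1 := by
    intro M
    by_cases hM : M.1 1 0 = 0
    · have h1 : σ (M * L 1) = 1 := hc _ (by
        rw [Matrix.SpecialLinearGroup.coe_mul]
        have hd := M.2
        rw [Matrix.det_fin_two, hM, mul_zero, sub_zero] at hd
        simp [L, Matrix.mul_apply, Fin.sum_univ_two, hM]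
        intro h
        rw [h, mul_zero] at hd
        exact zero_ne_one hd)
      rwa [map_mul, hσL, mul_one] at h1
    · exact hc M hM
  have heven : ∀ g, Equiv.Perm.sign (φ g) = 1 := by
    intro g
    have e : g = CfsgLib.QuadPair.transHom p (Multiplicative.ofAdd (tr g)) *
        CfsgLib.QuadPair.linHom p (li g) := Subtype.ext ((hg g).trans (by
      show _ = CfsgLib.QuadPair.affine (tr g) 1 * CfsgLib.QuadPair.affine 0 (li g)
      rw [CfsgLib.QuadPair.affine_mul, one_mul, Matrix.mulVec_zero, add_zero]))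
    rw [e, map_mul, map_mul, hodd _ (htrp _)]
    exact (one_mul _).trans (hσ (li g))
  have hemb : p ^ 2 ≤ n → ∃ H : Subgroup (alternatingGroup (Fin n)), Nonempty (↥H ≃* ↥(Cfsg.qd p)) := by
    intro hn
    have hcardV : Fintype.card V = p ^ 2 := by simp [V, ZMod.card]
    let ι : V ↪ Fin n := (Fintype.equivFin V).toEmbedding.trans (Fin.castLEEmb (hcardV ▸ hn))
    let e : V ≃ {i : Fin n // i ∈ Set.range ι} := Equiv.ofInjective ι ι.injective
    let ψ : ↥(Cfsg.qd p) →* Equiv.Perm (Fin n) := (Equiv.Perm.extendDomainHom e).comp φ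
    have hψ : ∀ g, ψ g ∈ alternatingGroup (Fin n) := fun g => by
      rw [Equiv.Perm.mem_alternatingGroup]
      show Equiv.Perm.sign ((φ g).extendDomain e) = 1
      rw [Equiv.Perm.sign_extendDomain, heven]
    let ψ' := ψ.codRestrict (alternatingGroup (Fin n)) hψ
    refine ⟨ψ'.range, ⟨(MonoidHom.ofInjective (f := ψ') ?_).symm⟩⟩
    intro a b h
    exact hφ (Equiv.Perm.extendDomainHom_injective e (congrArg Subtype.val h))
  have hnot : n < p ^ 2 → ¬ Cfsg.Involves ↥(Cfsg.qd p) ↥(alternatingGroup (Fin n)) := by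
    rintro hn ⟨K, R, hR, ⟨eq⟩⟩
    haveI := hR
    -- two non-commuting elements in a `p`-subgroup
    let T := (CfsgLib.QuadPair.transHom p).range
    have hT : T.Normal := ⟨by
      rintro _ ⟨v, rfl⟩ g
      refine ⟨Multiplicative.ofAdd ((li g).1.mulVec v.toAdd), Subtype.ext ?_⟩
      rw [Subgroup.coe_mul, Subgroup.coe_mul, Subgroup.coe_inv, hg g, eq_mul_inv_iff_mul_eq]
      show CfsgLib.QuadPair.affine _ 1 * CfsgLib.QuadPair.affine _ _ =
        CfsgLib.QuadPair.affine _ _ * CfsgLib.QuadPair.affine _ 1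
      rw [CfsgLib.QuadPair.affine_mul, CfsgLib.QuadPair.affine_mul, one_mul, mul_one,
        Matrix.SpecialLinearGroup.coe_one, Matrix.one_mulVec, toAdd_ofAdd, add_comm]⟩
    set b := CfsgLib.QuadPair.linHom p (U 1) with hb
    set a := CfsgLib.QuadPair.transHom p (Multiplicative.ofAdd ![0, 1]) with ha
    have hbp : b ^ p = 1 := by rw [hb, ← map_pow, hpow U hUadd, map_one]
    have hB : IsPGroup p ↥(Subgroup.zpowers b) := fun x => ⟨1, Subtype.ext (by
      obtain ⟨i, hi⟩ := x.2
      simp only at hi
      rw [SubmonoidClass.coe_pow, pow_one, ← hi, ← zpow_natCast, ← zpow_mul, mul_comm, zpow_mul,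
        zpow_natCast, hbp, one_zpow]
      rfl)⟩
    have hTp : IsPGroup p ↥T := fun x => ⟨1, Subtype.ext (by
      obtain ⟨v, hv⟩ := x.2
      rw [SubmonoidClass.coe_pow, pow_one, ← hv]
      exact htrp v.toAdd)⟩
    haveI := hT
    obtain ⟨S, hS⟩ := (hB.to_sup_of_normal_right hTp).exists_le_sylow
    let π : ↥K →* ↥(Cfsg.qd p) := eq.toMonoidHom.comp (QuotientGroup.mk' (R.subgroupOf K))
    have hπ : Function.Surjective π := eq.surjective.comp (QuotientGroup.mk'_surjective _)
    obtain ⟨P, hP⟩ := Sylow.mapSurjective_surjective hπ p S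
    have hPab : ∀ u ∈ (P : Subgroup ↥K), ∀ w ∈ (P : Subgroup ↥K), u * w = w * u := by
      let W : Subgroup (Equiv.Perm (Fin n)) :=
        ((P : Subgroup ↥K).map K.subtype).map (alternatingGroup (Fin n)).subtype
      have hW : IsPGroup p ↥W := (P.2.map _).map _
      have hfix : ∀ c ∈ (commutator ↥W), ∀ i : Fin n, c • i = i := by
        intro c hc i
        obtain ⟨d, hd⟩ := hW.index (MulAction.stabilizer ↥W i)
        have hle : (MulAction.stabilizer ↥W i).index ≤ n := by
          rw [MulAction.index_stabilizer]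
          calc (MulAction.orbit ↥W i).ncard ≤ Nat.card (Fin n) := Set.ncard_le_card _
            _ = n := Nat.card_fin n
        have hd1 : d ≤ 1 := by
          by_contra h
          have := Nat.pow_le_pow_right hp'.pos (show 2 ≤ d by omega)
          rw [hd] at hle
          omega
        refine MulAction.mem_stabilizer_iff.mp ?_
        rcases (show d = 0 ∨ d = 1 by omega) with rfl | rfl
        · rw [pow_zero, Subgroup.index_eq_one] at hd
          rw [hd]
          exact Subgroup.mem_top c
        · haveI := hW.isNilpotent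
          rw [pow_one] at hd
          haveI hn : (MulAction.stabilizer ↥W i).Normal := Subgroup.normal_of_index_eq_minFac_card (by
            obtain ⟨k, hk⟩ := hW.exists_card_eq
            have hk0 : k ≠ 0 := fun h0 => by
              have := Subgroup.index_dvd_card (MulAction.stabilizer ↥W i)
              rw [hd, hk, h0, pow_zero, Nat.dvd_one] at this
              exact hp'.ne_one this
            rw [hd, hk, hp'.pow_minFac hk0])
          haveI : IsCyclic (↥W ⧸ MulAction.stabilizer ↥W i) := isCyclic_of_prime_card (p := p) hd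
          have := Subgroup.Normal.quotient_commutative_iff_commutator_le.mp
            (inferInstance : IsMulCommutative (↥W ⧸ MulAction.stabilizer ↥W i))
          exact this hc
      intro u hu w hw
      let u' : ↥W := ⟨((u : ↥(alternatingGroup (Fin n))) : Equiv.Perm (Fin n)), ⟨u, ⟨u, hu, rfl⟩, rfl⟩⟩
      let w' : ↥W := ⟨((w : ↥(alternatingGroup (Fin n))) : Equiv.Perm (Fin n)), ⟨w, ⟨w, hw, rfl⟩, rfl⟩⟩
      open scoped commutatorElement in
      have h1 : ⁅u', w'⁆ = 1 := Subtype.ext (Equiv.ext fun i => hfix _ (by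
        rw [_root_.commutator_def]
        exact Subgroup.commutator_mem_commutator (Subgroup.mem_top _) (Subgroup.mem_top _)) i)
      exact Subtype.ext (Subtype.ext (congrArg (fun z : ↥W => (z : Equiv.Perm (Fin n)))
        (commutatorElement_eq_one_iff_mul_comm.mp h1) :))
    have haS : a ∈ (S : Subgroup ↥(Cfsg.qd p)) := hS (Subgroup.mem_sup_right ⟨_, rfl⟩)
    have hbS : b ∈ (S : Subgroup ↥(Cfsg.qd p)) := hS (Subgroup.mem_sup_left (Subgroup.mem_zpowers b))
    rw [← hP] at haS hbS
    obtain ⟨u, hu, hua⟩ := haS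
    obtain ⟨w, hw, hwb⟩ := hbS
    have h1 : a * b = b * a := by rw [← hua, ← hwb, ← map_mul, ← map_mul, hPab u hu w hw]
    have h2 : CfsgLib.QuadPair.affine (![0, 1] : V) 1 * CfsgLib.QuadPair.affine 0 (U 1) =
        CfsgLib.QuadPair.affine 0 (U 1) * CfsgLib.QuadPair.affine (![0, 1] : V) 1 := congrArg Subtype.val h1
    rw [CfsgLib.QuadPair.affine_mul, CfsgLib.QuadPair.affine_mul] at h2
    have h3 := congrFun (CfsgLib.QuadPair.affine_injective h2).1 0
    simp [U, Matrix.mulVec, dotProduct, Fin.sum_univ_two] at h3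
  refine ⟨⟨fun ⟨H, ⟨e⟩⟩ => ?_, hemb⟩, hnot⟩
  by_contra h
  refine hnot (not_le.mp h) ⟨H, ⊥, by rw [Subgroup.bot_subgroupOf]; infer_instance, ⟨?_⟩⟩
  exact ((QuotientGroup.quotientMulEquivOfEq (Subgroup.bot_subgroupOf H)).trans
    QuotientGroup.quotientBot).trans e

end Cfsg.Agent.S3835
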