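import Cfsg.Statements.S3836
import Cfsg.Agent.Lib.CoreBasic

set_option autoImplicit false
open Cfsg

namespace Cfsg.Agent.S3836

/-- Let G be a finite group that is p-stable in the normalizer form: for every p-subgroup Q and every x ∈ N_G(Q) with [Q, x, x] = 1, the image of x in N_G(Q)/C_G(Q) lies in O_p(N_G(Q)/C_G(Q)). Then every subgroup of G is p-stable in the same sense. -/
theorem result {G : Type*} [Group G] [Finite G] {p : ℕ} [Fact p.Prime] (hst : Cfsg.IsNormalizerPStable p G) (H : Subgroup G) : Cfsg.IsNormalizerPStable p ↥H := by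
  intro P hP g hg hcomm
  set P' := P.map H.subtype with hP'
  have hmem : ∀ a : ↥(Subgroup.normalizer (P : Set ↥H)), ((a : ↥H) : G) ∈ Subgroup.normalizer (P' : Set G) := fun a =>
    Subgroup.le_normalizer_map H.subtype ⟨_, a.2, rfl⟩
  let ι : ↥(Subgroup.normalizer (P : Set ↥H)) →* ↥(Subgroup.normalizer (P' : Set G)) :=
    (H.subtype.comp (Subgroup.normalizer (P : Set ↥H)).subtype).codRestrict _ hmem
  set C := (Subgroup.centralizer (P : Set ↥H)).subgroupOf (Subgroup.normalizer (P : Set ↥H)) with hCd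
  set C' := (Subgroup.centralizer (P' : Set G)).subgroupOf (Subgroup.normalizer (P' : Set G)) with hC'd
  have hker : C = C'.comap ι := by
    ext a
    constructor
    · intro ha
      refine Subgroup.mem_subgroupOf.2 (Subgroup.mem_centralizer_iff.2 ?_)
      rintro _ ⟨z, hz, rfl⟩
      exact congrArg Subtype.val (Subgroup.mem_centralizer_iff.1 (Subgroup.mem_subgroupOf.1 ha) z hz)
    · intro ha
      refine Subgroup.mem_subgroupOf.2 (Subgroup.mem_centralizer_iff.2 fun z hz => Subtype.ext ?_)
      have h1 : (ι a : G) ∈ Subgroup.centralizer (P' : Set G) := Subgroup.mem_subgroupOf.1 (Subgroup.mem_comap.1 ha)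
      exact Subgroup.mem_centralizer_iff.1 h1 _ ⟨z, hz, rfl⟩
  have hcomm' : ⁅⁅P', Subgroup.zpowers (g : G)⁆, Subgroup.zpowers (g : G)⁆ = ⊥ := by
    rw [show Subgroup.zpowers (g : G) = (Subgroup.zpowers g).map H.subtype from (MonoidHom.map_zpowers H.subtype g).symm,
      hP', ← Subgroup.map_commutator, ← Subgroup.map_commutator, hcomm, Subgroup.map_bot]
  have hG := hst P' (hP.map _) (g : G) (hmem ⟨g, hg⟩) hcomm'
  let f := QuotientGroup.map C C' ι (le_of_eq hker)
  have hf : Function.Injective f := (injective_iff_map_eq_one f).2 fun q hq => by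
    obtain ⟨a, rfl⟩ := QuotientGroup.mk_surjective q
    have h1 : ι a ∈ C' := (QuotientGroup.eq_one_iff _).1 hq
    exact (QuotientGroup.eq_one_iff a).2 (hker.symm ▸ h1 : a ∈ C)
  haveI := CfsgLib.Core.normal_pCore (G := ↥(Subgroup.normalizer (P' : Set G)) ⧸ C') p
  have hle : (Cfsg.pCore p (↥(Subgroup.normalizer (P' : Set G)) ⧸ C')).comap f ≤ Cfsg.pCore p _ :=
    CfsgLib.Core.le_pCore inferInstance ((CfsgLib.Core.isPGroup_pCore p).comap_of_injective f hf)
  exact hle hG

end Cfsg.Agent.S3836
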