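import Cfsg.Statements.S3838
import Cfsg.Agent.Lib.CorePNilpotentFrattini

set_option autoImplicit false
open Cfsg

set_option maxHeartbeats 400000

open scoped commutatorElement

namespace Cfsg.Agent.S3838

/-- Let G be a finite group with Sylow p-subgroup P such that N_G(P) has a normal p-complement. Then N_G(Q) has a normal p-complement for every subgroup Q with [P, P] ≤ Q ≤ Φ(P). -/
theorem result {G : Type*} [Group G] [Finite G] {p : ℕ} [Fact p.Prime] (P : Sylow p G) (hN : Cfsg.HasNormalPComplement p ↥(Subgroup.normalizer ((P : Subgroup G) : Set G))) (Q : Subgroup G) (h1 : (commutator ↥(P : Subgroup G)).map (P : Subgroup G).subtype ≤ Q) (h2 : Q ≤ (frattini ↥(P : Subgroup G)).map (P : Subgroup G).subtype) : Cfsg.HasNormalPComplement p ↥(Subgroup.normalizer (Q : Set G)) := by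
  set H := Subgroup.normalizer (Q : Set G)
  have hQP : Q ≤ (P : Subgroup G) := h2.trans (Subgroup.map_subtype_le _)
  have hPH : (P : Subgroup G) ≤ H := by
    refine CfsgLib.Core.le_normalizer_iff_forall.mpr fun x hx y hy => ?_
    have h3 : ⁅(⟨x, hx⟩ : ↥(P : Subgroup G)), ⟨y, hQP hy⟩⁆ ∈ commutator ↥(P : Subgroup G) :=
      Subgroup.commutator_mem_commutator (Subgroup.mem_top _) (Subgroup.mem_top _)
    have h4 : x * y * x⁻¹ * y⁻¹ ∈ Q := h1 (Subgroup.mem_map_of_mem _ h3)
    have h5 := mul_mem h4 hy
    rwa [inv_mul_cancel_right] at h5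
  set P' : Sylow p ↥H := P.subtype hPH with hP'
  have hP'c : (P' : Subgroup ↥H) = (P : Subgroup G).subgroupOf H := rfl
  let e : ↥(P' : Subgroup ↥H) ≃* ↥(P : Subgroup G) := Subgroup.subgroupOfEquivOfLe hPH
  have hmap : ∀ S : Subgroup ↥(P : Subgroup G),
      (S.comap e.toMonoidHom).map (P' : Subgroup ↥H).subtype =
        (S.map (P : Subgroup G).subtype).subgroupOf H := by
    intro S
    ext z
    constructor
    · rintro ⟨u, hu, rfl⟩
      exact ⟨e u, hu, rfl⟩
    · rintro ⟨w, hw, hwz⟩
      refine ⟨e.symm w, ?_, Subtype.ext hwz⟩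
      show e (e.symm w) ∈ S
      rwa [e.apply_symm_apply]
  haveI : (Q.subgroupOf H).Normal := Subgroup.normal_in_normalizer
  refine CfsgLib.Core.hasNormalPComplement_of_normalizer P' (Q.subgroupOf H) ?_ ?_ ?_
  · have hc : commutator ↥(P' : Subgroup ↥H) ≤
        (commutator ↥(P : Subgroup G)).comap e.toMonoidHom := by
      rw [← Subgroup.map_le_iff_le_comap, commutator_def, commutator_def, Subgroup.map_commutator]
      exact Subgroup.commutator_mono le_top le_top
    refine (Subgroup.map_mono hc).trans ?_
    rw [hmap]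
    exact Subgroup.comap_mono h1
  · have hf : frattini ↥(P' : Subgroup ↥H) =
        (frattini ↥(P : Subgroup G)).comap e.toMonoidHom := by
      refine le_antisymm (frattini_le_comap_frattini_of_surjective e.surjective) ?_
      intro x hx
      have h := frattini_le_comap_frattini_of_surjective (φ := e.symm.toMonoidHom)
        e.symm.surjective hx
      simpa using h
    rw [hf, hmap]
    exact Subgroup.comap_mono h2
  · have h6 := CfsgLib.Core.hasNormalPComplement_subgroup hN
      (H.subgroupOf (Subgroup.normalizer ((P : Subgroup G) : Set G)))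
    set N₁ := Subgroup.normalizer ((P' : Subgroup ↥H) : Set ↥H)
    set N₀ := Subgroup.normalizer ((P : Subgroup G) : Set G)
    have hN₁ : N₁ = N₀.subgroupOf H := by
      rw [Subgroup.subgroupOf_normalizer_eq hPH]
      rfl
    rw [hN₁]
    refine CfsgLib.Core.hasNormalPComplement_congr ?_ h6
    exact
      { toFun := fun x => ⟨⟨x.1.1, x.2⟩, x.1.2⟩
        invFun := fun x => ⟨⟨x.1.1, x.2⟩, x.1.2⟩
        left_inv := fun x => rfl
        right_inv := fun x => rfl
        map_mul' := fun x y => rfl }

end Cfsg.Agent.S3838
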