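import Cfsg.Statements.S3857
import Cfsg.Agent.Lib.CorePrimeGraphSolvable

set_option autoImplicit false
open Cfsg

namespace Cfsg.Agent.S3857

/-- A finite solvable group whose prime graph (prime divisors of the order, two distinct primes joined when there is an element of order their product) is disconnected is a Frobenius group or a 2-Frobenius group (it has normal subgroups H < K with K a Frobenius group with kernel H and G/H a Frobenius group with kernel K/H). -/
theorem result {G : Type*} [Group G] [Finite G] (hsol : Group.IsSolvable G)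
    (hdisc : (∃ A : Set ℕ, (∃ a ∈ A, a.Prime ∧ a ∣ Nat.card G) ∧ (∃ b ∉ A, b.Prime ∧ b ∣ Nat.card G) ∧
      ∀ a ∈ A, ∀ b ∉ A, a.Prime → b.Prime → a ∣ Nat.card G → b ∣ Nat.card G → ¬ ∃ g : G, orderOf g = a * b)) :
    (∃ C : Subgroup G, Cfsg.IsFrobeniusComplement C) ∨
    (∃ (H K : Subgroup G) (_ : H.Normal), K.Normal ∧ H < K ∧
      (∃ C : Subgroup ↥K, Cfsg.IsFrobeniusComplement C ∧ Cfsg.frobeniusKernel C = (H.subgroupOf K : Set ↥K)) ∧
      (∃ C : Subgroup (G ⧸ H), Cfsg.IsFrobeniusComplement C ∧ Cfsg.frobeniusKernel C = (K.map (QuotientGroup.mk' H) : Set (G ⧸ H)))) := by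
  obtain ⟨A, ⟨a, ha, hap, had⟩, ⟨b, hb, hbp, hbd⟩, hedge⟩ := hdisc
  haveI := hsol
  have hne : CfsgLib.Core.PrimeGraph.NoEdge G A := fun a' ha' b' hb' ha'p hb'p g hg =>
    hedge a' ha' b' hb' ha'p hb'p ((dvd_mul_right a' b').trans (hg ▸ orderOf_dvd_natCard g))
      ((dvd_mul_left b' a').trans (hg ▸ orderOf_dvd_natCard g)) ⟨g, hg⟩
  haveI : Nontrivial G := Finite.one_lt_card_iff_nontrivial.1
    (hap.one_lt.trans_le (Nat.le_of_dvd Nat.card_pos had))
  obtain ⟨q, hq, hqc⟩ := CfsgLib.Core.exists_pCore_ne_bot (G := G)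
  haveI := Fact.mk hq
  have hqd : q ∣ Nat.card (Cfsg.fittingSubgroup G) := by
    obtain ⟨k, hk⟩ := IsPGroup.iff_card.1 (CfsgLib.Core.isPGroup_pCore (G := G) q)
    refine dvd_trans ?_ (Subgroup.card_dvd_of_le (CfsgLib.Core.pCore_le_fittingSubgroup q))
    rw [hk]
    refine dvd_pow_self q fun e => hqc (Subgroup.eq_bot_of_card_eq _ ?_)
    rw [hk, e, pow_zero]
  by_cases hqA : q ∈ A
  · exact CfsgLib.Core.PrimeGraph.frobenius_or_two_frobenius hne ⟨q, hqA, hq, hqd⟩
      ⟨b, hb, hbp, hbd⟩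
  · refine CfsgLib.Core.PrimeGraph.frobenius_or_two_frobenius (A := Aᶜ) ?_ ⟨q, hqA, hq, hqd⟩
      ⟨a, fun h => h ha, hap, had⟩
    intro a' ha' b' hb' ha'p hb'p g hg
    exact hne b' (not_not.1 hb') a' ha' hb'p ha'p g (hg.trans (mul_comm a' b'))

end Cfsg.Agent.S3857
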