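import Cfsg.Statements.S3858
import Cfsg.Agent.Lib.CoreBasic

set_option autoImplicit false
open Cfsg

namespace Cfsg.Agent.S3858

/-- Let G be a finite group with a normal non-abelian simple subgroup T whose centralizer is trivial (G almost simple with socle T), r a prime and R a Sylow r-subgroup of G meeting T nontrivially. Then R lies in exactly one maximal subgroup of G if and only if G has exactly one conjugacy class of maximal subgroups whose index is prime to r. -/
theorem result {G : Type*} [Group G] [Finite G] (T : Subgroup G) [T.Normal] (hT : IsSimpleGroup T) (hna : ¬ IsMulCommutative T)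
    (hC : Subgroup.centralizer (T : Set G) = ⊥) {r : ℕ} [Fact r.Prime] (R : Sylow r G) (hR0 : (R : Subgroup G) ⊓ T ≠ ⊥) :
    (∃! M : Subgroup G, IsCoatom M ∧ (R : Subgroup G) ≤ M) ↔
      ((∃ M : Subgroup G, IsCoatom M ∧ ¬ r ∣ M.index) ∧
        ∀ M₁ M₂ : Subgroup G, IsCoatom M₁ → ¬ r ∣ M₁.index → IsCoatom M₂ → ¬ r ∣ M₂.index → ∃ g : G, M₂ = M₁.map (MulAut.conj g).toMonoidHom) := by
  have hTnot : ¬ IsPGroup r T := fun h => by
    haveI := hT
    haveI : Nontrivial T := IsSimpleGroup.toNontrivial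
    rcases Subgroup.Normal.eq_bot_or_eq_top (H := Subgroup.center T) inferInstance with e | e
    · haveI := h.center_nontrivial
      exact (Subgroup.nontrivial_iff_ne_bot _).1 inferInstance e
    · exact hna (.of_comm fun a b => (Subgroup.mem_center_iff.1 (e.ge (Subgroup.mem_top a)) b).symm)
  have hcontain : ∀ M : Subgroup G, ¬ r ∣ M.index → ∃ g : G, (R : Subgroup G) ≤ M.map (MulAut.conj g).toMonoidHom := by
    intro M hM
    obtain ⟨S⟩ : Nonempty (Sylow r M) := inferInstance
    have hS : ¬ r ∣ ((S : Subgroup M).map M.subtype).index := by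
      rw [Subgroup.index_map_subtype]
      exact (Fact.out : r.Prime).not_dvd_mul S.not_dvd_index hM
    set S' : Sylow r G := (S.2.map M.subtype).toSylow hS
    obtain ⟨g, hg⟩ := MulAction.exists_smul_eq G S' R
    refine ⟨g, ?_⟩
    rw [← hg, Sylow.coe_subgroup_smul]
    intro x hx
    rw [Subgroup.mem_pointwise_smul_iff_inv_smul_mem] at hx
    obtain ⟨y, -, hy⟩ : (MulAut.conj g)⁻¹ • x ∈ (S : Subgroup M).map M.subtype := hx
    exact ⟨y, y.2, by rw [← Subgroup.coe_subtype, hy]; simp [MulAut.smul_def, mul_assoc]⟩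
  have hconjC : ∀ (M : Subgroup G) (g : G), IsCoatom M → IsCoatom (M.map (MulAut.conj g).toMonoidHom) := by
    intro M g hM
    exact ((MulAut.conj g).mapSubgroup.isCoatom_iff M).2 hM
  have hidx : ∀ M : Subgroup G, (R : Subgroup G) ≤ M → ¬ r ∣ M.index := fun M h hd =>
    R.not_dvd_index (hd.trans (Subgroup.index_dvd_of_le h))
  constructor
  · rintro ⟨M, ⟨hM, hRM⟩, huni⟩
    refine ⟨⟨M, hM, hidx M hRM⟩, fun M₁ M₂ hM₁ h₁ hM₂ h₂ => ?_⟩
    obtain ⟨g₁, hg₁⟩ := hcontain M₁ h₁
    obtain ⟨g₂, hg₂⟩ := hcontain M₂ h₂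
    have e₁ := huni _ ⟨hconjC M₁ g₁ hM₁, hg₁⟩
    have e₂ := huni _ ⟨hconjC M₂ g₂ hM₂, hg₂⟩
    refine ⟨g₂⁻¹ * g₁, ?_⟩
    have h3 := congrArg (Subgroup.map (MulAut.conj g₂⁻¹).toMonoidHom) (e₂.trans e₁.symm)
    rw [Subgroup.map_map, Subgroup.map_map] at h3
    rw [show (MulAut.conj g₂⁻¹).toMonoidHom.comp (MulAut.conj g₂).toMonoidHom = MonoidHom.id G from
        MonoidHom.ext fun x => by simp [mul_assoc], Subgroup.map_id] at h3
    rw [h3]; congr 1
    exact MonoidHom.ext fun x => by simp [mul_assoc]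
  · rintro ⟨⟨M₀, hM₀, h₀⟩, hone⟩
    have hNtop : Subgroup.normalizer ((R : Subgroup G) : Set G) ≠ ⊤ := by
      intro e
      haveI : (R : Subgroup G).Normal := Subgroup.normalizer_eq_top_iff.1 e
      haveI := hT
      rcases Subgroup.Normal.eq_bot_or_eq_top (H := ((R : Subgroup G) ⊓ T).subgroupOf T)
        (Subgroup.Normal.comap inferInstance T.subtype) with e1 | e1
      · exact hR0 (by rw [← Subgroup.map_subgroupOf_eq_of_le (inf_le_right : (R : Subgroup G) ⊓ T ≤ T), e1, Subgroup.map_bot])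
      · exact hTnot ((R.2.to_le (inf_le_left : (R : Subgroup G) ⊓ T ≤ R)).to_le (Subgroup.subgroupOf_eq_top.1 e1))
    obtain ⟨M, hM, hNM⟩ := (eq_top_or_exists_le_coatom _).resolve_left hNtop
    have hRM : (R : Subgroup G) ≤ M := Subgroup.le_normalizer.trans hNM
    refine ⟨M, ⟨hM, hRM⟩, fun M' ⟨hM', hRM'⟩ => ?_⟩
    obtain ⟨g, rfl⟩ := hone M M' hM (hidx M hRM) hM' (hidx M' hRM')
    -- `g⁻¹ • R ≤ M`, so it is conjugate to `R` inside `M`
    have h1 : ((g⁻¹ • R : Sylow r G) : Subgroup G) ≤ M := by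
      intro x hx
      rw [Sylow.coe_subgroup_smul, Subgroup.mem_pointwise_smul_iff_inv_smul_mem] at hx
      have hx' : g * x * g⁻¹ ∈ (R : Subgroup G) := by simpa [MulAut.smul_def] using hx
      obtain ⟨y, hy, hyx⟩ := hRM' hx'
      have : y = x := by
        have e : g * y * g⁻¹ = g * x * g⁻¹ := hyx
        exact mul_left_cancel (mul_right_cancel e)
      exact this ▸ hy
    obtain ⟨m, hm⟩ := MulAction.exists_smul_eq M (R.subtype hRM) ((g⁻¹ • R).subtype h1)
    rw [Sylow.smul_subtype hRM] at hm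
    have h3 : (g * (m : G)) • R = R := by
      rw [mul_smul]
      have := Sylow.subtype_injective hm
      change (m : G) • R = g⁻¹ • R at this
      rw [this, smul_inv_smul]
    have hgM : g ∈ M := by
      have := mul_mem (hNM (Sylow.smul_eq_iff_mem_normalizer.1 h3)) (inv_mem m.2)
      simpa using this
    ext x
    constructor
    · rintro ⟨y, hy, rfl⟩
      exact mul_mem (mul_mem hgM hy) (inv_mem hgM)
    · intro hx
      exact ⟨g⁻¹ * x * g, mul_mem (mul_mem (inv_mem hgM) hx) hgM, by simp [mul_assoc]⟩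

end Cfsg.Agent.S3858
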