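import Cfsg.Statements.S3859
import Cfsg.Agent.Lib.CoreBasic

set_option autoImplicit false
open Cfsg

namespace Cfsg.Agent.S3859

/-- Let G be a finite group with a normal non-abelian simple subgroup T whose centralizer is trivial (G almost simple with socle T), r a prime and R a Sylow r-subgroup of G meeting T nontrivially. If R lies in exactly one maximal subgroup of G, then G/T is an r-group. -/
theorem result {G : Type*} [Group G] [Finite G] (T : Subgroup G) [T.Normal] (hT : IsSimpleGroup T) (hna : ¬ IsMulCommutative T)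
    (hC : Subgroup.centralizer (T : Set G) = ⊥) {r : ℕ} [Fact r.Prime] (R : Sylow r G) (hR0 : (R : Subgroup G) ⊓ T ≠ ⊥)
    (huniq : ∃! M : Subgroup G, IsCoatom M ∧ (R : Subgroup G) ≤ M) : IsPGroup r (G ⧸ T) := by
  obtain ⟨M, ⟨hM, hRM⟩, huni⟩ := huniq
  have hTnot : ¬ IsPGroup r T := fun h => by
    haveI := h.isNilpotent
    haveI := hT
    haveI : Nontrivial T := IsSimpleGroup.toNontrivial
    rcases Subgroup.Normal.eq_bot_or_eq_top (H := Subgroup.center T) inferInstance with e | e
    · haveI := h.center_nontrivial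
      exact (Subgroup.nontrivial_iff_ne_bot _).1 inferInstance e
    · exact hna (.of_comm fun a b => (Subgroup.mem_center_iff.1 (e.ge (Subgroup.mem_top a)) b).symm)
  by_cases hsup : (R : Subgroup G) ⊔ T = ⊤
  · have h1 : Function.Surjective ((QuotientGroup.mk' T).comp (R : Subgroup G).subtype) := by
      rw [← MonoidHom.range_eq_top, MonoidHom.range_comp, Subgroup.range_subtype, eq_top_iff,
        ← Subgroup.map_top_of_surjective _ (QuotientGroup.mk'_surjective T), ← hsup, Subgroup.map_sup,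
        show T.map (QuotientGroup.mk' T) = ⊥ from (Subgroup.map_eq_bot_iff _).2 (by rw [QuotientGroup.ker_mk']),
        sup_bot_eq]
    exact R.2.of_surjective _ h1
  exfalso
  have hTM : T ≤ M := by
    obtain h | ⟨M', hM', hle⟩ := eq_top_or_exists_le_coatom ((R : Subgroup G) ⊔ T)
    · exact absurd h hsup
    · rw [huni M' ⟨hM', le_sup_left.trans hle⟩] at hle
      exact le_sup_right.trans hle
  set N := Subgroup.normalizer (((R : Subgroup G) ⊓ T : Subgroup G) : Set G) with hN
  have hRN : (R : Subgroup G) ≤ N := by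
    intro g hg
    refine Subgroup.mem_normalizer_iff.2 fun x => ?_
    have h1 : ∀ K : Subgroup G, g ∈ Subgroup.normalizer (K : Set G) → (x ∈ K ↔ g * x * g⁻¹ ∈ K) :=
      fun K hK => Subgroup.mem_normalizer_iff.1 hK x
    rw [Subgroup.mem_inf, Subgroup.mem_inf, h1 _ (Subgroup.le_normalizer hg),
      h1 T (by rw [Subgroup.normalizer_eq_top_iff.2 inferInstance]; exact Subgroup.mem_top g)]
  -- Frattini argument
  obtain ⟨Q, hQ⟩ : ∃ Q : Sylow r T, (Q : Subgroup T).map T.subtype = (R : Subgroup G) ⊓ T := by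
    have h1 : ∀ Q : Sylow r T, ∃ g : G, ((Q : Subgroup T).map T.subtype) ≤ (g • R : Sylow r G) := fun Q => by
      obtain ⟨S, hS⟩ := (Q.2.map T.subtype).exists_le_sylow
      obtain ⟨g, hg⟩ := MulAction.exists_smul_eq G R S
      exact ⟨g, hg ▸ hS⟩
    have hp : IsPGroup r (((R : Subgroup G) ⊓ T).subgroupOf T) :=
      (R.2.to_le (inf_le_left : (R : Subgroup G) ⊓ T ≤ R)).comap_of_injective T.subtype T.subtype_injective
    obtain ⟨Q, hQ⟩ := hp.exists_le_sylow
    refine ⟨Q, ?_⟩
    obtain ⟨g, hg⟩ := h1 Q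
    have hle : (R : Subgroup G) ⊓ T ≤ (Q : Subgroup T).map T.subtype :=
      fun x hx => ⟨⟨x, hx.2⟩, hQ (Subgroup.mem_subgroupOf.2 hx), rfl⟩
    refine (CfsgLib.Core.eq_of_le_of_card_le hle ?_).symm
    have h2 : ((Q : Subgroup T).map T.subtype) ≤ ((R : Subgroup G) ⊓ T).map (MulAut.conj g).toMonoidHom := by
      intro x hx
      have hxg := hg hx
      have hxT : x ∈ T := Subgroup.map_subtype_le _ hx
      change x ∈ ((g • R : Sylow r G) : Subgroup G) at hxg
      rw [Sylow.coe_subgroup_smul, Subgroup.mem_pointwise_smul_iff_inv_smul_mem] at hxg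
      refine ⟨g⁻¹ * x * g, ⟨show g⁻¹ * x * g ∈ (R : Subgroup G) by simpa [MulAut.smul_def] using hxg, ?_⟩, by simp [mul_assoc]⟩
      simpa using (inferInstance : T.Normal).conj_mem x hxT g⁻¹
    exact (Subgroup.card_le_of_le h2).trans (le_of_eq (Subgroup.card_map_of_injective (MulAut.conj g).injective))
  have hfr := Sylow.normalizer_sup_eq_top Q
  rw [hQ, ← hN] at hfr
  have hNtop : N ≠ ⊤ := by
    intro e
    haveI : ((R : Subgroup G) ⊓ T).Normal := Subgroup.normalizer_eq_top_iff.1 (hN ▸ e)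
    haveI := hT
    rcases Subgroup.Normal.eq_bot_or_eq_top (H := ((R : Subgroup G) ⊓ T).subgroupOf T)
      (Subgroup.Normal.comap inferInstance T.subtype) with e1 | e1
    · exact hR0 (by rw [← Subgroup.map_subgroupOf_eq_of_le (inf_le_right : (R : Subgroup G) ⊓ T ≤ T), e1, Subgroup.map_bot])
    · exact hTnot ((R.2.to_le (inf_le_left : (R : Subgroup G) ⊓ T ≤ R)).to_le (Subgroup.subgroupOf_eq_top.1 e1))
  obtain h | ⟨M', hM', hle⟩ := eq_top_or_exists_le_coatom N
  · exact hNtop h
  · rw [huni M' ⟨hM', hRN.trans hle⟩] at hle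
    exact hM.1 (top_le_iff.1 (hfr.ge.trans (sup_le hle hTM)))

end Cfsg.Agent.S3859
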