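import Cfsg.Statements.S3861
import Cfsg.Agent.Lib.CoreRealOdd

set_option autoImplicit false
open Cfsg

namespace Cfsg.Agent.S3861

/-- A finite group G has no non-identity element of odd order that is conjugate to its inverse if and only if the Sylow 2-subgroups of G are normal. -/
theorem result {G : Type*} [Group G] [Finite G] (P : Sylow 2 G) : (∀ x : G, x ≠ 1 → Odd (orderOf x) → ¬ IsConj x x⁻¹) ↔ (P : Subgroup G).Normal := by
  rw [← CfsgLib.Core.RealOdd.iff_normal_sylow P]
  constructor
  · intro h g x hx hg
    by_contra h1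
    exact h x h1 hx (isConj_iff.2 ⟨g, hg⟩)
  · intro h x h1 hx hc
    obtain ⟨g, hg⟩ := isConj_iff.1 hc
    exact h1 (h g x hx hg)

end Cfsg.Agent.S3861
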