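import Cfsg.Statements.S3862
import Cfsg.Agent.Lib.CoreTransfer
import Cfsg.Agent.Lib.CorePGroup
import Cfsg.Agent.Lib.CoreCoprime
import Cfsg.Agent.Lib.CoreRealOdd

set_option autoImplicit false
open Cfsg

namespace Cfsg.Agent.S3862

open CfsgLib.Core
open scoped Pointwise

/-- An element of odd order normalising a 2-subgroup centralises it. -/
theorem fixed {G : Type*} [Group G] [Finite G]
    (h : ∀ x : G, (∃ j : ℕ, orderOf x = 2 ^ j) → IsConj x x⁻¹ → x ∈ Subgroup.center G) :
    ∀ (n : ℕ) (U : Subgroup G), Nat.card U ≤ n → IsPGroup 2 U → ∀ a ∈ Subgroup.normalizer (U : Set G),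
      Odd (orderOf a) → a ∈ Subgroup.centralizer (U : Set G) := by
  haveI : Fact (Nat.Prime 2) := ⟨Nat.prime_two⟩
  intro n
  induction n with
  | zero => intro U hn; exact absurd hn (by simp [Nat.card_pos.ne'])
  | succ n ih =>
    intro U hn hU a ha hodd
    have hstep : ∀ V : Subgroup G, V ≤ U → V ≠ U → a ∈ Subgroup.normalizer (V : Set G) →
        a ∈ Subgroup.centralizer (V : Set G) := fun V hVU hne hVa => by
      refine ih V ?_ (hU.to_le hVU) a hVa hodd
      by_contra hlt
      exact hne (eq_of_le_of_card_le hVU (by omega))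
    set A := Subgroup.zpowers a with hA
    have hAU : A ≤ Subgroup.normalizer (U : Set G) := Subgroup.zpowers_le.2 ha
    have hcop : (Nat.card A).Coprime (Nat.card U) := by
      obtain ⟨k, hk⟩ := hU.exists_card_eq
      rw [Nat.card_zpowers, hk]
      exact (Nat.coprime_two_right.2 hodd).pow_right k
    have haA : a ∈ A := Subgroup.mem_zpowers a
    by_cases hUA : ⁅U, A⁆ = U
    swap
    · have h1 := hstep _ (commutator_le_of_le_normalizer hAU) hUA
        (le_normalizer_commutator_right U A haA)
      have hbot : ⁅⁅U, A⁆, A⁆ = ⊥ := Subgroup.commutator_eq_bot_iff_le_centralizer.2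
        (fun y hy => Subgroup.mem_centralizer_iff.2 fun b hb => by
          obtain ⟨i, rfl⟩ := hb
          have hc : Commute y a := Subgroup.mem_centralizer_iff.1 h1 y hy
          exact ((hc.zpow_right i).symm).eq)
      haveI := hU.isNilpotent
      rw [commutator_commutator_eq hAU hcop (Or.inr inferInstance)] at hbot
      exact centralizes_of_commutator_eq_bot hbot haA
    by_contra hnc
    haveI : Nontrivial U := by
      refine (Subgroup.nontrivial_iff_ne_bot U).2 fun e => hnc ?_
      rw [e]; simp [Subgroup.mem_centralizer_iff]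
    set Φ := (frattini U).map U.subtype with hΦ
    have hΦU : Φ ≤ U := Subgroup.map_subtype_le _
    have hΦne : Φ ≠ U := fun e => by
      have ht : frattini U = ⊤ := by
        apply Subgroup.map_injective U.subtype_injective
        rw [← MonoidHom.range_eq_map, Subgroup.range_subtype]; exact e
      exact bot_ne_top (frattini_nongenerating (K := (⊥ : Subgroup U)) (by rw [bot_sup_eq, ht]))
    have hnorm : ∀ b ∈ Subgroup.normalizer (U : Set G), b ∈ Subgroup.normalizer (Φ : Set G) := by
      intro b hb
      refine Subgroup.mem_normalizer_fintype fun y hy => ?_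
      obtain ⟨z, hz, rfl⟩ := hy
      refine ⟨(MulEquiv.ofBijective (((MulAut.conj b).toMonoidHom.domRestrict U).codRestrict U
        (fun w => (Subgroup.mem_normalizer_iff.1 hb w).1 w.2)) ⟨fun u v huv => Subtype.ext
          ((MulAut.conj b).injective (congrArg Subtype.val huv)), fun w => ⟨⟨b⁻¹ * w * b, by
            simpa using (Subgroup.mem_normalizer_iff.1 (inv_mem hb) w).1 w.2⟩,
            Subtype.ext (by simp [mul_assoc])⟩⟩ : U ≃* U) z, ?_, rfl⟩
      exact (Subgroup.characteristic_iff_le_comap.1 frattini_characteristic _) hz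
    have hΦa : ∀ f ∈ Φ, a * f = f * a := fun f hf =>
      (Subgroup.mem_centralizer_iff.1 (hstep Φ hΦU hΦne (hnorm a ha)) f hf).symm
    -- `Φ` is central in `U`
    have hcent : ∀ u ∈ U, ∀ f ∈ Φ, u * f = f * u := by
      have hle : ⁅U, A⁆ ≤ Subgroup.centralizer (Φ : Set G) := by
        refine Subgroup.commutator_le.2 fun u hu b hb => Subgroup.mem_centralizer_iff.2 fun f hf => ?_
        have hbf : ∀ f ∈ Φ, b * f = f * b := fun f hf => by
          obtain ⟨i, rfl⟩ := hb
          exact ((show Commute a f from hΦa f hf).zpow_left i).eq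
        have hf' : u⁻¹ * f * u ∈ Φ := by
          simpa using (Subgroup.mem_normalizer_iff.1 (hnorm u⁻¹ (inv_mem (Subgroup.le_normalizer hu))) f).1 hf
        rw [commutatorElement_def]
        calc f * (u * b * u⁻¹ * b⁻¹) = u * ((u⁻¹ * f * u) * b) * u⁻¹ * b⁻¹ := by group
          _ = u * b * u⁻¹ * f * b⁻¹ := by rw [← hbf _ hf']; group
          _ = u * b * u⁻¹ * (b⁻¹ * (b * f)) * b⁻¹ := by group
          _ = u * b * u⁻¹ * b⁻¹ * f := by rw [hbf f hf]; group
      rw [hUA] at hle
      exact fun u hu f hf => (Subgroup.mem_centralizer_iff.1 (hle hu) f hf).symm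
    have hsq : ∀ u ∈ U, u * u ∈ Φ := fun u hu => ⟨⟨u, hu⟩ ^ 2,
      pgroup_pow_mem_frattini hU _, by simp [sq]⟩
    have hcom : ∀ u ∈ U, ∀ v ∈ U, u * v * u⁻¹ * v⁻¹ ∈ Φ := fun u hu v hv =>
      ⟨(⟨u, hu⟩ : U) * ⟨v, hv⟩ * (⟨u, hu⟩ : U)⁻¹ * (⟨v, hv⟩ : U)⁻¹,
      pgroup_commutator_le_frattini hU (commutatorElement_def (⟨u, hu⟩ : U) ⟨v, hv⟩ ▸ Subgroup.commutator_mem_commutator (Subgroup.mem_top _)
        (Subgroup.mem_top _)), by simp⟩
    -- a moved element `c` with `c ^ 4 = 1`
    obtain ⟨c, hcU, hc4, hca⟩ : ∃ c ∈ U, c * c * (c * c) = 1 ∧ a * c ≠ c * a := by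
      by_contra hcon
      push Not at hcon
      refine hnc (Subgroup.mem_centralizer_iff.2 fun u hu => ?_)
      have hUc : ⁅U, A⁆ ≤ Subgroup.centralizer ({a} : Set G) := by
        refine Subgroup.commutator_le.2 fun u hu b hb => Subgroup.mem_centralizer_singleton_iff.2 ?_
        have hbU : b ∈ Subgroup.normalizer (U : Set G) := hAU hb
        set d := b * u⁻¹ * b⁻¹ with hd
        have hdU : d ∈ U := (Subgroup.mem_normalizer_iff.1 hbU _).1 (inv_mem hu)
        rw [commutatorElement_def, show u * b * u⁻¹ * b⁻¹ = u * d by rw [hd]; group]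
        refine (hcon _ (mul_mem hu hdU) ?_).symm
        have hd2 : d * d = (u * u)⁻¹ := by
          have hbf : b * (u * u)⁻¹ = (u * u)⁻¹ * b := by
            obtain ⟨i, rfl⟩ := hb
            exact ((show Commute a (u * u)⁻¹ from hΦa _ (inv_mem (hsq u hu))).zpow_left i).eq
          calc d * d = b * (u * u)⁻¹ * b⁻¹ := by rw [hd]; group
            _ = (u * u)⁻¹ := by rw [hbf, mul_inv_cancel_right]
        set z := d * u * d⁻¹ * u⁻¹ with hz
        have hzu : u * z = z * u := hcent u hu z (hcom d hdU u hu)
        have hzd : d * z = z * d := hcent d hdU z (hcom d hdU u hu)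
        have hdu : d * u = z * (u * d) := by rw [hz]; group
        have h2 : u * d * (u * d) = z := by
          calc u * d * (u * d) = u * (d * u) * d := by group
            _ = u * z * u * (d * d) := by rw [hdu]; group
            _ = z := by rw [hzu, hd2]; group
        have hz2 : z * z = 1 := by
          have h3 : d * (u * u) = (u * u) * d := hcent d hdU _ (hsq u hu)
          have h4 : d * (u * u) = z * z * ((u * u) * d) := by
            calc d * (u * u) = (d * u) * u := by group
              _ = z * u * (d * u) := by conv_lhs => rw [hdu]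
                                        group
              _ = z * (u * z) * u * d := by rw [hdu]; group
              _ = _ := by rw [hzu]; group
          rw [← h3] at h4
          exact mul_eq_right.1 h4.symm
        rw [h2, hz2]
      rw [hUA] at hUc
      exact Subgroup.mem_centralizer_singleton_iff.1 (hUc hu)
    -- `c * c^a` is real
    set d := a * c * a⁻¹ with hd
    have hdU : d ∈ U := (Subgroup.mem_normalizer_iff.1 ha c).1 hcU
    set z := d * c * d⁻¹ * c⁻¹ with hz
    have hzΦ : z ∈ Φ := hcom d hdU c hcU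
    have hzc : c * z = z * c := hcent c hcU z hzΦ
    have hzd : d * z = z * d := hcent d hdU z hzΦ
    have hdc : d * c = z * (c * d) := by rw [hz]; group
    have hd2 : d * d = c * c := by
      rw [hd, show a * c * a⁻¹ * (a * c * a⁻¹) = a * (c * c) * a⁻¹ by group, hΦa _ (hsq c hcU),
        mul_inv_cancel_right]
    have hy2 : c * d * (c * d) = z := by
      calc c * d * (c * d) = c * (d * c) * d := by group
        _ = c * z * c * (d * d) := by rw [hdc]; group
        _ = z := by rw [hzc, hd2, show z * c * c * (c * c) = z * (c * c * (c * c)) by group, hc4, mul_one]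
    have hz2 : z * z = 1 := by
      have h3 : d * (c * c) = (c * c) * d := hcent d hdU _ (hsq c hcU)
      have h4 : d * (c * c) = z * z * ((c * c) * d) := by
        calc d * (c * c) = (d * c) * c := by group
          _ = z * c * (d * c) := by conv_lhs => rw [hdc]
                                    group
          _ = z * (c * z) * c * d := by rw [hdc]; group
          _ = _ := by rw [hzc]; group
      rw [← h3] at h4
      exact mul_eq_right.1 h4.symm
    have hreal : IsConj (c * d) (c * d)⁻¹ := by
      refine isConj_iff.2 ⟨c, eq_inv_of_mul_eq_one_left ?_⟩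
      calc c * (c * d) * c⁻¹ * (c * d) = c * c * d * d := by group
        _ = c * c * (d * d) := by group
        _ = 1 := by rw [hd2, hc4]
    have hyU : c * d ∈ U := mul_mem hcU hdU
    have hy : c * d ∈ Subgroup.center G := by
      obtain ⟨j, hj⟩ := IsPGroup.iff_orderOf.1 hU ⟨_, hyU⟩
      exact h _ ⟨j, by rwa [Subgroup.orderOf_mk] at hj⟩ hreal
    have hfix : d * (a * d * a⁻¹) = c * d := by
      have h5 : a * (c * d) = (c * d) * a := Subgroup.mem_center_iff.1 hy a
      calc d * (a * d * a⁻¹) = a * (c * d) * a⁻¹ := by rw [hd]; group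
        _ = c * d := by rw [h5, mul_inv_cancel_right]
    have hstep2 : a ^ 2 * c * (a ^ 2)⁻¹ = c * z := by
      have h6 : a ^ 2 * c * (a ^ 2)⁻¹ = a * d * a⁻¹ := by rw [hd, sq]; group
      have h7 : c * d = d * (c * z) := by
        calc c * d = z * z * (c * d) := by rw [hz2, one_mul]
          _ = z * (d * c) := by rw [hdc]; group
          _ = z * d * c := by group
          _ = d * z * c := by rw [← hzd]
          _ = d * (c * z) := by rw [hzc]; group
      rw [h6]
      exact mul_left_cancel (hfix.trans h7)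
    obtain ⟨k, hk⟩ := hodd
    have hiter : ∀ i : ℕ, (a ^ 2) ^ i * c * ((a ^ 2) ^ i)⁻¹ = c * z ^ i := by
      intro i
      induction i with
      | zero => simp
      | succ i ih2 =>
        have hza : a ^ 2 * z ^ i * (a ^ 2)⁻¹ = z ^ i := by
          rw [((show Commute a z from hΦa z hzΦ).pow_pow 2 i).eq, mul_inv_cancel_right]
        calc (a ^ 2) ^ (i + 1) * c * ((a ^ 2) ^ (i + 1))⁻¹
            = a ^ 2 * ((a ^ 2) ^ i * c * ((a ^ 2) ^ i)⁻¹) * (a ^ 2)⁻¹ := by rw [pow_succ']; group
          _ = (a ^ 2 * c * (a ^ 2)⁻¹) * (a ^ 2 * z ^ i * (a ^ 2)⁻¹) := by rw [ih2]; group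
          _ = c * z ^ (i + 1) := by rw [hstep2, hza, pow_succ', mul_assoc]
    have hz1 : z = 1 := by
      have h8 := hiter (2 * k + 1)
      rw [← hk, ← pow_mul, mul_comm, pow_mul, pow_orderOf_eq_one, one_pow, one_mul, inv_one, mul_one,
        eq_comm, mul_eq_left] at h8
      rw [hk, pow_succ, pow_mul, sq, hz2, one_pow, one_mul] at h8
      exact h8
    have h9 : (a ^ 2) ^ (k + 1) = a := by
      rw [← pow_mul, show 2 * (k + 1) = (2 * k + 1) + 1 by ring, pow_succ, ← hk, pow_orderOf_eq_one, one_mul]
    have h10 := hiter (k + 1)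
    rw [hz1, one_pow, mul_one, h9, mul_inv_eq_iff_eq_mul] at h10
    exact hca h10

/-- If every 2-element of the finite group G that is conjugate to its inverse lies in the centre of G, then G has a normal 2-complement. -/
theorem result {G : Type*} [Group G] [Finite G] (h : ∀ x : G, (∃ j : ℕ, orderOf x = 2 ^ j) → IsConj x x⁻¹ → x ∈ Subgroup.center G) : Cfsg.HasNormalPComplement 2 G := by
  haveI : Fact (Nat.Prime 2) := ⟨Nat.prime_two⟩
  refine CfsgLib.Core.hasNormalPComplement_of_local fun Q hQ g hg hcop => ?_
  exact fixed h _ Q le_rfl hQ g hg (Nat.coprime_two_right.1 hcop)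

end Cfsg.Agent.S3862
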