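import Cfsg.Statements.S3863
import Cfsg.Agent.Lib.CoreRealOdd

set_option autoImplicit false
open Cfsg

namespace Cfsg.Agent.S3863

/-- Let x be an element of the finite group G that is conjugate to its inverse. Then some 2-element conjugates x to its inverse; if the conjugacy class of x has odd size then x ^ 2 = 1; and x lies in, and is conjugate to its inverse inside, every normal subgroup of odd index. -/
theorem result {G : Type*} [Group G] [Finite G] (x : G) (hx : IsConj x x⁻¹) : (∃ t : G, (∃ j : ℕ, orderOf t = 2 ^ j) ∧ t * x * t⁻¹ = x⁻¹) ∧ (Odd (Subgroup.centralizer ({x} : Set G)).index → x ^ 2 = 1) ∧ ∀ (N : Subgroup G) [N.Normal], Odd N.index → ∃ hxN : x ∈ N, IsConj (⟨x, hxN⟩ : N) (⟨x, hxN⟩ : N)⁻¹ := by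
  obtain ⟨g, hg⟩ := isConj_iff.1 hx
  obtain ⟨t, ⟨k, hk⟩, ht⟩ := CfsgLib.Core.RealOdd.exists_two_element_inverting hg
  refine ⟨⟨t, ⟨k, hk⟩, ht⟩, CfsgLib.Core.RealOdd.sq_eq_one_of_odd_index hg, fun N _ hN => ?_⟩
  have htN := CfsgLib.Core.RealOdd.mem_of_odd_index N hN hk
  have hxN : x ∈ N := CfsgLib.Core.RealOdd.mem_of_two_part_mem ht N htN
    (fun hs => CfsgLib.Core.RealOdd.mem_of_odd_index N hN hs)
  exact ⟨hxN, isConj_iff.2 ⟨⟨t, htN⟩, Subtype.ext ht⟩⟩

end Cfsg.Agent.S3863
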