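import Cfsg.Statements.S3866
import Cfsg.Agent.Lib.CoreBasic

set_option autoImplicit false
open Cfsg

namespace Cfsg.Agent.S3866

/-- Let A be a commutative normal subgroup of the finite group G with G generated by A and an element x. Then a ↦ x a x⁻¹ a⁻¹ is a surjective homomorphism from A onto the commutator subgroup of G whose kernel is the centralizer of x in A; in particular the commutator subgroup has order equal to the index in A of that centralizer. -/
theorem result {G : Type*} [Group G] [Finite G] (A : Subgroup G) [A.Normal] (hA : IsMulCommutative A) (x : G) (hgen : A ⊔ Subgroup.zpowers x = ⊤) : (∀ a ∈ A, x * a * x⁻¹ * a⁻¹ ∈ commutator G) ∧ (∀ c ∈ commutator G, ∃ a ∈ A, x * a * x⁻¹ * a⁻¹ = c) ∧ (∀ a ∈ A, ∀ b ∈ A, x * (a * b) * x⁻¹ * (a * b)⁻¹ = (x * a * x⁻¹ * a⁻¹) * (x * b * x⁻¹ * b⁻¹)) ∧ Nat.card (commutator G) * Nat.card ↥(A ⊓ Subgroup.centralizer ({x} : Set G)) = Nat.card A := by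
  classical
  have hc : ∀ a ∈ A, ∀ b ∈ A, a * b = b * a := fun a ha b hb => congrArg Subtype.val (hA.is_comm.comm (⟨a, ha⟩ : A) ⟨b, hb⟩)
  have hn := (inferInstance : A.Normal).conj_mem
  have hmul : ∀ a ∈ A, ∀ b ∈ A, x * (a * b) * x⁻¹ * (a * b)⁻¹ = (x * a * x⁻¹ * a⁻¹) * (x * b * x⁻¹ * b⁻¹) := by
    intro a ha b hb
    have h1 : a⁻¹ * (x * b * x⁻¹ * b⁻¹) = (x * b * x⁻¹ * b⁻¹) * a⁻¹ :=
      hc _ (inv_mem ha) _ (mul_mem (hn b hb x) (inv_mem hb))
    calc x * (a * b) * x⁻¹ * (a * b)⁻¹ = (x * a * x⁻¹) * (x * b * x⁻¹ * b⁻¹) * a⁻¹ := by group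
      _ = (x * a * x⁻¹) * (a⁻¹ * (x * b * x⁻¹ * b⁻¹)) := by rw [h1, mul_assoc]
      _ = _ := by group
  let φ : A →* G := MonoidHom.mk' (fun a => x * (a : G) * x⁻¹ * (a : G)⁻¹) (fun a b => hmul a a.2 b b.2)
  set R := φ.range with hR
  have hRA : R ≤ A := by
    rintro _ ⟨a, rfl⟩
    exact mul_mem (hn a a.2 x) (inv_mem a.2)
  have hRn : R.Normal := by
    rw [← Subgroup.normalizer_eq_top_iff, eq_top_iff, ← hgen]
    refine sup_le (fun a ha => Subgroup.mem_normalizer_fintype fun r hr => ?_)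
      (Subgroup.zpowers_le.2 (Subgroup.mem_normalizer_fintype fun r hr => ?_))
    · show a * r * a⁻¹ ∈ R
      rw [hc a ha r (hRA hr), mul_inv_cancel_right]; exact hr
    · obtain ⟨b, rfl⟩ := hr
      refine ⟨⟨x * b * x⁻¹, hn b b.2 x⟩, ?_⟩
      show x * (x * b * x⁻¹) * x⁻¹ * (x * b * x⁻¹)⁻¹ = x * (x * b * x⁻¹ * (b : G)⁻¹) * x⁻¹
      group
  haveI := hRn
  have hcomm : commutator G ≤ R := by
    have hax : ∀ a ∈ A, Commute (a : G ⧸ R) (x : G ⧸ R) := fun a ha => by
      show (a : G ⧸ R) * x = x * a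
      have h1 : ((x * a * x⁻¹ * a⁻¹ : G) : G ⧸ R) = 1 := (QuotientGroup.eq_one_iff _).2 ⟨⟨a, ha⟩, rfl⟩
      rw [← QuotientGroup.mk_mul, ← QuotientGroup.mk_mul]
      have h2 : x * a = (x * a * x⁻¹ * a⁻¹) * (a * x) := by group
      rw [h2, show ((x * a * x⁻¹ * a⁻¹ * (a * x) : G) : G ⧸ R) = ((x * a * x⁻¹ * a⁻¹ : G) : G ⧸ R) * ((a * x : G) : G ⧸ R) from rfl, h1, one_mul]
    have hcen : ∀ y : G, ∀ z : G, Commute (y : G ⧸ R) (z : G ⧸ R) := by
      have h1 : ∀ y : G, (y : G ⧸ R) ∈ Subgroup.center (G ⧸ R) := by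
        have h2 : ∀ g : G, (∀ a ∈ A, Commute (g : G ⧸ R) a) → Commute (g : G ⧸ R) x →
            (g : G ⧸ R) ∈ Subgroup.center (G ⧸ R) := by
          intro g hga hgx
          refine Subgroup.mem_center_iff.2 fun q => ?_
          obtain ⟨z, rfl⟩ := QuotientGroup.mk_surjective q
          have : A ⊔ Subgroup.zpowers x ≤ (Subgroup.centralizer ({(g : G ⧸ R)} : Set (G ⧸ R))).comap (QuotientGroup.mk' R) :=
            sup_le (fun a ha => Subgroup.mem_centralizer_singleton_iff.2 (hga a ha).symm.eq)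
              (Subgroup.zpowers_le.2 (Subgroup.mem_centralizer_singleton_iff.2 hgx.symm.eq))
          rw [hgen] at this
          exact Subgroup.mem_centralizer_singleton_iff.1 (this (Subgroup.mem_top z))
        have : A ⊔ Subgroup.zpowers x ≤ (Subgroup.center (G ⧸ R)).comap (QuotientGroup.mk' R) :=
          sup_le (fun a ha => h2 a (fun b hb => by
            show (a : G ⧸ R) * b = b * a
            rw [← QuotientGroup.mk_mul, ← QuotientGroup.mk_mul, hc a ha b hb]) (hax a ha))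
            (Subgroup.zpowers_le.2 (h2 x (fun a ha => (hax a ha).symm) (Commute.refl _)))
        rw [hgen] at this
        exact fun y => this (Subgroup.mem_top y)
      exact fun y z => (Subgroup.mem_center_iff.1 (h1 z) _)
    rw [commutator_def, Subgroup.commutator_le]
    intro g _ k _
    rw [← QuotientGroup.eq_one_iff]
    show ((g * k * g⁻¹ * k⁻¹ : G) : G ⧸ R) = 1
    simp only [QuotientGroup.mk_mul, QuotientGroup.mk_inv]
    rw [(hcen g k).eq, mul_inv_cancel_right, mul_inv_cancel]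
  have hRc : R ≤ commutator G := by
    rintro _ ⟨a, rfl⟩
    exact Subgroup.commutator_mem_commutator (Subgroup.mem_top x) (Subgroup.mem_top (a : G))
  refine ⟨fun a ha => hRc ⟨⟨a, ha⟩, rfl⟩, fun c hcm => ?_, hmul, ?_⟩
  · obtain ⟨a, ha⟩ := hcomm hcm
    exact ⟨a, a.2, ha⟩
  · rw [le_antisymm hcomm hRc, ← Subgroup.card_mul_index φ.ker, Subgroup.index_ker, mul_comm]
    congr 1
    refine Nat.card_congr
      { toFun := fun v => ⟨⟨v.1, v.2.1⟩, ?_⟩
        invFun := fun v => ⟨v.1.1, v.1.2, ?_⟩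
        left_inv := fun v => rfl
        right_inv := fun v => rfl }
    · show x * (v : G) * x⁻¹ * (v : G)⁻¹ = 1
      rw [← Subgroup.mem_centralizer_singleton_iff.1 v.2.2, mul_inv_cancel_right, mul_inv_cancel]
    · have h1 : x * (v.1 : G) * x⁻¹ * (v.1 : G)⁻¹ = 1 := v.2
      rw [mul_inv_eq_one, mul_inv_eq_iff_eq_mul] at h1
      exact Subgroup.mem_centralizer_singleton_iff.2 h1.symm

end Cfsg.Agent.S3866
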