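import Cfsg.Statements.S3867
import Cfsg.Agent.Lib.FgsSylowProduct

set_option autoImplicit false
open Cfsg

namespace Cfsg.Agent.S3867

/-- Let M and N be nontrivial normal subgroups of the finite group G with M ⊓ N trivial, and let p be a prime. Writing n(X) for the number of Sylow p-subgroups of a group X, one has n(G) · n(G/MN) = n(G/M) · n(G/N). -/
theorem result {G : Type*} [Group G] [Finite G] (p : ℕ) [Fact p.Prime] (M N : Subgroup G) [M.Normal] [N.Normal] (hM : M ≠ ⊥) (hN : N ≠ ⊥) (hMN : M ⊓ N = ⊥) : Nat.card (Sylow p G) * Nat.card (Sylow p (G ⧸ (M ⊔ N))) = Nat.card (Sylow p (G ⧸ M)) * Nat.card (Sylow p (G ⧸ N)) := by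
  obtain ⟨P⟩ : Nonempty (Sylow p G) := inferInstance
  set NP := Subgroup.normalizer ((P : Subgroup G) : Set G) with hNP
  have hidx : ∀ (K : Subgroup G) [K.Normal], Nat.card (Sylow p (G ⧸ K)) = (NP ⊔ K).index := by
    intro K hK
    have hs : Function.Surjective (QuotientGroup.mk' K) := QuotientGroup.mk'_surjective K
    rw [CfsgLib.SylowProd.card_eq_index (P.mapSurjective hs), ← Subgroup.index_comap_of_surjective _ hs,
      Subgroup.comap_normalizer_eq_of_surjective _ hs, Sylow.coe_mapSurjective, Subgroup.comap_map_eq,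
      QuotientGroup.ker_mk', CfsgLib.SylowProd.normalizer_sylow_sup]
  have hpow : ∀ (K : Subgroup G) [K.Normal], ∀ y ∈ (P : Subgroup G) ⊔ K, y ^ Nat.card (P : Subgroup G) ∈ K := by
    intro K hK y hy
    obtain ⟨a, ha, b, hb, rfl⟩ := Subgroup.mem_sup_of_normal_right.1 hy
    rw [← QuotientGroup.eq_one_iff, QuotientGroup.mk_pow, QuotientGroup.mk_mul,
      (QuotientGroup.eq_one_iff b).2 hb, mul_one, ← QuotientGroup.mk_pow, QuotientGroup.eq_one_iff]
    have h : (⟨a, ha⟩ : (P : Subgroup G)) ^ Nat.card (P : Subgroup G) = 1 := pow_card_eq_one'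
    have h' : a ^ Nat.card (P : Subgroup G) = 1 := congrArg Subtype.val h
    rw [h']; exact K.one_mem
  obtain ⟨k, hk⟩ := IsPGroup.iff_card.1 P.isPGroup'
  have hpg : IsPGroup p ↥(((P : Subgroup G) ⊔ M) ⊓ ((P : Subgroup G) ⊔ N)) := fun y => by
    refine ⟨k, Subtype.ext ?_⟩
    have h : (y : G) ^ Nat.card (P : Subgroup G) ∈ M ⊓ N := ⟨hpow M y y.2.1, hpow N y y.2.2⟩
    rw [hMN, Subgroup.mem_bot, hk] at h
    simpa using h
  have hK : ((P : Subgroup G) ⊔ M) ⊓ ((P : Subgroup G) ⊔ N) = P :=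
    P.is_maximal' hpg (le_inf le_sup_left le_sup_left)
  have hinf : (NP ⊔ M) ⊓ N = NP ⊓ N := by
    refine le_antisymm (fun x hx => ⟨?_, hx.2⟩) (inf_le_inf_right N le_sup_left)
    have h1 : x ∈ Subgroup.normalizer (((P : Subgroup G) ⊔ M : Subgroup G) : Set G) := by
      rw [CfsgLib.SylowProd.normalizer_sylow_sup]; exact hx.1
    have h2 : x ∈ Subgroup.normalizer (((P : Subgroup G) ⊔ N : Subgroup G) : Set G) :=
      Subgroup.le_normalizer (Subgroup.mem_sup_right hx.2)
    refine Subgroup.mem_normalizer_iff.2 fun y => ?_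
    conv_lhs => rw [← hK]
    conv_rhs => rw [← hK]
    exact and_congr (Subgroup.mem_normalizer_iff.1 h1 y) (Subgroup.mem_normalizer_iff.1 h2 y)
  have hr : NP.relIndex N = (NP ⊔ M).relIndex N := by
    rw [← Subgroup.inf_relIndex_right NP N, ← hinf, Subgroup.inf_relIndex_right]
  have hA : (NP ⊔ M).index = (NP ⊔ M).relIndex N * (NP ⊔ (M ⊔ N)).index := by
    rw [← Subgroup.relIndex_mul_index (le_sup_left : NP ⊔ M ≤ NP ⊔ M ⊔ N),
      CfsgLib.SylowProd.relIndex_sup_of_normal, sup_assoc]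
  rw [CfsgLib.SylowProd.card_sylow_eq_mul N P, hidx M, hidx N, hidx (M ⊔ N), hA, ← hNP, hr]
  ring

end Cfsg.Agent.S3867
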