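import Cfsg.Statements.S3881
import Cfsg.Agent.Lib.CoreMetacyclicCent

set_option autoImplicit false
open Cfsg

namespace Cfsg.Agent.S3881

/-- Let p be an odd prime and G a finite metacyclic p-group (G has a cyclic normal subgroup with cyclic quotient). Suppose G is non-abelian with |G'| = p^n. Then for 1 ≤ i ≤ n the number of elements of G whose conjugacy class has exactly p^i elements is |Z(G)| · (p^(2i) − p^(2i−2)). -/
theorem result {G : Type*} [Group G] [Finite G] {p : ℕ} [Fact p.Prime] (hp : p ≠ 2) (hG : IsPGroup p G) (hmc : Cfsg.IsMetacyclic G) (n : ℕ) (hn : n ≠ 0) (hGn : Nat.card ↥(commutator G) = p ^ n) (i : ℕ) (hi : 1 ≤ i) (hin : i ≤ n) :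
    Nat.card {g : G // (Subgroup.centralizer ({g} : Set G)).index = p ^ i} =
      Nat.card ↥(Subgroup.center G) * (p ^ (2 * i) - p ^ (2 * i - 2)) := by
  obtain ⟨M⟩ := CfsgLib.Core.Metacyclic.exists_mc hp hG hmc
  have hn' : M.n = n := Nat.pow_right_injective (Fact.out : p.Prime).two_le (M.card_commutator.symm.trans hGn)
  haveI := M.finiteV
  simp only [M.index_centralizer]
  choose sec hsec using M.w_surjective
  let e : {g : G // addOrderOf (M.w g) = p ^ i} ≃
      ↥(Subgroup.center G) × {x : M.V // addOrderOf x = p ^ i} :=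
    { toFun := fun g => (⟨(sec (M.w g.1))⁻¹ * g.1, (M.w_eq_iff _ _).mp (hsec _)⟩, ⟨M.w g.1, g.2⟩)
      invFun := fun zx => ⟨sec zx.2.1 * zx.1.1, by
        rw [M.w_mul_center _ _ zx.1.2, hsec]; exact zx.2.2⟩
      left_inv := fun g => Subtype.ext (mul_inv_cancel_left _ _)
      right_inv := fun zx => by
        have h : M.w (sec zx.2.1 * zx.1.1) = zx.2.1 := by rw [M.w_mul_center _ _ zx.1.2, hsec]
        refine Prod.ext (Subtype.ext ?_) (Subtype.ext h)
        show (sec (M.w (sec zx.2.1 * zx.1.1)))⁻¹ * (sec zx.2.1 * zx.1.1) = zx.1.1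
        rw [h, inv_mul_cancel_left] }
  rw [Nat.card_congr e, Nat.card_prod]
  congr 1
  have hS : {x : M.V | addOrderOf x = p ^ i} = (M.tor i : Set M.V) \ (M.tor (i - 1) : Set M.V) := by
    ext x
    rw [Set.mem_sdiff, SetLike.mem_coe, SetLike.mem_coe, M.mem_tor, M.mem_tor,
      ← M.addOrderOf_le_iff, ← M.addOrderOf_le_iff, Set.mem_ofPred_eq]
    obtain ⟨j, -, hj⟩ := M.addOrderOf_eq_pow x
    rw [hj, Nat.pow_le_pow_iff_right M.hp.one_lt, Nat.pow_le_pow_iff_right M.hp.one_lt,
      (Nat.pow_right_injective M.hp.two_le).eq_iff]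
    omega
  have hsub : (M.tor (i - 1) : Set M.V) ⊆ (M.tor i : Set M.V) := fun x hx => by
    rw [SetLike.mem_coe, M.mem_tor, ← M.addOrderOf_le_iff] at hx ⊢
    exact hx.trans (Nat.pow_le_pow_right M.hp.pos (by omega))
  show Nat.card ↥{x : M.V | addOrderOf x = p ^ i} = _
  rw [Nat.card_coe_set_eq, hS, Set.ncard_sdiff hsub (Set.toFinite _), ← Nat.card_coe_set_eq,
    ← Nat.card_coe_set_eq]
  rw [show Nat.card ↥(M.tor i : Set M.V) = p ^ (2 * i) from M.card_tor (by omega),
    show Nat.card ↥(M.tor (i - 1) : Set M.V) = p ^ (2 * (i - 1)) from M.card_tor (by omega),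
    show 2 * (i - 1) = 2 * i - 2 by omega]

end Cfsg.Agent.S3881
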