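import Cfsg.Statements.S3882
import Cfsg.Agent.Lib.CoreMetacyclicCent

set_option autoImplicit false
open Cfsg

namespace Cfsg.Agent.S3882

/-- Let p be an odd prime and G a finite metacyclic p-group (G has a cyclic normal subgroup with cyclic quotient). Suppose |G'| = p^n and 0 ≤ s ≤ n. Then an element g lies in the subgroup generated by the p^s-th powers if and only if its conjugacy class has at most p^(n−s) elements; in particular the subgroup generated by the p^n-th powers is the center of G. -/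
theorem result {G : Type*} [Group G] [Finite G] {p : ℕ} [Fact p.Prime] (hp : p ≠ 2) (hG : IsPGroup p G) (hmc : Cfsg.IsMetacyclic G) (n : ℕ) (hGn : Nat.card ↥(commutator G) = p ^ n) (s : ℕ) (hs : s ≤ n) (g : G) :
    (g ∈ Subgroup.closure {x : G | ∃ y : G, y ^ p ^ s = x} ↔ (Subgroup.centralizer ({g} : Set G)).index ≤ p ^ (n - s)) ∧
      Subgroup.closure {x : G | ∃ y : G, y ^ p ^ n = x} = Subgroup.center G := by
  obtain ⟨M⟩ := CfsgLib.Core.Metacyclic.exists_mc hp hG hmc
  have hn' : M.n = n := Nat.pow_right_injective (Fact.out : p.Prime).two_le (M.card_commutator.symm.trans hGn)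
  subst hn'
  have key : ∀ t ≤ M.n, Subgroup.closure {x : G | ∃ y : G, y ^ p ^ t = x} = M.pre (M.tor (M.n - t)) := by
    intro t ht
    refine le_antisymm ((Subgroup.closure_le _).mpr ?_) ?_
    · rintro x ⟨y, rfl⟩
      rw [SetLike.mem_coe, M.mem_pre, M.mem_tor, M.w_pow]
      obtain ⟨q, hq, hqc⟩ := M.chi_cast y
      obtain ⟨W, hW⟩ := (CfsgLib.Core.pow_dvd_geo M.hp M.hp2 hq t (p ^ t)).mpr dvd_rfl
      rw [← hqc, ← CfsgLib.Core.natCast_geo, Nat.cast_smul_eq_nsmul, hW, smul_smul, ← mul_assoc,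
        ← pow_add, Nat.sub_add_cancel ht, mul_nsmul', (addOrderOf_dvd_iff_nsmul_eq_zero).mp]
      exact M.addOrderOf_dvd _
    · intro x hx
      obtain ⟨i, j, rfl⟩ := M.gen x
      rw [M.mem_pre, M.w_mk, M.mem_tor, Prod.ext_iff] at hx
      simp only [Prod.smul_fst, Prod.smul_snd] at hx
      simp only [Prod.fst_zero, Prod.snd_zero, nsmul_eq_mul, ← Nat.cast_mul,
        ZMod.natCast_eq_zero_iff] at hx
      have key : ∀ k : ℕ, p ^ M.n ∣ p ^ (M.n - t) * k → p ^ t ∣ k := fun k hk => by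
        rw [show p ^ M.n = p ^ (M.n - t) * p ^ t by rw [← pow_add, Nat.sub_add_cancel ht]] at hk
        exact (Nat.mul_dvd_mul_iff_left (pow_pos M.hp.pos _)).mp hk
      obtain ⟨i', rfl⟩ := key _ hx.1
      obtain ⟨j', rfl⟩ := (CfsgLib.Core.pow_dvd_geo M.hp M.hp2 M.cast_q t j).mp (key _ hx.2)
      exact mul_mem (Subgroup.subset_closure ⟨M.a ^ i', by rw [← pow_mul, mul_comm]⟩)
        (Subgroup.subset_closure ⟨M.b ^ j', by rw [← pow_mul, mul_comm]⟩)
  refine ⟨?_, ?_⟩
  · rw [key s hs, M.mem_pre, M.mem_tor, ← M.addOrderOf_le_iff, M.index_centralizer]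
  · rw [key M.n le_rfl, Nat.sub_self]
    ext x
    rw [M.mem_pre, M.mem_tor, pow_zero, one_smul, M.w_eq_zero_iff]

end Cfsg.Agent.S3882
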