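import Cfsg.Statements.S3883
import Cfsg.Agent.Lib.CoreMetacyclicCent

set_option autoImplicit false
open Cfsg

namespace Cfsg.Agent.S3883

/-- Let p be an odd prime and G a finite metacyclic p-group (G has a cyclic normal subgroup with cyclic quotient). Suppose G is non-abelian. Then an element g of G lies outside the Frattini subgroup if and only if its centralizer C_G(g) is abelian. -/
theorem result {G : Type*} [Group G] [Finite G] {p : ℕ} [Fact p.Prime] (hp : p ≠ 2) (hG : IsPGroup p G) (hmc : Cfsg.IsMetacyclic G) (hna : ¬ IsMulCommutative G) (g : G) :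
    g ∉ frattini G ↔ IsMulCommutative ↥(Subgroup.centralizer ({g} : Set G)) := by
  obtain ⟨M⟩ := CfsgLib.Core.Metacyclic.exists_mc hp hG hmc
  haveI := M.neZero
  haveI := M.finiteV
  have hn : 1 ≤ M.n := by
    by_contra h0
    refine hna (.of_comm fun x y => (M.commute_iff x y).mpr ?_)
    haveI : Subsingleton (ZMod (p ^ M.n)) := by
      rw [show M.n = 0 by omega, pow_zero]; infer_instance
    exact Subsingleton.elim _ _
  have hphi : frattini G = M.pre (M.tor (M.n - 1)) := by
    refine le_antisymm ?_ ?_
    · intro x hx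
      by_contra hnot
      -- a maximal subgroup avoiding x
      rw [M.mem_pre, M.mem_tor, Prod.ext_iff] at hnot
      set π : ZMod (p ^ M.n) := (p : ZMod (p ^ M.n))
      set P := AddSubgroup.zmultiples π
      have hPc := M.card_p_multiples hn
      have hkill : ∀ z ∈ P, p ^ (M.n - 1) • z = 0 := by
        rintro z ⟨k, rfl⟩
        show p ^ (M.n - 1) • (k • π) = 0
        rw [smul_comm, nsmul_eq_mul, ← Nat.cast_mul, ← pow_succ, Nat.sub_add_cancel hn,
          ZMod.natCast_self, smul_zero]
      have hlast : ∀ K : AddSubgroup M.V, Nat.card ↥K * p = Nat.card M.V → M.w x ∉ K → False := by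
        intro K hK hxK
        have hidx : (M.pre K).index = p := by
          have h := (M.pre K).card_mul_index
          rw [M.card_pre, M.card_G, ← M.card_V, ← hK] at h
          refine mul_left_cancel₀ (mul_pos (Nat.card_pos (α := ↥K))
            (Nat.card_pos (α := ↥(Subgroup.center G)))).ne' (h.trans ?_)
          ring
        have hco : IsCoatom (M.pre K) := by
          refine ⟨fun h => M.hp.ne_one (by rw [← hidx, h, Subgroup.index_top]), fun H hlt => ?_⟩
          by_contra hne
          have h1 := Subgroup.relIndex_mul_index hlt.le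
          rw [hidx] at h1
          rcases (Nat.dvd_prime M.hp).mp (Dvd.intro_left _ h1) with h2 | h2
          · exact hne (Subgroup.index_eq_one.mp h2)
          · rw [h2, mul_eq_right₀ M.hp.ne_zero, Subgroup.relIndex_eq_one] at h1
            exact hlt.not_ge h1
        exact hxK (M.mem_pre.mp (frattini_le_coatom hco hx))
      simp only [Prod.smul_fst, Prod.smul_snd, Prod.fst_zero, Prod.snd_zero] at hnot
      by_cases h1 : p ^ (M.n - 1) • (M.w x).1 = 0
      · refine hlast ((⊤ : AddSubgroup (ZMod (p ^ M.n))).prod P) ?_ fun hm => ?_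
        · rw [Nat.card_congr (AddSubgroup.prodEquiv _ P).toEquiv, Nat.card_prod, hPc,
            AddSubgroup.card_top, Nat.card_prod, mul_assoc, ← pow_succ, Nat.sub_add_cancel hn,
            Nat.card_zmod]
        · exact hnot ⟨h1, hkill _ hm.2⟩
      · refine hlast (P.prod (⊤ : AddSubgroup (ZMod (p ^ M.n)))) ?_ fun hm => ?_
        · rw [Nat.card_congr (AddSubgroup.prodEquiv P _).toEquiv, Nat.card_prod, hPc,
            AddSubgroup.card_top, Nat.card_prod, Nat.card_zmod, mul_right_comm, ← pow_succ,
            Nat.sub_add_cancel hn]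
        · exact h1 (hkill _ hm.1)
    · refine le_iInf₂ fun H hH => ?_
      obtain ⟨hnorm, hidx⟩ := CfsgLib.Core.index_of_coatom_pgroup hG hH
      haveI := hnorm
      have hpow : ∀ g : G, g ^ p ∈ H := fun g => hidx ▸ Subgroup.pow_index_mem H g
      intro y hy
      rw [← M.pre_img (M.center_le_of_pow_mem hn hpow), M.mem_pre]
      rw [M.mem_pre, M.mem_tor] at hy
      obtain ⟨z, hz⟩ : ∃ z : M.V, M.w y = (p : ZMod (p ^ M.n)) • z := by
        have hdiv : ∀ v : ZMod (p ^ M.n), p ^ (M.n - 1) • v = 0 → ∃ t, v = (p : ZMod (p ^ M.n)) * t := by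
          intro v hv
          rcases M.isUnit_or_dvd v with hu | ⟨t, ht⟩
          · exfalso
            rw [nsmul_eq_mul, hu.mul_left_eq_zero, ZMod.natCast_eq_zero_iff] at hv
            have := (Nat.pow_dvd_pow_iff_le_right M.hp.one_lt).mp hv
            omega
          · exact ⟨t, ht⟩
        obtain ⟨t1, ht1⟩ := hdiv _ (congrArg Prod.fst hy)
        obtain ⟨t2, ht2⟩ := hdiv _ (congrArg Prod.snd hy)
        exact ⟨(t1, t2), Prod.ext ht1 ht2⟩
      rw [hz]
      exact M.smul_p_mem_img hpow z
  have hCiff : IsMulCommutative ↥(Subgroup.centralizer ({g} : Set G)) ↔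
      addOrderOf (M.w g) = p ^ M.n := by
    rw [CfsgLib.Core.Metacyclic.comm_iff_card_le hp hG hmc, M.index_commutator]
    have h := (Subgroup.centralizer ({g} : Set G)).card_mul_index
    rw [M.index_centralizer, M.card_G, two_mul, pow_add] at h
    obtain ⟨i, hi, hoi⟩ := M.addOrderOf_eq_pow (M.w g)
    rw [hoi] at h ⊢
    constructor
    · intro hle
      refine le_antisymm (Nat.pow_le_pow_right M.hp.pos hi) ?_
      by_contra hcon
      push Not at hcon
      have hZ := Nat.card_pos (α := ↥(Subgroup.center G))
      have hc := Nat.card_pos (α := ↥(Subgroup.centralizer ({g} : Set G)))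
      nlinarith
    · intro he
      rw [he] at h
      refine le_of_eq (mul_right_cancel₀ (pow_ne_zero M.n M.hp.ne_zero) (h.trans ?_))
      ring
  rw [hCiff, hphi, M.mem_pre, M.mem_tor, ← M.addOrderOf_le_iff]
  obtain ⟨i, hi, hoi⟩ := M.addOrderOf_eq_pow (M.w g)
  rw [hoi, Nat.pow_le_pow_iff_right M.hp.one_lt, (Nat.pow_right_injective M.hp.two_le).eq_iff]
  omega

end Cfsg.Agent.S3883
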