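import Cfsg.Statements.S3884
import Cfsg.Agent.Lib.CoreMetacyclicCent

set_option autoImplicit false
open Cfsg

namespace Cfsg.Agent.S3884

/-- Let p be an odd prime and G a finite metacyclic p-group (G has a cyclic normal subgroup with cyclic quotient). Then G is the product of two cyclic subgroups with trivial intersection: there are cyclic subgroups A and B with A ∩ B = 1 and |A| · |B| = |G|. -/
theorem result {G : Type*} [Group G] [Finite G] {p : ℕ} [Fact p.Prime] (hp : p ≠ 2) (hG : IsPGroup p G) (hmc : Cfsg.IsMetacyclic G) : ∃ A B : Subgroup G, IsCyclic ↥A ∧ IsCyclic ↥B ∧ A ⊓ B = ⊥ ∧ Nat.card ↥A * Nat.card ↥B = Nat.card G := by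
  obtain ⟨M⟩ := CfsgLib.Core.Metacyclic.exists_mc hp hG hmc
  haveI := M.normalA
  set A := Subgroup.zpowers M.a with hA
  obtain ⟨m, hm⟩ := (IsPGroup.iff_orderOf.mp hG) M.a
  obtain ⟨β, hβ⟩ := (IsPGroup.iff_orderOf.mp (hG.to_quotient A)) (M.b : G ⧸ A)
  have hAmem : ∀ x, x ∈ A → ∃ i : ℕ, M.a ^ i = x := fun x hx =>
    (isOfFinOrder_of_finite M.a).mem_powers_iff_mem_zpowers.mpr hx
  have hbA : ∀ l : ℕ, M.b ^ l ∈ A ↔ p ^ β ∣ l := fun l => by
    rw [← QuotientGroup.eq_one_iff, QuotientGroup.mk_pow, ← orderOf_dvd_iff_pow_eq_one, hβ]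
  have hcardG : Nat.card G = p ^ β * p ^ m := by
    rw [A.card_eq_card_quotient_mul_card_subgroup, Nat.card_zpowers, hm, ← hβ]
    congr 1
    rw [← Nat.card_zpowers, eq_comm, Subgroup.card_eq_iff_eq_top, eq_top_iff]
    intro x _
    induction x using QuotientGroup.induction_on with
    | _ g =>
      obtain ⟨i, j, rfl⟩ := M.gen g
      refine Subgroup.mem_zpowers_iff.mpr ⟨(j : ℤ), ?_⟩
      rw [zpow_natCast, QuotientGroup.mk_mul, (QuotientGroup.eq_one_iff _).mpr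
        (pow_mem (Subgroup.mem_zpowers M.a) i), one_mul, QuotientGroup.mk_pow]
  have hpow : ∀ i j N : ℕ, (M.a ^ i * M.b ^ j) ^ N =
      M.a ^ (i * CfsgLib.Core.geo ((1 + M.s) ^ j) N) * M.b ^ (j * N) := by
    intro i j N
    induction N with
    | zero => simp
    | succ N ih =>
      rw [pow_succ', ih, M.mul_eq, Nat.add_comm N 1, CfsgLib.Core.geo_add, CfsgLib.Core.geo_one,
        pow_one]
      congr 2 <;> ring
  obtain ⟨T₀, hT₀⟩ := hAmem _ ((hbA (p ^ β)).mpr dvd_rfl)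
  obtain ⟨T, hTlt, hT⟩ : ∃ T < p ^ m, M.a ^ T = M.b ^ p ^ β :=
    ⟨T₀ % p ^ m, Nat.mod_lt _ (pow_pos M.hp.pos m), by rw [← hm, pow_mod_orderOf, hT₀]⟩
  have ha1 : ∀ k : ℕ, M.a ^ k = 1 ↔ (k : ZMod (p ^ m)) = 0 := fun k => by
    rw [ZMod.natCast_eq_zero_iff, ← hm, orderOf_dvd_iff_pow_eq_one]
  haveI : NeZero (p ^ m) := ⟨pow_ne_zero _ M.hp.ne_zero⟩
  have hunit : ∀ W : ℕ, ¬ p ∣ W → IsUnit (W : ZMod (p ^ m)) := fun W hW => by
    rw [ZMod.isUnit_iff_coprime]
    exact Nat.Coprime.pow_right _ ((M.hp.coprime_iff_not_dvd).mpr hW).symm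
  by_cases hI : p ^ β ∣ T
  · obtain ⟨T', rfl⟩ := hI
    obtain ⟨W, hW⟩ := (CfsgLib.Core.pow_dvd_geo M.hp M.hp2 (M.cast_qpow 1) β (p ^ β)).mpr dvd_rfl
    obtain ⟨u, hu⟩ : IsUnit (W : ZMod (p ^ m)) := by
      refine hunit W fun hd => ?_
      have h2 : p ^ (β + 1) ∣ p ^ β :=
        (CfsgLib.Core.pow_dvd_geo M.hp M.hp2 (M.cast_qpow 1) (β + 1) (p ^ β)).mp (by
          rw [hW, pow_succ]; exact Nat.mul_dvd_mul_left _ hd)
      have := (Nat.pow_dvd_pow_iff_le_right M.hp.one_lt).mp h2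
      omega
    set i := (-(T' : ZMod (p ^ m)) * (↑u⁻¹ : ZMod (p ^ m))).val
    set y := M.a ^ i * M.b ^ 1 with hy
    have hy1 : y ^ p ^ β = 1 := by
      rw [hy, hpow, one_mul, ← hT, ← pow_add, ha1, hW]
      push_cast [i, ZMod.natCast_zmod_val]
      rw [← hu]
      linear_combination (-(T' : ZMod (p ^ m)) * (p : ZMod (p ^ m)) ^ β) * u.inv_mul
    have hyA : ∀ l : ℕ, y ^ l ∈ A → y ^ l = 1 := by
      intro l hl
      rw [hy, hpow, one_mul, Subgroup.mul_mem_cancel_left _ (pow_mem (Subgroup.mem_zpowers _) _),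
        hbA] at hl
      obtain ⟨c, rfl⟩ := hl
      rw [pow_mul, hy1, one_pow]
    have hord : orderOf y = p ^ β := by
      refine Nat.dvd_antisymm (orderOf_dvd_of_pow_eq_one hy1) ((hbA _).mp ?_)
      have h1 := hpow i 1 (orderOf y)
      rw [← hy, pow_orderOf_eq_one, one_mul, eq_comm, mul_eq_one_iff_inv_eq] at h1
      rw [← h1]
      exact inv_mem (pow_mem (Subgroup.mem_zpowers _) _)
    refine ⟨A, Subgroup.zpowers y, inferInstance, inferInstance, ?_, ?_⟩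
    · rw [eq_bot_iff]
      rintro x ⟨hx1, hx2⟩
      obtain ⟨l, rfl⟩ := (isOfFinOrder_of_finite y).mem_powers_iff_mem_zpowers.mpr hx2
      exact Subgroup.mem_bot.mpr (hyA l hx1)
    · rw [Nat.card_zpowers, Nat.card_zpowers, hm, hord, hcardG, mul_comm]
  · have hT0 : T ≠ 0 := fun h => hI (h ▸ dvd_zero _)
    obtain ⟨γ, t, ht, rfl⟩ := Nat.exists_eq_pow_mul_and_not_dvd hT0 p M.hp.ne_one
    have hγβ : γ < β := by
      by_contra h
      exact hI (Dvd.dvd.mul_right (pow_dvd_pow p (not_lt.mp h)) t)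
    have hγm : γ < m := by
      by_contra h
      have h1 := Nat.le_of_dvd (Nat.pos_of_ne_zero hT0)
        (Dvd.dvd.mul_right (pow_dvd_pow p (not_lt.mp h)) t)
      omega
    obtain ⟨u, hu⟩ := hunit t ht
    have hs : p ^ (m - γ) ∣ M.s := by
      have h1 : M.b * M.a ^ (p ^ γ * t) * M.b⁻¹ = M.a ^ (p ^ γ * t) := by
        rw [hT, ← pow_succ' M.b, pow_succ, mul_inv_cancel_right]
      rw [← conj_pow, M.conj, ← pow_mul, Nat.add_mul, one_mul, pow_add, mul_eq_left,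
        ← orderOf_dvd_iff_pow_eq_one, hm] at h1
      have h2 : p ^ γ * p ^ (m - γ) ∣ p ^ γ * (t * M.s) := by
        rw [← pow_add, Nat.add_sub_cancel' hγm.le]
        convert h1 using 1
        ring
      have h3 := (Nat.mul_dvd_mul_iff_left (pow_pos M.hp.pos γ)).mp h2
      exact (Nat.Coprime.pow_left _ ((M.hp.coprime_iff_not_dvd).mpr ht)).dvd_mul_left.mp h3
    set x := (-(↑u⁻¹ : ZMod (p ^ m))).val
    set j := x * p ^ (β - γ) with hj
    set y := M.a ^ 1 * M.b ^ j with hy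
    have hbj : M.b ^ (j * p ^ γ) = M.a ^ (p ^ γ * t * x) := by
      rw [pow_mul M.a, hT, ← pow_mul, hj, mul_assoc, ← pow_add, Nat.sub_add_cancel hγβ.le, mul_comm]
    have hgeo : ((CfsgLib.Core.geo ((1 + M.s) ^ j) (p ^ γ) : ℕ) : ZMod (p ^ m)) =
        (p : ZMod (p ^ m)) ^ γ := by
      have hd : (p : ℤ) ^ (m - γ) ∣ ((((1 + M.s) ^ j : ℕ) : ℤ) - 1) := by
        rw [CfsgLib.Core.one_add_pow_eq]
        push_cast
        rw [add_sub_cancel_left]
        exact Dvd.dvd.mul_right (by exact_mod_cast hs) _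
      have h := CfsgLib.Core.geo_prime_pow M.hp M.hp2 (show 1 ≤ m - γ by omega) hd γ
      rw [add_sub_cancel, Nat.add_sub_cancel' hγm.le, ← CfsgLib.Core.natCast_geo] at h
      have h' : ((((CfsgLib.Core.geo ((1 + M.s) ^ j) (p ^ γ) : ℕ) : ℤ) - (p : ℤ) ^ γ : ℤ) :
          ZMod (p ^ m)) = 0 := by
        rw [ZMod.intCast_zmod_eq_zero_iff_dvd]
        push_cast
        exact_mod_cast h
      push_cast at h'
      exact sub_eq_zero.mp h'
    have hy1 : y ^ p ^ γ = 1 := by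
      rw [hy, hpow, hbj, ← pow_add, ha1, Nat.cast_add, Nat.cast_mul, hgeo]
      push_cast [x, ZMod.natCast_zmod_val]
      rw [← hu]
      linear_combination (-(p : ZMod (p ^ m)) ^ γ) * u.mul_inv
    have hyB : ∀ l : ℕ, y ^ l ∈ Subgroup.zpowers M.b → p ^ γ ∣ l := by
      intro l hl
      rw [hy, hpow, one_mul,
        Subgroup.mul_mem_cancel_right _ (pow_mem (Subgroup.mem_zpowers _) _)] at hl
      obtain ⟨k, hk⟩ := (isOfFinOrder_of_finite M.b).mem_powers_iff_mem_zpowers.mpr hl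
      simp only at hk
      have hkA : p ^ β ∣ k := by rw [← hbA, hk]; exact pow_mem (Subgroup.mem_zpowers _) _
      obtain ⟨k', rfl⟩ := hkA
      rw [pow_mul, ← hT, ← pow_mul, pow_eq_pow_iff_modEq, hm] at hk
      have h1 := hk.of_dvd (pow_dvd_pow p hγm.le)
      have h2 : p ^ γ ∣ CfsgLib.Core.geo ((1 + M.s) ^ j) l := by
        refine Nat.modEq_zero_iff_dvd.mp (h1.symm.trans (Nat.modEq_zero_iff_dvd.mpr ?_))
        exact Dvd.dvd.mul_right (Dvd.dvd.mul_right dvd_rfl _) _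
      exact (CfsgLib.Core.pow_dvd_geo M.hp M.hp2 (M.cast_qpow j) γ l).mp h2
    have hordy : orderOf y = p ^ γ :=
      Nat.dvd_antisymm (orderOf_dvd_of_pow_eq_one hy1)
        (hyB _ (by rw [pow_orderOf_eq_one]; exact one_mem _))
    have hordb : orderOf M.b = p ^ β * p ^ (m - γ) := by
      have hl : ∀ l : ℕ, M.b ^ (p ^ β * l) = 1 ↔ p ^ (m - γ) ∣ l := by
        intro l
        rw [pow_mul, ← hT, ← pow_mul, ← orderOf_dvd_iff_pow_eq_one, hm,
          show p ^ m = p ^ γ * p ^ (m - γ) by rw [← pow_add, Nat.add_sub_cancel' hγm.le],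
          mul_assoc, Nat.mul_dvd_mul_iff_left (pow_pos M.hp.pos γ)]
        exact (Nat.Coprime.pow_left _ ((M.hp.coprime_iff_not_dvd).mpr ht)).dvd_mul_left
      refine Nat.dvd_antisymm (orderOf_dvd_of_pow_eq_one ((hl _).mpr dvd_rfl)) ?_
      obtain ⟨l, hl'⟩ := (hbA _).mp (by rw [pow_orderOf_eq_one]; exact one_mem _ :
        M.b ^ orderOf M.b ∈ A)
      rw [hl']
      exact Nat.mul_dvd_mul_left _ ((hl l).mp (by rw [← hl', pow_orderOf_eq_one]))
    refine ⟨Subgroup.zpowers y, Subgroup.zpowers M.b, inferInstance, inferInstance, ?_, ?_⟩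
    · rw [eq_bot_iff]
      rintro z ⟨hz1, hz2⟩
      obtain ⟨l, rfl⟩ := (isOfFinOrder_of_finite y).mem_powers_iff_mem_zpowers.mpr hz1
      obtain ⟨c, rfl⟩ := hyB l hz2
      show y ^ (p ^ γ * c) ∈ (⊥ : Subgroup G)
      rw [pow_mul, hy1, one_pow]
      exact one_mem _
    · rw [Nat.card_zpowers, Nat.card_zpowers, hordy, hordb, hcardG, mul_left_comm, ← pow_add,
        Nat.add_sub_cancel' hγm.le]

end Cfsg.Agent.S3884
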