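import Cfsg.Statements.S3886
import Cfsg.Agent.Lib.CoreMetacyclicCent

set_option autoImplicit false
open Cfsg

namespace Cfsg.Agent.S3886

/-- Let p be an odd prime and G a finite metacyclic p-group (G has a cyclic normal subgroup with cyclic quotient). Then the largest value of |R| · |Z(R)| over subgroups R of G is |G : G'|², and the subgroups attaining it (the centrally large subgroups) are exactly the non-abelian subgroups together with the maximal abelian subgroups of G. -/
theorem result {G : Type*} [Group G] [Finite G] {p : ℕ} [Fact p.Prime] (hp : p ≠ 2) (hG : IsPGroup p G) (hmc : Cfsg.IsMetacyclic G) : Cfsg.maxCentralProduct G = (commutator G).index ^ 2 ∧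
    ∀ R : Subgroup G, Cfsg.IsCentrallyLarge R ↔ (¬ IsMulCommutative ↥R ∨ Maximal (fun K : Subgroup G => IsMulCommutative ↥K) R) := by
  have hiff := CfsgLib.Core.Metacyclic.comm_iff_card_le hp hG hmc
  obtain ⟨M⟩ := CfsgLib.Core.Metacyclic.exists_mc hp hG hmc
  set I := (commutator G).index with hI
  have hcomm : ∀ R : Subgroup G, IsMulCommutative ↥R →
      Nat.card ↥(Subgroup.center ↥R) = Nat.card ↥R := by
    intro R hR
    have : Subgroup.center ↥R = ⊤ := eq_top_iff.mpr fun x _ =>
      Subgroup.mem_center_iff.mpr fun y => hR.is_comm.comm y x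
    rw [this, Subgroup.card_top]
  have hmaxiff : ∀ L : Subgroup G, IsMulCommutative ↥L →
      (Maximal (fun K : Subgroup G => IsMulCommutative ↥K) L ↔ Nat.card ↥L = I) := by
    refine fun L hL => ⟨M.card_of_maximal, fun h => ⟨hL, fun K hK hLK => ?_⟩⟩
    exact (Subgroup.eq_of_le_of_card_ge hLK (by rw [h]; exact (hiff K).mp hK)).ge
  have hnon : ∀ R : Subgroup G, ¬ IsMulCommutative ↥R →
      Nat.card ↥R * Nat.card ↥(Subgroup.center ↥R) = I ^ 2 := by
    intro R hR
    obtain ⟨MR⟩ := CfsgLib.Core.Metacyclic.exists_mc hp (hG.to_subgroup R)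
      (CfsgLib.Core.Metacyclic.isMetacyclic_subgroup hmc R)
    rw [hI, ← CfsgLib.Core.Metacyclic.index_commutator_of_not_comm hp hG hmc hR,
      MR.index_commutator, MR.card_G]
    ring
  have hab : ∀ R : Subgroup G, IsMulCommutative ↥R →
      Nat.card ↥R * Nat.card ↥(Subgroup.center ↥R) ≤ I ^ 2 := by
    intro R hR
    rw [hcomm R hR, sq]
    exact Nat.mul_self_le_mul_self ((hiff R).mp hR)
  have hmax : Cfsg.maxCentralProduct G = I ^ 2 := by
    refine IsGreatest.csSup_eq ⟨?_, ?_⟩
    · have hbot : IsMulCommutative ↥(⊥ : Subgroup G) :=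
        .of_comm fun x y => Subsingleton.elim _ _
      obtain ⟨L, -, hL⟩ := Finite.exists_le_maximal
        (p := fun K : Subgroup G => IsMulCommutative ↥K) hbot
      exact ⟨L, by rw [hcomm L hL.1, (hmaxiff L hL.1).mp hL, sq]⟩
    · rintro k ⟨S, rfl⟩
      by_cases hS : IsMulCommutative ↥S
      · exact hab S hS
      · exact (hnon S hS).le
  refine ⟨hmax, fun R => ?_⟩
  unfold Cfsg.IsCentrallyLarge
  rw [hmax]
  by_cases hR : IsMulCommutative ↥R
  · rw [hcomm R hR, sq, Nat.mul_self_inj, ← hmaxiff R hR]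
    exact ⟨fun h => Or.inr h, fun h => h.resolve_left (not_not.mpr hR)⟩
  · exact iff_of_true (hnon R hR) (Or.inl hR)

end Cfsg.Agent.S3886
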