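import Cfsg.Statements.S3887
import Cfsg.Agent.Lib.CoreMetacyclicCent

set_option autoImplicit false
open Cfsg

namespace Cfsg.Agent.S3887

/-- Let p be an odd prime and G a finite metacyclic p-group (G has a cyclic normal subgroup with cyclic quotient). Then a subgroup R of G maximizes |R| · |C_G(R)| over all subgroups of G if and only if R contains the center of G. -/
theorem result {G : Type*} [Group G] [Finite G] {p : ℕ} [Fact p.Prime] (hp : p ≠ 2) (hG : IsPGroup p G) (hmc : Cfsg.IsMetacyclic G) (R : Subgroup G) : Cfsg.IsCentralizerLarge R ↔ Subgroup.center G ≤ R := by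
  obtain ⟨M⟩ := CfsgLib.Core.Metacyclic.exists_mc hp hG hmc
  set N := Nat.card G * Nat.card ↥(Subgroup.center G) with hN
  have hle : ∀ S : Subgroup G, Nat.card ↥S * Nat.card ↥(Subgroup.centralizer (S : Set G)) ≤ N ∧
      (Nat.card ↥S * Nat.card ↥(Subgroup.centralizer (S : Set G)) = N → Subgroup.center G ≤ S) := by
    intro S
    have hc : Subgroup.centralizer (M.pre (M.img S) : Set G) = Subgroup.centralizer (S : Set G) := by
      rw [M.centralizer_eq, M.centralizer_eq, M.img_pre]
    have h := M.card_mul_card_centralizer (M.center_le_pre (M.img S))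
    rw [hc] at h
    refine ⟨hN ▸ h ▸ Nat.mul_le_mul_right _ (Subgroup.card_le_of_le (M.le_pre_img S)), fun he => ?_⟩
    rw [hN, ← h] at he
    have := mul_right_cancel₀ (Nat.card_pos (α := ↥(Subgroup.centralizer (S : Set G)))).ne' he
    exact (M.center_le_pre (M.img S)).trans
      (Subgroup.eq_of_le_of_card_ge (M.le_pre_img S) this.ge).ge
  have hmax : Cfsg.maxCentralizerProduct G = N := by
    refine IsGreatest.csSup_eq ⟨⟨⊤, ?_⟩, ?_⟩
    · exact M.card_mul_card_centralizer le_top
    · rintro k ⟨S, rfl⟩; exact (hle S).1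
  unfold Cfsg.IsCentralizerLarge
  rw [hmax]
  exact ⟨(hle R).2, fun h => M.card_mul_card_centralizer h⟩

end Cfsg.Agent.S3887
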