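import Cfsg.Statements.S3897
import Cfsg.Agent.Lib.CoreClassCount

set_option autoImplicit false
open Cfsg

namespace Cfsg.Agent.S3897

/-- Let p be an odd prime and G a finite group with Sylow p-subgroup P, and write k_p(G) for the number of conjugacy classes of G consisting of p-elements (elements of p-power order, the identity included). Then k_p(G) > (p + 1)|P|/(2p) if and only if G has a normal p-complement and P is abelian. -/
theorem result {G : Type*} [Group G] [Finite G] {p : ℕ} [Fact p.Prime] (hp : p ≠ 2) (P : Sylow p G) :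
    (p + 1) * Nat.card ↥(P : Subgroup G) < 2 * p * Nat.card {c : ConjClasses G // ∀ x ∈ c.carrier, ∃ k : ℕ, orderOf x = p ^ k} ↔
      Cfsg.HasNormalPComplement p G ∧ IsMulCommutative ↥(P : Subgroup G) := by
  have hpp := (Fact.out : p.Prime)
  have e : Nat.card {c : ConjClasses G // ∀ x ∈ c.carrier, ∃ k : ℕ, orderOf x = p ^ k} =
      CfsgLib.Core.classCount {p} G := by
    refine Nat.card_congr (Equiv.subtypeEquivRight fun c => forall₂_congr fun x _ => ?_)
    constructor
    · rintro ⟨k, hk⟩ r hr hd
      rw [hk] at hd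
      exact Finset.mem_singleton.mpr ((Nat.prime_dvd_prime_iff_eq hr hpp).mp (hr.dvd_of_dvd_pow hd))
    · intro h
      obtain ⟨i, hi⟩ := (CfsgLib.Core.isPiNat_singleton_iff hpp (orderOf_pos x).ne').mp
        (show CfsgLib.Core.IsPiNat {p} (orderOf x) from fun r hr hd => by simpa using h r hr hd)
      exact ⟨i, hi⟩
  rw [e]
  refine ⟨CfsgLib.Core.npc_of_many_classes P, ?_⟩
  rintro ⟨hnpc, hab⟩
  have h1 := CfsgLib.Core.card_sylow_le_classCount (hab := hab) P hnpc
  have h2 : 3 ≤ p := by
    have := hpp.two_le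
    omega
  calc (p + 1) * Nat.card ↥(P : Subgroup G) < 2 * p * Nat.card ↥(P : Subgroup G) :=
        Nat.mul_lt_mul_of_pos_right (by omega) Nat.card_pos
    _ ≤ 2 * p * CfsgLib.Core.classCount {p} G := Nat.mul_le_mul_left _ h1

end Cfsg.Agent.S3897
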