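import Cfsg.Statements.S3899
import Cfsg.Agent.Lib.CoreClassCount
import Cfsg.Agent.Lib.CoreSZ

set_option autoImplicit false
open Cfsg
open scoped commutatorElement IsMulCommutative

namespace Cfsg.Agent.S3899

/-- Let π be a finite non-empty set of odd primes with smallest member p and G a finite group. Write k_π(G) for the number of conjugacy classes of G consisting of π-elements (elements all of whose order's prime divisors lie in π) and |G|_π for the π-part of the order of G. If k_π(G) > (p + 1)|G|_π/(2p), then G has a normal π-complement (a normal subgroup of order prime to π whose index is a π-number) and an abelian Hall π-subgroup. -/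
theorem result {G : Type*} [Group G] [Finite G] (π : Finset ℕ) (hπ : ∀ r ∈ π, r.Prime) (h2 : 2 ∉ π) (p : ℕ) (hp : p ∈ π)
    (hmin : ∀ r ∈ π, p ≤ r) (hk : (p + 1) * π.prod (fun r => r ^ (Nat.card G).factorization r) < 2 * p * Nat.card {c : ConjClasses G // ∀ x ∈ c.carrier, ∀ r : ℕ, r.Prime → r ∣ orderOf x → r ∈ π}) :
    (∃ N : Subgroup G, N.Normal ∧ (∀ r : ℕ, r.Prime → r ∣ Nat.card ↥N → r ∉ π) ∧ ∀ r : ℕ, r.Prime → r ∣ N.index → r ∈ π) ∧ ∃ H : Subgroup G, Cfsg.IsPiHall (↑π : Set ℕ) H ∧ IsMulCommutative ↥H := by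
  classical
  set v := (Nat.card G).factorization with hv
  have hr : ∀ r ∈ π, ∃ N : Subgroup G, N.Normal ∧ N.index = r ^ v r ∧ commutator G ≤ N := by
    intro r hr
    haveI := Fact.mk (hπ r hr)
    obtain ⟨P⟩ : Nonempty (Sylow r G) := inferInstance
    have h1 := (CfsgLib.Core.classCount_le π hπ G).2 r hr
    set A := ∏ s ∈ π.erase r, s ^ v s
    set B := r ^ v r
    set k := CfsgLib.Core.classCount {r} G
    have hA : 0 < A := Finset.prod_pos fun s hs => pow_pos (hπ s (Finset.mem_of_mem_erase hs)).pos _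
    have hrw : π.prod (fun s => s ^ v s) = B * A := (Finset.mul_prod_erase π _ hr).symm
    have h2 : (p + 1) * B < 2 * p * k := by
      refine Nat.lt_of_mul_lt_mul_right (a := A) ?_
      calc (p + 1) * B * A = (p + 1) * π.prod (fun s => s ^ v s) := by rw [hrw, mul_assoc]
        _ < _ := hk
        _ ≤ 2 * p * (k * A) := Nat.mul_le_mul_left _ h1
        _ = 2 * p * k * A := by ring
    have hpr := hmin r hr
    have h3 : (r + 1) * B < 2 * r * k := by
      refine Nat.lt_of_mul_lt_mul_left (a := p) ?_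
      calc p * ((r + 1) * B) ≤ r * ((p + 1) * B) := by nlinarith
        _ < r * (2 * p * k) := Nat.mul_lt_mul_of_pos_left h2 (hπ r hr).pos
        _ = p * (2 * r * k) := by ring
    obtain ⟨hnpc, hab⟩ := CfsgLib.Core.npc_of_many_classes P (by rwa [P.card_eq_multiplicity])
    haveI := hab
    obtain ⟨Q, N, hN, hc⟩ := hnpc
    haveI : IsMulCommutative (Q : Subgroup G) :=
      ⟨⟨fun x y => (Sylow.equiv Q P).injective (by rw [map_mul, map_mul]; exact mul_comm' _ _)⟩⟩
    refine ⟨N, hN, ?_, ?_⟩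
    · rw [hc.symm.index_eq_card]; exact Q.card_eq_multiplicity
    · haveI := hN
      have htop := hc.sup_eq_top
      rw [commutator_def, Subgroup.commutator_le]
      intro x _ y _
      have hmem : ∀ z : G, ∃ q : (Q : Subgroup G), QuotientGroup.mk' N z = QuotientGroup.mk' N (q : G) := by
        intro z
        have hz : z ∈ N ⊔ (Q : Subgroup G) := htop ▸ Subgroup.mem_top z
        rw [← SetLike.mem_coe, Subgroup.normal_mul] at hz
        obtain ⟨n, hn, q, hq, rfl⟩ := hz
        exact ⟨⟨q, hq⟩, by rw [map_mul, show QuotientGroup.mk' N n = 1 from (QuotientGroup.eq_one_iff n).mpr hn, one_mul]⟩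
      rw [← QuotientGroup.eq_one_iff]
      show QuotientGroup.mk' N ⁅x, y⁆ = 1
      obtain ⟨a, ha⟩ := hmem x
      obtain ⟨b, hb⟩ := hmem y
      rw [map_commutatorElement, commutatorElement_eq_one_iff_mul_comm, ha, hb, ← map_mul,
        ← map_mul, ← Subgroup.coe_mul, ← Subgroup.coe_mul, mul_comm' a b]
  have key : ∀ T : Finset ℕ, T ⊆ π → ∃ N : Subgroup G, N.Normal ∧
      N.index = ∏ r ∈ T, r ^ v r ∧ commutator G ≤ N := by
    intro T
    induction T using Finset.induction with
    | empty => intro _; exact ⟨⊤, inferInstance, by simp, le_top⟩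
    | insert a T ha ih =>
      intro hT
      obtain ⟨N, hN, hNi, hNc⟩ := ih fun x hx => hT (Finset.mem_insert_of_mem hx)
      obtain ⟨M, hM, hMi, hMc⟩ := hr a (hT (Finset.mem_insert_self a T))
      haveI := hN
      haveI := hM
      refine ⟨M ⊓ N, inferInstance, ?_, le_inf hMc hNc⟩
      rw [CfsgLib.Core.index_inf_of_coprime, hMi, hNi, Finset.prod_insert ha]
      rw [hMi, hNi]
      exact Nat.Coprime.prod_right fun s hs => CfsgLib.Core.coprime_prime_pow
        (hπ a (hT (Finset.mem_insert_self a T))) (hπ s (hT (Finset.mem_insert_of_mem hs)))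
        (fun e => ha (e ▸ hs)) _ _
  obtain ⟨N, hN, hNi, hNc⟩ := key π (subset_refl π)
  haveI := hN
  have hindex : ∀ r : ℕ, r.Prime → r ∣ N.index → r ∈ π := by
    intro r hr' hd
    rw [hNi] at hd
    obtain ⟨s, hs, hsd⟩ := (Prime.dvd_finsetProd_iff hr'.prime _).mp hd
    rw [(Nat.prime_dvd_prime_iff_eq hr' (hπ s hs)).mp (hr'.dvd_of_dvd_pow hsd)]
    exact hs
  have hcardN : ∀ r : ℕ, r.Prime → r ∣ Nat.card N → r ∉ π := by
    intro r hr' hd hrπ
    have h1 : r ^ v r ∣ N.index := hNi ▸ Finset.dvd_prod_of_mem (fun s => s ^ v s) hrπ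
    have h2 : r ^ (v r + 1) ∣ Nat.card G := by
      rw [← N.card_mul_index, pow_succ']
      exact mul_dvd_mul hd h1
    have := (hr'.pow_dvd_iff_le_factorization Nat.card_pos.ne').mp h2
    rw [hv] at this
    omega
  refine ⟨⟨N, hN, hcardN, hindex⟩, ?_⟩
  have hcop : (Nat.card N).Coprime N.index := Nat.coprime_of_dvd fun r hr' h1 h2' =>
    hcardN r hr' h1 (hindex r hr' h2')
  obtain ⟨H, hH⟩ := Subgroup.exists_right_complement'_of_coprime hcop
  have hHc : Nat.card H = N.index := hH.symm.index_eq_card.symm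
  refine ⟨H, ⟨fun r hr' hd => hindex r hr' (hHc ▸ hd), fun r hr' hrπ hd => ?_⟩, ?_⟩
  · rw [hH.index_eq_card] at hd
    exact hcardN r hr' hd hrπ
  · refine ⟨⟨fun a b => ?_⟩⟩
    have h : ⁅(a : G), (b : G)⁆ ∈ N ⊓ H := ⟨hNc (Subgroup.commutator_mem_commutator
      (Subgroup.mem_top _) (Subgroup.mem_top _)), H.mul_mem (H.mul_mem (H.mul_mem a.2 b.2)
      (H.inv_mem a.2)) (H.inv_mem b.2)⟩
    rw [disjoint_iff.mp hH.disjoint, Subgroup.mem_bot, commutatorElement_eq_one_iff_mul_comm] at h
    exact Subtype.ext h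

end Cfsg.Agent.S3899
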