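import Cfsg.Statements.S3903
import Mathlib.GroupTheory.Transfer
import Cfsg.Agent.Lib.CoreCoprime
import Cfsg.Agent.Lib.CoreBasic
import Cfsg.Agent.Lib.CoreSZ

set_option autoImplicit false
open Cfsg
open scoped Pointwise

namespace Cfsg.Agent.S3903

/-- Let N be a proper normal subgroup of the finite group G such that every element x of G outside N has prime power order and has centralizer C_G(x) a maximal subgroup of G. Then N is solvable. -/
theorem result {G : Type*} [Group G] [Finite G] (N : Subgroup G) [N.Normal] (hN : N ≠ ⊤)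
    (h : ∀ x : G, x ∉ N → IsPrimePow (orderOf x) ∧ IsCoatom (Subgroup.centralizer ({x} : Set G))) : Group.IsSolvable ↥N := by
  classical
  haveI : Fintype G := Fintype.ofFinite G
  obtain ⟨x₀, hx₀⟩ : ∃ x, x ∉ N := by
    by_contra hc
    push Not at hc
    exact hN (eq_top_iff.2 fun x _ => hc x)
  obtain ⟨p, k, hp, hk0, hpk⟩ := (isPrimePow_nat_iff _).1 (h x₀ hx₀).1
  haveI := Fact.mk hp
  by_cases hGp : IsPGroup p G
  · haveI := (hGp.to_subgroup N).isNilpotent
    infer_instance
  -- a centraliser of an element outside `N` is a group of prime power order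
  have hcent : ∀ y, y ∉ N → ∀ q : ℕ, q.Prime → q ∣ orderOf y →
      IsPGroup q (Subgroup.centralizer ({y} : Set G)) := by
    intro y hy q hq hqy
    haveI := Fact.mk hq
    refine IsPGroup.of_card (n := (Nat.card (Subgroup.centralizer ({y} : Set G))).primeFactorsList.length)
      (Nat.eq_prime_pow_of_unique_prime_dvd Nat.card_pos.ne' fun {r} hr hrd => ?_)
    haveI := Fact.mk hr
    by_contra hrq
    obtain ⟨⟨z, hz⟩, hzo⟩ := exists_prime_orderOf_dvd_card'
      (G := Subgroup.centralizer ({y} : Set G)) r hrd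
    have hzo' : orderOf z = r := (Subgroup.orderOf_coe ⟨z, hz⟩).trans hzo
    obtain ⟨q', e, hq', -, he⟩ := (isPrimePow_nat_iff _).1 (h y hy).1
    have hqq : q = q' := (Nat.prime_dvd_prime_iff_eq hq hq').1 (hq.dvd_of_dvd_pow (he ▸ hqy))
    subst hqq
    have hc : Commute y z := (Subgroup.mem_centralizer_singleton_iff.1 hz).symm
    have hcop : (orderOf y).Coprime (orderOf z) := by
      rw [hzo', ← he]
      exact ((Nat.coprime_primes hq hr).2 fun h' => hrq h'.symm).pow_left e
    have hw : y * z ∉ N := by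
      intro hwN
      refine hy ?_
      obtain ⟨m, hm⟩ := exists_pow_eq_self_of_coprime (x := y) (n := r) (by rw [← hzo']; exact hcop.symm)
      have h1 : (y * z) ^ r ∈ N := pow_mem hwN r
      rw [hc.mul_pow, ← hzo', pow_orderOf_eq_one, mul_one, hzo'] at h1
      exact hm ▸ pow_mem h1 m
    obtain ⟨s, f, hs, -, hf⟩ := (isPrimePow_nat_iff _).1 (h (y * z) hw).1
    rw [hc.orderOf_mul_eq_mul_orderOf_of_coprime hcop, hzo'] at hf
    have h1 : r = s := (Nat.prime_dvd_prime_iff_eq hr hs).1 (hr.dvd_of_dvd_pow (hf ▸ dvd_mul_left r _))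
    have h2 : q = s := (Nat.prime_dvd_prime_iff_eq hq hs).1
      (hq.dvd_of_dvd_pow (hf ▸ hqy.mul_right r))
    exact hrq (h1.trans h2.symm)
  have hdvd0 : p ∣ orderOf x₀ := by
    rw [← hpk]
    exact dvd_pow_self p (by omega)
  -- the centraliser is a Sylow subgroup
  have hsyl : ∀ y, y ∉ N → p ∣ orderOf y →
      ∃ R : Sylow p G, (R : Subgroup G) = Subgroup.centralizer ({y} : Set G) := by
    intro y hy hpy
    obtain ⟨R, hR⟩ := (hcent y hy p hp hpy).exists_le_sylow
    refine ⟨R, ((h y hy).2.le_iff.1 hR).resolve_left fun ht => hGp ?_⟩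
    exact (R.isPGroup'.to_le ht.ge).of_equiv Subgroup.topEquiv
  obtain ⟨P, hP⟩ := hsyl x₀ hx₀ hdvd0
  have hmax : IsCoatom (P : Subgroup G) := hP ▸ (h x₀ hx₀).2
  by_cases hPn : (P : Subgroup G).Normal
  · haveI := hPn
    haveI : Group.IsNilpotent (P : Subgroup G) := P.isPGroup'.isNilpotent
    obtain ⟨q, hq, hqi⟩ := Nat.exists_prime_and_dvd
      (fun e => hmax.1 (Subgroup.index_eq_one.1 e) : (P : Subgroup G).index ≠ 1)
    haveI := Fact.mk hq
    obtain ⟨z, hz⟩ := exists_prime_orderOf_dvd_card' (G := G ⧸ (P : Subgroup G)) q hqi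
    have htop : (Subgroup.zpowers z).comap (QuotientGroup.mk' (P : Subgroup G)) = ⊤ := by
      refine (hmax.le_iff.1 fun g hg => ?_).resolve_right fun e => ?_
      · show QuotientGroup.mk' (P : Subgroup G) g ∈ Subgroup.zpowers z
        rw [show QuotientGroup.mk' (P : Subgroup G) g = 1 from (QuotientGroup.eq_one_iff g).2 hg]
        exact one_mem _
      · obtain ⟨g, rfl⟩ := QuotientGroup.mk'_surjective (P : Subgroup G) z
        have hg : g ∈ (P : Subgroup G) := e ▸ Subgroup.mem_zpowers _
        rw [show QuotientGroup.mk' (P : Subgroup G) g = 1 from (QuotientGroup.eq_one_iff g).2 hg,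
          orderOf_one] at hz
        exact hq.ne_one hz.symm
    haveI : IsCyclic (G ⧸ (P : Subgroup G)) := ⟨z, fun w => by
      obtain ⟨g, rfl⟩ := QuotientGroup.mk'_surjective (P : Subgroup G) w
      exact (htop ▸ Subgroup.mem_top g : g ∈ (Subgroup.zpowers z).comap _)⟩
    letI : CommGroup (G ⧸ (P : Subgroup G)) := IsCyclic.commGroup
    haveI : Group.IsSolvable G := Group.isSolvable_of_ker_le_range (P : Subgroup G).subtype
      (QuotientGroup.mk' (P : Subgroup G)) (by simp)
    infer_instance
  have hNP : Subgroup.normalizer ((P : Subgroup G) : Set G) = (P : Subgroup G) :=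
    (hmax.le_iff.1 Subgroup.le_normalizer).resolve_left fun e =>
      hPn (Subgroup.normalizer_eq_top_iff.1 e)
  by_cases hNle : N ≤ (P : Subgroup G)
  · haveI : Group.IsNilpotent N := (P.isPGroup'.to_le hNle).isNilpotent
    infer_instance
  have hsup : (P : Subgroup G) ⊔ N = ⊤ :=
    (hmax.le_iff.1 (le_sup_left : (P : Subgroup G) ≤ (P : Subgroup G) ⊔ N)).resolve_right
      fun e => hNle (e ▸ le_sup_right)
  have hpN : ∀ y, y ∉ N → p ∣ orderOf y := by
    intro y hy
    obtain ⟨q, e, hq, he0, he⟩ := (isPrimePow_nat_iff _).1 (h y hy).1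
    rw [← he]
    suffices q = p by subst this; exact dvd_pow_self q (by omega)
    by_contra hqp
    obtain ⟨a, ha, b, hb, hab⟩ :=
      Subgroup.mem_sup_of_normal_right.1 (hsup ▸ Subgroup.mem_top y : y ∈ (P : Subgroup G) ⊔ N)
    refine hy ((QuotientGroup.eq_one_iff y).1 (orderOf_eq_one_iff.1 ?_))
    obtain ⟨m, hm⟩ := IsPGroup.iff_orderOf.1 P.isPGroup' ⟨a, ha⟩
    have h1 : orderOf (QuotientGroup.mk' N a) ∣ p ^ m := by
      rw [← hm, ← Subgroup.orderOf_coe]
      exact orderOf_map_dvd _ _
    have h2 : QuotientGroup.mk' N y = QuotientGroup.mk' N a := by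
      rw [← hab, map_mul, show QuotientGroup.mk' N b = 1 from (QuotientGroup.eq_one_iff b).2 hb, mul_one]
    refine Nat.eq_one_of_dvd_coprimes (((Nat.coprime_primes hq hp).2 hqp).pow e m) ?_ ?_
    · rw [he]; exact orderOf_map_dvd (QuotientGroup.mk' N) y
    · show orderOf (QuotientGroup.mk' N y) ∣ p ^ m
      rw [h2]; exact h1
  -- counting
  set P₀ : Subgroup G := (P : Subgroup G) ⊓ N with hP₀
  have hcentral : ∀ z, z ∈ (P : Subgroup G) → z ∉ N → ∀ w ∈ (P : Subgroup G), z * w = w * z := by
    let Zs : Set G := {z | z ∈ (P : Subgroup G) ∧ z ∉ N ∧ ∀ w ∈ (P : Subgroup G), z * w = w * z}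
    let Ps : Set G := {z | z ∈ (P : Subgroup G) ∧ z ∉ N}
    have hZP : Zs ⊆ Ps := fun z hz => ⟨hz.1, hz.2.1⟩
    let φ : (G ⧸ (P : Subgroup G)) × Zs → {y : G // y ∉ N} := fun c =>
      ⟨c.1.out * (c.2 : G) * c.1.out⁻¹, fun hm => c.2.2.2.1 (by
        have := Subgroup.Normal.conj_mem inferInstance _ hm c.1.out⁻¹
        simpa [mul_assoc] using this)⟩
    have hφ : Function.Surjective φ := by
      rintro ⟨y, hy⟩
      obtain ⟨R, hR⟩ := hsyl y hy (hpN y hy)
      obtain ⟨g, hg⟩ := MulAction.exists_smul_eq G P R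
      have hg' : MulAut.conj g • (P : Subgroup G) = (R : Subgroup G) := by
        rw [← hg, Sylow.coe_subgroup_smul]
      have hyR : y ∈ (R : Subgroup G) := hR ▸ Subgroup.mem_centralizer_singleton_iff.2 rfl
      set c : G ⧸ (P : Subgroup G) := (g : G ⧸ (P : Subgroup G))
      have hc : MulAut.conj c.out • (P : Subgroup G) = (R : Subgroup G) := by
        obtain ⟨u, hu⟩ := QuotientGroup.mk_out_eq_mul (P : Subgroup G) g
        rw [show c.out = g * (u : G) from hu, ← CfsgLib.Core.conj_smul_conj_smul,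
          CfsgLib.Core.conj_smul_of_mem_normalizer (Subgroup.le_normalizer u.2), hg']
      refine ⟨(c, ⟨c.out⁻¹ * y * c.out, ?_, ?_, ?_⟩), Subtype.ext (by show c.out * _ * _ = y; group)⟩
      · exact CfsgLib.Core.mem_conj_smul.1 (hc.symm ▸ hyR)
      · intro hm
        have := Subgroup.Normal.conj_mem inferInstance _ hm c.out
        exact hy (by simpa [mul_assoc] using this)
      · intro w hw
        have hw' : c.out * w * c.out⁻¹ ∈ (R : Subgroup G) := by
          rw [← hc, CfsgLib.Core.mem_conj_smul]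
          simpa [mul_assoc] using hw
        rw [hR, Subgroup.mem_centralizer_singleton_iff] at hw'
        calc c.out⁻¹ * y * c.out * w = c.out⁻¹ * (y * (c.out * w * c.out⁻¹)) * c.out := by group
          _ = c.out⁻¹ * (c.out * w * c.out⁻¹ * y) * c.out := by rw [hw']
          _ = w * (c.out⁻¹ * y * c.out) := by group
    have h1 := Nat.card_le_card_of_surjective φ hφ
    rw [Nat.card_prod, ← Subgroup.index, Nat.card_coe_set_eq] at h1
    have h2 : Nat.card {y : G // y ∉ N} = Nat.card G - Nat.card N := by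
      rw [Nat.card_eq_fintype_card, Nat.card_eq_fintype_card, Nat.card_eq_fintype_card,
        Fintype.card_subtype_compl]
    have h3 : Ps.ncard = Nat.card (P : Subgroup G) - Nat.card P₀ := by
      have : Ps = ((P : Subgroup G) : Set G) \ (P₀ : Set G) := by
        ext z
        simp only [Ps, hP₀, Set.mem_setOf_eq, Set.mem_sdiff, SetLike.mem_coe, Subgroup.mem_inf]
        tauto
      rw [this, Set.ncard_sdiff (fun z hz => hz.1), ← Nat.card_coe_set_eq, ← Nat.card_coe_set_eq]
      rfl
    have h4 : Nat.card N = (P : Subgroup G).index * Nat.card P₀ := by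
      have e1 := CfsgLib.Core.card_sup_mul_card_inf (CfsgLib.Core.le_normalizer_normal (P : Subgroup G) (N := N))
      rw [hsup, Subgroup.card_top, ← hP₀] at e1
      rw [← (P : Subgroup G).card_mul_index, mul_assoc] at e1
      exact (Nat.eq_of_mul_eq_mul_left Nat.card_pos e1).symm
    have h5 : Ps.ncard ≤ Zs.ncard := by
      refine Nat.le_of_mul_le_mul_left ?_ (Nat.pos_of_ne_zero (Subgroup.index_ne_zero_of_finite (H := (P : Subgroup G))))
      rw [h3, Nat.mul_sub_left_distrib, Subgroup.index_mul_card, ← h4, ← h2]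
      exact h1
    have heq := Set.eq_of_subset_of_ncard_le hZP h5
    intro z hz hzN
    have hz' : z ∈ Ps := ⟨hz, hzN⟩
    rw [← heq] at hz'
    exact hz'.2.2
  have hcomm : ∀ a ∈ (P : Subgroup G), ∀ b ∈ (P : Subgroup G), a * b = b * a := by
    intro a ha b hb
    by_cases haN : a ∈ N
    · have hxP : x₀ ∈ (P : Subgroup G) := hP ▸ Subgroup.mem_centralizer_singleton_iff.2 rfl
      have hax : a * x₀ ∉ N := fun hm => hx₀ ((Subgroup.mul_mem_cancel_left N haN).1 hm)
      have e1 : Commute (a * x₀) b := hcentral _ (mul_mem ha hxP) hax b hb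
      have e2 : Commute x₀⁻¹ b := (show Commute x₀ b from hcentral x₀ hxP hx₀ b hb).inv_left
      have := e1.mul_left e2
      rwa [mul_inv_cancel_right] at this
    · exact hcentral a ha haN b hb
  have hNC : Subgroup.normalizer ((P : Subgroup G) : Set G) ≤ Subgroup.centralizer ((P : Subgroup G) : Set G) := by
    rw [hNP]
    exact fun a ha => Subgroup.mem_centralizer_iff.2 fun b hb => hcomm b hb a ha
  set K := (MonoidHom.transferSylow P hNC).ker with hK
  have hcompl : Subgroup.IsComplement' K (P : Subgroup G) := MonoidHom.ker_transferSylow_isComplement' P hNC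
  have hcop : (Nat.card (P : Subgroup G)).Coprime (Nat.card K) := by
    rw [← hcompl.index_eq_card]
    exact P.card_coprime_index
  haveI hPs : Group.IsSolvable (P : Subgroup G) := by
    haveI := P.isPGroup'.isNilpotent
    infer_instance
  haveI hKs : Group.IsSolvable K := by
    by_cases hK1 : Nat.card K = 1
    · haveI := (Nat.card_eq_one_iff_unique.1 hK1).1
      infer_instance
    obtain ⟨q, hq, hqK⟩ := Nat.exists_prime_and_dvd hK1
    haveI := Fact.mk hq
    obtain ⟨Q, hQ⟩ := CfsgLib.Core.exists_invariant_sylow q (CfsgLib.Core.le_normalizer_normal (P : Subgroup G) (N := K))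
      hcop (Or.inl hPs)
    set Q' := (Q : Subgroup K).map K.subtype with hQ'
    have hQK : Q' ≤ K := Subgroup.map_subtype_le _
    have hQne : ¬ Q' ≤ (P : Subgroup G) := by
      intro hle
      have h1 : Nat.card Q' = 1 := Nat.eq_one_of_dvd_coprimes hcop
        (Subgroup.card_dvd_of_le hle) (Subgroup.card_dvd_of_le hQK)
      rw [hQ', Subgroup.card_subtype] at h1
      have h2 := Q.dvd_card_of_dvd_card hqK
      rw [h1] at h2
      exact hq.not_dvd_one h2
    have htop : (P : Subgroup G) ⊔ Q' = ⊤ :=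
      (hmax.le_iff.1 le_sup_left).resolve_right fun e => hQne (e ▸ le_sup_right)
    have h1 := CfsgLib.Core.card_sup_dvd_mul hQ
    rw [htop, Subgroup.card_top, ← hcompl.card_mul, mul_comm] at h1
    have h2 : Nat.card K ≤ Nat.card Q' :=
      Nat.le_of_dvd Nat.card_pos (Nat.dvd_of_mul_dvd_mul_left Nat.card_pos h1)
    have h3 : Q' = K := Subgroup.eq_of_le_of_card_ge hQK h2
    haveI : Group.IsNilpotent Q' := (Q.isPGroup'.map K.subtype).isNilpotent
    have : Group.IsSolvable Q' := inferInstance
    rwa [h3] at this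
  haveI : Group.IsSolvable G := Group.isSolvable_of_ker_le_range K.subtype (MonoidHom.transferSylow P hNC)
    (by rw [Subgroup.range_subtype])
  infer_instance

end Cfsg.Agent.S3903
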