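import Cfsg.Statements.S3908
import Cfsg.Agent.Lib.CoreConjSubgroups

set_option autoImplicit false
open Cfsg

namespace Cfsg.Agent.S3908

/-- Let G be a finite group in which any two abelian subgroups of the same order are conjugate. Then a Sylow 2-subgroup of G is cyclic, elementary abelian or generalized quaternion, and for an odd prime p a Sylow p-subgroup of G is cyclic or has exponent dividing p. -/
theorem result {G : Type*} [Group G] [Finite G] (hB : ∀ A B : Subgroup G, IsMulCommutative ↥A → IsMulCommutative ↥B → Nat.card ↥A = Nat.card ↥B → ∃ g : G, B = A.map (MulAut.conj g).toMonoidHom) :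
    (∀ P : Sylow 2 G, IsCyclic ↥(P : Subgroup G) ∨ Cfsg.IsElementaryAbelian 2 (P : Subgroup G) ∨ ∃ k : ℕ, Nonempty (↥(P : Subgroup G) ≃* QuaternionGroup (2 ^ k))) ∧
    ∀ (p : ℕ) [Fact p.Prime], p ≠ 2 → ∀ P : Sylow p G, IsCyclic ↥(P : Subgroup G) ∨ ∀ x ∈ (P : Subgroup G), x ^ p = 1 := by
  have key : ∀ (p : ℕ) [Fact p.Prime] (P : Sylow p G),
      (∀ x ∈ (P : Subgroup G), x ^ p = 1) ∨ IsCyclic ↥(P : Subgroup G) ∨
      (p = 2 ∧ ∃ n : ℕ, Nonempty (↥(P : Subgroup G) ≃* QuaternionGroup (2 ^ (n + 1)))) := by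
    intro p _ P
    rcases CfsgLib.Core.ConjSub.dichotomy P.2 with ⟨E, hEc, hE, hcard⟩ | h
    · exact Or.inl (CfsgLib.Core.ConjSub.exponent_of_conj P.2
        (fun A B hA hB' _ _ h => hB A B hA hB' h) hEc hE hcard)
    · exact Or.inr h
  constructor
  · intro P
    rcases key 2 P with h | h | ⟨-, n, h⟩
    · refine Or.inr (Or.inl ⟨⟨⟨fun a b => Subtype.ext ?_⟩⟩, h⟩)
      show (a : G) * b = b * a
      have ha := h a a.2; have hb := h b b.2; have hab := h _ (mul_mem a.2 b.2)
      rw [sq, mul_eq_one_iff_eq_inv] at ha hb hab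
      rw [hab, mul_inv_rev, ← ha, ← hb]
    · exact Or.inl h
    · exact Or.inr (Or.inr ⟨n + 1, h⟩)
  · intro p _ hp P
    rcases key p P with h | h | ⟨h, -⟩
    · exact Or.inr h
    · exact Or.inl h
    · exact absurd h hp

end Cfsg.Agent.S3908
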