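import Cfsg.Statements.S3909
import Cfsg.Agent.Lib.CoreBasic

set_option autoImplicit false
open Cfsg

namespace Cfsg.Agent.S3909

/-- Let G be a finite group in which any two abelian subgroups of the same order are conjugate. Let M be a normal subgroup of G. If M contains an element of the same order as a ∈ G, then a ∈ M; and if M is elementary abelian of order p^t with p prime and t ≥ 2, then M is the unique Sylow p-subgroup of G. -/
theorem result {G : Type*} [Group G] [Finite G] (hB : ∀ A B : Subgroup G, IsMulCommutative ↥A → IsMulCommutative ↥B → Nat.card ↥A = Nat.card ↥B → ∃ g : G, B = A.map (MulAut.conj g).toMonoidHom) (M : Subgroup G) [M.Normal] :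
    (∀ a : G, (∃ m ∈ M, orderOf m = orderOf a) → a ∈ M) ∧
    ∀ (p t : ℕ) [Fact p.Prime], 2 ≤ t → Nat.card ↥M = p ^ t → Cfsg.IsElementaryAbelian p M → ∀ P : Sylow p G, (P : Subgroup G) = M := by
  have hcomm : ∀ a : G, IsMulCommutative ↥(Subgroup.zpowers a) := fun a => ⟨⟨fun s t => Subtype.ext (by
    obtain ⟨i, hi⟩ := s.2; obtain ⟨j, hj⟩ := t.2
    simp only [Subgroup.coe_mul, ← hi, ← hj]
    exact (Commute.refl a).zpow_zpow i j)⟩⟩
  have ha : ∀ a : G, (∃ m ∈ M, orderOf m = orderOf a) → a ∈ M := by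
    rintro a ⟨m, hm, ho⟩
    obtain ⟨g, hg⟩ := hB (Subgroup.zpowers m) (Subgroup.zpowers a) (hcomm m) (hcomm a)
      (by rw [Nat.card_zpowers, Nat.card_zpowers, ho])
    have h1 := Subgroup.mem_zpowers a
    rw [hg] at h1
    obtain ⟨z, hz, rfl⟩ := h1
    exact (inferInstance : M.Normal).conj_mem z (Subgroup.zpowers_le.2 hm hz) g
  refine ⟨ha, fun p t _ ht hM hel P => ?_⟩
  have hp := (Fact.out : p.Prime)
  have hMp : IsPGroup p M := IsPGroup.of_card hM
  have hMP : M ≤ (P : Subgroup G) := (CfsgLib.Core.le_pCore inferInstance hMp).trans (CfsgLib.Core.pCore_le_sylow P)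
  refine le_antisymm (fun x hx => ?_) hMP
  obtain ⟨k, hk⟩ := IsPGroup.iff_orderOf.1 P.2 ⟨x, hx⟩
  rw [Subgroup.orderOf_mk] at hk
  rcases Nat.lt_or_ge k 2 with hk2 | hk2
  · rcases (show k = 0 ∨ k = 1 by omega) with rfl | rfl
    · rw [pow_zero] at hk
      rw [orderOf_eq_one_iff.1 hk]; exact M.one_mem
    · obtain ⟨m, hm⟩ := exists_prime_orderOf_dvd_card' (G := M) p (hM ▸ dvd_pow_self p (by omega))
      exact ha x ⟨m, m.2, by rw [Subgroup.orderOf_coe, hm, hk, pow_one]⟩
  · exfalso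
    set y := x ^ p ^ (k - 2) with hy
    have hyo : orderOf y = p ^ 2 := by
      rw [hy, orderOf_pow' x (pow_ne_zero _ hp.ne_zero), hk, Nat.gcd_eq_right (pow_dvd_pow p (by omega)),
        Nat.pow_div (by omega) hp.pos]
      congr 1; omega
    obtain ⟨L, hL⟩ := Sylow.exists_subgroup_card_pow_prime p (n := 2) (G := M) (hM ▸ pow_dvd_pow p ht)
    have hLc : IsMulCommutative ↥(L.map M.subtype) := ⟨⟨fun s u => by
      obtain ⟨a, -, ha⟩ := s.2; obtain ⟨b, -, hb⟩ := u.2
      exact Subtype.ext (by simp only [Subgroup.coe_mul, ← ha, ← hb]; exact congrArg Subtype.val (hel.1.is_comm.comm a b))⟩⟩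
    obtain ⟨g, hg⟩ := hB (L.map M.subtype) (Subgroup.zpowers y) hLc (hcomm y)
      (by rw [Subgroup.card_map_of_injective M.subtype_injective, hL, Nat.card_zpowers, hyo])
    have h1 := Subgroup.mem_zpowers y
    rw [hg] at h1
    obtain ⟨z, ⟨l, -, rfl⟩, hz⟩ := h1
    have hz' : g * (l : G) * g⁻¹ = y := hz
    have h2 : y ^ p = 1 := by rw [← hz', conj_pow, hel.2 l l.2, mul_one, mul_inv_cancel]
    have := Nat.le_of_dvd hp.pos (hyo ▸ orderOf_dvd_of_pow_eq_one h2)
    nlinarith [hp.two_le]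

end Cfsg.Agent.S3909
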