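import Cfsg.Statements.S3910
import Cfsg.Agent.Lib.CoreEqTop
import Cfsg.Agent.Lib.CharCN3
import Cfsg.Agent.S0016
import Mathlib.GroupTheory.SpecificGroups.ZGroup

set_option autoImplicit false
open Cfsg

namespace Cfsg.Agent.S3910

/-- A finite nilpotent group in which any two abelian subgroups of the same order are conjugate is cyclic. -/
theorem result {G : Type*} [Group G] [Finite G] (hB : ∀ A B : Subgroup G, IsMulCommutative ↥A → IsMulCommutative ↥B → Nat.card ↥A = Nat.card ↥B → ∃ g : G, B = A.map (MulAut.conj g).toMonoidHom) (hnil : Group.IsNilpotent G) : IsCyclic G := by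
  haveI := hnil
  have hcomm : ∀ a : G, IsMulCommutative ↥(Subgroup.zpowers a) := fun a => ⟨⟨fun s t => Subtype.ext (by
    obtain ⟨i, hi⟩ := s.2; obtain ⟨j, hj⟩ := t.2
    simp only [Subgroup.coe_mul, ← hi, ← hj]
    exact (Commute.refl a).zpow_zpow i j)⟩⟩
  -- a cyclic normal subgroup is the only one of its order
  have huniq : ∀ c d : G, (Subgroup.zpowers c).Normal → orderOf d = orderOf c → d ∈ Subgroup.zpowers c := by
    intro c d hn ho
    obtain ⟨g, hg⟩ := hB (Subgroup.zpowers c) (Subgroup.zpowers d) (hcomm c) (hcomm d)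
      (by rw [Nat.card_zpowers, Nat.card_zpowers, ho])
    have h1 := Subgroup.mem_zpowers d
    rw [hg] at h1
    obtain ⟨z, hz, rfl⟩ := h1
    exact hn.conj_mem z hz g
  haveI : IsZGroup G := ⟨fun p hp P => by
    haveI := Fact.mk hp
    have hPn : (P : Subgroup G).Normal := inferInstance
    have horder : ∀ H : Subgroup (P : Subgroup G), Nat.card H = p → ∃ v : (P : Subgroup G), H = Subgroup.zpowers v ∧ orderOf (v : G) = p := by
      intro H hH
      obtain ⟨v, hv⟩ := exists_prime_orderOf_dvd_card' (G := H) p (by rw [hH])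
      refine ⟨v, (Subgroup.eq_of_le_of_card_ge (Subgroup.zpowers_le.2 v.2) ?_).symm, by
        rw [Subgroup.orderOf_coe, Subgroup.orderOf_coe, hv]⟩
      rw [hH, Nat.card_zpowers, Subgroup.orderOf_coe, hv]
    rcases Cfsg.Agent.S0016.result p P.2 (fun H K hH hK => by
      obtain ⟨v, rfl, hv⟩ := horder H hH
      obtain ⟨w, rfl, hw⟩ := horder K hK
      haveI : Nontrivial (P : Subgroup G) := ⟨⟨v, 1, fun e => by
        rw [e, OneMemClass.coe_one, orderOf_one] at hv; exact hp.ne_one hv.symm⟩⟩
      obtain ⟨⟨z, hzP, hzc⟩, hz1⟩ : ∃ z : ↥((P : Subgroup G) ⊓ Subgroup.center G), z ≠ 1 := by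
        haveI : Nontrivial ↥((P : Subgroup G) ⊓ Subgroup.center G) := (Subgroup.nontrivial_iff_ne_bot _).2
          (CfsgLib.Core.nilpotent_inf_center_ne_bot ((Subgroup.nontrivial_iff_ne_bot _).1 inferInstance))
        exact exists_ne 1
      obtain ⟨j, hj⟩ := IsPGroup.iff_orderOf.1 P.2 ⟨z, hzP⟩
      rw [Subgroup.orderOf_mk] at hj
      obtain ⟨i, rfl⟩ : ∃ i, j = i + 1 := ⟨j - 1, by
        rcases j with _ | j
        · exact absurd (Subtype.ext (orderOf_eq_one_iff.1 (hj.trans (pow_zero p)))) hz1
        · rfl⟩
      set c := z ^ p ^ i with hc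
      have hco : orderOf c = p := by
        rw [hc, orderOf_pow' z (pow_ne_zero _ hp.ne_zero), hj, Nat.gcd_eq_right (pow_dvd_pow p (Nat.le_succ i)),
          Nat.pow_div (Nat.le_succ i) hp.pos, show i + 1 - i = 1 by omega, pow_one]
      have hcn : (Subgroup.zpowers c).Normal := ⟨fun y hy g => by
        rw [Subgroup.mem_center_iff.1 (Subgroup.zpowers_le.2 ((Subgroup.center G).pow_mem hzc _) hy) g, mul_inv_cancel_right]
        exact hy⟩
      have key : ∀ u : (P : Subgroup G), orderOf (u : G) = p → (Subgroup.zpowers u).map (P : Subgroup G).subtype = Subgroup.zpowers c := by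
        intro u hu
        rw [MonoidHom.map_zpowers]
        refine Subgroup.eq_of_le_of_card_ge (Subgroup.zpowers_le.2 (huniq c _ hcn (hu.trans hco.symm))) ?_
        rw [Nat.card_zpowers, Nat.card_zpowers, hco]
        exact hu.ge
      exact Subgroup.map_injective (Subgroup.subtype_injective _) ((key v hv).trans (key w hw).symm)) with h | ⟨hp2, n, ⟨e⟩⟩
    · exact h
    · subst hp2
      rcases Nat.eq_zero_or_pos n with rfl | hn
      · haveI : IsCyclic (QuaternionGroup (2 ^ 0)) := QuaternionGroup.quaternionGroup_one_isCyclic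
        exact e.isCyclic.2 inferInstance
      · exfalso
        set a := e.symm (QuaternionGroup.a 1) with ha
        set c := a ^ 2 ^ (n - 1) with hc
        set d := e.symm (QuaternionGroup.xa 0) with hd
        have hoa : orderOf a = 2 * 2 ^ n := by rw [ha, MulEquiv.orderOf_eq, QuaternionGroup.orderOf_a_one]
        have hoc : orderOf c = 4 := by
          have h2 : 2 * 2 ^ n = 2 ^ (n - 1) * 4 := by
            rw [show (4 : ℕ) = 2 ^ 2 from rfl, ← pow_add, ← pow_succ']; congr 1; omega
          rw [hc, orderOf_pow' a (pow_ne_zero _ two_ne_zero), hoa, h2, Nat.gcd_mul_right_left,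
            Nat.mul_div_cancel_left _ (pow_pos two_pos _)]
        have hod : orderOf d = 4 := by rw [hd, MulEquiv.orderOf_eq, QuaternionGroup.orderOf_xa]
        have hcn : (Subgroup.zpowers (c : G)).Normal := by
          rw [← Subgroup.normalizer_eq_top_iff]
          refine CfsgLib.Core.eq_top_of_prime_power_mem _ fun q y hq ⟨b, hb⟩ => ?_
          by_cases hq2 : q = 2
          · subst hq2
            obtain ⟨Q, hQ⟩ := (IsPGroup.of_card (n := b) (by rw [Nat.card_zpowers, hb]) :
              IsPGroup 2 (Subgroup.zpowers y)).exists_le_sylow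
            haveI := Sylow.unique_of_normal P hPn
            obtain rfl : Q = P := Subsingleton.elim _ _
            have hyP : y ∈ (Q : Subgroup G) := hQ (Subgroup.mem_zpowers y)
            have hmem : (⟨y, hyP⟩ : (Q : Subgroup G)) * c * (⟨y, hyP⟩ : (Q : Subgroup G))⁻¹ ∈ Subgroup.zpowers c := by
              rw [hc, ← conj_pow]
              have h3 : (⟨y, hyP⟩ : (Q : Subgroup G)) * a * (⟨y, hyP⟩ : (Q : Subgroup G))⁻¹ = a ∨
                  (⟨y, hyP⟩ : (Q : Subgroup G)) * a * (⟨y, hyP⟩ : (Q : Subgroup G))⁻¹ = a⁻¹ := by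
                rcases hw : e ⟨y, hyP⟩ with j | j
                · left
                  apply e.injective
                  rw [map_mul, map_mul, map_inv, ha, MulEquiv.apply_symm_apply, hw, mul_inv_eq_iff_eq_mul,
                    QuaternionGroup.a_mul_a, QuaternionGroup.a_mul_a, add_comm]
                · right
                  apply e.injective
                  rw [map_mul, map_mul, map_inv, map_inv, ha, MulEquiv.apply_symm_apply, hw, mul_inv_eq_iff_eq_mul,
                    QuaternionGroup.xa_mul_a]
                  show QuaternionGroup.xa (j + 1) = QuaternionGroup.a (-1) * QuaternionGroup.xa j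
                  rw [QuaternionGroup.a_mul_xa, sub_neg_eq_add]
              rcases h3 with h3 | h3 <;> rw [h3]
              · exact Subgroup.mem_zpowers _
              · rw [inv_pow]; exact inv_mem (Subgroup.mem_zpowers _)
            obtain ⟨i, hi⟩ := hmem
            have hi' : (c : G) ^ i = y * c * y⁻¹ := congrArg Subtype.val hi
            refine Subgroup.mem_normalizer_fintype fun w hw => ?_
            obtain ⟨l, rfl⟩ := hw
            show y * (c : G) ^ l * y⁻¹ ∈ Subgroup.zpowers (c : G)
            rw [← conj_zpow, ← hi']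
            exact zpow_mem (Subgroup.zpow_mem_zpowers _ i) l
          · refine Subgroup.centralizer_le_normalizer _ (Subgroup.mem_centralizer_iff.2 fun w hw => ?_)
            refine CfsgLib.CN.commute_of_coprime_orderOf w y ?_
            have h1 : orderOf w ∣ 4 := by
              have := Subgroup.orderOf_dvd_natCard _ hw
              rwa [Nat.card_zpowers, Subgroup.orderOf_coe, hoc] at this
            rw [hb]
            exact ((Nat.coprime_primes Nat.prime_two hq).2 (Ne.symm hq2) |>.pow 2 b).coprime_dvd_left h1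
        obtain ⟨i, hi⟩ := huniq (c : G) (d : G) hcn (by rw [Subgroup.orderOf_coe, Subgroup.orderOf_coe, hoc, hod])
        have hi' : c ^ i = d := Subtype.ext hi
        have h5 : e (c ^ i) = QuaternionGroup.xa 0 := by rw [hi', hd, MulEquiv.apply_symm_apply]
        have h6 : ∀ l : ℕ, (QuaternionGroup.a 1 : QuaternionGroup (2 ^ n)) ^ l = QuaternionGroup.a (l : ZMod (2 * 2 ^ n)) := fun l => QuaternionGroup.a_one_pow l
        rw [map_zpow, hc, map_pow, ha, MulEquiv.apply_symm_apply] at h5
        have h7 : (QuaternionGroup.xa 0 : QuaternionGroup (2 ^ n)) ∈ Subgroup.zpowers (QuaternionGroup.a 1) :=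
          h5 ▸ zpow_mem (Subgroup.npow_mem_zpowers _ _) i
        obtain ⟨l, hl⟩ : ∃ l : ℕ, (QuaternionGroup.a 1 : QuaternionGroup (2 ^ n)) ^ l = QuaternionGroup.xa 0 :=
          Submonoid.mem_powers_iff _ _ |>.1 (mem_powers_iff_mem_zpowers.2 h7)
        rw [h6] at hl
        exact QuaternionGroup.noConfusion rfl (heq_of_eq hl)⟩
  infer_instance

end Cfsg.Agent.S3910
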