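import Cfsg.Statements.S3917
import Cfsg.Agent.Lib.CoreEqTop
import Cfsg.Agent.S0016
import Mathlib.GroupTheory.SpecificGroups.ZGroup

set_option autoImplicit false
open Cfsg

namespace Cfsg.Agent.S3917

/-- Say that a group has self-centralizing non-cyclic subgroups when every non-cyclic subgroup H satisfies C_G(H) ≤ H. A finite abelian group with self-centralizing non-cyclic subgroups is cyclic or elementary abelian of order p² for a prime p. -/
theorem result {G : Type*} [CommGroup G] [Finite G] (hX : (∀ H : Subgroup G, ¬ IsCyclic ↥H → Subgroup.centralizer (H : Set G) ≤ H)) :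
    IsCyclic G ∨ ∃ p : ℕ, p.Prime ∧ Nat.card G = p ^ 2 ∧ Monoid.exponent G = p := by
  classical
  by_cases hcyc : ∀ p : ℕ, p.Prime → ∀ H : Subgroup G, (∀ x ∈ H, x ^ p = 1) → IsCyclic H
  · left
    haveI : IsZGroup G := ⟨fun p hp P => by
      haveI := Fact.mk hp
      have huniq : ∀ H K : Subgroup (P : Subgroup G), Nat.card H = p → Nat.card K = p → H = K := by
        intro H K hH hK
        let M : Subgroup G :=
          { carrier := {x | x ^ p = 1}
            one_mem' := one_pow p
            mul_mem' := fun {a b} ha hb => by simp only [Set.mem_ofPred_eq] at *; rw [mul_pow, ha, hb, one_mul]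
            inv_mem' := fun {a} ha => by simp only [Set.mem_ofPred_eq] at *; rw [inv_pow, ha, inv_one] }
        haveI := hcyc p hp M fun x hx => hx
        have hMc : Nat.card M ≤ p := by
          rw [← IsCyclic.exponent_eq_card]
          refine Nat.le_of_dvd hp.pos (Monoid.exponent_dvd_of_forall_pow_eq_one fun x => Subtype.ext ?_)
          rw [SubmonoidClass.coe_pow]
          exact x.2
        have key : ∀ L : Subgroup (P : Subgroup G), Nat.card L = p → L.map (P : Subgroup G).subtype = M := by
          intro L hL
          refine Subgroup.eq_of_le_of_card_ge ?_ ?_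
          · rintro _ ⟨z, hz, rfl⟩
            have := orderOf_dvd_iff_pow_eq_one.1 (hL ▸ Subgroup.orderOf_dvd_natCard L hz)
            show (z : G) ^ p = 1
            rw [← SubmonoidClass.coe_pow, this]; rfl
          · rw [Subgroup.card_map_of_injective (Subgroup.subtype_injective _), hL]; exact hMc
        exact Subgroup.map_injective (Subgroup.subtype_injective _) ((key H hH).trans (key K hK).symm)
      rcases Cfsg.Agent.S0016.result p P.2 huniq with h | ⟨-, n, ⟨e⟩⟩
      · exact h
      · rcases Nat.eq_zero_or_pos n with rfl | hn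
        · haveI : IsCyclic (QuaternionGroup (2 ^ 0)) := QuaternionGroup.quaternionGroup_one_isCyclic
          exact e.isCyclic.2 inferInstance
        · exfalso
          have h1 : QuaternionGroup.xa (0 : ZMod (2 * 2 ^ n)) * QuaternionGroup.a 1 =
              QuaternionGroup.a 1 * QuaternionGroup.xa 0 := by
            apply e.symm.injective
            rw [map_mul, map_mul]
            exact Subtype.ext (mul_comm _ _)
          rw [QuaternionGroup.xa_mul_a, QuaternionGroup.a_mul_xa, QuaternionGroup.xa.injEq, zero_add, zero_sub] at h1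
          have h2 : ((2 : ℕ) : ZMod (2 * 2 ^ n)) = 0 := by
            push_cast
            linear_combination h1
          rw [ZMod.natCast_eq_zero_iff] at h2
          have h3 := Nat.le_of_dvd (by omega) h2
          have : 2 ≤ 2 ^ n := Nat.le_self_pow (by omega) 2
          omega⟩
    haveI : Group.IsNilpotent G := CommGroup.isNilpotent
    infer_instance
  · right
    push Not at hcyc
    obtain ⟨p, hp, H, hH, hHnc⟩ := hcyc
    haveI := Fact.mk hp
    have hHtop : H = ⊤ := eq_top_iff.2 fun g _ => hX H hHnc (Subgroup.mem_centralizer_iff.2 fun h _ => mul_comm h g)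
    subst hHtop
    have hpow : ∀ x : G, x ^ p = 1 := fun x => hH x (Subgroup.mem_top x)
    have hpg : IsPGroup p G := fun x => ⟨1, by rw [pow_one]; exact hpow x⟩
    obtain ⟨k, hk⟩ := hpg.exists_card_eq
    have hnc : ¬ IsCyclic G := fun h => hHnc (Subgroup.topEquiv.isCyclic.2 h)
    have hk2 : 2 ≤ k := by
      by_contra hlt
      rcases (show k = 0 ∨ k = 1 by omega) with rfl | rfl
      · rw [pow_zero] at hk
        haveI := (Nat.card_eq_one_iff_unique.1 hk).1
        exact hnc inferInstance
      · rw [pow_one] at hk
        exact hnc (isCyclic_of_prime_card hk)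
    have hkle : k ≤ 2 := by
      by_contra hlt
      obtain ⟨L, hL⟩ := Sylow.exists_subgroup_card_pow_prime p (n := 2) (G := G) (hk ▸ pow_dvd_pow p (by omega))
      have hLt : L ≠ ⊤ := fun e => by
        rw [e, Subgroup.card_top, hk] at hL
        have := Nat.pow_right_injective hp.two_le hL
        omega
      refine hLt (eq_top_iff.2 fun g _ => hX L (fun hLc => ?_) (Subgroup.mem_centralizer_iff.2 fun h _ => mul_comm h g))
      have h1 : Nat.card L ∣ p := by
        rw [← @IsCyclic.exponent_eq_card L _ hLc]
        exact Monoid.exponent_dvd_of_forall_pow_eq_one fun x => Subtype.ext (by rw [SubmonoidClass.coe_pow]; exact hpow x)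
      rw [hL, sq] at h1
      have := Nat.le_of_dvd hp.pos h1
      nlinarith [hp.two_le]
    obtain rfl : k = 2 := by omega
    refine ⟨p, hp, hk, Nat.dvd_antisymm (Monoid.exponent_dvd_of_forall_pow_eq_one hpow) ?_⟩
    haveI : Nontrivial G := Finite.one_lt_card_iff_nontrivial.1 (by rw [hk]; exact Nat.one_lt_pow two_ne_zero hp.one_lt)
    obtain ⟨g, hg⟩ := exists_ne (1 : G)
    have h1 : orderOf g = p := orderOf_eq_prime (hpow g) hg
    exact h1 ▸ Monoid.order_dvd_exponent g

end Cfsg.Agent.S3917
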