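import Cfsg.Statements.S3918
import Cfsg.Agent.Lib.LocalCyclicMax
import Cfsg.Agent.Lib.TransferMore

set_option autoImplicit false
open Cfsg

namespace Cfsg.Agent.S3918

/-- Say that a group has self-centralizing non-cyclic subgroups when every non-cyclic subgroup H satisfies C_G(H) ≤ H. For an odd prime p, a finite non-abelian p-group has self-centralizing non-cyclic subgroups if and only if it has order p³. -/
theorem result {G : Type*} [Group G] [Finite G] {p : ℕ} [Fact p.Prime] (hp : p ≠ 2) (hG : IsPGroup p G) (hna : ¬ IsMulCommutative G) :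
    (∀ H : Subgroup G, ¬ IsCyclic ↥H → Subgroup.centralizer (H : Set G) ≤ H) ↔ Nat.card G = p ^ 3 := by
  classical
  have hp' := (Fact.out : p.Prime)
  obtain ⟨k, hk⟩ := IsPGroup.iff_card.1 hG
  have hZne : Subgroup.center G ≠ ⊤ := fun e => hna (.of_comm fun a b =>
    Subgroup.mem_center_iff.1 (e.ge (Subgroup.mem_top b)) a)
  have hk3 : 3 ≤ k := by
    by_contra hlt
    have h1 : ∀ j ≤ 2, Nat.card G = p ^ j → False := by
      intro j hj hj'
      interval_cases j
      · haveI : Subsingleton G := (Nat.card_eq_one_iff_unique.1 (by simpa using hj')).1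
        exact hna (.of_comm fun a b => Subsingleton.elim _ _)
      · haveI : IsCyclic G := isCyclic_of_prime_card (p := p) (by simpa using hj')
        letI := IsCyclic.commGroup (α := G)
        exact hna (.of_comm fun a b => mul_comm a b)
      · exact hna (.of_comm fun a b => IsPGroup.commutative_of_card_eq_prime_sq hj' a b)
    exact h1 k (by omega) hk
  constructor
  · intro h
    have hnc : ¬ IsCyclic (⊤ : Subgroup G) := fun hc => by
      haveI : IsCyclic G := (Subgroup.topEquiv (G := G)).isCyclic.1 hc
      letI := IsCyclic.commGroup (α := G)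
      exact hna (.of_comm fun a b => mul_comm a b)
    obtain ⟨E, -, hEn, hE, hEc⟩ := CfsgLib.LocalCyclicMax.exists_normal_ea_sq hp hG ⊤ hnc
    haveI := hEn
    haveI := hE.1
    have hEnc : ¬ IsCyclic E := fun hc => by
      obtain ⟨g, hg⟩ := IsCyclic.exists_generator (α := E)
      have h1 : orderOf g = Nat.card E := orderOf_eq_card_of_forall_mem_zpowers hg
      have h2 : orderOf g ∣ p := orderOf_dvd_of_pow_eq_one (Subtype.ext (hE.2 g g.2))
      rw [h1, hEc] at h2
      have := Nat.le_of_dvd hp'.pos h2
      have := hp'.two_le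
      nlinarith
    have hC : Subgroup.centralizer (E : Set G) = E := le_antisymm (h E hEnc) E.le_centralizer
    have h1 := CfsgLib.Transfer.index_centralizer_le hG 2 E inferInstance hEc
    rw [hC, Nat.choose_self, pow_one] at h1
    have h2 := Subgroup.card_mul_index E
    rw [hEc, hk] at h2
    have h3 : p ^ k ≤ p ^ 3 := by rw [← h2, pow_succ]; exact Nat.mul_le_mul_left _ h1
    rw [hk, le_antisymm ((Nat.pow_le_pow_iff_right hp'.one_lt).1 h3) hk3]
  · intro h3 H hH z hz
    obtain ⟨j, hj⟩ := IsPGroup.iff_card.1 (hG.to_subgroup H)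
    have hj2 : 2 ≤ j := by
      by_contra hlt
      refine hH ?_
      interval_cases j
      · haveI : Subsingleton H := (Nat.card_eq_one_iff_unique.1 (by simpa using hj)).1
        exact isCyclic_of_subsingleton
      · exact isCyclic_of_prime_card (p := p) (by simpa using hj)
    have hj3 : j ≤ 3 := by
      refine (Nat.pow_le_pow_iff_right hp'.one_lt).1 ?_
      rw [← hj, ← h3]; exact Subgroup.card_le_card_group H
    interval_cases j
    · -- `H` of order `p ^ 2`
      by_contra hzH
      have hab : H ≤ Subgroup.centralizer (H : Set G) := fun x hx => Subgroup.mem_centralizer_iff.2 fun y hy =>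
        congrArg Subtype.val (IsPGroup.commutative_of_card_eq_prime_sq hj (⟨y, hy⟩ : H) ⟨x, hx⟩)
      obtain ⟨i, hi⟩ := IsPGroup.iff_card.1 (hG.to_subgroup (Subgroup.centralizer (H : Set G)))
      have hi3 : i = 3 := by
        refine le_antisymm ((Nat.pow_le_pow_iff_right hp'.one_lt).1
          (by rw [← hi, ← h3]; exact Subgroup.card_le_card_group _)) ?_
        by_contra hlt
        refine hzH ((CfsgLib.Core.eq_of_le_of_card_le hab ?_).ge hz)
        rw [hi, hj]; exact Nat.pow_le_pow_right hp'.pos (by omega)
      have hCtop : Subgroup.centralizer (H : Set G) = ⊤ := Subgroup.eq_top_of_card_eq _ (by rw [hi, hi3, h3])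
      have hHZ : H ≤ Subgroup.center G := fun x hx => Subgroup.mem_center_iff.2 fun g =>
        (Subgroup.mem_centralizer_iff.1 (hCtop ▸ Subgroup.mem_top g) x hx).symm
      obtain ⟨c, hc⟩ := IsPGroup.iff_card.1 (hG.to_subgroup (Subgroup.center G))
      have hc2 : 2 ≤ c := (Nat.pow_le_pow_iff_right hp'.one_lt).1 (by
        rw [← hc, ← hj]; exact Subgroup.card_le_of_le hHZ)
      have hmul := Subgroup.card_mul_index (Subgroup.center G)
      rw [hc, h3] at hmul
      have hidx : (Subgroup.center G).index ∣ p := by
        have h4 : p ^ 2 * (p ^ (c - 2) * (Subgroup.center G).index) = p ^ 2 * p := by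
          rw [← mul_assoc, ← pow_add, Nat.add_sub_cancel' hc2, hmul, ← pow_succ]
        exact Dvd.intro_left _ (Nat.eq_of_mul_eq_mul_left (pow_pos hp'.pos 2) h4)
      haveI : IsCyclic (G ⧸ Subgroup.center G) := by
        rcases hp'.eq_one_or_self_of_dvd _ hidx with e | e
        · haveI : Subsingleton (G ⧸ Subgroup.center G) :=
            (Nat.card_eq_one_iff_unique.1 (by rw [← Subgroup.index_eq_card, e])).1
          exact isCyclic_of_subsingleton
        · exact isCyclic_of_prime_card (p := p) (by rw [← Subgroup.index_eq_card, e])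
      exact hna (.of_comm fun a b =>
        commutative_of_cyclic_center_quotient (QuotientGroup.mk' (Subgroup.center G))
          (by rw [QuotientGroup.ker_mk']) a b)
    · rw [Subgroup.eq_top_of_card_eq H (by rw [hj, h3])]
      exact Subgroup.mem_top z

end Cfsg.Agent.S3918
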