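import Cfsg.Statements.S3919
import Cfsg.Agent.Lib.LocalMaxClass
import Cfsg.Agent.Lib.TransferMaximalClass
import Cfsg.Agent.Lib.ZStarTwoGroup
import Cfsg.Agent.Lib.CoreSZ
import Cfsg.Agent.Lib.CoreConjByOrder

set_option autoImplicit false
open Cfsg

namespace Cfsg.Agent.S3919

universe w

open CfsgLib.Core in
private theorem main {G : Type w} [Group G] [Finite G] (hna : ¬ IsMulCommutative G) (n : ℕ) (hG : Nat.card G = 2 ^ n) :
    (∀ H : Subgroup G, ¬ IsCyclic ↥H → Subgroup.centralizer (H : Set G) ≤ H) ↔
      (⊤ : Subgroup G).lowerCentralSeries (n - 2) ≠ ⊥ := by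
  classical
  haveI : Fact (Nat.Prime 2) := ⟨Nat.prime_two⟩
  have hP : IsPGroup 2 G := IsPGroup.of_card hG
  haveI := hP.isNilpotent
  have hn : 3 ≤ n := by
    by_contra h
    refine hna ?_
    interval_cases n
    · haveI : Subsingleton G := (Nat.card_eq_one_iff_unique.1 (by simpa using hG)).1
      exact ⟨⟨fun a b => Subsingleton.elim _ _⟩⟩
    · haveI := isCyclic_of_prime_card (p := 2) (by simpa using hG)
      letI : CommGroup G := IsCyclic.commGroup
      exact ⟨⟨mul_comm⟩⟩
    · exact ⟨⟨IsPGroup.commutative_of_card_eq_prime_sq (p := 2) hG⟩⟩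
  have hle : Group.nilpotencyClass G ≤ n - 1 :=
    Subgroup.lowerCentralSeries_eq_bot_iff_nilpotencyClass_le.1
      (CfsgLib.MaxClass.lcs_card_le (p := 2) n (by omega) hG)
  have hiff : (⊤ : Subgroup G).lowerCentralSeries (n - 2) ≠ ⊥ ↔ Group.nilpotencyClass G = n - 1 := by
    rw [Ne, Subgroup.lowerCentralSeries_eq_bot_iff_nilpotencyClass_le]
    omega
  rw [hiff]
  haveI : Nontrivial G := Finite.one_lt_card_iff_nontrivial.1 (by rw [hG]; exact Nat.one_lt_two_pow (by omega))
  constructor
  · intro h
    haveI := hP.center_nontrivial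
    obtain ⟨⟨z, hzc⟩, hzo⟩ := exists_prime_orderOf_dvd_card' (G := Subgroup.center G) 2 (by
      obtain ⟨k, hk, hc⟩ := (hP.to_subgroup (Subgroup.center G)).nontrivial_iff_card.1 inferInstance
      exact hc ▸ dvd_pow_self 2 hk.ne')
    rw [← Subgroup.orderOf_coe] at hzo
    have hfin : ∀ A : Subgroup G, Nat.card A = 2 ^ 2 → Subgroup.centralizer (A : Set G) = A →
        Group.nilpotencyClass G = n - 1 :=
      fun A h1 h2 => CfsgLib.Transfer.maximal_class_of_self_centralizing n hG A h1 h2
    by_cases hu : ∀ t : G, orderOf t = 2 → t = z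
    · rcases CfsgLib.TwoGroup.cyclic_or_quaternion hP hu with hc | ⟨m, ⟨e⟩⟩
      · letI : CommGroup G := IsCyclic.commGroup
        exact absurd ⟨⟨mul_comm⟩⟩ hna
      haveI : NeZero (2 ^ (m + 1)) := ⟨pow_ne_zero _ two_ne_zero⟩
      set b := e.symm (QuaternionGroup.xa 0) with hb
      have hbo : orderOf b = 4 := by
        rw [hb, MulEquiv.orderOf_eq, QuaternionGroup.orderOf_xa]
      refine hfin (Subgroup.zpowers b) (by rw [Nat.card_zpowers, hbo]; norm_num) (le_antisymm ?_ ?_)
      · intro y hy
        have h1 := congrArg e (Subgroup.mem_centralizer_iff.1 hy b (Subgroup.mem_zpowers b))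
        rw [map_mul, map_mul, hb, e.apply_symm_apply] at h1
        have key : ∀ i : ZMod (2 * 2 ^ (m + 1)), i + i = 0 → i = 0 ∨ i = (2 ^ (m + 1) : ℕ) := by
          intro i hi
          rw [← ZMod.natCast_zmod_val i, ← Nat.cast_add, ZMod.natCast_eq_zero_iff] at hi
          obtain ⟨c, hc⟩ := hi
          have hlt := ZMod.val_lt i
          have hc2 : c < 2 := by
            by_contra h2
            have := Nat.mul_le_mul_left (2 * 2 ^ (m + 1)) (Nat.le_of_not_lt h2)
            omega
          rw [← ZMod.natCast_zmod_val i]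
          interval_cases c
          · exact Or.inl (by rw [show i.val = 0 by omega, Nat.cast_zero])
          · exact Or.inr (congrArg _ (by omega))
        suffices hmem : ∃ k : ℕ, e y = QuaternionGroup.xa 0 ^ k by
          obtain ⟨k, hk⟩ := hmem
          have h2 : y = b ^ k := by rw [hb, ← map_pow, ← hk, e.symm_apply_apply]
          exact h2 ▸ (Subgroup.zpowers b).pow_mem (Subgroup.mem_zpowers b) k
        rcases hy' : e y with i | i <;> rw [hy'] at h1
        · rw [QuaternionGroup.xa_mul_a, QuaternionGroup.a_mul_xa, QuaternionGroup.xa.injEq, zero_add,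
            zero_sub, eq_neg_iff_add_eq_zero] at h1
          rcases key i h1 with rfl | rfl
          · exact ⟨0, by rw [pow_zero]; rfl⟩
          · exact ⟨2, (QuaternionGroup.xa_sq 0).symm⟩
        · rw [QuaternionGroup.xa_mul_xa, QuaternionGroup.xa_mul_xa, QuaternionGroup.a.injEq] at h1
          have h2 : i + i = 0 := by linear_combination h1
          rcases key i h2 with rfl | rfl
          · exact ⟨1, (pow_one _).symm⟩
          · refine ⟨3, ?_⟩
            rw [pow_succ (QuaternionGroup.xa 0 : QuaternionGroup (2 ^ (m + 1))) 2, QuaternionGroup.xa_sq,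
              QuaternionGroup.a_mul_xa, zero_sub, eq_comm,
              QuaternionGroup.xa.injEq, neg_eq_iff_add_eq_zero, ← Nat.cast_add, ← two_mul,
              ZMod.natCast_self]
      · intro y hy
        obtain ⟨k, rfl⟩ := Subgroup.mem_zpowers_iff.1 hy
        rw [Subgroup.mem_centralizer_iff]
        intro w hw
        obtain ⟨l, rfl⟩ := Subgroup.mem_zpowers_iff.1 hw
        exact ((Commute.refl b).zpow_zpow l k).eq
    · push Not at hu
      obtain ⟨u, huo, huz⟩ := hu
      have hzu : Commute z u := (Subgroup.mem_center_iff.1 hzc u).symm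
      haveI hZn : (Subgroup.zpowers z).Normal := ⟨fun a ha g => by
        obtain ⟨k, rfl⟩ := Subgroup.mem_zpowers_iff.1 ha
        rw [Subgroup.mem_center_iff.1 ((Subgroup.center G).zpow_mem hzc k) g, mul_inv_cancel_right]
        exact ha⟩
      set A := Subgroup.zpowers u ⊔ Subgroup.zpowers z with hA
      have hd : Subgroup.zpowers u ⊓ Subgroup.zpowers z = ⊥ := by
        rw [Subgroup.eq_bot_iff_forall]
        rintro x ⟨hx1, hx2⟩
        rcases Subgroup.mem_zpowers_iff.1 hx1 with ⟨k, rfl⟩
        obtain ⟨l, hl⟩ := Subgroup.mem_zpowers_iff.1 hx2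
        have huu : u * u = 1 := by rw [← pow_two, ← huo, pow_orderOf_eq_one]
        have hzz : z * z = 1 := by rw [← pow_two, ← hzo, pow_orderOf_eq_one]
        rcases Int.even_or_odd' k with ⟨i, rfl | rfl⟩
        · rw [zpow_mul, zpow_two, huu, one_zpow]
        · rw [zpow_add, zpow_mul, zpow_two, huu, one_zpow, one_mul, zpow_one] at hl
          rcases Int.even_or_odd' l with ⟨j, rfl | rfl⟩
          · rw [zpow_mul, zpow_two, hzz, one_zpow] at hl
            rw [← hl, orderOf_one] at huo
            omega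
          · rw [zpow_add, zpow_mul, zpow_two, hzz, one_zpow, one_mul, zpow_one] at hl
            exact absurd hl.symm huz
      have hAc : Nat.card A = 2 ^ 2 := by
        rw [hA, card_sup_of_disjoint (le_normalizer_normal _) hd, Nat.card_zpowers, Nat.card_zpowers,
          huo, hzo, pow_two]
      have hsq : ∀ a ∈ A, a ^ 2 = 1 := by
        intro a ha
        obtain ⟨x, hx, y, hy, rfl⟩ := Subgroup.mem_sup_of_normal_right.1 ha
        obtain ⟨k, rfl⟩ := Subgroup.mem_zpowers_iff.1 hx
        obtain ⟨l, rfl⟩ := Subgroup.mem_zpowers_iff.1 hy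
        rw [(hzu.symm.zpow_zpow k l).mul_pow, ← zpow_natCast, ← zpow_mul, mul_comm, zpow_mul,
          zpow_natCast, ← huo, pow_orderOf_eq_one, one_zpow, one_mul, ← zpow_natCast, ← zpow_mul,
          mul_comm, zpow_mul, zpow_natCast, huo, ← hzo, pow_orderOf_eq_one, one_zpow]
      have hncyc : ¬ IsCyclic A := by
        intro hc
        obtain ⟨g, hg⟩ := hc.exists_generator
        have h1 := orderOf_dvd_of_pow_eq_one (x := g) (n := 2) (Subtype.ext (hsq g g.2))
        rw [orderOf_eq_card_of_forall_mem_zpowers hg, hAc] at h1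
        norm_num at h1
      refine hfin A hAc (le_antisymm (h A hncyc) fun a ha => Subgroup.mem_centralizer_iff.2 fun b hb => ?_)
      have h1 := hsq _ (A.mul_mem hb ha)
      have h2 := hsq b hb
      have h3 := hsq a ha
      rw [pow_two] at h1 h2 h3
      rw [← inv_eq_of_mul_eq_one_right h1, mul_inv_rev, inv_eq_of_mul_eq_one_right h2,
        inv_eq_of_mul_eq_one_right h3]
  · intro hc H hH
    obtain ⟨hidx, -⟩ := CfsgLib.Transfer.card_commutator_of_maximal_class (p := 2) n hn hG hc
    obtain ⟨-, ⟨C, hCc, hCi⟩, hd⟩ := CfsgLib.Transfer.two_maximal_class n (by omega) hG hidx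
    obtain ⟨e⟩ := hd hn
    have hZc : Nat.card (Subgroup.center G) = 2 := by
      have h1 := Subgroup.card_eq_card_quotient_mul_card_subgroup (Subgroup.center G)
      rw [hG, Nat.card_congr e.toEquiv, DihedralGroup.nat_card, ← pow_succ',
        show n - 2 + 1 = n - 1 by omega] at h1
      have h2 : 2 ^ n = 2 ^ (n - 1) * 2 := by rw [← pow_succ]; congr 1; omega
      exact (Nat.eq_of_mul_eq_mul_left (pow_pos two_pos _) (h2.symm.trans h1)).symm
    haveI hCn : C.Normal := Subgroup.normal_of_index_eq_two hCi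
    letI : CommGroup C := IsCyclic.commGroup
    have hCcomm : ∀ a ∈ C, ∀ b ∈ C, a * b = b * a := fun a ha b hb =>
      congrArg Subtype.val (mul_comm (⟨a, ha⟩ : C) ⟨b, hb⟩)
    obtain ⟨x, hxH, hxC⟩ : ∃ x ∈ H, x ∉ C := by
      by_contra hcon
      push Not at hcon
      haveI := hCc
      exact hH (Subgroup.isCyclic_of_le hcon)
    have hCx : Subgroup.centralizer ({x} : Set G) ⊓ C ≤ Subgroup.center G := by
      rintro a ⟨ha, haC⟩
      rw [Subgroup.mem_center_iff]
      intro g
      have hxa : x * a = a * x := Subgroup.mem_centralizer_iff.1 ha x (Set.mem_singleton x)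
      rcases em (g ∈ C) with hg | hg
      · exact hCcomm g hg a haC
      · have hgx : g * x ∈ C := (Subgroup.mul_mem_iff_of_index_two hCi).2 (by simp [hg, hxC])
        calc g * a = (g * x) * a * x⁻¹ := by rw [mul_assoc g x a, hxa]; group
          _ = a * (g * x) * x⁻¹ := by rw [hCcomm _ hgx a haC]
          _ = a * g := by group
    have hHC : H ⊓ C ≠ ⊥ := by
      intro h0
      refine hH ?_
      have h1 : C.relIndex H ∣ 2 := hCi ▸ Subgroup.relIndex_dvd_index_of_normal C H
      have h2 : Nat.card H = C.relIndex H := by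
        rw [← card_mul_relIndex (inf_le_left : H ⊓ C ≤ H), h0, Subgroup.card_bot, one_mul, ← h0,
          inf_comm, Subgroup.inf_relIndex_right]
      rw [← h2] at h1
      rcases (Nat.dvd_prime Nat.prime_two).1 h1 with h3 | h3
      · haveI : Subsingleton H := (Nat.card_eq_one_iff_unique.1 h3).1
        infer_instance
      · exact isCyclic_of_prime_card h3
    obtain ⟨⟨t, ht⟩, hto⟩ := exists_prime_orderOf_dvd_card' (G := ↥(H ⊓ C)) 2 (by
      haveI : Nontrivial ↥(H ⊓ C) := (Subgroup.nontrivial_iff_ne_bot _).2 hHC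
      obtain ⟨k, hk, hc⟩ := (hP.to_subgroup (H ⊓ C)).nontrivial_iff_card.1 inferInstance
      exact hc ▸ dvd_pow_self 2 hk.ne')
    rw [← Subgroup.orderOf_coe] at hto
    have hto' : orderOf t = 2 := hto
    haveI := hCc
    have hZC : Subgroup.center G ≤ C := by
      intro z hz
      by_contra hzC
      refine hna ⟨⟨fun g k => ?_⟩⟩
      have hdec : ∀ y : G, y ∈ C ∨ ∃ c ∈ C, y = c * z := by
        intro y
        rcases em (y ∈ C) with hy | hy
        · exact Or.inl hy
        · exact Or.inr ⟨y * z⁻¹, (Subgroup.mul_mem_iff_of_index_two hCi).2 (by simp [hy, hzC]), by group⟩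
      have hzz : ∀ y : G, Commute z y := fun y => (Subgroup.mem_center_iff.1 hz y).symm
      have hcase : ∀ c : G, c ∈ C → ∀ y, Commute c y := by
        intro c hc y
        rcases hdec y with hy | ⟨d, hd, rfl⟩
        · exact hCcomm c hc y hy
        · exact Commute.mul_right (hCcomm c hc d hd) (hzz c).symm
      rcases hdec g with hg | ⟨c, hc, rfl⟩
      · exact (hcase g hg k).eq
      · exact ((hcase c hc k).mul_left (hzz k)).eq
    have hteq : Subgroup.center G = Subgroup.zpowers t := by
      exact CfsgLib.Core.ConjByOrder.eq_of_card_eq_cyclic (C := C) hZC (Subgroup.zpowers_le.2 ht.2)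
        (by rw [hZc, Nat.card_zpowers, hto'])
    intro y hy
    have hyx : y ∈ Subgroup.centralizer ({x} : Set G) :=
      Subgroup.centralizer_le (Set.singleton_subset_iff.2 hxH) hy
    have hxx : x ∈ Subgroup.centralizer ({x} : Set G) := by
      rw [Subgroup.mem_centralizer_singleton_iff]
    have hZH : Subgroup.center G ≤ H := hteq ▸ Subgroup.zpowers_le.2 ht.1
    rcases em (y ∈ C) with hyC | hyC
    · exact hZH (hCx ⟨hyx, hyC⟩)
    · have h1 : y * x⁻¹ ∈ C := (Subgroup.mul_mem_iff_of_index_two hCi).2 (by simp [hyC, hxC])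
      have h2 := hZH (hCx ⟨Subgroup.mul_mem _ hyx (Subgroup.inv_mem _ hxx), h1⟩)
      simpa using H.mul_mem h2 hxH

/-- Say that a group has self-centralizing non-cyclic subgroups when every non-cyclic subgroup H satisfies C_G(H) ≤ H. A finite non-abelian 2-group G of order 2^n has self-centralizing non-cyclic subgroups if and only if G has nilpotency class n − 1 (that is, G is dihedral, semidihedral or generalized quaternion). -/
theorem result {G : Type*} [Group G] [Finite G] (hna : ¬ IsMulCommutative G) (n : ℕ) (hG : Nat.card G = 2 ^ n) :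
    (∀ H : Subgroup G, ¬ IsCyclic ↥H → Subgroup.centralizer (H : Set G) ≤ H) ↔ (⊤ : Subgroup G).lowerCentralSeries (n - 2) ≠ ⊥ := by
  exact main hna n hG

end Cfsg.Agent.S3919
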