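import Cfsg.Statements.S3920
import Cfsg.Agent.Lib.CoreBasic
import Mathlib.GroupTheory.SpecificGroups.Dihedral
import Mathlib.Tactic.LinearCombination

set_option autoImplicit false
open Cfsg

namespace Cfsg.Agent.S3920

/-- Say that a group has self-centralizing non-cyclic subgroups when every non-cyclic subgroup H satisfies C_G(H) ≤ H. For n ≥ 3, the dihedral group of order 2n has self-centralizing non-cyclic subgroups if and only if n is odd or a power of 2. -/
theorem result (n : ℕ) (hn : 3 ≤ n) : (∀ H : Subgroup (DihedralGroup n), ¬ IsCyclic ↥H → Subgroup.centralizer (H : Set (DihedralGroup n)) ≤ H) ↔ (Odd n ∨ ∃ k : ℕ, n = 2 ^ k) := by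
  haveI : NeZero n := ⟨by omega⟩
  constructor
  · intro h
    by_contra hne
    push Not at hne
    obtain ⟨hodd, hpow⟩ := hne
    rw [← Nat.not_even_iff_odd, not_not] at hodd
    obtain ⟨m, rfl⟩ := hodd
    obtain ⟨k, o, ho, he⟩ := Nat.exists_eq_two_pow_mul_odd (show m + m ≠ 0 by omega)
    have ho1 : o ≠ 1 := fun e => hpow k (by rw [he, e, mul_one])
    obtain ⟨q, hq, hqo⟩ := Nat.exists_prime_and_dvd ho1
    have hq2 : Odd q := ho.of_dvd_nat hqo
    have hqn : q ∣ m + m := he ▸ Dvd.dvd.mul_left hqo _
    obtain ⟨c, hc⟩ := hqn
    let H : Subgroup (DihedralGroup (m + m)) :=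
      { carrier := {x | match x with
          | .r i => (q : ZMod (m + m)) * i = 0
          | .sr i => (q : ZMod (m + m)) * i = 0}
        one_mem' := mul_zero _
        mul_mem' := by
          rintro (a | a) (b | b) (ha : (q : ZMod (m + m)) * a = 0) (hb : (q : ZMod (m + m)) * b = 0)
          · show (q : ZMod (m + m)) * (a + b) = 0; rw [mul_add, ha, hb, add_zero]
          · show (q : ZMod (m + m)) * (b - a) = 0; rw [mul_sub, ha, hb, sub_zero]
          · show (q : ZMod (m + m)) * (a + b) = 0; rw [mul_add, ha, hb, add_zero]
          · show (q : ZMod (m + m)) * (b - a) = 0; rw [mul_sub, ha, hb, sub_zero]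
        inv_mem' := by
          rintro (a | a) (ha : (q : ZMod (m + m)) * a = 0)
          · show (q : ZMod (m + m)) * -a = 0; rw [mul_neg, ha, neg_zero]
          · exact ha }
    have hcm : c < m + m ∧ 2 * c < m + m := by
      have := hq.two_le
      obtain ⟨t, ht⟩ := hq2
      have h3 : 3 * c ≤ q * c := Nat.mul_le_mul_right c (by omega)
      omega
    have hc0 : ((c : ℕ) : ZMod (m + m)) ≠ 0 ∧ (2 * c : ℕ) ≠ (0 : ZMod (m + m)) := by
      have hc1 : 0 < c := by
        rcases Nat.eq_zero_or_pos c with e | e
        · rw [e, mul_zero] at hc; omega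
        · exact e
      constructor <;> rw [Ne, ZMod.natCast_eq_zero_iff] <;>
        exact fun hd => absurd (Nat.le_of_dvd (by omega) hd) (by omega)
    have hnc : ¬ IsCyclic H := fun hcy => by
      haveI := hcy
      have hr : DihedralGroup.r (c : ZMod (m + m)) ∈ H := by
        show (q : ZMod (m + m)) * c = 0
        rw [← Nat.cast_mul, ← hc, ZMod.natCast_self]
      have hs : DihedralGroup.sr (0 : ZMod (m + m)) ∈ H := mul_zero _
      letI := IsCyclic.commGroup (α := H)
      have := congrArg Subtype.val (mul_comm (⟨_, hr⟩ : H) ⟨_, hs⟩)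
      simp only [Subgroup.coe_mul, DihedralGroup.r_mul_sr, DihedralGroup.sr_mul_r, DihedralGroup.sr.injEq,
        zero_sub, zero_add] at this
      refine hc0.2 ?_
      rw [Nat.cast_mul, Nat.cast_two, two_mul]
      exact neg_eq_iff_add_eq_zero.1 this
    have hz : DihedralGroup.r (m : ZMod (m + m)) ∈ Subgroup.centralizer (H : Set (DihedralGroup (m + m))) := by
      have hmm : (m : ZMod (m + m)) + m = 0 := by rw [← Nat.cast_add, ZMod.natCast_self]
      rw [Subgroup.mem_centralizer_iff]
      rintro (a | a) -
      · simp [DihedralGroup.r_mul_r, add_comm]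
      · simp only [DihedralGroup.sr_mul_r, DihedralGroup.r_mul_sr, DihedralGroup.sr.injEq]
        linear_combination hmm
    have h1 : (q : ZMod (m + m)) * m = 0 := h H hnc hz
    obtain ⟨t, rfl⟩ := hq2
    rw [← Nat.cast_mul, ZMod.natCast_eq_zero_iff] at h1
    obtain ⟨s, hs⟩ := h1
    have : 2 * t + 1 = 2 * s := Nat.eq_of_mul_eq_mul_right (show 0 < m by omega) (by rw [hs]; ring)
    omega
  · intro hn' H hH z hz
    obtain ⟨a, ha⟩ : ∃ a, DihedralGroup.sr a ∈ H := by
      by_contra hne
      push Not at hne
      apply hH
      have hle : H ≤ Subgroup.zpowers (DihedralGroup.r (1 : ZMod n)) := by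
        rintro (a | a) hx
        · exact ⟨(a.val : ℤ), by simp [DihedralGroup.r_one_zpow]⟩
        · exact absurd hx (hne a)
      exact isCyclic_of_injective (Subgroup.inclusion hle) (Subgroup.inclusion_injective hle)
    have hcomm := Subgroup.mem_centralizer_iff.1 hz _ ha
    have key : ∀ t : ZMod n, t + t = 0 → DihedralGroup.r t ∈ H := by
      intro t ht
      rcases hn' with hodd | ⟨k, rfl⟩
      · have : t = 0 := by
          rw [← two_mul, show (2 : ZMod n) = ((2 : ℕ) : ZMod n) by norm_num] at ht
          exact ((ZMod.isUnit_iff_coprime 2 n).2 (Nat.coprime_two_left.2 hodd)).mul_right_eq_zero.1 ht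
        rw [this, DihedralGroup.r_zero]; exact one_mem _
      · -- the rotations in `H` contain the involution
        obtain ⟨b, hb, hb0⟩ : ∃ b, DihedralGroup.r b ∈ H ∧ b ≠ 0 := by
          by_contra hne
          push Not at hne
          apply hH
          have hle : H ≤ Subgroup.zpowers (DihedralGroup.sr a) := by
            rintro (b | b) hx
            · rw [hne b hx, DihedralGroup.r_zero]; exact one_mem _
            · have h1 : DihedralGroup.r (b - a) ∈ H := by
                rw [← DihedralGroup.sr_mul_sr]; exact mul_mem ha hx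
              rw [sub_eq_zero.1 (hne _ h1)]; exact Subgroup.mem_zpowers _
          exact isCyclic_of_injective (Subgroup.inclusion hle) (Subgroup.inclusion_injective hle)
        by_cases ht0 : t = 0
        · rw [ht0, DihedralGroup.r_zero]; exact one_mem _
        have hpg : IsPGroup 2 (DihedralGroup (2 ^ k)) := IsPGroup.of_card (n := k + 1) (by
          rw [DihedralGroup.nat_card, pow_succ'])
        obtain ⟨e, he⟩ := IsPGroup.iff_orderOf.1 hpg (DihedralGroup.r b)
        rcases Nat.eq_zero_or_pos e with rfl | he0
        · rw [pow_zero, orderOf_eq_one_iff, DihedralGroup.one_def, DihedralGroup.r.injEq] at he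
          exact absurd he hb0
        have hinv : orderOf (DihedralGroup.r b ^ (2 ^ (e - 1))) = 2 := by
          rw [orderOf_pow' _ (by positivity), he,
            Nat.gcd_eq_right (pow_dvd_pow 2 (Nat.sub_le _ _)), Nat.pow_div (Nat.sub_le _ _) (by norm_num),
            show e - (e - 1) = 1 by omega, pow_one]
        have ht2 : orderOf (DihedralGroup.r t) = 2 := by
          refine orderOf_eq_prime (by rw [pow_two, DihedralGroup.r_mul_r, ht, DihedralGroup.r_zero]) ?_
          rw [DihedralGroup.one_def, Ne, DihedralGroup.r.injEq]; exact ht0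
        -- an element of order 2 in the cyclic group of rotations is unique
        have huniq : ∀ u w : ZMod (2 ^ k), u + u = 0 → w + w = 0 → u ≠ 0 → w ≠ 0 → u = w := by
          intro u w hu hw hu0 hw0
          have hval : ∀ x : ZMod (2 ^ k), x + x = 0 → x ≠ 0 → x.val + x.val = 2 ^ k := by
            intro x hx hx0
            have h1 : ((x.val + x.val : ℕ) : ZMod (2 ^ k)) = 0 := by push_cast; simpa using hx
            rw [ZMod.natCast_eq_zero_iff] at h1
            obtain ⟨c, hc⟩ := h1
            have h2 := ZMod.val_lt x
            have h3 : 0 < x.val := Nat.pos_of_ne_zero fun e => hx0 ((ZMod.val_eq_zero x).1 e)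
            have hc2 : c < 2 := Nat.lt_of_mul_lt_mul_left (a := 2 ^ k) (by omega)
            interval_cases c <;> omega
          exact ZMod.val_injective _ (by have := hval u hu hu0; have := hval w hw hw0; omega)
        rw [DihedralGroup.r_pow] at hinv
        set u := b * ((2 ^ (e - 1) : ℕ) : ZMod (2 ^ k))
        have hu : u + u = 0 ∧ u ≠ 0 := by
          constructor
          · have := pow_orderOf_eq_one (DihedralGroup.r u)
            rw [hinv, pow_two, DihedralGroup.r_mul_r, DihedralGroup.one_def, DihedralGroup.r.injEq] at this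
            exact this
          · intro h0
            rw [h0, DihedralGroup.r_zero, orderOf_one] at hinv; omega
        rw [huniq t u ht hu.1 ht0 hu.2, ← DihedralGroup.r_pow]
        exact pow_mem hb _
    rcases z with t | t
    · refine key t ?_
      simp only [DihedralGroup.sr_mul_r, DihedralGroup.r_mul_sr, DihedralGroup.sr.injEq] at hcomm
      linear_combination hcomm
    · simp only [DihedralGroup.sr_mul_sr, DihedralGroup.r.injEq] at hcomm
      have h1 := key (t - a) (by linear_combination hcomm)
      have := mul_mem ha h1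
      rwa [DihedralGroup.sr_mul_r, add_sub_cancel] at this

end Cfsg.Agent.S3920
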