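import Cfsg.Statements.S3937
import Cfsg.Agent.Lib.CoreSubnormal

set_option autoImplicit false
open Cfsg
open scoped commutatorElement

namespace Cfsg.Agent.S3937

/-- Baer's characterization of the Fitting subgroup: in a finite group G, an element g lies in the Fitting subgroup if and only if g is a left Engel element, that is, for every x there is n with [x, g, g, …, g] = 1 (n entries g, [a, b] = aba⁻¹b⁻¹). -/
theorem result {G : Type*} [Group G] [Finite G] (g : G) :
    g ∈ Cfsg.fittingSubgroup G ↔ ∀ x : G, ∃ n : ℕ, (List.replicate n g).foldl (fun a b => a * b * a⁻¹ * b⁻¹) x = 1 := by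
  constructor
  · intro hg x
    haveI := CfsgLib.Core.isNilpotent_fittingSubgroup (G := G)
    haveI hFn : (Cfsg.fittingSubgroup G).Normal := CfsgLib.Core.normal_fittingSubgroup
    set F := Cfsg.fittingSubgroup G
    obtain ⟨n, hn⟩ := Subgroup.nilpotent_iff_lowerCentralSeries.mp (inferInstance : Group.IsNilpotent F)
    refine ⟨n + 1, ?_⟩
    have key : ∀ k, (List.replicate (k + 1) g).foldl (fun a b => a * b * a⁻¹ * b⁻¹) x ∈
        ((⊤ : Subgroup F).lowerCentralSeries k).map F.subtype := by
      intro k
      induction k with
      | zero =>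
        exact ⟨⟨x * g * x⁻¹ * g⁻¹, mul_mem (hFn.conj_mem g hg x) (inv_mem hg)⟩, Subgroup.mem_top _, rfl⟩
      | succ k ih =>
        rw [List.replicate_succ', List.foldl_append]
        obtain ⟨y, hy, hyx⟩ := ih
        refine ⟨⁅y, ⟨g, hg⟩⁆, Subgroup.commutator_mem_commutator hy (Subgroup.mem_top _), ?_⟩
        rw [map_commutatorElement, hyx]
        rfl
    obtain ⟨y, hy, hyx⟩ := key n
    rw [hn] at hy
    have hy1 : y = 1 := Subgroup.mem_bot.1 hy
    rw [← hyx, hy1, map_one]
  · intro hE
    refine CfsgLib.Core.le_fittingSubgroup_of_isSubnormal (A := Subgroup.zpowers g) ?_ ?_ (Subgroup.mem_zpowers g)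
    · suffices key : ∀ (n : ℕ) (H : Subgroup G), Nat.card H = n → g ∈ H →
          ((Subgroup.zpowers g).subgroupOf H).IsSubnormal from
        CfsgLib.Core.isSubnormal_of_subgroupOf_top (key _ ⊤ rfl (Subgroup.mem_top g))
      intro n
      induction n using Nat.strong_induction_on with
      | _ n ih =>
      intro H hn hgH
      subst hn
      set S := (Subgroup.zpowers g).subgroupOf H with hSdef
      by_contra hns
      have hSM : ∀ M : Subgroup H, S ≤ M ↔ (⟨g, hgH⟩ : H) ∈ M := by
        intro M
        have hS : S = Subgroup.zpowers (⟨g, hgH⟩ : H) := by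
          refine Subgroup.map_injective H.subtype_injective ?_
          rw [hSdef, Subgroup.map_subgroupOf_eq_of_le (Subgroup.zpowers_le.2 hgH), MonoidHom.map_zpowers]
          rfl
        rw [hS, Subgroup.zpowers_le]
      have hprop : ∀ K : Subgroup H, K ≠ ⊤ → S ≤ K → (S.subgroupOf K).IsSubnormal := by
        intro K hK hSK
        have hgK : g ∈ K.map H.subtype := ⟨⟨g, hgH⟩, (hSM K).1 hSK, rfl⟩
        have hlt : Nat.card (K.map H.subtype) < Nat.card H := by
          rw [Subgroup.card_map_of_injective H.subtype_injective]
          exact lt_of_le_of_ne (Subgroup.card_le_card_group K) fun e => hK (Subgroup.eq_top_of_card_eq K e)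
        have h1 := ih _ hlt (K.map H.subtype) rfl hgK
        let e := K.equivMapOfInjective H.subtype H.subtype_injective
        exact h1.comap e.toMonoidHom
      have huni := CfsgLib.Core.zipper hprop hns
      obtain ⟨M, hM, hSleM⟩ := (eq_top_or_exists_le_coatom S).resolve_left fun e => hns (e ▸ Subgroup.IsSubnormal.top)
      have hgM := (hSM M).1 hSleM
      have hMn : ¬ M.Normal := fun hMn => hns (by
        haveI := hMn
        exact CfsgLib.Core.isSubnormal_of_le_normal hSleM (hprop M hM.1 hSleM))
      have hNM : ∀ x : H, (∀ y ∈ M, x * y * x⁻¹ ∈ M) → x ∈ M := by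
        intro x hx
        by_contra hxM
        refine hMn (Subgroup.normalizer_eq_top_iff.1 ?_)
        have hxN : x ∈ Subgroup.normalizer (M : Set H) := by
          refine Subgroup.mem_normalizer_iff.2 fun y => ⟨hx y, fun hy => ?_⟩
          have h1 : M.map (MulAut.conj x).toMonoidHom = M := by
            refine CfsgLib.Core.eq_of_le_of_card_le (by rintro _ ⟨z, hz, rfl⟩; exact hx z hz) ?_
            rw [Subgroup.card_map_of_injective (MulAut.conj x).injective]
          obtain ⟨z, hz, hzy⟩ := h1.ge hy
          have : z = y := (MulAut.conj x).injective hzy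
          exact this ▸ hz
        exact hM.2 _ (lt_of_le_of_ne Subgroup.le_normalizer fun e => hxM (e.ge hxN))
      obtain ⟨x, hx⟩ : ∃ x : H, x * ⟨g, hgH⟩ * x⁻¹ ∉ M := by
        by_contra hne
        push Not at hne
        have hle : Subgroup.normalClosure ({⟨g, hgH⟩} : Set H) ≤ M := by
          rw [Subgroup.normalClosure, Subgroup.closure_le]
          intro y hy
          obtain ⟨a, ha, hconj⟩ := Group.mem_conjugatesOfSet_iff.1 hy
          rw [Set.mem_singleton_iff] at ha
          subst ha
          obtain ⟨c, rfl⟩ := isConj_iff.1 hconj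
          exact hne c
        have hS : S ≤ Subgroup.normalClosure ({⟨g, hgH⟩} : Set H) :=
          (hSM _).2 (Subgroup.subset_normalClosure rfl)
        exact hns (CfsgLib.Core.isSubnormal_of_le_normal hS
          (hprop _ (fun e => hM.1 (top_le_iff.1 (e ▸ hle))) hS))
      -- follow the Engel sequence
      set e : ℕ → H := fun k => (List.replicate k (⟨g, hgH⟩ : H)).foldl (fun a b => a * b * a⁻¹ * b⁻¹) x with he
      have hsucc : ∀ k, e (k + 1) = e k * ⟨g, hgH⟩ * (e k)⁻¹ * (⟨g, hgH⟩ : H)⁻¹ := fun k => by
        simp only [he, List.replicate_succ', List.foldl_append, List.foldl_cons, List.foldl_nil]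
      have hval : ∀ k, ((e k : H) : G) = (List.replicate k g).foldl (fun a b => a * b * a⁻¹ * b⁻¹) (x : G) := by
        intro k
        induction k with
        | zero => rfl
        | succ k ihk =>
          rw [hsucc, List.replicate_succ', List.foldl_append, List.foldl_cons, List.foldl_nil, ← ihk]
          rfl
      obtain ⟨N, hN⟩ := hE x
      have hbad : ∀ k, e k ∉ M := by
        intro k
        induction k with
        | zero =>
          intro h0
          exact hx (mul_mem (mul_mem h0 hgM) (inv_mem h0))
        | succ k ihk =>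
          intro hk
          have hgk : e k * ⟨g, hgH⟩ * (e k)⁻¹ ∈ M := by
            have := mul_mem hk hgM
            rwa [hsucc, inv_mul_cancel_right] at this
          -- `g` also lies in the conjugate of `M` by `(e k)⁻¹`
          refine ihk (inv_mem_iff.1 (hNM _ fun y hy => ?_))
          have hcoat : IsCoatom (M.map (MulAut.conj (e k)⁻¹).toMonoidHom) :=
            ((MulAut.conj (e k)⁻¹).mapSubgroup.isCoatom_iff M).2 hM
          have := huni _ M hcoat hM ((hSM _).2 ⟨_, hgk, by simp [mul_assoc]⟩) hSleM
          exact this.le ⟨y, hy, rfl⟩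
      exact hbad N (by
        have : e N = 1 := Subtype.ext ((hval N).trans hN)
        rw [this]; exact one_mem M)
    · letI := IsCyclic.commGroup (α := Subgroup.zpowers g)
      exact CommGroup.isNilpotent

end Cfsg.Agent.S3937
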