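import Cfsg.Statements.S3939
import Cfsg.Agent.Lib.CoreSubnormal
import Cfsg.Agent.Lib.CoreEqTop
import Cfsg.Agent.Lib.CharCN3

set_option autoImplicit false
set_option maxHeartbeats 400000
open Cfsg

namespace Cfsg.Agent.S3939

/-- In a finite group G the set of elements g such that the subgroup generated by g and x is nilpotent for every x ∈ G is exactly the hypercenter of G (the last term of the upper central series). -/
theorem result {G : Type*} [Group G] [Finite G] (g : G) :
    (∀ x : G, Group.IsNilpotent ↥(Subgroup.closure ({x, g} : Set G))) ↔ g ∈ ⨆ n : ℕ, Subgroup.upperCentralSeries G n := by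
  classical
  constructor
  · intro h
    refine CfsgLib.Core.mem_of_prime_power_zpowers_mem _ fun p y hy hp ⟨b, hb⟩ => ?_
    haveI := Fact.mk hp
    have hyn : ∀ x : G, Group.IsNilpotent (Subgroup.closure ({x, y} : Set G)) := fun x => by
      haveI := h x
      have hle : Subgroup.closure ({x, y} : Set G) ≤ Subgroup.closure ({x, g} : Set G) := by
        have h1 : x ∈ Subgroup.closure ({x, g} : Set G) := Subgroup.subset_closure (Or.inl rfl)
        have h2 : g ∈ Subgroup.closure ({x, g} : Set G) := Subgroup.subset_closure (Or.inr rfl)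
        rw [Subgroup.closure_le]
        intro z hz
        rcases hz with hz | hz
        · exact hz ▸ h1
        · rw [Set.mem_singleton_iff] at hz
          rw [hz]
          exact Subgroup.zpowers_le.2 h2 hy
      exact Group.nilpotent_of_mulEquiv (Subgroup.subgroupOfEquivOfLe hle)
    -- `y` commutes with elements of order prime to `p`
    have hcomm : ∀ x : G, (orderOf x).Coprime p → x * y = y * x := by
      intro x hx
      set H := Subgroup.closure ({x, y} : Set G)
      haveI := hyn x
      have hxH : x ∈ H := Subgroup.subset_closure (Set.mem_insert _ _)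
      have hyH : y ∈ H := Subgroup.subset_closure (Set.mem_insert_of_mem _ rfl)
      exact congrArg Subtype.val (CfsgLib.CN.commute_of_coprime_orderOf (⟨x, hxH⟩ : H) ⟨y, hyH⟩
        (by rw [Subgroup.orderOf_mk, Subgroup.orderOf_mk, hb]; exact hx.pow_right b))
    -- `y` lies in the `p`-core
    have hcore : y ∈ Cfsg.pCore p G := by
      refine CfsgLib.Core.baer_suzuki fun c => ?_
      set H := Subgroup.closure ({y, c * y * c⁻¹} : Set G)
      have hH : Group.IsNilpotent H := by
        haveI := hyn (c * y * c⁻¹)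
        have : H = Subgroup.closure ({c * y * c⁻¹, y} : Set G) := by rw [Set.pair_comm]
        rw [this]; infer_instance
      obtain ⟨R, hR⟩ : ∃ R : Sylow p H, True := ⟨Classical.arbitrary _, trivial⟩
      haveI : (R : Subgroup H).Normal :=
        (CfsgLib.Core.isNilpotent_iff_sylow_normal.1 hH) p inferInstance R
      haveI : Subsingleton (Sylow p H) := Sylow.unique_of_normal R inferInstance |>.instSubsingleton
      have hin : ∀ (z : G) (hz : z ∈ H), orderOf z = orderOf y → z ∈ (R : Subgroup H).map H.subtype := by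
        intro z hz ho
        have : IsPGroup p (Subgroup.zpowers (⟨z, hz⟩ : H)) :=
          IsPGroup.of_card (by rw [Nat.card_zpowers, Subgroup.orderOf_mk, ho, hb])
        obtain ⟨R', hR'⟩ := this.exists_le_sylow
        rw [Subsingleton.elim R' R] at hR'
        exact ⟨⟨z, hz⟩, hR' (Subgroup.mem_zpowers _), rfl⟩
      refine (R.2.map H.subtype).to_le ?_
      rw [Subgroup.closure_le]
      rintro z (rfl | rfl)
      · exact hin _ (Subgroup.subset_closure (Set.mem_insert _ _)) rfl
      · refine hin _ (Subgroup.subset_closure (Set.mem_insert_of_mem _ rfl)) ?_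
        exact (MulAut.conj c).orderOf_eq y
    -- the part of the `p`-core centralized by the elements of order prime to `p`
    set S := {x : G | (orderOf x).Coprime p}
    set A := Cfsg.pCore p G ⊓ Subgroup.centralizer S with hA
    haveI := CfsgLib.Core.normal_pCore (G := G) p
    haveI hAn : A.Normal := by
      refine ⟨fun a ha c => ⟨(inferInstance : (Cfsg.pCore p G).Normal).conj_mem a ha.1 c, ?_⟩⟩
      refine Subgroup.mem_centralizer_iff.2 fun x hx => ?_
      have hx' : c⁻¹ * x * c ∈ S := by
        show (orderOf _).Coprime p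
        have : c⁻¹ * x * c = MulAut.conj c⁻¹ x := by simp
        rw [this, MulEquiv.orderOf_eq]; exact hx
      have h1 := Subgroup.mem_centralizer_iff.1 ha.2 _ hx'
      calc x * (c * a * c⁻¹) = c * ((c⁻¹ * x * c) * a) * c⁻¹ := by group
        _ = c * (a * (c⁻¹ * x * c)) * c⁻¹ := by rw [h1]
        _ = c * a * c⁻¹ * x := by group
    obtain ⟨n, hn⟩ : ∃ n, ∀ m, Subgroup.upperCentralSeries G m ≤ Subgroup.upperCentralSeries G n := by
      obtain ⟨K, ⟨m₀, rfl⟩, hn⟩ := Set.exists_max_image (Set.range (Subgroup.upperCentralSeries G))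
        (fun K => Nat.card K) (Set.toFinite _) ⟨_, 0, rfl⟩
      refine ⟨m₀, fun m => ?_⟩
      rcases le_total m m₀ with hm | hm
      · exact Subgroup.upperCentralSeries_mono G hm
      · exact (CfsgLib.Core.eq_of_le_of_card_le (Subgroup.upperCentralSeries_mono G hm) (hn _ ⟨m, rfl⟩)).ge
    set Z := Subgroup.upperCentralSeries G n
    suffices hAZ : A ≤ Z from Subgroup.mem_iSup_of_mem n (hAZ ⟨hcore, Subgroup.mem_centralizer_iff.2 hcomm⟩)
    by_contra hne
    set q := QuotientGroup.mk' Z
    obtain ⟨P⟩ : Nonempty (Sylow p (G ⧸ Z)) := inferInstance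
    haveI hAqn : (A.map q).Normal := hAn.map q (QuotientGroup.mk'_surjective Z)
    have hAp : IsPGroup p (A.map q) := ((CfsgLib.Core.isPGroup_pCore p).to_le inf_le_left).map q
    have hAP : A.map q ≤ P := by
      obtain ⟨Q, hQ⟩ := hAp.exists_le_sylow
      obtain ⟨c, rfl⟩ := MulAction.exists_smul_eq (G ⧸ Z) Q P
      intro a ha
      rw [Sylow.coe_subgroup_smul, Subgroup.mem_pointwise_smul_iff_inv_smul_mem]
      refine hQ ?_
      have h := hAqn.conj_mem a ha c⁻¹
      rw [inv_inv] at h
      simpa [MulAut.smul_def] using h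
    haveI := P.2.isNilpotent
    have hne' : (A.map q).subgroupOf (P : Subgroup (G ⧸ Z)) ≠ ⊥ := fun e => hne (by
      have h1 := Subgroup.map_subgroupOf_eq_of_le hAP
      rw [e, Subgroup.map_bot] at h1
      intro a ha
      exact (QuotientGroup.eq_one_iff a).1 (Subgroup.mem_bot.1 (h1.ge ⟨a, ha, rfl⟩)))
    obtain ⟨⟨w, hwA, hwZ⟩, hw1⟩ := Subgroup.ne_bot_iff_exists_ne_one.1
      (CfsgLib.Core.nilpotent_inf_center_ne_bot (N := (A.map q).subgroupOf (P : Subgroup (G ⧸ Z))) hne')
    obtain ⟨a, haA, hwa⟩ := Subgroup.mem_subgroupOf.1 hwA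
    have hcen : q a ∈ Subgroup.center (G ⧸ Z) := by
      rw [Subgroup.mem_center_iff]
      suffices htop : (Subgroup.centralizer {q a}).comap q = ⊤ by
        intro v
        obtain ⟨v, rfl⟩ := QuotientGroup.mk'_surjective Z v
        exact Subgroup.mem_centralizer_singleton_iff.1 (Subgroup.mem_comap.1 (htop.ge (Subgroup.mem_top v)))
      rw [← Subgroup.index_eq_one]
      by_contra hidx
      obtain ⟨r, hr, hd⟩ := Nat.exists_prime_and_dvd hidx
      haveI := Fact.mk hr
      by_cases hrp : r = p
      · subst hrp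
        have hPle : (P : Subgroup (G ⧸ Z)) ≤ Subgroup.centralizer {q a} := fun v hv => by
          rw [Subgroup.mem_centralizer_singleton_iff, hwa]
          exact congrArg Subtype.val (Subgroup.mem_center_iff.1 hwZ ⟨v, hv⟩)
        refine P.not_dvd_index (hd.trans ?_)
        rw [← Subgroup.index_comap_of_surjective (P : Subgroup (G ⧸ Z)) (QuotientGroup.mk'_surjective Z)]
        exact Subgroup.index_dvd_of_le (Subgroup.comap_mono hPle)
      · obtain ⟨Q⟩ : Nonempty (Sylow r G) := inferInstance
        refine Q.not_dvd_index (hd.trans (Subgroup.index_dvd_of_le fun u hu => ?_))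
        obtain ⟨e, he⟩ := IsPGroup.iff_orderOf.1 Q.2 ⟨u, hu⟩
        rw [Subgroup.orderOf_mk] at he
        have huS : u ∈ S := by
          show (orderOf u).Coprime p
          rw [he]; exact ((Nat.coprime_primes hr hp).2 hrp).pow_left e
        rw [Subgroup.mem_comap, Subgroup.mem_centralizer_singleton_iff, ← map_mul, ← map_mul,
          Subgroup.mem_centralizer_iff.1 haA.2 u huS]
    exact hw1 (Subtype.ext (Subtype.ext (by
      rw [← hwa]
      refine (QuotientGroup.eq_one_iff a).2 (hn (n + 1) ?_)
      rw [Subgroup.mem_upperCentralSeries_succ_iff]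
      intro u
      rw [← QuotientGroup.eq_one_iff]
      show q (a * u * a⁻¹ * u⁻¹) = 1
      rw [map_mul, map_mul, map_mul, map_inv, map_inv, ← Subgroup.mem_center_iff.1 hcen (q u)]
      group)))
  · intro hg x
    obtain ⟨n, hn⟩ := (Subgroup.mem_iSup_of_directed (Monotone.directed_le (Subgroup.upperCentralSeries_mono G))).1 hg
    set H := Subgroup.closure ({x, g} : Set G)
    have hxH : x ∈ H := Subgroup.subset_closure (Set.mem_insert _ _)
    have hgH : g ∈ H := Subgroup.subset_closure (Set.mem_insert_of_mem _ rfl)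
    have hle : ∀ (k : ℕ) (u : H), (u : G) ∈ Subgroup.upperCentralSeries G k → u ∈ Subgroup.upperCentralSeries H k := by
      intro k
      induction k with
      | zero =>
        intro u hu
        rw [Subgroup.upperCentralSeries_zero, Subgroup.mem_bot] at hu ⊢
        exact Subtype.ext hu
      | succ k ih =>
        intro u hu
        rw [Subgroup.mem_upperCentralSeries_succ_iff] at hu ⊢
        exact fun v => ih _ (hu v)
    have hgn : (⟨g, hgH⟩ : H) ∈ Subgroup.upperCentralSeries H n := hle n _ hn
    set q := QuotientGroup.mk' (Subgroup.upperCentralSeries H n)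
    have hcyc : ∀ u : H, q u ∈ Subgroup.zpowers (q ⟨x, hxH⟩) := by
      have key : H ≤ ((Subgroup.zpowers (q ⟨x, hxH⟩)).comap q).map H.subtype := by
        rw [Subgroup.closure_le]
        rintro z (rfl | rfl)
        · exact ⟨⟨z, hxH⟩, Subgroup.mem_zpowers _, rfl⟩
        · refine ⟨⟨z, hgH⟩, ?_, rfl⟩
          have h1 : q (⟨z, hgH⟩ : H) = 1 := (QuotientGroup.eq_one_iff _).2 hgn
          exact Subgroup.mem_comap.2 (h1 ▸ one_mem _)
      intro u
      obtain ⟨v, hv, hvu⟩ := key u.2
      exact H.subtype_injective hvu ▸ hv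
    refine ⟨⟨n + 1, eq_top_iff.2 fun u _ => ?_⟩⟩
    rw [Subgroup.mem_upperCentralSeries_succ_iff]
    intro v
    rw [← QuotientGroup.eq_one_iff]
    show q (u * v * u⁻¹ * v⁻¹) = 1
    obtain ⟨i, hi⟩ := hcyc u
    obtain ⟨j, hj⟩ := hcyc v
    simp only [map_mul, map_inv, ← hi, ← hj]
    group

end Cfsg.Agent.S3939
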