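import Cfsg.Statements.S3941

set_option autoImplicit false
open Cfsg

namespace Cfsg.Agent.S3941

/-- Let n ≥ 5 and p an odd prime with p ≤ n, and suppose that every proper subgroup of the alternating group of degree n whose order is divisible by p has a normal Sylow p-subgroup. Then n = p. -/
theorem result (n p : ℕ) (hn : 5 ≤ n) [Fact p.Prime] (hp : p ≠ 2) (hpn : p ≤ n)
    (h : ∀ H : Subgroup ↥(alternatingGroup (Fin n)), H ≠ ⊤ → p ∣ Nat.card ↥H → Cfsg.IsPClosed p ↥H) : n = p := by
  by_contra hne
  obtain ⟨m, rfl⟩ : ∃ m, n = m + 1 := ⟨n - 1, by omega⟩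
  have hpm : p ≤ m := by omega
  set e : Fin m ≃ {x : Fin (m + 1) // x ≠ Fin.last m} := (finSuccAboveEquiv (Fin.last m))
  let φ : ↥(alternatingGroup (Fin m)) →* ↥(alternatingGroup (Fin (m + 1))) :=
    { toFun := fun g => ⟨g.1.extendDomain e, by
        rw [Equiv.Perm.mem_alternatingGroup, Equiv.Perm.sign_extendDomain,
          Equiv.Perm.mem_alternatingGroup.mp g.2]⟩
      map_one' := Subtype.ext (Equiv.Perm.extendDomain_one e)
      map_mul' := fun a b => Subtype.ext (Equiv.Perm.extendDomain_mul e a.1 b.1).symm }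
  have hinj : Function.Injective φ := fun a b hab =>
    Subtype.ext (Equiv.Perm.extendDomainHom_injective e (congrArg Subtype.val hab))
  haveI : Nontrivial (Fin m) := Fin.nontrivial_iff_two_le.mpr (by omega)
  haveI : Nontrivial (Fin (m + 1)) := Fin.nontrivial_iff_two_le.mpr (by omega)
  have hcm : 2 * Nat.card ↥(alternatingGroup (Fin m)) = m.factorial := by
    rw [two_mul_nat_card_alternatingGroup, Nat.card_perm, Nat.card_fin]
  have hcn : 2 * Nat.card ↥(alternatingGroup (Fin (m + 1))) = (m + 1).factorial := by
    rw [two_mul_nat_card_alternatingGroup, Nat.card_perm, Nat.card_fin]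
  have hp' : p.Prime := Fact.out
  have hpdvd : p ∣ Nat.card ↥(alternatingGroup (Fin m)) := by
    have h1 : p ∣ 2 * Nat.card ↥(alternatingGroup (Fin m)) :=
      hcm ▸ Nat.dvd_factorial hp'.pos hpm
    rcases hp'.dvd_mul.mp h1 with h2 | h2
    · exact absurd ((Nat.prime_dvd_prime_iff_eq hp' Nat.prime_two).mp h2) hp
    · exact h2
  have hcr : Nat.card ↥φ.range = Nat.card ↥(alternatingGroup (Fin m)) :=
    (Nat.card_congr (MonoidHom.ofInjective hinj).toEquiv).symm
  have htop : φ.range ≠ ⊤ := by
    intro ht
    rw [ht, Subgroup.card_top] at hcr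
    rw [hcr, hcm, Nat.factorial_succ] at hcn
    exact absurd (Nat.eq_of_mul_eq_mul_right (Nat.factorial_pos m) (by rw [one_mul]; exact hcn)) (by omega : (1 : ℕ) ≠ m + 1)
  have hcl := h φ.range htop (hcr.symm ▸ hpdvd)
  obtain ⟨P⟩ : Nonempty (Sylow p ↥(alternatingGroup (Fin m))) := inferInstance
  have hPn : (P : Subgroup ↥(alternatingGroup (Fin m))).Normal := by
    set E := (MonoidHom.ofInjective hinj)
    have hs : Function.Surjective E.toMonoidHom := E.surjective
    haveI := hcl (P.mapSurjective hs)
    have : (P : Subgroup ↥(alternatingGroup (Fin m))) =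
        ((P.mapSurjective hs : Sylow p ↥φ.range) : Subgroup ↥φ.range).comap E.toMonoidHom := by
      rw [Sylow.coe_mapSurjective]
      exact (Subgroup.comap_map_eq_self_of_injective E.injective _).symm
    rw [this]
    infer_instance
  rcases eq_or_lt_of_le (show 4 ≤ m by omega) with rfl | h5
  · -- degree four, `p = 3`
    obtain rfl : p = 3 := by
      rcases Nat.lt_or_ge p 4 with hlt | hge
      · have := hp'.two_le
        omega
      · obtain rfl : p = 4 := le_antisymm hpm hge
        exact absurd hp' (by decide)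
    have hcard : Nat.card ↥(P : Subgroup ↥(alternatingGroup (Fin 4))) = 3 := by
      rw [P.card_eq_multiplicity, show Nat.card ↥(alternatingGroup (Fin 4)) = 2 ^ 2 * 3 by
        have : Nat.factorial 4 = 24 := rfl
        omega]
      rw [Nat.factorization_mul (by decide) (by decide)]
      simp [Nat.prime_two.factorization_pow, Nat.prime_three.factorization, show (2 ^ 2 : ℕ) = 4 from rfl,
        Nat.factorization_eq_zero_of_not_dvd (show ¬ 3 ∣ 4 by decide)]
    classical
    haveI : Unique (Sylow 3 ↥(alternatingGroup (Fin 4))) := Sylow.unique_of_normal P hPn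
    have hsub : (Finset.univ.filter fun g : ↥(alternatingGroup (Fin 4)) => g ^ 3 = 1) ⊆
        Finset.univ.filter fun g => g ∈ (P : Subgroup ↥(alternatingGroup (Fin 4))) := by
      intro g hg
      simp only [Finset.mem_filter, Finset.mem_univ, true_and] at hg ⊢
      obtain ⟨Q, hQ⟩ := (IsPGroup.of_card (p := 3) (G := ↥(Subgroup.zpowers g))
        (n := (if g = 1 then 0 else 1)) (by
          rw [Nat.card_zpowers]
          split_ifs with h1
          · simp [h1]
          · exact orderOf_eq_prime hg h1)).exists_le_sylow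
      have hQP : Q = P := Subsingleton.elim _ _
      exact hQP ▸ hQ (Subgroup.mem_zpowers g)
    have h9 : (Finset.univ.filter fun g : ↥(alternatingGroup (Fin 4)) => g ^ 3 = 1).card = 9 := by
      decide +kernel
    have := Finset.card_le_card hsub
    rw [h9, ← Fintype.card_subtype, ← Nat.card_eq_fintype_card] at this
    have h3 : Nat.card {x // x ∈ (P : Subgroup ↥(alternatingGroup (Fin 4)))} = 3 := hcard
    omega
  · haveI : IsSimpleGroup ↥(alternatingGroup (Fin m)) :=
      alternatingGroup.isSimpleGroup (by rw [Nat.card_fin]; omega)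
    rcases hPn.eq_bot_or_eq_top with hbot | htop'
    · exact P.ne_bot_of_dvd_card hpdvd hbot
    · obtain ⟨k, hk⟩ := IsPGroup.iff_card.mp P.2
      rw [htop', Subgroup.card_top] at hk
      have h2 : 2 ∣ Nat.card ↥(alternatingGroup (Fin m)) := by
        have : 4 ∣ m.factorial := dvd_trans (by decide) (Nat.factorial_dvd_factorial (show 4 ≤ m by omega))
        omega
      rw [hk] at h2
      exact hp ((Nat.prime_dvd_prime_iff_eq Nat.prime_two hp').mp (Nat.prime_two.dvd_of_dvd_pow h2)).symm

end Cfsg.Agent.S3941
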