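import Cfsg.Statements.S3946
import Cfsg.Agent.Lib.FgsKegel

set_option autoImplicit false
open Cfsg

namespace Cfsg.Agent.S3946

/-- Call an automorphism α of order n of a group G splitting when x · α(x) · α²(x) ⋯ α^(n−1)(x) = 1 for every x ∈ G. A finite group admitting a splitting automorphism of prime order is nilpotent (this contains the case of a fixed-point-free automorphism of prime order). -/
theorem result {G : Type*} [Group G] [Finite G] (α : MulAut G) (hp : (orderOf α).Prime)
    (hsplit : ∀ x : G, (((List.range (orderOf α)).map (fun i : ℕ => (α ^ i) x)).prod = 1)) : Group.IsNilpotent G := by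
  set p := orderOf α with hpdef
  let φ : Subgroup.zpowers α →* MulAut G := (Subgroup.zpowers α).subtype
  set Γ := SemidirectProduct G (Subgroup.zpowers α) φ
  haveI : Finite Γ := Finite.of_equiv _ SemidirectProduct.equivProd.symm
  set H : Subgroup Γ := (SemidirectProduct.inl : G →* Γ).range with hH
  set x : Γ := SemidirectProduct.inr ⟨α, Subgroup.mem_zpowers α⟩ with hx
  haveI hHn : H.Normal := by
    rw [hH, SemidirectProduct.range_inl_eq_ker_rightHom]; infer_instance
  have hxH : x ∉ H := by
    rw [hH, SemidirectProduct.range_inl_eq_ker_rightHom, MonoidHom.mem_ker, hx, SemidirectProduct.rightHom_inr]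
    intro e
    have : α = 1 := congrArg Subtype.val e
    rw [hpdef, this, orderOf_one] at hp
    exact Nat.not_prime_one hp
  have hpow : ∀ (g : G) (n : ℕ), ((SemidirectProduct.inl g : Γ) * x) ^ n =
      SemidirectProduct.inl ((List.range n).map (fun i : ℕ => (α ^ i) g)).prod * x ^ n := by
    intro g n
    induction n with
    | zero => simp
    | succ n ih =>
      rw [pow_succ, ih, List.range_succ, List.map_append, List.prod_append, List.map_singleton, List.prod_singleton,
        map_mul, pow_succ]
      have hconj : x ^ n * SemidirectProduct.inl g = SemidirectProduct.inl ((α ^ n) g) * x ^ n := by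
        rw [hx, ← map_pow, ← mul_inv_eq_iff_eq_mul, ← map_inv, ← SemidirectProduct.inl_aut]
        rfl
      rw [show SemidirectProduct.inl ((List.range n).map (fun i : ℕ => (α ^ i) g)).prod * x ^ n *
        (SemidirectProduct.inl g * x) = SemidirectProduct.inl ((List.range n).map (fun i : ℕ => (α ^ i) g)).prod *
          (x ^ n * SemidirectProduct.inl g) * x by group, hconj]
      group
  have hN : Group.IsNilpotent H := by
    refine CfsgLib.Kegel.isNilpotent_of_splitting hp (Nat.card H) Γ H x le_rfl ?_ hxH ?_
    · rw [Subgroup.normalizer_eq_top_iff.2 hHn]; exact Subgroup.mem_top x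
    · rintro _ ⟨g, rfl⟩
      rw [hpow g p, hsplit g, map_one, one_mul, hx, ← map_pow,
        show (⟨α, Subgroup.mem_zpowers α⟩ : Subgroup.zpowers α) ^ p = 1 from Subtype.ext (pow_orderOf_eq_one α),
        map_one]
  exact Group.nilpotent_of_mulEquiv (MonoidHom.ofInjective (SemidirectProduct.inl_injective (φ := φ))).symm

end Cfsg.Agent.S3946
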