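import Cfsg.Statements.S3949
import Cfsg.Agent.Lib.CoreBasic

set_option autoImplicit false
open Cfsg

namespace Cfsg.Agent.S3949

/-- Let G be a finite group and α an automorphism of G of order 2 such that the elements g·α(g)⁻¹ generate G. Let j be a positive integer such that 2^j divides the order of no element inverted by α. Then the set of values of the j-th iterate of the map c ↦ c·α(c)⁻¹ is exactly the set of elements of odd order inverted by α. -/
theorem result {G : Type*} [Group G] [Finite G] (α : MulAut G) (hα : orderOf α = 2) (hG : Subgroup.closure (Set.range (fun c : G => c * (α c)⁻¹)) = ⊤)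
    (j : ℕ) (hj : ∀ g : G, α g = g⁻¹ → ¬ 2 ^ j ∣ orderOf g) :
    Set.range ((fun c : G => c * (α c)⁻¹)^[j]) = {g : G | Odd (orderOf g) ∧ α g = g⁻¹} := by
  set f := fun c : G => c * (α c)⁻¹ with hf
  have hα2 : ∀ c, α (α c) = c := fun c => by
    have := pow_orderOf_eq_one α
    rw [hα, pow_two] at this
    exact DFunLike.congr_fun this c
  have h1 : ∀ c, α (f c) = (f c)⁻¹ := fun c => by
    simp [hf, hα2, mul_inv_rev]
  have h2 : ∀ (n : ℕ) (g : G), α g = g⁻¹ → f^[n] g = g ^ (2 ^ n) := by
    intro n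
    induction n with
    | zero => intro g _; simp
    | succ n ih =>
      intro g hg
      rw [Function.iterate_succ_apply, show f g = g ^ 2 by simp [hf, hg, pow_two], ih _ (by rw [map_pow, hg, inv_pow]),
        ← pow_mul, ← pow_succ']
  obtain ⟨i, rfl⟩ : ∃ i, j = i + 1 := by
    rcases j with - | i
    · exact (hj 1 (by simp) (by simp)).elim
    · exact ⟨i, rfl⟩
  ext g
  constructor
  · rintro ⟨c, rfl⟩
    rw [Function.iterate_succ_apply, h2 i _ (h1 c)]
    refine ⟨?_, by rw [map_pow, h1, inv_pow]⟩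
    obtain ⟨e, m, hm, hord⟩ := Nat.exists_eq_two_pow_mul_odd (orderOf_pos (f c)).ne'
    have he : e ≤ i := by
      by_contra hlt
      exact hj _ (h1 c) (hord ▸ Dvd.dvd.mul_right (pow_dvd_pow 2 (by omega)) m)
    refine hm.of_dvd_nat (orderOf_dvd_of_pow_eq_one ?_)
    rw [← pow_mul, ← orderOf_dvd_iff_pow_eq_one, hord]
    exact mul_dvd_mul_right (pow_dvd_pow 2 he) m
  · rintro ⟨hodd, hg⟩
    have hco : (2 ^ (i + 1)).Coprime (orderOf g) := (Nat.coprime_two_left.2 hodd).pow_left _
    obtain ⟨k, hk⟩ := exists_pow_eq_self_of_coprime hco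
    refine ⟨g ^ k, ?_⟩
    rw [h2 _ _ (by rw [map_pow, hg, inv_pow]), ← pow_mul, mul_comm, pow_mul, hk]

end Cfsg.Agent.S3949
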