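import Cfsg.Statements.S3982
import Cfsg.Agent.Lib.CoreCoprime

set_option autoImplicit false
open Cfsg

namespace Cfsg.Agent.S3982

open scoped Pointwise

/-- Let p be an odd prime and G a finite group of even order divisible by p in which the centralizer of every non-identity p-element has odd order. If some nontrivial p-subgroup of G has a normalizer of even order, then the normalizer of every Sylow p-subgroup of G has even order. -/
theorem result {G : Type*} [Group G] [Finite G] (p : ℕ) [Fact p.Prime] (hp2 : p ≠ 2) (hpG : p ∣ Nat.card G) (h2G : 2 ∣ Nat.card G) (hC : ∀ g : G, g ≠ 1 → (∃ k : ℕ, orderOf g = p ^ k) → Odd (Nat.card ↥(Subgroup.centralizer ({g} : Set G)))) (Q : Subgroup G) (hQ : IsPGroup p ↥Q) (hQ1 : Q ≠ ⊥) (hev : Even (Nat.card ↥(Subgroup.normalizer (Q : Set G)))) (P : Sylow p G) : Even (Nat.card ↥(Subgroup.normalizer ((P : Subgroup G) : Set G))) := by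
  have hp := (Fact.out : p.Prime)
  haveI : Fact (Nat.Prime 2) := ⟨Nat.prime_two⟩
  obtain ⟨t0, ht0⟩ := exists_prime_orderOf_dvd_card' (G := (Subgroup.normalizer (Q : Set G))) 2 (even_iff_two_dvd.1 hev)
  set t := (t0 : G) with ht0'
  have ht : orderOf t = 2 := by rw [ht0', Subgroup.orderOf_coe, ht0]
  obtain ⟨R, ⟨hRp, hQR, htR⟩, hRmax⟩ := (Set.toFinite {R : Subgroup G | IsPGroup p R ∧ Q ≤ R ∧ t ∈ Subgroup.normalizer (R : Set G)}).exists_maximal
    ⟨Q, hQ, le_rfl, t0.2⟩
  by_cases hsyl : ¬ p ∣ R.index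
  · obtain ⟨g, hg⟩ := MulAction.exists_smul_eq G (hRp.toSylow hsyl) P
    rw [← hg, Sylow.coe_subgroup_smul, even_iff_two_dvd]
    have hmem : g * t * g⁻¹ ∈ Subgroup.normalizer ((MulAut.conj g • R : Subgroup G) : Set G) := by
      refine CfsgLib.Core.conj_smul_eq_self_iff.1 ?_
      rw [CfsgLib.Core.conj_smul_conj_smul, show g * t * g⁻¹ * g = g * t by group,
        ← CfsgLib.Core.conj_smul_conj_smul, CfsgLib.Core.conj_smul_of_mem_normalizer htR]
    have := Subgroup.orderOf_dvd_natCard _ hmem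
    rwa [show orderOf (g * t * g⁻¹) = 2 from ((MulAut.conj g).orderOf_eq t).trans ht] at this
  exfalso
  push Not at hsyl
  have hR1 : R ≠ ⊥ := fun e => hQ1 (le_bot_iff.1 (e ▸ hQR))
  have hpel : ∀ r ∈ R, r ≠ 1 → ∀ s : G, s * r = r * s → orderOf s ≠ 2 := by
    intro r hr hr1 s hs hs2
    obtain ⟨k, hk⟩ := IsPGroup.iff_orderOf.1 hRp ⟨r, hr⟩
    rw [Subgroup.orderOf_mk] at hk
    have h1 := Subgroup.orderOf_dvd_natCard _ (Subgroup.mem_centralizer_singleton_iff.2 hs : s ∈ Subgroup.centralizer ({r} : Set G))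
    rw [hs2] at h1
    exact Nat.not_even_iff_odd.2 (hC r hr1 ⟨k, hk⟩) (even_iff_two_dvd.2 h1)
  have ht' : t⁻¹ = t := inv_eq_of_mul_eq_one_right (by rw [← sq, ← ht, pow_orderOf_eq_one])
  have hconjR : ∀ r ∈ R, t * r * t⁻¹ ∈ R := fun r hr => (Subgroup.mem_normalizer_iff.1 htR r).1 hr
  -- `t` inverts `R`
  have hinv : ∀ r ∈ R, t * r * t⁻¹ = r⁻¹ := by
    let f : R → R := fun y => ⟨(y : G)⁻¹ * (t * y * t⁻¹), mul_mem (inv_mem y.2) (hconjR y y.2)⟩
    have hinj : Function.Injective f := by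
      intro y z h
      have h' : (y : G)⁻¹ * (t * y * t⁻¹) = (z : G)⁻¹ * (t * z * t⁻¹) := congrArg Subtype.val h
      by_contra hne
      have hw1 : (z : G) * (y : G)⁻¹ ≠ 1 := fun e => hne (Subtype.ext (mul_inv_eq_one.1 e).symm)
      refine hpel _ (mul_mem z.2 (inv_mem y.2)) hw1 t ?_ ht
      calc t * ((z : G) * (y : G)⁻¹) = (z : G) * ((z : G)⁻¹ * (t * z * t⁻¹)) * (t * (y : G)⁻¹) := by group
        _ = (z : G) * ((y : G)⁻¹ * (t * y * t⁻¹)) * (t * (y : G)⁻¹) := by rw [h']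
        _ = _ := by group
    intro r hr
    obtain ⟨z, hz⟩ := Finite.injective_iff_surjective.1 hinj ⟨r, hr⟩
    have hz' : (z : G)⁻¹ * (t * z * t⁻¹) = r := congrArg Subtype.val hz
    rw [← hz', ht']
    have htt : t * t = 1 := by rw [← sq, ← ht, pow_orderOf_eq_one]
    calc t * ((z : G)⁻¹ * (t * z * t)) * t = t * (z : G)⁻¹ * t * z * (t * t) := by group
      _ = _ := by rw [htt, mul_one, mul_inv_rev, mul_inv_rev, mul_inv_rev, inv_inv, ht']; group
  have hRab : R ≤ Subgroup.centralizer (R : Set G) := fun y hy => Subgroup.mem_centralizer_iff.2 fun z hz => by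
    have h := hinv _ (mul_mem hy hz)
    rw [show t * (y * z) * t⁻¹ = (t * y * t⁻¹) * (t * z * t⁻¹) by group, hinv y hy, hinv z hz, mul_inv_rev] at h
    simpa using congrArg (·⁻¹) h
  set C := Subgroup.centralizer (R : Set G) with hCdef
  set N := Subgroup.normalizer (R : Set G) with hN
  set A := Subgroup.zpowers t with hA
  have hAC : A ≤ Subgroup.normalizer (C : Set G) := (Subgroup.zpowers_le.2 htR).trans fun n hn =>
    Subgroup.mem_normalizer_fintype fun c hc => Subgroup.mem_centralizer_iff.2 fun r hr => by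
      have hr' : n⁻¹ * r * n ∈ R := by simpa using (Subgroup.mem_normalizer_iff.1 (inv_mem hn) r).1 hr
      show r * (n * c * n⁻¹) = n * c * n⁻¹ * r
      calc r * (n * c * n⁻¹) = n * ((n⁻¹ * r * n) * c) * n⁻¹ := by group
        _ = n * (c * (n⁻¹ * r * n)) * n⁻¹ := by rw [Subgroup.mem_centralizer_iff.1 hc _ hr']
        _ = _ := by group
  have hCodd : ¬ 2 ∣ Nat.card C := fun h => by
    obtain ⟨s, hs⟩ := exists_prime_orderOf_dvd_card' (G := C) 2 h
    obtain ⟨r, hr, hr1⟩ : ∃ r ∈ R, r ≠ 1 := by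
      by_contra hcon
      push Not at hcon
      exact hR1 ((Subgroup.eq_bot_iff_forall _).2 hcon)
    exact hpel r hr hr1 s (Subgroup.mem_centralizer_iff.1 s.2 r hr).symm (by rw [Subgroup.orderOf_coe, hs])
  have hcop : (Nat.card A).Coprime (Nat.card C) := by
    rw [Nat.card_zpowers, ht]
    exact Nat.prime_two.coprime_iff_not_dvd.2 hCodd
  have hAsol : Group.IsSolvable A := Group.isSolvable_of_comm fun s u => Subtype.ext (by
    obtain ⟨i, hi⟩ := s.2; obtain ⟨j, hj⟩ := u.2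
    simp only [Subgroup.coe_mul, ← hi, ← hj]
    exact (Commute.refl t).zpow_zpow i j)
  obtain ⟨S, hS⟩ := CfsgLib.Core.exists_invariant_sylow p hAC hcop (Or.inl hAsol)
  set S' := (S : Subgroup C).map C.subtype with hS'
  have hS'p : IsPGroup p S' := S.2.map _
  have hRS : R ≤ S' := by
    have hn : (R.subgroupOf C).Normal := ⟨fun r hr c => by
      refine Subgroup.mem_subgroupOf.2 ?_
      show (c : G) * r * (c : G)⁻¹ ∈ R
      rw [← Subgroup.mem_centralizer_iff.1 c.2 r (Subgroup.mem_subgroupOf.1 hr), mul_inv_cancel_right]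
      exact Subgroup.mem_subgroupOf.1 hr⟩
    intro r hr
    refine ⟨⟨r, hRab hr⟩, ?_, rfl⟩
    haveI : (Subgroup.comap C.subtype R).Normal := hn
    have h2 : IsPGroup p ((R.subgroupOf C) ⊔ (S : Subgroup C) : Subgroup C) :=
      (hRp.comap_subtype).to_sup_of_normal_left S.2
    exact S.3 h2 le_sup_right ▸ Subgroup.mem_sup_left (Subgroup.mem_subgroupOf.2 hr)
  have hRS' : R = S' := le_antisymm hRS (hRmax ⟨hS'p, hQR.trans hRS, hS (Subgroup.mem_zpowers t)⟩ hRS)
  -- `p` does not divide `|N : C|`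
  have hCN : C ≤ N := Subgroup.centralizer_le_normalizer _
  have hsplit : ∀ g ∈ N, ∃ c ∈ C, c⁻¹ * g ∈ N ⊓ Subgroup.centralizer ({t} : Set G) := by
    intro g hg
    have hu : g * t * g⁻¹ * t⁻¹ ∈ C := Subgroup.mem_centralizer_iff.2 fun r hr => by
      have hr' : g⁻¹ * r * g ∈ R := by simpa using (Subgroup.mem_normalizer_iff.1 (inv_mem hg) r).1 hr
      have hfw : t⁻¹ * r * t = r⁻¹ := by
        have := hinv r hr
        rw [ht'] at this ⊢
        exact this
      calc r * (g * t * g⁻¹ * t⁻¹) = g * t * g⁻¹ * t⁻¹ * (t * (g * (t⁻¹ * (g⁻¹ * r * g) * t) * g⁻¹) * t⁻¹) := by group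
        _ = g * t * g⁻¹ * t⁻¹ * (t * r⁻¹ * t⁻¹) := by
          rw [show t⁻¹ * (g⁻¹ * r * g) * t = (g⁻¹ * r * g)⁻¹ from by
            have := hinv _ hr'; rw [ht'] at this ⊢; exact this]
          group
        _ = _ := by rw [hinv _ (inv_mem hr), inv_inv]
    obtain ⟨c, hc, hcB⟩ := CfsgLib.Core.exists_conj_eq_of_coprime (A := A) (K := C) (B := Subgroup.zpowers (g * t * g⁻¹))
      hAC hcop (Or.inl hAsol) (Subgroup.zpowers_le.2 (by
        rw [show g * t * g⁻¹ = (g * t * g⁻¹ * t⁻¹) * t by group]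
        exact mul_mem (Subgroup.mem_sup_right hu) (Subgroup.mem_sup_left (Subgroup.mem_zpowers t))))
      (by rw [Nat.card_zpowers, Nat.card_zpowers]; exact (MulAut.conj g).orderOf_eq t)
    refine ⟨c, hc, N.mul_mem (N.inv_mem (hCN hc)) hg, Subgroup.mem_centralizer_singleton_iff.2 ?_⟩
    have hmem : c⁻¹ * (g * t * g⁻¹) * c ∈ A := CfsgLib.Core.mem_conj_smul.1 (hcB ▸ Subgroup.mem_zpowers _)
    obtain ⟨i, hi⟩ := hmem
    have hi' : t ^ i = c⁻¹ * (g * t * g⁻¹) * c := hi
    rcases Int.even_or_odd i with ⟨j, hj⟩ | ⟨j, hj⟩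
    · exfalso
      have h1 : t ^ i = 1 := by
        rw [hj, ← two_mul, zpow_mul, zpow_two, ← sq, ← ht, pow_orderOf_eq_one, one_zpow]
      have h2 : t = 1 := by
        calc t = g⁻¹ * (c * (c⁻¹ * (g * t * g⁻¹) * c) * c⁻¹) * g := by group
          _ = 1 := by rw [← hi', h1]; group
      rw [h2, orderOf_one] at ht
      omega
    · have h1 : t ^ i = t := by
        rw [hj, zpow_add, zpow_mul, zpow_two, ← sq, ← ht, pow_orderOf_eq_one, one_zpow, zpow_one, one_mul]
      rw [h1] at hi'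
      calc c⁻¹ * g * t = (c⁻¹ * (g * t * g⁻¹) * c) * (c⁻¹ * g) := by group
        _ = t * (c⁻¹ * g) := by rw [← hi']
  set D := N ⊓ Subgroup.centralizer ({t} : Set G) with hD
  have hDp : ¬ p ∣ Nat.card D := fun h => by
    obtain ⟨d, hd⟩ := exists_prime_orderOf_dvd_card' (G := D) p h
    have hd1 : (d : G) ≠ 1 := fun e => by
      rw [← Subgroup.orderOf_coe, e, orderOf_one] at hd; exact hp.ne_one hd.symm
    have h1 := Subgroup.orderOf_dvd_natCard _ (Subgroup.mem_centralizer_singleton_iff.2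
      (Subgroup.mem_centralizer_singleton_iff.1 d.2.2).symm : t ∈ Subgroup.centralizer ({(d : G)} : Set G))
    rw [ht] at h1
    exact Nat.not_even_iff_odd.2 (hC _ hd1 ⟨1, by rw [Subgroup.orderOf_coe, hd, pow_one]⟩) (even_iff_two_dvd.2 h1)
  haveI hCn : (C.subgroupOf N).Normal := inferInstance
  have hrel : ¬ p ∣ C.relIndex N := fun h => hDp (h.trans (by
    let f : D →* N ⧸ C.subgroupOf N := (QuotientGroup.mk' (C.subgroupOf N)).comp (Subgroup.inclusion inf_le_left)
    have hf : Function.Surjective f := fun q => by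
      obtain ⟨⟨g, hg⟩, rfl⟩ := QuotientGroup.mk_surjective q
      obtain ⟨c, hc, hcd⟩ := hsplit g hg
      refine ⟨⟨_, hcd⟩, QuotientGroup.eq.2 (Subgroup.mem_subgroupOf.2 ?_)⟩
      show (c⁻¹ * g)⁻¹ * g ∈ C
      rw [show (c⁻¹ * g)⁻¹ * g = g⁻¹ * c * g by group]
      have hgC := hCn.conj_mem ⟨c, hCN hc⟩ (Subgroup.mem_subgroupOf.2 hc) ⟨g⁻¹, inv_mem hg⟩
      simpa [Subgroup.mem_subgroupOf] using hgC
    exact Subgroup.card_dvd_of_surjective f hf))
  -- contradiction with maximality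
  have hidx : ¬ p ∣ (R.subgroupOf N).index := by
    show ¬ p ∣ R.relIndex N
    rw [← Subgroup.relIndex_mul_relIndex R C N hRab hCN]
    refine fun h => (hp.dvd_mul.1 h).elim ?_ hrel
    rw [hRS', hS', Subgroup.relIndex, Subgroup.subgroupOf, Subgroup.comap_map_eq_self_of_injective C.subtype_injective]
    exact S.not_dvd_index
  obtain ⟨T, hT⟩ := hRp.exists_le_sylow
  have hRT : R < (T : Subgroup G) := by
    refine lt_of_le_of_ne hT fun e => ?_
    rw [e] at hsyl
    exact T.not_dvd_index hsyl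
  obtain ⟨m, hm⟩ := T.2.exists_card_eq
  haveI : Group.IsNilpotent (T : Subgroup G) := T.2.isNilpotent
  have hnc := Group.normalizerCondition_of_isNilpotent (R.subgroupOf (T : Subgroup G))
    (lt_top_iff_ne_top.2 fun e => hRT.ne (le_antisymm hT (Subgroup.subgroupOf_eq_top.1 e)))
  obtain ⟨n, hnn, hnR⟩ := SetLike.exists_of_lt hnc
  have hnN : (n : G) ∈ N := Subgroup.mem_normalizer_fintype fun r hr => by
    have := (Subgroup.mem_normalizer_iff.1 hnn ⟨r, hT hr⟩).1 (Subgroup.mem_subgroupOf.2 hr)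
    exact Subgroup.mem_subgroupOf.1 this
  refine hnR (Subgroup.mem_subgroupOf.2 ?_)
  let PR : Sylow p N := (hRp.comap_subtype (H := R) (K := N)).toSylow hidx
  haveI : (PR : Subgroup N).Normal := Subgroup.normal_in_normalizer
  haveI := Sylow.unique_of_normal PR inferInstance
  obtain ⟨j, hj⟩ := IsPGroup.iff_orderOf.1 T.2 n
  obtain ⟨U, hU⟩ := (IsPGroup.of_card (n := j) (by rw [Nat.card_zpowers, Subgroup.orderOf_mk, Subgroup.orderOf_coe, hj]) :
    IsPGroup p (Subgroup.zpowers (⟨n, hnN⟩ : N))).exists_le_sylow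
  obtain rfl : U = PR := Subsingleton.elim _ _
  exact Subgroup.mem_subgroupOf.1 (hU (Subgroup.mem_zpowers _))

end Cfsg.Agent.S3982
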