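import Cfsg.Statements.S3983
import Cfsg.Agent.Lib.CoreBasic

set_option autoImplicit false
open scoped Pointwise
open Cfsg

namespace Cfsg.Agent.S3983

/-- Let P be a Sylow p-subgroup of the finite group G that meets each conjugate g P g⁻¹ with g outside N_G(P) trivially, and let U be a subgroup of G of order divisible by p. Then a Sylow p-subgroup Q of U has the same property inside U: Q meets each conjugate u Q u⁻¹ with u ∈ U outside N_U(Q) trivially. -/
theorem result {G : Type*} [Group G] [Finite G] (p : ℕ) [Fact p.Prime] (P : Sylow p G) (hTI : ∀ g : G, g ∉ Subgroup.normalizer ((P : Subgroup G) : Set G) → (P : Subgroup G) ⊓ (MulAut.conj g • (P : Subgroup G)) = ⊥) (U : Subgroup G) (hU : p ∣ Nat.card ↥U) (Q : Sylow p ↥U) : ∀ u : ↥U, u ∉ Subgroup.normalizer ((Q : Subgroup ↥U) : Set ↥U) → (Q : Subgroup ↥U) ⊓ (MulAut.conj u • (Q : Subgroup ↥U)) = ⊥ := by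
  intro u hu
  set Q' := (Q : Subgroup ↥U).map U.subtype with hQ'
  obtain ⟨R, hR⟩ := (Q.2.map U.subtype).exists_le_sylow
  rw [Subgroup.eq_bot_iff_forall]
  intro x hx
  by_contra hx1
  obtain ⟨hxQ, hxu⟩ := Subgroup.mem_inf.1 hx
  rw [CfsgLib.Core.mem_conj_smul] at hxu
  obtain ⟨a, ha⟩ := MulAction.exists_smul_eq G P R
  have h1 : (x : G) ∈ (R : Subgroup G) := hR ⟨x, hxQ, rfl⟩
  have h2 : (u : G)⁻¹ * x * u ∈ (R : Subgroup G) := hR ⟨_, hxu, by simp⟩
  rw [← ha, Sylow.coe_subgroup_smul, CfsgLib.Core.mem_conj_smul] at h1 h2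
  have hn : a⁻¹ * u * a ∈ Subgroup.normalizer ((P : Subgroup G) : Set G) := by
    by_contra hn
    have h3 : a⁻¹ * x * a ∈ (P : Subgroup G) ⊓ MulAut.conj (a⁻¹ * u * a) • (P : Subgroup G) := by
      refine ⟨h1, CfsgLib.Core.mem_conj_smul.2 ?_⟩
      rw [show (a⁻¹ * u * a)⁻¹ * (a⁻¹ * x * a) * (a⁻¹ * u * a) = a⁻¹ * ((u : G)⁻¹ * x * u) * a by group]
      exact h2
    rw [hTI _ hn, Subgroup.mem_bot, mul_assoc, inv_mul_eq_one, eq_comm, mul_eq_right] at h3
    exact hx1 (Subtype.ext h3)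
  refine hu (Subgroup.mem_normalizer_fintype fun y hy => ?_)
  have hy1 : (y : G) ∈ (R : Subgroup G) := hR ⟨y, hy, rfl⟩
  rw [← ha, Sylow.coe_subgroup_smul, CfsgLib.Core.mem_conj_smul] at hy1
  have hy2 : ((u * y * u⁻¹ : ↥U) : G) ∈ (R : Subgroup G) := by
    rw [← ha, Sylow.coe_subgroup_smul, CfsgLib.Core.mem_conj_smul]
    have := (Subgroup.mem_normalizer_iff.1 hn _).1 hy1
    simpa [mul_assoc] using this
  have hp : IsPGroup p ↥((R : Subgroup G).subgroupOf U) := R.2.comap_subtype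
  have hQR : (Q : Subgroup ↥U) ≤ (R : Subgroup G).subgroupOf U := fun z hz => hR ⟨z, hz, rfl⟩
  show u * y * u⁻¹ ∈ (Q : Subgroup ↥U)
  rw [← Q.3 hp hQR]
  exact Subgroup.mem_subgroupOf.2 hy2

end Cfsg.Agent.S3983
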