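import Cfsg.Statements.S3984
import Cfsg.Agent.Lib.CoreSZ

set_option autoImplicit false
open scoped Pointwise
open Cfsg

namespace Cfsg.Agent.S3984

/-- Let P be a Sylow p-subgroup of the finite group G that meets each conjugate g P g⁻¹ with g outside N_G(P) trivially, and let N be a normal subgroup of G of order prime to p. Then every Sylow p-subgroup Q of G ⧸ N meets each conjugate x Q x⁻¹ with x outside its normalizer trivially. -/
theorem result {G : Type*} [Group G] [Finite G] (p : ℕ) [Fact p.Prime] (P : Sylow p G) (hTI : ∀ g : G, g ∉ Subgroup.normalizer ((P : Subgroup G) : Set G) → (P : Subgroup G) ⊓ (MulAut.conj g • (P : Subgroup G)) = ⊥) (N : Subgroup G) [N.Normal] (hN : (Nat.card ↥N).Coprime p) (Q : Sylow p (G ⧸ N)) : ∀ x : G ⧸ N, x ∉ Subgroup.normalizer ((Q : Subgroup (G ⧸ N)) : Set (G ⧸ N)) → (Q : Subgroup (G ⧸ N)) ⊓ (MulAut.conj x • (Q : Subgroup (G ⧸ N))) = ⊥ := by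
  intro x hx
  obtain ⟨g, rfl⟩ := QuotientGroup.mk_surjective x
  obtain ⟨q, hq⟩ := MulAction.exists_smul_eq (G ⧸ N) (P.mapSurjective (QuotientGroup.mk'_surjective N)) Q
  obtain ⟨h, rfl⟩ := QuotientGroup.mk_surjective q
  -- replace `P` by the conjugate mapping onto `Q`
  set R := h • P with hR
  have hmemR : ∀ z : G, z ∈ (R : Subgroup G) ↔ h⁻¹ * z * h ∈ (P : Subgroup G) := fun z => by
    rw [hR, Sylow.coe_subgroup_smul, CfsgLib.Core.mem_conj_smul]
  have hQmem : ∀ z : G ⧸ N, z ∈ (Q : Subgroup (G ⧸ N)) ↔ z ∈ (R : Subgroup G).map (QuotientGroup.mk' N) := by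
    intro z
    rw [← hq, Sylow.coe_subgroup_smul, Sylow.coe_mapSurjective, CfsgLib.Core.mem_conj_smul, hR,
      Sylow.coe_subgroup_smul, CfsgLib.Core.map_conj_smul, CfsgLib.Core.mem_conj_smul]
    rfl
  have hTI' : ∀ a : G, ∀ v ∈ (R : Subgroup G), a * v * a⁻¹ ∈ (R : Subgroup G) → v ≠ 1 →
      a ∈ Subgroup.normalizer ((R : Subgroup G) : Set G) := by
    intro a v hv hav hv1
    rw [hmemR] at hv hav
    have hn : h⁻¹ * a * h ∈ Subgroup.normalizer ((P : Subgroup G) : Set G) := by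
      by_contra hn
      have h3 : h⁻¹ * (a * v * a⁻¹) * h ∈ (P : Subgroup G) ⊓ MulAut.conj (h⁻¹ * a * h) • (P : Subgroup G) :=
        ⟨hav, CfsgLib.Core.mem_conj_smul.2 (by
          rw [show (h⁻¹ * a * h)⁻¹ * (h⁻¹ * (a * v * a⁻¹) * h) * (h⁻¹ * a * h) = h⁻¹ * v * h by group]; exact hv)⟩
      rw [hTI _ hn, Subgroup.mem_bot] at h3
      refine hv1 ?_
      calc v = a⁻¹ * (h * (h⁻¹ * (a * v * a⁻¹) * h) * h⁻¹) * a := by group
        _ = 1 := by rw [h3]; group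
    refine Subgroup.mem_normalizer_fintype fun z hz => ?_
    show a * z * a⁻¹ ∈ (R : Subgroup G)
    have := (Subgroup.mem_normalizer_iff.1 hn _).1 ((hmemR z).1 hz)
    rw [hmemR]
    simpa [mul_assoc] using this
  rw [Subgroup.eq_bot_iff_forall]
  intro y hy
  by_contra hy1
  obtain ⟨hyQ, hyx⟩ := Subgroup.mem_inf.1 hy
  rw [CfsgLib.Core.mem_conj_smul, hQmem] at hyx
  rw [hQmem] at hyQ
  obtain ⟨v, hv, rfl⟩ := hyQ
  obtain ⟨w, hw, hwv⟩ := hyx
  set u := g * w * g⁻¹ with hu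
  have huv : (u : G ⧸ N) = (v : G ⧸ N) := by
    have hwv' : (w : G ⧸ N) = (g : G ⧸ N)⁻¹ * v * g := hwv
    rw [hu]
    simp only [QuotientGroup.mk_mul, QuotientGroup.mk_inv]
    rw [hwv']; group
  obtain ⟨a, ha⟩ := IsPGroup.iff_orderOf.1 R.2 ⟨v, hv⟩
  obtain ⟨b, hb⟩ := IsPGroup.iff_orderOf.1 R.2 ⟨w, hw⟩
  rw [Subgroup.orderOf_mk] at ha hb
  -- the order of a `p`-element is the order of its image
  have hkeep : ∀ (z : G) (c : ℕ), orderOf z = p ^ c → orderOf (z : G ⧸ N) = orderOf z := by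
    intro z c hc
    refine Nat.dvd_antisymm (orderOf_map_dvd (QuotientGroup.mk' N) z) (orderOf_dvd_of_pow_eq_one ?_)
    set d := orderOf (z : G ⧸ N)
    have hzd : z ^ d ∈ N := (QuotientGroup.eq_one_iff _).1 (by rw [QuotientGroup.mk_pow, pow_orderOf_eq_one])
    refine orderOf_eq_one_iff.1 (Nat.eq_one_of_dvd_coprimes ((hN.symm.pow_left c)) (hc ▸ orderOf_pow_dvd d) ?_)
    have := orderOf_dvd_natCard (⟨z ^ d, hzd⟩ : N)
    rwa [Subgroup.orderOf_mk] at this
  have hou : orderOf u = p ^ b := by rw [hu, show g * w * g⁻¹ = MulAut.conj g w from rfl, MulEquiv.orderOf_eq, hb]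
  have hord : orderOf u = orderOf v := by rw [← hkeep u b hou, huv, hkeep v a ha]
  have hn0 : u * v⁻¹ ∈ N := by
    rw [← QuotientGroup.eq_one_iff, QuotientGroup.mk_mul, QuotientGroup.mk_inv, huv, mul_inv_cancel]
  obtain ⟨k, hk, hkB⟩ := CfsgLib.Core.exists_conj_eq_of_coprime (A := Subgroup.zpowers v) (K := N)
    (B := Subgroup.zpowers u) (by rw [Subgroup.normalizer_eq_top]; exact le_top)
    (by rw [Nat.card_zpowers, ha]; exact (hN.symm.pow_left a))
    (Or.inl (Group.isSolvable_of_comm fun s t => Subtype.ext (by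
      obtain ⟨i, hi⟩ := s.2; obtain ⟨j, hj⟩ := t.2
      simp only [Subgroup.coe_mul, ← hi, ← hj]
      exact (Commute.refl v).zpow_zpow i j)))
    (Subgroup.zpowers_le.2 (by
      rw [show u = (u * v⁻¹) * v by group]
      exact mul_mem (Subgroup.mem_sup_right hn0) (Subgroup.mem_sup_left (Subgroup.mem_zpowers v))))
    (by rw [Nat.card_zpowers, Nat.card_zpowers, hord])
  have hmem : k * v * k⁻¹ ∈ Subgroup.zpowers u := by
    rw [← hkB, CfsgLib.Core.mem_conj_smul]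
    simpa [mul_assoc] using Subgroup.mem_zpowers v
  have h4 : (g⁻¹ * k) * v * (g⁻¹ * k)⁻¹ ∈ (R : Subgroup G) := by
    obtain ⟨i, hi⟩ := hmem
    have hi' : u ^ i = k * v * k⁻¹ := hi
    rw [show (g⁻¹ * k) * v * (g⁻¹ * k)⁻¹ = g⁻¹ * (k * v * k⁻¹) * g by group, ← hi', hu, conj_zpow]
    simpa [mul_assoc] using zpow_mem hw i
  have hv1 : v ≠ 1 := fun e => hy1 (by rw [e, map_one])
  have hgk := hTI' _ v hv h4 hv1
  refine hx ?_
  have h5 : ((g⁻¹ * k : G) : G ⧸ N) ∈ Subgroup.normalizer ((Q : Subgroup (G ⧸ N)) : Set (G ⧸ N)) := by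
    rw [show (Q : Subgroup (G ⧸ N)) = (R : Subgroup G).map (QuotientGroup.mk' N) from Subgroup.ext hQmem]
    exact Subgroup.le_normalizer_map _ ⟨g⁻¹ * k, hgk, rfl⟩
  rw [QuotientGroup.mk_mul, QuotientGroup.mk_inv, (QuotientGroup.eq_one_iff k).2 hk, mul_one] at h5
  exact inv_mem_iff.1 h5

end Cfsg.Agent.S3984
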