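import Cfsg.Statements.S3985
import Cfsg.Agent.Lib.CoreBasic
import Mathlib.NumberTheory.Basic

set_option autoImplicit false
open scoped Pointwise
open Cfsg

namespace Cfsg.Agent.S3985

/-- An element of the normaliser of a cyclic Sylow subgroup fixing a nontrivial element fixes all. -/
theorem fixed {G : Type*} [Group G] [Finite G] {p : ℕ} [Fact p.Prime] (P : Sylow p G) {x c g : G}
    (hx : x ∈ (P : Subgroup G)) (hx1 : x ≠ 1) (hc : c ∈ (P : Subgroup G))
    (hgen : ∀ y : (P : Subgroup G), y ∈ Subgroup.zpowers (⟨c, hc⟩ : (P : Subgroup G)))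
    (hgN : g ∈ Subgroup.normalizer ((P : Subgroup G) : Set G)) (hgx : g * x = x * g)
    (hgc : g * c * g⁻¹ ∈ (P : Subgroup G)) : g * c * g⁻¹ = c := by
  have hp := (Fact.out : p.Prime)
  obtain ⟨n, hn⟩ := IsPGroup.iff_orderOf.1 P.2 ⟨c, hc⟩
  rw [Subgroup.orderOf_mk] at hn
  obtain ⟨k, hk⟩ := hgen ⟨_, hgc⟩
  have hk' : c ^ k = g * c * g⁻¹ := congrArg Subtype.val hk
  obtain ⟨j, hj⟩ := hgen ⟨x, hx⟩
  have hj' : c ^ j = x := congrArg Subtype.val hj
  have hpk : (p : ℤ) ∣ k - 1 := by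
    have h1 : c ^ (k * j - j) = 1 := by
      rw [zpow_sub, zpow_mul, hk', conj_zpow, hj', hgx, mul_inv_cancel_right, mul_inv_cancel]
    have h2 : (p : ℤ) ^ n ∣ j * (k - 1) := by
      have := orderOf_dvd_iff_zpow_eq_one.2 h1
      rw [hn] at this
      push_cast at this
      rw [show j * (k - 1) = k * j - j by ring]
      exact this
    by_contra hcon
    have hcop : IsCoprime ((p : ℤ) ^ n) (k - 1) :=
      ((Nat.prime_iff_prime_int.1 hp).coprime_iff_not_dvd.2 hcon).pow_left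
    refine hx1 (hj' ▸ orderOf_dvd_iff_zpow_eq_one.1 ?_)
    rw [hn]
    push_cast
    exact hcop.dvd_of_dvd_mul_right h2
  have hit : ∀ i : ℕ, g ^ i * c * (g ^ i)⁻¹ = c ^ (k ^ i) := by
    intro i
    induction i with
    | zero => simp
    | succ i ih =>
      rw [pow_succ', show g * g ^ i * c * (g * g ^ i)⁻¹ = g * (g ^ i * c * (g ^ i)⁻¹) * g⁻¹ by group, ih,
        ← conj_zpow, ← hk', ← zpow_mul, ← pow_succ']
  have hcomm : ∀ i, p ^ n ∣ i → Commute (g ^ i) c := by
    rintro i ⟨l, rfl⟩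
    have h1 : g ^ (p ^ n * l) * c * (g ^ (p ^ n * l))⁻¹ = c := by
      rw [hit]
      have h2 : c ^ (k ^ (p ^ n * l) - 1) = 1 := by
        refine orderOf_dvd_iff_zpow_eq_one.1 ?_
        rw [hn]
        push_cast
        have h3 := dvd_sub_pow_of_dvd_sub hpk n
        rw [one_pow] at h3
        have h4 : k ^ p ^ n - 1 ∣ k ^ (p ^ n * l) - 1 := by
          rw [pow_mul]; simpa using sub_dvd_pow_sub_pow (k ^ p ^ n) 1 l
        exact ((pow_dvd_pow (p : ℤ) (by omega : n ≤ n + 1)).trans h3).trans h4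
      rw [zpow_sub, zpow_one, mul_inv_eq_one] at h2
      exact h2
    exact mul_inv_eq_iff_eq_mul.1 h1
  -- split off the `p`-part
  obtain ⟨a, m, hm, ho⟩ := Nat.exists_eq_pow_mul_and_not_dvd (orderOf_pos g).ne' p hp.ne_one
  have hgm : Commute (g ^ m) c := by
    have hpg : IsPGroup p (Subgroup.zpowers (g ^ m)) := IsPGroup.of_card (n := a) (by
      have hm0 : m ≠ 0 := fun e => hm (e ▸ dvd_zero p)
      rw [Nat.card_zpowers, orderOf_pow' g hm0, ho, Nat.gcd_mul_left_left, Nat.mul_div_cancel _ (Nat.pos_of_ne_zero hm0)])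
    have hsup : IsPGroup p (Subgroup.zpowers (g ^ m) ⊔ (P : Subgroup G) : Subgroup G) :=
      hpg.to_sup_of_normal_right' P.2 (Subgroup.zpowers_le.2 (pow_mem hgN m))
    have hmem : g ^ m ∈ (P : Subgroup G) := P.3 hsup le_sup_right ▸ Subgroup.mem_sup_left (Subgroup.mem_zpowers _)
    obtain ⟨i, hi⟩ := hgen ⟨_, hmem⟩
    have hi' : c ^ i = g ^ m := congrArg Subtype.val hi
    rw [← hi']
    exact (Commute.refl c).zpow_left i
  have hbig : Commute (g ^ p ^ (n + a)) c := hcomm _ (pow_dvd_pow p (Nat.le_add_right n a))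
  have hcop : Nat.Coprime (p ^ (n + a)) m := ((hp.coprime_iff_not_dvd).2 hm).pow_left _
  obtain ⟨u, v, huv⟩ := Nat.Coprime.isCoprime hcop
  have hg : g = (g ^ p ^ (n + a)) ^ u * (g ^ m) ^ v := by
    rw [← zpow_natCast g, ← zpow_natCast g m, ← zpow_mul, ← zpow_mul, ← zpow_add, mul_comm _ u,
      mul_comm _ v, huv, zpow_one]
  rw [mul_inv_eq_iff_eq_mul, hg]
  exact (hbig.zpow_left u).mul_left (hgm.zpow_left v)

/-- Let P be a cyclic Sylow p-subgroup of the finite group G. Then P meets each conjugate g P g⁻¹ with g outside N_G(P) trivially if and only if P is weakly self-centralizing: C_G(x) = C_G(P) for every non-identity x ∈ P. -/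
theorem result {G : Type*} [Group G] [Finite G] (p : ℕ) [Fact p.Prime] (P : Sylow p G) (hcyc : IsCyclic ↥(P : Subgroup G)) : (∀ g : G, g ∉ Subgroup.normalizer ((P : Subgroup G) : Set G) → (P : Subgroup G) ⊓ (MulAut.conj g • (P : Subgroup G)) = ⊥) ↔ ∀ x : G, x ∈ (P : Subgroup G) → x ≠ 1 → Subgroup.centralizer ({x} : Set G) = Subgroup.centralizer ((P : Subgroup G) : Set G) := by
  have hp := (Fact.out : p.Prime)
  haveI := hcyc
  have hcomm : ∀ a ∈ (P : Subgroup G), ∀ b ∈ (P : Subgroup G), a * b = b * a := fun a ha b hb => by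
    letI := IsCyclic.commGroup (α := (P : Subgroup G))
    exact congrArg Subtype.val (mul_comm (⟨a, ha⟩ : (P : Subgroup G)) ⟨b, hb⟩)
  constructor
  · intro hTI x hx hx1
    refine le_antisymm ?_ (Subgroup.centralizer_le (Set.singleton_subset_iff.2 hx))
    intro g hg
    have hgx := Subgroup.mem_centralizer_singleton_iff.1 hg
    have hgN : g ∈ Subgroup.normalizer ((P : Subgroup G) : Set G) := by
      by_contra hgN
      have h1 : x ∈ (P : Subgroup G) ⊓ MulAut.conj g • (P : Subgroup G) :=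
        ⟨hx, CfsgLib.Core.mem_conj_smul.2 (by rw [mul_assoc, ← hgx, inv_mul_cancel_left]; exact hx)⟩
      rw [hTI g hgN, Subgroup.mem_bot] at h1
      exact hx1 h1
    obtain ⟨⟨c, hc⟩, hgen⟩ := hcyc.exists_generator
    have hgc : g * c * g⁻¹ ∈ (P : Subgroup G) := (Subgroup.mem_normalizer_iff.1 hgN c).1 hc
    suffices hfix : g * c * g⁻¹ = c by
      refine Subgroup.mem_centralizer_iff.2 fun y hy => ?_
      obtain ⟨i, hi⟩ := hgen ⟨y, hy⟩
      have hi' : c ^ i = y := congrArg Subtype.val hi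
      rw [← hi']
      exact ((show Commute g c from mul_inv_eq_iff_eq_mul.1 hfix).zpow_right i).symm.eq
    exact fixed P hx hx1 hc hgen hgN hgx hgc
  · intro hC g hgN
    rw [Subgroup.eq_bot_iff_forall]
    intro y hy
    by_contra hy1
    obtain ⟨hyP, hyg⟩ := Subgroup.mem_inf.1 hy
    rw [CfsgLib.Core.mem_conj_smul] at hyg
    refine hgN (Subgroup.mem_normalizer_fintype fun z hz => ?_)
    show g * z * g⁻¹ ∈ (P : Subgroup G)
    have hwy : g * z * g⁻¹ ∈ Subgroup.centralizer ({y} : Set G) := by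
      refine Subgroup.mem_centralizer_singleton_iff.2 ?_
      calc g * z * g⁻¹ * y = g * (z * (g⁻¹ * y * g)) * g⁻¹ := by group
        _ = g * ((g⁻¹ * y * g) * z) * g⁻¹ := by rw [hcomm z hz _ hyg]
        _ = y * (g * z * g⁻¹) := by group
    rw [hC y hyP hy1] at hwy
    obtain ⟨a, ha⟩ := IsPGroup.iff_orderOf.1 P.2 ⟨z, hz⟩
    rw [Subgroup.orderOf_mk] at ha
    have hwp : IsPGroup p (Subgroup.zpowers (g * z * g⁻¹)) :=
      IsPGroup.of_card (n := a) (by rw [Nat.card_zpowers, show g * z * g⁻¹ = MulAut.conj g z from rfl, MulEquiv.orderOf_eq, ha])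
    have hsup : IsPGroup p (Subgroup.zpowers (g * z * g⁻¹) ⊔ (P : Subgroup G) : Subgroup G) :=
      hwp.to_sup_of_normal_right' P.2 (Subgroup.zpowers_le.2 (Subgroup.centralizer_le_normalizer _ hwy))
    rw [← P.3 hsup le_sup_right]
    exact Subgroup.mem_sup_left (Subgroup.mem_zpowers _)

end Cfsg.Agent.S3985
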