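import Cfsg.Statements.S3986
import Cfsg.Agent.Lib.CoreEqTop
import Cfsg.Agent.Lib.CoreTransfer

set_option autoImplicit false
open Cfsg

namespace Cfsg.Agent.S3986

/-- Let p be a prime and G a finite group. Then some Sylow p-subgroup of G is a direct factor of G (it is normal and has a normal complement) if and only if every element of p-power order commutes with every element whose order is a power of a prime other than p. -/
theorem result {G : Type*} [Group G] [Finite G] (p : ℕ) [Fact p.Prime] : (∃ (P : Sylow p G) (K : Subgroup G), (P : Subgroup G).Normal ∧ K.Normal ∧ (P : Subgroup G) ⊓ K = ⊥ ∧ (P : Subgroup G) ⊔ K = ⊤) ↔ ∀ x y : G, (∃ a : ℕ, orderOf x = p ^ a) → (∃ q b : ℕ, q.Prime ∧ q ≠ p ∧ orderOf y = q ^ b) → x * y = y * x := by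
  constructor
  · rintro ⟨P, K, hPn, hKn, hi, hj⟩ x y ⟨a, hx⟩ ⟨q, b, hq, hqp, hy⟩
    haveI := hPn
    haveI := hKn
    have hxP : x ∈ (P : Subgroup G) := by
      obtain ⟨Q, hQ⟩ := (IsPGroup.of_card (n := a) (by rw [Nat.card_zpowers, hx]) :
        IsPGroup p (Subgroup.zpowers x)).exists_le_sylow
      haveI := Sylow.unique_of_normal P hPn
      obtain rfl : Q = P := Subsingleton.elim _ _
      exact hQ (Subgroup.mem_zpowers x)
    have hyK : y ∈ K := by
      have h1 : orderOf (y : G ⧸ K) ∣ q ^ b := hy ▸ orderOf_map_dvd (QuotientGroup.mk' K) y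
      have hsur : Function.Surjective ((QuotientGroup.mk' K).domRestrict (P : Subgroup G)) := by
        intro z
        obtain ⟨g, rfl⟩ := QuotientGroup.mk_surjective z
        have hg : g ∈ (P : Subgroup G) ⊔ K := hj.symm ▸ Subgroup.mem_top g
        obtain ⟨w, hw, k, hk, rfl⟩ := Subgroup.mem_sup_of_normal_right.1 hg
        exact ⟨⟨w, hw⟩, by
          show (w : G ⧸ K) = ((w * k : G) : G ⧸ K)
          rw [QuotientGroup.mk_mul, (QuotientGroup.eq_one_iff k).2 hk, mul_one]⟩
      obtain ⟨c, hc⟩ := IsPGroup.iff_orderOf.1 (P.2.of_surjective _ hsur) (y : G ⧸ K)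
      rw [hc] at h1
      have h0 : p ^ c = 1 := Nat.eq_one_of_dvd_coprimes
        (Nat.Coprime.pow c b ((Nat.coprime_primes Fact.out hq).2 hqp.symm)) dvd_rfl h1
      exact (QuotientGroup.eq_one_iff y).1 (orderOf_eq_one_iff.1 (hc.trans h0))
    exact (Subgroup.commute_of_normal_of_disjoint _ _ hPn hKn (disjoint_iff.2 hi) x y hxP hyK).eq
  · intro h
    obtain ⟨P⟩ : Nonempty (Sylow p G) := inferInstance
    have hcomm : ∀ x y : G, (∃ a : ℕ, orderOf x = p ^ a) → (orderOf y).Coprime p → x * y = y * x := by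
      intro x y hx hy
      refine (Subgroup.mem_centralizer_singleton_iff.1 (CfsgLib.Core.mem_of_prime_power_zpowers_mem
        (Subgroup.centralizer ({x} : Set G)) (g := y) fun q z hz hq hb => ?_)).symm
      obtain ⟨b, hb⟩ := hb
      refine Subgroup.mem_centralizer_singleton_iff.2 ?_
      by_cases hqp : q = p
      · have hd : orderOf z ∣ orderOf y := by
          have := orderOf_dvd_natCard (⟨z, hz⟩ : Subgroup.zpowers y)
          rwa [Subgroup.orderOf_mk, Nat.card_zpowers] at this
        have h1 := (hy.coprime_dvd_left hd)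
        rw [hb, hqp] at h1
        have h2 : p ^ b = 1 := Nat.eq_one_of_dvd_coprimes (h1.pow_right b) dvd_rfl dvd_rfl
        rw [hqp, h2, orderOf_eq_one_iff] at hb
        rw [hb, one_mul, mul_one]
      · exact (h x z hx ⟨q, b, hq, hqp, hb⟩).symm
    have hPpow : ∀ x ∈ (P : Subgroup G), ∃ a : ℕ, orderOf x = p ^ a := fun x hx => by
      obtain ⟨a, ha⟩ := IsPGroup.iff_orderOf.1 P.2 ⟨x, hx⟩
      exact ⟨a, by rwa [Subgroup.orderOf_mk] at ha⟩
    have hNt : Subgroup.normalizer ((P : Subgroup G) : Set G) = ⊤ := by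
      rw [← Subgroup.index_eq_one]
      by_contra hne
      obtain ⟨q, hq, hd⟩ := Nat.exists_prime_and_dvd hne
      haveI := Fact.mk hq
      by_cases hqp : q = p
      · subst hqp
        exact P.not_dvd_index (hd.trans (Subgroup.index_dvd_of_le Subgroup.le_normalizer))
      · obtain ⟨Q⟩ : Nonempty (Sylow q G) := inferInstance
        refine Q.not_dvd_index (hd.trans (Subgroup.index_dvd_of_le fun y hy => ?_))
        refine Subgroup.centralizer_le_normalizer _ (Subgroup.mem_centralizer_iff.2 fun x hx => ?_)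
        obtain ⟨b, hb⟩ := IsPGroup.iff_orderOf.1 Q.2 ⟨y, hy⟩
        rw [Subgroup.orderOf_mk] at hb
        exact h x y (hPpow x hx) ⟨q, b, hq, hqp, hb⟩
    have hPn : (P : Subgroup G).Normal := Subgroup.normalizer_eq_top_iff.1 hNt
    obtain ⟨P', K, hKn, hK⟩ := CfsgLib.Core.hasNormalPComplement_of_local (G := G) (p := p)
      fun Q hQ g _ hcop => Subgroup.mem_centralizer_iff.2 fun x hx => by
        obtain ⟨a, ha⟩ := IsPGroup.iff_orderOf.1 hQ ⟨x, hx⟩
        rw [Subgroup.orderOf_mk] at ha
        exact hcomm x g ⟨a, ha⟩ hcop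
    haveI := Sylow.unique_of_normal P hPn
    obtain rfl : P' = P := Subsingleton.elim _ _
    exact ⟨P', K, hPn, hKn, disjoint_iff.1 hK.disjoint.symm, by rw [sup_comm]; exact hK.sup_eq_top⟩

end Cfsg.Agent.S3986
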