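import Cfsg.Statements.S3987
import Cfsg.Agent.Lib.CoreGen
import Mathlib.GroupTheory.SchurZassenhaus

set_option autoImplicit false
open Cfsg

namespace Cfsg.Agent.S3987

/-- Let p be a prime and G a finite group. Then some Sylow p-subgroup of G is a direct factor of G (normal with a normal complement) if and only if for every element x of p-power order and every element y whose order is a power of a prime other than p, the conjugacy class of x y has as many elements as the product of the sizes of the classes of x and of y. -/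
theorem result {G : Type*} [Group G] [Finite G] (p : ℕ) [Fact p.Prime] : (∃ (P : Sylow p G) (K : Subgroup G), (P : Subgroup G).Normal ∧ K.Normal ∧ (P : Subgroup G) ⊓ K = ⊥ ∧ (P : Subgroup G) ⊔ K = ⊤) ↔ ∀ x y : G, (∃ a : ℕ, orderOf x = p ^ a) → (∃ q b : ℕ, q.Prime ∧ q ≠ p ∧ orderOf y = q ^ b) → (Subgroup.centralizer ({x * y} : Set G)).index = (Subgroup.centralizer ({x} : Set G)).index * (Subgroup.centralizer ({y} : Set G)).index := by
  constructor
  · rintro ⟨P, K, hP, hK, hinf, hsup⟩ x y ⟨a, ha⟩ ⟨q, b, hq, hqp, hb⟩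
    haveI := hP
    haveI := hK
    have hxP : x ∈ (P : Subgroup G) := by
      have h : IsPGroup p (Subgroup.zpowers x) := IsPGroup.of_card (n := a) (by rw [Nat.card_zpowers, ha])
      obtain ⟨Q, hQ⟩ := h.exists_le_sylow
      haveI := (P.unique_of_normal hP).instSubsingleton
      rw [Subsingleton.elim P Q]
      exact hQ (Subgroup.mem_zpowers x)
    have hdec : ∀ g : G, ∃ u ∈ (P : Subgroup G), ∃ v ∈ K, u * v = g := fun g => by
      obtain ⟨u, hu, v, hv, e⟩ := Subgroup.mem_sup_of_normal_right.1 (hsup ▸ Subgroup.mem_top g : g ∈ (P : Subgroup G) ⊔ K)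
      exact ⟨u, hu, v, hv, e⟩
    have hcomm : ∀ u ∈ (P : Subgroup G), ∀ v ∈ K, u * v = v * u := fun u hu v hv =>
      Subgroup.commute_of_normal_of_disjoint _ _ hP hK (disjoint_iff.2 hinf) u v hu hv
    have hyK : y ∈ K := by
      obtain ⟨u, hu, v, hv, e⟩ := hdec y
      have hc : Commute u v := hcomm u hu v hv
      have h1 : (u * v) ^ (q ^ b) = 1 := by rw [e, ← hb, pow_orderOf_eq_one]
      rw [hc.mul_pow] at h1
      have h2 : u ^ (q ^ b) ∈ (P : Subgroup G) ⊓ K :=
        ⟨(P : Subgroup G).pow_mem hu _, by rw [eq_inv_of_mul_eq_one_left h1]; exact K.inv_mem (K.pow_mem hv _)⟩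
      rw [hinf, Subgroup.mem_bot] at h2
      obtain ⟨k, hk⟩ := P.isPGroup' ⟨u, hu⟩
      have hu1 : orderOf u = 1 := Nat.eq_one_of_dvd_coprimes (((Nat.coprime_primes hq Fact.out).2 hqp).pow b k)
        (orderOf_dvd_of_pow_eq_one h2) (orderOf_dvd_of_pow_eq_one (by simpa using congrArg Subtype.val hk))
      rw [orderOf_eq_one_iff] at hu1
      rw [← e, hu1, one_mul]; exact hv
    set A := Subgroup.centralizer ({x} : Set G) with hA
    set B := Subgroup.centralizer ({y} : Set G) with hB
    have hc : Commute x y := hcomm x hxP y hyK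
    have hAB : Subgroup.centralizer ({x * y} : Set G) = A ⊓ B := by
      refine le_antisymm (fun g hg => ?_) (fun g hg => ?_)
      · rw [Subgroup.mem_centralizer_singleton_iff] at hg
        obtain ⟨u, hu, v, hv, e⟩ := hdec g
        have h1 : (u * x) * (v * y) = (x * u) * (y * v) := by
          calc (u * x) * (v * y) = u * (x * v) * y := by group
            _ = u * (v * x) * y := by rw [hcomm x hxP v hv]
            _ = (u * v) * (x * y) := by group
            _ = (x * y) * (u * v) := by rw [e, hg]
            _ = x * (y * u) * v := by group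
            _ = x * (u * y) * v := by rw [hcomm u hu y hyK]
            _ = (x * u) * (y * v) := by group
        have h2 : (x * u)⁻¹ * (u * x) = (y * v) * (v * y)⁻¹ := by
          rw [eq_mul_inv_iff_mul_eq, mul_assoc, h1, inv_mul_cancel_left]
        have h3 : (x * u)⁻¹ * (u * x) ∈ (P : Subgroup G) ⊓ K :=
          ⟨(P : Subgroup G).mul_mem ((P : Subgroup G).inv_mem ((P : Subgroup G).mul_mem hxP hu))
            ((P : Subgroup G).mul_mem hu hxP), by
            rw [h2]; exact K.mul_mem (K.mul_mem hyK hv) (K.inv_mem (K.mul_mem hv hyK))⟩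
        rw [hinf, Subgroup.mem_bot] at h3
        have hux : x * u = u * x := inv_mul_eq_one.1 h3
        have hvy : y * v = v * y := mul_inv_eq_one.1 (h2 ▸ h3)
        rw [← e]
        exact ⟨A.mul_mem (Subgroup.mem_centralizer_singleton_iff.2 hux.symm)
            (Subgroup.mem_centralizer_singleton_iff.2 (hcomm x hxP v hv).symm),
          B.mul_mem (Subgroup.mem_centralizer_singleton_iff.2 (hcomm u hu y hyK))
            (Subgroup.mem_centralizer_singleton_iff.2 hvy.symm)⟩
      · refine Subgroup.mem_centralizer_singleton_iff.2 ?_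
        exact Commute.mul_right (Subgroup.mem_centralizer_singleton_iff.1 hg.1) (Subgroup.mem_centralizer_singleton_iff.1 hg.2)
    have hrel : A.relIndex B = A.index := by
      refine Nat.card_congr (Equiv.ofBijective
        (Quotient.map' (s₁ := QuotientGroup.leftRel (A.subgroupOf B)) (s₂ := QuotientGroup.leftRel A)
          (fun c : B => (c : G)) fun c d h => ?_) ⟨?_, ?_⟩)
      · rw [QuotientGroup.leftRel_apply] at h ⊢; exact h
      · rintro ⟨c⟩ ⟨d⟩ h
        exact QuotientGroup.eq.2 (QuotientGroup.eq.1 h :)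
      · rintro ⟨g⟩
        obtain ⟨u, hu, v, hv, e⟩ := hdec g
        refine ⟨QuotientGroup.mk ⟨u, Subgroup.mem_centralizer_singleton_iff.2 (hcomm u hu y hyK)⟩,
          QuotientGroup.eq.2 ?_⟩
        rw [← e, inv_mul_cancel_left]
        exact Subgroup.mem_centralizer_singleton_iff.2 (hcomm x hxP v hv).symm
    rw [hAB, ← Subgroup.relIndex_mul_index (inf_le_right : A ⊓ B ≤ B), Subgroup.inf_relIndex_right, hrel]
  · intro h
    have hcomm : ∀ x y : G, (∃ a : ℕ, orderOf x = p ^ a) → (∃ q b : ℕ, q.Prime ∧ q ≠ p ∧ orderOf y = q ^ b) →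
        x * y = y * x := by
      intro x y hx hy
      set A := Subgroup.centralizer ({x} : Set G) with hA
      set B := Subgroup.centralizer ({y} : Set G) with hB
      have hle : A ⊓ B ≤ Subgroup.centralizer ({x * y} : Set G) := fun g hg =>
        Subgroup.mem_centralizer_singleton_iff.2
          (Commute.mul_right (Subgroup.mem_centralizer_singleton_iff.1 hg.1) (Subgroup.mem_centralizer_singleton_iff.1 hg.2))
      have e : A ⊓ B = Subgroup.centralizer ({x * y} : Set G) := by
        refine Subgroup.eq_of_le_of_card_ge hle ?_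
        have h1 := Subgroup.index_inf_le (H := A) (K := B)
        rw [← h x y hx hy] at h1
        have h2 := Subgroup.index_mul_card (A ⊓ B)
        have h3 := Subgroup.index_mul_card (Subgroup.centralizer ({x * y} : Set G))
        refine Nat.le_of_mul_le_mul_left ?_ (Nat.pos_of_ne_zero (Subgroup.index_ne_zero_of_finite (H := A ⊓ B)))
        rw [h2, ← h3]
        exact Nat.mul_le_mul_right _ h1
      have hxy : x * y ∈ A ⊓ B := e ▸ Subgroup.mem_centralizer_singleton_iff.2 rfl
      have h1 := Subgroup.mem_centralizer_singleton_iff.1 hxy.1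
      rw [mul_assoc] at h1
      exact ((mul_right_inj x).1 h1).symm
    have htop : ∀ X : Subgroup G, (∀ q : ℕ, q.Prime → ∃ Q : Sylow q G, (Q : Subgroup G) ≤ X) → X = ⊤ := by
      intro X hX
      rw [← Subgroup.index_eq_one]
      by_contra hne
      obtain ⟨q, hq, hqd⟩ := Nat.exists_prime_and_dvd hne
      haveI := Fact.mk hq
      obtain ⟨Q, hQ⟩ := hX q hq
      exact Q.not_dvd_index (hqd.trans (Subgroup.index_dvd_of_le hQ))
    obtain ⟨P⟩ : Nonempty (Sylow p G) := inferInstance
    have hQ : ∀ q : ℕ, q.Prime → q ≠ p → ∀ Q : Sylow q G,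
        (Q : Subgroup G) ≤ Subgroup.centralizer ((P : Subgroup G) : Set G) := fun q hq hqp Q y hy => by
      haveI := Fact.mk hq
      refine Subgroup.mem_centralizer_iff.2 fun x hx => hcomm x y ?_ ?_
      · obtain ⟨k, hk⟩ := IsPGroup.iff_orderOf.1 P.isPGroup' ⟨x, hx⟩
        exact ⟨k, by rw [← Subgroup.orderOf_mk x hx]; exact hk⟩
      · obtain ⟨k, hk⟩ := IsPGroup.iff_orderOf.1 Q.isPGroup' ⟨y, hy⟩
        exact ⟨q, k, hq, hqp, by rw [← Subgroup.orderOf_mk y hy]; exact hk⟩
    have hPn : (P : Subgroup G).Normal := by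
      rw [← Subgroup.normalizer_eq_top_iff]
      refine htop _ fun q hq => ?_
      by_cases hqp : q = p
      · subst hqp; exact ⟨P, Subgroup.le_normalizer⟩
      · obtain ⟨Q⟩ : Nonempty (Sylow q G) := inferInstance
        exact ⟨Q, (hQ q hq hqp Q).trans (CfsgLib.Core.centralizer_le_normalizer _)⟩
    haveI := hPn
    obtain ⟨K, hK⟩ := Subgroup.exists_right_complement'_of_coprime P.card_coprime_index
    have hKC : K ≤ Subgroup.centralizer ((P : Subgroup G) : Set G) := by
      intro g hg
      have hsub : ∀ q : ℕ, q.Prime → ∀ Q : Sylow q K, (Q : Subgroup K) ≤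
          (Subgroup.centralizer ((P : Subgroup G) : Set G)).subgroupOf K := fun q hq Q y hy => by
        haveI := Fact.mk hq
        by_cases hqp : q = p
        · subst hqp
          have hcopK : (Nat.card K).Coprime q := by
            rw [Nat.coprime_comm, hq.coprime_iff_not_dvd]
            rw [show Nat.card K = (P : Subgroup G).index from ?_]
            · exact P.not_dvd_index
            · exact hK.symm.index_eq_card.symm
          obtain ⟨k, hk⟩ := IsPGroup.iff_orderOf.1 Q.isPGroup' ⟨y, hy⟩
          have hy1 : y = 1 := orderOf_eq_one_iff.1 (Nat.eq_one_of_dvd_coprimes (hcopK.pow_right k)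
            (orderOf_dvd_natCard y) (dvd_of_eq (by rw [← Subgroup.orderOf_mk y hy]; exact hk)))
          rw [hy1]; exact one_mem _
        · have hp' : IsPGroup q ((Q : Subgroup K).map K.subtype) := Q.isPGroup'.map _
          obtain ⟨Q', hQ'⟩ := hp'.exists_le_sylow
          exact hQ q hq hqp Q' (hQ' ⟨y, hy, rfl⟩)
      have : (Subgroup.centralizer ((P : Subgroup G) : Set G)).subgroupOf K = ⊤ := by
        rw [← Subgroup.index_eq_one]
        by_contra hne
        obtain ⟨q, hq, hqd⟩ := Nat.exists_prime_and_dvd hne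
        haveI := Fact.mk hq
        obtain ⟨Q⟩ : Nonempty (Sylow q K) := inferInstance
        exact Q.not_dvd_index (hqd.trans (Subgroup.index_dvd_of_le (hsub q hq Q)))
      exact (this ▸ Subgroup.mem_top (⟨g, hg⟩ : K) :
        (⟨g, hg⟩ : K) ∈ (Subgroup.centralizer ((P : Subgroup G) : Set G)).subgroupOf K)
    refine ⟨P, K, hPn, ?_, hK.disjoint.eq_bot, hK.sup_eq_top⟩
    rw [← Subgroup.normalizer_eq_top_iff, eq_top_iff, ← hK.sup_eq_top]
    refine sup_le (fun u hu => ?_) Subgroup.le_normalizer
    refine CfsgLib.Core.centralizer_le_normalizer K ?_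
    exact Subgroup.mem_centralizer_iff.2 fun v hv => (Subgroup.mem_centralizer_iff.1 (hKC hv) u hu).symm

end Cfsg.Agent.S3987
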