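import Cfsg.Statements.S3989
import Cfsg.Agent.Lib.CoreTransfer
import Cfsg.Agent.Lib.LocalSolvable

set_option autoImplicit false
open Cfsg

namespace Cfsg.Agent.S3989
open Subgroup

universe u

/-- Prime-power elements of a quotient lift to prime-power elements. -/
private theorem lift_pow {G : Type*} [Group G] [Finite G] (N : Subgroup G) [N.Normal] {r : ℕ} (hr : r.Prime)
    {x : G ⧸ N} {a : ℕ} (hx : orderOf x = r ^ a) :
    ∃ g : G, (QuotientGroup.mk' N) g = x ∧ ∃ c : ℕ, orderOf g = r ^ c := by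
  obtain ⟨g, rfl⟩ := QuotientGroup.mk'_surjective N x
  obtain ⟨c, m, hm, ho⟩ := Nat.exists_eq_pow_mul_and_not_dvd (orderOf_pos g).ne' r hr.ne_one
  have hcop : Nat.Coprime m (orderOf (QuotientGroup.mk' N g)) := by
    rw [hx]; exact ((hr.coprime_iff_not_dvd.2 hm).symm).pow_right a
  obtain ⟨j, hj⟩ := exists_pow_eq_self_of_coprime hcop
  refine ⟨(g ^ m) ^ j, by rw [map_pow, map_pow, hj], ?_⟩
  have h1 : orderOf (g ^ m) ∣ r ^ c := by
    rw [orderOf_dvd_iff_pow_eq_one, ← pow_mul, mul_comm, ← ho, pow_orderOf_eq_one]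
  obtain ⟨c', -, hc'⟩ := (Nat.dvd_prime_pow hr).1 ((orderOf_pow_dvd j).trans h1)
  exact ⟨c', hc'⟩

private theorem key (p : ℕ) [Fact p.Prime] : ∀ (n : ℕ) (G : Type u) [Group G] [Finite G], Nat.card G = n →
    (∀ x y : G, (∃ a : ℕ, orderOf x = p ^ a) → (∃ q b : ℕ, q.Prime ∧ q ≠ p ∧ orderOf y = q ^ b) →
      ∀ z : G, IsConj (x * y) z ↔ ∃ a b : G, z = a * x * a⁻¹ * (b * y * b⁻¹)) →
    Cfsg.IsPSolvable p G := by
  intro n
  induction n using Nat.strong_induction_on with
  | _ n ih =>
  intro G _ _ hcard h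
  rcases subsingleton_or_nontrivial G with hG | hG
  · exact ⟨0, fun _ => ⊥, rfl, Subsingleton.elim _ _, fun _ _ _ => le_rfl,
      fun _ => normal_bot, fun i => i.elim0⟩
  obtain ⟨N, ⟨hN, hN1⟩, hmin⟩ := WellFounded.has_min
    (wellFounded_lt (α := Subgroup G)) {N : Subgroup G | N.Normal ∧ N ≠ ⊥} ⟨⊤, inferInstance, top_ne_bot⟩
  haveI := hN
  -- minimality
  have hmin' : ∀ M : Subgroup G, M.Normal → M ≤ N → M = ⊥ ∨ M = N := by
    intro M hM hle
    by_contra hc
    push Not at hc
    exact hmin M ⟨hM, hc.1⟩ (lt_of_le_of_ne hle hc.2)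
  -- local subgroups of N centralise
  have hloc : ∀ Q : Subgroup ↥N, IsPGroup p Q → ∀ g ∈ Subgroup.normalizer (Q : Set ↥N),
      (orderOf g).Coprime p → g ∈ Subgroup.centralizer (Q : Set ↥N) := by
    intro Q hQ g hg hgc
    suffices aux : ∀ m : ℕ, ∀ g ∈ Subgroup.normalizer (Q : Set ↥N), orderOf g = m → m.Coprime p →
        g ∈ Subgroup.centralizer (Q : Set ↥N) from aux _ g hg rfl hgc
    intro m
    induction m using Nat.recOnPrimeCoprime with
    | zero => intro g _ h0; exact absurd h0 (orderOf_pos g).ne'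
    | coprime a b ha hb hab iha ihb =>
      intro g hg ho hc
      have hoa : orderOf (g ^ a) = b := by
        rw [orderOf_pow' g (by omega), ho, Nat.gcd_mul_right_left, Nat.mul_div_cancel_left _ (by omega)]
      have hob : orderOf (g ^ b) = a := by
        rw [orderOf_pow' g (by omega), ho, Nat.gcd_mul_left_left, Nat.mul_div_cancel _ (by omega)]
      have h1 := ihb (g ^ a) (pow_mem hg a) hoa (hc.coprime_dvd_left (dvd_mul_left b a))
      have h2 := iha (g ^ b) (pow_mem hg b) hob (hc.coprime_dvd_left (dvd_mul_right a b))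
      have e : g = (g ^ a) ^ (a.gcdA b) * (g ^ b) ^ (a.gcdB b) := by
        rw [← zpow_natCast, ← zpow_natCast, ← zpow_mul, ← zpow_mul, ← zpow_add, ← Nat.gcd_eq_gcd_ab,
          hab.gcd_eq_one, Nat.cast_one, zpow_one]
      rw [e]
      exact mul_mem (zpow_mem h1 _) (zpow_mem h2 _)
    | prime_pow q b hq =>
      intro g hg ho hc
      by_cases hb : b = 0
      · subst hb
        rw [pow_zero, orderOf_eq_one_iff] at ho
        rw [ho]; exact one_mem _
      have hqp : q ≠ p := by
        rintro rfl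
        exact hq.ne_one ((Nat.coprime_self q).1 ((Nat.coprime_pow_left_iff (Nat.pos_of_ne_zero hb) q q).1 hc))
      rw [Subgroup.mem_centralizer_iff]
      intro u hu
      by_contra hne
      set xN : ↥N := u * g * u⁻¹ * g⁻¹ with hxN
      have hxQ : xN ∈ Q := by
        rw [hxN, show u * g * u⁻¹ * g⁻¹ = u * (g * u⁻¹ * g⁻¹) by group]
        exact mul_mem hu ((Subgroup.mem_normalizer_iff.1 hg u⁻¹).1 (inv_mem hu))
      obtain ⟨k, hk⟩ := IsPGroup.iff_orderOf.1 hQ ⟨xN, hxQ⟩
      rw [Subgroup.orderOf_mk] at hk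
      set x : G := (xN : G) with hxdef
      set y : G := (g : G) with hydef
      have hx1 : x ≠ 1 := by
        intro h0
        apply hne
        have : xN = 1 := Subtype.ext h0
        rw [hxN, mul_inv_eq_one, mul_inv_eq_iff_eq_mul] at this
        exact this
      have H := h x y ⟨k, by rw [hxdef, Subgroup.orderOf_coe, hk]⟩
        ⟨q, b, hq, hqp, by rw [hydef, Subgroup.orderOf_coe, ho]⟩
      have hxy : IsConj y (x * y) := isConj_iff.2 ⟨(u : G), by simp [hxdef, hydef, hxN]⟩
      -- the class of y is stable under multiplication by conjugates of x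
      let T : Submonoid G :=
        { carrier := {s | ∀ z, IsConj y z → IsConj y (s * z)}
          one_mem' := fun z hz => by rwa [one_mul]
          mul_mem' := fun {s t} hs ht z hz => by rw [mul_assoc]; exact hs _ (ht z hz) }
      have hxT : ∀ a : G, a * x * a⁻¹ ∈ T := by
        intro a z hz
        obtain ⟨b', rfl⟩ := isConj_iff.1 hz
        exact hxy.trans ((H _).2 ⟨a, b', rfl⟩)
      have hM : Subgroup.normalClosure ({x} : Set G) ≤ N :=
        Subgroup.normalClosure_le_normal (Set.singleton_subset_iff.2 xN.2)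
      have hMN : Subgroup.normalClosure ({x} : Set G) = N := by
        refine (hmin' _ inferInstance hM).resolve_left fun h0 => hx1 ?_
        have := Subgroup.subset_normalClosure (s := ({x} : Set G)) rfl
        rw [h0] at this
        exact this
      have hNT : ∀ s ∈ Subgroup.normalClosure ({x} : Set G), s ∈ T := by
        intro s hs
        induction hs using Subgroup.closure_induction with
        | mem s hs =>
          obtain ⟨x', hx', hc'⟩ := Group.mem_conjugatesOfSet_iff.1 hs
          rw [Set.mem_singleton_iff] at hx'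
          subst hx'
          obtain ⟨a, rfl⟩ := isConj_iff.1 hc'
          exact hxT a
        | one => exact one_mem T
        | mul s t _ _ hs ht => exact mul_mem hs ht
        | inv s _ hs =>
          have hi : s⁻¹ = s ^ (orderOf s - 1) := by
            rw [inv_eq_iff_mul_eq_one, ← pow_succ', Nat.sub_add_cancel (orderOf_pos s), pow_orderOf_eq_one]
          rw [hi]; exact pow_mem hs _
      have hy : IsConj y (y⁻¹ * y) := hNT y⁻¹ (hMN.symm ▸ inv_mem g.2) y (IsConj.refl y)
      rw [inv_mul_cancel, isConj_one_left] at hy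
      apply hne
      rw [show g = 1 from Subtype.ext hy, mul_one, one_mul]
  -- so N is a p-group or a p'-group
  obtain ⟨K, hK, hKc, j, hKi⟩ := (CfsgLib.Core.hasNormalPComplement_iff (G := ↥N) (p := p)).1
    (CfsgLib.Core.hasNormalPComplement_of_local hloc)
  haveI := hK
  have hKn : (K.map N.subtype).Normal := by
    constructor
    rintro _ ⟨k, hk, rfl⟩ g
    refine ⟨⟨g * N.subtype k * g⁻¹, hN.conj_mem _ k.2 g⟩, ?_, rfl⟩
    refine CfsgLib.Core.mem_of_coprime_of_index_pow hKi ?_
    have : orderOf (⟨g * N.subtype k * g⁻¹, hN.conj_mem _ k.2 g⟩ : ↥N) = orderOf k := by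
      rw [← Subgroup.orderOf_coe, ← Subgroup.orderOf_coe]
      exact (SemiconjBy.orderOf_eq g (SemiconjBy.conj_mk g (k : G))).symm
    rw [this, ← Subgroup.orderOf_mk k hk]
    exact hKc.coprime_dvd_left (orderOf_dvd_natCard _)
  have hdich : (∃ m : ℕ, Nat.card N = p ^ m) ∨ (Nat.card N).Coprime p := by
    rcases hmin' _ hKn (Subgroup.map_subtype_le K) with h0 | h0
    · refine Or.inl ⟨j, ?_⟩
      have : K = ⊥ := (Subgroup.map_eq_bot_iff_of_injective _ N.subtype_injective).1 h0
      rw [← hKi, this, Subgroup.index_bot]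
    · refine Or.inr ?_
      rw [← congrArg (fun M : Subgroup G => Nat.card M) h0, Subgroup.card_map_of_injective N.subtype_injective]
      exact hKc
  refine CfsgLib.LocalFF.isPSolvable_of_quotient N hdich (ih (Nat.card (G ⧸ N)) ?_ (G ⧸ N) rfl ?_)
  · rw [← hcard, card_eq_card_quotient_mul_card_subgroup N]
    exact lt_mul_of_one_lt_right Nat.card_pos ((one_lt_card_iff_ne_bot N).mpr hN1)
  · rintro x y ⟨a, ha⟩ ⟨q, b, hq, hqp, hb⟩ z
    obtain ⟨x', rfl, hx'⟩ := lift_pow N (Fact.out : p.Prime) ha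
    obtain ⟨y', rfl, c, hy'⟩ := lift_pow N hq hb
    obtain ⟨z', rfl⟩ := QuotientGroup.mk'_surjective N z
    have H := h x' y' hx' ⟨q, c, hq, hqp, hy'⟩
    constructor
    · intro hc
      obtain ⟨w, hw⟩ := isConj_iff.1 hc
      obtain ⟨w', rfl⟩ := QuotientGroup.mk'_surjective N w
      obtain ⟨a', b', he⟩ := (H (w' * (x' * y') * w'⁻¹)).1 (isConj_iff.2 ⟨w', rfl⟩)
      refine ⟨QuotientGroup.mk' N a', QuotientGroup.mk' N b', ?_⟩
      rw [← hw]
      simp only [← map_mul, ← map_inv, he]
    · rintro ⟨a', b', he⟩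
      obtain ⟨a', rfl⟩ := QuotientGroup.mk'_surjective N a'
      obtain ⟨b', rfl⟩ := QuotientGroup.mk'_surjective N b'
      rw [he]
      obtain ⟨w, hw⟩ := isConj_iff.1 ((H (a' * x' * a'⁻¹ * (b' * y' * b'⁻¹))).2 ⟨a', b', rfl⟩)
      exact isConj_iff.2 ⟨QuotientGroup.mk' N w, by simp only [← map_mul, ← map_inv, hw]⟩


/-- Let p be a prime and G a finite group such that for every element x of p-power order and every element y whose order is a power of a prime other than p, the conjugacy class of x y is the set of all products of a conjugate of x with a conjugate of y. Then G is p-solvable. -/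
theorem result {G : Type*} [Group G] [Finite G] (p : ℕ) [Fact p.Prime] (h : ∀ x y : G, (∃ a : ℕ, orderOf x = p ^ a) → (∃ q b : ℕ, q.Prime ∧ q ≠ p ∧ orderOf y = q ^ b) → ∀ z : G, IsConj (x * y) z ↔ ∃ a b : G, z = a * x * a⁻¹ * (b * y * b⁻¹)) : Cfsg.IsPSolvable p G := by
  exact key p _ G rfl h

end Cfsg.Agent.S3989
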