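import Cfsg.Statements.S4002
import Cfsg.Agent.S3633
import Cfsg.Agent.Lib.FgsPrimesInterval

set_option autoImplicit false
open Cfsg

namespace Cfsg.Agent.S4002

/-- If the set of element orders of a finite group G is {1, 2, …, n} with n ≥ 7, then G is not solvable. -/
theorem result {G : Type*} [Group G] [Finite G] (n : ℕ) (hn : 7 ≤ n) (h : Set.range (orderOf : G → ℕ) = {k : ℕ | 1 ≤ k ∧ k ≤ n}) : ¬ Group.IsSolvable G := by
  intro hsol
  obtain ⟨ρ, hρ, hρp⟩ : ∃ ρ : Finset ℕ, 3 ≤ ρ.card ∧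
      ∀ r ∈ ρ, r.Prime ∧ r ≤ n ∧ ∀ s ∈ ρ, r ≠ s → n < r * s := by
    rcases Nat.lt_or_ge n 15 with h15 | h15
    · refine ⟨{3, 5, 7}, by simp, fun r hr => ?_⟩
      fin_cases hr <;> refine ⟨by norm_num, by omega, fun s hs hne => ?_⟩ <;>
        fin_cases hs <;> simp at hne ⊢ <;> omega
    rcases Nat.lt_or_ge n 77 with h77 | h77
    · refine ⟨{7, 11, 13}, by simp, fun r hr => ?_⟩
      fin_cases hr <;> refine ⟨by norm_num, by omega, fun s hs hne => ?_⟩ <;>
        fin_cases hs <;> simp at hne ⊢ <;> omega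
    rcases Nat.lt_or_ge n 2048 with h2 | h2
    · refine ⟨{61, 67, 71}, by simp, fun r hr => ?_⟩
      fin_cases hr <;> refine ⟨by norm_num, by omega, fun s hs hne => ?_⟩ <;>
        fin_cases hs <;> simp at hne ⊢ <;> omega
    · refine ⟨(Finset.Ioc (n / 2) (2 * (n / 2))).filter Nat.Prime,
        CfsgLib.PrimeInterval.three_le_card_primes (by omega), fun r hr => ?_⟩
      simp only [Finset.mem_filter, Finset.mem_Ioc] at hr
      refine ⟨hr.2, by omega, fun s hs _ => ?_⟩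
      simp only [Finset.mem_filter, Finset.mem_Ioc] at hs
      calc n < 4 * (n / 2) := by omega
        _ ≤ r * s := Nat.mul_le_mul (by omega) hs.1.1.le
  have hord : ∀ x : G, orderOf x ≤ n := fun x =>
    ((h ▸ Set.mem_range_self x : orderOf x ∈ {k : ℕ | 1 ≤ k ∧ k ≤ n})).2
  have hdvd : ∀ k : ℕ, 1 ≤ k → k ≤ n → k ∣ Nat.card G := fun k h1 h2 => by
    have : k ∈ Set.range (orderOf : G → ℕ) := h ▸ ⟨h1, h2⟩
    obtain ⟨x, rfl⟩ := this
    exact _root_.orderOf_dvd_natCard x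
  refine (Cfsg.Agent.S3633.result ρ hρ ⟨fun r hr => ⟨(hρp r hr).1,
    hdvd r (hρp r hr).1.one_lt.le (hρp r hr).2.1⟩, ?_⟩ (⊥ : Subgroup G) inferInstance).2 hsol
  rintro r hr s hs hne ⟨x, hx⟩
  have := hord x
  have := (hρp r hr).2.2 s hs hne
  omega

end Cfsg.Agent.S4002
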