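import Cfsg.Statements.S4013
import Cfsg.Agent.Lib.InvolBasic

set_option autoImplicit false
open Cfsg

namespace Cfsg.Agent.S4013

/-- Let G be a finite p-group (p prime) and N < M normal subgroups of G such that for some g ∈ M ∖ N the conjugacy class of g is exactly M ∖ N. Then p = 2 and N has index 2 in M. -/
theorem result {G : Type*} [Group G] [Finite G] (p : ℕ) [Fact p.Prime] (hG : IsPGroup p G) (N M : Subgroup G) [N.Normal] [M.Normal] (hNM : N < M) (g : G) (hgM : g ∈ M) (hgN : g ∉ N) (hcl : {h : G | IsConj g h} = (M : Set G) \ (N : Set G)) : p = 2 ∧ N.relIndex M = 2 := by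
  have hcard : Nat.card {h : G // IsConj g h} = Nat.card M - Nat.card N := by
    rw [show Nat.card {h : G // IsConj g h} = Set.ncard {h : G | IsConj g h} from Nat.card_coe_set_eq _, hcl,
      Set.ncard_sdiff (SetLike.coe_subset_coe.2 hNM.le), ← Nat.card_coe_set_eq, ← Nat.card_coe_set_eq]
    rfl
  rw [CfsgLib.Invol.card_isConj_eq_index] at hcard
  obtain ⟨i, hi⟩ := hG.index (Subgroup.centralizer ({g} : Set G))
  have hp := (Fact.out : p.Prime)
  obtain ⟨j, hj⟩ := (hG.to_subgroup N).exists_card_eq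
  obtain ⟨e, he⟩ := (hG.to_subgroup M).exists_card_eq
  have hje : p ^ j < p ^ e := by
    rw [← hj, ← he]
    exact lt_of_le_of_ne (Nat.le_of_dvd Nat.card_pos (Subgroup.card_dvd_of_le hNM.le))
      fun h => hNM.ne (Subgroup.eq_of_le_of_card_ge hNM.le h.ge)
  have hje' := (Nat.pow_lt_pow_iff_right hp.one_lt).1 hje
  rw [hi, hj, he] at hcard
  have hrel : N.relIndex M = p ^ (e - j) := by
    have h2 : Nat.card N * N.relIndex M = Nat.card M := by
      rw [← Subgroup.relIndex_bot_left, ← Subgroup.relIndex_bot_left (H := M)]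
      exact Subgroup.relIndex_mul_relIndex ⊥ N M bot_le hNM.le
    rw [hj, he, show p ^ e = p ^ j * p ^ (e - j) by rw [← pow_add]; congr 1; omega] at h2
    exact Nat.eq_of_mul_eq_mul_left (pow_pos hp.pos j) h2
  have h3 : p ^ i = p ^ j * (p ^ (e - j) - 1) := by
    rw [hcard, Nat.mul_sub, mul_one, ← pow_add]; congr 2; omega
  obtain ⟨k, -, hk⟩ := (Nat.dvd_prime_pow hp).1 (Dvd.intro_left _ h3.symm)
  have hk0 : k = 0 := by
    by_contra hk0
    have h4 : p ∣ p ^ (e - j) - 1 := hk ▸ dvd_pow_self p hk0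
    have h5 := Nat.dvd_sub (dvd_pow_self p (show e - j ≠ 0 by omega)) h4
    rw [show p ^ (e - j) - (p ^ (e - j) - 1) = 1 by have := Nat.one_le_pow (e - j) p hp.pos; omega] at h5
    exact hp.not_dvd_one h5
  rw [hk0, pow_zero] at hk
  have h6 : p ^ (e - j) = 2 := by omega
  have h7 : p = 2 := (Nat.prime_dvd_prime_iff_eq hp Nat.prime_two).1 (h6 ▸ dvd_pow_self p (show e - j ≠ 0 by omega))
  exact ⟨h7, by rw [hrel, h6]⟩

end Cfsg.Agent.S4013
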