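import Cfsg.Statements.S4014
import Cfsg.Agent.Lib.CoreSymSylowLength

set_option autoImplicit false
open Cfsg

namespace Cfsg.Agent.S4014

/-- Let p be a prime, n ≥ 1, and P a Sylow p-subgroup of the symmetric group on n letters. Then the derived length of P is exactly k = ⌊log_p n⌋ (the largest k with p^k ≤ n): the k-th derived subgroup of P is trivial and, when k ≥ 1, the (k−1)-st is not. -/
theorem result (p : ℕ) [Fact p.Prime] (n : ℕ) (hn : 1 ≤ n) (P : Sylow p (Equiv.Perm (Fin n))) : derivedSeries ↥(P : Subgroup (Equiv.Perm (Fin n))) (Nat.log p n) = ⊥ ∧ (1 ≤ Nat.log p n → derivedSeries ↥(P : Subgroup (Equiv.Perm (Fin n))) (Nat.log p n - 1) ≠ ⊥) := by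
  exact ⟨CfsgLib.Core.SymSylow.derived_eq_bot n hn (P : Subgroup (Equiv.Perm (Fin n))) P.2,
    fun h => CfsgLib.Core.SymSylow.derived_ne_bot n hn P h⟩

end Cfsg.Agent.S4014
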