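import Cfsg.Statements.S4023
import Cfsg.Agent.Lib.CoreConjSubgroups
import Cfsg.Agent.Lib.TransferMore
import Cfsg.Agent.Lib.LocalHuppertMetacyclic

set_option autoImplicit false
open Cfsg

namespace Cfsg.Agent.S4023

/-- Let p be a prime and G a finite group in which any two p-subgroups of the same order are conjugate, with Sylow p-subgroup P. Then P is cyclic, or elementary abelian, or p = 2 and P is a quaternion group of order 8, or p is odd and P is non-abelian of order p³ and exponent p. -/
theorem result {G : Type*} [Group G] [Finite G]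
    {p : ℕ} [Fact p.Prime] (hC : ∀ H K : Subgroup G, IsPGroup p H → IsPGroup p K → Nat.card H = Nat.card K →
      ∃ g : G, K = H.map (MulAut.conj g).toMonoidHom) (P : Sylow p G) :
    IsCyclic P ∨ Cfsg.IsElementaryAbelian p (P : Subgroup G) ∨
      (p = 2 ∧ Nonempty ((P : Subgroup G) ≃* QuaternionGroup 2)) ∨
      (p ≠ 2 ∧ ¬ IsMulCommutative P ∧ Nat.card P = p ^ 3 ∧ Monoid.exponent P = p) := by
  have hconjP : ∀ A B : Subgroup G, IsMulCommutative ↥A → IsMulCommutative ↥B → IsPGroup p A →
      IsPGroup p B → Nat.card ↥A = Nat.card ↥B → ∃ g : G, B = A.map (MulAut.conj g).toMonoidHom :=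
    fun A B _ _ hA hB h => hC A B hA hB h
  have hpush : ∀ A B : Subgroup (P : Subgroup G), Nat.card A = Nat.card B → Nonempty (A ≃* B) := by
    intro A B h
    have hinj := (P : Subgroup G).subtype_injective
    obtain ⟨g, hg⟩ := hC (A.map (P : Subgroup G).subtype) (B.map (P : Subgroup G).subtype)
      ((P.2.to_subgroup A).map _) ((P.2.to_subgroup B).map _)
      (by rw [Subgroup.card_map_of_injective hinj, Subgroup.card_map_of_injective hinj, h])
    exact ⟨((Subgroup.equivMapOfInjective A _ hinj).trans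
      (((MulAut.conj g).subgroupMap _).trans (MulEquiv.subgroupCongr hg.symm))).trans
      (Subgroup.equivMapOfInjective B _ hinj).symm⟩
  rcases CfsgLib.Core.ConjSub.dichotomy P.2 with ⟨E, hEc, hE, hcard⟩ | h | ⟨rfl, n, ⟨e⟩⟩
  · have hexp := CfsgLib.Core.ConjSub.exponent_of_conj P.2 hconjP hEc hE hcard
    by_cases hcomm : IsMulCommutative (P : Subgroup G)
    · exact Or.inr (Or.inl ⟨hcomm, hexp⟩)
    have hexp' : ∀ x : (P : Subgroup G), x ^ p = 1 := fun x => Subtype.ext (hexp x x.2)
    refine Or.inr (Or.inr (Or.inr ⟨?_, hcomm, ?_, ?_⟩))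
    · rintro rfl
      exact hcomm ⟨⟨fun a b => by
        have ha := hexp' a; have hb := hexp' b; have hab := hexp' (a * b)
        rw [sq, mul_eq_one_iff_eq_inv] at ha hb hab
        rw [hab, mul_inv_rev, ← ha, ← hb]⟩⟩
    · obtain ⟨K, hKna, hKc⟩ := CfsgLib.Core.ConjSub.exists_cube_nonabelian hexp' P.2 hcomm
      obtain ⟨m, hm⟩ := IsPGroup.iff_card.mp P.2
      have h3 : 3 ≤ m := (Nat.pow_dvd_pow_iff_le_right (Fact.out : p.Prime).one_lt).mp
        (hKc ▸ hm ▸ Subgroup.card_subgroup_dvd_card K)
      obtain ⟨A, ⟨hAn, hAc⟩, hmax⟩ := Set.exists_max_image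
        {A : Subgroup (P : Subgroup G) | A.Normal ∧ IsMulCommutative A} (fun A => Nat.card A)
        (Set.toFinite _) ⟨⊥, inferInstance, inferInstance⟩
      haveI := hAn
      obtain ⟨a, ha⟩ := IsPGroup.iff_card.mp (P.2.to_subgroup A)
      have hle := CfsgLib.Transfer.card_le_of_maximal_abelian P.2 A hAc
        (fun B hB hBc hAB => (CfsgLib.Core.eq_of_le_of_card_le hAB (hmax B ⟨hB, hBc⟩)).symm) a ha
      have ha2 : a ≤ 2 := by
        by_contra hlt
        obtain ⟨B, hBA, hB⟩ := CfsgLib.RankTwo.exists_card_pow P.2 (W := A) (k := 3)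
          (by rw [ha]; exact Nat.pow_le_pow_right (Fact.out : p.Prime).pos (by omega))
        obtain ⟨e⟩ := hpush B K (by rw [hB, hKc])
        refine hKna ⟨⟨fun x y => ?_⟩⟩
        obtain ⟨x', rfl⟩ := e.surjective x
        obtain ⟨y', rfl⟩ := e.surjective y
        rw [← map_mul, ← map_mul]
        congr 1
        have hh := congrArg Subtype.val (hAc.is_comm.comm (⟨_, hBA x'.2⟩ : A) ⟨_, hBA y'.2⟩)
        exact Subtype.ext hh
      rw [hm] at hle
      have hle' := (Nat.pow_le_pow_iff_right (Fact.out : p.Prime).one_lt).mp hle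
      have : a * (a + 1) / 2 ≤ 3 := by interval_cases a <;> norm_num
      show Nat.card (P : Subgroup G) = p ^ 3
      rw [hm, show m = 3 by omega]
    · refine Nat.dvd_antisymm (Monoid.exponent_dvd_of_forall_pow_eq_one hexp') ?_
      rcases (Nat.dvd_prime (Fact.out : p.Prime)).mp (Monoid.exponent_dvd_of_forall_pow_eq_one hexp')
        with h1 | h1
      · haveI := Monoid.exp_eq_one_iff.mp h1
        exact absurd ⟨⟨fun a b => Subsingleton.elim _ _⟩⟩ hcomm
      · exact h1.symm.dvd
  · exact Or.inl h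
  · rcases Nat.eq_zero_or_pos n with rfl | hn
    · exact Or.inr (Or.inr (Or.inl ⟨rfl, ⟨e⟩⟩))
    exfalso
    obtain ⟨A, B, hA, hB, hAB⟩ := CfsgLib.Core.ConjSub.quaternion_two_subgroups hn
    have hinj := e.symm.injective
    obtain ⟨f⟩ := hpush (A.map e.symm.toMonoidHom) (B.map e.symm.toMonoidHom)
      (by rw [Subgroup.card_map_of_injective hinj, Subgroup.card_map_of_injective hinj, hAB])
    haveI := hA
    have g := ((Subgroup.equivMapOfInjective A e.symm.toMonoidHom hinj).trans f).trans
      (Subgroup.equivMapOfInjective B e.symm.toMonoidHom hinj).symm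
    exact hB (isCyclic_of_surjective g.toMonoidHom g.surjective)

end Cfsg.Agent.S4023
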