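import Cfsg.Statements.S4024
import Cfsg.Agent.S4023
import Cfsg.Agent.Lib.CorePSolvable

set_option autoImplicit false
open Cfsg

namespace Cfsg.Agent.S4024

open scoped commutatorElement

/-- Let p be an odd prime and G a finite group in which any two p-subgroups of the same order are conjugate, with Sylow p-subgroup P. If H is a normal p-solvable subgroup of G whose order is divisible by p, then P is abelian, and either P ≤ H or P is cyclic. -/
theorem result {G : Type*} [Group G] [Finite G]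
    {p : ℕ} [Fact p.Prime] (hp : p ≠ 2) (hC : ∀ H K : Subgroup G, IsPGroup p H → IsPGroup p K → Nat.card H = Nat.card K →
      ∃ g : G, K = H.map (MulAut.conj g).toMonoidHom) (P : Sylow p G)
    (H : Subgroup G) [H.Normal] (hsolv : Cfsg.IsPSolvable p H) (hdiv : p ∣ Nat.card H) :
    IsMulCommutative P ∧ ((P : Subgroup G) ≤ H ∨ IsCyclic P) := by
  have hP := P.2
  set K := Cfsg.pPrimeCore p G with hK
  haveI hKn : K.Normal := CfsgLib.Core.normal_pPrimeCore p
  set f := QuotientGroup.mk' K with hf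
  have hfs := QuotientGroup.mk'_surjective K
  set Hb := H.map f with hHb
  haveI : Hb.Normal := Subgroup.Normal.map inferInstance f hfs
  have hKcop : (Nat.card K).Coprime p := CfsgLib.Core.coprime_card_pPrimeCore p
  have hinter : ∀ (x : G) (k : ℕ), orderOf x = p ^ k → x ∈ K → x = 1 := fun x k hk hx =>
    orderOf_eq_one_iff.mp (Nat.eq_one_of_dvd_coprimes (hKcop.pow_right k)
      (Subgroup.orderOf_dvd_natCard _ hx) hk.dvd)
  set D := Cfsg.pCore p (G ⧸ K) ⊓ Hb with hD
  haveI : (Cfsg.pCore p (G ⧸ K)).Normal := CfsgLib.Core.normal_pCore p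
  haveI hDn : D.Normal := inferInstance
  have hDp : IsPGroup p D := (CfsgLib.Core.isPGroup_pCore p).to_le inf_le_left
  have hHb1 : Hb ≠ ⊥ := by
    intro h0
    obtain ⟨x, hx⟩ := exists_prime_orderOf_dvd_card' (G := H) p hdiv
    have h1 : (x : G) ∈ K := (QuotientGroup.eq_one_iff _).mp
      (Subgroup.mem_bot.mp (h0 ▸ ⟨x, x.2, rfl⟩ : f x ∈ (⊥ : Subgroup _)))
    rw [← Subgroup.orderOf_coe] at hx
    rw [hinter x 1 (by rw [hx, pow_one]) h1, orderOf_one] at hx
    exact (Fact.out : p.Prime).ne_one hx.symm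
  have hD1 : D ≠ ⊥ := by
    haveI : Nontrivial Hb := (Subgroup.nontrivial_iff_ne_bot _).mpr hHb1
    have hsol : Cfsg.IsPSolvable p Hb := CfsgLib.Core.isPSolvable_of_surjective (f.subgroupMap H)
      (f.subgroupMap_surjective H) hsolv
    obtain ⟨N, hN, -, hN1, hNp | hNc⟩ := CfsgLib.Core.exists_normal_le_of_isPSolvable hsol
      (X := (⊤ : Subgroup Hb)) top_ne_bot
    · intro h0
      have h1 : N.map Hb.subtype ≤ Cfsg.pCore p (G ⧸ K) ⊓ Hb :=
        le_inf ((Subgroup.map_mono (CfsgLib.Core.le_pCore hN hNp)).trans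
          (CfsgLib.Core.pCore_map_subtype_le inferInstance)) (Subgroup.map_subtype_le N)
      rw [← hD, h0, le_bot_iff, Subgroup.map_eq_bot_iff, Subgroup.ker_subtype, le_bot_iff] at h1
      exact hN1 h1
    · have h1 : N.map Hb.subtype ≤ Cfsg.pPrimeCore p (G ⧸ K) :=
        (Subgroup.map_mono (CfsgLib.Core.le_pPrimeCore hN hNc)).trans
          (CfsgLib.Core.pPrimeCore_map_subtype_le inferInstance)
      have h2 : Cfsg.pPrimeCore p (G ⧸ K) = ⊥ := CfsgLib.Core.pPrimeCore_quotient_pPrimeCore p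
      rw [h2, le_bot_iff, Subgroup.map_eq_bot_iff,
        Subgroup.ker_subtype, le_bot_iff] at h1
      exact absurd h1 hN1
  -- every normal subgroup containing an element of order `p` contains all of them
  have hall : ∀ (L : Subgroup G), L.Normal → ∀ z ∈ L, orderOf z = p → ∀ x : G, orderOf x = p →
      x ∈ L := by
    intro L hL z hz hzo x hxo
    obtain ⟨g, hg⟩ := hC (Subgroup.zpowers z) (Subgroup.zpowers x)
      (IsPGroup.of_card (n := 1) (by rw [Nat.card_zpowers, hzo, pow_one]))
      (IsPGroup.of_card (n := 1) (by rw [Nat.card_zpowers, hxo, pow_one]))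
      (by rw [Nat.card_zpowers, Nat.card_zpowers, hzo, hxo])
    obtain ⟨w, hw, hwx⟩ := hg.le (Subgroup.mem_zpowers x)
    rw [← hwx]
    exact hL.conj_mem w ((Subgroup.zpowers_le.mpr hz) hw) g
  set L := D.comap f with hL
  haveI hLn : L.Normal := inferInstance
  have hpL : ∀ x : G, orderOf x = p → x ∈ L := by
    obtain ⟨a, ha⟩ := IsPGroup.iff_card.mp hDp
    have hpd : p ∣ Nat.card L := by
      have h2 : p ∣ Nat.card D := by
        rw [ha]
        exact dvd_pow_self p fun h0 => hD1 (Subgroup.eq_bot_of_card_eq _ (by rw [ha, h0, pow_zero]))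
      have h3 := CfsgLib.Core.card_mul_relIndex (Subgroup.ker_le_comap f D)
      rw [Subgroup.relIndex_ker, Subgroup.map_comap_eq_self_of_surjective hfs] at h3
      exact h2.trans (Dvd.intro_left _ h3)
    obtain ⟨⟨z, hz⟩, hzo⟩ := exists_prime_orderOf_dvd_card' (G := L) p hpd
    rw [← Subgroup.orderOf_coe] at hzo
    exact fun x hx => hall L hLn z hz hzo x hx
  rcases Cfsg.Agent.S4023.result hC P with h | h | ⟨h, -⟩ | ⟨-, hna, -, hexp⟩
  · haveI := h
    exact ⟨⟨⟨fun a b => by
      letI : CommGroup (P : Subgroup G) := IsCyclic.commGroup; exact mul_comm a b⟩⟩, Or.inr h⟩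
  · have hmem : ∀ x ∈ (P : Subgroup G), x ∈ L := by
      intro x hx
      by_cases hx1 : x = 1
      · rw [hx1]; exact one_mem L
      exact hpL x (orderOf_eq_prime (h.2 x hx) hx1)
    refine ⟨h.1, Or.inl fun x hx => ?_⟩
    obtain ⟨y, hy, hyx⟩ := (hmem x hx : f x ∈ D).2
    have hk : y⁻¹ * x ∈ K := QuotientGroup.eq.mp hyx
    rw [← QuotientGroup.eq_one_iff]
    have h1 : (QuotientGroup.mk' H) x = QuotientGroup.mk' H (y⁻¹ * x) := by
      rw [map_mul, show QuotientGroup.mk' H y⁻¹ = 1 from (QuotientGroup.eq_one_iff _).mpr (inv_mem hy),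
        one_mul]
    obtain ⟨k, hk'⟩ := IsPGroup.iff_orderOf.mp hP ⟨x, hx⟩
    rw [← Subgroup.orderOf_coe] at hk'
    refine orderOf_eq_one_iff.mp (Nat.eq_one_of_dvd_coprimes (hKcop.pow_right k) ?_
      ((orderOf_map_dvd (QuotientGroup.mk' H) x).trans hk'.dvd))
    show orderOf (QuotientGroup.mk' H x) ∣ _
    rw [h1]
    exact (orderOf_map_dvd _ _).trans (Subgroup.orderOf_dvd_natCard _ hk)
  · exact absurd h hp
  · exfalso
    have hexp' : ∀ x ∈ (P : Subgroup G), x ^ p = 1 := fun x hx => by
      have h := congrArg Subtype.val (Monoid.pow_exponent_eq_one (⟨x, hx⟩ : (P : Subgroup G)))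
      change x ^ Monoid.exponent (P : Subgroup G) = 1 at h
      have he : Monoid.exponent (P : Subgroup G) = p := hexp
      rwa [he] at h
    haveI : Nontrivial (P : Subgroup G) := not_subsingleton_iff_nontrivial.mp fun h =>
      hna ⟨⟨fun a b => Subsingleton.elim _ _⟩⟩
    haveI := hP.center_nontrivial
    obtain ⟨⟨z, hz⟩, hz1⟩ := exists_ne (1 : Subgroup.center (P : Subgroup G))
    have hzo : orderOf (z : G) = p := orderOf_eq_prime (hexp' _ z.2) fun h =>
      hz1 (Subtype.ext (Subtype.ext h))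
    set L2 := (Subgroup.centralizer ((P : Subgroup G).map f : Set (G ⧸ K))).comap f with hL2
    have hPD : (P : Subgroup G).map f = D := by
      refine le_antisymm ?_ ?_
      · rintro _ ⟨x, hx, rfl⟩
        by_cases hx1 : x = 1
        · rw [hx1, map_one]; exact one_mem D
        exact hpL x (orderOf_eq_prime (hexp' x hx) hx1)
      · exact inf_le_left.trans (CfsgLib.Core.pCore_le_sylow (P.mapSurjective hfs))
    haveI hL2n : L2.Normal := by
      rw [hL2, hPD]
      haveI : (Subgroup.centralizer (D : Set (G ⧸ K))).Normal := Subgroup.normal_centralizer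
      infer_instance
    have hzL : (z : G) ∈ L2 := Subgroup.mem_centralizer_iff.mpr (by
      rintro _ ⟨x, hx, rfl⟩
      rw [← map_mul, ← map_mul]
      exact congrArg f (congrArg Subtype.val (Subgroup.mem_center_iff.mp hz ⟨x, hx⟩)))
    refine hna ⟨⟨fun a b => ?_⟩⟩
    have hmem : ∀ x ∈ (P : Subgroup G), x ∈ L2 := fun x hx => by
      by_cases hx1 : x = 1
      · rw [hx1]; exact one_mem _
      exact hall L2 hL2n _ hzL hzo x (orderOf_eq_prime (hexp' x hx) hx1)
    have h1 : f (⁅(a : G), (b : G)⁆) = 1 := by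
      rw [map_commutatorElement, commutatorElement_eq_one_iff_mul_comm]
      exact (Subgroup.mem_centralizer_iff.mp (hmem a a.2) (f b) ⟨b, b.2, rfl⟩).symm
    obtain ⟨k, hk⟩ := IsPGroup.iff_orderOf.mp hP ⁅a, b⁆
    rw [← Subgroup.orderOf_coe] at hk
    have h2 := hinter _ k hk ((QuotientGroup.eq_one_iff _).mp h1)
    exact commutatorElement_eq_one_iff_mul_comm.mp (Subtype.ext h2)

end Cfsg.Agent.S4024
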