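import Cfsg.Statements.S4028
import Cfsg.Agent.Lib.CoreBasic

set_option autoImplicit false
open Cfsg

namespace Cfsg.Agent.S4028

/-- Let G be a finite group with Sylow 2-subgroup P. Then N_G(⟨x⟩) = C_G(x) holds for every 2-element x of G if and only if N_P(⟨y⟩) = C_P(y) holds for every y ∈ P (computed inside P). -/
theorem result {G : Type*} [Group G] [Finite G] (P : Sylow 2 G) :
    (∀ x : G, (∀ r : ℕ, r.Prime → r ∣ orderOf x → r = 2) →
      Subgroup.normalizer ((Subgroup.zpowers x : Subgroup G) : Set G) ≤ Subgroup.centralizer {x}) ↔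
    (∀ y : ↥(P : Subgroup G), Subgroup.normalizer ((Subgroup.zpowers y : Subgroup ↥(P : Subgroup G)) : Set ↥(P : Subgroup G)) ≤
        Subgroup.centralizer {y}) := by
  constructor
  · intro h y u hu
    have h2 : ∀ r : ℕ, r.Prime → r ∣ orderOf (y : G) → r = 2 := by
      intro r hr hd
      obtain ⟨k, hk⟩ := IsPGroup.iff_orderOf.1 P.2 y
      rw [Subgroup.orderOf_coe, hk] at hd
      exact (Nat.prime_dvd_prime_iff_eq hr Nat.prime_two).1 (hr.dvd_of_dvd_pow hd)
    have h3 : (u : G) ∈ Subgroup.normalizer ((Subgroup.zpowers (y : G) : Subgroup G) : Set G) := by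
      refine Subgroup.mem_normalizer_iff.2 fun z => ?_
      have hmap : Subgroup.zpowers (y : G) = (Subgroup.zpowers y).map (P : Subgroup G).subtype :=
        (MonoidHom.map_zpowers (P : Subgroup G).subtype y).symm
      rw [hmap]
      constructor
      · rintro ⟨w, hw, rfl⟩
        exact ⟨u * w * u⁻¹, (Subgroup.mem_normalizer_iff.1 hu w).1 hw, rfl⟩
      · rintro ⟨w, hw, hwz⟩
        refine ⟨u⁻¹ * w * u, ?_, ?_⟩
        · have := (Subgroup.mem_normalizer_iff.1 (inv_mem hu) w).1 hw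
          rwa [inv_inv] at this
        · show (u : G)⁻¹ * (w : G) * u = z
          have hwz' : (w : G) = u * z * (u : G)⁻¹ := hwz
          rw [hwz']; group
    have h4 := h (y : G) h2 h3
    rw [Subgroup.mem_centralizer_singleton_iff] at h4 ⊢
    exact Subtype.ext h4
  · intro h x hx g hg
    haveI : Fact (Nat.Prime 2) := ⟨Nat.prime_two⟩
    obtain ⟨k, hk⟩ : ∃ k, orderOf x = 2 ^ k :=
      ⟨_, Nat.eq_prime_pow_of_unique_prime_dvd (orderOf_pos x).ne' fun {r} hr hd => hx r hr hd⟩
    -- the odd part commutes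
    let f := (Subgroup.zpowers x).normalizerMonoidHom
    have h1 : g ^ (2 ^ k) ∈ Subgroup.centralizer {x} := by
      have h5 : f ⟨g, hg⟩ ^ (2 ^ k) = 1 := by
        refine orderOf_dvd_iff_pow_eq_one.1 ((orderOf_dvd_natCard _).trans ?_)
        rw [IsCyclic.card_mulAut, Nat.card_zpowers, hk]
        rcases Nat.eq_zero_or_pos k with rfl | hk0
        · simp
        · rw [Nat.totient_prime_pow Nat.prime_two hk0, Nat.add_one_sub_one, mul_one]
          exact pow_dvd_pow 2 (by omega)
      rw [← map_pow, ← MonoidHom.mem_ker, Subgroup.normalizerMonoidHom_ker, Subgroup.mem_subgroupOf] at h5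
      rw [Subgroup.mem_centralizer_singleton_iff]
      exact (Subgroup.mem_centralizer_iff.1 h5 x (Subgroup.mem_zpowers x)).symm
    -- the 2-part commutes
    obtain ⟨e, m, hm, hord⟩ := Nat.exists_eq_two_pow_mul_odd (orderOf_pos g).ne'
    have hR1 : IsPGroup 2 (Subgroup.zpowers x) := IsPGroup.of_card (by rw [Nat.card_zpowers, hk])
    have hR2 : IsPGroup 2 (Subgroup.zpowers (g ^ m)) := IsPGroup.of_card (n := e) (by
      rw [Nat.card_zpowers, orderOf_pow' g hm.pos.ne', hord, Nat.gcd_mul_left_left, Nat.mul_div_cancel _ hm.pos])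
    have hR := hR2.to_sup_of_normal_right' hR1 (Subgroup.zpowers_le.2 (pow_mem hg m))
    obtain ⟨Q, hQ⟩ := hR.exists_le_sylow
    obtain ⟨c, hc⟩ := MulAction.exists_smul_eq G Q P
    have hmem : ∀ z ∈ Q, c * z * c⁻¹ ∈ P := fun z hz => by
      rw [← hc]
      show c * z * c⁻¹ ∈ ((c • Q : Sylow 2 G) : Subgroup G)
      rw [Sylow.coe_subgroup_smul, Subgroup.mem_pointwise_smul_iff_inv_smul_mem]
      simpa [MulAut.smul_def, mul_assoc] using (show z ∈ (Q : Subgroup G) from hz)
    have hxQ : x ∈ Q := hQ (Subgroup.mem_sup_right (Subgroup.mem_zpowers x))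
    have hgQ : g ^ m ∈ Q := hQ (Subgroup.mem_sup_left (Subgroup.mem_zpowers _))
    let y : (P : Subgroup G) := ⟨_, hmem x hxQ⟩
    let u : (P : Subgroup G) := ⟨_, hmem _ hgQ⟩
    have h6 : u ∈ Subgroup.normalizer ((Subgroup.zpowers y : Subgroup _) : Set (P : Subgroup G)) := by
      obtain ⟨i, hi⟩ := Subgroup.mem_zpowers_iff.1
        ((Subgroup.mem_normalizer_iff.1 (pow_mem hg m) x).1 (Subgroup.mem_zpowers x))
      have h7 : (Subgroup.zpowers y).map (MulAut.conj u).toMonoidHom ≤ Subgroup.zpowers y := by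
        rw [MonoidHom.map_zpowers, Subgroup.zpowers_le, Subgroup.mem_zpowers_iff]
        refine ⟨i, Subtype.ext ?_⟩
        show ((y ^ i : (P : Subgroup G)) : G) = (c * g ^ m * c⁻¹) * (c * x * c⁻¹) * (c * g ^ m * c⁻¹)⁻¹
        rw [SubgroupClass.coe_zpow, show (c * g ^ m * c⁻¹) * (c * x * c⁻¹) * (c * g ^ m * c⁻¹)⁻¹ =
          c * (g ^ m * x * (g ^ m)⁻¹) * c⁻¹ by group, ← hi]
        exact map_zpow (MulAut.conj c) x i |>.symm
      have h8 := CfsgLib.Core.eq_of_le_of_card_le h7
        (by rw [Subgroup.card_map_of_injective (MulAut.conj u).injective])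
      refine Subgroup.mem_normalizer_iff.2 fun z => ?_
      conv_rhs => rw [← h8]
      exact (Subgroup.mem_map_iff_mem (f := (MulAut.conj u).toMonoidHom) (MulAut.conj u).injective).symm
    have h9 := Subgroup.mem_centralizer_singleton_iff.1 (h y h6)
    have h10 : g ^ m ∈ Subgroup.centralizer {x} := by
      rw [Subgroup.mem_centralizer_singleton_iff]
      have h11 : (c * g ^ m * c⁻¹) * (c * x * c⁻¹) = (c * x * c⁻¹) * (c * g ^ m * c⁻¹) := congrArg Subtype.val h9
      calc g ^ m * x = c⁻¹ * ((c * g ^ m * c⁻¹) * (c * x * c⁻¹)) * c := by group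
        _ = c⁻¹ * ((c * x * c⁻¹) * (c * g ^ m * c⁻¹)) * c := by rw [h11]
        _ = x * g ^ m := by group
    have hco : Nat.Coprime m (2 ^ k) := (Nat.coprime_two_right.2 hm).pow_right k
    have hbez := Nat.gcd_eq_gcd_ab m (2 ^ k)
    rw [hco.gcd_eq_one, Nat.cast_one] at hbez
    have : g = (g ^ m) ^ (Nat.gcdA m (2 ^ k)) * (g ^ (2 ^ k)) ^ (Nat.gcdB m (2 ^ k)) := by
      rw [← zpow_natCast, ← zpow_mul, ← zpow_natCast g (2 ^ k), ← zpow_mul, ← zpow_add, ← hbez, zpow_one]
    rw [this]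
    exact mul_mem (zpow_mem h10 _) (zpow_mem h1 _)

end Cfsg.Agent.S4028
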