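import Cfsg.Statements.S4029
import Cfsg.Agent.Lib.CharPerm
import Cfsg.Agent.Lib.CorePGroup
import Cfsg.Agent.Lib.CharRep
import Mathlib.GroupTheory.FiniteAbelian.Duality
import Mathlib.RingTheory.RootsOfUnity.Complex
import Mathlib.Analysis.Complex.Polynomial.Basic

set_option autoImplicit false
open Cfsg
open scoped commutatorElement

namespace Cfsg.Agent.S4029
universe w

private theorem main {P : Type w} [Group P] [Finite P] (hP : IsPGroup 2 P)
    (hirr : ∀ y : P, Subgroup.normalizer ((Subgroup.zpowers y : Subgroup P) : Set P) ≤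
      Subgroup.centralizer {y}) :
    Nat.card (P ⧸ frattini P) ≤ Nat.card {c : ConjClasses P // ∃ y : P, ConjClasses.mk y = c ∧ orderOf y = 2} + 1 ∧
    Nat.card (P ⧸ frattini P) ≤ Nat.card (Subgroup.closure {y : P | orderOf y = 2}) := by
  classical
  haveI : Fact (Nat.Prime 2) := ⟨Nat.prime_two⟩
  haveI : Finite (ConjClasses P) := Finite.of_surjective _ ConjClasses.mk_surjective
  set R := {C : ConjClasses P // ∀ g : P, ConjClasses.mk g = C → IsConj g g⁻¹} with hR
  -- real elements have order at most two
  have hreal : ∀ C : R, ∃ y : P, ConjClasses.mk y = C.1 ∧ (y = 1 ∨ orderOf y = 2) := fun C => by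
    obtain ⟨y, hy⟩ := ConjClasses.mk_surjective C.1
    obtain ⟨g, hg⟩ := isConj_iff.1 (C.2 y hy)
    have hgn : g ∈ Subgroup.normalizer ((Subgroup.zpowers y : Subgroup P) : Set P) := by
      refine Subgroup.mem_normalizer_fintype fun z hz => ?_
      obtain ⟨i, rfl⟩ := Subgroup.mem_zpowers_iff.1 hz
      show g * y ^ i * g⁻¹ ∈ Subgroup.zpowers y
      rw [← conj_zpow, hg]
      exact zpow_mem (inv_mem (Subgroup.mem_zpowers y)) i
    have hc : g * y = y * g := Subgroup.mem_centralizer_singleton_iff.1 (hirr y hgn)
    have h2 : y ^ 2 = 1 := by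
      rw [hc, mul_inv_cancel_right] at hg
      rw [sq]; exact mul_eq_one_iff_eq_inv.2 hg
    refine ⟨y, hy, ?_⟩
    rcases (Nat.dvd_prime Nat.prime_two).1 (orderOf_dvd_of_pow_eq_one h2) with h | h
    · exact Or.inl (orderOf_eq_one_iff.1 h)
    · exact Or.inr h
  -- linear characters of the Frattini quotient are real
  have hle : Nat.card (P ⧸ frattini P) ≤ Nat.card R := by
    haveI : IsMulCommutative (P ⧸ frattini P) := ⟨⟨fun a b => by
      induction a using QuotientGroup.induction_on with | _ a => ?_
      induction b using QuotientGroup.induction_on with | _ b => ?_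
      show ((a * b : P) : P ⧸ frattini P) = ((b * a : P) : P ⧸ frattini P)
      rw [QuotientGroup.eq]
      have h := CfsgLib.Core.pgroup_commutator_le_frattini hP (Subgroup.commutator_mem_commutator
        (Subgroup.mem_top b⁻¹) (Subgroup.mem_top a⁻¹))
      rw [commutatorElement_def, inv_inv, inv_inv] at h
      rwa [show (a * b)⁻¹ * (b * a) = b⁻¹ * a⁻¹ * b * a by group]⟩⟩
    letI : CommGroup (P ⧸ frattini P) :=
      { (inferInstance : Group (P ⧸ frattini P)) with mul_comm := fun a b => mul_comm' a b }
    rw [← CfsgLib.Char.card_real_irr,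
      ← CommGroup.card_monoidHom_of_hasEnoughRootsOfUnity (P ⧸ frattini P) ℂ]
    refine Nat.card_le_card_of_injective (fun φ => ⟨⟨fun g => (φ (g : P ⧸ frattini P) : ℂ),
      CfsgLib.Char.isIrrCharacter_hom (φ.comp (QuotientGroup.mk' (frattini P)))⟩, fun g => ?_⟩) ?_
    · show (φ (g : P ⧸ frattini P) : ℂ).im = 0
      have h : (φ (g : P ⧸ frattini P) : ℂ) ^ 2 = 1 := by
        rw [← Units.val_pow_eq_pow_val, ← map_pow, ← QuotientGroup.mk_pow,
          (QuotientGroup.eq_one_iff _).2 (CfsgLib.Core.pgroup_pow_mem_frattini hP g), map_one,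
          Units.val_one]
      rcases sq_eq_one_iff.1 h with h' | h' <;> simp [h']
    · intro φ ψ h
      refine MonoidHom.ext fun x => Units.ext ?_
      induction x using QuotientGroup.induction_on with | _ g => ?_
      exact congrFun (congrArg Subtype.val (congrArg Subtype.val h)) g
  choose y hy hy2 using hreal
  have hyinj : Function.Injective y := fun a b h =>
    Subtype.ext (by rw [← hy a, ← hy b, h])
  refine ⟨hle.trans ?_, hle.trans ?_⟩
  · rw [← Finite.card_option]
    refine Nat.card_le_card_of_injective
      (fun C : R => if h : orderOf (y C) = 2 then some ⟨C.1, y C, hy C, h⟩ else none)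
      fun a b h => ?_
    simp only at h
    split_ifs at h with ha hb hb
    · simp only [Option.some.injEq, Subtype.mk.injEq] at h
      exact Subtype.ext h
    · exact hyinj ((hy2 a).resolve_right ha |>.trans ((hy2 b).resolve_right hb).symm)
  · refine Nat.card_le_card_of_injective
      (fun C : R => (⟨y C, ?_⟩ : Subgroup.closure {y : P | orderOf y = 2}))
      fun a b h => hyinj (congrArg Subtype.val h)
    rcases hy2 C with h | h
    · rw [h]; exact one_mem _
    · exact Subgroup.subset_closure h


/-- Let P be a finite 2-group in which N_P(⟨y⟩) = C_P(y) for every y ∈ P. If s is the number of conjugacy classes of involutions of P, then #(P/Φ(P)) ≤ s + 1; in particular the subgroup generated by the involutions of P has order at least #(P/Φ(P)). -/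
theorem result {P : Type*} [Group P] [Finite P] (hP : IsPGroup 2 P)
    (hirr : ∀ y : P, Subgroup.normalizer ((Subgroup.zpowers y : Subgroup P) : Set P) ≤ Subgroup.centralizer {y}) :
    Nat.card (P ⧸ frattini P) ≤ Nat.card {c : ConjClasses P // ∃ y : P, ConjClasses.mk y = c ∧ orderOf y = 2} + 1 ∧
    Nat.card (P ⧸ frattini P) ≤ Nat.card (Subgroup.closure {y : P | orderOf y = 2}) := by
  exact main hP hirr

end Cfsg.Agent.S4029
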