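import Cfsg.Statements.S4032
import Cfsg.Agent.Lib.CoreSZ

set_option autoImplicit false
open Cfsg

namespace Cfsg.Agent.S4032

/-- Let π be a set of primes and G a finite group in which N_G(⟨x⟩) = C_G(x) for every π-element x. If N is a normal subgroup of G whose order is divisible by no prime of π, then G/N has the same property: N_{G/N}(⟨y⟩) = C_{G/N}(y) for every π-element y of G/N. -/
theorem result {G : Type*} [Group G] [Finite G] (π : Set ℕ)
    (hirr : ∀ x : G, (∀ r : ℕ, r.Prime → r ∣ orderOf x → r ∈ π) →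
      Subgroup.normalizer ((Subgroup.zpowers x : Subgroup G) : Set G) ≤ Subgroup.centralizer {x})
    (N : Subgroup G) [N.Normal] (hN : ∀ r : ℕ, r.Prime → r ∣ Nat.card N → r ∉ π) :
    ∀ y : G ⧸ N, (∀ r : ℕ, r.Prime → r ∣ orderOf y → r ∈ π) →
      Subgroup.normalizer ((Subgroup.zpowers y : Subgroup (G ⧸ N)) : Set (G ⧸ N)) ≤ Subgroup.centralizer {y} := by
  intro y hy g hg
  obtain ⟨x0, rfl⟩ := QuotientGroup.mk_surjective y
  obtain ⟨g, rfl⟩ := QuotientGroup.mk_surjective g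
  set d := orderOf (x0 : G ⧸ N) with hd
  have hcop : (Nat.card N).Coprime d := Nat.coprime_of_dvd fun r hr hrN hrd => hN r hr hrN (hy r hr hrd)
  obtain ⟨u, hu⟩ := exists_pow_eq_self_of_coprime (x := (x0 : G ⧸ N)) hcop
  set x := (x0 ^ Nat.card N) ^ u with hx
  have hxy : (x : G ⧸ N) = x0 := by rw [hx, QuotientGroup.mk_pow, QuotientGroup.mk_pow, hu]
  have hxd : orderOf x ∣ d := by
    refine orderOf_dvd_of_pow_eq_one ?_
    have h0 : x0 ^ d ∈ N := (QuotientGroup.eq_one_iff _).1 (by rw [QuotientGroup.mk_pow, pow_orderOf_eq_one])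
    rw [hx, ← pow_mul, ← pow_mul, show Nat.card N * (u * d) = d * (Nat.card N * u) by ring, pow_mul, pow_mul]
    rw [show (x0 ^ d) ^ Nat.card N = 1 from congrArg Subtype.val (pow_card_eq_one' (x := (⟨_, h0⟩ : N))), one_pow]
  have hxπ : ∀ r : ℕ, r.Prime → r ∣ orderOf x → r ∈ π := fun r hr hrx => hy r hr (hrx.trans hxd)
  have hzy : ∀ m : ℤ, ((x ^ m : G) : G ⧸ N) = (x0 : G ⧸ N) ^ m := fun m => by rw [QuotientGroup.mk_zpow, hxy]
  obtain ⟨m, hm⟩ := (Subgroup.mem_normalizer_iff.1 hg _).1 (Subgroup.mem_zpowers _)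
  have hm' : (x0 : G ⧸ N) ^ m = (g : G ⧸ N) * x0 * (g : G ⧸ N)⁻¹ := hm
  have hn0 : g * x * g⁻¹ * (x ^ m)⁻¹ ∈ N := by
    rw [← QuotientGroup.eq_one_iff]
    simp only [QuotientGroup.mk_mul, QuotientGroup.mk_inv, hzy, hxy, hm', mul_inv_cancel]
  have hcopA : (Nat.card (Subgroup.zpowers x)).Coprime (Nat.card N) := by
    rw [Nat.card_zpowers]
    exact hcop.symm.coprime_dvd_left hxd
  obtain ⟨k, hk, hkB⟩ := CfsgLib.Core.exists_conj_eq_of_coprime (A := Subgroup.zpowers x) (K := N)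
    (B := Subgroup.zpowers (g * x * g⁻¹)) (by rw [Subgroup.normalizer_eq_top]; exact le_top) hcopA
    (Or.inl (Group.isSolvable_of_comm fun s t => Subtype.ext (by
      obtain ⟨i, hi⟩ := s.2; obtain ⟨j, hj⟩ := t.2
      simp only [Subgroup.coe_mul, ← hi, ← hj]
      exact (Commute.refl x).zpow_zpow i j)))
    (Subgroup.zpowers_le.2 (by
      rw [show g * x * g⁻¹ = (g * x * g⁻¹ * (x ^ m)⁻¹) * x ^ m by group]
      exact mul_mem (Subgroup.mem_sup_right hn0) (Subgroup.mem_sup_left (Subgroup.zpow_mem_zpowers x m))))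
    (by rw [Nat.card_zpowers, Nat.card_zpowers]; exact (MulAut.conj g).orderOf_eq x)
  have hmem : k⁻¹ * (g * x * g⁻¹) * k ∈ Subgroup.zpowers x :=
    CfsgLib.Core.mem_conj_smul.1 (hkB ▸ Subgroup.mem_zpowers _)
  have hN' : k⁻¹ * g ∈ Subgroup.normalizer ((Subgroup.zpowers x : Subgroup G) : Set G) := by
    refine Subgroup.mem_normalizer_fintype fun z hz => ?_
    obtain ⟨i, rfl⟩ := hz
    show k⁻¹ * g * x ^ i * (k⁻¹ * g)⁻¹ ∈ Subgroup.zpowers x
    rw [← conj_zpow]
    refine zpow_mem ?_ i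
    simpa [mul_assoc] using hmem
  have hc := Subgroup.mem_centralizer_singleton_iff.1 (hirr x hxπ hN')
  refine Subgroup.mem_centralizer_singleton_iff.2 ?_
  have h2 := congrArg (fun z : G => (z : G ⧸ N)) hc
  simpa only [QuotientGroup.mk_mul, QuotientGroup.mk_inv, (QuotientGroup.eq_one_iff k).2 hk, inv_one, one_mul, hxy] using h2

end Cfsg.Agent.S4032
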