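import Cfsg.Statements.S4034
import Cfsg.Agent.Lib.CoreHall
import Cfsg.Agent.Lib.CoreLayer
import Cfsg.Agent.Lib.CharBurnside
import Cfsg.Agent.Lib.InvolBasic

set_option autoImplicit false
open Cfsg

namespace Cfsg.Agent.S4034

open scoped Pointwise
open Subgroup

universe w

variable {G : Type w} [Group G]

theorem carrier_ncard [Finite G] (x : G) :
    (ConjClasses.mk x).carrier.ncard = (Subgroup.centralizer ({x} : Set G)).index := by
  rw [← CfsgLib.Invol.card_isConj_eq_index, ← Nat.card_coe_set_eq]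
  refine Nat.card_congr (Equiv.subtypeEquivRight fun g => ?_)
  rw [ConjClasses.mem_carrier_iff_mk_eq, ConjClasses.mk_eq_mk_iff_isConj]
  exact ⟨IsConj.symm, IsConj.symm⟩

/-- Classes of elements prime to `p` have `p`-power size. -/
def Hyp (p : ℕ) (G : Type w) [Group G] : Prop :=
  ∀ x : G, (orderOf x).Coprime p → ∃ k : ℕ, (Subgroup.centralizer ({x} : Set G)).index = p ^ k

theorem hyp_normal [Finite G] {p : ℕ} (hp : p.Prime) (h : Hyp p G) (N : Subgroup G) [N.Normal] :
    Hyp p N := by
  intro x hx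
  obtain ⟨k, hk⟩ := h x (by rwa [Subgroup.orderOf_coe])
  set C := Subgroup.centralizer ({(x : G)} : Set G) with hC
  have he : Subgroup.centralizer ({x} : Set N) = C.subgroupOf N := by
    ext y
    simp [hC, Subgroup.mem_subgroupOf, Subgroup.mem_centralizer_singleton_iff, Subtype.ext_iff]
  have h1 := CfsgLib.Core.card_sup_mul_card_inf (A := C) (K := N)
    (le_top.trans (Subgroup.normalizer_eq_top (H := N)).ge)
  have h2 := CfsgLib.Core.card_inf_mul_relIndex C N
  have h3 := CfsgLib.Core.card_mul_relIndex (le_sup_left : C ≤ C ⊔ N)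
  have h4 : C.relIndex N = C.relIndex (C ⊔ N) := by
    rw [← h2, ← h3] at h1
    have hpos : 0 < Nat.card C * Nat.card ↥(C ⊓ N) := Nat.mul_pos Nat.card_pos Nat.card_pos
    refine Nat.eq_of_mul_eq_mul_left hpos ?_
    rw [mul_right_comm] at h1
    rw [mul_assoc, h1]
  have hd : C.relIndex N ∣ p ^ k := by
    rw [h4, ← hk, ← Subgroup.relIndex_mul_index (le_sup_left : C ≤ C ⊔ N)]
    exact Dvd.intro _ rfl
  obtain ⟨j, -, hj⟩ := (Nat.dvd_prime_pow hp).mp hd
  exact ⟨j, by rw [he]; exact hj⟩

theorem hyp_quotient [Finite G] {p : ℕ} (hp : p.Prime) (h : Hyp p G) (N : Subgroup G) [N.Normal] :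
    Hyp p (G ⧸ N) := by
  intro y hy
  obtain ⟨g, rfl⟩ := QuotientGroup.mk'_surjective N y
  set a := (orderOf g).factorization p with ha
  set y := QuotientGroup.mk' N g with hyd
  have hcop : (p ^ a).Coprime (orderOf y) := (hy.symm).pow_left a
  obtain ⟨t, ht⟩ : ∃ t, (y ^ p ^ a) ^ t = y := exists_pow_eq_self_of_coprime hcop
  have hx : (orderOf ((g ^ p ^ a) ^ t)).Coprime p := by
    refine Nat.Coprime.coprime_dvd_left (orderOf_pow_dvd _) ?_
    rw [orderOf_pow, Nat.gcd_eq_right (Nat.ordProj_dvd _ _)]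
    exact (Nat.coprime_ordCompl hp (orderOf_pos g).ne').symm
  obtain ⟨k, hk⟩ := h _ hx
  have hle : (Subgroup.centralizer ({(g ^ p ^ a) ^ t} : Set G)).map (QuotientGroup.mk' N) ≤
      Subgroup.centralizer ({y} : Set (G ⧸ N)) := by
    rintro _ ⟨c, hc, rfl⟩
    rw [SetLike.mem_coe, Subgroup.mem_centralizer_singleton_iff] at hc
    have := congrArg (QuotientGroup.mk' N) hc
    rw [Subgroup.mem_centralizer_singleton_iff]
    simp only [map_mul, map_pow, ← hyd] at this
    rwa [ht] at this
  have hd : (Subgroup.centralizer ({y} : Set (G ⧸ N))).index ∣ p ^ k :=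
    hk ▸ (Subgroup.index_dvd_of_le hle).trans
      (Subgroup.index_map_dvd _ (QuotientGroup.mk'_surjective N))
  obtain ⟨j, -, hj⟩ := (Nat.dvd_prime_pow hp).mp hd
  exact ⟨j, hj⟩

theorem solvable_of_hyp {p : ℕ} (hp : p.Prime) : ∀ (n : ℕ) (G : Type w) [Group G] [Finite G],
    Nat.card G = n → Hyp p G → Group.IsSolvable G := by
  intro n
  induction n using Nat.strong_induction_on with
  | h n ih =>
    intro G _ _ hn h
    haveI : Fact p.Prime := ⟨hp⟩
    rcases subsingleton_or_nontrivial G with hG | hG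
    · infer_instance
    by_cases hs : IsSimpleGroup G
    · haveI := hs
      by_cases hx : ∃ x : G, x ≠ 1 ∧ (orderOf x).Coprime p
      · obtain ⟨x, hx1, hx2⟩ := hx
        obtain ⟨k, hk⟩ := h x hx2
        have := CfsgLib.Char.prime_card_of_class_prime_pow hp hx1 hk
        haveI := isCyclic_of_prime_card (p := Nat.card G) (hp := ⟨this⟩) rfl
        exact isSolvable_of_comm fun a b => (IsCyclic.commGroup (α := G)).mul_comm a b
      · have hP : IsPGroup p G := by
          intro g
          refine ⟨(orderOf g).factorization p, ?_⟩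
          by_contra hne
          refine hx ⟨_, hne, ?_⟩
          rw [orderOf_pow, Nat.gcd_eq_right (Nat.ordProj_dvd _ _)]
          exact (Nat.coprime_ordCompl hp (orderOf_pos g).ne').symm
        haveI := hP.isNilpotent
        infer_instance
    · obtain ⟨N, hN, hN0, hN1⟩ : ∃ N : Subgroup G, N.Normal ∧ N ≠ ⊥ ∧ N ≠ ⊤ := by
        by_contra hcon
        push_neg at hcon
        exact hs { eq_bot_or_eq_top_of_normal := fun N hN => or_iff_not_imp_left.mpr (hcon N hN) }
      haveI := hN
      haveI := ih _ (hn ▸ CfsgLib.Core.card_lt_of_ne_top hN1) N rfl (hyp_normal hp h N)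
      haveI := ih _ (hn ▸ CfsgLib.Core.card_quotient_lt hN0) (G ⧸ N) rfl (hyp_quotient hp h N)
      exact Group.isSolvable_of_ker_le_range N.subtype (QuotientGroup.mk' N)
        (by rw [QuotientGroup.ker_mk', Subgroup.range_subtype])

theorem pi'_iff {p n : ℕ} (hp : p.Prime) :
    CfsgLib.Core.IsPiNat ({p} : Set ℕ)ᶜ n ↔ ¬ p ∣ n :=
  (CfsgLib.Core.isPiNat_compl_singleton_iff hp).trans
    (Nat.coprime_comm.trans hp.coprime_iff_not_dvd)

theorem abelian_hall_of_hyp [Finite G] [Group.IsSolvable G] {p : ℕ} [hp : Fact p.Prime]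
    (h : Hyp p G) (hU : Cfsg.pCore p G = ⊥) {H : Subgroup G}
    (hH : CfsgLib.Core.IsHall ({p}ᶜ) H) : IsMulCommutative H := by
  set N := Cfsg.fittingSubgroup G with hN
  haveI : N.Normal := CfsgLib.Core.normal_fittingSubgroup
  have hNpi : CfsgLib.Core.IsPiNat ({p} : Set ℕ)ᶜ (Nat.card N) := by
    rw [pi'_iff hp.out]
    intro hd
    haveI := CfsgLib.Core.isNilpotent_fittingSubgroup (G := G)
    obtain ⟨P⟩ := (inferInstance : Nonempty (Sylow p N))
    have hPn : (P : Subgroup N).Normal := (CfsgLib.Core.isNilpotent_iff_sylow_normal.mp inferInstance) p hp P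
    have h1 : (P : Subgroup N).map N.subtype ≤ Cfsg.pCore p G :=
      CfsgLib.Core.le_pCore (CfsgLib.Core.map_subtype_normal_of_characteristic inferInstance
        (Sylow.characteristic_of_normal P hPn)) (P.2.map _)
    rw [hU, le_bot_iff, Subgroup.map_eq_bot_iff_of_injective _ N.subtype_injective] at h1
    have h2 := P.dvd_card_of_dvd_card hd
    rw [h1, Subgroup.card_bot] at h2
    exact hp.out.ne_one (Nat.dvd_one.mp h2)
  have hx : ∀ x ∈ H, x ∈ Subgroup.centralizer (N : Set G) := by
    intro x hx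
    have hcop : (orderOf x).Coprime p := by
      have hd : ¬ p ∣ Nat.card H := (pi'_iff hp.out).mp hH.1
      have h2 : orderOf x ∣ Nat.card H := by
        rw [← Nat.card_zpowers]
        exact Subgroup.card_dvd_of_le (Subgroup.zpowers_le.mpr hx)
      exact ((hp.out.coprime_iff_not_dvd).mpr fun h3 => hd (h3.trans h2)).symm
    obtain ⟨k, hk⟩ := h x hcop
    set C := Subgroup.centralizer ({x} : Set G) with hC
    obtain ⟨H2, hH2⟩ := CfsgLib.Core.exists_isHall (G := C) ({p} : Set ℕ)ᶜ
    have hH2' : CfsgLib.Core.IsHall ({p} : Set ℕ)ᶜ (H2.map C.subtype) := by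
      refine ⟨by rw [Subgroup.card_map_of_injective C.subtype_injective]; exact hH2.1, ?_⟩
      rw [Subgroup.index_map_subtype, hk]
      refine hH2.2.mul ?_
      intro q hq hd
      rw [compl_compl, Set.mem_singleton_iff]
      exact (Nat.prime_dvd_prime_iff_eq hq hp.out).mp (hq.dvd_of_dvd_pow hd)
    obtain ⟨g, hg⟩ := CfsgLib.Core.exists_conj_le_isHall hNpi hH2'
    rw [CfsgLib.Core.conj_smul_of_normal] at hg
    rw [Subgroup.mem_centralizer_iff]
    intro n hn
    obtain ⟨c, -, rfl⟩ := hg hn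
    exact Subgroup.mem_centralizer_singleton_iff.mp c.2
  have hHN : H ≤ N := fun x hx' => CfsgLib.Core.centralizer_fitting_le (hx x hx')
  exact ⟨⟨fun a b => Subtype.ext
    ((Subgroup.mem_centralizer_iff.mp (hx b b.2)) a (hHN a.2))⟩⟩

theorem solvable_of_abelian_compl {p : ℕ} (hp : p.Prime) : ∀ (n : ℕ) (G : Type w) [Group G] [Finite G],
    Nat.card G = n → ∀ H : Subgroup G, IsMulCommutative H → ¬ p ∣ Nat.card H →
      (∃ k, H.index = p ^ k) → Group.IsSolvable G := by
  intro n
  induction n using Nat.strong_induction_on with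
  | h n ih =>
    intro G _ _ hn H hH hcop hidx
    haveI := hH
    obtain ⟨k, hk⟩ := hidx
    haveI : Fact p.Prime := ⟨hp⟩
    rcases subsingleton_or_nontrivial G with hG | hG
    · infer_instance
    rcases eq_or_ne H ⊥ with rfl | hH0
    · haveI := (IsPGroup.of_card (p := p) (n := k) (by rw [← hk, Subgroup.index_bot]) : IsPGroup p G).isNilpotent
      infer_instance
    by_cases hs : IsSimpleGroup G
    · haveI := hs
      obtain ⟨x, hx, hx1⟩ := H.bot_or_exists_ne_one.resolve_left hH0
      have hle : H ≤ Subgroup.centralizer ({x} : Set G) := fun y hy =>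
        Subgroup.mem_centralizer_singleton_iff.mpr
          (congrArg Subtype.val (hH.is_comm.comm (⟨y, hy⟩ : H) ⟨x, hx⟩))
      obtain ⟨j, -, hj⟩ := (Nat.dvd_prime_pow hp).mp (hk ▸ Subgroup.index_dvd_of_le hle)
      have := CfsgLib.Char.prime_card_of_class_prime_pow hp hx1 hj
      haveI := isCyclic_of_prime_card (p := Nat.card G) (hp := ⟨this⟩) rfl
      exact isSolvable_of_comm fun a b => (IsCyclic.commGroup (α := G)).mul_comm a b
    · obtain ⟨N, hN, hN0, hN1⟩ : ∃ N : Subgroup G, N.Normal ∧ N ≠ ⊥ ∧ N ≠ ⊤ := by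
        by_contra hcon
        push_neg at hcon
        exact hs { eq_bot_or_eq_top_of_normal := fun N hN => or_iff_not_imp_left.mpr (hcon N hN) }
      haveI := hN
      have hnorm : H ≤ Subgroup.normalizer (N : Set G) := le_top.trans (Subgroup.normalizer_eq_top (H := N)).ge
      haveI := ih _ (hn ▸ CfsgLib.Core.card_lt_of_ne_top hN1) N rfl (H.subgroupOf N)
        ⟨⟨fun a b => Subtype.ext (Subtype.ext (by
          have := congrArg Subtype.val (hH.is_comm.comm (⟨a.1.1, a.2⟩ : H) ⟨b.1.1, b.2⟩)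
          exact this))⟩⟩
        (fun hd => hcop (hd.trans (by
          rw [← Subgroup.card_map_of_injective N.subtype_injective, Subgroup.subgroupOf_map_subtype]
          exact Subgroup.card_dvd_of_le inf_le_left)))
        (by
          have h4 : (H.subgroupOf N).index ∣ p ^ k := by
            have h1 := CfsgLib.Core.card_sup_mul_card_inf hnorm
            have h2 := CfsgLib.Core.card_inf_mul_relIndex H N
            have h3 := CfsgLib.Core.card_mul_relIndex (le_sup_left : H ≤ H ⊔ N)
            have h5 : H.relIndex N = H.relIndex (H ⊔ N) := by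
              rw [← h2, ← h3] at h1
              have hpos : 0 < Nat.card H * Nat.card ↥(H ⊓ N) := Nat.mul_pos Nat.card_pos Nat.card_pos
              refine Nat.eq_of_mul_eq_mul_left hpos ?_
              rw [mul_right_comm] at h1
              rw [mul_assoc, h1]
            show H.relIndex N ∣ p ^ k
            rw [h5, ← hk, ← Subgroup.relIndex_mul_index (le_sup_left : H ≤ H ⊔ N)]
            exact Dvd.intro _ rfl
          obtain ⟨j, -, hj⟩ := (Nat.dvd_prime_pow hp).mp h4
          exact ⟨j, hj⟩)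
      haveI := ih _ (hn ▸ CfsgLib.Core.card_quotient_lt hN0) (G ⧸ N) rfl (H.map (QuotientGroup.mk' N))
        inferInstance
        (fun hd => hcop (hd.trans (Subgroup.card_map_dvd _ _)))
        (by
          obtain ⟨j, -, hj⟩ := (Nat.dvd_prime_pow hp).mp
            (hk ▸ Subgroup.index_map_dvd H (QuotientGroup.mk'_surjective N))
          exact ⟨j, hj⟩)
      exact Group.isSolvable_of_ker_le_range N.subtype (QuotientGroup.mk' N)
        (by rw [QuotientGroup.ker_mk', Subgroup.range_subtype])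



/-- Let G be a finite group and p a prime. Every conjugacy class of p-regular elements of G (elements of order prime to p) has p-power size if and only if G has an abelian p-complement, i.e. an abelian subgroup of order prime to p and p-power index. -/
theorem result {G : Type*} [Group G] [Finite G] {p : ℕ} (hp : p.Prime) :
    (∀ x : G, (orderOf x).Coprime p → ∃ k : ℕ, (ConjClasses.mk x).carrier.ncard = p ^ k) ↔
    (∃ H : Subgroup G, IsMulCommutative H ∧ ¬ p ∣ Nat.card H ∧ ∃ k : ℕ, H.index = p ^ k) := by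
  haveI : Fact p.Prime := ⟨hp⟩
  simp only [carrier_ncard]
  constructor
  · intro h
    haveI := solvable_of_hyp hp _ G rfl h
    obtain ⟨H, hH⟩ := CfsgLib.Core.exists_isHall (G := G) ({p} : Set ℕ)ᶜ
    refine ⟨H, ?_, (pi'_iff hp).mp hH.1, ?_⟩
    · set U := Cfsg.pCore p G with hU
      haveI : U.Normal := CfsgLib.Core.normal_pCore p
      have hHU : H ⊓ U = ⊥ := by
        obtain ⟨k, hk⟩ := IsPGroup.iff_card.mp (CfsgLib.Core.isPGroup_pCore (G := G) p)
        refine CfsgLib.Core.inf_eq_bot_of_coprime ?_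
        rw [hU, hk]
        exact (((hp.coprime_iff_not_dvd).mpr ((pi'_iff hp).mp hH.1)).symm).pow_right k
      have hH' : CfsgLib.Core.IsHall ({p} : Set ℕ)ᶜ (H.map (QuotientGroup.mk' U)) :=
        ⟨hH.1.of_dvd (Subgroup.card_map_dvd _ _),
          hH.2.of_dvd (Subgroup.index_map_dvd H (QuotientGroup.mk'_surjective U))⟩
      haveI : Group.IsSolvable (G ⧸ U) :=
        Group.isSolvable_of_surjective (QuotientGroup.mk'_surjective U)
      have h0 : Cfsg.pCore p (G ⧸ U) = ⊥ := CfsgLib.Core.pCore_quotient_pCore p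
      have hc := abelian_hall_of_hyp (hyp_quotient hp h U) h0 hH'
      refine ⟨⟨fun a b => Subtype.ext ?_⟩⟩
      have h1 := congrArg Subtype.val (hc.is_comm.comm
        (⟨QuotientGroup.mk' U a, ⟨a, a.2, rfl⟩⟩ : H.map (QuotientGroup.mk' U))
        ⟨QuotientGroup.mk' U b, ⟨b, b.2, rfl⟩⟩)
      simp only [Subgroup.coe_mul, ← map_mul] at h1
      have h2 : ((a : G) * b)⁻¹ * (b * a) ∈ H ⊓ U :=
        ⟨H.mul_mem (H.inv_mem (H.mul_mem a.2 b.2)) (H.mul_mem b.2 a.2), QuotientGroup.eq.mp h1⟩
      rw [hHU, Subgroup.mem_bot, inv_mul_eq_one] at h2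
      exact h2
    · obtain ⟨k, -, hk⟩ := (Nat.dvd_prime_pow hp).mp
        (show H.index ∣ p ^ (Nat.card G).factorization p by
          have hs := (CfsgLib.Core.isPiNat_singleton_iff hp Subgroup.index_ne_zero_of_finite).mp
            (by simpa only [compl_compl] using hH.2)
          obtain ⟨j, hj⟩ := hs
          rw [hj]
          exact pow_dvd_pow p ((hp.pow_dvd_iff_le_factorization Nat.card_pos.ne').mp
            (hj ▸ Subgroup.index_dvd_card H)))
      exact ⟨k, hk⟩
  · rintro ⟨H, hH, hcop, k, hk⟩ x hx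
    haveI := hH
    haveI := solvable_of_abelian_compl hp _ G rfl H hH hcop ⟨k, hk⟩
    have hHall : CfsgLib.Core.IsHall ({p} : Set ℕ)ᶜ H := ⟨(pi'_iff hp).mpr hcop, by
      rw [hk, compl_compl]
      intro q hq hd
      exact (Nat.prime_dvd_prime_iff_eq hq hp).mp (hq.dvd_of_dvd_pow hd)⟩
    obtain ⟨g, hg⟩ := CfsgLib.Core.exists_conj_le_isHall (U := Subgroup.zpowers x)
      (π := ({p} : Set ℕ)ᶜ) (by
        rw [Nat.card_zpowers, pi'_iff hp]
        exact (hp.coprime_iff_not_dvd).mp hx.symm) hHall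
    have hgx : g * x * g⁻¹ ∈ H :=
      hg (CfsgLib.Core.mem_conj_smul.mpr (by simp [mul_assoc]))
    have hle : MulAut.conj g⁻¹ • H ≤ Subgroup.centralizer ({x} : Set G) := by
      intro y hy
      rw [CfsgLib.Core.mem_conj_smul] at hy
      rw [Subgroup.mem_centralizer_singleton_iff]
      have h1 : (g * y * g⁻¹) * (g * x * g⁻¹) = (g * x * g⁻¹) * (g * y * g⁻¹) :=
        congrArg Subtype.val (hH.is_comm.comm (⟨_, by simpa using hy⟩ : H) ⟨_, hgx⟩)
      refine mul_left_cancel (a := g) (mul_right_cancel (b := g⁻¹) ?_)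
      calc g * (y * x) * g⁻¹ = (g * y * g⁻¹) * (g * x * g⁻¹) := by group
        _ = _ := h1
        _ = g * (x * y) * g⁻¹ := by group
    have hidx : (MulAut.conj g⁻¹ • H).index = p ^ k := by
      rw [← hk, CfsgLib.Core.conj_smul_eq_map, Subgroup.index_map_of_bijective (MulAut.conj g⁻¹).bijective]
    obtain ⟨j, -, hj⟩ := (Nat.dvd_prime_pow hp).mp (hidx ▸ Subgroup.index_dvd_of_le hle)
    exact ⟨j, hj⟩

end Cfsg.Agent.S4034
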