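import Cfsg.Statements.S4035
import Cfsg.Agent.Lib.FgsConjCover
import Cfsg.Agent.Lib.CoreBasic

set_option autoImplicit false
open Cfsg
open scoped Pointwise

namespace Cfsg.Agent.S4035

/-- Let G be a finite group and p a prime such that p divides the size of no conjugacy class of p-regular elements (elements of order prime to p). Then G is the internal direct product of a Sylow p-subgroup P and a normal subgroup H of order prime to p: P is normal, P ⊓ H = 1 and PH = G. -/
theorem result {G : Type*} [Group G] [Finite G] {p : ℕ} [Fact p.Prime]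
    (h : ∀ x : G, (orderOf x).Coprime p → ¬ p ∣ (ConjClasses.mk x).carrier.ncard) (P : Sylow p G) :
    (P : Subgroup G).Normal ∧ ∃ H : Subgroup G, H.Normal ∧ ¬ p ∣ Nat.card H ∧
      (P : Subgroup G) ⊓ H = ⊥ ∧ (P : Subgroup G) ⊔ H = ⊤ := by
  classical
  have hp := (Fact.out : p.Prime)
  -- every element of order prime to `p` centralizes a Sylow `p`-subgroup
  have hreg : ∀ x : G, (orderOf x).Coprime p → ∀ z : G, Commute x z → (∃ k, orderOf z = p ^ k) →
      ∃ Q : Sylow p G, z ∈ (Q : Subgroup G) ∧ ∀ q ∈ (Q : Subgroup G), Commute x q := by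
    intro x hx z hz ⟨k, hk⟩
    set C := Subgroup.centralizer ({x} : Set G) with hC
    have hidx : ¬ p ∣ C.index := by
      have h1 : (ConjClasses.mk x).carrier.ncard = C.index := by
        rw [← ConjAct.orbit_eq_carrier_conjClasses, ← Nat.card_coe_set_eq,
          Nat.card_congr (MulAction.orbitEquivQuotientStabilizer (ConjAct G) x), ← Subgroup.index_eq_card,
          ConjAct.stabilizer_eq_centralizer]
        rfl
      rw [← h1]; exact h x hx
    have hzC : z ∈ C := Subgroup.mem_centralizer_singleton_iff.2 hz.eq.symm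
    have hzp : IsPGroup p (Subgroup.zpowers (⟨z, hzC⟩ : C)) :=
      IsPGroup.of_card (by rw [Nat.card_zpowers, Subgroup.orderOf_mk, hk])
    obtain ⟨S, hS⟩ := hzp.exists_le_sylow
    have hSG : ¬ p ∣ ((S : Subgroup C).map C.subtype).index := by
      rw [Subgroup.index_map_subtype]
      exact hp.not_dvd_mul S.not_dvd_index hidx
    refine ⟨(S.2.map C.subtype).toSylow hSG, ⟨⟨z, hzC⟩, hS (Subgroup.mem_zpowers _), rfl⟩, ?_⟩
    rintro _ ⟨q, -, rfl⟩
    exact (Subgroup.mem_centralizer_singleton_iff.1 q.2).symm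
  set N := (P : Subgroup G) ⊔ Subgroup.centralizer ((P : Subgroup G) : Set G)
  have hNtop : N = ⊤ := by
    by_contra hne
    obtain ⟨x, hx⟩ := CfsgLib.Fgs.exists_not_mem_conj hne
    obtain ⟨e, m, hm, hord⟩ : ∃ e m, ¬ p ∣ m ∧ orderOf x = p ^ e * m :=
      Nat.exists_eq_pow_mul_and_not_dvd (orderOf_pos x).ne' p hp.ne_one
    have h1 : (orderOf (x ^ (p ^ e))).Coprime p := by
      rw [orderOf_pow' x (pow_ne_zero _ hp.ne_zero), hord, Nat.gcd_mul_right_left, Nat.mul_div_cancel_left _ (pow_pos hp.pos _)]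
      exact (hp.coprime_iff_not_dvd.2 hm).symm
    have hm0 : m ≠ 0 := fun h0 => hm (by rw [h0]; exact dvd_zero p)
    have h2 : ∃ k, orderOf (x ^ m) = p ^ k := ⟨e, by
      rw [orderOf_pow' x hm0, hord, Nat.gcd_mul_left_left, Nat.mul_div_cancel _ (Nat.pos_of_ne_zero hm0)]⟩
    obtain ⟨Q, hzQ, hQc⟩ := hreg _ h1 (x ^ m) (Commute.pow_pow (Commute.refl x) _ _) h2
    obtain ⟨g, hg⟩ := MulAction.exists_smul_eq G P Q
    refine hx g ?_
    have hQsub : (Q : Subgroup G) = MulAut.conj g • (P : Subgroup G) := by rw [← hg]; rfl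
    have hco : Nat.Coprime (p ^ e) m := (hp.coprime_iff_not_dvd.2 hm).pow_left e
    have hbez := Nat.gcd_eq_gcd_ab (p ^ e) m
    rw [hco.gcd_eq_one, Nat.cast_one] at hbez
    have hxe : x = (x ^ (p ^ e)) ^ (Nat.gcdA (p ^ e) m) * (x ^ m) ^ (Nat.gcdB (p ^ e) m) := by
      rw [← zpow_natCast, ← zpow_mul, ← zpow_natCast x m, ← zpow_mul, ← zpow_add, ← hbez, zpow_one]
    rw [hxe]
    refine mul_mem (zpow_mem ?_ _) (zpow_mem ?_ _)
    · rw [Subgroup.mem_pointwise_smul_iff_inv_smul_mem]
      refine Subgroup.mem_sup_right (Subgroup.mem_centralizer_iff.2 fun u hu => ?_)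
      have hu' : MulAut.conj g • u ∈ (Q : Subgroup G) := by
        rw [hQsub]; exact Subgroup.smul_mem_pointwise_smul u (MulAut.conj g) _ hu
      have h3 := congrArg ((MulAut.conj g)⁻¹ • ·) (hQc _ hu').eq
      simp only [MulDistribMulAction.smul_mul, inv_smul_smul] at h3
      exact h3.symm
    · have h4 : x ^ m ∈ MulAut.conj g • (P : Subgroup G) := hQsub ▸ hzQ
      exact Subgroup.pointwise_smul_le_pointwise_smul_iff.2 (le_sup_left : (P : Subgroup G) ≤ N) h4
  have hPn : (P : Subgroup G).Normal := by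
    rw [← Subgroup.normalizer_eq_top_iff, eq_top_iff, ← hNtop]
    exact sup_le Subgroup.le_normalizer (Subgroup.centralizer_le_normalizer _)
  haveI := hPn
  have hco : Nat.Coprime (Nat.card (P : Subgroup G)) (P : Subgroup G).index := by
    obtain ⟨k, hk⟩ := IsPGroup.iff_card.1 P.2
    rw [hk]
    exact (hp.coprime_iff_not_dvd.2 P.not_dvd_index).pow_left k
  obtain ⟨H, hH⟩ := Subgroup.exists_right_complement'_of_coprime hco
  have hHcard : Nat.card H = (P : Subgroup G).index := hH.symm.index_eq_card.symm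
  have hHp : ¬ p ∣ Nat.card H := hHcard ▸ P.not_dvd_index
  have hHC : (P : Subgroup G) ≤ Subgroup.centralizer (H : Set G) := by
    intro q hq
    rw [Subgroup.mem_centralizer_iff]
    intro y hy
    obtain ⟨Q, -, hQc⟩ := hreg y ((hp.coprime_iff_not_dvd.2 fun hd => hHp (hd.trans (by
      have := orderOf_dvd_natCard (⟨y, hy⟩ : H)
      rwa [Subgroup.orderOf_mk] at this))).symm) 1 (Commute.one_right y) ⟨0, by simp⟩
    haveI : Subsingleton (Sylow p G) := Sylow.unique_of_normal P hPn |>.instSubsingleton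
    exact (hQc q (by rw [Subsingleton.elim Q P]; exact hq)).eq
  refine ⟨hPn, H, ?_, hHp, disjoint_iff.1 hH.disjoint, hH.sup_eq_top⟩
  rw [← Subgroup.normalizer_eq_top_iff, eq_top_iff, ← hH.sup_eq_top]
  exact sup_le (hHC.trans (Subgroup.centralizer_le_normalizer _)) Subgroup.le_normalizer

end Cfsg.Agent.S4035
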