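import Cfsg.Statements.S4036
import Cfsg.Agent.Lib.CoreBasic

set_option autoImplicit false
open Cfsg

namespace Cfsg.Agent.S4036

/-- Let P be a finite abelian p-group and K a group of automorphisms of P (a subgroup of Aut P) whose order is divisible by p. If all non-identity elements of K have the same fixed-point subgroup on P, then K has no non-trivial normal subgroup of order prime to p. -/
theorem result {P : Type*} [CommGroup P] [Finite P] {p : ℕ}
    [Fact p.Prime] (hP : IsPGroup p P) (K : Subgroup (MulAut P)) (hK : p ∣ Nat.card K)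
    (hfix : ∀ x y : MulAut P, x ∈ K → y ∈ K → x ≠ 1 → y ≠ 1 → ∀ v : P, x v = v ↔ y v = v) :
    ∀ N : Subgroup ↥K, N.Normal → ¬ p ∣ Nat.card N → N = ⊥ := by
  intro N hN hpN
  classical
  have hp := (Fact.out : p.Prime)
  haveI := Fintype.ofFinite N
  obtain ⟨k, hk⟩ := exists_prime_orderOf_dvd_card' (G := K) p hK
  have hk1 : (k : MulAut P) ≠ 1 := fun e => by
    rw [← Subgroup.orderOf_coe, e, orderOf_one] at hk
    exact hp.ne_one hk.symm
  by_contra hN0
  obtain ⟨n0, hn0N, hn01⟩ : ∃ n0 ∈ N, n0 ≠ 1 := by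
    by_contra hcon
    push Not at hcon
    exact hN0 ((Subgroup.eq_bot_iff_forall _).2 hcon)
  -- the norm map
  let E : P →* P := ∏ n : N, (((n : K) : MulAut P).toMonoidHom)
  have hE : ∀ v, E v = ∏ n : N, ((n : K) : MulAut P) v := fun v => MonoidHom.finsetProd_apply _ _ _
  have hEfix : ∀ v, ∀ m : N, ((m : K) : MulAut P) (E v) = E v := by
    intro v m
    rw [hE, map_prod]
    exact Fintype.prod_equiv (Equiv.mulLeft m) _ _ fun n => rfl
  have hkE : ∀ v, (k : MulAut P) (E v) = E ((k : MulAut P) v) := by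
    intro v
    rw [hE, hE, map_prod]
    let σ : N ≃ N :=
      { toFun := fun n => ⟨k * n * k⁻¹, hN.conj_mem _ n.2 k⟩
        invFun := fun n => ⟨k⁻¹ * n * k, by simpa using hN.conj_mem _ n.2 k⁻¹⟩
        left_inv := fun n => Subtype.ext (by simp [mul_assoc])
        right_inv := fun n => Subtype.ext (by simp [mul_assoc]) }
    refine Fintype.prod_equiv σ _ _ fun n => ?_
    simp [σ, MulAut.mul_apply]
  have hn01' : ((n0 : K) : MulAut P) ≠ 1 := fun e => hn01 (Subtype.ext e)
  have hcop : (Nat.card P).Coprime (Fintype.card N) := by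
    obtain ⟨a, ha⟩ := hP.exists_card_eq
    rw [← Nat.card_eq_fintype_card, ha]
    exact (hp.coprime_iff_not_dvd.2 hpN).pow_left a
  have hall : ∀ v, (k : MulAut P) v = v → E v = v ^ Fintype.card N := by
    intro v hv
    rw [hE, Finset.prod_congr rfl (fun (n : N) _ => ?_), Finset.prod_const, Finset.card_univ]
    by_cases hn : ((n : K) : MulAut P) = 1
    · rw [hn]; rfl
    · exact (hfix _ _ k.2 (n : K).2 hk1 hn v).1 hv
  have hker : E.ker = ⊥ := by
    by_contra hne
    have hinv : ∀ g : Subgroup.zpowers k, ∀ w ∈ E.ker, ((g : K) : MulAut P) w ∈ E.ker := by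
      rintro ⟨g, hg⟩ w hw
      obtain ⟨i, rfl⟩ : ∃ i : ℕ, k ^ i = g := Submonoid.mem_powers_iff _ _ |>.1 (mem_powers_iff_mem_zpowers.2 hg)
      show ((k ^ i : K) : MulAut P) w ∈ E.ker
      induction i with
      | zero => simpa using hw
      | succ i ih =>
        rw [pow_succ', Subgroup.coe_mul, MulAut.mul_apply, MonoidHom.mem_ker, ← hkE,
          (MonoidHom.mem_ker).1 (ih (Subgroup.pow_mem _ (Subgroup.mem_zpowers k) i)), map_one]
    letI : MulAction (Subgroup.zpowers k) E.ker :=
      { smul := fun g w => ⟨((g : K) : MulAut P) w, hinv g w w.2⟩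
        one_smul := fun w => Subtype.ext rfl
        mul_smul := fun g h w => Subtype.ext rfl }
    have hgp : IsPGroup p (Subgroup.zpowers k) := IsPGroup.of_card (n := 1) (by rw [Nat.card_zpowers, hk, pow_one])
    haveI : Nontrivial E.ker := (Subgroup.nontrivial_iff_ne_bot _).2 hne
    obtain ⟨w, hw, hw1⟩ := hgp.exists_fixed_point_of_prime_dvd_card_of_fixed_point (α := E.ker)
      ((hP.to_subgroup E.ker).card_eq_or_dvd.resolve_left (Finite.one_lt_card.ne')) (a := 1) (fun g => Subtype.ext (map_one ((g : K) : MulAut P)))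
    have hwk : (k : MulAut P) (w : P) = w := congrArg Subtype.val (hw ⟨k, Subgroup.mem_zpowers k⟩)
    have h1 := hall _ hwk
    rw [(MonoidHom.mem_ker).1 w.2] at h1
    exact hw1 (Subtype.ext (Nat.Coprime.pow_left_bijective hcop |>.1 (by simp only [OneMemClass.coe_one, one_pow]; exact h1)))
  have hinj : Function.Injective E := (MonoidHom.ker_eq_bot_iff E).1 hker
  refine hn01' (MulEquiv.ext fun v => ?_)
  obtain ⟨u, rfl⟩ := Finite.injective_iff_surjective.1 hinj v
  exact hEfix u ⟨n0, hn0N⟩

end Cfsg.Agent.S4036
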