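import Cfsg.Statements.S4039
import Cfsg.Agent.Lib.CharCN4
import Cfsg.Agent.Lib.CoreClassTwoComplement
import Cfsg.Agent.Lib.CoreThompsonFpf
import Cfsg.Agent.Lib.CoreCoprime
import Cfsg.Agent.Lib.CoreFitting
import Cfsg.Agent.Lib.CoreSZ

set_option autoImplicit false
open Cfsg

namespace Cfsg.Agent.S4039

open scoped commutatorElement

universe w

set_option maxHeartbeats 400000 in
private theorem main : ∀ (n : ℕ) {G : Type w} [Group G] [Finite G], Nat.card G = n →
    ∀ M : Subgroup G, IsCoatom M → Group.IsNilpotent M → Group.nilpotencyClass ↥M ≤ 2 → Group.IsSolvable G := by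
  intro n
  induction n using Nat.strong_induction_on with
  | _ n ih =>
  intro G _ _ hn M hmax hnil hcl
  haveI := hnil
  haveI hMsol : Group.IsSolvable M := inferInstance
  by_cases hC : M.normalCore = ⊥
  case neg =>
    set C := M.normalCore with hCdef
    have hCM : C ≤ M := M.normalCore_le
    have hsur := QuotientGroup.mk'_surjective C
    have hker : (QuotientGroup.mk' C).ker ≤ M := by rwa [QuotientGroup.ker_mk']
    have hmax' : IsCoatom (M.map (QuotientGroup.mk' C)) := by
      constructor
      · intro h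
        apply hmax.1
        have h3 := Subgroup.comap_map_eq_self hker
        rw [h, Subgroup.comap_top] at h3
        exact h3.symm
      · intro B hB
        have h1 : M < B.comap (QuotientGroup.mk' C) := by
          refine lt_of_eq_of_lt (Subgroup.comap_map_eq_self hker).symm ?_
          exact (Subgroup.comap_lt_comap_of_surjective hsur).2 hB
        have h2 := congrArg (Subgroup.map (QuotientGroup.mk' C)) (hmax.2 _ h1)
        rwa [Subgroup.map_comap_eq_self_of_surjective hsur,
          Subgroup.map_top_of_surjective _ hsur] at h2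
    have hs := (QuotientGroup.mk' C).subgroupMap_surjective M
    have hnil' : Group.IsNilpotent ↥(M.map (QuotientGroup.mk' C)) :=
      Group.nilpotent_of_surjective _ hs
    have hcl' : Group.nilpotencyClass ↥(M.map (QuotientGroup.mk' C)) ≤ 2 :=
      le_trans (Group.nilpotencyClass_le_of_surjective _ hs) hcl
    have hlt : Nat.card (G ⧸ C) < n := by
      rw [← hn, Subgroup.card_eq_card_quotient_mul_card_subgroup C]
      exact lt_mul_of_one_lt_right Nat.card_pos ((Subgroup.one_lt_card_iff_ne_bot C).mpr hC)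
    haveI := ih _ hlt rfl _ hmax' hnil' hcl'
    haveI : Group.IsSolvable ↥C := CfsgLib.Core.solvable_of_le hCM hMsol
    exact Group.isSolvable_of_ker_le_range C.subtype (QuotientGroup.mk' C)
      (by rw [QuotientGroup.ker_mk', Subgroup.range_subtype])
  case pos =>
  by_cases hM1 : M = ⊥
  · subst hM1
    obtain ⟨g, -, hg⟩ := SetLike.exists_of_lt (lt_top_iff_ne_top.2 hmax.1)
    have htop : Subgroup.zpowers g = ⊤ :=
      hmax.2 _ (bot_lt_iff_ne_bot.2 (Subgroup.zpowers_ne_bot.2 fun h => hg (Subgroup.mem_bot.2 h)))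
    haveI : IsCyclic G := isCyclic_iff_exists_zpowers_eq_top.mpr ⟨g, htop⟩
    letI : CommGroup G := IsCyclic.commGroup
    exact Group.isSolvable_of_comm fun a b => mul_comm a b
  -- local data at a prime dividing `|M|`
  have key : ∀ p : ℕ, (hp : p.Prime) → p ∣ Nat.card M →
      ∃ P : Subgroup G, P ≤ M ∧ (haveI := Fact.mk hp; ∃ S : Sylow p G, (S : Subgroup G) = P ∧
        Cfsg.HasNormalPComplement p G) := by
    intro p hp hdvd
    haveI := Fact.mk hp
    obtain ⟨S₀⟩ : Nonempty (Sylow p M) := inferInstance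
    have hS₀n : (S₀ : Subgroup M).Normal := inferInstance
    set P : Subgroup G := (S₀ : Subgroup M).map M.subtype with hP
    have hPM : P ≤ M := Subgroup.map_subtype_le _
    have hPp : IsPGroup p P := S₀.2.map _
    have hP1 : P ≠ ⊥ := fun h => S₀.ne_bot_of_dvd_card hdvd
      ((Subgroup.map_eq_bot_iff_of_injective _ M.subtype_injective).1 h)
    have hnorm : ∀ Q : Subgroup G, Q ≤ M → Q ≠ ⊥ → M ≤ Subgroup.normalizer (Q : Set G) →
        Subgroup.normalizer (Q : Set G) = M := by
      intro Q hQM hQ1 hMQ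
      refine (hmax.le_iff.1 hMQ).resolve_left fun htop => ?_
      haveI : Q.Normal := Subgroup.normalizer_eq_top_iff.1 htop
      exact hQ1 (le_bot_iff.1 (hC ▸ Subgroup.normal_le_normalCore.2 hQM))
    have hMP : M ≤ Subgroup.normalizer (P : Set G) := CfsgLib.CN.le_normalizer_map_of_normal hS₀n
    have hNP : Subgroup.normalizer (P : Set G) = M := hnorm P hPM hP1 hMP
    obtain ⟨S, hS⟩ := hPp.exists_le_sylow
    have hSP : P = (S : Subgroup G) := by
      by_contra hne
      haveI := S.2.isNilpotent
      have hlt : P.subgroupOf (S : Subgroup G) < ⊤ := lt_top_iff_ne_top.2 fun h =>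
        hne (le_antisymm hS (Subgroup.subgroupOf_eq_top.1 h))
      obtain ⟨x, hxN, hxP⟩ := SetLike.exists_of_lt
        (Group.normalizerCondition_of_isNilpotent _ hlt)
      have hxM : (x : G) ∈ M := by
        rw [← hNP, Subgroup.mem_normalizer_iff]
        intro y
        constructor
        · intro hy
          exact (Subgroup.mem_normalizer_iff.1 hxN ⟨y, hS hy⟩).1 hy
        · intro hy
          have hyS : y ∈ (S : Subgroup G) := by
            simpa [mul_assoc] using mul_mem (mul_mem (inv_mem x.2) (hS hy)) x.2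
          exact (Subgroup.mem_normalizer_iff.1 hxN ⟨y, hyS⟩).2 hy
      have hcl : ((S : Subgroup G).subgroupOf M) = (S₀ : Subgroup M) :=
        S₀.3 (S.2.comap_of_injective M.subtype M.subtype_injective)
          (fun y hy => hS ⟨y, hy, rfl⟩)
      exact hxP ⟨⟨x, hxM⟩, hcl ▸ (x.2 : (x : G) ∈ (S : Subgroup G)), rfl⟩
    refine ⟨P, hPM, S, hSP.symm, ?_⟩
    refine CfsgLib.Core.hasNormalPComplement_of_class_two S ?_ ?_
    · intro x hx y hy z hz
      rw [← hSP] at hx hy hz
      have hlcs : (⊤ : Subgroup M).lowerCentralSeries 2 = ⊥ :=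
        Subgroup.lowerCentralSeries_eq_bot_iff_nilpotencyClass_le.mpr hcl
      have h1 : ⁅(⟨x, hPM hx⟩ : ↥M), ⟨y, hPM hy⟩⁆ ∈ (⊤ : Subgroup M).lowerCentralSeries 1 := by
        rw [Subgroup.lowerCentralSeries_succ, Subgroup.lowerCentralSeries_zero]
        exact Subgroup.commutator_mem_commutator (Subgroup.mem_top _) (Subgroup.mem_top _)
      have h2 : ⁅⁅(⟨x, hPM hx⟩ : ↥M), (⟨y, hPM hy⟩ : ↥M)⁆, (⟨z, hPM hz⟩ : ↥M)⁆ ∈
          (⊤ : Subgroup M).lowerCentralSeries 2 := by
        rw [Subgroup.lowerCentralSeries_succ]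
        exact Subgroup.commutator_mem_commutator h1 (Subgroup.mem_top _)
      rw [hlcs, Subgroup.mem_bot, commutatorElement_eq_one_iff_mul_comm] at h2
      exact congrArg Subtype.val h2
    · intro Q hQ hQ1 hnQ g hg hgo
      rw [← hSP] at hQ hnQ
      have hMQ : M ≤ Subgroup.normalizer (Q : Set G) := by
        refine Subgroup.subgroupOf_eq_top.1 (CfsgLib.Core.eq_top_of_sylow_le fun r hr => ?_)
        obtain ⟨R⟩ : Nonempty (Sylow r M) := inferInstance
        refine ⟨R, fun x hx => ?_⟩
        by_cases hrp : r = p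
        · subst hrp
          haveI := Sylow.unique_of_normal S₀ hS₀n
          have : R = S₀ := Subsingleton.elim _ _
          exact hnQ ⟨x, this ▸ hx, rfl⟩
        · show (x : G) ∈ Subgroup.normalizer (Q : Set G)
          have key : ∀ q ∈ Q, q * (x : G) = (x : G) * q := by
            intro q hq
            have hqS : (⟨q, hPM (hQ hq)⟩ : ↥M) ∈ (S₀ : Subgroup M) := by
              obtain ⟨s, hs, hsq⟩ := hQ hq
              have hse : s = ⟨q, hPM (hQ hq)⟩ := Subtype.ext hsq
              exact hse ▸ hs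
            exact congrArg Subtype.val (Subgroup.commute_of_normal_of_disjoint _ _ hS₀n
              (inferInstance : (R : Subgroup M).Normal)
              (IsPGroup.disjoint_of_ne p r (Ne.symm hrp) _ _ S₀.2 R.2) _ _ hqS hx).eq
          refine Subgroup.mem_normalizer_fintype fun q hq => ?_
          show (x : G) * q * (x : G)⁻¹ ∈ (Q : Set G)
          rw [← key q hq, mul_inv_cancel_right]
          exact hq
      have hNQ := hnorm Q (hQ.trans hPM) hQ1 hMQ
      have hQM : IsPGroup p ↥(Q.subgroupOf M) :=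
        (hPp.to_le hQ).comap_of_injective M.subtype M.subtype_injective
      have hgM : g ∈ M := hNQ ▸ hg
      have hgn : (⟨g, hgM⟩ : ↥M) ∈ Subgroup.normalizer ((Q.subgroupOf M : Subgroup M) : Set M) := by
        rw [Subgroup.mem_normalizer_iff]
        intro q
        exact Subgroup.mem_normalizer_iff.1 hg (q : G)
      have hc := CfsgLib.Core.centralizes_of_hasNormalPComplement
        (CfsgLib.Core.hasNormalPComplement_of_isNilpotent (G := ↥M) (p := p)) hQM hgn
        (by rwa [Subgroup.orderOf_mk])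
      rw [Subgroup.mem_centralizer_iff] at hc ⊢
      intro q hq
      exact congrArg Subtype.val (hc ⟨q, (hQ.trans hPM) hq⟩ hq)
  -- the intersection of all these complements
  set K : Subgroup G := sInf {N : Subgroup G | N.Normal ∧ ∃ p k : ℕ, p.Prime ∧ p ∣ Nat.card M ∧
    (Nat.card N).Coprime p ∧ N.index = p ^ k} with hK
  haveI hKn : K.Normal := ⟨fun x hx g => Subgroup.mem_sInf.2 fun N hN =>
    hN.1.conj_mem x (Subgroup.mem_sInf.1 hx N hN) g⟩
  have hKcop : (Nat.card M).Coprime (Nat.card K) := by
    refine Nat.coprime_of_dvd fun p hp hpM hpK => ?_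
    haveI := Fact.mk hp
    obtain ⟨P, -, S, -, hnpc⟩ := key p hp hpM
    obtain ⟨N, hNn, hcop, k, hk⟩ := CfsgLib.Core.hasNormalPComplement_iff.1 hnpc
    exact hp.coprime_iff_not_dvd.1 hcop.symm
      (hpK.trans (Subgroup.card_dvd_of_le (sInf_le ⟨hNn, p, k, hp, hpM, hcop, hk⟩)))
  have hjoin : M ⊔ K = ⊤ := by
    refine CfsgLib.Core.eq_top_of_sylow_le fun r hr => ?_
    by_cases hrM : r ∣ Nat.card M
    · obtain ⟨P, hPM, S, hSP, -⟩ := key r hr.out hrM
      exact ⟨S, hSP ▸ hPM.trans le_sup_left⟩
    · obtain ⟨S⟩ : Nonempty (Sylow r G) := inferInstance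
      refine ⟨S, le_trans (fun x hx => Subgroup.mem_sInf.2 ?_) le_sup_right⟩
      rintro N ⟨hNn, p, k, hp, hpM, -, hk⟩
      haveI := hNn
      refine CfsgLib.Core.mem_of_coprime_of_index_pow hk ?_
      obtain ⟨b, hb⟩ := IsPGroup.iff_orderOf.1 S.2 ⟨x, hx⟩
      rw [Subgroup.orderOf_mk] at hb
      rw [hb]
      exact Nat.Coprime.pow_left b ((Nat.coprime_primes hr.out hp).2 fun h => hrM (h ▸ hpM))
  have hMK : M ≤ Subgroup.normalizer (K : Set G) := fun x _ => by
    rw [Subgroup.normalizer_eq_top_iff.2 hKn]; trivial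
  haveI hKs : Group.IsSolvable K := by
    by_cases hK1 : K = ⊥
    · haveI : Subsingleton ↥K := by rw [hK1]; infer_instance
      infer_instance
    obtain ⟨q, hq, hqK⟩ := Nat.exists_prime_and_dvd
      (fun h => hK1 (Subgroup.eq_bot_of_card_eq _ h) : Nat.card K ≠ 1)
    haveI := Fact.mk hq
    obtain ⟨Q₀, hQ₀⟩ := CfsgLib.Core.exists_invariant_sylow q hMK hKcop (Or.inl hMsol)
    set Q : Subgroup G := (Q₀ : Subgroup K).map K.subtype with hQ
    have hQK : Q ≤ K := Subgroup.map_subtype_le _
    have hQ1 : Q ≠ ⊥ := fun h => Q₀.ne_bot_of_dvd_card hqK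
      ((Subgroup.map_eq_bot_iff_of_injective _ K.subtype_injective).1 h)
    have hMQ : ¬ Q ≤ M := fun h => hQ1 (le_bot_iff.1 (Subgroup.inf_eq_bot_of_coprime hKcop ▸ le_inf h hQK))
    have htop : M ⊔ Q = ⊤ :=
      hmax.2 _ (lt_of_le_of_ne le_sup_left fun h => hMQ (h ▸ le_sup_right))
    have e1 := CfsgLib.Core.card_sup_mul_card_inf hQ₀
    have e2 := CfsgLib.Core.card_sup_mul_card_inf hMK
    have i1 : M ⊓ Q = ⊥ :=
      by
      refine le_bot_iff.1 ?_
      rw [← Subgroup.inf_eq_bot_of_coprime hKcop]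
      exact inf_le_inf le_rfl hQK
    have i2 : M ⊓ K = ⊥ := Subgroup.inf_eq_bot_of_coprime hKcop
    rw [htop, i1, Subgroup.card_bot, mul_one] at e1
    rw [hjoin, i2, Subgroup.card_bot, mul_one, e1] at e2
    have hQeq : Q = K :=
      Subgroup.eq_of_le_of_card_ge hQK (Nat.eq_of_mul_eq_mul_left Nat.card_pos e2).ge
    haveI := ((Q₀.2.map K.subtype : IsPGroup q Q)).isNilpotent
    exact hQeq ▸ (inferInstance : Group.IsSolvable Q)
  haveI : Group.IsSolvable (G ⧸ K) := by
    have hsur : Function.Surjective ((QuotientGroup.mk' K).comp M.subtype) := by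
      rw [← MonoidHom.range_eq_top, MonoidHom.range_comp, Subgroup.range_subtype]
      have h := congrArg (Subgroup.map (QuotientGroup.mk' K)) hjoin
      rwa [Subgroup.map_sup, QuotientGroup.map_mk'_self, sup_bot_eq,
        Subgroup.map_top_of_surjective _ (QuotientGroup.mk'_surjective K)] at h
    exact Group.isSolvable_of_surjective hsur
  exact Group.isSolvable_of_ker_le_range K.subtype (QuotientGroup.mk' K)
    (by rw [QuotientGroup.ker_mk', Subgroup.range_subtype])


/-- A finite group possessing a maximal subgroup that is nilpotent of class at most 2 is solvable. -/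
theorem result {G : Type*} [Group G] [Finite G]
    (M : Subgroup G) (hmax : IsCoatom M) (hnil : Group.IsNilpotent M) (hcl : Group.nilpotencyClass ↥M ≤ 2) :
    Group.IsSolvable G := by
  exact main (Nat.card G) rfl M hmax hnil hcl

end Cfsg.Agent.S4039
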