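import Cfsg.Statements.S4043
import Cfsg.Agent.Lib.CoreTransfer
import Cfsg.Agent.Lib.CoreSZ
import Cfsg.Agent.Lib.CorePGroup

set_option autoImplicit false
open Cfsg

set_option maxHeartbeats 400000

open scoped Pointwise

namespace Cfsg.Agent.S4043

/-- Let G be a finite group that is the semidirect product of a normal p-subgroup N by a subgroup A, and also of N by a subgroup A₁, where p is a prime and A and A₁ both have normal p-complements. If C_N(A) = C_N(A₁) = 1, then A₁ is conjugate to A by an element of N. -/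
theorem result {G : Type*} [Group G] [Finite G] {p : ℕ}
    [Fact p.Prime] (N : Subgroup G) [N.Normal] (hN : IsPGroup p N) (A A₁ : Subgroup G)
    (hA : A.IsComplement' N) (hA₁ : A₁.IsComplement' N)
    (hAp : Cfsg.HasNormalPComplement p A) (hA₁p : Cfsg.HasNormalPComplement p A₁)
    (hC : ∀ n : G, n ∈ N → (∀ a : G, a ∈ A → a * n * a⁻¹ = n) → n = 1)
    (hC₁ : ∀ n : G, n ∈ N → (∀ a : G, a ∈ A₁ → a * n * a⁻¹ = n) → n = 1) :
    ∃ n : G, n ∈ N ∧ A₁ = A.map (MulAut.conj n).toMonoidHom := by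
  have hpp : p.Prime := Fact.out
  obtain ⟨m, hm⟩ := IsPGroup.iff_card.mp hN
  -- data of a complement
  have data : ∀ B : Subgroup G, B.IsComplement' N → Cfsg.HasNormalPComplement p B →
      ∃ K S : Subgroup G, K ≤ B ∧ B ≤ Subgroup.normalizer (K : Set G) ∧ IsPGroup p S ∧ S ≤ B ∧
        K ⊔ S = B ∧ (Nat.card K).Coprime p ∧ (K ⊔ N).Normal ∧ ∃ k, (K ⊔ N).index = p ^ k := by
    rintro B hB ⟨P, K, hK, hc⟩
    haveI := hK
    refine ⟨K.map B.subtype, (P : Subgroup ↥B).map B.subtype, Subgroup.map_subtype_le _, ?_,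
      P.isPGroup'.map _, Subgroup.map_subtype_le _, ?_, ?_, ?_, ?_⟩
    · refine CfsgLib.Core.le_normalizer_iff_forall.mpr fun x hx y hy => ?_
      obtain ⟨z, hz, rfl⟩ := hy
      exact ⟨⟨x, hx⟩ * z * ⟨x, hx⟩⁻¹, hK.conj_mem z hz _, rfl⟩
    · rw [← Subgroup.map_sup, hc.sup_eq_top, ← MonoidHom.range_eq_map, Subgroup.range_subtype]
    · rw [Subgroup.card_map_of_injective B.subtype_injective, ← hc.index_eq_card]
      exact ((hpp.coprime_iff_not_dvd).mpr P.not_dvd_index).symm
    · rw [← Subgroup.normalizer_eq_top_iff, eq_top_iff, ← hB.sup_eq_top]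
      refine sup_le (fun x hx => ?_) (le_sup_right.trans Subgroup.le_normalizer)
      rw [← CfsgLib.Core.conj_smul_eq_self_iff, Subgroup.smul_sup,
        CfsgLib.Core.conj_smul_of_normal x N, CfsgLib.Core.conj_smul_of_mem_normalizer]
      rw [← CfsgLib.Core.conj_smul_eq_self_iff, ← (show ((⟨x, hx⟩ : ↥B) : G) = x from rfl),
        ← B.coe_subtype, ← CfsgLib.Core.map_conj_smul, CfsgLib.Core.conj_smul_of_normal]
    · obtain ⟨t, ht⟩ := IsPGroup.iff_card.mp P.isPGroup'
      have hKi : K.index = p ^ t := by rw [hc.symm.index_eq_card, ht]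
      have h1 : B.index = p ^ m := by rw [hB.symm.index_eq_card, hm]
      have h2 : (K.map B.subtype).index = p ^ (t + m) := by
        rw [Subgroup.index_map_subtype, hKi, h1, pow_add]
      have h3 : (K.map B.subtype ⊔ N).index ∣ p ^ (t + m) := h2 ▸ Subgroup.index_dvd_of_le le_sup_left
      obtain ⟨k, -, hk⟩ := (Nat.dvd_prime_pow hpp).mp h3
      exact ⟨k, hk⟩
  obtain ⟨K, S, hKA, hAK, hS, hSA, hKS, hKc, hKN, k, hk⟩ := data A hA hAp
  obtain ⟨K₁, S₁, hK₁A, hAK₁, -, -, -, hK₁c, hKN₁, k₁, hk₁⟩ := data A₁ hA₁ hA₁p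
  have hsub : ∀ L L' : Subgroup G, (Nat.card L).Coprime p → ∀ j, L'.Normal → L'.index = p ^ j →
      L ≤ L' := by
    intro L L' hL j hn hj x hx
    haveI := hn
    exact CfsgLib.Core.mem_of_coprime_of_index_pow hj
      (hL.coprime_dvd_left (Subgroup.orderOf_dvd_natCard L hx))
  have hle : K₁ ≤ K ⊔ N := hsub K₁ _ hK₁c k hKN hk
  have hle' : K ≤ K₁ ⊔ N := hsub K _ hKc k₁ hKN₁ hk₁
  have hKNd : ∀ L : Subgroup G, (Nat.card L).Coprime p → L ⊓ N = ⊥ := fun L hL =>
    CfsgLib.Core.inf_eq_bot_of_coprime (hm.symm ▸ hL.pow_right m)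
  have hcardeq : Nat.card K₁ = Nat.card K := by
    have h : K ⊔ N = K₁ ⊔ N :=
      le_antisymm (sup_le hle' le_sup_right) (sup_le hle le_sup_right)
    have h1 := congrArg (fun L : Subgroup G => Nat.card L) h
    try simp only at h1
    rw [CfsgLib.Core.card_sup_of_disjoint (CfsgLib.Core.le_normalizer_normal K) (hKNd K hKc),
      CfsgLib.Core.card_sup_of_disjoint (CfsgLib.Core.le_normalizer_normal K₁) (hKNd K₁ hK₁c)] at h1
    exact (mul_right_cancel₀ (Nat.card_pos (α := N)).ne' h1).symm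
  obtain ⟨n, hn, hnK⟩ := CfsgLib.Core.exists_conj_eq_of_coprime
    (CfsgLib.Core.le_normalizer_normal K) (by rw [hm]; exact hKc.pow_right m)
    (Or.inr (by haveI := hN.isNilpotent; infer_instance)) hle hcardeq
  have hC0 : N ⊓ Subgroup.normalizer (K : Set G) = ⊥ := by
    by_contra hne
    set C := N ⊓ Subgroup.normalizer (K : Set G) with hC'
    have hCK : ∀ x ∈ C, x ∈ Subgroup.centralizer (K : Set G) := fun x hx =>
      (CfsgLib.Core.mem_inf_centralizer_of_normalizes (CfsgLib.Core.le_normalizer_normal K)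
        (hKNd K hKc) hx.1 (CfsgLib.Core.conj_smul_eq_self_iff.mpr hx.2)).2
    have hSC : S ≤ Subgroup.normalizer (C : Set G) := by
      intro x hx
      rw [← CfsgLib.Core.conj_smul_eq_self_iff, hC', Subgroup.smul_inf,
        CfsgLib.Core.conj_smul_of_normal x N, CfsgLib.Core.conj_smul_of_mem_normalizer]
      exact Subgroup.le_normalizer (hAK (hSA hx))
    set E := S ⊔ C
    have hE : IsPGroup p E := by
      rw [← CfsgLib.Core.isPiNat_card_iff_isPGroup]
      exact ((CfsgLib.Core.isPiNat_card_iff_isPGroup.mpr hS).mul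
        (CfsgLib.Core.isPiNat_card_iff_isPGroup.mpr (hN.to_le inf_le_left))).of_dvd
          (CfsgLib.Core.card_sup_dvd_mul hSC)
    haveI := hE.isNilpotent
    haveI : (C.subgroupOf E).Normal := (Subgroup.normal_subgroupOf_iff_le_normalizer le_sup_right).mpr
      (CfsgLib.Core.sup_le_normalizer hSC)
    have hne' : C.subgroupOf E ≠ ⊥ := fun h => hne (by
      rw [Subgroup.subgroupOf_eq_bot] at h
      exact h.eq_bot_of_le le_sup_right)
    obtain ⟨⟨z, hz⟩, hz1⟩ := Subgroup.ne_bot_iff_exists_ne_one.mp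
      (CfsgLib.Core.nilpotent_inf_center_ne_bot hne')
    refine hz1 (Subtype.ext (Subtype.ext (hC z.1 hz.1.1 fun a ha => ?_)))
    rw [mul_inv_eq_iff_eq_mul]
    have haz : a ∈ Subgroup.centralizer ({z.1} : Set G) := by
      have : K ⊔ S ≤ Subgroup.centralizer ({z.1} : Set G) := sup_le
        (fun y hy => Subgroup.mem_centralizer_singleton_iff.mpr
          (Subgroup.mem_centralizer_iff.mp (hCK _ hz.1) y hy))
        (fun y hy => Subgroup.mem_centralizer_singleton_iff.mpr
          (congrArg Subtype.val (Subgroup.mem_center_iff.mp hz.2 ⟨y, Subgroup.mem_sup_left hy⟩)))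
      exact this (hKS.symm ▸ ha)
    exact Subgroup.mem_centralizer_singleton_iff.mp haz
  have hNK : Subgroup.normalizer (K : Set G) = A := by
    refine le_antisymm (fun g hg => ?_) hAK
    have : g ∈ A ⊔ N := by rw [hA.sup_eq_top]; trivial
    obtain ⟨a, ha, x, hx, rfl⟩ :=
      (CfsgLib.Core.mem_sup_iff_of_le_normalizer (CfsgLib.Core.le_normalizer_normal A)).mp this
    have h2 := mul_mem (inv_mem (hAK ha)) hg
    rw [inv_mul_cancel_left] at h2
    have h3 : x ∈ N ⊓ Subgroup.normalizer (K : Set G) := ⟨hx, h2⟩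
    rw [hC0, Subgroup.mem_bot] at h3
    rwa [h3, mul_one]
  refine ⟨n, hn, ?_⟩
  rw [← CfsgLib.Core.conj_smul_eq_map]
  refine Subgroup.eq_of_le_of_card_ge (fun x hx => CfsgLib.Core.mem_conj_smul.mpr (hNK ▸ ?_)) ?_
  · rw [← CfsgLib.Core.conj_smul_eq_self_iff, ← CfsgLib.Core.conj_smul_conj_smul,
      ← CfsgLib.Core.conj_smul_conj_smul, hnK, CfsgLib.Core.conj_smul_of_mem_normalizer (hAK₁ hx),
      ← hnK, CfsgLib.Core.conj_smul_conj_smul, inv_mul_cancel, CfsgLib.Core.conj_one_smul]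
  · rw [CfsgLib.Core.card_conj_smul]
    have h1 := hA.card_mul
    have h2 := hA₁.card_mul
    rw [← h2] at h1
    exact (mul_right_cancel₀ (Nat.card_pos (α := N)).ne' h1).le

end Cfsg.Agent.S4043
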