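import Cfsg.Statements.S4049
import Cfsg.Agent.Lib.CoreRealOdd

set_option autoImplicit false
open Cfsg

namespace Cfsg.Agent.S4049

/-- Let G be a finite group such that N_G(H)/C_G(H) has odd order for every nontrivial subgroup H of odd order. Then the Sylow 2-subgroups of G are normal. -/
theorem result {G : Type*} [Group G] [Finite G]
    (hhom : ∀ H : Subgroup G, H ≠ ⊥ → ¬ 2 ∣ Nat.card ↥H →
        ¬ 2 ∣ (Subgroup.centralizer (H : Set G)).relIndex (Subgroup.normalizer (H : Set G))) (P : Sylow 2 G) :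
    (P : Subgroup G).Normal := by
  refine (CfsgLib.Core.RealOdd.iff_normal_sylow P).1 fun g x hx hg => ?_
  by_contra h1
  obtain ⟨t, ⟨k, hk⟩, ht⟩ := CfsgLib.Core.RealOdd.exists_two_element_inverting hg
  have htC := CfsgLib.Core.RealOdd.mem_of_odd_relIndex
    (CfsgLib.Core.RealOdd.centralizer_normal_in_normalizer (Subgroup.zpowers x))
    (hhom _ (by simpa using h1) (by rw [Nat.card_zpowers]; exact fun h => Nat.not_even_iff_odd.2 hx (even_iff_two_dvd.2 h)))
    (CfsgLib.Core.RealOdd.mem_normalizer_zpowers ht) hk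
  have hc : x * t = t * x := Subgroup.mem_centralizer_iff.1 htC x (Subgroup.mem_zpowers x)
  exact h1 (CfsgLib.Core.RealOdd.eq_one_of_inv_eq hx (by rw [← ht, ← hc, mul_inv_cancel_right]))

end Cfsg.Agent.S4049
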