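import Cfsg.Statements.S4050
import Cfsg.Agent.Lib.CorePiClosed

set_option autoImplicit false
open Cfsg

namespace Cfsg.Agent.S4050

/-- Let π be a set of primes and G a finite group. The π-elements of G (elements whose order is divisible only by primes of π) form a subgroup if and only if G is π-separable (it has a chain of normal subgroups from 1 to G with each successive index divisible only by primes in π or only by primes outside π) and N_G(H)/C_G(H) is a π'-group for every nontrivial π'-subgroup H of G. -/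
theorem result {G : Type*} [Group G] [Finite G] (π : Set ℕ)
    (hπ : ∀ p ∈ π, p.Prime) :
    (∃ K : Subgroup G, ∀ x : G, x ∈ K ↔ ∀ p : ℕ, p.Prime → p ∣ orderOf x → p ∈ π) ↔
    ((∃ (n : ℕ) (H : Fin (n + 1) → Subgroup G), H 0 = ⊥ ∧ H (Fin.last n) = ⊤ ∧ Monotone H ∧ (∀ i, (H i).Normal) ∧
      ∀ i : Fin n, (∀ q : ℕ, q.Prime → q ∣ (H i.castSucc).relIndex (H i.succ) → q ∈ π) ∨
        (∀ q : ℕ, q.Prime → q ∣ (H i.castSucc).relIndex (H i.succ) → q ∉ π)) ∧
     (∀ H : Subgroup G, H ≠ ⊥ → (∀ p : ℕ, p.Prime → p ∣ Nat.card ↥H → p ∉ π) →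
        ∀ p : ℕ, p.Prime → p ∣ (Subgroup.centralizer (H : Set G)).relIndex (Subgroup.normalizer (H : Set G)) → p ∉ π)) := by
  classical
  constructor
  · rintro ⟨K, hK⟩
    obtain ⟨hKn, hKπ, hKi⟩ := CfsgLib.Core.PiClosed.basic (π := π) hK
    haveI := hKn
    refine ⟨⟨2, ![⊥, K, ⊤], rfl, rfl, ?_, ?_, ?_⟩, ?_⟩
    · refine Fin.monotone_iff_le_succ.2 fun i => ?_
      fin_cases i
      · exact bot_le
      · exact le_top
    · intro i
      fin_cases i
      · exact (inferInstance : (⊥ : Subgroup G).Normal)
      · exact hKn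
      · exact (inferInstance : (⊤ : Subgroup G).Normal)
    · intro i
      fin_cases i
      · refine Or.inl fun q hq hd => hKπ q hq ?_
        change q ∣ (⊥ : Subgroup G).relIndex K at hd
        rwa [Subgroup.relIndex_bot_left] at hd
      · refine Or.inr fun q hq hd => hKi q hq ?_
        change q ∣ K.relIndex ⊤ at hd
        rwa [Subgroup.relIndex_top_right] at hd
    · intro H hHb hH p hp hd hpπ
      set N := Subgroup.normalizer (H : Set G)
      set C := Subgroup.centralizer (H : Set G) with hC
      haveI := Fact.mk hp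
      obtain ⟨Q⟩ : Nonempty (Sylow p N) := inferInstance
      refine Q.not_dvd_index (hd.trans (Subgroup.index_dvd_of_le fun n hn => ?_))
      have hnK : (n : G) ∈ K := (hK _).2 fun r hr hrd => by
        obtain ⟨k, hk⟩ := IsPGroup.iff_orderOf.1 Q.isPGroup' ⟨n, hn⟩
        rw [Subgroup.orderOf_mk] at hk
        rw [Subgroup.orderOf_coe, hk] at hrd
        rwa [(Nat.prime_dvd_prime_iff_eq hr hp).1 (hr.dvd_of_dvd_pow hrd)]
      refine Subgroup.mem_centralizer_iff.2 fun h hh => ?_
      have h1 : (n : G) * h * (n : G)⁻¹ * h⁻¹ ∈ K ⊓ H := by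
        refine ⟨?_, H.mul_mem ((Subgroup.mem_normalizer_iff.1 n.2 h).1 hh) (H.inv_mem hh)⟩
        rw [mul_assoc, mul_assoc]
        exact K.mul_mem hnK (mul_assoc h (n : G)⁻¹ h⁻¹ ▸ hKn.conj_mem _ (K.inv_mem hnK) h)
      have hbot : K ⊓ H = ⊥ := CfsgLib.Core.inf_eq_bot_of_coprime (hKπ.coprime (π := π) hH)
      rw [hbot, Subgroup.mem_bot, mul_inv_eq_one, mul_inv_eq_iff_eq_mul] at h1
      exact h1.symm
  · rintro ⟨⟨n, H, h0, hn, hmono, hnorm, hstep⟩, hhom⟩
    suffices h : ∀ i : Fin (n + 1), ∃ L : Subgroup (H i), ∀ x : H i, x ∈ L ↔ CfsgLib.Core.IsPiNat π (orderOf x) by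
      obtain ⟨L, hL⟩ := h (Fin.last n)
      refine ⟨L.map (H (Fin.last n)).subtype, fun x => ⟨?_, fun hx => ?_⟩⟩
      · rintro ⟨y, hy, rfl⟩
        have := (hL y).1 hy
        rw [← Subgroup.orderOf_coe] at this
        exact this
      · refine ⟨⟨x, hn ▸ Subgroup.mem_top x⟩, (hL _).2 ?_, rfl⟩
        rw [Subgroup.orderOf_mk]
        exact hx
    intro i
    induction i using Fin.induction with
    | zero =>
      refine ⟨⊤, fun x => ⟨fun _ => ?_, fun _ => trivial⟩⟩
      have : x = 1 := Subtype.ext (Subgroup.mem_bot.1 (h0.le x.2))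
      rw [this, orderOf_one]
      exact CfsgLib.Core.IsPiNat.one π
    | succ i ih =>
      set M := H i.succ with hM
      set N := H i.castSucc with hN
      obtain ⟨L, hL⟩ := ih
      have hNM : N ≤ M := hmono i.castSucc_le_succ
      haveI : N.Normal := hnorm _
      haveI : (N.subgroupOf M).Normal := Subgroup.Normal.subgroupOf inferInstance M
      refine CfsgLib.Core.PiClosed.extension (G := M) ?_ (N.subgroupOf M) ?_ ?_
      · intro X hX hXπ p hp hd
        set Y := X.map M.subtype with hY
        have hYb : Y ≠ ⊥ := fun h => hX ((Subgroup.map_eq_bot_iff_of_injective _ M.subtype_injective).1 h)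
        have hYπ : ∀ q : ℕ, q.Prime → q ∣ Nat.card Y → q ∉ π := fun q hq hqd => by
          rw [hY, Subgroup.card_map_of_injective M.subtype_injective] at hqd
          exact hXπ q hq hqd
        refine fun hpπ => ?_
        haveI := Fact.mk hp
        obtain ⟨Q⟩ : Nonempty (Sylow p (Subgroup.normalizer (X : Set M))) := inferInstance
        refine Q.not_dvd_index (hd.trans (Subgroup.index_dvd_of_le fun m hm => ?_))
        have hmN : ((m : M) : G) ∈ Subgroup.normalizer (Y : Set G) := by
          refine Subgroup.mem_normalizer_iff.2 fun y => ?_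
          constructor
          · rintro ⟨z, hz, rfl⟩
            exact ⟨(m : M) * z * (m : M)⁻¹, (Subgroup.mem_normalizer_iff.1 m.2 z).1 hz, rfl⟩
          · rintro ⟨z, hz, hze⟩
            refine ⟨(m : M)⁻¹ * z * (m : M), ?_, ?_⟩
            · have := (Subgroup.mem_normalizer_iff.1 (inv_mem m.2) z).1 hz
              rwa [inv_inv] at this
            · show ((m : M) : G)⁻¹ * (z : G) * ((m : M) : G) = y
              rw [show (z : G) = ((m : M) : G) * y * ((m : M) : G)⁻¹ from hze]
              group
        have hmC : ((m : M) : G) ∈ Subgroup.centralizer (Y : Set G) := by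
          obtain ⟨k, hk⟩ := IsPGroup.iff_orderOf.1 Q.isPGroup' ⟨m, hm⟩
          rw [Subgroup.orderOf_mk] at hk
          refine CfsgLib.Core.PiClosed.mem_of_pow_coprime
            (n := (Subgroup.centralizer (Y : Set G)).relIndex (Subgroup.normalizer (Y : Set G))) ?_ ?_
          · haveI : ((Subgroup.centralizer (Y : Set G)).subgroupOf (Subgroup.normalizer (Y : Set G))).Normal :=
              ⟨fun c hc g => by
                rw [Subgroup.mem_subgroupOf, Subgroup.mem_centralizer_iff] at hc ⊢
                intro y hy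
                have h1 : (g : G)⁻¹ * y * (g : G) ∈ Y := by
                  have := (Subgroup.mem_normalizer_iff.1 (inv_mem g.2) y).1 hy
                  rwa [inv_inv] at this
                show y * ((g : G) * c * (g : G)⁻¹) = (g : G) * c * (g : G)⁻¹ * y
                calc y * ((g : G) * c * (g : G)⁻¹) = (g : G) * (((g : G)⁻¹ * y * g) * c) * (g : G)⁻¹ := by group
                  _ = (g : G) * ((c : G) * ((g : G)⁻¹ * y * g)) * (g : G)⁻¹ := by rw [hc _ h1]
                  _ = _ := by group⟩
            exact Subgroup.pow_index_mem ((Subgroup.centralizer (Y : Set G)).subgroupOf _) ⟨_, hmN⟩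
          · rw [Subgroup.orderOf_coe, Subgroup.orderOf_coe, hk]
            refine Nat.Coprime.pow_right k (Nat.Coprime.symm ?_)
            rw [hp.coprime_iff_not_dvd]
            exact fun h => hhom Y hYb hYπ p hp h hpπ
        refine Subgroup.mem_centralizer_iff.2 fun z hz => Subtype.ext ?_
        exact Subgroup.mem_centralizer_iff.1 hmC (z : G) ⟨z, hz, rfl⟩
      · set e := (Subgroup.subgroupOfEquivOfLe hNM).toMonoidHom
        refine ⟨Subgroup.comap e L, fun x => ?_⟩
        have h1 := hL (e x)
        rw [show orderOf (e x) = orderOf x from MulEquiv.orderOf_eq (Subgroup.subgroupOfEquivOfLe hNM) x] at h1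
        exact h1
      · rcases hstep i with h | h
        · refine ⟨⊤, fun x => ⟨fun _ q hq hqd => h q hq (hqd.trans (orderOf_dvd_natCard x)), fun _ => trivial⟩⟩
        · refine ⟨⊥, fun x => ⟨fun hx => ?_, fun hx => ?_⟩⟩
          · rw [Subgroup.mem_bot.1 hx, orderOf_one]
            exact CfsgLib.Core.IsPiNat.one π
          · rw [Subgroup.mem_bot, ← orderOf_eq_one_iff]
            by_contra hne
            obtain ⟨q, hq, hqd⟩ := Nat.exists_prime_and_dvd hne
            exact h q hq (hqd.trans (orderOf_dvd_natCard x)) (hx q hq hqd)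

end Cfsg.Agent.S4050
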