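import Cfsg.Statements.S4056
import Cfsg.Agent.Lib.CorePGroup

set_option autoImplicit false
open Cfsg

namespace Cfsg.Agent.S4056

/-- In a finite 2-group of nilpotency class at most 2 and exponent dividing 4, the Frattini subgroup lies in the centre and is elementary abelian. -/
theorem result {P : Type*} [Group P] [Finite P] (hP : IsPGroup 2 P)
    (hcl : Group.nilpotencyClass P ≤ 2) (hexp : Monoid.exponent P ∣ 4) :
    frattini P ≤ Subgroup.center P ∧ Cfsg.IsElementaryAbelian 2 (frattini P) := by
  haveI : Fact (Nat.Prime 2) := ⟨Nat.prime_two⟩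
  haveI := hP.isNilpotent
  have h4 : ∀ x : P, x ^ 4 = 1 := fun x => by
    obtain ⟨k, hk⟩ := hexp
    rw [hk, pow_mul, Monoid.pow_exponent_eq_one, one_pow]
  have hcom : ∀ x y : P, x * y * x⁻¹ * y⁻¹ ∈ Subgroup.center P := fun x y => by
    have h2 : (⊤ : Subgroup P).lowerCentralSeries 2 = ⊥ :=
      Subgroup.lowerCentralSeries_eq_bot_iff_nilpotencyClass_le.2 hcl
    refine Subgroup.mem_center_iff.2 fun z => ?_
    have h1 : x * y * x⁻¹ * y⁻¹ ∈ (⊤ : Subgroup P).lowerCentralSeries 1 :=
      Subgroup.commutator_mem_commutator (Subgroup.mem_top x) (Subgroup.mem_top y)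
    have h3 : x * y * x⁻¹ * y⁻¹ * z * (x * y * x⁻¹ * y⁻¹)⁻¹ * z⁻¹ ∈ (⊤ : Subgroup P).lowerCentralSeries 2 :=
      Subgroup.commutator_mem_commutator h1 (Subgroup.mem_top z)
    rw [h2, Subgroup.mem_bot, mul_inv_eq_one, mul_inv_eq_iff_eq_mul] at h3
    exact h3.symm
  have hpow : ∀ x y : P, y * x = (y * x * y⁻¹ * x⁻¹) * (x * y) := fun x y => by group
  have hc2 : ∀ x y : P, (y * x * y⁻¹ * x⁻¹) * (y * x * y⁻¹ * x⁻¹) = 1 := by
    intro x y
    set c := y * x * y⁻¹ * x⁻¹ with hc
    have hz : ∀ z, z * c = c * z := Subgroup.mem_center_iff.1 (hcom y x)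
    have hyx : y * x = c * (x * y) := hpow x y
    have e2 : x * y * (x * y) = c * (x * x * (y * y)) := by
      calc x * y * (x * y) = x * (y * x) * y := by group
        _ = x * c * (x * y) * y := by rw [hyx]; group
        _ = _ := by rw [hz x]; group
    have e3 : (y * y) * (x * x) = c * c * c * c * ((x * x) * (y * y)) := by
      calc (y * y) * (x * x) = y * (y * x) * x := by group
        _ = y * c * (x * y) * x := by rw [hyx]; group
        _ = c * (y * x) * (y * x) := by rw [hz y]; group
        _ = c * c * (x * y) * c * (x * y) := by rw [hyx]; group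
        _ = c * c * c * (x * y * (x * y)) := by
          rw [show c * c * (x * y) * c = c * c * ((x * y) * c) by group, hz (x * y)]; group
        _ = _ := by rw [e2]; group
    have hc4 : c * c * c * c = 1 := by rw [← h4 c]; simp [pow_succ]
    rw [hc4, one_mul] at e3
    have e4 := h4 (x * y)
    rw [show (x * y) ^ 4 = (x * y * (x * y)) * (x * y * (x * y)) by simp [pow_succ, mul_assoc], e2] at e4
    calc c * c = c * c * (((x * x) * (x * x)) * ((y * y) * (y * y))) := by
          rw [show (x * x) * (x * x) = x ^ 4 by simp [pow_succ, mul_assoc],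
            show (y * y) * (y * y) = y ^ 4 by simp [pow_succ, mul_assoc], h4, h4, mul_one, mul_one]
      _ = c * c * ((x * x) * ((x * x) * (y * y)) * (y * y)) := by group
      _ = c * c * ((x * x) * ((y * y) * (x * x)) * (y * y)) := by rw [e3]
      _ = c * (c * (x * x * (y * y))) * (x * x * (y * y)) := by group
      _ = (c * (x * x * (y * y))) * (c * (x * x * (y * y))) := by rw [← hz (c * (x * x * (y * y)))]; group
      _ = 1 := e4
  let E : Subgroup P :=
    { carrier := {z | z ∈ Subgroup.center P ∧ z * z = 1}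
      one_mem' := ⟨one_mem _, one_mul 1⟩
      mul_mem' := fun {a b} ha hb => ⟨mul_mem ha.1 hb.1, by
        calc a * b * (a * b) = a * (b * a) * b := by group
          _ = a * a * (b * b) := by rw [Subgroup.mem_center_iff.1 ha.1 b]; group
          _ = 1 := by rw [ha.2, hb.2, mul_one]⟩
      inv_mem' := fun {a} ha => ⟨inv_mem ha.1, by rw [← mul_inv_rev, ha.2, inv_one]⟩ }
  have hsq : ∀ x : P, x ^ 2 ∈ E := by
    intro x
    refine ⟨Subgroup.mem_center_iff.2 fun y => ?_, by rw [← pow_add, h4]⟩
    set c := y * x * y⁻¹ * x⁻¹ with hc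
    have hz : ∀ z, z * c = c * z := Subgroup.mem_center_iff.1 (hcom y x)
    have hyx : y * x = c * (x * y) := hpow x y
    calc y * x ^ 2 = (y * x) * x := by rw [sq]; group
      _ = c * x * (y * x) := by conv_lhs => rw [hyx]
                                group
      _ = c * x * c * (x * y) := by rw [hyx]; group
      _ = c * c * (x ^ 2 * y) := by rw [mul_assoc c x c, hz x, sq]; group
      _ = x ^ 2 * y := by rw [hc2 x y, one_mul]
  have hle : frattini P ≤ E := by
    refine CfsgLib.Core.frattini_le_of_elementary (p := 2) ?_ hsq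
    rw [commutator_def, Subgroup.commutator_le]
    exact fun x _ y _ => ⟨hcom x y, hc2 y x⟩
  refine ⟨fun x hx => (hle hx).1, ⟨⟨fun a b => Subtype.ext ?_⟩⟩, fun a ha => by rw [sq]; exact (hle ha).2⟩
  exact (Subgroup.mem_center_iff.1 (hle a.2).1 b).symm

end Cfsg.Agent.S4056
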