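import Cfsg.Statements.S4058
import Mathlib.GroupTheory.FiniteAbelian.Duality
import Mathlib.Analysis.Complex.Polynomial.Basic
import Cfsg.Agent.Lib.CharSquareCount
import Cfsg.Agent.Lib.CharInt
import Cfsg.Agent.Lib.CharRep
import Cfsg.Agent.Lib.CorePGroup

set_option autoImplicit false
open Cfsg
open scoped commutatorElement

namespace Cfsg.Agent.S4058

/-- Let G be a finite 2-group with #(G/Φ(G)) ≥ 2^(2k+1). Then the number of elements x of G with x² = 1 is divisible by 2^(k+1). -/
theorem result {G : Type*} [Group G] [Finite G] (hG : IsPGroup 2 G) (k : ℕ)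
    (hgen : 2 ^ (2 * k + 1) ≤ Nat.card (G ⧸ frattini G)) :
    2 ^ (k + 1) ∣ Nat.card {x : G // x ^ 2 = 1} := by
  classical
  haveI : Fintype G := Fintype.ofFinite G
  haveI : Fact (Nat.Prime 2) := ⟨Nat.prime_two⟩
  have hcomm : ∀ a b : G, QuotientGroup.mk' (frattini G) a * QuotientGroup.mk' (frattini G) b
      = QuotientGroup.mk' (frattini G) b * QuotientGroup.mk' (frattini G) a := fun a b => by
    rw [← commutatorElement_eq_one_iff_mul_comm, ← map_commutatorElement]
    exact (QuotientGroup.eq_one_iff _).2 (CfsgLib.Core.pgroup_commutator_le_frattini hG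
      (Subgroup.commutator_mem_commutator (Subgroup.mem_top a) (Subgroup.mem_top b)))
  let Q := G ⧸ frattini G
  letI : CommGroup Q :=
    { (inferInstance : Group Q) with
      mul_comm := fun x y => by
        obtain ⟨a, rfl⟩ := QuotientGroup.mk'_surjective _ x
        obtain ⟨b, rfl⟩ := QuotientGroup.mk'_surjective _ y
        exact hcomm a b }
  let π : G →* Q := QuotientGroup.mk' (frattini G)
  have hπ : Function.Surjective π := QuotientGroup.mk'_surjective _
  have hπsq : ∀ g : G, π (g * g) = 1 := fun g => by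
    refine (QuotientGroup.eq_one_iff _).2 ?_
    rw [← sq]
    exact CfsgLib.Core.pgroup_pow_mem_frattini hG g
  have hXc : Nat.card (Q →* ℂˣ) = Nat.card Q :=
    Nat.card_congr (CommGroup.monoidHom_mulEquiv_of_hasEnoughRootsOfUnity Q ℂ).some.toEquiv
  haveI : Finite (Q →* ℂˣ) := Nat.finite_of_card_ne_zero (by rw [hXc]; exact Nat.card_pos.ne')
  let ev : (Q →* ℂˣ) → G → ℂ := fun l g => ((l (π g) : ℂˣ) : ℂ)
  have hev1 : ∀ l g, ‖ev l g‖ = 1 := fun l g => by
    refine CfsgLib.Char.norm_eq_one_of_pow_eq_one' (m := 2) two_pos ?_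
    show ((l (π g) : ℂˣ) : ℂ) ^ 2 = 1
    rw [← Units.val_pow_eq_pow_val, ← map_pow, ← map_pow, sq, hπsq, map_one, Units.val_one]
  have htw : ∀ (l : Q →* ℂˣ) (χ : IrrCharacter G),
      IsIrrCharacter G (fun g => ev l g * (χ : G → ℂ) g) := fun l χ => by
    refine CfsgLib.Char.isIrr_of_inner_self_one
      (CfsgLib.Char.isCharacter_mul (CfsgLib.Char.isCharacter_hom (l.comp π)) χ.2.isCharacter') ?_
    rw [← CfsgLib.Char.irr_inner_self χ.2, classInner, classInner]
    congr 1
    refine Finset.sum_congr rfl fun g _ => ?_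
    have h1 : ev l g * (starRingEnd ℂ) (ev l g) = 1 := by
      rw [Complex.mul_conj, Complex.normSq_eq_norm_sq, hev1]; simp
    show ev l g * (χ : G → ℂ) g * (starRingEnd ℂ) (ev l g * (χ : G → ℂ) g) = _
    rw [map_mul, mul_mul_mul_comm, h1, one_mul]
  letI : MulAction (Q →* ℂˣ) (IrrCharacter G) :=
    { smul := fun l χ => ⟨fun g => ev l g * (χ : G → ℂ) g, htw l χ⟩
      one_smul := fun χ => Subtype.ext (funext fun g => by
        show ev 1 g * (χ : G → ℂ) g = _
        simp [ev])
      mul_smul := fun l l' χ => Subtype.ext (funext fun g => by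
        show ev (l * l') g * (χ : G → ℂ) g = ev l g * (ev l' g * (χ : G → ℂ) g)
        simp [ev, mul_assoc]) }
  have hsmul : ∀ (l : Q →* ℂˣ) (χ : IrrCharacter G) g,
      ((l • χ : IrrCharacter G) : G → ℂ) g = ev l g * (χ : G → ℂ) g := fun _ _ _ => rfl
  haveI : Finite (IrrCharacter G) := CfsgLib.Char.finite_irrCharacter
  haveI : Fintype (IrrCharacter G) := Fintype.ofFinite _
  choose d hd using fun χ : IrrCharacter G => CfsgLib.Char.exists_degree χ.2.isCharacter'
  choose z hz using fun χ : IrrCharacter G => CfsgLib.Char.exists_sqIndicator_int χ.2.isCharacter'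
  let F : IrrCharacter G → ℤ := fun χ => z χ * d χ
  have hd2 : ∀ χ : IrrCharacter G, ∃ m, d χ = 2 ^ m := fun χ => by
    obtain ⟨n, ρ, hρ, hχ⟩ := χ.2
    haveI := hρ
    have h1 : (d χ : ℂ) = (Module.finrank ℂ (Fin n → ℂ) : ℂ) := by rw [← hd χ, ← hχ, ρ.char_one]
    obtain ⟨e, he⟩ := hG.exists_card_eq
    have h2 := CfsgLib.Char.degree_dvd_card ρ
    rw [← Nat.cast_inj.1 h1, he] at h2
    obtain ⟨m, -, hm⟩ := (Nat.dvd_prime_pow Nat.prime_two).1 h2
    exact ⟨m, hm⟩
  have hinv : ∀ (l : Q →* ℂˣ) χ, F (l • χ) = F χ := fun l χ => by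
    have h1 : z (l • χ) = z χ := by
      have h2 : (z (l • χ) : ℂ) = (z χ : ℂ) := by
        rw [← hz, ← hz, CfsgLib.Char.sqIndicator, CfsgLib.Char.sqIndicator]
        refine congrArg _ (Finset.sum_congr rfl fun g _ => ?_)
        rw [hsmul]
        show ((l (π (g * g)) : ℂˣ) : ℂ) * _ = _
        rw [hπsq, map_one, Units.val_one, one_mul]
      exact_mod_cast h2
    have h3 : d (l • χ) = d χ := by
      have h4 : (d (l • χ) : ℂ) = (d χ : ℂ) := by
        rw [← hd, ← hd, hsmul]
        show ((l (π 1) : ℂˣ) : ℂ) * _ = _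
        rw [map_one, map_one, Units.val_one, one_mul]
      exact_mod_cast h4
    show z (l • χ) * (d (l • χ) : ℤ) = _
    rw [h1, h3]
  have hstab : ∀ χ : IrrCharacter G,
      Nat.card (MulAction.stabilizer (Q →* ℂˣ) χ) ≤ d χ ^ 2 := by
    intro χ
    set S := MulAction.stabilizer (Q →* ℂˣ) χ
    let N : Subgroup G :=
      { carrier := {g | ∀ l ∈ S, l (π g) = 1}
        one_mem' := fun l _ => by rw [map_one, map_one]
        mul_mem' := fun ha hb l hl => by rw [map_mul, map_mul, ha l hl, hb l hl, one_mul]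
        inv_mem' := fun ha l hl => by rw [map_inv, map_inv, ha l hl, inv_one] }
    have hoff : ∀ g, g ∉ N → (χ : G → ℂ) g = 0 := fun g hg => by
      simp only [N, Subgroup.mem_mk, Submonoid.mem_mk, Subsemigroup.mem_mk, Set.mem_setOf_eq] at hg
      push Not at hg
      obtain ⟨l, hl, hlg⟩ := hg
      have h1 := congrArg (fun c : IrrCharacter G => (c : G → ℂ) g) (MulAction.mem_stabilizer_iff.1 hl)
      simp only [hsmul] at h1
      by_contra h0
      exact hlg (Units.ext (mul_right_cancel₀ h0 (h1.trans (one_mul _).symm)))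
    have hidx : Nat.card S ≤ N.index := by
      let M : Subgroup Q := N.map π
      haveI : M.Normal := inferInstance
      have hM : ∀ l ∈ S, ∀ q ∈ M, l q = 1 := by
        rintro l hl q ⟨g, hg, rfl⟩
        exact hg l hl
      have hinj : Function.Injective (fun l : S => QuotientGroup.lift M (l : Q →* ℂˣ)
          (fun q hq => hM _ l.2 q hq)) := fun a b h => Subtype.ext (MonoidHom.ext fun q => by
        have := DFunLike.congr_fun h (QuotientGroup.mk q)
        exact this)
      have h1 : Nat.card ((Q ⧸ M) →* ℂˣ) = M.index :=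
        Nat.card_congr (CommGroup.monoidHom_mulEquiv_of_hasEnoughRootsOfUnity (Q ⧸ M) ℂ).some.toEquiv
      haveI : Finite ((Q ⧸ M) →* ℂˣ) := Nat.finite_of_card_ne_zero (by
        rw [h1]; exact Subgroup.index_ne_zero_of_finite)
      refine ((Nat.card_le_card_of_injective _ hinj).trans_eq h1).trans ?_
      exact Nat.le_of_dvd (Nat.pos_of_ne_zero Subgroup.index_ne_zero_of_finite)
        (N.index_map_dvd hπ)
    have hsum : (Nat.card G : ℝ) ≤ Nat.card N * (d χ : ℝ) ^ 2 := by
      have h1 := CfsgLib.Char.irr_inner_self χ.2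
      rw [classInner, inv_mul_eq_one₀ (CfsgLib.Char.natCard_ne_zero G)] at h1
      have h2 : (Nat.card G : ℝ) = ∑ g : G, ‖(χ : G → ℂ) g‖ ^ 2 := by
        have h3 := congrArg Complex.re h1
        rw [Complex.natCast_re, Complex.re_sum] at h3
        rw [h3]
        refine Finset.sum_congr rfl fun g _ => ?_
        rw [Complex.mul_conj, Complex.ofReal_re, Complex.normSq_eq_norm_sq]
      rw [h2, ← Finset.sum_subset (Finset.subset_univ (Finset.univ.filter fun g => g ∈ N))
        (fun g _ hg => by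
          rw [hoff g (fun h => hg (Finset.mem_filter.2 ⟨Finset.mem_univ g, h⟩)), norm_zero,
            zero_pow two_ne_zero])]
      refine (Finset.sum_le_card_nsmul _ _ ((d χ : ℝ) ^ 2) fun g _ => ?_).trans_eq ?_
      · refine pow_le_pow_left₀ (norm_nonneg _) ?_ 2
        have := CfsgLib.Char.isCharacter_norm_le χ.2.isCharacter' g
        rwa [hd, Complex.natCast_re] at this
      · rw [nsmul_eq_mul, Nat.card_eq_fintype_card, Fintype.card_subtype]
    have h3 : Nat.card N * Nat.card S ≤ Nat.card N * d χ ^ 2 := by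
      refine (Nat.mul_le_mul_left _ hidx).trans ?_
      rw [N.card_mul_index]
      exact_mod_cast hsum
    exact Nat.le_of_mul_le_mul_left h3 Nat.card_pos
  have hQ2 : IsPGroup 2 (Q →* ℂˣ) := by
    obtain ⟨e, he⟩ := (hG.to_quotient (frattini G)).exists_card_eq
    exact IsPGroup.of_card (hXc.trans he)
  have hdvd : ((2 : ℤ) ^ (k + 1)) ∣ ∑ χ : IrrCharacter G, F χ := by
    haveI : Fintype (MulAction.orbitRel.Quotient (Q →* ℂˣ) (IrrCharacter G)) := Fintype.ofFinite _
    rw [← Finset.sum_fiberwise Finset.univ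
      (fun χ => (Quotient.mk'' χ : MulAction.orbitRel.Quotient (Q →* ℂˣ) (IrrCharacter G))) F]
    refine Finset.dvd_sum fun o _ => ?_
    induction o using Quotient.inductionOn' with
    | h χ =>
    have hmem : ∀ ψ, ψ ∈ (Finset.univ.filter fun ψ : IrrCharacter G =>
        (Quotient.mk'' ψ : MulAction.orbitRel.Quotient (Q →* ℂˣ) (IrrCharacter G)) = Quotient.mk'' χ) ↔
        ψ ∈ MulAction.orbit (Q →* ℂˣ) χ := fun ψ => by
      rw [Finset.mem_filter, Quotient.eq'']
      exact ⟨fun h => h.2, fun h => ⟨Finset.mem_univ _, h⟩⟩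
    rw [Finset.sum_congr rfl fun ψ hψ => (by
      obtain ⟨l, rfl⟩ := (hmem ψ).1 hψ
      exact hinv l χ : F ψ = F χ), Finset.sum_const]
    obtain ⟨m, hm⟩ := hd2 χ
    obtain ⟨s, hs⟩ := (hQ2.to_subgroup (MulAction.stabilizer (Q →* ℂˣ) χ)).exists_card_eq
    have hcard : (Finset.univ.filter fun ψ : IrrCharacter G =>
        (Quotient.mk'' ψ : MulAction.orbitRel.Quotient (Q →* ℂˣ) (IrrCharacter G)) = Quotient.mk'' χ).card
        = (MulAction.stabilizer (Q →* ℂˣ) χ).index := by
      rw [MulAction.index_stabilizer, ← Set.ncard_coe_finset]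
      congr 1
      ext ψ
      exact hmem ψ
    obtain ⟨e, he⟩ := hQ2.exists_card_eq
    have h4 := (MulAction.stabilizer (Q →* ℂˣ) χ).card_mul_index
    rw [hs, he] at h4
    obtain ⟨t, -, ht⟩ := (Nat.dvd_prime_pow Nat.prime_two).1 (Dvd.intro_left _ h4)
    rw [ht, ← pow_add] at h4
    have h5 : s + t = e := Nat.pow_right_injective le_rfl h4
    have h6 : 2 * k + 1 ≤ e := by
      have := hgen.trans_eq (hXc.symm.trans he)
      exact (Nat.pow_le_pow_iff_right one_lt_two).1 this
    have h7 : s ≤ 2 * m := by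
      have := hstab χ
      rw [hs, hm, ← pow_mul, mul_comm m 2] at this
      exact (Nat.pow_le_pow_iff_right one_lt_two).1 this
    rw [hcard, ht, nsmul_eq_mul]
    show (2 : ℤ) ^ (k + 1) ∣ ((2 ^ t : ℕ) : ℤ) * (z χ * (d χ : ℤ))
    rw [hm]
    push_cast
    refine Dvd.dvd.trans (pow_dvd_pow 2 (show k + 1 ≤ t + m by omega)) ?_
    exact ⟨z χ, by ring⟩
  have hfin : (Nat.card {x : G // x ^ 2 = 1} : ℤ) = ∑ χ : IrrCharacter G, F χ := by
    have h := CfsgLib.Char.card_sq_eq_one (G := G)
    have h' : (Nat.card {x : G // x ^ 2 = 1} : ℂ) = ∑ χ : IrrCharacter G, ((F χ : ℤ) : ℂ) :=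
      h.trans (Finset.sum_congr (by ext; simp) fun χ _ => by simp [F, hz, hd])
    exact_mod_cast h'
  rw [← hfin] at hdvd
  exact_mod_cast hdvd

end Cfsg.Agent.S4058
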