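import Cfsg.Statements.S4065
import Cfsg.Agent.Lib.DicksonBasic

set_option autoImplicit false
open Cfsg

namespace Cfsg.Agent.S4065
open CfsgLib.Dickson

private theorem main (n : ℕ) (hn : 2 ≤ n)
    (x : Matrix.ProjectiveSpecialLinearGroup (Fin 2) (GaloisField 2 n)) :
    Cfsg.IsTISubset (Subgroup.centralizer
      ({x} : Set (Matrix.ProjectiveSpecialLinearGroup (Fin 2) (GaloisField 2 n))) :
      Set (Matrix.ProjectiveSpecialLinearGroup (Fin 2) (GaloisField 2 n))) := by
  have _ := hn
  set F := GaloisField 2 n
  have hscal : ∀ h : SL F, IsScal h → h = 1 := by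
    rintro h ⟨h1, h2, h3⟩
    have hd := det_eq h
    rw [h1, h2, ← h3, mul_zero, sub_zero] at hd
    have h00 : h.1 0 0 = 1 := by
      rcases mul_self_eq_one_iff.1 hd with e | e
      · exact e
      · rw [e, CharTwo.neg_eq]
    exact sl_ext h00 (by rw [h1]; rfl) (by rw [h2]; rfl) (h3.symm.trans h00)
  set π : SL F →* Matrix.ProjectiveSpecialLinearGroup (Fin 2) F :=
    QuotientGroup.mk' (Subgroup.center (SL F)) with hπ
  have hπs : Function.Surjective π := QuotientGroup.mk'_surjective _
  have hπi : Function.Injective π := by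
    rw [← MonoidHom.ker_eq_bot_iff, hπ, QuotientGroup.ker_mk', eq_bot_iff]
    intro h hh
    refine hscal h ?_
    have hu := commute_iff_entries.1 ((Subgroup.mem_center_iff.1 hh (upperU 1)).symm : Commute h (upperU 1))
    have hl := commute_iff_entries.1 ((Subgroup.mem_center_iff.1 hh (lowerU 1)).symm : Commute h (lowerU 1))
    simp [coe_upperU, coe_lowerU] at hu hl
    refine ⟨hl.1, ?_, ?_⟩
    · exact hu.1.symm
    · exact sub_eq_zero.1 hu.2.symm
  -- centralisers of non-identity elements are commutative
  have hCA : ∀ a b c : Matrix.ProjectiveSpecialLinearGroup (Fin 2) F, b ≠ 1 →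
      Commute a b → Commute c b → Commute a c := by
    intro a b c hb hab hcb
    obtain ⟨a, rfl⟩ := hπs a
    obtain ⟨b, rfl⟩ := hπs b
    obtain ⟨c, rfl⟩ := hπs c
    have inj : ∀ {u v : SL F}, Commute (π u) (π v) → Commute u v := fun h =>
      hπi (by rw [map_mul, map_mul]; exact h)
    exact (commute_of_commute (fun h => hb (by rw [hscal b h, map_one])) (inj hab) (inj hcb)).map π
  intro g hg y hy hgy
  by_contra hy1
  apply hg
  have hxy : x ≠ 1 := by
    rintro rfl
    exact hg (Subgroup.mem_normalizer_fintype fun z _ =>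
      Subgroup.mem_centralizer_singleton_iff.2 (by rw [mul_one, one_mul]))
  have hgy1 : g * y * g⁻¹ ≠ 1 := fun e => hy1 (by
    rw [show y = g⁻¹ * (g * y * g⁻¹) * g by group, e]; group)
  have hyx : Commute y x := Subgroup.mem_centralizer_singleton_iff.1 hy
  have hgyx : Commute (g * y * g⁻¹) x := Subgroup.mem_centralizer_singleton_iff.1 hgy
  refine Subgroup.mem_normalizer_fintype fun z hz => ?_
  have hzx : Commute z x := Subgroup.mem_centralizer_singleton_iff.1 hz
  have h1 : Commute z y := hCA z x y hxy hzx hyx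
  have h2 : Commute (g * z * g⁻¹) (g * y * g⁻¹) := h1.map (MulAut.conj g).toMonoidHom
  exact Subgroup.mem_centralizer_singleton_iff.2 (hCA _ _ _ hgy1 h2 hgyx.symm)


/-- Let F be a finite field with 2ⁿ elements, n ≥ 2. In PSL₂(F) the centralizer of every element meets each of its conjugates by elements outside its normalizer trivially. -/
theorem result (n : ℕ) (hn : 2 ≤ n)
    (x : Matrix.ProjectiveSpecialLinearGroup (Fin 2) (GaloisField 2 n)) :
    Cfsg.IsTISubset (Subgroup.centralizer ({x} : Set (Matrix.ProjectiveSpecialLinearGroup (Fin 2) (GaloisField 2 n))) :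
      Set (Matrix.ProjectiveSpecialLinearGroup (Fin 2) (GaloisField 2 n))) := by
  exact main n hn x

end Cfsg.Agent.S4065
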