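import Cfsg.Statements.S4066
import Cfsg.Agent.Lib.CoreBasic

set_option autoImplicit false
open Cfsg

namespace Cfsg.Agent.S4066

/-- Let G be a finite group in which the centralizer of every element meets each of its conjugates by elements outside its normalizer trivially. Then any two distinct Sylow p-subgroups of G, for any prime p, intersect trivially. -/
theorem result {G : Type*} [Group G] [Finite G] (hTI : ∀ x : G, Cfsg.IsTISubset (Subgroup.centralizer ({x} : Set G) : Set G))
    {p : ℕ} [Fact p.Prime] (P Q : Sylow p G) (hPQ : P ≠ Q) : (P : Subgroup G) ⊓ (Q : Subgroup G) = ⊥ := by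
  by_contra hne
  obtain ⟨y, hy, hy1⟩ : ∃ y, y ∈ (P : Subgroup G) ⊓ (Q : Subgroup G) ∧ y ≠ 1 := by
    by_contra hcon
    push Not at hcon
    exact hne ((Subgroup.eq_bot_iff_forall _).2 hcon)
  refine hPQ (Sylow.ext ?_)
  -- centralisers of elements of a centraliser normalise it
  have hTI' : ∀ v u : G, u ≠ 1 → u ∈ Subgroup.centralizer ({v} : Set G) → ∀ g ∈ Subgroup.centralizer ({u} : Set G),
      g ∈ Subgroup.normalizer ((Subgroup.centralizer ({v} : Set G) : Subgroup G) : Set G) := by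
    intro v u hu1 huv g hg
    by_contra hgN
    refine hu1 (hTI v g hgN u huv ?_)
    rw [Subgroup.mem_centralizer_singleton_iff.1 hg, mul_inv_cancel_right]
    exact huv
  have hcen : ∀ (R : Sylow p G) (r : G), r ∈ (R : Subgroup G) → r ≠ 1 → ∃ z ∈ (R : Subgroup G), z ≠ 1 ∧
      ∀ s ∈ (R : Subgroup G), s * z = z * s := by
    intro R r hr hr1
    haveI : Nontrivial (R : Subgroup G) := ⟨⟨⟨r, hr⟩, 1, fun e => hr1 (congrArg Subtype.val e)⟩⟩
    haveI := R.2.center_nontrivial
    obtain ⟨⟨z, hz⟩, hz1⟩ := exists_ne (1 : Subgroup.center (R : Subgroup G))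
    exact ⟨z, z.2, fun e => hz1 (Subtype.ext (Subtype.ext e)),
      fun s hs => congrArg Subtype.val (Subgroup.mem_center_iff.1 hz ⟨s, hs⟩)⟩
  obtain ⟨z, hzP, hz1, hz⟩ := hcen P y hy.1 hy1
  obtain ⟨z', hzQ, hz1', hz'⟩ := hcen Q y hy.2 hy1
  set K := Subgroup.centralizer ({z} : Set G) with hK
  set T := Subgroup.normalizer (K : Set G) with hT
  have hPK : (P : Subgroup G) ≤ K := fun s hs => Subgroup.mem_centralizer_singleton_iff.2 (hz s hs)
  have hKT : K ≤ T := Subgroup.le_normalizer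
  have hyK : y ∈ K := hPK hy.1
  have hz'T : z' ∈ T := hTI' z y hy1 hyK z' (Subgroup.mem_centralizer_singleton_iff.2 (hz' y hy.2).symm)
  -- `Q` lies in `T`
  have hQT : (Q : Subgroup G) ≤ T := by
    obtain ⟨k, hk⟩ := IsPGroup.iff_orderOf.1 Q.2 ⟨z', hzQ⟩
    rw [Subgroup.orderOf_mk] at hk
    obtain ⟨U, hU⟩ := (IsPGroup.of_card (n := k) (by rw [Nat.card_zpowers, Subgroup.orderOf_mk, hk]) :
      IsPGroup p (Subgroup.zpowers (⟨z', hz'T⟩ : T))).exists_le_sylow
    obtain ⟨t, ht⟩ := MulAction.exists_smul_eq T (P.subtype (hPK.trans hKT)) U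
    have hmem : (t : G)⁻¹ * z' * t ∈ (P : Subgroup G) := by
      have h1 : (⟨z', hz'T⟩ : T) ∈ ((t • P.subtype (hPK.trans hKT) : Sylow p T) : Subgroup T) :=
        ht.symm ▸ hU (Subgroup.mem_zpowers _)
      rw [Sylow.coe_subgroup_smul, Subgroup.mem_pointwise_smul_iff_inv_smul_mem] at h1
      simpa [mul_assoc, Subgroup.mem_subgroupOf] using h1
    intro q hq
    have hq' : q ∈ Subgroup.centralizer ({z'} : Set G) := Subgroup.mem_centralizer_singleton_iff.2 (hz' q hq)
    have hzt : z' ∈ Subgroup.centralizer ({(t : G) * z * (t : G)⁻¹} : Set G) := by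
      refine Subgroup.mem_centralizer_singleton_iff.2 ?_
      calc z' * ((t : G) * z * (t : G)⁻¹) = (t : G) * (((t : G)⁻¹ * z' * t) * z) * (t : G)⁻¹ := by group
        _ = (t : G) * (z * ((t : G)⁻¹ * z' * t)) * (t : G)⁻¹ := by rw [hz _ hmem]
        _ = _ := by group
    have h2 := hTI' _ z' hz1' hzt q hq'
    have hconj : ∀ w, w ∈ Subgroup.centralizer ({(t : G) * z * (t : G)⁻¹} : Set G) ↔ w ∈ K := by
      intro w
      rw [show w ∈ K ↔ (t : G)⁻¹ * w * t ∈ K from by
        simpa using (Subgroup.mem_normalizer_iff.1 (inv_mem t.2) w), hK,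
        Subgroup.mem_centralizer_singleton_iff, Subgroup.mem_centralizer_singleton_iff]
      constructor
      · intro h
        calc (t : G)⁻¹ * w * t * z = (t : G)⁻¹ * (w * ((t : G) * z * (t : G)⁻¹)) * t := by group
          _ = _ := by rw [h]; group
      · intro h
        calc w * ((t : G) * z * (t : G)⁻¹) = (t : G) * ((t : G)⁻¹ * w * t * z) * (t : G)⁻¹ := by group
          _ = _ := by rw [h]; group
    rwa [show (Subgroup.centralizer ({(t : G) * z * (t : G)⁻¹} : Set G)) = K from Subgroup.ext hconj] at h2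
  -- `Q` centralises `z`
  have hQK : (Q : Subgroup G) ≤ K := by
    obtain ⟨t, ht⟩ := MulAction.exists_smul_eq T (P.subtype (hPK.trans hKT)) (Q.subtype hQT)
    intro q hq
    have h1 : (⟨q, hQT hq⟩ : T) ∈ ((t • P.subtype (hPK.trans hKT) : Sylow p T) : Subgroup T) := by
      rw [ht]; exact hq
    rw [Sylow.coe_subgroup_smul, Subgroup.mem_pointwise_smul_iff_inv_smul_mem] at h1
    have h2 : (t : G)⁻¹ * q * t ∈ (P : Subgroup G) := by simpa [mul_assoc, Subgroup.mem_subgroupOf] using h1
    simpa [mul_assoc] using (Subgroup.mem_normalizer_iff.1 t.2 _).1 (hPK h2)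
  -- every element of `P` lies in `Q`
  suffices hle : (P : Subgroup G) ≤ (Q : Subgroup G) from CfsgLib.Core.eq_of_le_of_card_le hle (le_of_eq (by
    rw [Sylow.card_eq_multiplicity, Sylow.card_eq_multiplicity]))
  intro a ha
  set X := {w : G | ∃ k ∈ K, k * a * k⁻¹ = w} with hX
  have hcomm : ∀ w ∈ X, ∀ w' ∈ X, w * w' = w' * w := by
    rintro _ ⟨k, hk, rfl⟩ _ ⟨k', hk', rfl⟩
    have hzm : z ∈ Subgroup.centralizer ({k * a * k⁻¹} : Set G) := by
      refine Subgroup.mem_centralizer_singleton_iff.2 (Commute.eq ?_)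
      exact ((show Commute z k from (Subgroup.mem_centralizer_singleton_iff.1 hk).symm).mul_right
        (hz a ha).symm).mul_right (show Commute z k from (Subgroup.mem_centralizer_singleton_iff.1 hk).symm).inv_right
    have hkk := hTI' (k * a * k⁻¹) z hz1 hzm (k' * k⁻¹) (K.mul_mem hk' (K.inv_mem hk))
    have h1 := (Subgroup.mem_normalizer_iff.1 hkk (k * a * k⁻¹)).1 (Subgroup.mem_centralizer_singleton_iff.2 rfl)
    rw [show k' * k⁻¹ * (k * a * k⁻¹) * (k' * k⁻¹)⁻¹ = k' * a * k'⁻¹ by group] at h1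
    exact (Subgroup.mem_centralizer_singleton_iff.1 h1).symm
  set W := Subgroup.closure X with hW
  have hWp : IsPGroup p W := by
    intro w
    obtain ⟨w, hw⟩ := w
    induction hw using Subgroup.closure_induction with
    | mem w hw =>
      obtain ⟨k, -, rfl⟩ := hw
      obtain ⟨j, hj⟩ := P.2 ⟨a, ha⟩
      refine ⟨j, Subtype.ext ?_⟩
      have hj' : a ^ p ^ j = 1 := congrArg Subtype.val hj
      rw [SubmonoidClass.coe_pow, conj_pow, hj', mul_one, mul_inv_cancel]
      rfl
    | one => exact ⟨0, Subtype.ext (by simp)⟩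
    | mul u v hu hv hu' hv' =>
      obtain ⟨i, hi⟩ := hu'
      obtain ⟨j, hj⟩ := hv'
      have hi' : u ^ p ^ i = 1 := congrArg Subtype.val hi
      have hj' : v ^ p ^ j = 1 := congrArg Subtype.val hj
      haveI := Subgroup.isMulCommutative_closure hcomm
      have hc : Commute u v := congrArg Subtype.val (IsMulCommutative.is_comm.comm (⟨u, hu⟩ : W) ⟨v, hv⟩)
      refine ⟨i + j, Subtype.ext ?_⟩
      rw [SubmonoidClass.coe_pow, hc.mul_pow, pow_add, pow_mul, hi', one_pow, mul_comm, pow_mul, hj', one_pow, one_mul]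
      rfl
    | inv u hu hu' =>
      obtain ⟨i, hi⟩ := hu'
      have hi' : u ^ p ^ i = 1 := congrArg Subtype.val hi
      refine ⟨i, Subtype.ext ?_⟩
      rw [SubmonoidClass.coe_pow, inv_pow, hi', inv_one]
      rfl
  have hQW : (Q : Subgroup G) ≤ Subgroup.normalizer (W : Set G) := fun q hq => by
    refine Subgroup.mem_normalizer_fintype fun w hw => ?_
    refine (show W ≤ W.comap (MulAut.conj q).toMonoidHom from (Subgroup.closure_le _).2 ?_) hw
    rintro _ ⟨k, hk, rfl⟩
    exact Subgroup.subset_closure ⟨q * k, K.mul_mem (hQK hq) hk, by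
      show q * k * a * (q * k)⁻¹ = q * (k * a * k⁻¹) * q⁻¹
      group⟩
  have hsup : IsPGroup p ((Q : Subgroup G) ⊔ W : Subgroup G) := Q.2.to_sup_of_normal_right' hWp hQW
  rw [← Q.3 hsup le_sup_left]
  exact Subgroup.mem_sup_right (Subgroup.subset_closure ⟨1, K.one_mem, by simp⟩)

end Cfsg.Agent.S4066
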