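import Cfsg.Statements.S4068
import Cfsg.Agent.Lib.CorePrimeOrders

set_option autoImplicit false
open Cfsg

namespace Cfsg.Agent.S4068

open CfsgLib.Core
open scoped Pointwise IsMulCommutative

universe u

theorem sylCard {G : Type u} [Group G] [Finite G] {p : ℕ} [Fact p.Prime] (X : Sylow p G) :
    Nat.card (Sylow p G) = (Subgroup.normalizer ((X : Subgroup G) : Set G)).index :=
  X.card_eq_index_normalizer

theorem sylFix {G : Type u} [Group G] {p : ℕ} {X : Sylow p G} {g : G} (h : g • X = X) :
    g ∈ Subgroup.normalizer ((X : Subgroup G) : Set G) :=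
  Sylow.smul_eq_iff_mem_normalizer.1 h

/-- Four orbits give three primes and prime element orders. -/
theorem prime_orders {G : Type u} [Group G] [Finite G] (hns : ¬ Group.IsSolvable G)
    (h4 : Nat.card (MulAction.orbitRel.Quotient (MulAut G) G) = 4) :
    PrimeOrders.PO G ∧ (Nat.card G).primeFactors.card = 3 := by
  classical
  set n := Nat.card G with hn
  have hcard3 : 3 ≤ n.primeFactors.card := by
    by_contra hlt
    refine hns ?_
    obtain ⟨p, q, hp, hq, hsub⟩ : ∃ p q : ℕ, p.Prime ∧ q.Prime ∧ n.primeFactors ⊆ {p, q} := by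
      by_cases h0 : n.primeFactors = ∅
      · exact ⟨2, 2, Nat.prime_two, Nat.prime_two, by rw [h0]; exact Finset.empty_subset _⟩
      obtain ⟨p, hp⟩ := Finset.nonempty_iff_ne_empty.2 h0
      by_cases h1 : n.primeFactors = {p}
      · exact ⟨p, p, Nat.prime_of_mem_primeFactors hp, Nat.prime_of_mem_primeFactors hp, by rw [h1]; simp⟩
      obtain ⟨q, hq, hqp⟩ : ∃ q ∈ n.primeFactors, q ≠ p := by
        by_contra hcon
        push Not at hcon
        exact h1 (Finset.eq_singleton_iff_unique_mem.2 ⟨hp, hcon⟩)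
      refine ⟨p, q, Nat.prime_of_mem_primeFactors hp, Nat.prime_of_mem_primeFactors hq, fun d hd => ?_⟩
      by_contra hd'
      simp only [Finset.mem_insert, Finset.mem_singleton, not_or] at hd'
      have : ({p, q, d} : Finset ℕ).card ≤ n.primeFactors.card := Finset.card_le_card (by
        intro e he
        simp only [Finset.mem_insert, Finset.mem_singleton] at he
        rcases he with rfl | rfl | rfl <;> assumption)
      rw [Finset.card_eq_three.2 ⟨p, q, d, hqp.symm, Ne.symm hd'.1, Ne.symm hd'.2, rfl⟩] at this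
      omega
    have hpos : n ≠ 0 := Nat.card_pos.ne'
    by_cases hpq : p = q
    · subst hpq
      refine CfsgLib.Char.burnside_pq hp hp n G n.primeFactorsList.length 0 rfl ?_
      rw [pow_zero, mul_one]
      exact Nat.eq_prime_pow_of_unique_prime_dvd hpos fun {d} hd hdvd => by
        simpa using hsub (Nat.mem_primeFactors.2 ⟨hd, hdvd, hpos⟩)
    · refine CfsgLib.Char.burnside_pq hp hq n G (n.factorization p) (n.factorization q) rfl ?_
      conv_lhs => rw [Nat.prod_primeFactors_pow_factorization hpos]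
      rw [Finset.prod_subset hsub (fun d _ hd => by
        rw [← Nat.support_factorization, Finsupp.notMem_support_iff] at hd
        rw [hd, pow_zero]), Finset.prod_pair hpq]
  -- the orders
  let o : MulAction.orbitRel.Quotient (MulAut G) G → ℕ := Quotient.lift orderOf (by
    intro a b hab
    obtain ⟨f, hf⟩ := (MulAction.orbitRel_apply.1 hab : a ∈ MulAction.orbit (MulAut G) b)
    rw [← hf]
    exact f.orderOf_eq b)
  haveI := Fintype.ofFinite (MulAction.orbitRel.Quotient (MulAut G) G)
  set O := Finset.univ.image o with hO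
  have hO4 : O.card ≤ 4 := by
    refine Finset.card_image_le.trans ?_
    rw [Finset.card_univ, ← Nat.card_eq_fintype_card, h4]
  have hsub : insert 1 n.primeFactors ⊆ O := by
    intro d hd
    rw [hO, Finset.mem_image]
    rcases Finset.mem_insert.1 hd with rfl | hd
    · exact ⟨⟦1⟧, Finset.mem_univ _, orderOf_one⟩
    · obtain ⟨hdp, hdn, -⟩ := Nat.mem_primeFactors.1 hd
      haveI := Fact.mk hdp
      obtain ⟨x, hx⟩ := exists_prime_orderOf_dvd_card' (G := G) d hdn
      exact ⟨⟦x⟧, Finset.mem_univ _, hx⟩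
  have h1 : 1 ∉ n.primeFactors := fun h => Nat.not_prime_one (Nat.prime_of_mem_primeFactors h)
  have hle := Finset.card_le_card hsub
  rw [Finset.card_insert_of_notMem h1] at hle
  have heq : insert 1 n.primeFactors = O :=
    Finset.eq_of_subset_of_card_le hsub (by rw [Finset.card_insert_of_notMem h1]; omega)
  refine ⟨fun x hx => ?_, by omega⟩
  have hxO : orderOf x ∈ insert 1 n.primeFactors := by
    rw [heq, hO, Finset.mem_image]
    exact ⟨⟦x⟧, Finset.mem_univ _, rfl⟩
  rcases Finset.mem_insert.1 hxO with h | h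
  · exact absurd (orderOf_eq_one_iff.1 h) hx
  · exact Nat.prime_of_mem_primeFactors h

/-- No nontrivial abelian normal subgroup. -/
theorem no_abelian_normal {G : Type u} [Group G] [Finite G] (hns : ¬ Group.IsSolvable G)
    (hG : PrimeOrders.PO G) (A : Subgroup G) [A.Normal] (hA : ∀ a ∈ A, ∀ b ∈ A, a * b = b * a) :
    A = ⊥ := by
  classical
  by_contra hA0
  haveI : Nontrivial A := (Subgroup.nontrivial_iff_ne_bot A).2 hA0
  obtain ⟨⟨a, haA⟩, ha⟩ := exists_ne (1 : A)
  have ha1 : a ≠ 1 := fun e => ha (Subtype.ext e)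
  haveI hsolA : Group.IsSolvable A :=
    Group.isSolvable_of_comm (fun x y => Subtype.ext (hA x x.2 y y.2))
  haveI h2 : Fact (Nat.Prime 2) := ⟨Nat.prime_two⟩
  by_cases hat : orderOf a = 2
  · set C := Subgroup.centralizer ({a} : Set G) with hC
    have hCp : IsPGroup 2 C := hat ▸ PrimeOrders.isPGroup_centralizer hG ha1
    have hCn : C.Normal := ⟨fun c hc g => by
      have hu : g * a * g⁻¹ ∈ C := Subgroup.mem_centralizer_singleton_iff.2
        (hA _ (Subgroup.Normal.conj_mem inferInstance a haA g) a haA)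
      have hu1 : g * a * g⁻¹ ≠ 1 := fun e => ha1 (conj_eq_one_iff.1 e)
      rw [hC, ← PrimeOrders.centralizer_eq hG hat hu hu1, Subgroup.mem_centralizer_singleton_iff]
      have h := Subgroup.mem_centralizer_singleton_iff.1 hc
      calc g * c * g⁻¹ * (g * a * g⁻¹) = g * (c * a) * g⁻¹ := by group
        _ = g * (a * c) * g⁻¹ := by rw [h]
        _ = g * a * g⁻¹ * (g * c * g⁻¹) := by group⟩
    haveI := hCn
    haveI : Group.IsSolvable C := by haveI := hCp.isNilpotent; infer_instance
    haveI : Group.IsSolvable (G ⧸ C) := by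
      refine PrimeOrders.isSolvable_of_odd (PrimeOrders.po_quotient hG C) ?_
      obtain ⟨P, hP⟩ := hCp.exists_le_sylow
      have hPC : (P : Subgroup G) ≤ C := by
        haveI : Nontrivial (P : Subgroup G) :=
          ⟨⟨⟨a, hP (Subgroup.mem_centralizer_singleton_iff.2 rfl)⟩, 1,
            fun e => ha1 (congrArg Subtype.val e)⟩⟩
        haveI := P.2.center_nontrivial
        obtain ⟨⟨z, hz⟩, hz1⟩ := exists_ne (1 : Subgroup.center (P : Subgroup G))
        have haP : a ∈ (P : Subgroup G) := hP (Subgroup.mem_centralizer_singleton_iff.2 rfl)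
        have hza : (z : G) ∈ C := Subgroup.mem_centralizer_singleton_iff.2
          (congrArg Subtype.val (Subgroup.mem_center_iff.1 hz ⟨a, haP⟩)).symm
        rw [hC, ← PrimeOrders.centralizer_eq hG hat hza (fun e => hz1 (Subtype.ext (Subtype.ext e)))]
        intro w hw
        exact Subgroup.mem_centralizer_singleton_iff.2
          (congrArg Subtype.val (Subgroup.mem_center_iff.1 hz ⟨w, hw⟩))
      rw [← Subgroup.index_eq_card, Nat.odd_iff, ← Nat.not_even_iff, even_iff_two_dvd]
      exact fun h => P.not_dvd_index (h.trans (Subgroup.index_dvd_of_le hPC))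
    exact hns (Group.isSolvable_of_ker_le_range C.subtype (QuotientGroup.mk' C)
      (by rw [QuotientGroup.ker_mk', Subgroup.range_subtype]))
  · obtain ⟨P⟩ : Nonempty (Sylow 2 G) := inferInstance
    have hcyc : IsCyclic (P : Subgroup G) := by
      rcases cyclic_or_quaternion_of_fpf (K := A) P.2 (by rw [Subgroup.normalizer_eq_top]; exact le_top)
        hA0 (fun g hg hg1 v hv hgv => by
          by_contra hv1
          obtain ⟨k, hk⟩ := IsPGroup.iff_orderOf.1 P.2 ⟨g, hg⟩
          rw [Subgroup.orderOf_mk] at hk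
          have hgp := hG g hg1
          rw [hk] at hgp
          rw [Nat.Prime.eq_one_of_pow hgp, pow_one] at hk
          have h1 := PrimeOrders.eq_of_commute hG hg1 hv1 hgv
          have h2 := PrimeOrders.eq_of_commute hG hv1 ha1 (hA v hv a haA)
          exact hat (h2.symm.trans (h1.symm.trans hk))) with h | ⟨-, m, ⟨e⟩⟩
      · exact h
      · exfalso
        set x : (P : Subgroup G) := e.symm (QuaternionGroup.xa 0) with hx
        have hox : orderOf x = 4 := by rw [hx, MulEquiv.orderOf_eq, QuaternionGroup.orderOf_xa]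
        have h4 : orderOf (x : G) = 4 := by rw [Subgroup.orderOf_coe, hox]
        have := hG (x : G) (fun e => by rw [e, orderOf_one] at h4; omega)
        rw [h4] at this
        exact absurd this (by norm_num)
    rcases Nat.even_or_odd (Nat.card G) with heven | hodd
    · have hmin : (Nat.card G).minFac = 2 := by rw [Nat.minFac_eq_two_iff]; exact heven.two_dvd
      have hcompl := IsCyclic.isComplement' hmin hcyc
      set K := (MonoidHom.transferSylow P (hcyc.normalizer_le_centralizer hmin)).ker with hK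
      haveI : Group.IsSolvable K := by
        refine PrimeOrders.isSolvable_of_odd (fun x hx => ?_) ?_
        · rw [← Subgroup.orderOf_coe]; exact hG x fun e => hx (Subtype.ext e)
        · rw [Nat.odd_iff, ← Nat.not_even_iff, even_iff_two_dvd, ← hcompl.index_eq_card]
          exact P.not_dvd_index
      haveI : Group.IsSolvable (G ⧸ K) := by
        haveI := P.2.isNilpotent
        exact Group.isSolvable_of_surjective (f := ((QuotientGroup.mk' K).domRestrict (P : Subgroup G)))
          (fun y => by
            obtain ⟨g, rfl⟩ := QuotientGroup.mk_surjective y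
            obtain ⟨⟨k, w⟩, hkw, -⟩ := hcompl.existsUnique g
            refine ⟨w, ?_⟩
            rw [← hkw]
            show ((w : G) : G ⧸ K) = ((k : G) * (w : G) : G)
            rw [QuotientGroup.mk_mul, (QuotientGroup.eq_one_iff (k : G)).2 k.2, one_mul])
      exact hns (Group.isSolvable_of_ker_le_range K.subtype (QuotientGroup.mk' K)
        (by rw [QuotientGroup.ker_mk', Subgroup.range_subtype]))
    · exact hns (PrimeOrders.isSolvable_of_odd hG hodd)

/-- The arithmetic of the order equation. -/
theorem equation {h q a A R eA eR : ℕ} (hh : 2 ≤ h) (hq : q + 1 = 2 * h) (ha : 1 ≤ a) (hA : A = q ^ a)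
    (hR : 2 ≤ R) (hqp : q.Prime) (heA : eA ≤ 1) (heR : eR ≤ 1)
    (h0 : A * R = q + h * (eA * (A - 1) + eR * (R - 1))) : A = q ∧ R = 2 * h + 1 ∧ eA = 1 ∧ eR = 1 := by
  have hqA : q ≤ A := hA ▸ Nat.le_self_pow (by omega) q
  have hA1 : 1 ≤ A := by have := hqp.two_le; omega
  interval_cases eA <;> interval_cases eR
  · simp only [zero_mul, add_zero, mul_zero] at h0
    have h2 : 2 * A ≤ A * R := by rw [mul_comm 2]; exact Nat.mul_le_mul_left A hR
    omega
  · simp only [zero_mul, one_mul, zero_add] at h0
    obtain ⟨R', rfl⟩ : ∃ R', R = R' + 1 := ⟨R - 1, by omega⟩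
    simp only [Nat.add_sub_cancel] at h0
    rw [mul_add, mul_one] at h0
    have h2 : q * R' ≤ A * R' := Nat.mul_le_mul_right _ hqA
    have h3 : h * R' < q * R' := Nat.mul_lt_mul_of_pos_right (by omega) (by omega)
    omega
  · simp only [zero_mul, one_mul, add_zero] at h0
    exfalso
    have hd : q ∣ A := hA ▸ dvd_pow_self q (by omega)
    have h2 : q ∣ h * (A - 1) := (Nat.dvd_add_right (dvd_refl q)).1 (h0 ▸ hd.mul_right R)
    rcases (Nat.Prime.dvd_mul hqp).1 h2 with h3 | h3
    · have := Nat.le_of_dvd (by omega) h3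
      omega
    · have h4 := Nat.dvd_sub hd h3
      rw [show A - (A - 1) = 1 by omega] at h4
      exact hqp.ne_one (Nat.dvd_one.1 h4)
  · simp only [one_mul] at h0
    suffices hs : A = q ∧ R = 2 * h + 1 from ⟨hs.1, hs.2, rfl, rfl⟩
    have hz : ((A : ℤ) - h) * ((R : ℤ) - h) = ((h : ℤ) - 1) * (h + 1) := by
      have : (A : ℤ) * R = q + h * ((A - 1) + (R - 1)) := by
        have e := congrArg (Nat.cast : ℕ → ℤ) h0
        push_cast [Nat.cast_sub hA1, Nat.cast_sub (by omega : 1 ≤ R)] at e
        linarith
      have hq' : (q : ℤ) + 1 = 2 * h := by exact_mod_cast hq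
      linear_combination this + hq'
    rcases Nat.lt_or_ge a 2 with ha2 | ha2
    · have hAq : A = q := by rw [hA, show a = 1 by omega, pow_one]
      refine ⟨hAq, ?_⟩
      have hq' : (A : ℤ) - h = h - 1 := by subst hAq; omega
      rw [hq'] at hz
      have := mul_left_cancel₀ (by omega : (h : ℤ) - 1 ≠ 0) hz
      omega
    · exfalso
      have hA2 : (q : ℤ) * q ≤ A := by
        rw [hA]
        exact_mod_cast (sq q ▸ Nat.pow_le_pow_right hqp.pos ha2 : q * q ≤ q ^ a)
      have hq' : (q : ℤ) = 2 * h - 1 := by omega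
      rw [hq'] at hA2
      have hh' : (2 : ℤ) ≤ h := by exact_mod_cast hh
      have hbig : ((h : ℤ) - 1) * (h + 1) < (A : ℤ) - h := by nlinarith
      rcases le_or_gt (R : ℤ) h with hRh | hRh
      · nlinarith
      · nlinarith

theorem two_pow_eq_eight {n k : ℕ} (hn : 3 ≤ n) (h : 2 ^ n + 1 = 3 ^ k) : 2 ^ n = 8 := by
  have h8 : 2 ^ n % 8 = 0 := Nat.mod_eq_zero_of_dvd (pow_dvd_pow 2 hn)
  rcases Nat.even_or_odd k with ⟨j, rfl⟩ | ⟨j, rfl⟩
  · have hfac : 2 ^ n = (3 ^ j + 1) * (3 ^ j - 1) := by
      have : 3 ^ j * 3 ^ j = 2 ^ n + 1 := by rw [← pow_add, h]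
      rw [← Nat.sq_sub_sq, one_pow, sq, this, Nat.add_sub_cancel]
    obtain ⟨u, -, hu⟩ := (Nat.dvd_prime_pow Nat.prime_two).1 (Dvd.intro _ hfac.symm)
    obtain ⟨v, -, hv⟩ := (Nat.dvd_prime_pow Nat.prime_two).1 (Dvd.intro_left _ hfac.symm)
    have h3 : 3 ^ j % 2 = 1 := by rw [Nat.pow_mod]; simp
    have hu1 : 1 ≤ 2 ^ u := Nat.one_le_two_pow
    rcases v with _ | _ | v
    · rw [pow_zero] at hv; omega
    · rw [zero_add, pow_one] at hv
      rw [hfac, show 3 ^ j = 3 by omega]
    · have hv1 : 1 ≤ 2 ^ v := Nat.one_le_two_pow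
      rw [pow_succ, pow_succ] at hv
      rcases u with _ | _ | u
      · rw [pow_zero] at hu; omega
      · rw [zero_add, pow_one] at hu; omega
      · rw [pow_succ, pow_succ] at hu; omega
  · have h1 : 3 ^ (2 * j + 1) % 8 = 3 := by
      rw [pow_succ, pow_mul, Nat.mul_mod, Nat.pow_mod]; norm_num
    rw [← h, Nat.add_mod, h8] at h1
    norm_num at h1

/-- The group is determined by the prime orders. -/
theorem main {G : Type u} [Group G] [Finite G] (hns : ¬ Group.IsSolvable G) (hG : PrimeOrders.PO G)
    (h3 : (Nat.card G).primeFactors.card = 3) : Nonempty (G ≃* alternatingGroup (Fin 5)) := by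
  classical
  haveI := Fintype.ofFinite G
  haveI h2 : Fact (Nat.Prime 2) := ⟨Nat.prime_two⟩
  have hab := no_abelian_normal hns hG
  have heven : 2 ∣ Nat.card G := by
    rcases Nat.even_or_odd (Nat.card G) with h | h
    · exact h.two_dvd
    · exact absurd (PrimeOrders.isSolvable_of_odd hG h) hns
  obtain ⟨t, ht⟩ := exists_prime_orderOf_dvd_card' (G := G) 2 heven
  have ht1 : t ≠ 1 := fun e => by rw [e, orderOf_one] at ht; omega
  have htt : t * t = 1 := by rw [← sq, ← ht, pow_orderOf_eq_one]
  set S := Subgroup.centralizer ({t} : Set G) with hS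
  have hS2 : IsPGroup 2 S := ht ▸ PrimeOrders.isPGroup_centralizer hG ht1
  have htS : t ∈ S := Subgroup.mem_centralizer_singleton_iff.2 rfl
  have hSinv : ∀ u ∈ S, u ≠ 1 → orderOf u = 2 := fun u hu hu1 => by
    rw [← ht, PrimeOrders.eq_of_commute hG ht1 hu1 (Subgroup.mem_centralizer_singleton_iff.1 hu).symm]
  -- one class of involutions
  have hclass : ∀ u : G, orderOf u = 2 → ∃ g : G, g * t * g⁻¹ = u := by
    intro u hu
    by_contra hne
    push Not at hne
    have hu1 : u ≠ 1 := fun e => by rw [e, orderOf_one] at hu; omega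
    have huu : u * u = 1 := by rw [← sq, ← hu, pow_orderOf_eq_one]
    have hcomm : ∀ g : G, Commute (g * t * g⁻¹) u := by
      intro g
      set v := g * t * g⁻¹ with hv
      have hvv : v * v = 1 := by
        rw [hv, show g * t * g⁻¹ * (g * t * g⁻¹) = g * (t * t) * g⁻¹ by group, htt, mul_one, mul_inv_cancel]
      have hvi : v⁻¹ = v := inv_eq_of_mul_eq_one_right hvv
      have hui : u⁻¹ = u := inv_eq_of_mul_eq_one_right huu
      by_cases hvu : v * u = 1
      · exact absurd (by rw [← hui, ← eq_inv_of_mul_eq_one_left hvu]) (hne g)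
      have hp := hG _ hvu
      rcases hp.eq_two_or_odd with h2 | hodd
      · have h : (v * u) * (v * u) = 1 := by
          rw [← sq]
          conv_lhs => arg 2; rw [← h2]
          exact pow_orderOf_eq_one _
        have h' := inv_eq_of_mul_eq_one_right h
        rw [mul_inv_rev, hvi, hui] at h'
        exact h'.symm
      · exfalso
        obtain ⟨k, hk⟩ : ∃ k, orderOf (v * u) = 2 * k + 1 := ⟨orderOf (v * u) / 2, by omega⟩
        set w := (v * u) ^ k with hw
        have hconj : v * w = w⁻¹ * v := by
          rw [hw, ← inv_pow, mul_inv_rev, hvi, hui]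
          clear hk hw w
          induction k with
          | zero => simp
          | succ k ih =>
            rw [pow_succ, ← mul_assoc, ih, pow_succ]
            simp only [mul_assoc]
            rw [hvv, ← mul_assoc v v u, hvv, one_mul, mul_one]
        have hw2 : w⁻¹ * w⁻¹ * v = v * u * v := by
          calc w⁻¹ * w⁻¹ * v = ((v * u) ^ (2 * k))⁻¹ * v := by
                rw [two_mul, pow_add, mul_inv_rev]
            _ = (v * u) * v := by
                congr 1
                refine inv_eq_of_mul_eq_one_right ?_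
                rw [← pow_succ, ← hk, pow_orderOf_eq_one]
        refine hne (v * w⁻¹ * g) ?_
        calc v * w⁻¹ * g * t * (v * w⁻¹ * g)⁻¹ = v * (w⁻¹ * (v * w)) * v⁻¹ := by rw [hv]; group
          _ = v * (w⁻¹ * w⁻¹ * v) * v⁻¹ := by rw [hconj]; group
          _ = v * (v * u * v) * v⁻¹ := by rw [hw2]
          _ = (v * v) * u * (v * v⁻¹) := by group
          _ = u := by rw [hvv, mul_inv_cancel, one_mul, mul_one]
    set X := {x : G | ∃ g : G, g * t * g⁻¹ = x} with hX
    have hsub : ∀ x ∈ X, x ∈ S := by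
      rintro x ⟨g, rfl⟩
      have hut : u ∈ S := Subgroup.mem_centralizer_singleton_iff.2 (by simpa using (hcomm 1).eq.symm)
      rw [hS, ← PrimeOrders.centralizer_eq hG ht hut hu1]
      exact Subgroup.mem_centralizer_singleton_iff.2 (hcomm g).eq
    haveI : (Subgroup.closure X).Normal := ⟨fun x hx g => by
      refine (show Subgroup.closure X ≤ (Subgroup.closure X).comap (MulAut.conj g).toMonoidHom from
        (Subgroup.closure_le _).2 ?_) hx
      rintro _ ⟨g', rfl⟩
      exact Subgroup.subset_closure ⟨g * g', by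
        show g * g' * t * (g * g')⁻¹ = g * (g' * t * g'⁻¹) * g⁻¹
        group⟩⟩
    have hle : Subgroup.closure X ≤ S := (Subgroup.closure_le _).2 hsub
    have h := hab (Subgroup.closure X) fun a ha b hb => PrimeOrders.centralizer_comm hG ht (hle ha) (hle hb)
    exact ht1 (Subgroup.mem_bot.1 (h ▸ Subgroup.subset_closure ⟨1, by simp⟩))
  -- Sylow and normaliser
  obtain ⟨P, hP⟩ := hS2.exists_le_sylow
  have hSP : S = (P : Subgroup G) := by
    refine le_antisymm hP ?_
    haveI : Nontrivial (P : Subgroup G) := ⟨⟨⟨t, hP htS⟩, 1, fun e => ht1 (congrArg Subtype.val e)⟩⟩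
    haveI := P.2.center_nontrivial
    obtain ⟨⟨z, hz⟩, hz1⟩ := exists_ne (1 : Subgroup.center (P : Subgroup G))
    have hzS : (z : G) ∈ S := Subgroup.mem_centralizer_singleton_iff.2
      (congrArg Subtype.val (Subgroup.mem_center_iff.1 hz ⟨t, hP htS⟩)).symm
    rw [hS, ← PrimeOrders.centralizer_eq hG ht hzS (fun e => hz1 (Subtype.ext (Subtype.ext e)))]
    intro w hw
    exact Subgroup.mem_centralizer_singleton_iff.2
      (congrArg Subtype.val (Subgroup.mem_center_iff.1 hz ⟨w, hw⟩))
  set Q := Nat.card S with hQ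
  set N := Subgroup.normalizer (S : Set G) with hN
  have hNt : Nat.card N = (Q - 1) * Q := by
    rw [PrimeOrders.card_orbit_mul N t {u | u ∈ S ∧ u ≠ 1}
      (fun g hg => ⟨(Subgroup.mem_normalizer_iff.1 hg t).1 htS, fun e => ht1 (conj_eq_one_iff.1 e)⟩)
      (fun u ⟨hu, hu1⟩ => by
        obtain ⟨g, hg⟩ := hclass u (hSinv u hu hu1)
        refine ⟨g, Subgroup.mem_normalizer_fintype fun s hs => ?_, hg⟩
        show g * s * g⁻¹ ∈ S
        rw [hS, ← PrimeOrders.centralizer_eq hG ht hu hu1, ← hg,
          Subgroup.mem_centralizer_singleton_iff]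
        have h := Subgroup.mem_centralizer_singleton_iff.1 hs
        calc g * s * g⁻¹ * (g * t * g⁻¹) = g * (s * t) * g⁻¹ := by group
          _ = g * (t * s) * g⁻¹ := by rw [h]
          _ = g * t * g⁻¹ * (g * s * g⁻¹) := by group)]
    congr 1
    · rw [hQ, show Nat.card {u : G | u ∈ S ∧ u ≠ 1} = Nat.card {x : S // (x : G) ≠ 1} from
        Nat.card_congr (Equiv.subtypeSubtypeEquivSubtypeInter (· ∈ S) (· ≠ (1 : G))).symm]
      haveI := Fintype.ofFinite S
      rw [Nat.card_eq_fintype_card, Nat.card_eq_fintype_card]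
      rw [show Fintype.card {x : S // (x : G) ≠ 1} = Fintype.card {x : S // x ≠ 1} from
        Fintype.card_congr (Equiv.subtypeEquivRight fun x => by simp)]
      rw [Fintype.card_subtype_compl, Fintype.card_subtype_eq]
    · rw [inf_eq_right.2 Subgroup.le_normalizer, ← hQ]
  obtain ⟨n, hn⟩ := hS2.exists_card_eq
  rw [← hQ] at hn
  have hQ4 : 4 ≤ Q := by
    have hQ2 : 2 ≤ Q := by
      have h := Subgroup.orderOf_dvd_natCard S htS
      rw [ht] at h
      exact Nat.le_of_dvd Nat.card_pos h
    by_contra hlt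
    have hQ' : Q = 2 := by
      rcases n with _ | _ | n
      · simp at hn; omega
      · simpa using hn
      · have : 4 ≤ 2 ^ (n + 2) := by
          rw [show (4 : ℕ) = 2 ^ 2 from rfl]; exact Nat.pow_le_pow_right (by norm_num) (by omega)
        omega
    have hmin : (Nat.card G).minFac = 2 := by rw [Nat.minFac_eq_two_iff]; exact heven
    have hcyc : IsCyclic (P : Subgroup G) := by
      haveI : IsCyclic S := isCyclic_of_prime_card (p := 2) (by rw [← hQ, hQ'])
      rw [← hSP]; infer_instance
    have hcompl := IsCyclic.isComplement' hmin hcyc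
    set K := (MonoidHom.transferSylow P (hcyc.normalizer_le_centralizer hmin)).ker with hK
    haveI : Group.IsSolvable K := by
      refine PrimeOrders.isSolvable_of_odd (fun x hx => ?_) ?_
      · rw [← Subgroup.orderOf_coe]; exact hG x fun e => hx (Subtype.ext e)
      · rw [Nat.odd_iff, ← Nat.not_even_iff, even_iff_two_dvd, ← hcompl.index_eq_card]
        exact P.not_dvd_index
    haveI : Group.IsSolvable (G ⧸ K) := by
      have hc : Nat.card (G ⧸ K) = 2 := by
        rw [← Subgroup.index_eq_card, hcompl.symm.index_eq_card, ← hSP, ← hQ, hQ']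
      haveI : IsCyclic (G ⧸ K) := isCyclic_of_prime_card (p := 2) hc
      exact Group.isSolvable_of_comm IsCyclic.commGroup.mul_comm
    exact hns (Group.isSolvable_of_ker_le_range K.subtype (QuotientGroup.mk' K)
      (by rw [QuotientGroup.ker_mk', Subgroup.range_subtype]))
  have hn2 : 2 ≤ n := by
    by_contra h
    have : 2 ^ n ≤ 2 ^ 1 := Nat.pow_le_pow_right (by norm_num) (by omega)
    omega
  -- freeness
  have hfree : ∀ g : G, g ∉ S → orderOf g ≠ 2 → ∀ v ∈ S, g * v = v * g → v = 1 := by
    intro g hg hg2 v hv h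
    by_contra hv1
    have hg1 : g ≠ 1 := fun e => hg (e ▸ one_mem S)
    exact hg2 ((PrimeOrders.eq_of_commute hG hg1 hv1 h).trans (hSinv v hv hv1))
  -- `Q - 1` is prime
  have hQodd : ∀ d, d.Prime → d ∣ Q - 1 → d ≠ 2 := by
    intro d _ hd h
    subst h
    have : 2 ∣ Q := hn ▸ dvd_pow_self 2 (by omega)
    omega
  have hcycN : ∀ d, d.Prime → d ∣ Q - 1 → ∃ D : Subgroup G, D ≤ N ∧ Nat.card D = d ∧
      ¬ d * d ∣ Q - 1 := by
    intro d hd hdQ
    haveI := Fact.mk hd
    obtain ⟨D⟩ : Nonempty (Sylow d N) := inferInstance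
    set D' := (D : Subgroup N).map N.subtype with hD'
    have hD'p : IsPGroup d D' := D.2.map _
    have hD'N : D' ≤ N := Subgroup.map_subtype_le _
    have hcard : Nat.card D' = Nat.card (D : Subgroup N) :=
      Subgroup.card_map_of_injective N.subtype_injective
    have hord : ∀ g ∈ D', g ≠ 1 → orderOf g = d := by
      intro g hg hg1
      obtain ⟨k, hk⟩ := IsPGroup.iff_orderOf.1 hD'p ⟨g, hg⟩
      rw [Subgroup.orderOf_mk] at hk
      have hgp := hG g hg1
      rw [hk] at hgp
      rw [hk, Nat.Prime.eq_one_of_pow hgp, pow_one]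
    have hcyc : IsCyclic D' := by
      rcases cyclic_or_quaternion_of_fpf (K := S) hD'p (hD'N.trans le_rfl)
        (fun e => ht1 (Subgroup.mem_bot.1 (e ▸ htS))) (fun g hg hg1 v hv hgv => by
          refine hfree g (fun hgS => ?_) (by rw [hord g hg hg1]; exact hQodd d hd hdQ) v hv hgv
          exact hQodd d hd hdQ ((hord g hg hg1).symm.trans (hSinv g hgS hg1))) with h | ⟨h, -⟩
      · exact h
      · exact absurd h (hQodd d hd hdQ)
    obtain ⟨⟨g, hg⟩, hgen⟩ := hcyc.exists_generator
    have hdvd : d ∣ Nat.card (D : Subgroup N) := D.dvd_card_of_dvd_card (hNt ▸ hdQ.mul_right Q)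
    have hDd : Nat.card D' = d := by
      have h1 : Nat.card D' = orderOf g := by
        rw [← Subgroup.orderOf_mk g hg, orderOf_eq_card_of_forall_mem_zpowers hgen]
      rw [h1]
      refine hord g hg fun e => ?_
      rw [h1, e, orderOf_one] at hcard
      rw [← hcard] at hdvd
      exact hd.not_dvd_one hdvd
    refine ⟨D', hD'N, hDd, fun h => ?_⟩
    have h2 : d ^ 2 ∣ Nat.card (D : Subgroup N) :=
      D.pow_dvd_card_of_pow_dvd_card (by rw [sq, hNt]; exact h.mul_right Q)
    rw [← hcard, hDd] at h2
    have := Nat.le_of_dvd hd.pos h2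
    have := hd.two_le
    nlinarith
  obtain ⟨q, hq, hqQ⟩ := Nat.exists_prime_and_dvd (show Q - 1 ≠ 1 by omega)
  have hdvdG : ∀ d, d ∣ Q - 1 → d ∣ Nat.card G := fun d h =>
    (h.mul_right Q).trans (hNt ▸ N.card_subgroup_dvd_card)
  have hQ1 : Q - 1 = q := by
    by_contra hne
    obtain ⟨c, hc⟩ := hqQ
    obtain ⟨r, hr, hrc⟩ := Nat.exists_prime_and_dvd (show c ≠ 1 from fun e => hne (by rw [hc, e, mul_one]))
    have hrQ : r ∣ Q - 1 := hc ▸ hrc.mul_left q
    have hrq : r ≠ q := fun e => by
      subst e
      obtain ⟨D, -, -, hD⟩ := hcycN r hr hrQ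
      exact hD (hc ▸ mul_dvd_mul_left r hrc)
    have hqrQ : q * r ∣ Q - 1 := hc ▸ mul_dvd_mul_left q hrc
    -- every prime of `Q - 1` is `q` or `r`
    have hprimes : (Nat.card G).primeFactors = {2, q, r} := by
      refine (Finset.eq_of_subset_of_card_le ?_ ?_).symm
      · intro d hd
        simp only [Finset.mem_insert, Finset.mem_singleton] at hd
        rcases hd with h | h | h <;> rw [h]
        · exact Nat.mem_primeFactors.2 ⟨Nat.prime_two, heven, Nat.card_pos.ne'⟩
        · exact Nat.mem_primeFactors.2 ⟨hq, hdvdG _ (hc ▸ dvd_mul_right q c), Nat.card_pos.ne'⟩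
        · exact Nat.mem_primeFactors.2 ⟨hr, hdvdG _ hrQ, Nat.card_pos.ne'⟩
      · rw [h3, Finset.card_eq_three.2 ⟨2, q, r, (hQodd q hq (hc ▸ dvd_mul_right q c)).symm,
          (hQodd r hr hrQ).symm, hrq.symm, rfl⟩]
    have hQ1' : Q - 1 = q * r := by
      obtain ⟨e, he⟩ := hqrQ
      by_contra hne'
      obtain ⟨s, hs, hse⟩ := Nat.exists_prime_and_dvd (show e ≠ 1 from fun e1 => hne' (by rw [he, e1, mul_one]))
      have hsQ : s ∣ Q - 1 := he ▸ hse.mul_left (q * r)
      have hsm : s ∈ (Nat.card G).primeFactors :=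
        Nat.mem_primeFactors.2 ⟨hs, hdvdG _ hsQ, Nat.card_pos.ne'⟩
      rw [hprimes] at hsm
      simp only [Finset.mem_insert, Finset.mem_singleton] at hsm
      obtain ⟨D, -, -, hD⟩ := hcycN s hs hsQ
      rcases hsm with rfl | rfl | rfl
      · exact hQodd 2 hs hsQ rfl
      · exact hD (he ▸ mul_dvd_mul (dvd_mul_right _ r) hse)
      · exact hD (he ▸ mul_dvd_mul (dvd_mul_left _ q) hse)
    -- no Frobenius group acts freely on `S`
    have key : ∀ a b : ℕ, a.Prime → b.Prime → a < b → Q - 1 = a * b → False := by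
      intro a b ha hb hlt hab'
      haveI := Fact.mk ha
      haveI := Fact.mk hb
      have haQ : a ∣ Q - 1 := hab' ▸ dvd_mul_right a b
      have hbQ : b ∣ Q - 1 := hab' ▸ dvd_mul_left b a
      obtain ⟨DA, hAN, hAc, -⟩ := hcycN a ha haQ
      obtain ⟨DB, hBN, hBc, -⟩ := hcycN b hb hbQ
      have hNcard : Nat.card N = a * b * Q := by rw [hNt, hab']
      have hnorm : ∀ (s s' : ℕ), s.Prime → s'.Prime → s ≠ s' → Q - 1 = s * s' → ∀ D : Subgroup G,
          D ≤ N → Nat.card D = s →
          ¬ s' ∣ Nat.card (Subgroup.normalizer (D : Set G) ⊓ N : Subgroup G) →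
          s' * Q ≡ 1 [MOD s] := by
        intro s s' hs hs' hss hsQ D hDN hDc hns'
        haveI := Fact.mk hs
        have hs2 : s ≠ 2 := hQodd s hs (hsQ ▸ dvd_mul_right s s')
        set M := Subgroup.normalizer (D : Set G) ⊓ N with hM
        have hD0 : (D : Subgroup G) ≤ M := le_inf Subgroup.le_normalizer hDN
        have hMS : M ⊓ S = ⊥ := by
          refine (Subgroup.eq_bot_iff_forall _).2 fun v ⟨⟨hvD, hvN⟩, hvS⟩ => ?_
          by_contra hv1
          haveI : Nontrivial D := Finite.one_lt_card_iff_nontrivial.1 (hDc ▸ hs.one_lt)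
          obtain ⟨⟨d, hd⟩, hd1⟩ := exists_ne (1 : D)
          have hd1' : d ≠ 1 := fun e => hd1 (Subtype.ext e)
          have hdo : orderOf d = s :=
            ((Nat.dvd_prime hs).1 (hDc ▸ Subgroup.orderOf_dvd_natCard D hd)).resolve_left
              (fun e => hd1' (orderOf_eq_one_iff.1 e))
          have hdS : d ∉ S := fun h => hs2 (hdo.symm.trans (hSinv d h hd1'))
          have hc1 : v * d * v⁻¹ * d⁻¹ ∈ D := mul_mem ((Subgroup.mem_normalizer_iff.1 hvD d).1 hd) (inv_mem hd)
          have hc2 : v * d * v⁻¹ * d⁻¹ ∈ S := by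
            rw [show v * d * v⁻¹ * d⁻¹ = v * (d * v⁻¹ * d⁻¹) by group]
            exact mul_mem hvS ((Subgroup.mem_normalizer_iff.1 (hDN hd) _).1 (inv_mem hvS))
          by_cases he : v * d * v⁻¹ * d⁻¹ = 1
          · refine hv1 (hfree d hdS (by rw [hdo]; exact hs2) v hvS ?_)
            rw [mul_inv_eq_one, mul_inv_eq_iff_eq_mul] at he
            exact he.symm
          · refine hs2 (Eq.trans ?_ (hSinv _ hc2 he))
            exact (((Nat.dvd_prime hs).1 (hDc ▸ Subgroup.orderOf_dvd_natCard D hc1)).resolve_left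
              (fun e => he (orderOf_eq_one_iff.1 e))).symm
        have hMd : Nat.card M ∣ Nat.card N := Subgroup.card_dvd_of_le inf_le_right
        have hMN : M ≤ Subgroup.normalizer (S : Set G) := inf_le_right
        have hMo : Nat.card M ∣ s * s' := by
          have h := CfsgLib.Core.card_sup_mul_card_inf hMN
          rw [hMS, Subgroup.card_bot, mul_one] at h
          have hd' := Subgroup.card_dvd_of_le (sup_le hMN Subgroup.le_normalizer : M ⊔ S ≤ N)
          rw [h, ← hQ, hNt, hsQ] at hd'
          exact Nat.dvd_of_mul_dvd_mul_right Nat.card_pos hd'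
        have hMs : Nat.card M = s := by
          have hsM : s ∣ Nat.card M := hDc ▸ Subgroup.card_dvd_of_le hD0
          obtain ⟨k, hk⟩ := hsM
          rw [hk] at hMo
          rcases (Nat.dvd_prime hs').1 (Nat.dvd_of_mul_dvd_mul_left hs.pos hMo) with h | h
          · rw [hk, h, mul_one]
          · exact absurd (hk ▸ h ▸ dvd_mul_left k s) hns'
        let DN : Subgroup N := D.subgroupOf N
        have hDNc : Nat.card DN = s := by
          rw [Nat.card_congr (Subgroup.subgroupOfEquivOfLe hDN).toEquiv, hDc]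
        have hNf : (Nat.card N).factorization s = 1 := by
          rw [hNt, hsQ, Nat.factorization_mul (Nat.mul_pos hs.pos hs'.pos).ne' Nat.card_pos.ne',
            Nat.factorization_mul hs.ne_zero hs'.ne_zero, Finsupp.add_apply, Finsupp.add_apply,
            hs.factorization_self, Nat.factorization_eq_zero_of_not_dvd
              (fun h => hss ((Nat.prime_dvd_prime_iff_eq hs hs').1 h)),
            ← hQ, hn, Nat.factorization_eq_zero_of_not_dvd (fun h => hs2
              ((Nat.prime_dvd_prime_iff_eq hs Nat.prime_two).1 (hs.dvd_of_dvd_pow h)))]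
        let PD : Sylow s N := Sylow.ofCard DN (by rw [hDNc, hNf, pow_one])
        have hidx := sylCard PD
        have hnc : Nat.card (Subgroup.normalizer ((PD : Subgroup N) : Set N)) = s := by
          rw [show ((PD : Subgroup N) : Set N) = (DN : Set N) from rfl, ← hMs]
          refine Nat.card_congr
            { toFun := fun z => ⟨z.1.1, Subgroup.mem_normalizer_fintype fun d hd => by
                exact (Subgroup.mem_normalizer_iff.1 z.2 ⟨d, hDN hd⟩).1 hd, z.1.2⟩
              invFun := fun z => ⟨⟨z.1, z.2.2⟩, Subgroup.mem_normalizer_fintype fun d hd =>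
                (Subgroup.mem_normalizer_iff.1 z.2.1 d.1).1 hd⟩
              left_inv := fun z => rfl
              right_inv := fun z => rfl }
        have hmul := Subgroup.card_mul_index (Subgroup.normalizer ((PD : Subgroup N) : Set N))
        rw [hnc, ← hidx, hNt, hsQ] at hmul
        have hsyl : Nat.card (Sylow s N) = s' * Q :=
          Nat.eq_of_mul_eq_mul_left hs.pos (by rw [hmul]; ring)
        have h1 := card_sylow_modEq_one s N
        rwa [hsyl] at h1
      by_cases hBa : a ∣ Nat.card (Subgroup.normalizer (DB : Set G) ⊓ N : Subgroup G)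
      · obtain ⟨c', hc'⟩ := exists_prime_orderOf_dvd_card'
          (G := (Subgroup.normalizer (DB : Set G) ⊓ N : Subgroup G)) a hBa
        have hc'o : orderOf (c' : G) = a := by rw [Subgroup.orderOf_coe, hc']
        have hc'1 : (c' : G) ≠ 1 := fun e => by rw [e, orderOf_one] at hc'o; exact ha.ne_one hc'o.symm
        have hB0 : DB ≠ ⊥ := fun e => by rw [e, Subgroup.card_bot] at hBc; exact hb.ne_one hBc.symm
        refine ht1 (Subgroup.mem_bot.1 ((eq_bot_of_fpf (K := S) (Q := DB) (b := (c' : G)) (q := b) ha hc'o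
          (IsPGroup.of_card (n := 1) (by rw [hBc, pow_one])) hB0 c'.2.1 ?_ ?_ ?_) ▸ htS))
        · exact sup_le hBN (Subgroup.zpowers_le.2 c'.2.2)
        · intro z hz hzc
          by_contra hz1
          have h1 := PrimeOrders.eq_of_commute hG hz1 hc'1 hzc
          rw [hc'o, ((Nat.dvd_prime hb).1 (hBc ▸ Subgroup.orderOf_dvd_natCard DB hz)).resolve_left
            (fun e => hz1 (orderOf_eq_one_iff.1 e))] at h1
          omega
        · intro g hg hg1 v hv hgv
          have hle : Subgroup.zpowers (c' : G) ≤ Subgroup.normalizer (DB : Set G) :=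
            Subgroup.zpowers_le.2 c'.2.1
          have hd : Nat.card ↥(DB ⊔ Subgroup.zpowers (c' : G)) ∣ a * b := by
            rw [sup_comm]
            refine (CfsgLib.Core.card_sup_dvd_mul hle).trans ?_
            rw [Nat.card_zpowers, hc'o, hBc]
          have hog : orderOf g ∣ a * b := (Subgroup.orderOf_dvd_natCard _ hg).trans hd
          have hg2 : orderOf g ≠ 2 := fun e => by
            rw [e] at hog
            rcases Nat.prime_two.dvd_mul.1 hog with h | h
            · exact hQodd a ha haQ ((Nat.prime_dvd_prime_iff_eq Nat.prime_two ha).1 h).symm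
            · exact hQodd b hb hbQ ((Nat.prime_dvd_prime_iff_eq Nat.prime_two hb).1 h).symm
          exact hfree g (fun hgS => hg2 (hSinv g hgS hg1)) hg2 v hv hgv
      · have h1 := hnorm b a hb ha (by omega) (by rw [hab', mul_comm]) DB hBN hBc hBa
        have h2 : Q ≡ 1 [MOD b] := ((Nat.modEq_iff_dvd' (by omega : 1 ≤ Q)).2 hbQ).symm
        have h3 : a ≡ 1 [MOD b] := by simpa using ((h2.mul_left a).symm.trans h1)
        have := ha.two_le
        rw [Nat.ModEq, Nat.mod_eq_of_lt hlt, Nat.mod_eq_of_lt (by omega)] at h3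
        omega
    rcases Nat.lt_or_gt_of_ne hrq with h | h
    · exact key r q hr hq h (by rw [hQ1', mul_comm])
    · exact key q r hq hr h hQ1'
  -- the third prime
  have hq2 : q ≠ 2 := hQodd q hq hqQ
  have hqG : q ∈ (Nat.card G).primeFactors :=
    Nat.mem_primeFactors.2 ⟨hq, hdvdG _ hqQ, Nat.card_pos.ne'⟩
  have h2G : 2 ∈ (Nat.card G).primeFactors :=
    Nat.mem_primeFactors.2 ⟨Nat.prime_two, heven, Nat.card_pos.ne'⟩
  obtain ⟨r, hrG, hr2, hrq⟩ : ∃ r ∈ (Nat.card G).primeFactors, r ≠ 2 ∧ r ≠ q := by
    by_contra hcon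
    push Not at hcon
    have hle : (Nat.card G).primeFactors ⊆ {2, q} := fun d hd => by
      simp only [Finset.mem_insert, Finset.mem_singleton]
      by_cases h : d = 2
      · exact Or.inl h
      · exact Or.inr (hcon d hd h)
    have := Finset.card_le_card hle
    rw [h3] at this
    exact absurd (this.trans Finset.card_le_two) (by omega)
  have hr := Nat.prime_of_mem_primeFactors hrG
  haveI := Fact.mk hq
  haveI := Fact.mk hr
  have hprimes : (Nat.card G).primeFactors = {2, q, r} := by
    refine (Finset.eq_of_subset_of_card_le ?_ ?_).symm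
    · intro d hd
      simp only [Finset.mem_insert, Finset.mem_singleton] at hd
      rcases hd with rfl | rfl | rfl <;> assumption
    · rw [h3, Finset.card_eq_three.2 ⟨2, q, r, hq2.symm, hr2.symm, hrq.symm, rfl⟩]
  have hord : ∀ x : G, x ≠ 1 → orderOf x = 2 ∨ orderOf x = q ∨ orderOf x = r := fun x hx => by
    have := Nat.mem_primeFactors.2 ⟨hG x hx, orderOf_dvd_natCard x, Nat.card_pos.ne'⟩
    rw [hprimes] at this
    simpa using this
  obtain ⟨PA⟩ : Nonempty (Sylow q G) := inferInstance
  obtain ⟨PR⟩ : Nonempty (Sylow r G) := inferInstance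
  set A := Nat.card (PA : Subgroup G) with hA
  set R := Nat.card (PR : Subgroup G) with hR
  have hgcard : Nat.card G = Q * A * R := by
    rw [hA, hR, hQ, hSP, Sylow.card_eq_multiplicity, Sylow.card_eq_multiplicity,
      Sylow.card_eq_multiplicity]
    conv_lhs => rw [Nat.prod_primeFactors_pow_factorization (Nat.card_pos (α := G)).ne', hprimes]
    rw [Finset.prod_insert (by simp [hq2.symm, hr2.symm]), Finset.prod_pair hrq.symm, mul_assoc]
  -- involutions
  set I := {x : G // orderOf x = 2} with hI
  set m := Nat.card I with hm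
  have hmQ : Nat.card G = m * Q := by
    rw [← Subgroup.card_top (G := G), PrimeOrders.card_orbit_mul ⊤ t {u : G | orderOf u = 2}
      (fun g _ => by
        show orderOf (g * t * g⁻¹) = 2
        rw [← ht]; exact (MulAut.conj g).orderOf_eq t)
      (fun u hu => by obtain ⟨g, hg⟩ := hclass u hu; exact ⟨g, Subgroup.mem_top g, hg⟩), top_inf_eq]
    rfl
  have hmAR : m = A * R := by
    have hQ0 : 0 < Q := by omega
    exact Nat.eq_of_mul_eq_mul_right hQ0 (by rw [← hmQ, hgcard]; ring)
  let F : G → ℕ := fun x => (Finset.univ.filter fun s : G => orderOf s = 2 ∧ orderOf (s * x) = 2).card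
  have hcardI : (Finset.univ.filter fun s : G => orderOf s = 2).card = m := by
    rw [hm, Nat.card_eq_fintype_card, Fintype.card_subtype]
  have hsumF : ∑ x, F x = m * m := by
    rw [← hcardI, ← Finset.card_product]
    rw [Finset.card_eq_sum_card_fiberwise (f := fun p : G × G => p.1 * p.2) (t := Finset.univ)
      (fun p _ => Finset.mem_univ _)]
    refine Finset.sum_congr rfl fun x _ => ?_
    refine Finset.card_bij (fun s _ => (s, s * x)) (fun s hs => ?_) (fun s _ s' _ h => congrArg Prod.fst h)
      (fun p hp => ?_)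
    · simp only [Finset.mem_filter, Finset.mem_univ, true_and, Finset.mem_product] at hs ⊢
      refine ⟨⟨hs.1, hs.2⟩, ?_⟩
      rw [← mul_assoc, ← sq, ← hs.1, pow_orderOf_eq_one, one_mul]
    · simp only [Finset.mem_filter, Finset.mem_univ, true_and, Finset.mem_product] at hp ⊢
      refine ⟨p.1, ⟨hp.1.1, ?_⟩, ?_⟩
      · rw [← hp.2, ← mul_assoc, ← sq]
        conv => arg 1; arg 1; arg 1; arg 2; rw [← hp.1.1]
        rw [pow_orderOf_eq_one, one_mul]
        exact hp.1.2
      · refine Prod.ext rfl ?_
        show p.1 * x = p.2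
        rw [← hp.2, ← mul_assoc, ← sq, ← hp.1.1, pow_orderOf_eq_one, one_mul]
  have hF1 : F 1 = m := by simp [F, hcardI]
  have hF2 : ∀ x, orderOf x = 2 → F x = Q - 2 := by
    intro x hx
    have hx1 : x ≠ 1 := fun e => by rw [e, orderOf_one] at hx; omega
    have hxi : x⁻¹ = x := inv_eq_of_mul_eq_one_right (by rw [← sq, ← hx, pow_orderOf_eq_one])
    obtain ⟨g, hg⟩ := hclass x hx
    have hC : Nat.card (Subgroup.centralizer ({x} : Set G)) = Q := by
      rw [hQ, hS, ← hg]
      refine (Nat.card_congr ((MulAut.conj g).toEquiv.subtypeEquiv fun z => ?_)).symm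
      simp only [Subgroup.mem_centralizer_singleton_iff, MulEquiv.toEquiv_eq_coe, EquivLike.coe_coe,
        MulAut.conj_apply]
      constructor
      · intro h
        calc g * z * g⁻¹ * (g * t * g⁻¹) = g * (z * t) * g⁻¹ := by group
          _ = g * (t * z) * g⁻¹ := by rw [h]
          _ = _ := by group
      · intro h
        calc z * t = g⁻¹ * (g * z * g⁻¹ * (g * t * g⁻¹)) * g := by group
          _ = g⁻¹ * (g * t * g⁻¹ * (g * z * g⁻¹)) * g := by rw [h]
          _ = _ := by group
    show (Finset.univ.filter fun s : G => orderOf s = 2 ∧ orderOf (s * x) = 2).card = _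
    have hset : (Finset.univ.filter fun s : G => orderOf s = 2 ∧ orderOf (s * x) = 2) =
        ((Finset.univ.filter fun s : G => s ∈ Subgroup.centralizer ({x} : Set G)).erase 1).erase x := by
      ext s
      simp only [Finset.mem_filter, Finset.mem_univ, true_and, Finset.mem_erase,
        Subgroup.mem_centralizer_singleton_iff]
      constructor
      · rintro ⟨hs, hsx⟩
        have hs1 : s ≠ 1 := fun e => by rw [e, orderOf_one] at hs; omega
        have hsi : s⁻¹ = s := inv_eq_of_mul_eq_one_right (by rw [← sq, ← hs, pow_orderOf_eq_one])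
        have hsxi : (s * x)⁻¹ = s * x :=
          inv_eq_of_mul_eq_one_right (by rw [← sq, ← hsx, pow_orderOf_eq_one])
        rw [mul_inv_rev, hxi, hsi] at hsxi
        refine ⟨fun e => ?_, hs1, hsxi.symm⟩
        rw [e, ← sq, ← hx, pow_orderOf_eq_one, orderOf_one] at hsx
        omega
      · rintro ⟨hsx, hs1, hc⟩
        refine ⟨(PrimeOrders.eq_of_commute hG hs1 hx1 hc).trans hx, ?_⟩
        have hne : s * x ≠ 1 := fun e => hsx (by rw [eq_inv_of_mul_eq_one_left e, hxi])
        exact (PrimeOrders.eq_of_commute hG hne hx1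
          ((show Commute s x from hc).mul_left (Commute.refl x))).trans hx
    rw [hset, Finset.card_erase_of_mem, Finset.card_erase_of_mem]
    · rw [← Fintype.card_subtype, ← Nat.card_eq_fintype_card, hC]; omega
    · simp
    · simp [hx1, Subgroup.mem_centralizer_singleton_iff]
  -- the odd primes
  have hdata : ∀ (s : ℕ) [Fact s.Prime], s ≠ 2 → ∀ P : Sylow s G, ∃ e c : ℕ, e ≤ 1 ∧
      (∀ x, orderOf x = s → F x = c) ∧
      2 * (Nat.card {x : G // orderOf x = s} * c) =
        Nat.card G * (e * (Nat.card (P : Subgroup G) - 1)) ∧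
      (e = 1 → 2 * (Nat.card {x : G // orderOf x = s} * Nat.card (P : Subgroup G)) =
        Nat.card G * (Nat.card (P : Subgroup G) - 1)) := by
    intro s _ hs2 P
    have hs : s.Prime := Fact.out
    by_cases hreal : ∃ t' x : G, orderOf t' = 2 ∧ orderOf x = s ∧ t' * x * t'⁻¹ = x⁻¹
    · obtain ⟨t', x, ht', hx, hinv⟩ := hreal
      obtain ⟨hall, hcount⟩ := PrimeOrders.real_prime_data hG hs2 ht' hx hinv P
      refine ⟨1, Nat.card (P : Subgroup G), le_rfl, fun y hy => ?_, by rw [one_mul]; exact hcount,
        fun _ => hcount⟩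
      obtain ⟨hc, u, hu, huy⟩ := hall y hy
      rw [← hc]
      have hy1 : y ≠ 1 := fun e => by rw [e, orderOf_one] at hy; exact hs.ne_one hy.symm
      show (Finset.univ.filter fun w : G => orderOf w = 2 ∧ orderOf (w * y) = 2).card = _
      rw [Nat.card_eq_fintype_card, Fintype.card_subtype]
      refine Finset.card_bij' (fun w _ => u⁻¹ * w) (fun c _ => u * c) (fun w hw => ?_) (fun c hc' => ?_)
        (fun w _ => mul_inv_cancel_left u w) (fun c _ => inv_mul_cancel_left u c)
      · simp only [Finset.mem_filter, Finset.mem_univ, true_and] at hw ⊢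
        obtain ⟨hw, hwy⟩ := hw
        have hwi : w⁻¹ = w := inv_eq_of_mul_eq_one_right (by rw [← sq, ← hw, pow_orderOf_eq_one])
        have hwyi : (w * y)⁻¹ = w * y :=
          inv_eq_of_mul_eq_one_right (by rw [← sq, ← hwy, pow_orderOf_eq_one])
        rw [mul_inv_rev, hwi] at hwyi
        refine Subgroup.mem_centralizer_singleton_iff.2 ?_
        calc u⁻¹ * w * y = u⁻¹ * (w * y) := by group
          _ = u⁻¹ * y⁻¹ * w := by rw [← hwyi]; group
          _ = u⁻¹ * (u * y * u⁻¹) * w := by rw [huy]
          _ = y * (u⁻¹ * w) := by group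
      · simp only [Finset.mem_filter, Finset.mem_univ, true_and] at hc' ⊢
        have huu : u * u = 1 := by rw [← sq, ← hu, pow_orderOf_eq_one]
        have huinv := (PrimeOrders.real_centralizer hG hu hy1 (by rw [hy]; exact hs2) huy).1
        have hinvol : ∀ c ∈ Subgroup.centralizer ({y} : Set G), orderOf (u * c) = 2 := by
          intro c hc
          have h1 : (u * c) ^ 2 = 1 := by
            calc (u * c) ^ 2 = (u * c * u⁻¹) * (u * u) * c := by rw [sq]; group
              _ = 1 := by rw [huinv c hc, huu, mul_one, inv_mul_cancel]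
          refine orderOf_eq_prime h1 fun e => ?_
          have hu' : u = c⁻¹ := eq_inv_of_mul_eq_one_left e
          have huC : u ∈ Subgroup.centralizer ({y} : Set G) := hu' ▸ inv_mem hc
          have hu1 : u ≠ 1 := fun e => by rw [e, orderOf_one] at hu; omega
          exact hs2 (hy ▸ (PrimeOrders.eq_of_commute hG hu1 hy1
            (Subgroup.mem_centralizer_singleton_iff.1 huC)).symm.trans hu)
        refine ⟨hinvol c hc', ?_⟩
        rw [mul_assoc]
        exact hinvol _ (mul_mem hc' (Subgroup.mem_centralizer_singleton_iff.2 rfl))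
    · refine ⟨0, 0, Nat.zero_le _, fun y hy => ?_, by simp, fun h => absurd h (by omega)⟩
      refine Finset.card_eq_zero.2 (Finset.filter_eq_empty_iff.2 fun w _ hw => hreal ⟨w, y, hw.1, hy, ?_⟩)
      have hwi : w⁻¹ = w := inv_eq_of_mul_eq_one_right (by rw [← sq, ← hw.1, pow_orderOf_eq_one])
      have h : (w * y)⁻¹ = w * y :=
        inv_eq_of_mul_eq_one_right (by rw [← sq, ← hw.2, pow_orderOf_eq_one])
      rw [mul_inv_rev, hwi] at h
      rw [← h]; group
  obtain ⟨eA, cA, heA, hcA, hEA, -⟩ := hdata q hq2 PA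
  obtain ⟨eR, cR, heR, hcR, hER, hEcount⟩ := hdata r hr2 PR
  have hsum : ∑ x, F x = m + m * (Q - 2) + Nat.card {x : G // orderOf x = q} * cA +
      Nat.card {x : G // orderOf x = r} * cR := by
    have hpt : ∀ x, F x = (if x = 1 then m else 0) + (if orderOf x = 2 then Q - 2 else 0) +
        (if orderOf x = q then cA else 0) + (if orderOf x = r then cR else 0) := by
      intro x
      by_cases hx : x = 1
      · subst hx
        simp [hF1, hq.ne_one.symm, hr.ne_one.symm]
      rcases hord x hx with h | h | h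
      · rw [hF2 x h, if_neg hx, if_pos h, if_neg (by omega), if_neg (by omega)]; simp
      · rw [hcA x h, if_neg hx, if_neg (by omega), if_pos h, if_neg (by omega)]; simp
      · rw [hcR x h, if_neg hx, if_neg (by omega), if_neg (by omega), if_pos h]; simp
    have hcount : ∀ (d c : ℕ), ∑ x : G, (if orderOf x = d then c else 0) =
        Nat.card {x : G // orderOf x = d} * c := by
      intro d c
      rw [← Finset.sum_filter, Finset.sum_const, smul_eq_mul, Nat.card_eq_fintype_card,
        Fintype.card_subtype]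
    simp only [hpt, Finset.sum_add_distrib, hcount, Finset.sum_ite_eq', Finset.mem_univ, if_true]
    rfl
  have hQh : 2 * (Q / 2) = Q := Nat.mul_div_cancel' (hn ▸ dvd_pow_self 2 (by omega))
  set h := Q / 2 with hhdef
  have hm0 : 0 < m := by
    rw [hmAR]; exact Nat.mul_pos Nat.card_pos Nat.card_pos
  obtain ⟨ka, hka⟩ := PA.2.exists_card_eq
  have hka1 : 1 ≤ ka := by
    by_contra h0
    rw [show ka = 0 by omega, pow_zero] at hka
    have := PA.dvd_card_of_dvd_card (Nat.dvd_of_mem_primeFactors hqG)
    rw [hka] at this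
    exact hq.not_dvd_one this
  have hR2 : 2 ≤ R := hr.two_le.trans
    (Nat.le_of_dvd Nat.card_pos (PR.dvd_card_of_dvd_card (Nat.dvd_of_mem_primeFactors hrG)))
  have heq0 : A * R = q + h * (eA * (A - 1) + eR * (R - 1)) := by
    rw [← hA] at hEA
    rw [← hR] at hER
    have h2m : 2 * (m * m) = 2 * (m * (q + h * (eA * (A - 1) + eR * (R - 1)))) := by
      rw [← hsumF, hsum, mul_add, mul_add, hEA, hER, hmQ, ← hQh]
      have : m + m * (2 * h - 2) = m * q := by
        rw [← hQ1, ← hQh, show 2 * h - 1 = 1 + (2 * h - 2) by omega, mul_add, mul_one]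
      linarith
    have h1 := Nat.eq_of_mul_eq_mul_left (by norm_num : 0 < 2) h2m
    rw [← hmAR]
    exact Nat.eq_of_mul_eq_mul_left hm0 h1
  obtain ⟨hAq, hRQ, -, heR1⟩ :=
    equation (by omega) (by omega) hka1 (hA.trans hka) hR2 hq heA heR heq0
  have hgval : Nat.card G = Q * q * (2 * h + 1) := by rw [hgcard, hAq, hRQ]
  obtain ⟨kr, hkr⟩ := PR.2.exists_card_eq
  rw [← hR, hRQ, hQh, hn] at hkr
  -- `n` is two or three
  have hqn : 2 ^ n - 1 = q := by rw [← hn, hQ1]
  rcases Nat.even_or_odd n with hev | hod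
  · -- `Q = 4`
    obtain ⟨j, hj⟩ := hev
    have hfac : q = (2 ^ j - 1) * (2 ^ j + 1) := by
      rw [← hqn, hj, pow_add, mul_comm (2 ^ j - 1), ← Nat.sq_sub_sq, one_pow, sq]
    have hj1 : 2 ^ j - 1 = 1 := by
      rcases (Nat.dvd_prime hq).1 (hfac ▸ dvd_mul_right _ _) with h | h
      · exact h
      · exfalso
        have hpos : 0 < 2 ^ j - 1 := by rw [h]; exact hq.pos
        have h1 : (2 ^ j - 1) * (2 ^ j + 1) = 2 ^ j - 1 := hfac.symm.trans h.symm
        have h2 : 2 ^ j + 1 = 1 := Nat.eq_of_mul_eq_mul_left hpos (by rw [h1, mul_one])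
        have : 1 ≤ 2 ^ j := Nat.one_le_two_pow
        omega
    have hn2' : n = 2 := by
      have : 2 ^ j = 2 ^ 1 := by omega
      have := Nat.pow_right_injective le_rfl this
      omega
    subst hn2'
    have hQ4' : Q = 4 := hn
    have hg60 : Nat.card G = 60 := by
      rw [hgval, ← hQ1, hQh, hQ4']
    -- the action on Sylow `2`-subgroups
    have hNP : Nat.card (Subgroup.normalizer ((P : Subgroup G) : Set G)) = 12 := by
      rw [← hSP, ← hN, hNt, hQ4']
    have hX5 : Nat.card (Sylow 2 G) = 5 := by
      have h1 := Subgroup.card_mul_index (Subgroup.normalizer ((P : Subgroup G) : Set G))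
      rw [← sylCard P, hNP, hg60] at h1
      omega
    let φ := MulAction.toPermHom G (Sylow 2 G)
    have hinj : Function.Injective φ := by
      rw [← MonoidHom.ker_eq_bot_iff]
      by_contra hK
      obtain ⟨M, hMn, hM0, hMK, hMmin⟩ := exists_minimal_normal_le (N := φ.ker) hK
      haveI := hMn
      have hMN : M ≤ Subgroup.normalizer ((P : Subgroup G) : Set G) := fun g hg => by
        exact sylFix (DFunLike.congr_fun (MonoidHom.mem_ker.1 (hMK hg)) P)
      haveI : Group.IsSolvable M := by
        obtain ⟨k, hk⟩ : Nat.card M ∣ 12 := hNP ▸ Subgroup.card_dvd_of_le hMN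
        refine CfsgLib.Char.burnside_pq Nat.prime_two Nat.prime_three _ M
          ((Nat.card M).factorization 2) ((Nat.card M).factorization 3) rfl ?_
        conv_lhs => rw [Nat.prod_primeFactors_pow_factorization Nat.card_pos.ne']
        rw [Finset.prod_subset (s₂ := {2, 3}) (fun d hd => by
          obtain ⟨hdp, hdM, -⟩ := Nat.mem_primeFactors.1 hd
          have hd12 : d ∣ 2 ^ 2 * 3 := by
            rw [show 2 ^ 2 * 3 = 12 from rfl, hk]; exact hdM.mul_right k
          simp only [Finset.mem_insert, Finset.mem_singleton]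
          rcases hdp.dvd_mul.1 hd12 with h | h
          · exact Or.inl ((Nat.prime_dvd_prime_iff_eq hdp Nat.prime_two).1 (hdp.dvd_of_dvd_pow h))
          · exact Or.inr ((Nat.prime_dvd_prime_iff_eq hdp Nat.prime_three).1 h)) (fun d _ hd => by
          rw [← Nat.support_factorization, Finsupp.notMem_support_iff] at hd
          rw [hd, pow_zero]), Finset.prod_pair (by norm_num : (2 : ℕ) ≠ 3)]
      have hMc := isMulCommutative_of_minimal_normal hMmin
      exact hM0 (hab M fun a ha b hb => congrArg Subtype.val (mul_comm (⟨a, ha⟩ : M) ⟨b, hb⟩))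
    haveI := Fintype.ofFinite (Sylow 2 G)
    have hcard5 : Fintype.card (Sylow 2 G) = 5 := by rw [← Nat.card_eq_fintype_card, hX5]
    let e5 : Equiv.Perm (Sylow 2 G) ≃* Equiv.Perm (Fin 5) :=
      (Fintype.equivFinOfCardEq hcard5).permCongrHom
    let ψ := e5.toMonoidHom.comp φ
    have hψ : Function.Injective ψ := e5.injective.comp hinj
    have hrange : Nat.card ψ.range = 60 := by
      rw [← hg60]; exact Nat.card_congr (MonoidHom.ofInjective hψ).symm.toEquiv
    have hidx : ψ.range.index = 2 := by
      have h1 := Subgroup.card_mul_index ψ.range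
      rw [hrange, Nat.card_perm, Nat.card_fin] at h1
      have : (Nat.factorial 5) = 120 := rfl
      omega
    exact ⟨(MonoidHom.ofInjective hψ).trans
      (MulEquiv.subgroupCongr (Equiv.Perm.eq_alternatingGroup_of_index_eq_two hidx))⟩
  · -- `Q = 8` is impossible
    exfalso
    have h3Q : 3 ∣ 2 ^ n + 1 := by
      obtain ⟨j, rfl⟩ := hod
      have : 2 ^ (2 * j + 1) % 3 = 2 := by
        rw [pow_succ, pow_mul, Nat.mul_mod, Nat.pow_mod]; norm_num
      exact Nat.dvd_of_mod_eq_zero (by rw [Nat.add_mod, this])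
    have hr3 : r = 3 :=
      ((Nat.prime_dvd_prime_iff_eq Nat.prime_three hr).1 (Nat.prime_three.dvd_of_dvd_pow (hkr ▸ h3Q))).symm
    subst hr3
    have hn3 : 3 ≤ n := by
      obtain ⟨j, rfl⟩ := hod
      omega
    have hQ8 : Q = 8 := hn.trans (two_pow_eq_eight hn3 hkr)
    have hR9 : R = 9 := by rw [hRQ, hQh, hQ8]
    have hg504 : Nat.card G = 504 := by rw [hgval, ← hQ1, hQh, hQ8]
    have hE : Nat.card {x : G // orderOf x = 3} = 224 := by
      have h1 := hEcount heR1
      rw [← hR, hR9, hg504] at h1
      omega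
    -- sharp action on nine points
    have hNP : Nat.card (Subgroup.normalizer ((P : Subgroup G) : Set G)) = 56 := by
      rw [← hSP, ← hN, hNt, hQ8]
    have hX9 : Nat.card (Sylow 2 G) = 9 := by
      have h1 := Subgroup.card_mul_index (Subgroup.normalizer ((P : Subgroup G) : Set G))
      rw [← sylCard P, hNP, hg504] at h1
      omega
    have hcardX : ∀ X : Sylow 2 G, Nat.card (Subgroup.normalizer ((X : Subgroup G) : Set G)) = 56 := by
      intro X
      have h1 := Subgroup.card_mul_index (Subgroup.normalizer ((X : Subgroup G) : Set G))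
      rw [← sylCard X, hX9, hg504] at h1
      omega
    have hcardS : ∀ X : Sylow 2 G, Nat.card (X : Subgroup G) = 8 := fun X => by
      rw [← hQ8, hQ, hSP, Sylow.card_eq_multiplicity, Sylow.card_eq_multiplicity]
    have hinvS : ∀ (X : Sylow 2 G) (s : G), s ∈ (X : Subgroup G) → s ≠ 1 →
        orderOf s = 2 ∧ (X : Subgroup G) = Subgroup.centralizer ({s} : Set G) := by
      intro X s hs hs1
      obtain ⟨g, hg⟩ := MulAction.exists_smul_eq G X P
      have hgs : g * s * g⁻¹ ∈ S := by
        rw [hSP, ← hg, Sylow.coe_subgroup_smul, Subgroup.mem_pointwise_smul_iff_inv_smul_mem]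
        simpa [mul_assoc] using hs
      have h2s : orderOf s = 2 := by
        rw [← hSinv _ hgs (fun e => hs1 (conj_eq_one_iff.1 e))]
        exact ((MulAut.conj g).orderOf_eq s).symm
      refine ⟨h2s, Subgroup.eq_of_le_of_card_ge (fun z hz => ?_) ?_⟩
      · have hgz : g * z * g⁻¹ ∈ S := by
          rw [hSP, ← hg, Sylow.coe_subgroup_smul, Subgroup.mem_pointwise_smul_iff_inv_smul_mem]
          simpa [mul_assoc] using hz
        refine Subgroup.mem_centralizer_singleton_iff.2 ?_
        have h := PrimeOrders.centralizer_comm hG ht hgz hgs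
        calc z * s = g⁻¹ * (g * z * g⁻¹ * (g * s * g⁻¹)) * g := by group
          _ = g⁻¹ * (g * s * g⁻¹ * (g * z * g⁻¹)) * g := by rw [h]
          _ = s * z := by group
      · obtain ⟨g', hg'⟩ := hclass s h2s
        rw [hcardS X, ← hQ8, hQ, hS, ← hg']
        refine le_of_eq (Nat.card_congr ((MulAut.conj g').toEquiv.subtypeEquiv fun z => ?_)).symm
        simp only [Subgroup.mem_centralizer_singleton_iff, MulEquiv.toEquiv_eq_coe, EquivLike.coe_coe,
          MulAut.conj_apply]
        constructor
        · intro h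
          calc g' * z * g'⁻¹ * (g' * t * g'⁻¹) = g' * (z * t) * g'⁻¹ := by group
            _ = g' * (t * z) * g'⁻¹ := by rw [h]
            _ = _ := by group
        · intro h
          calc z * t = g'⁻¹ * (g' * z * g'⁻¹ * (g' * t * g'⁻¹)) * g' := by group
            _ = g'⁻¹ * (g' * t * g'⁻¹ * (g' * z * g'⁻¹)) * g' := by rw [h]
            _ = _ := by group
    have hmemX : ∀ (X : Sylow 2 G) (s : G), orderOf s = 2 → s • X = X → s ∈ (X : Subgroup G) := by
      intro X s hs hfix
      have hsN := sylFix hfix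
      have hp : IsPGroup 2 (Subgroup.zpowers s) :=
        IsPGroup.of_card (n := 1) (by rw [Nat.card_zpowers, hs, pow_one])
      have hp2 : IsPGroup 2 ((Subgroup.zpowers s) ⊔ (X : Subgroup G) : Subgroup G) :=
        hp.to_sup_of_normal_right' X.2 (Subgroup.zpowers_le.2 hsN)
      rw [← X.3 hp2 le_sup_right]
      exact Subgroup.mem_sup_left (Subgroup.mem_zpowers s)
    have htriple : ∀ (g : G) (X Y Z : Sylow 2 G), X ≠ Y → X ≠ Z → Y ≠ Z → g • X = X → g • Y = Y →
        g • Z = Z → g = 1 := by
      intro g X Y Z hXY hXZ hYZ hX hY hZ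
      by_contra hg1
      have hgN := sylFix hX
      rcases hord g hg1 with h | h | h
      · have h1 := (hinvS X g (hmemX X g h hX) hg1).2
        have h2 := (hinvS Y g (hmemX Y g h hY) hg1).2
        exact hXY (Sylow.ext (h1.trans h2.symm))
      · have hgS : g ∉ (X : Subgroup G) := fun h' => hq2 (h.symm.trans (hinvS X g h' hg1).1)
        haveI := Fintype.ofFinite (Sylow 2 G)
        let f : ↥(X : Subgroup G) → {W : Sylow 2 G // W ≠ X} := fun s => ⟨(s : G) • Y, fun e => hXY (by
          have hs := smul_eq_iff_eq_inv_smul (s : G) |>.1 e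
          rw [hs]
          exact (Sylow.smul_eq_iff_mem_normalizer.2
            (Subgroup.le_normalizer ((X : Subgroup G).inv_mem s.2))).symm)⟩
        have hf : Function.Injective f := by
          intro s s' he
          have he' : (s : G) • Y = (s' : G) • Y := congrArg Subtype.val he
          have h1 : ((s' : G)⁻¹ * s) • Y = Y := by rw [mul_smul, he', inv_smul_smul]
          by_contra hne
          have hne' : (s' : G)⁻¹ * s ≠ 1 := fun e => hne (Subtype.ext (inv_mul_eq_one.1 e).symm)
          obtain ⟨ho, hXc⟩ := hinvS X _ ((X : Subgroup G).mul_mem ((X : Subgroup G).inv_mem s'.2) s.2) hne'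
          exact hXY (Sylow.ext (hXc.trans (hinvS Y _ (hmemX Y _ ho h1) hne').2.symm))
        have hsur : Function.Surjective f := by
          refine (((Nat.bijective_iff_injective_and_card f).2 ⟨hf, ?_⟩)).2
          rw [hcardS X, Nat.card_eq_fintype_card (α := {W : Sylow 2 G // W ≠ X}),
            Fintype.card_subtype_compl, Fintype.card_subtype_eq, ← Nat.card_eq_fintype_card, hX9]
        obtain ⟨s, hs⟩ := hsur ⟨Z, hXZ.symm⟩
        have hs' : (s : G) • Y = Z := congrArg Subtype.val hs
        have hgsg : g * s * g⁻¹ ∈ (X : Subgroup G) := (Subgroup.mem_normalizer_iff.1 hgN s).1 s.2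
        have h1 : (g * (s : G) * g⁻¹) • Y = Z := by
          rw [mul_smul, mul_smul, inv_smul_eq_iff.2 hY.symm, hs', hZ]
        have h2 : g * (s : G) * g⁻¹ = s :=
          congrArg Subtype.val (hf (a₁ := ⟨_, hgsg⟩) (a₂ := s) (Subtype.ext (h1.trans hs'.symm)))
        have hs1 : (s : G) ≠ 1 := fun e => hYZ (by rw [← hs', e, one_smul])
        rw [mul_inv_eq_iff_eq_mul] at h2
        exact hgS ((hinvS X s s.2 hs1).2.ge (Subgroup.mem_centralizer_singleton_iff.2 h2))
      · have := Subgroup.orderOf_dvd_natCard _ hgN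
        rw [hcardX, h] at this
        omega
    let T3 : {x : G // orderOf x = 3} × Sylow 2 G → Sylow 2 G × Sylow 2 G × Sylow 2 G :=
      fun p => (p.2, (p.1 : G) • p.2, (p.1 : G) • (p.1 : G) • p.2)
    have hT3 : Function.Injective T3 := by
      rintro ⟨⟨x, hx⟩, X⟩ ⟨⟨y, hy⟩, X'⟩ he
      obtain ⟨rfl, he2⟩ := Prod.ext_iff.1 he
      obtain ⟨hxy, hxy2⟩ := Prod.ext_iff.1 he2
      have hxy' : x • X = y • X := hxy
      have hxy2' : x • x • X = y • y • X := hxy2
      have h3x : ∀ z : G, orderOf z = 3 → ∀ W : Sylow 2 G, z • z • z • W = W := fun z hz W => by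
        rw [← mul_smul, ← mul_smul, show z * z * z = z ^ 3 by rw [pow_succ, sq], ← hz,
          pow_orderOf_eq_one, one_smul]
      have hnofix : ∀ z : G, orderOf z = 3 → ∀ W : Sylow 2 G, z • W ≠ W := fun z hz W h => by
        have := Subgroup.orderOf_dvd_natCard _ (sylFix h)
        rw [hcardX, hz] at this
        omega
      have h12 : x • X ≠ X := hnofix x hx X
      have h23 : x • x • X ≠ x • X := hnofix x hx _
      have h13 : x • x • X ≠ X := fun h => by
        have := h3x x hx X
        rw [h] at this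
        exact h12 this
      have hg : y⁻¹ * x = 1 := htriple _ X (x • X) (x • x • X) h12.symm h13.symm h23.symm
        (by rw [mul_smul, hxy', inv_smul_smul])
        (by rw [mul_smul, hxy2', inv_smul_smul, hxy'])
        (by
          rw [mul_smul, h3x x hx X, inv_smul_eq_iff, hxy2']
          exact (h3x y hy X).symm)
      exact Prod.ext (Subtype.ext (inv_mul_eq_one.1 hg).symm) rfl
    have hle := Nat.card_le_card_of_injective T3 hT3
    rw [Nat.card_prod, Nat.card_prod, Nat.card_prod, hX9, hE] at hle
    omega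

/-- A finite non-solvable group on which its automorphism group has exactly four orbits is isomorphic to the alternating group of degree 5. -/
theorem result {G : Type*} [Group G] [Finite G] (hns : ¬ Group.IsSolvable G)
    (h4 : Nat.card (MulAction.orbitRel.Quotient (MulAut G) G) = 4) : Nonempty (G ≃* alternatingGroup (Fin 5)) := by
  classical
  obtain ⟨hPO, h3⟩ := prime_orders hns h4
  exact main hns hPO h3

end Cfsg.Agent.S4068
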