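import Cfsg.Statements.S4071
import Cfsg.Agent.Lib.CorePGroup
import Cfsg.Agent.Lib.CoreSZ
import Cfsg.Agent.Lib.CoreFitting

set_option autoImplicit false
open Cfsg

namespace Cfsg.Agent.S4071

universe w

open CfsgLib.Core in
private theorem backward {G : Type w} [Group G] [Finite G] (x : G) (A : Subgroup G) (p : ℕ) (hp : p.Prime)
    (hAn : A.Normal) (hA : IsMulCommutative A) (hk : ∃ k : ℕ, orderOf x = p ^ k)
    (hcompl : (Subgroup.zpowers x).IsComplement' A) (hz : x ^ p ∈ Subgroup.center G)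
    (hfpf : ∀ a : G, a ∈ A → a ≠ 1 → x * a * x⁻¹ ≠ a) (H : Subgroup G) (hH : ¬ IsMulCommutative H) :
    Subgroup.normalizer (H : Set G) = H := by
  classical
  obtain ⟨k, hk⟩ := hk
  have hcomm : ∀ a ∈ A, ∀ b ∈ A, a * b = b * a := fun a ha b hb =>
    congrArg Subtype.val (hA.is_comm.comm (⟨a, ha⟩ : A) ⟨b, hb⟩)
  -- the commutator map of a fixed-point-free element is onto `A`
  have hmap : ∀ y : G, (∀ a ∈ A, y * a * y⁻¹ = a → a = 1) → ∀ B : Subgroup G, B ≤ A →
      (∀ b ∈ B, y * b * y⁻¹ ∈ B) → ∀ c ∈ B, ∃ b ∈ B, y * b * y⁻¹ * b⁻¹ = c := by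
    intro y hy B hBA hB c hc
    let ψ : B → B := fun b => ⟨y * b * y⁻¹ * (b : G)⁻¹, B.mul_mem (hB b b.2) (B.inv_mem b.2)⟩
    have hinj : Function.Injective ψ := by
      intro a b e
      have e' : y * a * y⁻¹ * (a : G)⁻¹ = y * b * y⁻¹ * (b : G)⁻¹ := congrArg Subtype.val e
      refine Subtype.ext (mul_inv_eq_one.1 (hy _ (A.mul_mem (hBA a.2) (A.inv_mem (hBA b.2))) ?_))
      have h1 := hcomm _ (A.inv_mem (hBA b.2)) _ (hBA a.2)
      have h2 : y * a * y⁻¹ = y * b * y⁻¹ * (b : G)⁻¹ * a := by rw [← e']; group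
      rw [show y * ((a : G) * (b : G)⁻¹) * y⁻¹ = (y * a * y⁻¹) * (y * b * y⁻¹)⁻¹ by group, h2,
        mul_assoc (y * b * y⁻¹), h1]
      have h3 := hcomm _ (A.mul_mem (hBA a.2) (A.inv_mem (hBA b.2))) _ (hBA (B.inv_mem (hB b b.2)))
      rw [mul_assoc (y * b * y⁻¹), h3, ← mul_assoc, mul_inv_cancel, one_mul]
    obtain ⟨b, hb⟩ := Finite.injective_iff_surjective.1 hinj ⟨c, hc⟩
    exact ⟨b, b.2, congrArg Subtype.val hb⟩
  have hfix : ∀ a ∈ A, x * a * x⁻¹ = a → a = 1 := fun a ha e => by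
    by_contra h
    exact hfpf a ha h e
  have hgen : ∀ i : ℤ, ¬ (p : ℤ) ∣ i → ∃ u : ℤ, (x ^ i) ^ u = x := by
    intro i hi
    have hcop : IsCoprime i ((orderOf x : ℕ) : ℤ) := by
      rw [hk, Nat.cast_pow]
      exact (((Nat.prime_iff_prime_int.1 hp).coprime_iff_not_dvd).2 hi).symm.pow_right
    obtain ⟨u, v, huv⟩ := hcop
    refine ⟨u, ?_⟩
    rw [← zpow_mul]
    have h1 : x ^ (i * u + (orderOf x : ℤ) * v) = x := by
      rw [mul_comm i, mul_comm _ v, huv, zpow_one]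
    rwa [zpow_add, zpow_mul x (orderOf x : ℤ), zpow_natCast, pow_orderOf_eq_one, one_zpow, mul_one] at h1
  -- the case that `x` lies in the subgroup
  have key : ∀ K : Subgroup G, x ∈ K → ∀ g : G, (∀ h ∈ K, g * h * g⁻¹ ∈ K) → g ∈ K := by
    intro K hxK g hg
    obtain ⟨⟨⟨s, hs⟩, a⟩, rfl⟩ := hcompl.2 g
    obtain ⟨i, rfl⟩ := Subgroup.mem_zpowers_iff.1 hs
    have h1 : (a : G) * x * (a : G)⁻¹ ∈ K := by
      have h2 := hg x hxK
      have h3 := K.mul_mem (K.mul_mem (K.zpow_mem hxK (-i)) h2) (K.zpow_mem hxK i)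
      rwa [show x ^ (-i) * (x ^ i * (a : G) * x * (x ^ i * (a : G))⁻¹) * x ^ i = (a : G) * x * (a : G)⁻¹ by group] at h3
    have h4 : x * a * x⁻¹ * (a : G)⁻¹ ∈ K ⊓ A :=
      ⟨by rw [show x * a * x⁻¹ * (a : G)⁻¹ = x * ((a : G) * x * (a : G)⁻¹)⁻¹ by group]
          exact K.mul_mem hxK (K.inv_mem h1),
        A.mul_mem (hAn.conj_mem _ a.2 x) (A.inv_mem a.2)⟩
    obtain ⟨b, hb, hbe⟩ := hmap x hfix (K ⊓ A) inf_le_right
      (fun b hb => ⟨K.mul_mem (K.mul_mem hxK hb.1) (K.inv_mem hxK), hAn.conj_mem _ hb.2 x⟩) _ h4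
    have hab : (a : G) * b⁻¹ = 1 := by
      refine hfix _ (A.mul_mem a.2 (A.inv_mem hb.2)) ?_
      have h5 : x * a * x⁻¹ = x * b * x⁻¹ * b⁻¹ * a := by rw [hbe]; group
      rw [show x * ((a : G) * b⁻¹) * x⁻¹ = (x * a * x⁻¹) * (x * b * x⁻¹)⁻¹ by group, h5,
        mul_assoc (x * b * x⁻¹), hcomm _ (A.inv_mem hb.2) _ a.2]
      have h6 := hcomm _ (A.mul_mem a.2 (A.inv_mem hb.2)) _ (A.inv_mem (hAn.conj_mem _ hb.2 x))
      rw [mul_assoc (x * b * x⁻¹), h6, ← mul_assoc, mul_inv_cancel, one_mul]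
    show x ^ i * (a : G) ∈ K
    rw [mul_inv_eq_one.1 hab]
    exact K.mul_mem (K.zpow_mem hxK i) hb.1
  -- an element of `H` outside the abelian subgroup of index `p`
  obtain ⟨i, a, ha, hiH, hi⟩ : ∃ (i : ℤ) (a : G), a ∈ A ∧ x ^ i * a ∈ H ∧ ¬ (p : ℤ) ∣ i := by
    by_contra hcon
    push Not at hcon
    refine hH ⟨⟨fun u v => Subtype.ext ?_⟩⟩
    have hdec : ∀ h ∈ H, ∃ z ∈ Subgroup.center G, ∃ a ∈ A, h = z * a := by
      intro h hh
      obtain ⟨⟨⟨s, hs⟩, a⟩, rfl⟩ := hcompl.2 h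
      obtain ⟨i, rfl⟩ := Subgroup.mem_zpowers_iff.1 hs
      obtain ⟨j, rfl⟩ := hcon i a a.2 hh
      refine ⟨_, ?_, a, a.2, rfl⟩
      show x ^ ((p : ℤ) * j) ∈ _
      rw [zpow_mul, zpow_natCast]
      exact (Subgroup.center G).zpow_mem hz j
    obtain ⟨z, hz1, a, ha, hu⟩ := hdec u u.2
    obtain ⟨w, hw, b, hb, hv⟩ := hdec v v.2
    show (u : G) * v = v * u
    rw [hu, hv]
    have cz : ∀ y, Commute z y := fun y => (Subgroup.mem_center_iff.1 hz1 y).symm
    have cw : ∀ y, Commute w y := fun y => (Subgroup.mem_center_iff.1 hw y).symm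
    exact (((cz w).mul_right (cz b)).mul_left ((cw a).symm.mul_right (hcomm a ha b hb))).eq
  obtain ⟨u, hu⟩ := hgen i hi
  -- conjugate `x ^ i * a` to `x ^ i`
  have hfi : ∀ c ∈ A, (x ^ i)⁻¹ * c * x ^ i = c → c = 1 := by
    intro c hc e
    refine hfix c hc ?_
    have hcx : Commute (x ^ i) c := by
      calc x ^ i * c = x ^ i * ((x ^ i)⁻¹ * c * x ^ i) := by rw [e]
        _ = c * x ^ i := by group
    have h1 := hcx.zpow_left u
    rw [hu] at h1
    exact mul_inv_eq_iff_eq_mul.2 h1.eq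
  obtain ⟨b, hb, hbe⟩ := hmap (x ^ i)⁻¹ (fun c hc e => hfi c hc (by rwa [inv_inv] at e)) A le_rfl
    (fun c hc => hAn.conj_mem c hc _) a ha
  rw [inv_inv] at hbe
  have hbx : b * x ^ i * b⁻¹ ∈ H := by
    rw [← hbe] at hiH
    rwa [show x ^ i * ((x ^ i)⁻¹ * b * x ^ i * b⁻¹) = b * x ^ i * b⁻¹ by group] at hiH
  refine le_antisymm (fun g hg => ?_) Subgroup.le_normalizer
  have hxK : x ∈ H.comap (MulAut.conj b).toMonoidHom := by
    have := H.zpow_mem hbx u
    rw [conj_zpow, hu] at this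
    exact this
  have h := key _ hxK (b⁻¹ * g * b) (fun h hh => by
    show b * (b⁻¹ * g * b * h * (b⁻¹ * g * b)⁻¹) * b⁻¹ ∈ H
    rw [show b * (b⁻¹ * g * b * h * (b⁻¹ * g * b)⁻¹) * b⁻¹ = g * (b * h * b⁻¹) * g⁻¹ by group]
    exact (Subgroup.mem_normalizer_iff.1 hg _).1 hh)
  have h' : b * (b⁻¹ * g * b) * b⁻¹ ∈ H := h
  rwa [show b * (b⁻¹ * g * b) * b⁻¹ = g by group] at h'

open CfsgLib.Core in
private theorem forward {G : Type w} [Group G] [Finite G] [Group.IsSolvable G] (hnn : ¬ Group.IsNilpotent G)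
    (h : ∀ H : Subgroup G, ¬ IsMulCommutative H → Subgroup.normalizer (H : Set G) = H) :
    ∃ (x : G) (A : Subgroup G) (p : ℕ), p.Prime ∧ A.Normal ∧ IsMulCommutative A ∧ (∃ k : ℕ, orderOf x = p ^ k) ∧
      ¬ p ∣ Nat.card A ∧ (Subgroup.zpowers x).IsComplement' A ∧ x ^ p ∈ Subgroup.center G ∧
      ∀ a : G, a ∈ A → a ≠ 1 → x * a * x⁻¹ ≠ a := by
  classical
  haveI : Nontrivial G := by
    rcases subsingleton_or_nontrivial G with hs | hs
    · exact absurd (inferInstance : Group.IsNilpotent G) hnn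
    · exact hs
  have habel : ∀ N : Subgroup G, N.Normal → N ≠ ⊤ → IsMulCommutative N := fun N hN hNt => by
    by_contra hc
    exact hNt ((h N hc).symm.trans (Subgroup.normalizer_eq_top_iff.2 hN))
  have hG' : commutator G ≠ ⊤ := (Group.IsSolvable.commutator_lt_top_of_nontrivial (G := G)).ne
  obtain hM | ⟨M, hM, hMle⟩ := eq_top_or_exists_le_coatom (commutator G)
  · exact absurd hM hG'
  haveI hMn : M.Normal := normal_of_commutator_le hMle
  have huniq : ∀ M' : Subgroup G, IsCoatom M' → commutator G ≤ M' → M' = M := by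
    intro M' hM' hle'
    by_contra hne
    haveI hM'n : M'.Normal := normal_of_commutator_le hle'
    have hsup : M ⊔ M' = ⊤ := hM.2 _ (lt_of_le_of_ne le_sup_left fun e =>
      (hM'.le_iff.1 (e ▸ le_sup_right)).elim (fun e' => hM.1 e') (fun e' => hne e'.symm))
    have hcen : M ⊓ M' ≤ Subgroup.center G := by
      rintro z ⟨hz1, hz2⟩
      rw [Subgroup.mem_center_iff]
      intro g
      obtain ⟨a, ha, b, hb, rfl⟩ := Subgroup.mem_sup_of_normal_right.1 (hsup ▸ Subgroup.mem_top g)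
      have c1 : Commute a z := congrArg Subtype.val ((habel M hMn hM.1).is_comm.comm (⟨a, ha⟩ : M) ⟨z, hz1⟩)
      have c2 : Commute b z := congrArg Subtype.val ((habel M' hM'n hM'.1).is_comm.comm (⟨b, hb⟩ : M') ⟨z, hz2⟩)
      exact (c1.mul_left c2).eq
    refine hnn (Subgroup.nilpotent_iff_lowerCentralSeries.2 ⟨2, ?_⟩)
    rw [Subgroup.lowerCentralSeries_succ, Subgroup.top_lowerCentralSeries_one,
      Subgroup.commutator_eq_bot_iff_le_centralizer]
    intro c hc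
    rw [Subgroup.mem_centralizer_iff]
    intro g _
    exact Subgroup.mem_center_iff.1 (hcen ⟨hMle hc, hle' hc⟩) g
  obtain ⟨p, hp, hMi⟩ : ∃ p, p.Prime ∧ M.index = p := by
    have hne : M.index ≠ 1 := fun e => hM.1 (Subgroup.index_eq_one.1 e)
    obtain ⟨p, hp, hpd⟩ := Nat.exists_prime_and_dvd hne
    haveI := Fact.mk hp
    obtain ⟨q, hq⟩ := exists_prime_orderOf_dvd_card' (G := G ⧸ M) p (M.index_eq_card ▸ hpd)
    refine ⟨p, hp, ?_⟩
    set L := (Subgroup.zpowers q).comap (QuotientGroup.mk' M) with hL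
    have hML : M < L := by
      refine lt_of_le_of_ne ((QuotientGroup.ker_mk' M).ge.trans (Subgroup.ker_le_comap _ _)) fun e => ?_
      obtain ⟨g, hg⟩ := QuotientGroup.mk'_surjective M q
      have h1 : g ∈ M := by
        rw [e]; show QuotientGroup.mk' M g ∈ Subgroup.zpowers q
        rw [hg]; exact Subgroup.mem_zpowers q
      rw [← hg, QuotientGroup.mk'_apply, (QuotientGroup.eq_one_iff g).2 h1, orderOf_one] at hq
      exact hp.one_lt.ne hq
    have h2 := congrArg (Subgroup.map (QuotientGroup.mk' M)) (hM.2 L hML)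
    rw [Subgroup.map_comap_eq_self_of_surjective (QuotientGroup.mk'_surjective M),
      Subgroup.map_top_of_surjective _ (QuotientGroup.mk'_surjective M)] at h2
    rw [M.index_eq_card, ← Subgroup.card_top (G := G ⧸ M), ← h2, Nat.card_zpowers, hq]
  haveI := Fact.mk hp
  obtain ⟨y, -, hyM⟩ := SetLike.exists_of_lt hM.lt_top
  obtain ⟨v, m, hm, hvm⟩ := Nat.exists_eq_pow_mul_and_not_dvd (orderOf_pos y).ne' p hp.ne_one
  have hpow : ∀ g : G, g ^ p ∈ M := fun g => hMi ▸ Subgroup.pow_index_mem M g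
  set x := y ^ m with hx
  have hxo : orderOf x = p ^ v := by
    have hm0 : 0 < m := Nat.pos_of_ne_zero fun e => hm (e ▸ dvd_zero p)
    rw [hx, orderOf_pow' y hm0.ne', hvm, Nat.gcd_mul_left_left, Nat.mul_div_cancel _ hm0]
  have hxM : x ∉ M := by
    intro hxm
    obtain ⟨a, b, hab⟩ : IsCoprime (m : ℤ) (p : ℤ) :=
      (Nat.isCoprime_iff_coprime.2 (hp.coprime_iff_not_dvd.2 hm).symm)
    refine hyM ?_
    have h1 : y = (y ^ m) ^ a * (y ^ p) ^ b := by
      rw [← zpow_natCast, ← zpow_natCast, ← zpow_mul, ← zpow_mul, ← zpow_add, mul_comm (m : ℤ),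
        mul_comm (p : ℤ), hab, zpow_one]
    exact h1 ▸ M.mul_mem (M.zpow_mem hxm a) (M.zpow_mem (hpow y) b)
  have hgen : Subgroup.zpowers x ⊔ commutator G = ⊤ := by
    rcases eq_top_or_exists_le_coatom (Subgroup.zpowers x ⊔ commutator G) with h1 | ⟨M', hM', hle⟩
    · exact h1
    · exact absurd (huniq M' hM' (le_sup_right.trans hle) ▸ (hle.trans' le_sup_left) (Subgroup.mem_zpowers x)) hxM
  obtain ⟨w, k, hk, hwk⟩ := Nat.exists_eq_pow_mul_and_not_dvd (Nat.card_pos (α := M)).ne' p hp.ne_one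
  have hMc : ∀ a ∈ M, ∀ b ∈ M, a * b = b * a := fun a ha b hb =>
    congrArg Subtype.val ((habel M hMn hM.1).is_comm.comm (⟨a, ha⟩ : M) ⟨b, hb⟩)
  let A : Subgroup G :=
    { carrier := {a | a ∈ M ∧ a ^ k = 1}
      one_mem' := ⟨M.one_mem, one_pow k⟩
      mul_mem' := fun {a b} ha hb => ⟨M.mul_mem ha.1 hb.1, by
        rw [(show Commute a b from hMc a ha.1 b hb.1).mul_pow, ha.2, hb.2, one_mul]⟩
      inv_mem' := fun {a} ha => ⟨M.inv_mem ha.1, by rw [inv_pow, ha.2, inv_one]⟩ }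
  haveI hAn : A.Normal := ⟨fun a ha g => ⟨hMn.conj_mem a ha.1 g, by rw [conj_pow, ha.2, mul_one, mul_inv_cancel]⟩⟩
  have hAp : ¬ p ∣ Nat.card A := by
    intro hd
    obtain ⟨a, ha⟩ := exists_prime_orderOf_dvd_card' (G := A) p hd
    rw [← Subgroup.orderOf_coe] at ha
    exact hk (ha ▸ orderOf_dvd_of_pow_eq_one a.2.2)
  have hQ : IsPGroup p (G ⧸ A) := by
    intro q
    obtain ⟨g, rfl⟩ := QuotientGroup.mk'_surjective A q
    refine ⟨w + 1, ?_⟩
    rw [← map_pow, QuotientGroup.mk'_apply, QuotientGroup.eq_one_iff]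
    refine ⟨?_, ?_⟩
    · rw [pow_succ', pow_mul]
      exact M.pow_mem (hpow g) _
    · rw [pow_succ', pow_mul, ← pow_mul, ← hwk]
      exact congrArg Subtype.val (pow_card_eq_one' (x := (⟨g ^ p, hpow g⟩ : M)))
  have htop : Subgroup.zpowers x ⊔ A = ⊤ := by
    have h1 : (Subgroup.zpowers x).map (QuotientGroup.mk' A) = ⊤ := by
      refine eq_top_of_sup_frattini (top_le_iff.1 ?_)
      rw [← Subgroup.map_top_of_surjective _ (QuotientGroup.mk'_surjective A), ← hgen, Subgroup.map_sup]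
      refine sup_le_sup_left ?_ _
      rw [commutator_def, Subgroup.map_commutator]
      exact le_trans (Subgroup.commutator_mono le_top le_top)
        ((commutator_def (G ⧸ A)).ge.trans (pgroup_commutator_le_frattini hQ))
    have h2 := congrArg (Subgroup.comap (QuotientGroup.mk' A)) h1
    rwa [comap_mk'_map, Subgroup.comap_top] at h2
  have hdis : Disjoint (Subgroup.zpowers x) A := by
    rw [disjoint_iff]
    refine inf_eq_bot_of_coprime ?_
    rw [Nat.card_zpowers, hxo]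
    exact (hp.coprime_iff_not_dvd.2 hAp).pow_left v
  have hdec : ∀ g : G, ∃ i : ℤ, ∃ a ∈ A, g = x ^ i * a := by
    intro g
    obtain ⟨s, hs, a, ha, rfl⟩ := Subgroup.mem_sup_of_normal_right.1 (htop ▸ Subgroup.mem_top g)
    obtain ⟨i, rfl⟩ := Subgroup.mem_zpowers_iff.1 hs
    exact ⟨i, a, ha, rfl⟩
  refine ⟨x, A, p, hp, hAn, ⟨⟨fun a b => Subtype.ext (hMc a a.2.1 b b.2.1)⟩⟩, ⟨v, hxo⟩, hAp, ?_, ?_, ?_⟩
  · refine Subgroup.isComplement'_of_disjoint_and_mul_eq_univ hdis ?_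
    rw [← Subgroup.mul_normal, htop]
    rfl
  · rw [Subgroup.mem_center_iff]
    intro g
    obtain ⟨i, a, ha, rfl⟩ := hdec g
    exact ((((Commute.refl x).zpow_left i).pow_right p).mul_left (hMc a ha.1 _ (hpow x))).eq
  -- fixed-point-freeness
  let φ : A →* A :=
    { toFun := fun a => ⟨x * a * x⁻¹ * (a : G)⁻¹, A.mul_mem (hAn.conj_mem a a.2 x) (A.inv_mem a.2)⟩
      map_one' := Subtype.ext (by simp)
      map_mul' := fun a b => Subtype.ext (by
        show x * ((a : G) * b) * x⁻¹ * ((a : G) * b)⁻¹ = x * a * x⁻¹ * (a : G)⁻¹ * (x * b * x⁻¹ * (b : G)⁻¹)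
        have h1 := hMc _ (M.mul_mem (hMn.conj_mem b b.2.1 x) (M.inv_mem b.2.1)) _ (M.inv_mem a.2.1)
        calc x * ((a : G) * b) * x⁻¹ * ((a : G) * b)⁻¹
            = (x * a * x⁻¹) * ((x * b * x⁻¹ * (b : G)⁻¹) * (a : G)⁻¹) := by group
          _ = _ := by rw [h1]; group) }
  suffices hsur : Function.Surjective φ by
    intro a ha ha1 e
    refine ha1 (congrArg Subtype.val ((Finite.injective_iff_surjective.2 hsur)
      (show φ ⟨a, ha⟩ = φ 1 from by
        rw [map_one]; exact Subtype.ext (by show x * a * x⁻¹ * a⁻¹ = 1; rw [e, mul_inv_cancel]))))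
  set I := φ.range.map A.subtype with hI
  have hIA : I ≤ A := Subgroup.map_subtype_le _
  set J := Subgroup.zpowers x ⊔ I with hJ
  have hxI : ∀ c ∈ I, x * c * x⁻¹ ∈ I := by
    rintro _ ⟨_, ⟨a, rfl⟩, rfl⟩
    refine ⟨φ ⟨x * a * x⁻¹, hAn.conj_mem a a.2 x⟩, ⟨_, rfl⟩, ?_⟩
    show x * (x * a * x⁻¹) * x⁻¹ * (x * (a : G) * x⁻¹)⁻¹ = x * (x * a * x⁻¹ * (a : G)⁻¹) * x⁻¹
    group
  have hJn : J.Normal := by
    rw [← Subgroup.normalizer_eq_top_iff, ← top_le_iff, ← htop, sup_le_iff, Subgroup.zpowers_le]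
    refine ⟨Subgroup.le_normalizer (H := J) (Subgroup.mem_sup_left (Subgroup.mem_zpowers x)), fun a ha => ?_⟩
    refine Subgroup.mem_normalizer_fintype fun z hz => ?_
    have hmap : J.map (MulAut.conj a).toMonoidHom ≤ J := by
      rw [hJ, Subgroup.map_sup, sup_le_iff, MonoidHom.map_zpowers, Subgroup.zpowers_le]
      refine ⟨?_, ?_⟩
      · show a * x * a⁻¹ ∈ _
        rw [show a * x * a⁻¹ = (x * a * x⁻¹ * a⁻¹)⁻¹ * x by group]
        exact Subgroup.mul_mem _ (Subgroup.inv_mem _ (Subgroup.mem_sup_right ⟨φ ⟨a, ha⟩, ⟨_, rfl⟩, rfl⟩))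
          (Subgroup.mem_sup_left (Subgroup.mem_zpowers x))
      · rintro _ ⟨c, hc, rfl⟩
        show a * c * a⁻¹ ∈ _
        rw [hMc a ha.1 c (hIA hc).1, mul_inv_cancel_right]
        exact Subgroup.mem_sup_right hc
    exact hmap (Subgroup.mem_map_of_mem _ hz)
  intro c
  by_cases hJt : J = ⊤
  · have hnor : Subgroup.zpowers x ≤ Subgroup.normalizer (I : Set G) := by
      rw [Subgroup.zpowers_le]
      exact Subgroup.mem_normalizer_fintype hxI
    obtain ⟨s, hs, d, hd, hsd⟩ : ∃ s ∈ Subgroup.zpowers x, ∃ d ∈ I, s * d = (c : G) := by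
      have h1 : (c : G) ∈ ((Subgroup.zpowers x ⊔ I : Subgroup G) : Set G) := by
        rw [← hJ, hJt]; trivial
      rw [Subgroup.coe_mul_of_left_le_normalizer_right _ _ hnor] at h1
      exact h1
    have hs1 : s = 1 := by
      have : s ∈ Subgroup.zpowers x ⊓ A := ⟨hs, by
        rw [show s = (c : G) * d⁻¹ by rw [← hsd, mul_inv_cancel_right]]
        exact A.mul_mem c.2 (A.inv_mem (hIA hd))⟩
      rwa [hdis.eq_bot, Subgroup.mem_bot] at this
    obtain ⟨e, he, hed⟩ := hd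
    obtain ⟨b, rfl⟩ := he
    exact ⟨b, Subtype.ext (by rw [← hsd, hs1, one_mul]; exact hed)⟩
  · exfalso
    refine hnn ?_
    have hall : ∀ a ∈ A, Commute x a := by
      intro a ha
      set d := x * a * x⁻¹ * a⁻¹ with hd
      have hdI : d ∈ J := Subgroup.mem_sup_right ⟨φ ⟨a, ha⟩, ⟨_, rfl⟩, rfl⟩
      have hxd : Commute x d := congrArg Subtype.val ((habel J hJn hJt).is_comm.comm
        (⟨x, Subgroup.mem_sup_left (Subgroup.mem_zpowers x)⟩ : J) ⟨d, hdI⟩)
      have hj : ∀ j : ℕ, x ^ j * a * (x ^ j)⁻¹ = d ^ j * a := by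
        intro j
        induction j with
        | zero => simp
        | succ j ihj =>
          rw [pow_succ', show x * x ^ j * a * (x * x ^ j)⁻¹ = x * (x ^ j * a * (x ^ j)⁻¹) * x⁻¹ by group,
            ihj, show x * (d ^ j * a) * x⁻¹ = (x * d ^ j) * (a * x⁻¹) by group, (hxd.pow_right j).eq,
            pow_succ, hd]
          group
      have h1 := hj (p ^ v)
      rw [← hxo, pow_orderOf_eq_one, one_mul, inv_one, mul_one] at h1
      have h2 : d ^ orderOf x = 1 := by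
        calc d ^ orderOf x = d ^ orderOf x * a * a⁻¹ := (mul_inv_cancel_right _ _).symm
          _ = 1 := by rw [← h1, mul_inv_cancel]
      have hd1 : d = 1 := by
        refine orderOf_eq_one_iff.1 (Nat.eq_one_of_dvd_coprimes
          ((hp.coprime_iff_not_dvd.2 hAp).pow_left v) (hxo ▸ orderOf_dvd_of_pow_eq_one h2) ?_)
        have hdA : d ∈ A := A.mul_mem (hAn.conj_mem a ha x) (A.inv_mem ha)
        have := orderOf_dvd_natCard (⟨d, hdA⟩ : A)
        rwa [← Subgroup.orderOf_coe] at this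
      exact mul_inv_eq_iff_eq_mul.1 (mul_inv_eq_one.1 (hd ▸ hd1))
    refine Subgroup.nilpotent_iff_lowerCentralSeries.2 ⟨1, ?_⟩
    rw [Subgroup.top_lowerCentralSeries_one, commutator_def, Subgroup.commutator_eq_bot_iff_le_centralizer]
    intro g _
    rw [Subgroup.mem_centralizer_iff]
    intro g' _
    obtain ⟨i, a, ha, rfl⟩ := hdec g
    obtain ⟨j, b, hb, rfl⟩ := hdec g'
    exact ((((Commute.refl x).zpow_zpow j i).mul_right ((hall a ha).zpow_left j)).mul_left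
      ((((hall b hb).symm.zpow_right i)).mul_right (hMc b hb.1 a ha.1))).eq


/-- Let G be a finite solvable non-nilpotent group. Every non-abelian subgroup of G is self-normalizing if and only if G is a semidirect product ⟨x⟩ ⋉ A in which ⟨x⟩ is a p-group for some prime p, A is a normal abelian subgroup of order prime to p, x^p is central in G, and x acts fixed-point-freely on A (no non-identity element of A commutes with x). -/
theorem result {G : Type*} [Group G] [Finite G]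
    [Group.IsSolvable G] (hnn : ¬ Group.IsNilpotent G) :
    (∀ H : Subgroup G, ¬ IsMulCommutative H → Subgroup.normalizer (H : Set G) = H) ↔
    ∃ (x : G) (A : Subgroup G) (p : ℕ), p.Prime ∧ A.Normal ∧ IsMulCommutative A ∧ (∃ k : ℕ, orderOf x = p ^ k) ∧
      ¬ p ∣ Nat.card A ∧ (Subgroup.zpowers x).IsComplement' A ∧ x ^ p ∈ Subgroup.center G ∧
      ∀ a : G, a ∈ A → a ≠ 1 → x * a * x⁻¹ ≠ a := by
  refine ⟨fun h => forward hnn h, ?_⟩
  rintro ⟨x, A, p, hp, hAn, hA, hk, -, hc, hz, hf⟩ H hH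
  exact backward x A p hp hAn hA hk hc hz hf H hH

end Cfsg.Agent.S4071
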