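import Cfsg.Statements.S4072
import Cfsg.Agent.Lib.FgsGrun
import Cfsg.Agent.Lib.CorePGroup

set_option autoImplicit false
open Cfsg

namespace Cfsg.Agent.S4072

open scoped commutatorElement

universe w

/-- Normalizer growth inside a finite `p`-group. -/
private theorem eq_of_self_normalizing {G : Type w} [Group G] [Finite G] {p : ℕ} [Fact p.Prime]
    {X S : Subgroup G} (hS : IsPGroup p S) (hXS : X ≤ S)
    (hX : S ⊓ Subgroup.normalizer (X : Set G) ≤ X) : X = S := by
  by_contra hne
  haveI := hS.isNilpotent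
  have hlt : X.subgroupOf S < ⊤ := lt_top_iff_ne_top.2 fun h =>
    hne (le_antisymm hXS (Subgroup.subgroupOf_eq_top.1 h))
  obtain ⟨x, hxN, hxX⟩ := SetLike.exists_of_lt
    (Group.normalizerCondition_of_isNilpotent _ hlt)
  refine hxX (hX (Subgroup.mem_inf.2 ⟨x.2, ?_⟩))
  rw [Subgroup.mem_normalizer_iff]
  intro y
  constructor
  · intro hy
    exact (Subgroup.mem_normalizer_iff.1 hxN ⟨y, hXS hy⟩).1 hy
  · intro hy
    have hyS : y ∈ S := by simpa [mul_assoc] using mul_mem (mul_mem (inv_mem x.2) (hXS hy)) x.2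
    exact (Subgroup.mem_normalizer_iff.1 hxN ⟨y, hyS⟩).2 hy

/-- Two non-commuting elements of order `p` of a `p`-group with abelian proper subgroups:
every central element of order `p` is a power of their commutator, and the derived subgroup is
generated by the commutator. -/
private theorem minimal_nonabelian {P : Type w} [Group P] [Finite P] {p : ℕ} [hp : Fact p.Prime]
    (hP : IsPGroup p P) (hab : ∀ X : Subgroup P, X ≠ ⊤ → IsMulCommutative X)
    {u v : P} (huv : ¬ Commute u v) :
    (u * v * u⁻¹ * v⁻¹) ^ p = 1 ∧ commutator P ≤ Subgroup.zpowers (u * v * u⁻¹ * v⁻¹) ∧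
      (u ^ p = 1 → v ^ p = 1 → ∀ z ∈ Subgroup.center P, z ^ p = 1 → z ≠ 1 →
        Subgroup.zpowers z = Subgroup.zpowers (u * v * u⁻¹ * v⁻¹)) := by
  set c := u * v * u⁻¹ * v⁻¹ with hc
  have hco : ∀ x : P, ¬ Subgroup.zpowers x = ⊤ := by
    intro x hx
    haveI : IsCyclic P := isCyclic_iff_exists_zpowers_eq_top.mpr ⟨x, hx⟩
    letI : CommGroup P := IsCyclic.commGroup
    exact huv (mul_comm u v)
  have hgen : Subgroup.closure ({u, v} : Set P) = ⊤ := by
    by_contra h
    have := (hab _ h).is_comm.comm ⟨u, Subgroup.subset_closure (by simp)⟩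
      ⟨v, Subgroup.subset_closure (by simp)⟩
    exact huv (congrArg Subtype.val this)
  have hmax : ∀ x : P, ∃ M : Subgroup P, x ∈ M ∧ M.Normal ∧ M.index = p ∧
      ∀ y ∈ M, Commute x y := by
    intro x
    obtain ⟨M, hM, hxM⟩ := (IsCoatomic.eq_top_or_exists_le_coatom _).resolve_left (hco x)
    obtain ⟨hn, hi⟩ := CfsgLib.Core.index_of_coatom_pgroup hP hM
    refine ⟨M, hxM (Subgroup.mem_zpowers x), hn, hi, fun y hy => ?_⟩
    exact congrArg Subtype.val
      ((hab M hM.1).is_comm.comm ⟨x, hxM (Subgroup.mem_zpowers x)⟩ ⟨y, hy⟩)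
  obtain ⟨A, huA, hAn, hAi, hA⟩ := hmax u
  obtain ⟨B, hvB, hBn, hBi, hB⟩ := hmax v
  have hcentral : ∀ x ∈ A, x ∈ B → x ∈ Subgroup.center P := by
    intro x hxA hxB
    have : Subgroup.closure ({u, v} : Set P) ≤ Subgroup.centralizer ({x} : Set P) := by
      rw [Subgroup.closure_le]
      rintro y hy
      rcases hy with rfl | rfl
      · exact Subgroup.mem_centralizer_singleton_iff.2 (hA x hxA).eq
      · exact Subgroup.mem_centralizer_singleton_iff.2 (hB x hxB).eq
    rw [hgen, top_le_iff] at this
    refine Subgroup.mem_center_iff.2 fun y => ?_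
    exact Subgroup.mem_centralizer_singleton_iff.1 (this ▸ Subgroup.mem_top y)
  have hcc : c ∈ Subgroup.center P := by
    refine hcentral c ?_ ?_
    · rw [hc, show u * v * u⁻¹ * v⁻¹ = u * (v * u⁻¹ * v⁻¹) by group]
      exact mul_mem huA (hAn.conj_mem _ (inv_mem huA) v)
    · exact mul_mem (hBn.conj_mem v hvB u) (inv_mem hvB)
  have hcc' : ∀ y : P, y * c = c * y := Subgroup.mem_center_iff.1 hcc
  -- powers
  have hpow : ∀ i : ℕ, u ^ i * v * (u ^ i)⁻¹ = c ^ i * v := by
    intro i
    induction i with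
    | zero => simp
    | succ i ih =>
      calc u ^ (i + 1) * v * (u ^ (i + 1))⁻¹ = u * (u ^ i * v * (u ^ i)⁻¹) * u⁻¹ := by
            rw [pow_succ']; group
        _ = u * (c ^ i * v) * u⁻¹ := by rw [ih]
        _ = c ^ i * (u * v * u⁻¹) := by
            rw [← mul_assoc u, ((show Commute u c from hcc' u).pow_right i).eq]; group
        _ = c ^ (i + 1) * v := by
            rw [pow_succ, mul_assoc (c ^ i)]
            congr 1
            rw [hc, inv_mul_cancel_right]
  have hupc : u ^ p ∈ Subgroup.center P := by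
    refine hcentral _ (pow_mem huA p) ?_
    rw [← hBi]
    haveI := hBn
    exact Subgroup.pow_index_mem B u
  have hcp : c ^ p = 1 := by
    have h1 := hpow p
    rw [← Subgroup.mem_center_iff.1 hupc v, mul_inv_cancel_right] at h1
    exact (mul_eq_right.1 h1.symm)
  haveI hKn : (Subgroup.zpowers c).Normal :=
    ⟨fun x hx g => by
      obtain ⟨k, rfl⟩ := Subgroup.mem_zpowers_iff.1 hx
      rw [((show Commute g c from hcc' g).zpow_right k).eq, mul_inv_cancel_right]
      exact hx⟩
  have hder : commutator P ≤ Subgroup.zpowers c := by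
    rw [← QuotientGroup.ker_mk' (Subgroup.zpowers c)]
    set π := QuotientGroup.mk' (Subgroup.zpowers c)
    have h1 : π u * π v = π v * π u := by
      have : π (u * v * u⁻¹ * v⁻¹) = 1 := (QuotientGroup.eq_one_iff c).2 (Subgroup.mem_zpowers c)
      rw [map_mul, map_mul, map_mul, map_inv, map_inv, mul_inv_eq_one, mul_inv_eq_iff_eq_mul]
        at this
      exact this
    have hcomm : ∀ x y : P, π x * π y = π y * π x := by
      have h3 : ∀ s ∈ ({u, v} : Set P), Subgroup.closure ({u, v} : Set P) ≤
          (Subgroup.centralizer ({π s} : Set _)).comap π := by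
        intro s hs
        rw [Subgroup.closure_le]
        intro t ht
        show π t ∈ Subgroup.centralizer ({π s} : Set _)
        rw [Subgroup.mem_centralizer_singleton_iff]
        rcases hs with rfl | rfl <;> rcases ht with rfl | rfl <;>
          first | rfl | exact h1 | exact h1.symm
      have h4 : ∀ x : P, Subgroup.closure ({u, v} : Set P) ≤
          (Subgroup.centralizer ({π x} : Set _)).comap π := by
        intro x
        rw [Subgroup.closure_le]
        intro s hs
        show π s ∈ Subgroup.centralizer ({π x} : Set _)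
        rw [Subgroup.mem_centralizer_singleton_iff]
        exact (Subgroup.mem_centralizer_singleton_iff.1 (h3 s hs (hgen ▸ Subgroup.mem_top x))).symm
      intro x y
      exact Subgroup.mem_centralizer_singleton_iff.1 (h4 y (hgen ▸ Subgroup.mem_top x))
    rw [commutator_eq_closure, Subgroup.closure_le]
    rintro _ ⟨x, y, rfl⟩
    show π _ = 1
    rw [commutatorElement_def, map_mul, map_mul, map_mul, map_inv, map_inv, hcomm x y,
      mul_inv_cancel_right, mul_inv_cancel]
  refine ⟨hcp, hder, fun hu hv z hz hzp hz1 => ?_⟩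
  have hzc := Subgroup.mem_center_iff.1 hz
  -- `z` lies in the cyclic group generated by `c`
  have hmem : z ∈ Subgroup.zpowers c := by
    -- `P = ⟨v, c⟩ ⟨u⟩`
    set N := Subgroup.zpowers v ⊔ Subgroup.zpowers c with hN
    haveI hNn : N.Normal := CfsgLib.Core.normal_of_commutator_le (hder.trans le_sup_right)
    have htop : Subgroup.zpowers u ⊔ N = ⊤ := by
      rw [eq_top_iff, ← hgen, Subgroup.closure_le]
      rintro y hy
      rcases hy with rfl | rfl
      · exact Subgroup.mem_sup_left (Subgroup.mem_zpowers y)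
      · exact Subgroup.mem_sup_right (Subgroup.mem_sup_left (Subgroup.mem_zpowers y))
    obtain ⟨a, ha, n, hn, hz'⟩ := Subgroup.mem_sup_of_normal_right.1 (htop ▸ Subgroup.mem_top z)
    obtain ⟨b, hb, w', hw', rfl⟩ := Subgroup.mem_sup_of_normal_right.1 hn
    obtain ⟨i, rfl⟩ : a ∈ Submonoid.powers u := mem_powers_iff_mem_zpowers.2 ha
    obtain ⟨j, rfl⟩ : b ∈ Submonoid.powers v := mem_powers_iff_mem_zpowers.2 hb
    beta_reduce at hz' ⊢
    have hw'' : ∀ y : P, Commute y w' := by
      intro y
      obtain ⟨k, rfl⟩ := Subgroup.mem_zpowers_iff.1 hw'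
      exact (show Commute y c from hcc' y).zpow_right k
    have hzy : ∀ y : P, Commute y z := fun y => hzc y
    have key : ∀ (x y : P) (i : ℕ), ¬ Commute x y → x ^ p = 1 → Commute (x ^ i) y → x ^ i = 1 := by
      intro x y i hxy hx hcom
      by_cases hpi : p ∣ i
      · obtain ⟨k, rfl⟩ := hpi
        rw [pow_mul, hx, one_pow]
      · exfalso
        have hord : orderOf x ∣ p := orderOf_dvd_of_pow_eq_one hx
        obtain ⟨k, hk⟩ := exists_pow_eq_self_of_coprime
          (Nat.Coprime.coprime_dvd_right hord ((hp.out.coprime_iff_not_dvd).2 hpi).symm)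
        exact hxy (hk ▸ hcom.pow_left k)
    have hi : u ^ i = 1 := by
      refine key u v i huv hu ?_
      have e : u ^ i = z * w'⁻¹ * (v ^ j)⁻¹ := by rw [← hz']; group
      rw [e]
      exact (((hzy v).symm.mul_left (hw'' v).symm.inv_left).mul_left
        ((Commute.refl v).pow_left j).inv_left)
    have hj : v ^ j = 1 := by
      refine key v u j (fun h => huv h.symm) hv ?_
      have e : v ^ j = z * w'⁻¹ := by rw [← hz', hi]; group
      rw [e]
      exact ((hzy u).symm.mul_left (hw'' u).symm.inv_left)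
    rw [← hz', hi, hj, one_mul, one_mul]
    exact hw'
  refine le_antisymm (Subgroup.zpowers_le.2 hmem) ?_
  have hzord : orderOf z = p := orderOf_eq_prime hzp hz1
  have hcord : orderOf c ∣ p := orderOf_dvd_of_pow_eq_one hcp
  have hle : Nat.card (Subgroup.zpowers c) ≤ Nat.card (Subgroup.zpowers z) := by
    rw [Nat.card_zpowers, Nat.card_zpowers, hzord]
    exact Nat.le_of_dvd hp.out.pos hcord
  exact (Subgroup.eq_of_le_of_card_ge (Subgroup.zpowers_le.2 hmem) hle).ge

set_option maxHeartbeats 400000 in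
private theorem main {G : Type w} [Group G] [Finite G]
    (hS : ∀ H : Subgroup G, ¬ IsMulCommutative H → Subgroup.normalizer (H : Set G) = H) :
    Group.IsSolvable G ∨ IsSimpleGroup G := by
  by_cases hsub : Subsingleton G
  · exact Or.inl inferInstance
  haveI : Nontrivial G := not_subsingleton_iff_nontrivial.1 hsub
  by_cases hsimp : ∀ N : Subgroup G, N.Normal → N = ⊥ ∨ N = ⊤
  · exact Or.inr ⟨hsimp⟩
  left
  push Not at hsimp
  obtain ⟨N₀, hN₀, hN₀b, hN₀t⟩ := hsimp
  have habn : ∀ N : Subgroup G, N.Normal → N ≠ ⊤ → IsMulCommutative N := by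
    intro N hN hNt
    by_contra h
    exact hNt ((hS N h).symm.trans (Subgroup.normalizer_eq_top_iff.2 hN))
  by_cases hperf : commutator G = ⊤
  swap
  · haveI := habn (commutator G) inferInstance hperf
    haveI : Group.IsSolvable ↥(commutator G) := Group.isSolvable_of_comm fun a b => this.is_comm.comm a b
    haveI : Group.IsSolvable (G ⧸ commutator G) := Group.isSolvable_of_comm fun a b =>
      mul_comm (G := Abelianization G) a b
    exact Group.isSolvable_of_ker_le_range (commutator G).subtype (QuotientGroup.mk' (commutator G))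
      (by rw [QuotientGroup.ker_mk', Subgroup.range_subtype])
  exfalso
  obtain ⟨M, ⟨hN₀M, hMn, hMt⟩, hMmax⟩ := (Set.toFinite {M : Subgroup G | N₀ ≤ M ∧ M.Normal ∧ M ≠ ⊤}).exists_maximal
    ⟨N₀, le_rfl, hN₀, hN₀t⟩
  haveI := hMn
  haveI hMab := habn M hMn hMt
  set π := QuotientGroup.mk' M with hπ
  have hsur : Function.Surjective π := QuotientGroup.mk'_surjective M
  haveI : Nontrivial (G ⧸ M) := QuotientGroup.nontrivial_iff.2 hMt
  have hsimple : ∀ Q : Subgroup (G ⧸ M), Q.Normal → Q = ⊥ ∨ Q = ⊤ := by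
    intro Q hQ
    by_cases hQt : Q.comap π = ⊤
    · exact Or.inr (by rw [← Subgroup.map_comap_eq_self_of_surjective hsur Q, hQt,
        Subgroup.map_top_of_surjective _ hsur])
    · have hle : M ≤ Q.comap π := fun m hm => by
        rw [Subgroup.mem_comap, hπ, QuotientGroup.mk'_apply, (QuotientGroup.eq_one_iff m).2 hm]
        exact one_mem Q
      have heq : Q.comap π = M :=
        le_antisymm (hMmax ⟨hN₀M.trans hle, inferInstance, hQt⟩ hle) hle
      refine Or.inl ?_
      rw [← Subgroup.map_comap_eq_self_of_surjective hsur Q, heq, hπ, QuotientGroup.map_mk'_self]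
  by_cases hcen : Subgroup.centralizer (M : Set G) = ⊤
  swap
  · -- the centraliser of `M` is `M`
    have hMC : M ≤ Subgroup.centralizer (M : Set G) :=
      Subgroup.le_centralizer_iff_isMulCommutative.2 hMab
    have hC : Subgroup.centralizer (M : Set G) = M :=
      le_antisymm (hMmax ⟨hN₀M.trans hMC, inferInstance, hcen⟩ hMC) hMC
    set p := (Nat.card (G ⧸ M)).minFac with hpdef
    have hq1 : Nat.card (G ⧸ M) ≠ 1 := Finite.one_lt_card.ne'
    haveI hp : Fact p.Prime := ⟨Nat.minFac_prime hq1⟩
    obtain ⟨x, hx⟩ := exists_prime_orderOf_dvd_card' (G := G ⧸ M) p (Nat.minFac_dvd _)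
    set Y := Subgroup.zpowers x with hY
    have hY1 : Y ≠ ⊥ := Subgroup.zpowers_ne_bot.2 fun h => by
      rw [h, orderOf_one] at hx; exact hp.out.ne_one hx.symm
    have hYp : IsPGroup p Y := IsPGroup.of_card (n := 1) (by rw [Nat.card_zpowers, hx, pow_one])
    have hnab : ¬ IsMulCommutative ↥(Y.comap π) := by
      intro h
      obtain ⟨g, rfl⟩ := hsur x
      have hg : g ∈ Subgroup.centralizer (M : Set G) := by
        refine Subgroup.mem_centralizer_iff.2 fun m hm => ?_
        have hmY : m ∈ Y.comap π := by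
          rw [Subgroup.mem_comap, hπ, QuotientGroup.mk'_apply, (QuotientGroup.eq_one_iff m).2 hm]
          exact one_mem Y
        exact congrArg Subtype.val (h.is_comm.comm ⟨m, hmY⟩ ⟨g, Subgroup.mem_zpowers (π g)⟩)
      rw [hC] at hg
      exact hY1 (Subgroup.zpowers_eq_bot.2 ((QuotientGroup.eq_one_iff g).2 hg))
    have hNY : Subgroup.normalizer (Y : Set (G ⧸ M)) = Y := by
      apply Subgroup.comap_injective hsur
      rw [Subgroup.comap_normalizer_eq_of_surjective Y hsur]
      exact hS _ hnab
    obtain ⟨S, hS'⟩ := hYp.exists_le_sylow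
    have hYS : Y = (S : Subgroup (G ⧸ M)) :=
      eq_of_self_normalizing S.2 hS' (inf_le_right.trans hNY.le)
    have hNC : Subgroup.normalizer ((S : Subgroup (G ⧸ M)) : Set (G ⧸ M)) ≤
        Subgroup.centralizer ((S : Subgroup (G ⧸ M)) : Set (G ⧸ M)) := by
      rw [← hYS, hNY]
      exact Subgroup.le_centralizer_iff_isMulCommutative.2 inferInstance
    have hc := MonoidHom.ker_transferSylow_isComplement' S hNC
    rcases hsimple _ (inferInstance : (MonoidHom.transferSylow S hNC).ker.Normal) with h | h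
    · -- then `G ⧸ M` is cyclic
      rw [h, Subgroup.isComplement'_bot_left] at hc
      have hall : ∀ a b : G ⧸ M, a * b = b * a := by
        intro a b
        have ha : a ∈ Y := by rw [hYS, hc]; trivial
        have hb : b ∈ Y := by rw [hYS, hc]; trivial
        obtain ⟨i, rfl⟩ := Subgroup.mem_zpowers_iff.1 ha
        obtain ⟨j, rfl⟩ := Subgroup.mem_zpowers_iff.1 hb
        exact ((Commute.refl x).zpow_zpow i j).eq
      refine hMt (top_le_iff.1 ?_)
      rw [← hperf, commutator_eq_closure, Subgroup.closure_le]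
      rintro _ ⟨a, b, rfl⟩
      refine (QuotientGroup.eq_one_iff _).1 ?_
      show π _ = 1
      rw [commutatorElement_def, map_mul, map_mul, map_mul, map_inv, map_inv, hall (π a) (π b),
        mul_inv_cancel_right, mul_inv_cancel]
    · rw [h, Subgroup.isComplement'_top_left] at hc
      exact hY1 (hYS.trans hc)
  -- `M` is central
  have hMZ : ∀ m ∈ M, ∀ g : G, g * m = m * g := fun m hm g =>
    (Subgroup.mem_centralizer_iff.1 (hcen ▸ Subgroup.mem_top g) m hm).symm
  have hMb : M ≠ ⊥ := fun h => hN₀b (le_bot_iff.1 (h ▸ hN₀M))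
  obtain ⟨p, hp, hpM⟩ := Nat.exists_prime_and_dvd
    (fun h => hMb (Subgroup.eq_bot_of_card_eq M h) : Nat.card M ≠ 1)
  haveI := Fact.mk hp
  obtain ⟨⟨z, hzM⟩, hz⟩ := exists_prime_orderOf_dvd_card' (G := M) p hpM
  rw [Subgroup.orderOf_mk] at hz
  have hz1 : z ≠ 1 := fun h => by rw [h, orderOf_one] at hz; exact hp.ne_one hz.symm
  have hzp : z ^ p = 1 := by rw [← hz]; exact pow_orderOf_eq_one z
  obtain ⟨P⟩ : Nonempty (Sylow p G) := inferInstance
  have hzP : z ∈ (P : Subgroup G) := by
    obtain ⟨Q, hQ⟩ := (IsPGroup.of_card (n := 1)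
      (by rw [Nat.card_zpowers, hz, pow_one]) : IsPGroup p ↥(Subgroup.zpowers z)).exists_le_sylow
    obtain ⟨g, hg⟩ := MulAction.exists_smul_eq G Q P
    rw [← hg]
    exact ⟨z, hQ (Subgroup.mem_zpowers z), by
      show g * z * g⁻¹ = z
      rw [hMZ z hzM g, mul_inv_cancel_right]⟩
  by_cases hPab : IsMulCommutative (P : Subgroup G)
  · -- transfer
    let _inst : CommGroup ↥(P : Subgroup G) :=
      { (inferInstance : Group ↥(P : Subgroup G)) with mul_comm := fun a b => hPab.is_comm.comm a b }
    have key : ∀ (k : ℕ) (g₀ : G), g₀⁻¹ * z ^ k * g₀ ∈ (P : Subgroup G) →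
        g₀⁻¹ * z ^ k * g₀ = z ^ k := fun k g₀ _ => by
      rw [mul_assoc, ← hMZ (z ^ k) (pow_mem hzM k) g₀, inv_mul_cancel_left]
    set f := MonoidHom.transfer (MonoidHom.id ↥(P : Subgroup G)) with hf
    have h0 : f z = 1 := by
      have hk : commutator G ≤ f.ker := Abelianization.commutator_subset_ker f
      exact hk (hperf ▸ Subgroup.mem_top z)
    rw [hf, MonoidHom.transfer_eq_pow _ z key] at h0
    have h1 : z ^ (P : Subgroup G).index = 1 := congrArg Subtype.val h0
    exact P.not_dvd_index (hz.symm.dvd.trans (orderOf_dvd_of_pow_eq_one h1))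
  · -- `P` is minimal nonabelian and self-normalising
    have hNP := hS _ hPab
    have hab : ∀ X : Subgroup ↥(P : Subgroup G), X ≠ ⊤ → IsMulCommutative X := by
      intro X hX
      by_contra h
      set X' := X.map (P : Subgroup G).subtype
      have h' : ¬ IsMulCommutative X' := by
        intro h''
        refine h ⟨⟨fun a b => Subtype.ext (Subtype.ext ?_)⟩⟩
        simpa using congrArg Subtype.val (h''.is_comm.comm
          ⟨(a : ↥(P : Subgroup G)), a, a.2, rfl⟩ ⟨(b : ↥(P : Subgroup G)), b, b.2, rfl⟩)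
      have := eq_of_self_normalizing P.2 (Subgroup.map_subtype_le X) (inf_le_right.trans (hS _ h').le)
      exact hX (Subgroup.map_injective (P : Subgroup G).subtype_injective
        (this.trans (by rw [← MonoidHom.range_eq_map, Subgroup.range_subtype])))
    set T : Set G := {a | a ∈ (P : Subgroup G) ∧ ∃ g : G,
      a ∈ ⁅(P : Subgroup G), (P : Subgroup G)⁆.map (MulAut.conj g).toMonoidHom}
    have hPT : (P : Subgroup G) ≤ Subgroup.closure T := by
      intro x hx
      refine CfsgLib.FgsGrun.mem_of_grun P (Subgroup.closure T) ?_ ?_ x hx (hperf ▸ Subgroup.mem_top x)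
      · intro a ha h
        rw [hNP] at h
        exact Subgroup.subset_closure ⟨ha, 1, a, h, by simp⟩
      · exact fun g a ha h => Subgroup.subset_closure ⟨ha, g, h⟩
    obtain ⟨a, ha, b, hb, hab'⟩ : ∃ a ∈ T, ∃ b ∈ T, ¬ Commute a b := by
      by_contra h
      push Not at h
      refine hPab ?_
      have h1 : ∀ s ∈ T, Subgroup.closure T ≤ Subgroup.centralizer ({s} : Set G) := fun s hs => by
        rw [Subgroup.closure_le]
        exact fun t ht => Subgroup.mem_centralizer_singleton_iff.2 (h t ht s hs).eq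
      refine ⟨⟨fun x y => Subtype.ext ?_⟩⟩
      have h2 : Subgroup.closure T ≤ Subgroup.centralizer ({y.1} : Set G) := by
        rw [Subgroup.closure_le]
        exact fun t ht => Subgroup.mem_centralizer_singleton_iff.2
          (Subgroup.mem_centralizer_singleton_iff.1 (h1 t ht (hPT y.2))).symm
      exact Subgroup.mem_centralizer_singleton_iff.1 (h2 (hPT x.2))
    obtain ⟨haP, g, hga⟩ := ha
    obtain ⟨hbP, g', hgb⟩ := hb
    set u : ↥(P : Subgroup G) := ⟨a, haP⟩
    set v : ↥(P : Subgroup G) := ⟨b, hbP⟩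
    have huv : ¬ Commute u v := fun h => hab' (congrArg Subtype.val h)
    obtain ⟨hcp, hder, hcenter⟩ := minimal_nonabelian P.2 hab huv
    set c : ↥(P : Subgroup G) := u * v * u⁻¹ * v⁻¹
    have hPc : ⁅(P : Subgroup G), (P : Subgroup G)⁆ ≤ Subgroup.zpowers (c : G) := by
      rw [← Subgroup.map_subtype_commutator]
      refine (Subgroup.map_mono hder).trans (le_of_eq ?_)
      rw [MonoidHom.map_zpowers]
      rfl
    have hcp' : (c : G) ^ p = 1 := congrArg Subtype.val hcp
    have hexp : ∀ (g s : G), s ∈ ⁅(P : Subgroup G), (P : Subgroup G)⁆.map (MulAut.conj g).toMonoidHom →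
        s ^ p = 1 := by
      rintro g s ⟨t, ht, rfl⟩
      obtain ⟨k, rfl⟩ := Subgroup.mem_zpowers_iff.1 (hPc ht)
      rw [← map_pow, ← zpow_natCast, zpow_comm, zpow_natCast, hcp', one_zpow, map_one]
    have hzc := hcenter (Subtype.ext (hexp g a hga)) (Subtype.ext (hexp g' b hgb)) ⟨z, hzP⟩
      (Subgroup.mem_center_iff.2 fun y => Subtype.ext (hMZ z hzM y))
      (Subtype.ext hzp) (fun h => hz1 (congrArg Subtype.val h))
    have hcM : (c : G) ∈ M := by
      have h1 : c ∈ Subgroup.zpowers (⟨z, hzP⟩ : ↥(P : Subgroup G)) := hzc ▸ Subgroup.mem_zpowers c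
      obtain ⟨k, hk⟩ := Subgroup.mem_zpowers_iff.1 h1
      rw [← hk]
      exact zpow_mem hzM k
    obtain ⟨t, ht, hta⟩ := hga
    have htM : t ∈ M := (Subgroup.zpowers_le.2 hcM) (hPc ht)
    refine hab' ?_
    rw [← hta]
    show Commute (g * t * g⁻¹) b
    rw [hMZ t htM g, mul_inv_cancel_right]
    exact (hMZ t htM b).symm

/-- A finite group in which every non-abelian subgroup is self-normalizing is solvable or simple. -/
theorem result {G : Type*} [Group G] [Finite G] (hS : ∀ H : Subgroup G, ¬ IsMulCommutative H → Subgroup.normalizer (H : Set G) = H) :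
    Group.IsSolvable G ∨ IsSimpleGroup G := by
  exact main hS

end Cfsg.Agent.S4072
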