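import Cfsg.Statements.S4074
import Cfsg.Agent.Lib.CoreBasic
import Mathlib.GroupTheory.SpecificGroups.Dihedral

set_option autoImplicit false
open Cfsg

namespace Cfsg.Agent.S4074

/-- For n > 2, every non-abelian subgroup of the dihedral group of order 2n is self-normalizing if and only if n = 4 or n is odd. -/
theorem result (n : ℕ) (hn : 2 < n) :
    (∀ H : Subgroup (DihedralGroup n), ¬ IsMulCommutative H → Subgroup.normalizer (H : Set (DihedralGroup n)) = H) ↔
    (n = 4 ∨ Odd n) := by
  constructor
  · intro h
    by_contra hc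
    push Not at hc
    obtain ⟨hn4, hodd⟩ := hc
    haveI : NeZero n := ⟨by omega⟩
    obtain ⟨m, hm⟩ := (Nat.not_odd_iff_even.1 hodd).two_dvd
    let K : Subgroup (DihedralGroup n) := Subgroup.closure {DihedralGroup.r 2, DihedralGroup.sr 0}
    have h2 : (2 : ZMod n) ≠ -2 := by
      intro e
      have h4 : ((4 : ℕ) : ZMod n) = 0 := by push_cast; linear_combination e
      rw [ZMod.natCast_eq_zero_iff] at h4
      have := Nat.le_of_dvd (by norm_num) h4
      omega
    have hna : ¬ IsMulCommutative K := fun hc => by
      have e := congrArg Subtype.val (hc.is_comm.comm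
        ⟨DihedralGroup.r 2, Subgroup.subset_closure (Set.mem_insert _ _)⟩
        ⟨DihedralGroup.sr 0, Subgroup.subset_closure (Set.mem_insert_of_mem _ rfl)⟩)
      change DihedralGroup.r 2 * DihedralGroup.sr 0 = DihedralGroup.sr 0 * DihedralGroup.r 2 at e
      rw [DihedralGroup.r_mul_sr, DihedralGroup.sr_mul_r, DihedralGroup.sr.injEq] at e
      exact h2 (by linear_combination (-1 : ZMod n) * e)
    let f : ZMod n →+* ZMod 2 := ZMod.castHom ⟨m, hm⟩ (ZMod 2)
    let φ : DihedralGroup n → ZMod 2 := fun x => match x with
      | DihedralGroup.r i => f i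
      | DihedralGroup.sr i => f i
    have hφ : ∀ x ∈ K, φ x = 0 := by
      intro x hx
      induction hx using Subgroup.closure_induction with
      | mem x hx =>
        rcases hx with rfl | rfl
        · show f 2 = 0; rw [map_ofNat]; rfl
        · show f 0 = 0; exact map_zero f
      | one => show f 0 = 0; exact map_zero f
      | mul x y _ _ hx hy =>
        rcases x with i | i <;> rcases y with j | j <;> change f i = 0 at hx <;> change f j = 0 at hy
        · show f (i + j) = 0; rw [map_add, hx, hy, add_zero]
        · show f (j - i) = 0; rw [map_sub, hx, hy, sub_zero]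
        · show f (i + j) = 0; rw [map_add, hx, hy, add_zero]
        · show f (j - i) = 0; rw [map_sub, hx, hy, sub_zero]
      | inv x _ hx =>
        rcases x with i | i <;> change f i = 0 at hx
        · show f (-i) = 0; rw [map_neg, hx, neg_zero]
        · exact hx
    have hr : DihedralGroup.r 1 ∈ Subgroup.normalizer (K : Set (DihedralGroup n)) := by
      have hfwd : ∀ g ∈ K, DihedralGroup.r 1 * g * (DihedralGroup.r 1)⁻¹ ∈ K := by
        intro g hg
        induction hg using Subgroup.closure_induction with
        | mem g hg =>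
          rcases hg with rfl | rfl
          · rw [DihedralGroup.r_mul_r, DihedralGroup.inv_r, DihedralGroup.r_mul_r,
              show (1 : ZMod n) + 2 + -1 = 2 by ring]
            exact Subgroup.subset_closure (Set.mem_insert _ _)
          · rw [DihedralGroup.r_mul_sr, DihedralGroup.inv_r, DihedralGroup.sr_mul_r,
              show (0 : ZMod n) - 1 + -1 = 0 + -2 by ring, ← DihedralGroup.sr_mul_r]
            refine K.mul_mem (Subgroup.subset_closure (Set.mem_insert_of_mem _ rfl)) ?_
            rw [← DihedralGroup.inv_r]
            exact K.inv_mem (Subgroup.subset_closure (Set.mem_insert _ _))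
        | one => simp [K.one_mem]
        | mul a b _ _ ha hb =>
          rw [show DihedralGroup.r 1 * (a * b) * (DihedralGroup.r 1)⁻¹ = (DihedralGroup.r 1 * a * (DihedralGroup.r 1)⁻¹) * (DihedralGroup.r 1 * b * (DihedralGroup.r 1)⁻¹) by group]
          exact K.mul_mem ha hb
        | inv a _ ha =>
          rw [show DihedralGroup.r 1 * a⁻¹ * (DihedralGroup.r 1)⁻¹ = (DihedralGroup.r 1 * a * (DihedralGroup.r 1)⁻¹)⁻¹ by group]
          exact K.inv_mem ha
      have hb := (Finite.injective_iff_bijective (f := fun g : K => (⟨_, hfwd g g.2⟩ : K))).1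
        fun a b e => Subtype.ext (by simpa using congrArg Subtype.val e)
      refine Subgroup.mem_normalizer_iff.2 fun g => ⟨hfwd g, fun hg => ?_⟩
      obtain ⟨z, hz⟩ := hb.2 ⟨_, hg⟩
      have hz' : DihedralGroup.r 1 * (z : DihedralGroup n) * (DihedralGroup.r 1)⁻¹ =
          DihedralGroup.r 1 * g * (DihedralGroup.r 1)⁻¹ := congrArg Subtype.val hz
      rw [mul_left_inj, mul_right_inj] at hz'
      exact hz' ▸ z.2
    rw [h K hna] at hr
    have := hφ _ hr
    change f 1 = 0 at this
    rw [map_one] at this
    exact one_ne_zero this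
  · rintro h H hH
    haveI : NeZero n := ⟨by omega⟩
    refine le_antisymm (fun x hx => ?_) Subgroup.le_normalizer
    rcases h with rfl | hodd
    · have hT : H = ⊤ := by
        by_contra hne
        haveI : Fact (Nat.Prime 2) := ⟨Nat.prime_two⟩
        have hc : Nat.card (DihedralGroup 4) = 2 ^ 3 := DihedralGroup.nat_card
        obtain ⟨k, hk, hke⟩ := (Nat.dvd_prime_pow Nat.prime_two).1 (hc ▸ H.card_subgroup_dvd_card)
        have hk3 : k ≠ 3 := fun e => hne (CfsgLib.Core.eq_top_of_card_ge (by rw [hc, hke, e]))
        interval_cases k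
        · haveI := (Nat.card_eq_one_iff_unique.1 hke).1
          exact hH ⟨⟨fun a b => Subsingleton.elim _ _⟩⟩
        · exact hH (isCyclic_of_prime_card (p := 2) hke).isMulCommutative
        · exact hH ⟨⟨IsPGroup.commutative_of_card_eq_prime_sq hke⟩⟩
        · exact hk3 rfl
      rw [hT]; exact Subgroup.mem_top x
    · obtain ⟨i, hi⟩ : ∃ i : ZMod n, DihedralGroup.sr i ∈ H := by
        by_contra hno
        push Not at hno
        refine hH ⟨⟨fun a b => Subtype.ext ?_⟩⟩
        obtain ⟨a, ha⟩ := a
        obtain ⟨b, hb⟩ := b
        rcases a with i | i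
        · rcases b with j | j
          · show DihedralGroup.r i * DihedralGroup.r j = DihedralGroup.r j * DihedralGroup.r i
            rw [DihedralGroup.r_mul_r, DihedralGroup.r_mul_r, add_comm]
          · exact absurd hb (hno j)
        · exact absurd ha (hno i)
      obtain ⟨l, hl⟩ := hodd
      have hrot : ∀ j : ZMod n, DihedralGroup.r j ∈ Subgroup.normalizer (H : Set (DihedralGroup n)) →
          DihedralGroup.r j ∈ H := by
        intro j hj
        have h1 : DihedralGroup.r j * DihedralGroup.sr i * (DihedralGroup.r j)⁻¹ * DihedralGroup.sr i ∈ H :=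
          H.mul_mem ((Subgroup.mem_normalizer_iff.1 hj _).1 hi) hi
        rw [DihedralGroup.r_mul_sr, DihedralGroup.inv_r, DihedralGroup.sr_mul_r, DihedralGroup.sr_mul_sr,
          show i - (i - j + -j) = j + j by ring, ← DihedralGroup.r_mul_r, ← pow_two] at h1
        have hp : (DihedralGroup.r j) ^ n = 1 := by
          rw [DihedralGroup.r_pow]
          simp
        have h2 : DihedralGroup.r j = ((DihedralGroup.r j) ^ 2) ^ (l + 1) := by
          rw [← pow_mul, show 2 * (l + 1) = n + 1 by omega, pow_succ, hp, one_mul]
        rw [h2]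
        exact H.pow_mem h1 _
      rcases x with j | j
      · exact hrot j hx
      · have h1 : DihedralGroup.sr i * DihedralGroup.sr j ∈ H := by
          rw [DihedralGroup.sr_mul_sr]
          refine hrot _ ?_
          rw [← DihedralGroup.sr_mul_sr]
          exact Subgroup.mul_mem _ (Subgroup.le_normalizer hi) hx
        exact (H.mul_mem_cancel_left hi).1 h1

end Cfsg.Agent.S4074
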