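import Cfsg.Statements.S4075
import Cfsg.Agent.Lib.CorePiClosed

set_option autoImplicit false
open Cfsg

namespace Cfsg.Agent.S4075

/-- Let G be a finite nilpotent group. Every non-abelian subgroup of G is self-normalizing if and only if G is abelian or G is a minimal non-abelian p-group for some prime p (non-abelian of prime-power order with every proper subgroup abelian). -/
theorem result {G : Type*} [Group G] [Finite G]
    [Group.IsNilpotent G] :
    (∀ H : Subgroup G, ¬ IsMulCommutative H → Subgroup.normalizer (H : Set G) = H) ↔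
    (IsMulCommutative G ∨ (IsPrimePow (Nat.card G) ∧ ¬ IsMulCommutative G ∧ ∀ H : Subgroup G, H ≠ ⊤ → IsMulCommutative H)) := by
  have hab : ∀ H : Subgroup G, IsMulCommutative G → IsMulCommutative H := fun H h =>
    ⟨⟨fun a b => Subtype.ext (h.is_comm.comm (a : G) b)⟩⟩
  constructor
  · intro h
    by_cases hG : IsMulCommutative G
    · exact Or.inl hG
    have hprop : ∀ H : Subgroup G, H ≠ ⊤ → IsMulCommutative H := fun H hH => by
      by_contra hn
      exact (Group.normalizerCondition_of_isNilpotent H (lt_top_iff_ne_top.2 hH)).ne (h H hn).symm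
    refine Or.inr ⟨?_, hG, hprop⟩
    by_contra hpp
    have hiff : Group.IsNilpotent G ↔ ∀ (p : ℕ) (_ : Fact p.Prime) (P : Sylow p G), (P : Subgroup G).Normal :=
      (Group.isNilpotent_of_finite_tfae (G := G)).out 0 3
    have hn := hiff.1 inferInstance
    have hone : Nat.card G ≠ 1 := fun h1 => hG ⟨⟨fun a b => by
      haveI := (Nat.card_eq_one_iff_unique.1 h1).1
      exact Subsingleton.elim _ _⟩⟩
    have hne : ∀ (p : ℕ) (_ : Fact p.Prime) (P : Sylow p G), (P : Subgroup G) ≠ ⊤ := by
      intro p hp P htop
      obtain ⟨k, hk⟩ := IsPGroup.iff_card.1 P.isPGroup'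
      rw [htop, Subgroup.card_top] at hk
      refine hpp ⟨p, k, hp.out.prime, Nat.pos_of_ne_zero fun h0 => hone (by rw [hk, h0, pow_zero]), hk.symm⟩
    have hcen : ∀ (p : ℕ) (_ : Fact p.Prime) (P : Sylow p G), (P : Subgroup G) ≤ Subgroup.center G := by
      intro p hp P x hx
      have hC : Subgroup.centralizer ({x} : Set G) = ⊤ := by
        refine CfsgLib.Core.PiClosed.eq_top_of_sylow fun q hq _ => ?_
        haveI := Fact.mk hq
        obtain ⟨Q⟩ : Nonempty (Sylow q G) := inferInstance
        refine ⟨Q, fun y hy => Subgroup.mem_centralizer_singleton_iff.2 ?_⟩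
        by_cases hqp : q = p
        · subst hqp
          haveI := (P.unique_of_normal (hn q hp P)).instSubsingleton
          rw [Subsingleton.elim Q P] at hy
          exact congrArg Subtype.val ((hprop _ (hne q hp P)).is_comm.comm ⟨y, hy⟩ ⟨x, hx⟩)
        · haveI := hn q (Fact.mk hq) Q
          haveI := hn p hp P
          exact Subgroup.commute_of_normal_of_disjoint _ _ inferInstance inferInstance
            (IsPGroup.disjoint_of_ne q p hqp _ _ Q.isPGroup' P.isPGroup') y x hy hx
      exact Subgroup.mem_center_iff.2 fun g =>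
        Subgroup.mem_centralizer_singleton_iff.1 (hC.symm ▸ Subgroup.mem_top g : g ∈ Subgroup.centralizer ({x} : Set G))
    have hZ : Subgroup.center G = ⊤ := CfsgLib.Core.PiClosed.eq_top_of_sylow fun q hq _ => by
      haveI := Fact.mk hq
      obtain ⟨Q⟩ : Nonempty (Sylow q G) := inferInstance
      exact ⟨Q, hcen q (Fact.mk hq) Q⟩
    exact hG ⟨⟨fun a b => Subgroup.mem_center_iff.1 (hZ ▸ Subgroup.mem_top b) a⟩⟩
  · rintro (h | ⟨-, hG, hprop⟩) H hH
    · exact absurd (hab H h) hH
    · have : H = ⊤ := by
        by_contra hne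
        exact hH (hprop H hne)
      rw [this, eq_top_iff]
      exact Subgroup.le_normalizer

end Cfsg.Agent.S4075
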