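import Cfsg.Statements.S4080
import Mathlib
import Cfsg.Agent.Lib.FgsHomocyclic

set_option autoImplicit false
open Cfsg

namespace Cfsg.Agent.S4080

/-- Let p > 3 be a prime and L the direct product of two cyclic groups of order p². Every automorphism of L of order p fixes every element of order p of L. -/
theorem result {p : ℕ} [Fact p.Prime] (hp : 3 < p)
    (a : MulAut (Multiplicative (ZMod (p ^ 2) × ZMod (p ^ 2)))) (ha : orderOf a = p)
    (x : Multiplicative (ZMod (p ^ 2) × ZMod (p ^ 2))) (hx : orderOf x = p) : a x = x := by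
  have hp' : p.Prime := Fact.out
  haveI : NeZero (p ^ 2) := ⟨pow_ne_zero _ hp'.ne_zero⟩
  have hdiv1 : ∀ c : ZMod (p ^ 2), p • c = 0 → ∃ d, c = p • d := by
    intro c hc
    obtain ⟨m, rfl⟩ : ∃ m : ℕ, (m : ZMod (p ^ 2)) = c := ⟨c.val, ZMod.natCast_rightInverse c⟩
    rw [nsmul_eq_mul, ← Nat.cast_mul, ZMod.natCast_eq_zero_iff, pow_two] at hc
    obtain ⟨d, rfl⟩ := Nat.dvd_of_mul_dvd_mul_left hp'.pos hc
    exact ⟨(d : ZMod (p ^ 2)), by rw [nsmul_eq_mul, ← Nat.cast_mul]⟩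
  have hdiv : ∀ y : ZMod (p ^ 2) × ZMod (p ^ 2), p • y = 0 → ∃ z, y = p • z := by
    rintro ⟨c, c'⟩ h
    obtain ⟨d, hd⟩ := hdiv1 c (congrArg Prod.fst h)
    obtain ⟨d', hd'⟩ := hdiv1 c' (congrArg Prod.snd h)
    exact ⟨(d, d'), Prod.ext hd hd'⟩
  have hkill : ∀ y : ZMod (p ^ 2) × ZMod (p ^ 2), (p * p) • y = 0 := by
    have h1 : ∀ c : ZMod (p ^ 2), (p * p) • c = 0 := fun c => by
      rw [nsmul_eq_mul, ← pow_two, ZMod.natCast_self, zero_mul]
    exact fun y => Prod.ext (h1 y.1) (h1 y.2)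
  let E : AddMonoid.End (ZMod (p ^ 2) × ZMod (p ^ 2)) := 
    { toFun := fun y => (a (Multiplicative.ofAdd y)).toAdd
      map_zero' := by simp
      map_add' := fun y z => by rw [ofAdd_add, map_mul, toAdd_mul] }
  have hEk : ∀ (k : ℕ) (y : ZMod (p ^ 2) × ZMod (p ^ 2)),
      (E ^ k) y = ((a ^ k) (Multiplicative.ofAdd y)).toAdd := by
    intro k
    induction k with
    | zero => intro y; rfl
    | succ k ih => intro y; exact ih (E y)
  have hE : E ^ p = 1 := AddMonoidHom.ext fun y => by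
    have h := hEk p y
    have h1 : a ^ p = 1 := orderOf_dvd_iff_pow_eq_one.mp ha.dvd
    rw [h1] at h
    exact h
  have hxp : p • x.toAdd = 0 := congrArg Multiplicative.toAdd (orderOf_dvd_iff_pow_eq_one.mp hx.dvd : x ^ p = 1)
  obtain ⟨y, hy⟩ := hdiv x.toAdd hxp
  have h := CfsgLib.Fgs.Homocyclic.smul_sub_eq_zero hp' hp
    (by rw [Nat.card_prod, Nat.card_zmod]; ring) hkill hdiv E hE y
  rw [smul_sub, ← map_nsmul E, ← hy, sub_eq_zero] at h
  exact Multiplicative.toAdd.injective h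

end Cfsg.Agent.S4080
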