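import Cfsg.Statements.S4081
import Cfsg.Agent.Lib.FgsSingerAction
import Cfsg.Agent.Lib.CoreFpfComplement
import Cfsg.Agent.Lib.CoreFitting
import Cfsg.Agent.Lib.CharBurnside

set_option autoImplicit false
set_option maxHeartbeats 1000000
open Cfsg

namespace Cfsg.Agent.S4081

open Subgroup CfsgLib.Core CfsgLib.ThreeOrbits
open scoped IsMulCommutative Pointwise

universe u

variable {G : Type u} [Group G]

theorem coset_decomp [Finite G] {P : Subgroup G} [P.Normal] {q : ℕ} (hidx : P.index = q) (hq : q.Prime) {x : G}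
    (hx : x ∉ P) (g : G) : ∃ a ∈ P, ∃ k : ℕ, k < q ∧ g = a * x ^ k := by
  haveI := Fact.mk hq
  have hc : Nat.card (G ⧸ P) = q := by rw [← Subgroup.index_eq_card, hidx]
  have hgen : Subgroup.zpowers (x : G ⧸ P) = ⊤ :=
    zpowers_eq_top_of_prime_card hc (fun h => hx ((QuotientGroup.eq_one_iff x).mp h))
  obtain ⟨k, hk⟩ := (mem_powers_iff_mem_zpowers (x := (x : G ⧸ P))).mpr (hgen ▸ Subgroup.mem_top (g : G ⧸ P))
  have hxq : (x : G ⧸ P) ^ q = 1 := by rw [← hc]; exact pow_card_eq_one'
  refine ⟨g * (x ^ (k % q))⁻¹, ?_, k % q, Nat.mod_lt _ hq.pos, by group⟩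
  rw [← QuotientGroup.eq_one_iff, QuotientGroup.mk_mul, QuotientGroup.mk_inv, QuotientGroup.mk_pow,
    ← pow_eq_pow_mod k hxq, show (x : G ⧸ P) ^ k = g from hk, mul_inv_cancel]

/-- The linear map given by an automorphism of an elementary abelian group. -/
noncomputable def lin {P : Subgroup G} [IsMulCommutative P] (p : ℕ) [Module (ZMod p) (Additive P)] (φ : MulAut P) :
    Module.End (ZMod p) (Additive P) :=
  (MonoidHom.toAdditive φ.toMonoidHom).toZModLinearMap p

theorem lin_apply {P : Subgroup G} [IsMulCommutative P] (p : ℕ) [Module (ZMod p) (Additive P)] (φ : MulAut P)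
    (v : Additive P) : lin p φ v = Additive.ofMul (φ v.toMul) := rfl

theorem lin_pow_apply {P : Subgroup G} [IsMulCommutative P] (p : ℕ) [Module (ZMod p) (Additive P)] (φ : MulAut P) :
    ∀ (k : ℕ) (v : Additive P), (lin p φ ^ k) v = Additive.ofMul ((φ ^ k) v.toMul)
  | 0, _ => rfl
  | k + 1, v => by
    rw [pow_succ', Module.End.mul_apply, lin_pow_apply p φ k, pow_succ' φ, lin_apply]
    rfl

theorem forward [Finite G] (hnpp : ¬ IsPrimePow (Nat.card G)) (hnt : Nat.card G ≠ 1)
    (h3 : Nat.card (MulAction.orbitRel.Quotient (MulAut G) G) = 3) :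
    ∃ (p q n : ℕ) (_ : Fact p.Prime) (_ : Fact q.Prime), p ≠ q ∧ 1 ≤ n ∧ Nat.card G = p ^ n * q ∧
      (∀ P : Sylow p G, (P : Subgroup G).Normal ∧ Cfsg.IsElementaryAbelian p (P : Subgroup G)) ∧
      orderOf (p : ZMod q) = q - 1 ∧
      ∀ x y : G, orderOf x = q → orderOf y = p → x * y * x⁻¹ ≠ y := by
  classical
  -- orbits
  have horb : ∀ (r s : ℕ) (a b g : G), r.Prime → s.Prime → r ≠ s → orderOf a = r → orderOf b = s → g ≠ 1 →
      ∃ α : MulAut G, g = α a ∨ g = α b := by
    intro r s a b g hr hs hrs ha hb hg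
    letI := Fintype.ofFinite (MulAction.orbitRel.Quotient (MulAut G) G)
    let c : G → MulAction.orbitRel.Quotient (MulAut G) G := fun y => Quotient.mk _ y
    have hc : ∀ y z : G, c y = c z → ∃ α : MulAut G, y = α z := fun y z h => by
      obtain ⟨α, hα⟩ := Quotient.exact h
      exact ⟨α, hα.symm⟩
    have hord : ∀ y z : G, c y = c z → orderOf y = orderOf z := fun y z h => by
      obtain ⟨α, hα⟩ := hc y z h
      rw [hα, MulEquiv.orderOf_eq]
    have hg1 : orderOf g ≠ 1 := fun e => hg (orderOf_eq_one_iff.mp e)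
    by_contra hcon
    push Not at hcon
    have hga : c g ≠ c a := fun h => by obtain ⟨α, hα⟩ := hc _ _ h; exact (hcon α).1 hα
    have hgb : c g ≠ c b := fun h => by obtain ⟨α, hα⟩ := hc _ _ h; exact (hcon α).2 hα
    have h1a : c 1 ≠ c a := fun h => by have := hord _ _ h; rw [orderOf_one, ha] at this; exact hr.one_lt.ne this
    have h1b : c 1 ≠ c b := fun h => by have := hord _ _ h; rw [orderOf_one, hb] at this; exact hs.one_lt.ne this
    have hab : c a ≠ c b := fun h => hrs (ha ▸ hb ▸ hord _ _ h)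
    have h1g : c 1 ≠ c g := fun h => by have := hord _ _ h; rw [orderOf_one] at this; exact hg1 this.symm
    have := Finset.card_le_univ ({c 1, c a, c b, c g} : Finset _)
    rw [← Nat.card_eq_fintype_card, h3] at this
    simp [h1a, h1b, hab, h1g, hga.symm, hgb.symm] at this
  have hone : Nat.card G ≠ 0 := Nat.card_pos.ne'
  obtain ⟨r, hr, hrd⟩ := Nat.exists_prime_and_dvd hnt
  obtain ⟨s, hs, hsr, hsd⟩ : ∃ s, s.Prime ∧ s ≠ r ∧ s ∣ Nat.card G := by
    by_contra h
    push Not at h
    apply hnpp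
    refine isPrimePow_iff_unique_prime_dvd.mpr ⟨r, ⟨hr, hrd⟩, fun s hs => ?_⟩
    by_contra hne
    exact h s hs.1 hne hs.2
  haveI := Fact.mk hr
  haveI := Fact.mk hs
  obtain ⟨a₀, ha₀⟩ := exists_prime_orderOf_dvd_card' r hrd
  obtain ⟨b₀, hb₀⟩ := exists_prime_orderOf_dvd_card' s hsd
  have hexp : ∀ g : G, g ≠ 1 → orderOf g = r ∨ orderOf g = s := fun g hg => by
    obtain ⟨α, h | h⟩ := horb r s a₀ b₀ g hr hs hsr.symm ha₀ hb₀ hg
    · left; rw [h, MulEquiv.orderOf_eq, ha₀]
    · right; rw [h, MulEquiv.orderOf_eq, hb₀]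
  have honly : ∀ t : ℕ, t.Prime → t ∣ Nat.card G → t = r ∨ t = s := fun t ht htd => by
    haveI := Fact.mk ht
    obtain ⟨g, hg⟩ := exists_prime_orderOf_dvd_card' t htd
    rw [← hg]
    exact hexp g fun e => by rw [e, orderOf_one] at hg; exact ht.one_lt.ne hg
  have hfac : Nat.card G = r ^ (Nat.card G).factorization r * s ^ (Nat.card G).factorization s := by
    refine Nat.eq_of_factorization_eq hone (Nat.mul_ne_zero (pow_ne_zero _ hr.ne_zero) (pow_ne_zero _ hs.ne_zero))
      fun t => ?_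
    rw [Nat.factorization_mul (pow_ne_zero _ hr.ne_zero) (pow_ne_zero _ hs.ne_zero), Finsupp.add_apply,
      hr.factorization_pow, hs.factorization_pow]
    by_cases h1 : t = r
    · subst h1; simp [Finsupp.single_eq_of_ne, hsr.symm]
    by_cases h2 : t = s
    · subst h2; simp [Finsupp.single_eq_of_ne, hsr]
    rw [Finsupp.single_eq_of_ne h1, Finsupp.single_eq_of_ne h2, add_zero]
    by_cases ht : t.Prime
    · exact Nat.factorization_eq_zero_of_not_dvd fun hd => (honly t ht hd).elim h1 h2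
    · exact Nat.factorization_eq_zero_of_not_prime _ ht
  haveI : Group.IsSolvable G := CfsgLib.Char.burnside_pq hr hs _ G _ _ rfl hfac
  haveI : Nontrivial G := Finite.one_lt_card_iff_nontrivial.mp (by omega)
  obtain ⟨p, hp, hpcore⟩ := exists_pCore_ne_bot (G := G)
  haveI := Fact.mk hp
  -- name the other prime
  have hpd : p ∣ Nat.card G := by
    haveI : Nontrivial (Cfsg.pCore p G) := (Subgroup.nontrivial_iff_ne_bot _).mpr hpcore
    obtain ⟨k, hk0, hk⟩ := (IsPGroup.nontrivial_iff_card (isPGroup_pCore (G := G) p)).1 inferInstance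
    exact (dvd_pow_self p hk0.ne').trans (hk ▸ Subgroup.card_subgroup_dvd_card _)
  obtain ⟨q, hq, hqp, hqd, hpq⟩ : ∃ q, q.Prime ∧ q ≠ p ∧ q ∣ Nat.card G ∧
      (∀ g : G, g ≠ 1 → orderOf g = p ∨ orderOf g = q) := by
    rcases honly p hp hpd with rfl | rfl
    · exact ⟨s, hs, hsr, hsd, hexp⟩
    · exact ⟨r, hr, hsr.symm, hrd, fun g hg => (hexp g hg).symm⟩
  haveI := Fact.mk hq
  set P := Cfsg.pCore p G with hP
  haveI hPn : P.Normal := normal_pCore p
  haveI hPc : P.Characteristic := characteristic_pCore p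
  have hPp : IsPGroup p P := isPGroup_pCore p
  obtain ⟨a, haP, ha⟩ : ∃ a ∈ P, orderOf a = p := by
    haveI : Nontrivial P := (Subgroup.nontrivial_iff_ne_bot _).mpr hpcore
    obtain ⟨k, hk0, hk⟩ := (IsPGroup.nontrivial_iff_card hPp).1 inferInstance
    obtain ⟨z, hz⟩ := exists_prime_orderOf_dvd_card' p (G := P) (hk ▸ dvd_pow_self p hk0.ne')
    exact ⟨z, z.2, by rw [Subgroup.orderOf_coe]; exact hz⟩
  obtain ⟨b, hb⟩ := exists_prime_orderOf_dvd_card' q hqd
  have hchar : ∀ (C : Subgroup G), C.Characteristic → ∀ c ∈ C, ∀ α : MulAut G, α c ∈ C := fun C hC c hc α => by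
    have := Subgroup.characteristic_iff_map_eq.mp hC α
    exact this ▸ Subgroup.mem_map_of_mem α.toMonoidHom hc
  have hmem : ∀ g : G, orderOf g = p → g ∈ P := by
    intro g hg
    obtain ⟨α, h | h⟩ := horb p q a b g hp hq hqp.symm ha hb (fun e => by rw [e, orderOf_one] at hg; exact hp.one_lt.ne hg)
    · exact h ▸ hchar P hPc a haP α
    · exfalso
      rw [h, MulEquiv.orderOf_eq, hb] at hg
      exact hqp hg
  have hPexp : ∀ g ∈ P, g ^ p = 1 := by
    intro g hg
    rcases eq_or_ne g 1 with rfl | hg1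
    · exact one_pow p
    rcases hpq g hg1 with h | h
    · rw [← h, pow_orderOf_eq_one]
    · exfalso
      obtain ⟨k, hk⟩ := IsPGroup.iff_orderOf.mp hPp ⟨g, hg⟩
      rw [Subgroup.orderOf_mk, h] at hk
      exact hqp ((Nat.prime_dvd_prime_iff_eq hq hp).mp (hq.dvd_of_dvd_pow (dvd_of_eq hk)))
  haveI hPcomm : IsMulCommutative P := by
    haveI : Nontrivial P := (Subgroup.nontrivial_iff_ne_bot _).mpr hpcore
    haveI := hPp.center_nontrivial
    obtain ⟨⟨⟨z, hz⟩, hzc⟩, hz1⟩ := exists_ne (1 : Subgroup.center P)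
    haveI : ((Subgroup.center P).map P.subtype).Characteristic := by
        refine Subgroup.characteristic_iff_map_le.mpr fun e => ?_
        rintro _ ⟨_, ⟨w, hw, rfl⟩, rfl⟩
        refine ⟨⟨e w, hchar P hPc _ w.2 e⟩, Subgroup.mem_center_iff.mpr fun u => Subtype.ext ?_, rfl⟩
        have := congrArg (fun t : P => e (t : G)) (Subgroup.mem_center_iff.mp hw ⟨e.symm u, hchar P hPc _ u.2 e.symm⟩)
        simpa using this
    refine ⟨⟨fun u v => ?_⟩⟩
    have hu : (u : G) ∈ (Subgroup.center P).map P.subtype := by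
      rcases eq_or_ne (u : G) 1 with h | h
      · rw [h]; exact Subgroup.one_mem _
      have hu' : orderOf (u : G) = p := orderOf_eq_prime (hPexp _ u.2) h
      have hz' : orderOf z = p := orderOf_eq_prime (hPexp _ hz)
        (fun e => hz1 (Subtype.ext (Subtype.ext e)))
      obtain ⟨α, h' | h'⟩ := horb p q z b u hp hq hqp.symm hz' hb h
      · exact h' ▸ hchar ((Subgroup.center P).map P.subtype) inferInstance z ⟨⟨z, hz⟩, hzc, rfl⟩ α
      · rw [h', MulEquiv.orderOf_eq, hb] at hu'; exact absurd hu' hqp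
    obtain ⟨w, hw, hwu⟩ := hu
    have : w = u := Subtype.ext hwu
    exact (Subgroup.mem_center_iff.mp (this ▸ hw) v).symm
  -- elements of order q act without fixed points
  have hfpf : ∀ x y : G, orderOf x = q → orderOf y = p → x * y * x⁻¹ ≠ y := by
    intro x y hx hy he
    have hc : Commute x y := mul_inv_eq_iff_eq_mul.mp he
    have hcop : (orderOf x).Coprime (orderOf y) := by rw [hx, hy]; exact (Nat.coprime_primes hq hp).mpr hqp
    have ho := hc.orderOf_mul_eq_mul_orderOf_of_coprime hcop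
    have hne : x * y ≠ 1 := fun e => by
      rw [e, orderOf_one, hx, hy] at ho
      exact hq.one_lt.ne' (Nat.eq_one_of_mul_eq_one_right ho.symm)
    rcases hpq _ hne with h | h <;> rw [ho, hx, hy] at h
    · exact hq.one_lt.ne' (Nat.mul_right_cancel hp.pos (h.trans (one_mul p).symm))
    · exact hp.one_lt.ne' (Nat.mul_left_cancel hq.pos (h.trans (mul_one q).symm))
  -- Sylow subgroups
  have hsyl : ∀ S : Sylow p G, (S : Subgroup G) = P := by
    intro S
    refine le_antisymm (fun g hg => ?_) (pCore_le_sylow S)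
    rcases eq_or_ne g 1 with rfl | hg1
    · exact P.one_mem
    refine hmem g ?_
    rcases hpq g hg1 with h | h
    · exact h
    · exfalso
      obtain ⟨k, hk⟩ := IsPGroup.iff_orderOf.mp S.2 ⟨g, hg⟩
      rw [Subgroup.orderOf_mk, h] at hk
      exact hqp ((Nat.prime_dvd_prime_iff_eq hq hp).mp (hq.dvd_of_dvd_pow (dvd_of_eq hk)))
  obtain ⟨Q⟩ : Nonempty (Sylow q G) := inferInstance
  have hQexp : ∀ g : (Q : Subgroup G), g ^ q = 1 := by
    intro g
    obtain ⟨k, hk⟩ := IsPGroup.iff_orderOf.mp Q.2 g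
    rcases eq_or_ne (g : G) 1 with h | h
    · rw [show g = 1 from Subtype.ext h, one_pow]
    rcases hpq _ h with h' | h' <;> rw [Subgroup.orderOf_coe] at h'
    · rw [h'] at hk
      exact absurd ((Nat.prime_dvd_prime_iff_eq hp hq).mp (hp.dvd_of_dvd_pow (dvd_of_eq hk))) hqp.symm
    · exact orderOf_dvd_iff_pow_eq_one.mp (dvd_of_eq h')
  have hQcard : Nat.card (Q : Subgroup G) = q := by
    rcases cyclic_or_quaternion_of_fpf (P := (Q : Subgroup G)) (K := P) Q.2
      (by rw [Subgroup.normalizer_eq_top_iff.mpr hPn]; exact le_top) hpcore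
      (fun g hg hg1 v hv hc => by
        by_contra hv1
        refine hfpf g v ?_ (orderOf_eq_prime (hPexp v hv) hv1) (mul_inv_eq_iff_eq_mul.mpr hc)
        exact orderOf_eq_prime (congrArg Subtype.val (hQexp ⟨g, hg⟩)) hg1) with hcyc | ⟨hq2, m, ⟨e⟩⟩
    · haveI := hcyc
      obtain ⟨g, hg⟩ := IsCyclic.exists_ofOrder_eq_natCard (α := (Q : Subgroup G))
      have h1 : orderOf g ∣ q := orderOf_dvd_of_pow_eq_one (hQexp g)
      rw [hg] at h1
      rcases (Nat.dvd_prime hq).mp h1 with h | h
      · exact absurd (Subgroup.card_eq_one.mp h) (Q.ne_bot_of_dvd_card hqd)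
      · exact h
    · exfalso
      haveI : NeZero (2 ^ m) := ⟨pow_ne_zero _ two_ne_zero⟩
      have h4 := QuaternionGroup.orderOf_xa (n := 2 ^ m) 0
      rw [← e.apply_symm_apply (QuaternionGroup.xa 0), MulEquiv.orderOf_eq] at h4
      have h1 := orderOf_dvd_of_pow_eq_one (hQexp (e.symm (QuaternionGroup.xa 0)))
      rw [h4, hq2] at h1
      exact absurd h1 (by norm_num)
  obtain ⟨n, hn⟩ := hPp.exists_card_eq
  have hcardG : Nat.card G = p ^ n * q := by
    obtain ⟨S⟩ : Nonempty (Sylow p G) := inferInstance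
    have hS : Nat.card P = p ^ (Nat.card G).factorization p := by rw [← hsyl S]; exact S.card_eq_multiplicity
    have hQ' : q = q ^ (Nat.card G).factorization q := hQcard.symm.trans Q.card_eq_multiplicity
    rw [← hn, hS]
    conv_rhs => rw [hQ']
    rcases honly p hp hpd with h1 | h1 <;> rcases honly q hq hqd with h2 | h2
    · exact absurd (h2.trans h1.symm) hqp
    · rw [h1, h2]; exact hfac
    · rw [h1, h2, mul_comm]; exact hfac
    · exact absurd (h2.trans h1.symm) hqp
  have hn1 : 1 ≤ n := by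
    by_contra h
    rw [show n = 0 by omega, pow_zero] at hn
    exact hpcore (Subgroup.card_eq_one.mp hn)
  refine ⟨p, q, n, ‹_›, ‹_›, hqp.symm, hn1, hcardG, fun S => ?_, ?_, hfpf⟩
  · rw [hsyl S]; exact ⟨hPn, hPcomm, hPexp⟩
  -- the primitive root
  have hidx : P.index = q := by
    have := P.index_mul_card
    rw [hn, hcardG, mul_comm] at this
    exact Nat.eq_of_mul_eq_mul_left (pow_pos hp.pos n) this
  have hxP : b ∉ P := fun h => by
    have := hPexp b h
    have h1 := orderOf_dvd_of_pow_eq_one this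
    rw [hb] at h1
    exact hqp ((Nat.prime_dvd_prime_iff_eq hq hp).mp h1)
  letI : Module (ZMod p) (Additive P) := AddCommGroup.zmodModule (n := p) fun v =>
    congrArg Additive.ofMul (Subtype.ext (hPexp _ v.toMul.2) : v.toMul ^ p = 1)
  haveI : Finite (Additive P) := inferInstanceAs (Finite P)
  haveI : Nontrivial (Additive P) := by
    haveI : Nontrivial P := (Subgroup.nontrivial_iff_ne_bot _).mpr hpcore
    infer_instance
  set ρ := lin p (MulAut.conjNormal (H := P) b) with hρ
  have hrest : ∀ α : MulAut G, ∃ β : P ≃* P, ∀ v : P, (β v : G) = α v := fun α =>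
    ⟨{ toFun := fun v => ⟨α v, hchar P hPc _ v.2 α⟩
       invFun := fun v => ⟨α.symm v, hchar P hPc _ v.2 α.symm⟩
       left_inv := fun v => Subtype.ext (α.symm_apply_apply _)
       right_inv := fun v => Subtype.ext (α.apply_symm_apply _)
       map_mul' := fun u v => Subtype.ext (map_mul α (u : G) (v : G)) }, fun v => rfl⟩
  have hlift : ∀ α : MulAut G, ∃ (k : ℕ) (L : Additive P ≃ₗ[ZMod p] Additive P), ¬ q ∣ k ∧
      (∀ u, L (ρ u) = (ρ ^ k) (L u)) ∧ (∃ a ∈ P, k < q ∧ α b = a * b ^ k) ∧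
      ∀ u : Additive P, ((L u).toMul : G) = α (u.toMul : G) := by
    intro α
    obtain ⟨c, hc, k, hk, hαb⟩ := coset_decomp hidx hq hxP (α b)
    obtain ⟨β, hβ⟩ := hrest α
    let L : Additive P ≃ₗ[ZMod p] Additive P :=
      { (MonoidHom.toAdditive β.toMonoidHom).toZModLinearMap p with
        invFun := fun v => Additive.ofMul (β.symm v.toMul)
        left_inv := fun v => congrArg Additive.ofMul (β.symm_apply_apply _)
        right_inv := fun v => congrArg Additive.ofMul (β.apply_symm_apply _) }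
    have hk0 : ¬ q ∣ k := by
      intro hd
      obtain rfl : k = 0 := Nat.eq_zero_of_dvd_of_lt hd hk
      rw [pow_zero, mul_one] at hαb
      have := orderOf_dvd_of_pow_eq_one (hPexp _ (hαb.symm ▸ hc : α b ∈ P))
      rw [MulEquiv.orderOf_eq, hb] at this
      exact hqp ((Nat.prime_dvd_prime_iff_eq hq hp).mp this)
    refine ⟨k, L, hk0, fun u => ?_, ⟨c, hc, hk, hαb⟩, fun u => hβ _⟩
    rw [lin_pow_apply]
    apply Additive.toMul.injective
    apply Subtype.ext
    show (β (MulAut.conjNormal (H := P) b u.toMul) : G) = ((MulAut.conjNormal (H := P) b ^ k) (β u.toMul) : P)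
    rw [← map_pow (MulAut.conjNormal (H := P)), MulAut.conjNormal_apply, hβ, MulAut.conjNormal_apply, map_mul,
      map_mul, map_inv, hαb, hβ, mul_inv_rev]
    have hw : b ^ k * α u.toMul * (b ^ k)⁻¹ ∈ P := hPn.conj_mem _ (hchar P hPc _ u.toMul.2 α) _
    calc c * b ^ k * α ↑u.toMul * ((b ^ k)⁻¹ * c⁻¹) = c * (b ^ k * α ↑u.toMul * (b ^ k)⁻¹) * c⁻¹ := by group
      _ = b ^ k * α ↑u.toMul * (b ^ k)⁻¹ := by
        rw [mul_inv_eq_iff_eq_mul]
        exact congrArg Subtype.val (mul_comm (⟨c, hc⟩ : P) ⟨_, hw⟩)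
  refine primitive_root_of_transitive hqp ρ ?_ ?_ ?_ ?_
  · refine LinearMap.ext fun v => ?_
    rw [hρ, lin_pow_apply, ← map_pow, ← hb, pow_orderOf_eq_one, map_one]
    rfl
  · intro v hv
    by_contra h
    have hv1 : (v.toMul : G) ≠ 1 := fun e => h (Additive.toMul.injective (Subtype.ext e))
    refine hfpf b v.toMul hb (orderOf_eq_prime (hPexp _ v.toMul.2) hv1) ?_
    have := congrArg (fun t : Additive P => (t.toMul : G)) hv
    rwa [hρ, lin_apply] at this
  · intro v w hv hw
    have hv1 : (v.toMul : G) ≠ 1 := fun e => hv (Additive.toMul.injective (Subtype.ext e))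
    have hw1 : (w.toMul : G) ≠ 1 := fun e => hw (Additive.toMul.injective (Subtype.ext e))
    have hvo : orderOf (v.toMul : G) = p := orderOf_eq_prime (hPexp _ v.toMul.2) hv1
    have hwo : orderOf (w.toMul : G) = p := orderOf_eq_prime (hPexp _ w.toMul.2) hw1
    obtain ⟨α, h | h⟩ := horb p q v.toMul b w.toMul hp hq hqp.symm hvo hb hw1
    · obtain ⟨k, L, hk, hL, -, hLv⟩ := hlift α
      exact ⟨k, L, hk, Additive.toMul.injective (Subtype.ext ((hLv v).trans h.symm)), hL⟩
    · rw [h, MulEquiv.orderOf_eq, hb] at hwo; exact absurd hwo hqp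
  · intro k hk
    have hbk : orderOf (b ^ k) = q := by
      rw [Nat.Coprime.orderOf_pow, hb]
      rw [hb]; exact (hq.coprime_iff_not_dvd.mpr hk)
    obtain ⟨α, h | h⟩ := horb p q a b (b ^ k) hp hq hqp.symm ha hb
      (fun e => by rw [e, orderOf_one] at hbk; exact hq.one_lt.ne hbk)
    · rw [h, MulEquiv.orderOf_eq, ha] at hbk; exact absurd hbk hqp.symm
    · obtain ⟨j, L, hj, hL, ⟨c, hc, hjq, hαb⟩, -⟩ := hlift α
      refine ⟨L, fun u => ?_⟩
      rw [hL]
      rw [← h] at hαb
      have hjk : j = k % q := by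
        have h1 : ((b : G ⧸ P)) ^ k = (b : G ⧸ P) ^ j := by
          rw [← QuotientGroup.mk_pow, hαb, QuotientGroup.mk_mul, (QuotientGroup.eq_one_iff c).mpr hc, one_mul,
            QuotientGroup.mk_pow]
        have ho : orderOf (b : G ⧸ P) = q := orderOf_eq_prime
          (by rw [← QuotientGroup.mk_pow, ← hb, pow_orderOf_eq_one, QuotientGroup.mk_one])
          (fun e => hxP ((QuotientGroup.eq_one_iff b).mp e))
        have := pow_eq_pow_iff_modEq.mp h1
        rw [ho] at this
        exact (this.trans rfl).symm.trans rfl |> fun h => (Nat.mod_eq_of_lt hjq).symm.trans h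
      have hρq : ρ ^ q = 1 := by
        refine LinearMap.ext fun v => ?_
        rw [hρ, lin_pow_apply, ← map_pow, ← hb, pow_orderOf_eq_one, map_one]
        rfl
      rw [hjk, ← pow_eq_pow_mod k hρq]

theorem backward [Finite G] (p q n : ℕ) [Fact p.Prime] [Fact q.Prime] (hpq : p ≠ q) (hn : 1 ≤ n)
    (hcard : Nat.card G = p ^ n * q)
    (hP : ∀ P : Sylow p G, (P : Subgroup G).Normal ∧ Cfsg.IsElementaryAbelian p (P : Subgroup G))
    (ho : orderOf (p : ZMod q) = q - 1) (hfpf : ∀ x y : G, orderOf x = q → orderOf y = p → x * y * x⁻¹ ≠ y) :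
    Nat.card (MulAction.orbitRel.Quotient (MulAut G) G) = 3 := by
  classical
  have hp : p.Prime := Fact.out
  have hq : q.Prime := Fact.out
  obtain ⟨S⟩ : Nonempty (Sylow p G) := inferInstance
  obtain ⟨hSn, hScomm, hSexp⟩ := hP S
  set P := (S : Subgroup G)
  haveI := hSn
  haveI := hScomm
  have hPcard : Nat.card P = p ^ n := by
    rw [S.card_eq_multiplicity, hcard, Nat.factorization_mul (pow_ne_zero _ hp.ne_zero) hq.ne_zero,
      Finsupp.add_apply, hp.factorization_pow, Finsupp.single_eq_same, hq.factorization,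
      Finsupp.single_eq_of_ne hpq, add_zero]
  have hidx : P.index = q := by
    have := P.index_mul_card
    rw [hPcard, hcard, mul_comm] at this
    exact Nat.eq_of_mul_eq_mul_left (pow_pos hp.pos n) this
  obtain ⟨x, hx⟩ := exists_prime_orderOf_dvd_card' q (G := G) (hcard ▸ dvd_mul_left q _)
  obtain ⟨a, ha⟩ := exists_prime_orderOf_dvd_card' p (G := G)
    (hcard ▸ dvd_mul_of_dvd_left (dvd_pow_self p (by omega)) q)
  have hnotP : ∀ y, orderOf y = q → y ∉ P := fun y hy h => by
    have h1 := orderOf_dvd_of_pow_eq_one (hSexp y h)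
    rw [hy] at h1
    exact hpq.symm ((Nat.prime_dvd_prime_iff_eq hq hp).mp h1)
  have hout : ∀ g, g ∉ P → orderOf g = q := by
    intro g hg
    have hgq : g ^ q ∈ P := by
      rw [← QuotientGroup.eq_one_iff, QuotientGroup.mk_pow, ← hidx, Subgroup.index_eq_card]
      exact pow_card_eq_one'
    refine orderOf_eq_prime ?_ (fun e => hg (e ▸ P.one_mem))
    by_contra hne
    obtain ⟨c, hc, k, hk, hgd⟩ := coset_decomp hidx hq (hnotP x hx) g
    have hk0 : k ≠ 0 := fun e => hg (by rw [hgd, e, pow_zero, mul_one]; exact hc)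
    have hxk : orderOf (x ^ k) = q := by
      rw [Nat.Coprime.orderOf_pow, hx]
      rw [hx]; exact hq.coprime_iff_not_dvd.mpr (Nat.not_dvd_of_pos_of_lt (Nat.pos_of_ne_zero hk0) hk)
    refine hfpf _ (g ^ q) hxk (orderOf_eq_prime (hSexp _ hgq) hne) ?_
    have h1 : g * g ^ q * g⁻¹ = g ^ q := by rw [← pow_succ', pow_succ, mul_inv_cancel_right]
    have h2 : c⁻¹ * g ^ q * c = g ^ q := by
      rw [mul_assoc, inv_mul_eq_iff_eq_mul]
      exact congrArg Subtype.val (mul_comm (⟨_, hgq⟩ : P) ⟨c, hc⟩)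
    have h3 : x ^ k = c⁻¹ * g := by rw [hgd, inv_mul_cancel_left]
    calc x ^ k * g ^ q * (x ^ k)⁻¹ = c⁻¹ * (g * g ^ q * g⁻¹) * c := by rw [h3]; group
      _ = g ^ q := by rw [h1, h2]
  letI : Module (ZMod p) (Additive P) := AddCommGroup.zmodModule (n := p) fun v =>
    congrArg Additive.ofMul (Subtype.ext (hSexp _ v.toMul.2) : v.toMul ^ p = 1)
  haveI : Finite (Additive P) := inferInstanceAs (Finite P)
  have hρq : ∀ y, orderOf y = q → lin p (MulAut.conjNormal (H := P) y) ^ q = 1 := fun y hy => by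
    refine LinearMap.ext fun v => ?_
    rw [lin_pow_apply, ← map_pow, ← hy, pow_orderOf_eq_one, map_one]
    rfl
  have hρfix : ∀ y, orderOf y = q → ∀ v, lin p (MulAut.conjNormal (H := P) y) v = v → v = 0 := by
    intro y hy v hv
    by_contra h
    refine hfpf y v.toMul hy (orderOf_eq_prime (hSexp _ v.toMul.2)
      (fun e => h (Additive.toMul.injective (Subtype.ext e)))) ?_
    exact congrArg (fun t : Additive P => (t.toMul : G)) hv
  -- automorphisms
  have haut : ∀ y y', orderOf y = q → orderOf y' = q → ∀ v w : P, v ≠ 1 → w ≠ 1 →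
      ∃ α : MulAut G, α y = y' ∧ α v = w := by
    intro y y' hy hy' v w hv hw
    obtain ⟨γ, hγv, hγ⟩ := exists_addEquiv_intertwine hpq.symm ho _ _ (hρq y hy) (hρq y' hy') (hρfix y hy)
      (hρfix y' hy') (v := Additive.ofMul v) (w := Additive.ofMul w) (by simpa using hv) (by simpa using hw)
    let β : P ≃* P :=
      { toFun := fun u => (γ (Additive.ofMul u)).toMul
        invFun := fun u => (γ.symm (Additive.ofMul u)).toMul
        left_inv := fun u => congrArg Additive.toMul (γ.symm_apply_apply _)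
        right_inv := fun u => congrArg Additive.toMul (γ.apply_symm_apply _)
        map_mul' := fun u u' => by rw [ofMul_mul, map_add]; rfl }
    have hβ : ∀ u : P, β (MulAut.conjNormal (H := P) y u) = MulAut.conjNormal (H := P) y' (β u) := fun u =>
      congrArg Additive.toMul (hγ (Additive.ofMul u))
    -- the graph
    let ι : P →* G × G := (P.subtype).prod (P.subtype.comp β.toMonoidHom)
    set Γ := ι.range ⊔ Subgroup.zpowers (y, y') with hΓ
    have hnorm : Subgroup.zpowers (y, y') ≤ Subgroup.normalizer (ι.range : Set (G × G)) := by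
      rw [Subgroup.zpowers_le, Subgroup.mem_normalizer_iff_map_conj_eq]
      have h : ∀ u : P, MulAut.conj ((y, y') : G × G) (ι u) = ι (MulAut.conjNormal (H := P) y u) := by
        intro u
        refine Prod.ext rfl ?_
        show y' * (β u : G) * y'⁻¹ = (β (MulAut.conjNormal (H := P) y u) : G)
        rw [hβ u]
        rfl
      ext z
      constructor
      · rintro ⟨_, ⟨u, rfl⟩, rfl⟩
        exact ⟨_, (h u).symm⟩
      · rintro ⟨u, rfl⟩
        refine ⟨ι ((MulAut.conjNormal (H := P) y).symm u), ⟨_, rfl⟩, ?_⟩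
        show MulAut.conj ((y, y') : G × G) _ = _
        rw [h, MulEquiv.apply_symm_apply]
    have hcardΓ : Nat.card Γ ≤ Nat.card G := by
      have hmul := Subgroup.coe_mul_of_left_le_normalizer_right _ _ hnorm
      have e : (Γ : Set (G × G)) = (Subgroup.zpowers (y, y') : Set (G × G)) * (ι.range : Set (G × G)) := by
        rw [hΓ, sup_comm]; exact hmul
      have hyy : orderOf ((y, y') : G × G) = q := by rw [Prod.orderOf]; simp [hy, hy']
      calc Nat.card Γ = Nat.card ((Subgroup.zpowers (y, y') : Set (G × G)) * (ι.range : Set (G × G)) : Set (G × G)) := by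
            rw [← e]; rfl
        _ ≤ Nat.card (Subgroup.zpowers (y, y')) * Nat.card ι.range := Set.natCard_mul_le
        _ = Nat.card G := by
          rw [Nat.card_zpowers, hyy, Nat.card_congr (MonoidHom.ofInjective (f := ι)
            (fun u u' h => Subtype.ext (congrArg Prod.fst h))).toEquiv.symm, hPcard, hcard, mul_comm]
    have hsurj : ∀ (z : G), orderOf z = q → ∀ f : G × G →* G, f.comp ι = P.subtype ∨ (∃ δ : P ≃* P, f.comp ι = P.subtype.comp δ.toMonoidHom) →
        f (y, y') = z → Function.Surjective (f.comp Γ.subtype) := by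
      intro z hz f hf hfy g
      obtain ⟨c, hc, k, -, rfl⟩ := coset_decomp hidx hq (hnotP z hz) g
      obtain ⟨u, hu⟩ : ∃ u : P, f (ι u) = c := by
        rcases hf with hf | ⟨δ, hf⟩
        · exact ⟨⟨c, hc⟩, DFunLike.congr_fun hf _⟩
        · exact ⟨δ.symm ⟨c, hc⟩, (DFunLike.congr_fun hf _).trans (by simp)⟩
      refine ⟨⟨ι u * (y, y') ^ k, Γ.mul_mem (Subgroup.mem_sup_left ⟨u, rfl⟩)
        (Γ.pow_mem (Subgroup.mem_sup_right (Subgroup.mem_zpowers _)) k)⟩, ?_⟩
      show f (ι u * (y, y') ^ k) = _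
      rw [map_mul, map_pow, hu, hfy]
    have h1 := hsurj y hy (MonoidHom.fst G G) (Or.inl rfl) rfl
    have h2 := hsurj y' hy' (MonoidHom.snd G G) (Or.inr ⟨β, rfl⟩) rfl
    have b1 : Function.Bijective ((MonoidHom.fst G G).comp Γ.subtype) :=
      (Nat.bijective_iff_surjective_and_card _).mpr ⟨h1, le_antisymm hcardΓ (Nat.card_le_card_of_surjective _ h1)⟩
    have b2 : Function.Bijective ((MonoidHom.snd G G).comp Γ.subtype) :=
      (Nat.bijective_iff_surjective_and_card _).mpr ⟨h2, le_antisymm hcardΓ (Nat.card_le_card_of_surjective _ h2)⟩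
    let e1 := MulEquiv.ofBijective _ b1
    let e2 := MulEquiv.ofBijective _ b2
    have key : ∀ s t : G, (s, t) ∈ Γ → (e1.symm.trans e2) s = t := by
      intro s t hst
      have : e1 ⟨(s, t), hst⟩ = s := rfl
      rw [MulEquiv.trans_apply, ← this, MulEquiv.symm_apply_apply]
      rfl
    refine ⟨e1.symm.trans e2, key _ _ (Subgroup.mem_sup_right (Subgroup.mem_zpowers _)), key _ _ ?_⟩
    refine Subgroup.mem_sup_left ⟨v, Prod.ext rfl ?_⟩
    show ((γ (Additive.ofMul v)).toMul : G) = w
    rw [hγv]; rfl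
  -- count
  letI := Fintype.ofFinite (MulAction.orbitRel.Quotient (MulAut G) G)
  let c : G → MulAction.orbitRel.Quotient (MulAut G) G := fun y => Quotient.mk _ y
  have hc : ∀ y z : G, c y = c z → orderOf y = orderOf z := fun y z h => by
    obtain ⟨α, hα⟩ := Quotient.exact h
    rw [← hα]
    exact MulEquiv.orderOf_eq α z
  have haP : a ∈ P := by
    by_contra h
    exact hpq (ha.symm.trans (hout a h))
  have huniv : (Finset.univ : Finset (MulAction.orbitRel.Quotient (MulAut G) G)) = {c 1, c a, c x} := by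
    refine (Finset.eq_univ_of_forall fun z => ?_).symm
    induction z using Quotient.ind with
    | _ g =>
      simp only [Finset.mem_insert, Finset.mem_singleton]
      rcases eq_or_ne g 1 with rfl | hg1
      · exact Or.inl rfl
      refine Or.inr ?_
      have ha1 : (⟨a, haP⟩ : P) ≠ 1 := fun e => by
        rw [show a = 1 from congrArg Subtype.val e, orderOf_one] at ha; exact hp.one_lt.ne ha
      by_cases hg : g ∈ P
      · left
        obtain ⟨α, -, hα⟩ := haut x x hx hx ⟨a, haP⟩ ⟨g, hg⟩ ha1 (fun e => hg1 (congrArg Subtype.val e))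
        exact Quotient.sound ⟨α, hα⟩
      · right
        obtain ⟨α, hα, -⟩ := haut x g hx (hout g hg) ⟨a, haP⟩ ⟨a, haP⟩ ha1 ha1
        exact Quotient.sound ⟨α, hα⟩
  have h1a : c 1 ≠ c a := fun h => by have := hc _ _ h; rw [orderOf_one, ha] at this; exact hp.one_lt.ne this
  have h1x : c 1 ≠ c x := fun h => by have := hc _ _ h; rw [orderOf_one, hx] at this; exact hq.one_lt.ne this
  have hax : c a ≠ c x := fun h => hpq (ha ▸ hx ▸ hc _ _ h)
  rw [Nat.card_eq_fintype_card, ← Finset.card_univ, huniv]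
  simp [h1a, h1x, hax]

/-- Let G be a finite group whose order is not a prime power. Then the automorphism group of G has exactly three orbits on G if and only if there are distinct primes p, q with #G = pⁿ·q (n ≥ 1) such that G has a normal elementary abelian Sylow p-subgroup P, p is a primitive root modulo q (the multiplicative order of p mod q is q − 1), and every element of order q of G acts on P without non-identity fixed points. -/
theorem result {G : Type*} [Group G] [Finite G] (hnpp : ¬ IsPrimePow (Nat.card G)) (hnt : Nat.card G ≠ 1) :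
    Nat.card (MulAction.orbitRel.Quotient (MulAut G) G) = 3 ↔
    ∃ (p q n : ℕ) (_ : Fact p.Prime) (_ : Fact q.Prime), p ≠ q ∧ 1 ≤ n ∧ Nat.card G = p ^ n * q ∧
      (∀ P : Sylow p G, (P : Subgroup G).Normal ∧ Cfsg.IsElementaryAbelian p (P : Subgroup G)) ∧
      orderOf (p : ZMod q) = q - 1 ∧
      ∀ x y : G, orderOf x = q → orderOf y = p → x * y * x⁻¹ ≠ y := by
  exact ⟨forward hnpp hnt, fun ⟨p, q, n, _, _, h1, h2, h3, h4, h5, h6⟩ => backward p q n h1 h2 h3 h4 h5 h6⟩

end Cfsg.Agent.S4081
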