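import Cfsg.Statements.S4084
import Mathlib

set_option autoImplicit false
open Cfsg

namespace Cfsg.Agent.S4084

theorem order_pq_transfer {A B : Type*} [Group A] [Finite A] [Group B] [Finite B] (e : A ≃ B)
    (he : ∀ x y : A, Commute x y ↔ Commute (e x) (e y)) {p q : ℕ} (hp : p.Prime) (hq : q.Prime)
    (hpq : p ≠ q) (hg : ∃ g : A, orderOf g = p * q) : ∃ h : B, orderOf h = p * q := by
  classical
  obtain ⟨g, hg⟩ := hg
  obtain ⟨S, hS, hmax⟩ := Set.Finite.exists_maximal
    (Set.toFinite {S : Set A | g ∈ S ∧ S.Pairwise Commute})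
    ⟨{g}, Set.mem_singleton g, Set.pairwise_singleton _ _⟩
  have hScomm : ∀ x ∈ S, ∀ y ∈ S, x * y = y * x := fun x hx y hy => by
    rcases eq_or_ne x y with rfl | hne
    · rfl
    · exact hS.2 hx hy hne
  haveI := Subgroup.isMulCommutative_closure hScomm
  have hScl : S = (Subgroup.closure S : Set A) := by
    refine Set.Subset.antisymm Subgroup.subset_closure (hmax ⟨Subgroup.subset_closure hS.1, ?_⟩ Subgroup.subset_closure)
    intro x hx y hy _
    exact congrArg Subtype.val (mul_comm' (⟨x, hx⟩ : Subgroup.closure S) ⟨y, hy⟩)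
  have hTcomm : ∀ x ∈ e '' S, ∀ y ∈ e '' S, x * y = y * x := by
    rintro _ ⟨x, hx, rfl⟩ _ ⟨y, hy, rfl⟩
    exact (he x y).mp (hScomm x hx y hy)
  haveI := Subgroup.isMulCommutative_closure hTcomm
  have hTcl : e '' S = (Subgroup.closure (e '' S) : Set B) := by
    refine Set.Subset.antisymm Subgroup.subset_closure fun b hb => ?_
    refine ⟨e.symm b, ?_, e.apply_symm_apply b⟩
    have hsub : S ⊆ e ⁻¹' (Subgroup.closure (e '' S) : Set B) := fun x hx => Subgroup.subset_closure ⟨x, hx, rfl⟩
    refine hmax ⟨hsub hS.1, ?_⟩ hsub (show e (e.symm b) ∈ _ by rwa [e.apply_symm_apply])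
    intro x hx y hy _
    exact (he x y).mpr (congrArg Subtype.val (mul_comm' (⟨e x, hx⟩ : Subgroup.closure (e '' S)) ⟨e y, hy⟩))
  have hcard : Nat.card (Subgroup.closure (e '' S)) = Nat.card (Subgroup.closure S) := by
    show Nat.card (Subgroup.closure (e '' S) : Set B) = Nat.card (Subgroup.closure S : Set A)
    rw [← hTcl, ← hScl, Nat.card_image_of_injective e.injective]
  have hdvd : p * q ∣ Nat.card (Subgroup.closure (e '' S)) := by
    rw [hcard, ← hg]
    have := orderOf_dvd_natCard (⟨g, Subgroup.subset_closure hS.1⟩ : Subgroup.closure S)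
    rwa [← Subgroup.orderOf_coe] at this
  haveI := Fact.mk hp
  haveI := Fact.mk hq
  obtain ⟨x, hx⟩ := exists_prime_orderOf_dvd_card' (G := Subgroup.closure (e '' S)) p ((dvd_mul_right p q).trans hdvd)
  obtain ⟨y, hy⟩ := exists_prime_orderOf_dvd_card' (G := Subgroup.closure (e '' S)) q ((dvd_mul_left q p).trans hdvd)
  refine ⟨((x * y : Subgroup.closure (e '' S)) : B), ?_⟩
  rw [Subgroup.orderOf_coe, (show Commute x y from mul_comm' x y).orderOf_mul_eq_mul_orderOf_of_coprime, hx, hy]
  rw [hx, hy]
  exact (Nat.coprime_primes hp hq).mpr hpq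

/-- Let G and H be finite groups whose commuting graphs are isomorphic: there is a bijection e : G → H with x, y commuting exactly when e(x), e(y) commute. Then G and H have the same prime graph: for distinct primes p, q, G has an element of order pq if and only if H does (and #G = #H, so the prime divisors agree). -/
theorem result {G H : Type*} [Group G] [Finite G] [Group H] [Finite H] (e : G ≃ H)
    (he : ∀ x y : G, Commute x y ↔ Commute (e x) (e y))
    {p q : ℕ} (hp : p.Prime) (hq : q.Prime) (hpq : p ≠ q) :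
    (∃ g : G, orderOf g = p * q) ↔ (∃ h : H, orderOf h = p * q) := by
  exact ⟨order_pq_transfer e he hp hq hpq, fun h => order_pq_transfer e.symm (fun x y => by simpa using (he (e.symm x) (e.symm y)).symm) hp hq hpq h⟩

end Cfsg.Agent.S4084
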