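import Cfsg.Statements.S4086
import Mathlib
import Cfsg.Agent.Lib.FgsCyclicSub


set_option autoImplicit false
open Cfsg

namespace Cfsg.Agent.S4086

/-- For a finite group G the following are equivalent: every non-identity element has prime-power order; whenever two elements generate a cyclic subgroup, one of them is a power of the other (the enhanced power graph of G coincides with its power graph). -/
theorem result {G : Type*} [Group G] [Finite G] :
    (∀ g : G, g ≠ 1 → IsPrimePow (orderOf g)) ↔
    (∀ x y : G, IsCyclic ↥(Subgroup.closure ({x, y} : Set G)) → (x ∈ Subgroup.zpowers y ∨ y ∈ Subgroup.zpowers x)) := by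
  constructor
  · intro h x y hc
    obtain ⟨g, hg⟩ := isCyclic_iff_exists_zpowers_eq_top.mp hc
    set c : G := (g : G) with hcdef
    have hgen : ∀ z ∈ Subgroup.closure ({x, y} : Set G), z ∈ Subgroup.zpowers c := by
      intro z hz
      have hzg : (⟨z, hz⟩ : Subgroup.closure ({x, y} : Set G)) ∈ Subgroup.zpowers g := by
        rw [hg]; exact Subgroup.mem_top _
      obtain ⟨i, hi⟩ := Subgroup.mem_zpowers_iff.mp hzg
      exact ⟨i, congrArg Subtype.val hi⟩
    by_cases hc1 : c = 1
    · left
      have := hgen x (Subgroup.subset_closure (Or.inl rfl))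
      rw [hc1, Subgroup.zpowers_one_eq_bot, Subgroup.mem_bot] at this
      rw [this]
      exact one_mem _
    obtain ⟨p, k, hp, -, hk⟩ := h c hc1
    have key : ∀ u ∈ Subgroup.zpowers c, ∀ v ∈ Subgroup.zpowers c, orderOf u ∣ orderOf v →
        u ∈ Subgroup.zpowers v := by
      intro u hu v hv hd
      haveI : IsCyclic (Subgroup.zpowers c) := Subgroup.isCyclic_zpowers c
      have hle : Nat.card (Subgroup.zpowers (⟨u, hu⟩ : Subgroup.zpowers c)) ∣
          Nat.card (Subgroup.zpowers (⟨v, hv⟩ : Subgroup.zpowers c)) := by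
        rwa [Nat.card_zpowers, Nat.card_zpowers, ← Subgroup.orderOf_coe, ← Subgroup.orderOf_coe]
      obtain ⟨i, hi⟩ := Subgroup.mem_zpowers_iff.mp
        (CfsgLib.Fgs.cyclic_le_of_card_dvd hle (Subgroup.mem_zpowers (⟨u, hu⟩ : Subgroup.zpowers c)))
      exact ⟨i, congrArg Subtype.val hi⟩
    have hx := hgen x (Subgroup.subset_closure (Or.inl rfl))
    have hy := hgen y (Subgroup.subset_closure (Or.inr rfl))
    obtain ⟨a, ha, hxa⟩ := (Nat.dvd_prime_pow hp.nat_prime).mp (hk ▸ orderOf_dvd_of_mem_zpowers hx)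
    obtain ⟨b, hb, hyb⟩ := (Nat.dvd_prime_pow hp.nat_prime).mp (hk ▸ orderOf_dvd_of_mem_zpowers hy)
    rcases le_total a b with hab | hab
    · exact Or.inl (key x hx y hy (by rw [hxa, hyb]; exact pow_dvd_pow p hab))
    · exact Or.inr (key y hy x hx (by rw [hxa, hyb]; exact pow_dvd_pow p hab))
  · intro h g hg
    rw [isPrimePow_iff_unique_prime_dvd]
    have hn1 : orderOf g ≠ 1 := fun e => hg (orderOf_eq_one_iff.mp e)
    obtain ⟨p, hp, hpd⟩ := Nat.exists_prime_and_dvd hn1
    refine ⟨p, ⟨hp, hpd⟩, fun q ⟨hq, hqd⟩ => ?_⟩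
    set n := orderOf g with hn
    have hn0 : n ≠ 0 := (orderOf_pos g).ne'
    have hox : ∀ r, r ∣ n → orderOf (g ^ (n / r)) = r := fun r hr => by
      rw [orderOf_pow_of_dvd (Nat.div_pos (Nat.le_of_dvd (Nat.pos_of_ne_zero hn0) hr)
        (Nat.pos_of_dvd_of_pos hr (Nat.pos_of_ne_zero hn0))).ne' (Nat.div_dvd_of_dvd hr), ← hn,
        Nat.div_div_self hr hn0]
    have hle : Subgroup.closure ({g ^ (n / p), g ^ (n / q)} : Set G) ≤ Subgroup.zpowers g := by
      rw [Subgroup.closure_le]
      rintro _ (rfl | rfl) <;> exact Subgroup.npow_mem_zpowers g _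
    haveI : IsCyclic (Subgroup.closure ({g ^ (n / p), g ^ (n / q)} : Set G)) :=
      isCyclic_of_injective (Subgroup.inclusion hle) (Subgroup.inclusion_injective hle)
    rcases h _ _ this with e | e
    · have := orderOf_dvd_of_mem_zpowers e
      rw [hox p hpd, hox q hqd] at this
      exact ((Nat.prime_dvd_prime_iff_eq hp hq).mp this).symm
    · have := orderOf_dvd_of_mem_zpowers e
      rw [hox p hpd, hox q hqd] at this
      exact (Nat.prime_dvd_prime_iff_eq hq hp).mp this

end Cfsg.Agent.S4086
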