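import Cfsg.Statements.S4089
import Cfsg.Agent.Lib.FgsSubnormalizer

set_option autoImplicit false
open Cfsg

namespace Cfsg.Agent.S4089

/-- Let G be a finite group, p a prime and H a p-subgroup of G. Then the set of elements g of G such that H is subnormal in the subgroup generated by H and g is the union of the normalizers N_G(R) over the subgroups R of G containing H with R = O_p(N_G(R)); and this set does not change when H is replaced by the intersection of all Sylow p-subgroups of G containing H. -/
theorem result {G : Type*} [Group G] [Finite G] (p : ℕ) [Fact p.Prime]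
    (H : Subgroup G) (hH : IsPGroup p H) :
    {g : G | ((H).subgroupOf (H ⊔ Subgroup.zpowers g)).IsSubnormal} =
      {g : G | ∃ R : Subgroup G, H ≤ R ∧ (Cfsg.pCore p (Subgroup.normalizer (R : Set G))).map (Subgroup.normalizer (R : Set G)).subtype = R ∧ g ∈ Subgroup.normalizer (R : Set G)} ∧
    ∀ g : G, (((H).subgroupOf (H ⊔ Subgroup.zpowers g)).IsSubnormal ↔
      (((sInf {K : Subgroup G | ∃ Q : Sylow p G, H ≤ (Q : Subgroup G) ∧ K = (Q : Subgroup G)})).subgroupOf ((sInf {K : Subgroup G | ∃ Q : Sylow p G, H ≤ (Q : Subgroup G) ∧ K = (Q : Subgroup G)}) ⊔ Subgroup.zpowers g)).IsSubnormal) := by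
  have hloc : ∀ R : Subgroup G,
      (Cfsg.pCore p (Subgroup.normalizer (R : Set G))).map (Subgroup.normalizer (R : Set G)).subtype = R →
      IsPGroup p R := fun R hR => hR ▸ CfsgLib.Subnormalizer.isPGroup_localCore R
  refine ⟨?_, fun g => ⟨fun h => ?_, fun h => ?_⟩⟩
  · ext g
    exact ⟨fun h => CfsgLib.Subnormalizer.normalizes_of_subnormal hH h,
      fun ⟨R, h1, h2, h3⟩ => CfsgLib.Subnormalizer.subnormal_of_normalizes (hloc R h2) h1 h3⟩
  · obtain ⟨R, h1, h2, h3⟩ := CfsgLib.Subnormalizer.normalizes_of_subnormal hH h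
    exact CfsgLib.Subnormalizer.subnormal_of_normalizes (hloc R h2)
      (CfsgLib.Subnormalizer.sylowClosure_le h1 h2) h3
  · obtain ⟨R, h1, h2, h3⟩ := CfsgLib.Subnormalizer.normalizes_of_subnormal
      (CfsgLib.Subnormalizer.isPGroup_sylowClosure hH) h
    exact CfsgLib.Subnormalizer.subnormal_of_normalizes (hloc R h2)
      ((CfsgLib.Subnormalizer.le_sylowClosure H).trans h1) h3

end Cfsg.Agent.S4089
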