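import Cfsg.Statements.S4092
import Mathlib
import Cfsg.Agent.Lib.CoreBasic

set_option autoImplicit false
open Cfsg
open scoped Pointwise

namespace Cfsg.Agent.S4092

/-- Let G be a finite group, p a prime and P a Sylow p-subgroup of G that is not normal in G. Then G has at least p·#P elements of p-power order (the identity included). -/
theorem result {G : Type*} [Group G] [Finite G] (p : ℕ) [Fact p.Prime]
    (P : Sylow p G) (hP : ¬ (P : Subgroup G).Normal) :
    p * Nat.card (P : Subgroup G) ≤ Nat.card {g : G // ∃ k : ℕ, orderOf g = p ^ k} := by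
  classical
  haveI := Fintype.ofFinite (Sylow p G)
  -- a pair of distinct Sylow subgroups with largest intersection
  have hne : ∃ z : Sylow p G × Sylow p G, z.1 ≠ z.2 := by
    by_contra hcon
    push Not at hcon
    haveI : Subsingleton (Sylow p G) := ⟨fun a b => hcon (a, b)⟩
    exact hP P.normal_of_subsingleton
  obtain ⟨⟨R, Q⟩, hRQ, hmax⟩ := Set.exists_max_image {z : Sylow p G × Sylow p G | z.1 ≠ z.2}
    (fun z => Nat.card ((z.1 : Subgroup G) ⊓ (z.2 : Subgroup G) : Subgroup G)) (Set.toFinite _) hne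
  simp only [Set.mem_setOf_eq] at hRQ hmax
  set D : Subgroup G := (R : Subgroup G) ⊓ (Q : Subgroup G) with hD
  have hmax' : ∀ A B : Sylow p G, A ≠ B → D ≤ (A : Subgroup G) → D ≤ (B : Subgroup G) →
      (A : Subgroup G) ⊓ (B : Subgroup G) = D := fun A B hAB hA hB =>
    (Subgroup.eq_of_le_of_card_ge (le_inf hA hB) (hmax (A, B) hAB)).symm
  have hDR : D < (R : Subgroup G) := by
    refine lt_of_le_of_ne inf_le_left fun e => hRQ ?_
    exact Sylow.ext (R.3 Q.isPGroup' (e ▸ inf_le_right)).symm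
  obtain ⟨u, huR, huN, huD⟩ : ∃ u ∈ (R : Subgroup G), u ∈ Subgroup.normalizer (D : Set G) ∧ u ∉ D := by
    haveI := R.isPGroup'.isNilpotent
    have hlt : D.subgroupOf (R : Subgroup G) < ⊤ := lt_top_iff_ne_top.mpr fun e =>
      hDR.not_ge (Subgroup.subgroupOf_eq_top.mp e)
    obtain ⟨u, hu1, hu2⟩ := SetLike.exists_of_lt (Group.normalizerCondition_of_isNilpotent _ hlt)
    refine ⟨u, u.2, ?_, fun h => hu2 (Subgroup.mem_subgroupOf.mpr h)⟩
    rw [Subgroup.mem_normalizer_iff]
    intro x
    constructor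
    · intro hx
      have := (Subgroup.mem_normalizer_iff.mp hu1 ⟨x, hDR.le hx⟩).mp (Subgroup.mem_subgroupOf.mpr hx)
      simpa [Subgroup.mem_subgroupOf] using this
    · intro hx
      have hxR : x ∈ (R : Subgroup G) := by
        have := mul_mem (mul_mem (inv_mem u.2) (hDR.le hx)) u.2
        simpa [mul_assoc] using this
      have := (Subgroup.mem_normalizer_iff.mp hu1 ⟨x, hxR⟩).mpr (by
        rw [Subgroup.mem_subgroupOf]; simpa using hx)
      simpa [Subgroup.mem_subgroupOf] using this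
  set U := Subgroup.zpowers u with hU
  have hUR : U ≤ (R : Subgroup G) := Subgroup.zpowers_le.mpr huR
  have hUN : U ≤ Subgroup.normalizer (D : Set G) := Subgroup.zpowers_le.mpr huN
  have hUp : IsPGroup p U := R.isPGroup'.to_le hUR
  set O := MulAction.orbit U Q with hO
  have hOD : ∀ A ∈ O, D ≤ ((A : Sylow p G) : Subgroup G) ∧ A ≠ R := by
    rintro _ ⟨⟨g, hg⟩, rfl⟩
    constructor
    · intro x hx
      show x ∈ MulAut.conj g • (Q : Subgroup G)
      rw [CfsgLib.Core.mem_conj_smul]
      exact (inf_le_right : D ≤ (Q : Subgroup G)) (by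
        have := (Subgroup.mem_normalizer_iff.mp (inv_mem (hUN hg)) x).mp hx
        rw [inv_inv] at this
        exact this)
    · intro e
      apply hRQ
      have e' : g • Q = R := e
      have hg' : g • R = R := Sylow.smul_eq_iff_mem_normalizer.mpr (Subgroup.le_normalizer (hUR hg))
      exact (MulAction.injective g (e'.trans hg'.symm)).symm
  have hOcard : p ≤ O.ncard := by
    obtain ⟨k, hk⟩ := hUp.card_orbit Q
    rw [← Nat.card_coe_set_eq, hO, hk]
    rcases Nat.eq_zero_or_pos k with rfl | hk0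
    · exfalso
      apply huD
      rw [pow_zero, Nat.card_eq_one_iff_unique] at hk
      haveI := hk.1
      have hfix : u • Q = Q := congrArg Subtype.val (Subsingleton.elim
        (⟨u • Q, ⟨⟨u, Subgroup.mem_zpowers u⟩, rfl⟩⟩ : MulAction.orbit U Q) ⟨Q, MulAction.mem_orbit_self Q⟩)
      have h1 : u ∈ (R : Subgroup G) ⊓ Subgroup.normalizer (Q : Set G) :=
        ⟨huR, Sylow.smul_eq_iff_mem_normalizer.mp hfix⟩
      rwa [R.isPGroup'.inf_normalizer_sylow Q] at h1
    · exact Nat.le_self_pow hk0.ne' p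
  set S : Set (Sylow p G) := insert R O with hS
  have hScard : p + 1 ≤ S.ncard := by
    rw [hS, Set.ncard_insert_of_notMem (fun h => (hOD R h).2 rfl)]
    omega
  have hSD : ∀ A ∈ S, D ≤ (A : Subgroup G) := by
    rintro A (rfl | hA)
    · exact inf_le_left
    · exact (hOD A hA).1
  let f : (Σ A : S, {x : G // x ∈ ((A : Sylow p G) : Subgroup G) ∧ x ∉ D}) ⊕ D →
      {g : G // ∃ k : ℕ, orderOf g = p ^ k} := fun s =>
    match s with
    | Sum.inl ⟨A, x⟩ => ⟨x.1, by
        obtain ⟨k, hk⟩ := IsPGroup.iff_orderOf.mp (A : Sylow p G).isPGroup' ⟨x.1, x.2.1⟩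
        exact ⟨k, (Subgroup.orderOf_coe _).trans hk⟩⟩
    | Sum.inr x => ⟨x.1, by
        obtain ⟨k, hk⟩ := IsPGroup.iff_orderOf.mp R.isPGroup' ⟨x.1, (inf_le_left : D ≤ (R : Subgroup G)) x.2⟩
        exact ⟨k, by rw [← hk, Subgroup.orderOf_mk]⟩⟩
  have hf : Function.Injective f := by
    rintro (⟨A, x⟩ | x) (⟨B, y⟩ | y) h <;> have h' := congrArg Subtype.val h <;> simp only [f] at h'
    · have hAB : A = B := by
        by_contra hne
        apply x.2.2
        exact (hmax' A.1 B.1 (fun e => hne (Subtype.ext e)) (hSD _ A.2) (hSD _ B.2)).le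
          ⟨x.2.1, by rw [h']; exact y.2.1⟩
      subst hAB
      rw [Subtype.ext h']
    · exact absurd (h' ▸ y.2) x.2.2
    · exact absurd (h'.symm ▸ x.2) y.2.2
    · rw [Subtype.ext h']
  have hcount := Nat.card_le_card_of_injective f hf
  haveI := Fintype.ofFinite S
  rw [Nat.card_sum, Nat.card_sigma] at hcount
  set P₀ := Nat.card (P : Subgroup G) with hP₀
  set d := Nat.card D with hd
  have hsum : ∀ A : S, Nat.card {x : G // x ∈ ((A : Sylow p G) : Subgroup G) ∧ x ∉ D} = P₀ - d := by
    intro A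
    have hcard : Nat.card ((A : Sylow p G) : Subgroup G) = P₀ := by
      rw [hP₀, (A : Sylow p G).card_eq_multiplicity, P.card_eq_multiplicity]
    have hsd : (D : Set G) ⊆ (((A : Sylow p G) : Subgroup G) : Set G) := hSD _ A.2
    have h2 := Set.ncard_sdiff hsd
    rw [← Nat.card_coe_set_eq, ← Nat.card_coe_set_eq, ← Nat.card_coe_set_eq] at h2
    rw [← hcard, hd]
    exact h2
  rw [Finset.sum_congr rfl fun A _ => hsum A, Finset.sum_const, smul_eq_mul, Finset.card_univ,
    ← Nat.card_eq_fintype_card, Nat.card_coe_set_eq] at hcount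
  have hdp : p * d ≤ P₀ := by
    obtain ⟨k, hk⟩ := (R.isPGroup'.to_le (inf_le_left : D ≤ (R : Subgroup G))).exists_card_eq
    obtain ⟨m, hm⟩ := R.isPGroup'.exists_card_eq
    have hR : Nat.card (R : Subgroup G) = P₀ := by rw [hP₀, R.card_eq_multiplicity, P.card_eq_multiplicity]
    have hlt : d < Nat.card (R : Subgroup G) :=
      lt_of_le_of_ne (Subgroup.card_le_of_le hDR.le) fun e =>
        hDR.ne (Subgroup.eq_of_le_of_card_ge hDR.le e.ge)
    rw [hm, hd, hk] at hlt
    rw [← hR, hm, hd, hk, ← pow_succ']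
    exact Nat.pow_le_pow_right (Fact.out : p.Prime).pos ((Nat.pow_lt_pow_iff_right (Fact.out : p.Prime).one_lt).mp hlt)
  obtain ⟨c, hc⟩ : ∃ c, P₀ = d + c := ⟨P₀ - d, by
    have : d ≤ p * d := Nat.le_mul_of_pos_left _ (Fact.out : p.Prime).pos
    omega⟩
  rw [hc, Nat.add_sub_cancel_left] at hcount
  rw [hc] at hdp ⊢
  calc p * (d + c) = p * d + p * c := by ring
    _ ≤ (d + c) + p * c := by omega
    _ = (p + 1) * c + d := by ring
    _ ≤ S.ncard * c + d := by gcongr
    _ ≤ _ := hcount

end Cfsg.Agent.S4092
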