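import Cfsg.Statements.S4093
import Mathlib

set_option autoImplicit false
open scoped BigOperators
open Cfsg

namespace Cfsg.Agent.S4093

/-- Let G be a finite group with a normal subgroup N complementing a Sylow p-subgroup P (a normal p-complement). Then the number of elements of G of p-power order equals the sum over x ∈ P of the index of C_N(x) in N. -/
theorem result {G : Type*} [Group G] [Finite G] (p : ℕ) [Fact p.Prime]
    (P : Sylow p G) (N : Subgroup G) [N.Normal] (hNP : N.IsComplement' (P : Subgroup G)) :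
    Nat.card {g : G // ∃ k : ℕ, orderOf g = p ^ k} =
      ∑ᶠ x : (P : Subgroup G), Nat.card N / Nat.card ↥(N ⊓ Subgroup.centralizer ({(x : G)} : Set G)) := by
  classical
  set T := (P : Subgroup G)
  have hproj : ∀ (n : G), n ∈ N → ∀ (a b : G), a ∈ T → b ∈ T → ∀ m ∈ N, n * a = m * b → a = b := by
    intro n hn a b ha hb m hm e
    have h1 : m⁻¹ * n = b * a⁻¹ := by
      rw [eq_mul_inv_iff_mul_eq, mul_assoc, e, inv_mul_cancel_left]
    have h2 : b * a⁻¹ ∈ N ⊓ T := Subgroup.mem_inf.mpr ⟨h1 ▸ mul_mem (inv_mem hm) hn, mul_mem hb (inv_mem ha)⟩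
    rw [disjoint_iff.mp hNP.disjoint, Subgroup.mem_bot, mul_inv_eq_one] at h2
    exact h2.symm
  let O : T → Type _ := fun x => {g : G // ∃ m ∈ N, m * x * m⁻¹ = g}
  have hO : ∀ x : T, Nat.card (O x) = Nat.card N / Nat.card ↥(N ⊓ Subgroup.centralizer ({(x : G)} : Set G)) := by
    intro x
    set C := (N ⊓ Subgroup.centralizer ({(x : G)} : Set G)).subgroupOf N
    let f : N → O x := fun m => ⟨(m : G) * x * (m : G)⁻¹, m, m.2, rfl⟩
    have hf : ∀ m m' : N, f m = f m' ↔ (QuotientGroup.mk m : N ⧸ C) = QuotientGroup.mk m' := by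
      intro m m'
      rw [QuotientGroup.eq]
      show (⟨_, _⟩ : O x) = ⟨_, _⟩ ↔ _
      rw [Subtype.mk.injEq, Subgroup.mem_subgroupOf, Subgroup.mem_inf, Subgroup.mem_centralizer_singleton_iff]
      push_cast
      constructor
      · intro e
        refine ⟨mul_mem (inv_mem m.2) m'.2, ?_⟩
        calc (m : G)⁻¹ * m' * x = (m : G)⁻¹ * ((m' : G) * x * (m' : G)⁻¹) * m' := by group
          _ = x * ((m : G)⁻¹ * m') := by rw [← e]; group
      · rintro ⟨-, e⟩
        calc (m : G) * x * (m : G)⁻¹ = m * (x * ((m : G)⁻¹ * m')) * (m' : G)⁻¹ := by group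
          _ = (m' : G) * x * (m' : G)⁻¹ := by rw [← e]; group
    have hbij : Nat.card (N ⧸ C) = Nat.card (O x) := by
      refine Nat.card_congr (Equiv.ofBijective (Quotient.lift f fun m m' h => (hf m m').mpr (Quotient.sound h)) ⟨?_, ?_⟩)
      · intro u v
        induction u using Quotient.inductionOn with
        | h m => induction v using Quotient.inductionOn with
          | h m' => exact (hf m m').mp
      · rintro ⟨g, m, hm, rfl⟩
        exact ⟨QuotientGroup.mk ⟨m, hm⟩, rfl⟩
    rw [← hbij, ← Nat.card_congr (Subgroup.subgroupOfEquivOfLe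
      (inf_le_left : N ⊓ Subgroup.centralizer ({(x : G)} : Set G) ≤ N)).toEquiv]
    have h := C.card_eq_card_quotient_mul_card_subgroup
    rw [h, Nat.mul_div_cancel _ Nat.card_pos]
  have hpel : ∀ y : G, y ∈ T → ∀ m : G, ∃ k : ℕ, orderOf (m * y * m⁻¹) = p ^ k := by
    intro y hy m
    obtain ⟨k, hk⟩ := P.2 ⟨y, hy⟩
    have hd : orderOf y ∣ p ^ k := orderOf_dvd_of_pow_eq_one (by
      have := congrArg (fun z : T => (z : G)) hk; simpa using this)
    obtain ⟨j, -, hj⟩ := (Nat.dvd_prime_pow Fact.out).mp hd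
    exact ⟨j, (MulEquiv.orderOf_eq (MulAut.conj m) y).trans hj⟩
  let e : (Σ x : T, O x) → {g : G // ∃ k : ℕ, orderOf g = p ^ k} := fun z => ⟨z.2.1, by
    obtain ⟨m, -, hm⟩ := z.2.2
    rw [← hm]
    exact hpel _ z.1.2 m⟩
  have he : Function.Bijective e := by
    constructor
    · rintro ⟨x, g, m, hm, hg⟩ ⟨x', g', m', hm', hg'⟩ h
      obtain rfl : g = g' := congrArg Subtype.val h
      have hN' : ∀ (n : G) (a : G), n ∈ N → n * a * n⁻¹ = (n * (a * n⁻¹ * a⁻¹)) * a := fun n a _ => by group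
      have : (x : G) = x' := hproj _ (mul_mem hm ((inferInstance : N.Normal).conj_mem _ (inv_mem hm) x)) x x' x.2 x'.2
        _ (mul_mem hm' ((inferInstance : N.Normal).conj_mem _ (inv_mem hm') x'))
        ((hN' m x hm).symm.trans ((hg.trans hg'.symm).trans (hN' m' x' hm')))
      obtain rfl := Subtype.ext this
      rfl
    · rintro ⟨g, k, hk⟩
      obtain ⟨S, hS⟩ := (IsPGroup.of_card (p := p) (n := k) (G := Subgroup.zpowers g)
        (by rw [Nat.card_zpowers, hk])).exists_le_sylow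
      obtain ⟨c, hc⟩ := MulAction.exists_smul_eq G P S
      obtain ⟨⟨⟨m, hm⟩, ⟨t, ht⟩⟩, rfl⟩ := hNP.2 c
      have hg : g ∈ ((m * t) • P : Sylow p G).toSubgroup := hc ▸ hS (Subgroup.mem_zpowers g)
      obtain ⟨y, hy, hgy⟩ := hg
      have hgy' : m * t * y * (m * t)⁻¹ = g := hgy
      exact ⟨⟨⟨t * y * t⁻¹, mul_mem (mul_mem ht hy) (inv_mem ht)⟩, g, m, hm, by rw [← hgy']; group⟩, rfl⟩
  haveI := Fintype.ofFinite T
  rw [finsum_eq_sum_of_fintype, ← Nat.card_congr (Equiv.ofBijective e he), Nat.card_sigma]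
  exact Finset.sum_congr rfl fun x _ => hO x

end Cfsg.Agent.S4093
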