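import Cfsg.Statements.S4106
import Cfsg.Agent.Lib.FgsPiClassesBound

set_option autoImplicit false
open Cfsg

namespace Cfsg.Agent.S4106

/-- Let G be a finite group, π a set of primes and m the π-part of the order of G. Then the number of conjugacy classes of G consisting of π-elements (elements whose order is divisible only by primes in π) is at most m. -/
theorem result {G : Type*} [Group G] [Finite G]
    (π : Set ℕ) (hπ : ∀ q ∈ π, q.Prime)
    (m : ℕ) (hm : m ∣ Nat.card G) (hmπ : ∀ q : ℕ, q.Prime → q ∣ m → q ∈ π)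
    (hm' : ∀ q ∈ π, ¬ q ∣ Nat.card G / m) :
    Nat.card {C : ConjClasses G // ∀ q : ℕ, q.Prime → (∃ g : G, ConjClasses.mk g = C ∧ q ∣ orderOf g) → q ∈ π} ≤ m := by
  have hm0 : 0 < m := Nat.pos_of_ne_zero fun h => by
    rw [h] at hm; exact Nat.card_pos.ne' (Nat.eq_zero_of_zero_dvd hm)
  obtain ⟨k, hk⟩ := hm
  have hH : ∀ q : ℕ, q.Prime → q ∣ m → (Nat.card G).factorization q ≤ m.factorization q := by
    intro q hq hqm
    have hk0 : k ≠ 0 := fun h => Nat.card_pos.ne' (by rw [hk, h, mul_zero])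
    rw [hk, Nat.factorization_mul hm0.ne' hk0, Finsupp.add_apply,
      Nat.factorization_eq_zero_of_not_dvd (n := k) ?_, add_zero]
    intro hd
    apply hm' q (hmπ q hq hqm)
    rwa [hk, Nat.mul_div_cancel_left k hm0]
  refine le_trans ?_ (CfsgLib.FgsPiClasses.card_classes_le m G hm0 hH)
  refine Nat.card_le_card_of_injective (fun C => ⟨C.1, fun g hg => ?_⟩)
    (fun C D h => Subtype.ext (congrArg Subtype.val h :))
  rw [← orderOf_dvd_iff_pow_eq_one]
  refine (Nat.Coprime.dvd_of_dvd_mul_right ?_ (hk ▸ orderOf_dvd_natCard g))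
  refine Nat.coprime_of_dvd fun q hq h1 h2 => ?_
  apply hm' q (C.2 q hq ⟨g, hg, h1⟩)
  rwa [hk, Nat.mul_div_cancel_left k hm0]

end Cfsg.Agent.S4106
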