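import Cfsg.Statements.S4108
import Mathlib
import Cfsg.Agent.Lib.CoreFrobenius

set_option autoImplicit false
open Cfsg
open scoped Pointwise

namespace Cfsg.Agent.S4108

/-- Let G be a finite group, p a prime and N a proper non-trivial normal p-subgroup such that for every x outside N all elements of the coset xN have the same order as x. Then every non-trivial subgroup H of G of order prime to p acts fixed-point-freely on N: NH is a Frobenius group with complement H and kernel N. -/
theorem result {G : Type*} [Group G] [Finite G] (N : Subgroup G) [N.Normal] (hN1 : N ≠ ⊥) (hN2 : N ≠ ⊤)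
    (heq : ∀ x : G, x ∉ N → ∀ n ∈ N, orderOf (x * n) = orderOf x)
    (p : ℕ) [Fact p.Prime] (hNp : IsPGroup p N) :
    ∀ H : Subgroup G, H ≠ ⊥ → (Nat.card H).Coprime p →
      Cfsg.IsFrobeniusComplement (H.subgroupOf (N ⊔ H)) ∧ Cfsg.frobeniusKernel (H.subgroupOf (N ⊔ H)) = (N.subgroupOf (N ⊔ H) : Set ↥(N ⊔ H)) := by
  intro H hH0 hHp
  classical
  set W := N ⊔ H with hW
  set N' := N.subgroupOf W with hN'
  set H' := H.subgroupOf W with hH'
  have hdisj : ∀ x ∈ N, x ∈ H → x = 1 := by
    intro x hxN hxH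
    obtain ⟨k, hk⟩ := IsPGroup.iff_orderOf.mp hNp ⟨x, hxN⟩
    rw [← Subgroup.orderOf_coe] at hk
    have h2 : orderOf x ∣ Nat.card H := by
      have := orderOf_dvd_natCard (⟨x, hxH⟩ : H)
      rwa [← Subgroup.orderOf_coe] at this
    exact orderOf_eq_one_iff.mp (Nat.eq_one_of_dvd_coprimes
      (((Nat.coprime_comm.mp hHp).pow_left k)) (hk ▸ dvd_refl _) h2)
  have hc : Subgroup.IsComplement' N' H' := by
    refine Subgroup.isComplement'_of_disjoint_and_mul_eq_univ ?_ ?_
    · rw [disjoint_iff, eq_bot_iff]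
      rintro x ⟨h1, h2⟩
      exact Subtype.ext (hdisj _ h1 h2)
    · rw [Set.eq_univ_iff_forall]
      rintro ⟨x, hx⟩
      have : x ∈ (N : Set G) * (H : Set G) := by rw [← Subgroup.normal_mul]; exact hx
      obtain ⟨n, hn, h, hh, rfl⟩ := this
      exact ⟨⟨n, le_sup_left (b := H) hn⟩, hn, ⟨h, le_sup_right (a := N) hh⟩, hh, rfl⟩
  have hN0 : N' ≠ ⊥ := fun e => hN1 (by
    have h := congrArg (Subgroup.map W.subtype) e
    rwa [Subgroup.map_subgroupOf_eq_of_le le_sup_left, Subgroup.map_bot] at h)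
  have hH0' : H' ≠ ⊥ := fun e => hH0 (by
    have h := congrArg (Subgroup.map W.subtype) e
    rwa [Subgroup.map_subgroupOf_eq_of_le le_sup_right, Subgroup.map_bot] at h)
  have hfpf : ∀ h ∈ H', h ≠ 1 → ∀ k ∈ N', h * k = k * h → k = 1 := by
    intro h hh h1 k hk hcomm
    apply Subtype.ext
    have hc' : Commute (h : G) (k : G) := congrArg Subtype.val hcomm
    have hh1 : (h : G) ≠ 1 := fun e => h1 (Subtype.ext e)
    have hnotN : (h : G) ∉ N := fun e => hh1 (hdisj _ e hh)
    have e1 := heq _ hnotN _ hk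
    obtain ⟨i, hi⟩ := IsPGroup.iff_orderOf.mp hNp ⟨(k : G), hk⟩
    rw [← Subgroup.orderOf_coe] at hi
    have hcop : (orderOf (h : G)).Coprime (orderOf (k : G)) := by
      rw [hi]
      have : orderOf (h : G) ∣ Nat.card H := by
        have := orderOf_dvd_natCard (⟨(h : G), hh⟩ : H)
        rwa [← Subgroup.orderOf_coe] at this
      exact (hHp.coprime_dvd_left this).pow_right i
    change orderOf ((h : G) * (k : G)) = orderOf (h : G) at e1
    rw [hc'.orderOf_mul_eq_mul_orderOf_of_coprime hcop] at e1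
    exact orderOf_eq_one_iff.mp ((Nat.mul_eq_left (orderOf_pos _).ne').mp e1)
  have hF := CfsgLib.Core.isFrobeniusComplement_of_fpf hc hN0 hH0' hfpf
  refine ⟨hF, ?_⟩
  obtain ⟨K, -, hKset, -, -, hKcard⟩ := CfsgLib.Core.exists_kernel hF
  rw [← hKset]
  refine congrArg _ (Subgroup.eq_of_le_of_card_ge ?_ (le_of_eq ?_)).symm
  · intro x hx
    rw [← SetLike.mem_coe, hKset]
    by_cases hx1 : x = 1
    · exact Or.inl hx1
    refine Or.inr fun g hg => hx1 ?_
    rw [CfsgLib.Core.mem_conj_smul] at hg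
    have h1 : g⁻¹ * x * g ∈ N' := by
      have := Subgroup.Normal.conj_mem (inferInstance : N'.Normal) x hx g⁻¹
      rwa [inv_inv] at this
    have h2 : g⁻¹ * x * g = 1 := Subtype.ext (hdisj _ h1 hg)
    calc x = g * (g⁻¹ * x * g) * g⁻¹ := by group
      _ = 1 := by rw [h2]; group
  · rw [hKcard]; exact hc.index_eq_card

end Cfsg.Agent.S4108
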