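import Cfsg.Statements.S4112
import Mathlib
import Cfsg.Agent.Lib.CoreBasic
import Cfsg.Agent.Lib.CoreFitting
import Cfsg.Agent.Lib.CorePGroup

set_option autoImplicit false
open Cfsg

namespace Cfsg.Agent.S4112

/-- Let G be a finite group and M ≤ N non-trivial proper normal subgroups such that for every g outside N the conjugacy class of g is a union of cosets of M (equivalently gm is conjugate to g for every m ∈ M). Then (1) and (2) below are equivalent, and they imply (3): (1) every g outside N acts fixed-point-freely on M, that is C_G(x) ≤ N for every x ∈ M, x ≠ 1; (2) the index of N in G is coprime to the order of M; (3) there is a subgroup H of G with HN = G and H ∩ M = 1. -/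
theorem result {G : Type*} [Group G] [Finite G] (N M : Subgroup G) [N.Normal] [M.Normal] (hMN : M ≤ N) (hM1 : M ≠ ⊥) (hN2 : N ≠ ⊤)
    (hcam : ∀ g : G, g ∉ N → ∀ m ∈ M, ∃ x : G, x * g * x⁻¹ = g * m) :
    ((∀ x ∈ M, x ≠ 1 → Subgroup.centralizer ({x} : Set G) ≤ N) ↔ N.index.Coprime (Nat.card M)) ∧
    ((∀ x ∈ M, x ≠ 1 → Subgroup.centralizer ({x} : Set G) ≤ N) → ∃ H : Subgroup G, H ⊔ N = ⊤ ∧ H ⊓ M = ⊥) := by
  classical
  have fwd : (∀ x ∈ M, x ≠ 1 → Subgroup.centralizer ({x} : Set G) ≤ N) → N.index.Coprime (Nat.card M) := by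
    intro h1
    refine Nat.coprime_of_dvd fun p hp hd hm => ?_
    haveI : Fact p.Prime := ⟨hp⟩
    obtain ⟨y, hy⟩ := exists_prime_orderOf_dvd_card' p hm
    rw [← Subgroup.orderOf_coe] at hy
    obtain ⟨S, hS⟩ := (IsPGroup.of_card (p := p) (n := 1) (G := Subgroup.zpowers (y : G))
      (by rw [Nat.card_zpowers, hy, pow_one])).exists_le_sylow
    haveI : Group.IsNilpotent (S : Subgroup G) := S.2.isNilpotent
    have hne : M.subgroupOf (S : Subgroup G) ≠ ⊥ := fun e => by
      have hy' : (⟨(y : G), hS (Subgroup.mem_zpowers _)⟩ : (S : Subgroup G)) ∈ M.subgroupOf (S : Subgroup G) := y.2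
      rw [e, Subgroup.mem_bot] at hy'
      rw [show (y : G) = 1 from congrArg Subtype.val hy', orderOf_one] at hy
      exact hp.one_lt.ne hy
    obtain ⟨⟨x, hxM, hxc⟩, hx1⟩ := Subgroup.ne_bot_iff_exists_ne_one.1
      (CfsgLib.Core.nilpotent_inf_center_ne_bot hne)
    have hSN : (S : Subgroup G) ≤ N := fun g hg => h1 (x : G) hxM
      (fun e => hx1 (Subtype.ext (Subtype.ext e))) (Subgroup.mem_centralizer_singleton_iff.mpr
        (congrArg Subtype.val (Subgroup.mem_center_iff.mp hxc ⟨g, hg⟩)))
    exact S.not_dvd_index (hd.trans (Subgroup.index_dvd_of_le hSN))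
  refine ⟨⟨fwd, fun hcop x hx hx1 g hg => ?_⟩, fun h1 => ?_⟩
  · by_contra hgN
    have hd : orderOf (g : G ⧸ N) ∣ N.index := by rw [Subgroup.index_eq_card]; exact orderOf_dvd_natCard _
    obtain ⟨q, hq, hqd⟩ := Nat.exists_prime_and_dvd (n := orderOf (g : G ⧸ N))
      (fun e => hgN ((QuotientGroup.eq_one_iff g).mp (orderOf_eq_one_iff.mp e)))
    haveI : Fact q.Prime := ⟨hq⟩
    set g' := g ^ (orderOf g / q ^ (orderOf g).factorization q) with hg'
    have hog : orderOf g' = q ^ (orderOf g).factorization q :=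
      orderOf_pow_orderOf_div (orderOf_pos g).ne' (Nat.ordProj_dvd _ _)
    have hg'N : g' ∉ N := by
      intro hmem
      rw [hg', ← QuotientGroup.eq_one_iff, QuotientGroup.mk_pow, ← orderOf_dvd_iff_pow_eq_one] at hmem
      exact Nat.not_dvd_ordCompl hq (orderOf_pos g).ne' (hqd.trans hmem)
    obtain ⟨y, hy⟩ := hcam g' hg'N x hx
    have hcx : Commute g' x := Commute.pow_left (Subgroup.mem_centralizer_singleton_iff.mp hg) _
    have hco : (orderOf g').Coprime (orderOf x) := by
      rw [hog]
      refine (Nat.Coprime.pow_left _ ?_).coprime_dvd_right (Subgroup.orderOf_dvd_natCard M hx)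
      exact hcop.coprime_dvd_left (hqd.trans hd)
    have e : orderOf g' = orderOf g' * orderOf x := by
      rw [← hcx.orderOf_mul_eq_mul_orderOf_of_coprime hco, ← hy]
      exact (MulEquiv.orderOf_eq (MulAut.conj y) g').symm
    exact hx1 (orderOf_eq_one_iff.mp (Nat.eq_of_mul_eq_mul_left (orderOf_pos g') (e.symm.trans (mul_one _).symm)))
  · have hcop := fwd h1
    obtain ⟨H, hH, hmin⟩ := Set.exists_min_image {H : Subgroup G | H ⊔ N = ⊤} (fun H => Nat.card H)
      (Set.toFinite _) ⟨⊤, top_sup_eq N⟩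
    refine ⟨H, hH, ?_⟩
    have hfr : N.subgroupOf H ≤ frattini H := by
      refine le_iInf fun K => le_iInf fun hK => ?_
      by_contra hle
      have hsup : K ⊔ N.subgroupOf H = ⊤ := hK.2 _ (left_lt_sup.mpr hle)
      have hK' : K.map H.subtype ⊔ N = ⊤ := by
        rw [eq_top_iff, ← hH]
        refine sup_le ?_ le_sup_right
        have := congrArg (Subgroup.map H.subtype) hsup
        rw [Subgroup.map_sup, ← MonoidHom.range_eq_map, Subgroup.range_subtype] at this
        exact this.ge.trans (sup_le_sup le_rfl (Subgroup.map_le_iff_le_comap.mpr le_rfl))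
      have h3 := hmin _ hK'
      rw [Subgroup.card_subtype] at h3
      exact hK.1 (Subgroup.eq_top_of_le_card K h3)
    by_contra hne
    have hpos : Nat.card ↥(H ⊓ M) ≠ 1 := fun e => hne (Subgroup.card_eq_one.mp e)
    obtain ⟨p, hp, hpd⟩ := Nat.exists_prime_and_dvd hpos
    haveI : Fact p.Prime := ⟨hp⟩
    have hpN : ¬ p ∣ N.index := fun hd => hp.not_dvd_one
      (hcop ▸ Nat.dvd_gcd hd (hpd.trans (Subgroup.card_dvd_of_le inf_le_right)))
    obtain ⟨S⟩ : Nonempty (Sylow p H) := inferInstance
    have hSN : (S : Subgroup H) ≤ N.subgroupOf H := by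
      intro s hs
      rw [Subgroup.mem_subgroupOf, ← QuotientGroup.eq_one_iff, ← orderOf_eq_one_iff]
      obtain ⟨k, hk⟩ := S.2 ⟨s, hs⟩
      refine Nat.eq_one_of_dvd_coprimes (((Nat.Prime.coprime_iff_not_dvd hp).mpr hpN).pow_left k) ?_
        (by rw [Subgroup.index_eq_card]; exact orderOf_dvd_natCard _)
      refine orderOf_dvd_of_pow_eq_one ?_
      have hk' : (s : G) ^ p ^ k = 1 := by
        have := congrArg (fun z : (S : Subgroup H) => ((z : H) : G)) hk; simpa using this
      rw [← QuotientGroup.mk_pow, hk', QuotientGroup.mk_one]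
    have hSF := hSN.trans hfr
    haveI hSn : (S : Subgroup H).Normal := by
      rw [← Subgroup.normalizer_eq_top_iff]
      exact frattini_nongenerating (Sylow.normalizer_sup_eq_top' S hSF)
    obtain ⟨K, hK⟩ := Subgroup.exists_right_complement'_of_coprime S.card_coprime_index
    have hKtop : K = ⊤ := frattini_nongenerating
      (eq_top_iff.mpr (hK.sup_eq_top.ge.trans (sup_le (hSF.trans le_sup_right) le_sup_left)))
    have hpH : p ∣ Nat.card H := hpd.trans (Subgroup.card_dvd_of_le inf_le_left)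
    have hc := hK.card_mul_card
    rw [hKtop, Subgroup.card_top] at hc
    have h1' : Nat.card S = 1 := Nat.eq_of_mul_eq_mul_right Nat.card_pos (hc.trans (one_mul _).symm)
    have := S.dvd_card_of_dvd_card hpH
    rw [h1'] at this
    exact hp.not_dvd_one this

end Cfsg.Agent.S4112
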