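import Cfsg.Statements.S4115
import Cfsg.Agent.Lib.FgsTIFrobenius

set_option autoImplicit false
universe u
open Cfsg

namespace Cfsg.Agent.S4115

/-- Let G be a finite group and H a subgroup that meets each of its conjugates by elements outside N_G(H) trivially and whose order is coprime to its index in N_G(H). Then H has a normal complement in N_G(H) if and only if H has a normal complement in G. Moreover, if H is not normal in G and has a normal complement in N_G(H), then H is isomorphic to a Frobenius complement of some finite Frobenius group. -/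
theorem result {G : Type u} [Group G] [Finite G] (H : Subgroup G)
    (hTI : Cfsg.IsTISubset (H : Set G)) (hHall : (Nat.card H).Coprime (H.subgroupOf (Subgroup.normalizer (H : Set G))).index) :
    ((∃ K : Subgroup (Subgroup.normalizer (H : Set G)), K.Normal ∧ K.IsComplement' (H.subgroupOf (Subgroup.normalizer (H : Set G)))) ↔
      (∃ N : Subgroup G, N.Normal ∧ N.IsComplement' H)) ∧
    (¬ H.Normal → (∃ K : Subgroup (Subgroup.normalizer (H : Set G)), K.Normal ∧ K.IsComplement' (H.subgroupOf (Subgroup.normalizer (H : Set G)))) →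
      ∃ (F : Type u) (_ : Group F) (_ : Finite F) (C : Subgroup F), Cfsg.IsFrobeniusComplement C ∧ Nonempty (H ≃* C)) := by
  have hcoH := CfsgLib.TIHall.hall_of_TI H hTI hHall
  have hto : (∃ K : Subgroup (Subgroup.normalizer (H : Set G)), K.Normal ∧ K.IsComplement' (H.subgroupOf (Subgroup.normalizer (H : Set G)))) →
      ∃ N : Subgroup G, N.Normal ∧ N.IsComplement' H := by
    rintro ⟨K, hKn, hK⟩
    exact CfsgLib.FgsTIComplement.exists_normal_complement hTI hcoH K hKn hK
  refine ⟨⟨hto, ?_⟩, ?_⟩
  · rintro ⟨N, hN, hc⟩
    haveI := hN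
    refine ⟨N.subgroupOf _, inferInstance, Subgroup.isComplement'_of_disjoint_and_mul_eq_univ ?_ ?_⟩
    · rw [Subgroup.disjoint_def]
      intro x hx hx'
      exact Subtype.ext (Subgroup.disjoint_def.1 hc.disjoint hx hx')
    · refine Set.eq_univ_of_forall fun x => ?_
      obtain ⟨a, ha, b, hb, hab⟩ := Subgroup.mem_sup_of_normal_left.1
        (show (x : G) ∈ N ⊔ H by rw [hc.sup_eq_top]; exact Subgroup.mem_top _)
      have haN : a ∈ Subgroup.normalizer (H : Set G) := by
        have := mul_mem x.2 (inv_mem (Subgroup.le_normalizer hb))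
        rwa [← hab, mul_inv_cancel_right] at this
      exact ⟨⟨a, haN⟩, ha, ⟨b, Subgroup.le_normalizer hb⟩, hb, Subtype.ext hab⟩
  · intro hnn hK
    obtain ⟨N, hN, hc⟩ := hto hK
    haveI := hN
    exact CfsgLib.FgsTIFrobenius.exists_frobenius hTI hcoH hnn hc

end Cfsg.Agent.S4115
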