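import Cfsg.Statements.S4116
import Cfsg.Agent.Lib.FgsTIHall
import Cfsg.Agent.Lib.CoreFrobenius

set_option autoImplicit false
open Cfsg

namespace Cfsg.Agent.S4116

/-- Let G be a finite group with a subgroup H whose order is coprime to its index (a Hall subgroup) and which meets each of its conjugates by elements outside N_G(H) trivially. Then every subgroup of G whose order is divisible only by primes dividing the order of H lies in a conjugate of H. -/
theorem result {G : Type*} [Group G] [Finite G] (H : Subgroup G)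
    (hHall : (Nat.card H).Coprime H.index) (hTI : Cfsg.IsTISubset (H : Set G))
    (K : Subgroup G) (hK : ∀ q : ℕ, q.Prime → q ∣ Nat.card K → q ∣ Nat.card H) :
    ∃ g : G, K ≤ H.map (MulAut.conj g).toMonoidHom := by
  classical
  obtain rfl | hKb := eq_or_ne K ⊥
  · exact ⟨1, bot_le⟩
  -- elements of prime order lie in conjugates
  have hprime : ∀ x ∈ K, (orderOf x).Prime → ∃ g : G, x ∈ H.map (MulAut.conj g).toMonoidHom := by
    intro x hx hp
    haveI := Fact.mk hp
    have hpH : orderOf x ∣ Nat.card H := hK _ hp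
      ((Subgroup.orderOf_mk x hx) ▸ orderOf_dvd_natCard (⟨x, hx⟩ : K))
    obtain ⟨Q⟩ := (inferInstance : Nonempty (Sylow (orderOf x) H))
    let S := (Q.isPGroup'.map H.subtype).toSylow (by
      rw [Subgroup.index_map_subtype]
      exact hp.not_dvd_mul Q.not_dvd_index fun h =>
        hp.ne_one (Nat.eq_one_of_dvd_coprimes hHall hpH h))
    obtain ⟨P, hP⟩ := (IsPGroup.of_card (n := 1) (G := Subgroup.zpowers x) (p := orderOf x)
      (by rw [Nat.card_zpowers, pow_one])).exists_le_sylow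
    obtain ⟨g, rfl⟩ := MulAction.exists_smul_eq G S P
    refine ⟨g, ?_⟩
    have hm : x ∈ ((g • S : Sylow (orderOf x) G) : Subgroup G) := hP (Subgroup.mem_zpowers x)
    rw [Sylow.coe_subgroup_smul, CfsgLib.Core.mem_conj_smul] at hm
    rw [IsPGroup.toSylow_coe] at hm
    exact ⟨g⁻¹ * x * g, Subgroup.map_subtype_le _ hm,
      show g * (g⁻¹ * x * g) * g⁻¹ = x by group⟩
  have hmem : ∀ (g x : G), x ∈ H.map (MulAut.conj g).toMonoidHom ↔ g⁻¹ * x * g ∈ H := fun g x => by
    rw [← CfsgLib.Core.conj_smul_eq_map, CfsgLib.Core.mem_conj_smul]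
  -- two conjugates of `H` meet trivially or coincide
  have hti : ∀ (a b x : G), x ≠ 1 → x ∈ H.map (MulAut.conj a).toMonoidHom →
      x ∈ H.map (MulAut.conj b).toMonoidHom → a⁻¹ * b ∈ Subgroup.normalizer (H : Set G) := by
    intro a b x hx1 ha hb
    rw [hmem] at ha hb
    by_contra hc
    have h1 := hTI _ hc _ hb (by
      rw [show a⁻¹ * b * (b⁻¹ * x * b) * (a⁻¹ * b)⁻¹ = a⁻¹ * x * a by group]
      exact ha)
    refine hx1 ?_
    calc x = b * (b⁻¹ * x * b) * b⁻¹ := by group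
      _ = 1 := by rw [h1]; group
  have heq : ∀ (a b x : G), x ≠ 1 → x ∈ H.map (MulAut.conj a).toMonoidHom →
      x ∈ H.map (MulAut.conj b).toMonoidHom →
      H.map (MulAut.conj a).toMonoidHom = H.map (MulAut.conj b).toMonoidHom := by
    intro a b x hx1 ha hb
    have hn := hti a b x hx1 ha hb
    ext y
    rw [hmem, hmem, Subgroup.mem_normalizer_iff''.1 hn (a⁻¹ * y * a)]
    rw [show (a⁻¹ * b)⁻¹ * (a⁻¹ * y * a) * (a⁻¹ * b) = b⁻¹ * y * b by group]
  by_contra hc
  push Not at hc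
  -- every non-trivial intersection is a Frobenius complement of `K`
  have hfc : ∀ g : G, (H.map (MulAut.conj g).toMonoidHom).subgroupOf K ≠ ⊥ →
      Cfsg.IsFrobeniusComplement ((H.map (MulAut.conj g).toMonoidHom).subgroupOf K) := by
    intro g hg
    refine CfsgLib.Core.isFrobeniusComplement_of_malnormal hg
      (fun h => hc g (Subgroup.subgroupOf_eq_top.1 h)) fun y hy x hx hyx => ?_
    by_contra hx1
    have hx' : (x : G) ∈ H.map (MulAut.conj g).toMonoidHom := hx
    have hyx' : (y : G) * x * (y : G)⁻¹ ∈ H.map (MulAut.conj g).toMonoidHom := hyx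
    rw [hmem] at hx' hyx'
    -- `y` normalises the conjugate, hence lies in it
    have hyn : g⁻¹ * y * g ∈ Subgroup.normalizer (H : Set G) := by
      by_contra hn
      have h1 := hTI _ hn _ hx' (by
        rw [show g⁻¹ * (y : G) * g * (g⁻¹ * x * g) * (g⁻¹ * y * g)⁻¹ =
          g⁻¹ * ((y : G) * x * (y : G)⁻¹) * g by group]
        exact hyx')
      exact hx1 (Subtype.ext (show (x : G) = 1 by
        calc (x : G) = g * (g⁻¹ * x * g) * g⁻¹ := by group
          _ = 1 := by rw [h1]; group))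
    refine hy (show (y : G) ∈ H.map (MulAut.conj g).toMonoidHom from (hmem _ _).2 ?_)
    set z := g⁻¹ * (y : G) * g with hz
    set Z := Subgroup.zpowers z with hZ
    have hZn : Z ≤ Subgroup.normalizer (H : Set G) := Subgroup.zpowers_le.2 hyn
    have hd : Nat.card (Z ⊔ H : Subgroup G) ∣ Nat.card Z * Nat.card H :=
      CfsgLib.Core.card_sup_dvd_mul hZn
    have hcop : (Nat.card (Z ⊔ H : Subgroup G)).Coprime H.index := by
      refine Nat.coprime_of_dvd fun r hr h1 h2 => ?_
      refine hr.ne_one (Nat.eq_one_of_dvd_coprimes hHall ?_ h2)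
      rcases (Nat.Prime.dvd_mul hr).1 (h1.trans hd) with h | h
      · refine hK r hr (h.trans ?_)
        rw [hZ, Nat.card_zpowers, hz, show g⁻¹ * (y : G) * g = MulAut.conj g⁻¹ y by simp]
        rw [(MulAut.conj g⁻¹).orderOf_eq]
        exact (Subgroup.orderOf_coe y).symm ▸ orderOf_dvd_natCard y
      · exact h
    have hle : Nat.card (Z ⊔ H : Subgroup G) ≤ Nat.card H := by
      refine Nat.le_of_dvd Nat.card_pos (hcop.dvd_of_dvd_mul_right ?_)
      rw [H.card_mul_index]
      exact Subgroup.card_subgroup_dvd_card _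
    rw [CfsgLib.Core.eq_of_le_of_card_le (le_sup_right : H ≤ Z ⊔ H) hle]
    exact Subgroup.mem_sup_left (Subgroup.mem_zpowers z)
  obtain ⟨x₀, hx₀⟩ := exists_prime_orderOf_dvd_card' (G := K) (Nat.card K).minFac
    (hp := ⟨Nat.minFac_prime (by
      intro h; exact hKb (Subgroup.eq_bot_of_card_eq K h))⟩) (Nat.minFac_dvd _)
  have hx₀p : (orderOf (x₀ : G)).Prime := by
    rw [Subgroup.orderOf_coe, hx₀]
    exact Nat.minFac_prime fun h => hKb (Subgroup.eq_bot_of_card_eq K h)
  obtain ⟨a, ha⟩ := hprime _ x₀.2 hx₀p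
  set L := (H.map (MulAut.conj a).toMonoidHom).subgroupOf K with hL
  have hLne : L ≠ ⊥ := fun e => by
    have : x₀ = 1 := Subgroup.mem_bot.1 (e ▸ (ha : x₀ ∈ L))
    rw [this, OneMemClass.coe_one, orderOf_one] at hx₀p
    exact Nat.not_prime_one hx₀p
  have hLfc := hfc a hLne
  obtain ⟨N, -, hNk, hNL, hNtop, -⟩ := CfsgLib.Core.exists_kernel hLfc
  have hNne : N ≠ ⊥ := fun e => hLfc.2.1 (by rwa [e, bot_sup_eq] at hNtop)
  obtain ⟨x₁, hx₁⟩ := exists_prime_orderOf_dvd_card' (G := N) (Nat.card N).minFac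
    (hp := ⟨Nat.minFac_prime (by
      intro h; exact hNne (Subgroup.eq_bot_of_card_eq N h))⟩) (Nat.minFac_dvd _)
  have hx₁p : (orderOf ((x₁ : K) : G)).Prime := by
    rw [Subgroup.orderOf_coe, Subgroup.orderOf_coe, hx₁]
    exact Nat.minFac_prime fun h => hNne (Subgroup.eq_bot_of_card_eq N h)
  have hx₁1 : (x₁ : K) ≠ 1 := fun e => by
    rw [e, OneMemClass.coe_one, orderOf_one] at hx₁p
    exact Nat.not_prime_one hx₁p
  obtain ⟨b, hb⟩ := hprime _ (x₁ : K).2 hx₁p
  set L' := (H.map (MulAut.conj b).toMonoidHom).subgroupOf K with hL'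
  have hL'ne : L' ≠ ⊥ := fun e => hx₁1 (Subgroup.mem_bot.1 (e ▸ (hb : (x₁ : K) ∈ L')))
  have hL'fc := hfc b hL'ne
  obtain ⟨N', -, hN'k, -, hN'top, -⟩ := CfsgLib.Core.exists_kernel hL'fc
  have hN' : N' ≠ ⊤ := fun e => by
    have h := Set.ext_iff.1 hN'k (x₁ : K)
    rcases h.1 (by rw [e]; trivial) with h | h
    · exact hx₁1 h
    · exact h 1 (by rw [CfsgLib.Core.conj_one_smul]; exact hb)
  have hN : N ≠ ⊤ := fun e => hLne (by rwa [e, top_inf_eq] at hNL)
  -- the kernels cover `K`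
  have hcov : ∀ y : K, y ∈ N ∨ y ∈ N' := by
    intro y
    by_contra hy
    push Not at hy
    have h1 : ¬ y ∈ Cfsg.frobeniusKernel L := hNk ▸ hy.1
    have h2 : ¬ y ∈ Cfsg.frobeniusKernel L' := hN'k ▸ hy.2
    simp only [Cfsg.frobeniusKernel, Set.mem_setOf_eq, not_or, not_forall, not_not,
      CfsgLib.Core.mem_conj_smul] at h1 h2
    obtain ⟨hy1, c, hc⟩ := h1
    obtain ⟨-, d, hd⟩ := h2
    have hc' : (c : G)⁻¹ * y * c ∈ H.map (MulAut.conj a).toMonoidHom := hc
    have hd' : (d : G)⁻¹ * y * d ∈ H.map (MulAut.conj b).toMonoidHom := hd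
    have e := heq ((c : G) * a) ((d : G) * b) y (fun h => hy1 (Subtype.ext h))
      (by rw [hmem] at hc' ⊢; simpa [mul_assoc] using hc')
      (by rw [hmem] at hd' ⊢; simpa [mul_assoc] using hd')
    have h3 : (d : G) * (x₁ : K) * (d : G)⁻¹ ∈ H.map (MulAut.conj ((c : G) * a)).toMonoidHom := by
      rw [e, hmem]
      rw [hmem] at hb
      simpa [mul_assoc] using hb
    have h4 : c⁻¹ * (d * (x₁ : K) * d⁻¹) * c ∈ L := by
      show (c : G)⁻¹ * ((d : G) * (x₁ : K) * (d : G)⁻¹) * c ∈ H.map (MulAut.conj a).toMonoidHom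
      rw [hmem] at h3 ⊢
      simpa [mul_assoc] using h3
    have hNn : N.Normal := by
      obtain ⟨N₂, hN₂, hN₂k, -⟩ := CfsgLib.Core.exists_kernel hLfc
      rwa [SetLike.coe_injective (hNk.trans hN₂k.symm)]
    have h5 : c⁻¹ * (d * (x₁ : K) * d⁻¹) * c ∈ N := by
      simpa using hNn.conj_mem _ (hNn.conj_mem _ x₁.2 d) c⁻¹
    have h6 : c⁻¹ * (d * (x₁ : K) * d⁻¹) * c = 1 := Subgroup.mem_bot.1 (hNL ▸ ⟨h5, h4⟩)
    refine hx₁1 ?_
    calc (x₁ : K) = d⁻¹ * (c * (c⁻¹ * (d * (x₁ : K) * d⁻¹) * c) * c⁻¹) * d := by group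
      _ = 1 := by rw [h6]; group
  obtain ⟨u, hu⟩ : ∃ u, u ∉ N := by
    by_contra h; push Not at h; exact hN (eq_top_iff.2 fun y _ => h y)
  obtain ⟨w, hw⟩ : ∃ w, w ∉ N' := by
    by_contra h; push Not at h; exact hN' (eq_top_iff.2 fun y _ => h y)
  have hu' := (hcov u).resolve_left hu
  have hw' := (hcov w).resolve_right hw
  rcases hcov (u * w) with h | h
  · exact hu (by simpa using mul_mem h (inv_mem hw'))
  · exact hw (by simpa using mul_mem (inv_mem hu') h)

end Cfsg.Agent.S4116
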