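import Cfsg.Statements.S4117
import Cfsg.Agent.Lib.FgsTIHall
import Mathlib.GroupTheory.SemidirectProduct

set_option autoImplicit false
open Cfsg
open scoped commutatorElement

namespace Cfsg.Agent.S4117

/-- Let A be a finite group acting on the finite group G by automorphisms with the orders of A and G coprime, and suppose every Sylow subgroup of G is cyclic. Then the fixed-point subgroup C_G(A) is a Hall subgroup of G (its order is coprime to its index), the subgroup [G, A] generated by the elements g⁻¹·a(g) is cyclic and normal with [G, A] ∩ C_G(A) = 1 and [G, A]·C_G(A) = G. -/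
theorem result {G A : Type*} [Group G] [Finite G] [Group A] [Finite A]
    [MulDistribMulAction A G] (hcop : (Nat.card A).Coprime (Nat.card G))
    (hcyc : ∀ (p : ℕ) [Fact p.Prime] (P : Sylow p G), IsCyclic (P : Subgroup G)) :
    (Nat.card (MulAction.fixedPoints A G : Set G)).Coprime (Nat.card G / Nat.card (MulAction.fixedPoints A G : Set G)) ∧
    IsCyclic (Subgroup.closure {y : G | ∃ (a : A) (g : G), y = g⁻¹ * a • g}) ∧
    (Subgroup.closure {y : G | ∃ (a : A) (g : G), y = g⁻¹ * a • g}).Normal ∧
    (Subgroup.closure {y : G | ∃ (a : A) (g : G), y = g⁻¹ * a • g} : Set G) ∩ MulAction.fixedPoints A G = {1} ∧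
    Subgroup.closure {y : G | ∃ (a : A) (g : G), y = g⁻¹ * a • g} ⊔ Subgroup.closure (MulAction.fixedPoints A G) = ⊤ := by
  classical
  haveI hG : IsZGroup G := ⟨fun p hp P => @hcyc p ⟨hp⟩ P⟩
  set φ : A →* MulAut G := MulDistribMulAction.toMulAut A G with hφ
  let Γ := G ⋊[φ] A
  haveI : Finite Γ := Finite.of_equiv (G × A) SemidirectProduct.equivProd.symm
  let il : G →* Γ := SemidirectProduct.inl
  let ir : A →* Γ := SemidirectProduct.inr
  have hil : Function.Injective il := SemidirectProduct.inl_injective
  have hact : ∀ (a : A) (g : G), ir a * il g * (ir a)⁻¹ = il (a • g) := fun a g => by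
    show SemidirectProduct.inr a * SemidirectProduct.inl g * (SemidirectProduct.inr a)⁻¹ = _
    rw [← map_inv, ← SemidirectProduct.inl_aut]
    rfl
  set H := il.range with hH
  set Q := ir.range with hQdef
  haveI : IsZGroup H := IsZGroup.of_injective (f := (MonoidHom.ofInjective hil).symm.toMonoidHom)
    (MulEquiv.injective _)
  have hQ : Q ≤ Subgroup.normalizer (H : Set Γ) := by
    haveI : H.Normal := by
      rw [hH, show il.range = (SemidirectProduct.rightHom : Γ →* A).ker from
        SemidirectProduct.range_inl_eq_ker_rightHom]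
      infer_instance
    exact le_top.trans (Subgroup.normalizer_eq_top H).ge
  have hcardH : Nat.card H = Nat.card G := (Nat.card_congr (MonoidHom.ofInjective hil).toEquiv).symm
  have hcop' : (Nat.card Q).Coprime (Nat.card H) := by
    rw [hcardH]
    exact hcop.coprime_dvd_left (Subgroup.card_range_dvd ir)
  have hsol : Group.IsSolvable H := inferInstance
  set S := {y : G | ∃ (a : A) (g : G), y = g⁻¹ * a • g}
  let Fx : Subgroup G :=
    { carrier := MulAction.fixedPoints A G
      mul_mem' := fun {x y} hx hy a => by rw [smul_mul', hx a, hy a]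
      one_mem' := fun a => smul_one a
      inv_mem' := fun {x} hx a => by rw [smul_inv', hx a] }
  have hC : (H ⊓ Subgroup.centralizer (Q : Set Γ)).comap il = Fx := by
    ext x
    constructor
    · intro hx a
      have h := Subgroup.mem_centralizer_iff.1 hx.2 (ir a) ⟨a, rfl⟩
      refine hil ?_
      rw [← hact, h, mul_inv_cancel_right]
    · intro hx
      refine ⟨⟨x, rfl⟩, Subgroup.mem_centralizer_iff.2 ?_⟩
      rintro _ ⟨a, rfl⟩
      have h := hact a x
      rw [hx a] at h
      exact mul_inv_eq_iff_eq_mul.1 h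
  have hgen : ∀ (a : A) (g : G), ⁅il g, ir a⁆ = il (g * a • g⁻¹) := fun a g => by
    rw [map_mul, ← hact, commutatorElement_def, map_inv]
    simp only [mul_assoc]
  have hM : ⁅H, Q⁆ = (Subgroup.closure S).map il := by
    refine le_antisymm ?_ ?_
    · rw [Subgroup.commutator_le]
      rintro _ ⟨g, rfl⟩ _ ⟨a, rfl⟩
      exact ⟨g * a • g⁻¹, Subgroup.subset_closure ⟨a, g⁻¹, by rw [inv_inv]⟩, (hgen a g).symm⟩
    · rw [MonoidHom.map_closure, Subgroup.closure_le]
      rintro _ ⟨_, ⟨a, g, rfl⟩, rfl⟩
      have : il (g⁻¹ * a • g) = ⁅il g⁻¹, ir a⁆ := by rw [hgen, inv_inv]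
      rw [SetLike.mem_coe, this]
      exact Subgroup.commutator_mem_commutator ⟨g⁻¹, rfl⟩ ⟨a, rfl⟩
  have hsup := CfsgLib.Core.commutator_sup_centralizer hQ hcop' (Or.inr hsol)
  have hco := CfsgLib.TIHall.coprime_fixed_commutator H Q hQ hcop'
  have hCm : H ⊓ Subgroup.centralizer (Q : Set Γ) = Fx.map il := by
    rw [← hC, Subgroup.map_comap_eq_self]
    exact inf_le_left
  rw [hM, hCm] at hsup hco
  rw [← Subgroup.map_sup, hH, MonoidHom.range_eq_map] at hsup
  have htop : Subgroup.closure S ⊔ Fx = ⊤ := Subgroup.map_injective hil hsup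
  rw [Subgroup.card_map_of_injective hil, Subgroup.card_map_of_injective hil] at hco
  have hdis : Subgroup.closure S ⊓ Fx = ⊥ := CfsgLib.Core.inf_eq_bot_of_coprime hco.symm
  haveI hn : (Subgroup.closure S).Normal := ⟨fun x hx g => by
    have h1 : il x ∈ ⁅H, Q⁆ := hM ▸ ⟨x, hx, rfl⟩
    have h2 := (Subgroup.mem_normalizer_iff.1
      (CfsgLib.Core.le_normalizer_commutator_left H Q ⟨g, rfl⟩) (il x)).1 h1
    rw [hM, ← map_inv, ← map_mul, ← map_mul] at h2
    obtain ⟨y, hy, he⟩ := h2
    rwa [← hil he]⟩
  refine ⟨?_, ?_, hn, ?_, ?_⟩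
  · show (Nat.card Fx).Coprime (Nat.card G / Nat.card Fx)
    have hcard : Nat.card (Subgroup.closure S) * Nat.card Fx = Nat.card G := by
      have h := CfsgLib.Core.card_sup_of_disjoint (A := Fx) (K := Subgroup.closure S)
        (le_top.trans (Subgroup.normalizer_eq_top _).ge) (by rw [inf_comm]; exact hdis)
      rw [sup_comm, htop, Subgroup.card_top] at h
      rw [mul_comm]; linarith
    rw [← hcard, Nat.mul_div_cancel _ Nat.card_pos]
    exact hco
  · haveI := CfsgLib.TIHall.isCyclic_commutator_of_coprime H Q hQ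
    exact ((((Subgroup.closure S).equivMapOfInjective il hil).trans
      (MulEquiv.subgroupCongr hM.symm)).isCyclic).2 inferInstance
  · exact congrArg SetLike.coe hdis
  · rw [show MulAction.fixedPoints A G = (Fx : Set G) from rfl, Subgroup.closure_eq, htop]

end Cfsg.Agent.S4117
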