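import Cfsg.Statements.S4118
import Cfsg.Agent.Lib.FgsTIPiSeparable
import Cfsg.Agent.Lib.DicksonCor


set_option autoImplicit false
open Cfsg

namespace Cfsg.Agent.S4118

/-- Let G be a finite group and H a non-normal subgroup meeting each of its conjugates by elements outside N_G(H) trivially, with the order of H coprime to its index in N_G(H); let π be the set of primes dividing the order of H and suppose G is π-separable (it has a chain of normal subgroups from 1 to G each of whose factors has order divisible only by primes in π or coprime to the order of H). Let O be the largest normal subgroup of G of order coprime to the order of H. Then G = O·N_G(H), O·H is normal in G, and G is solvable if and only if O is solvable and H has no subgroup isomorphic to SL₂(5). -/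
theorem result {G : Type*} [Group G] [Finite G] (H : Subgroup G)
    (hTI : Cfsg.IsTISubset (H : Set G)) (hnn : ¬ H.Normal)
    (hHall : (Nat.card H).Coprime (H.subgroupOf (Subgroup.normalizer (H : Set G))).index)
    (hsep : ∃ (n : ℕ) (M : Fin (n + 1) → Subgroup G), M 0 = ⊥ ∧ M (Fin.last n) = ⊤ ∧ Monotone M ∧ (∀ i, (M i).Normal) ∧
      ∀ i : Fin n, (∀ q : ℕ, q.Prime → q ∣ (M i.castSucc).relIndex (M i.succ) → q ∣ Nat.card H) ∨
        ((M i.castSucc).relIndex (M i.succ)).Coprime (Nat.card H))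
    (O : Subgroup G) (hO : O = sSup {K : Subgroup G | K.Normal ∧ (Nat.card K).Coprime (Nat.card H)}) :
    O ⊔ Subgroup.normalizer (H : Set G) = ⊤ ∧ (O ⊔ H).Normal ∧
    (Group.IsSolvable G ↔ Group.IsSolvable O ∧
      ∀ K : Subgroup G, K ≤ H → ¬ Nonempty (K ≃* Matrix.SpecialLinearGroup (Fin 2) (ZMod 5))) := by
  classical
  set N := Subgroup.normalizer (H : Set G) with hN
  have hH1 : H ≠ ⊥ := fun h => hnn (by rw [h]; infer_instance)
  have hTI' : ∀ g : G, ∀ x ∈ H, g * x * g⁻¹ ∈ H → x ≠ 1 → g ∈ N := fun g x hx h1 h2 =>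
    by_contra fun hg => h2 (hTI g hg x hx h1)
  -- `O` has order prime to that of `H`
  have hOn : O.Normal := hO ▸ Subgroup.sSup_normal _ fun K hK => hK.1
  haveI := hOn
  have hOc : (Nat.card O).Coprime (Nat.card H) := by
    rw [hO]
    exact CfsgLib.TISep.coprime_sSup _ _ (fun K hK => hK.1) fun K hK => hK.2
  have hOmax : ∀ K : Subgroup G, K.Normal → (Nat.card K).Coprime (Nat.card H) → K ≤ O :=
    fun K hn hc => hO ▸ le_sSup ⟨hn, hc⟩
  have hHN : H ≤ N := Subgroup.le_normalizer
  haveI hHnN : (H.subgroupOf N).Normal := Subgroup.normal_in_normalizer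
  -- Sylow subgroups of `H`
  have hsyl : ∀ p : ℕ, p.Prime → p ∣ Nat.card H → ∃ S : Sylow p G, (S : Subgroup G) ≤ H ∧ (S : Subgroup G) ≠ ⊥ := by
    intro p hp hpd
    haveI := Fact.mk hp
    obtain ⟨P⟩ : Nonempty (Sylow p H) := inferInstance
    set P' := (P : Subgroup H).map H.subtype with hP'
    have hP'H : P' ≤ H := Subgroup.map_subtype_le _
    have hP'1 : P' ≠ ⊥ := fun h => by
      have h1 := P.dvd_card_of_dvd_card hpd
      rw [← Subgroup.card_map_of_injective H.subtype_injective, ← hP', h, Subgroup.card_bot] at h1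
      exact hp.ne_one (Nat.dvd_one.mp h1)
    obtain ⟨S, hPS⟩ := (P.isPGroup'.map H.subtype).exists_le_sylow
    have hNP : Subgroup.normalizer (P' : Set G) ≤ N := by
      intro g hg
      obtain ⟨x, hx, hx1⟩ := (Subgroup.ne_bot_iff_exists_ne_one.mp hP'1 |> fun ⟨x, hx⟩ =>
        (⟨x, x.2, fun e => hx (Subtype.ext e)⟩ : ∃ x : G, x ∈ P' ∧ x ≠ 1))
      exact hTI' g x (hP'H hx) (hP'H ((Subgroup.mem_normalizer_iff.mp hg x).mp hx)) hx1
    have hSN : (S : Subgroup G) ⊓ N ≤ P' := by
      have hle : P' ≤ (S : Subgroup G) ⊓ N := le_inf hPS (hP'H.trans hHN)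
      obtain ⟨k, hk⟩ := (IsPGroup.iff_card.mp (S.2.to_le (inf_le_left : (S : Subgroup G) ⊓ N ≤ S)))
      have hd1 : P'.relIndex ((S : Subgroup G) ⊓ N) ∣ p ^ k := hk ▸ Subgroup.relIndex_dvd_card P' _
      have hd2 : P'.relIndex ((S : Subgroup G) ⊓ N) ∣ P'.relIndex H * H.relIndex N := by
        rw [Subgroup.relIndex_mul_relIndex _ _ _ hP'H hHN]
        exact Dvd.intro _ (Subgroup.relIndex_mul_relIndex _ _ _ hle inf_le_right)
      have hc : Nat.Coprime (p ^ k) (P'.relIndex H * H.relIndex N) := by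
        refine Nat.Coprime.pow_left _ ((hp.coprime_iff_not_dvd).mpr fun h => ?_)
        rcases hp.dvd_mul.mp h with h | h
        · have h2 : P'.subgroupOf H = (P : Subgroup H) := by
            rw [hP', Subgroup.subgroupOf, Subgroup.comap_map_eq_self_of_injective H.subtype_injective]
          rw [Subgroup.relIndex, h2] at h
          exact P.not_dvd_index h
        · exact (hp.coprime_iff_not_dvd.mp (hHall.coprime_dvd_left hpd)) h
      exact Subgroup.relIndex_eq_one.mp (Nat.eq_one_of_dvd_coprimes hc hd1 hd2)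
    refine ⟨S, ?_, fun h => hP'1 (le_bot_iff.mp (h ▸ hPS))⟩
    by_contra hne
    have hlt : P'.subgroupOf (S : Subgroup G) < ⊤ :=
      lt_top_iff_ne_top.mpr fun h => hne ((Subgroup.subgroupOf_eq_top.mp h).trans hP'H)
    haveI := (S.2).isNilpotent
    obtain ⟨x, hx1, hx2⟩ := SetLike.exists_of_lt
      (Group.normalizerCondition_of_isNilpotent (G := (S : Subgroup G)) (P'.subgroupOf S) hlt)
    refine hx2 (hSN ⟨x.2, hNP ?_⟩)
    rw [← Subgroup.subgroupOf_normalizer_eq hPS] at hx1
    exact hx1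
  -- `G = O N(H)`
  have hGN : O ⊔ N = ⊤ := by
    obtain ⟨n, M, hM0, hMn, hMm, hMnor, hMfac⟩ := hsep
    have hOne : ∃ i : Fin n, M i.castSucc ≤ O ∧ ¬ M i.succ ≤ O := by
      by_contra h
      push Not at h
      have hall : ∀ i : Fin (n + 1), M i ≤ O := fun i => by
        induction i using Fin.induction with
        | zero => rw [hM0]; exact bot_le
        | succ i ih => exact h i ih
      have hOt : O = ⊤ := top_le_iff.mp (hMn ▸ hall (Fin.last n))
      rw [hOt, Subgroup.card_top] at hOc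
      exact hH1 (Subgroup.eq_bot_of_card_eq H (hOc.symm.eq_one_of_dvd (Subgroup.card_subgroup_dvd_card H)))
    obtain ⟨i, hi, hi'⟩ := hOne
    set M' := M i.succ with hM'
    haveI : M'.Normal := hMnor _
    have hmul := CfsgLib.Core.card_mul_relIndex (hMm (Fin.castSucc_le_succ i) : M i.castSucc ≤ M i.succ)
    rcases hMfac i with hπ | hc
    swap
    · exfalso
      refine hi' (hOmax _ (hMnor _) ?_)
      rw [← hmul]
      exact Nat.Coprime.mul_left (hOc.coprime_dvd_left (Subgroup.card_dvd_of_le hi)) hc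
    have hne1 : (M i.castSucc).relIndex M' ≠ 1 := fun h => hi' ((Subgroup.relIndex_eq_one.mp h).trans hi)
    have hin : ∀ r : ℕ, r.Prime → r ∣ (M i.castSucc).relIndex M' →
        ∃ S : Sylow r G, (S : Subgroup G) ⊓ M' ≤ H ∧ (S : Subgroup G) ⊓ M' ≠ ⊥ := by
      intro r hr hrd
      haveI := Fact.mk hr
      obtain ⟨S, hS, -⟩ := hsyl r hr (hπ r hr hrd)
      refine ⟨S, inf_le_left.trans hS, fun h => ?_⟩
      have h1 : ¬ r ∣ ((S : Subgroup G) ⊓ M').relIndex M' := by
        rw [Subgroup.inf_relIndex_right]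
        exact fun h2 => S.not_dvd_index (h2.trans (CfsgLib.TISep.relIndex_dvd_index_normal _ _))
      rw [h, Subgroup.relIndex_bot_left] at h1
      exact h1 (hrd.trans (Dvd.intro_left _ hmul))
    obtain ⟨r, hr, hrd⟩ := Nat.exists_prime_and_dvd hne1
    haveI := Fact.mk hr
    obtain ⟨S, hSH, hS1⟩ := hin r hr hrd
    obtain ⟨x0, hx0⟩ := Subgroup.ne_bot_iff_exists_ne_one.mp hS1
    have hM'N : ∀ g : G, ∃ m ∈ M', m⁻¹ * g ∈ N := by
      intro g
      obtain ⟨m, hm, hmn⟩ := CfsgLib.TISep.frattini_inf S M' g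
      exact ⟨m, hm, hTI' _ x0 (hSH x0.2) (hSH ((Subgroup.mem_normalizer_iff.mp hmn _).mp x0.2))
        (fun e => hx0 (Subtype.ext e))⟩
    have hM'le : M' ≤ O ⊔ N := by
      refine Subgroup.relIndex_eq_one.mp (by_contra fun h => ?_)
      obtain ⟨s, hs, hsd⟩ := Nat.exists_prime_and_dvd h
      haveI := Fact.mk hs
      have h1 : (O ⊔ N).relIndex M' ∣ (M i.castSucc).relIndex M' :=
        Subgroup.relIndex_dvd_of_le_left _ (hi.trans le_sup_left)
      obtain ⟨S', hS', -⟩ := hin s hs (hsd.trans h1)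
      have h2 : (O ⊔ N).relIndex M' ∣ ((S' : Subgroup G) ⊓ M').relIndex M' :=
        Subgroup.relIndex_dvd_of_le_left _ ((hS'.trans hHN).trans le_sup_right)
      rw [Subgroup.inf_relIndex_right] at h2
      exact S'.not_dvd_index ((hsd.trans h2).trans (CfsgLib.TISep.relIndex_dvd_index_normal _ _))
    refine (Subgroup.eq_top_iff' _).mpr fun g => ?_
    obtain ⟨m, hm, hmn⟩ := hM'N g
    simpa using mul_mem (hM'le hm) (Subgroup.mem_sup_right (S := O) hmn)
  have hOH : (O ⊔ H).Normal := by
    refine Subgroup.normalizer_eq_top_iff.mp (top_le_iff.mp ?_)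
    rw [← hGN]
    refine sup_le (le_sup_left.trans Subgroup.le_normalizer) ?_
    intro g hg
    rw [← CfsgLib.Core.conj_smul_eq_self_iff, CfsgLib.Core.conj_smul_eq_map, Subgroup.map_sup]
    congr 1
    · exact Subgroup.Normal.map_conj_eq O g
    · rw [← CfsgLib.Core.conj_smul_eq_map, CfsgLib.Core.conj_smul_eq_self_iff]; exact hg
  refine ⟨hGN, hOH, fun hG => ⟨inferInstance, fun K hK ⟨e⟩ => ?_⟩, fun ⟨hOs, hno⟩ => ?_⟩
  · haveI : Group.IsSolvable (Matrix.SpecialLinearGroup (Fin 2) (ZMod 5)) :=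
      Group.isSolvable_of_surjective (f := e.toMonoidHom) e.surjective
    haveI : Fact (Nat.Prime 5) := ⟨by norm_num⟩
    exact CfsgLib.Dickson.psl_not_isSolvable (K := ZMod 5) (by rw [ZMod.card]; norm_num)
      (Group.isSolvable_of_surjective (f := QuotientGroup.mk' _) (QuotientGroup.mk'_surjective _))
  haveI := hOs
  obtain ⟨V, hV1, hV2, hV3, σ, hfree⟩ := CfsgLib.TISep.exists_fpf_action H O hTI hOc (fun h => hnn (by
    refine Subgroup.normalizer_eq_top_iff.mp (top_le_iff.mp ?_)
    rw [← hGN]; exact sup_le h le_rfl))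
  haveI : Nontrivial H := (Subgroup.nontrivial_iff_ne_bot H).mpr hH1
  obtain ⟨A, iR, iA, hA, ⟨R⟩⟩ := CfsgLib.FpfQuat.exists_fpfRep_of_aut σ hfree
  have hHs : Group.IsSolvable H := by
    by_contra hns
    obtain ⟨S, M, -, -, -, -, ⟨e⟩, -⟩ := CfsgLib.FpfQuat.nonsolvable_structure R hns
    exact hno _ (Subgroup.map_subtype_le S)
      ⟨(S.equivMapOfInjective _ H.subtype_injective).symm.trans e⟩
  haveI := CfsgLib.TISep.aut_solvable R
  haveI := CfsgLib.TISep.normalizer_solvable H O hOs hHall hOmax hGN hOc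
  haveI : Group.IsSolvable (G ⧸ O) := by
    refine Group.isSolvable_of_surjective (f := (QuotientGroup.mk' O).comp N.subtype) ?_
    rw [← MonoidHom.range_eq_top, MonoidHom.range_comp, Subgroup.range_subtype]
    have := congrArg (Subgroup.map (QuotientGroup.mk' O)) hGN
    rw [Subgroup.map_sup, QuotientGroup.map_mk'_self, bot_sup_eq,
      Subgroup.map_top_of_surjective _ (QuotientGroup.mk'_surjective _)] at this
    exact this
  exact Group.isSolvable_of_ker_le_range O.subtype (QuotientGroup.mk' O) (by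
    rw [QuotientGroup.ker_mk', Subgroup.range_subtype])

end Cfsg.Agent.S4118
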