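import Cfsg.Statements.S4126
import Cfsg.Agent.Lib.FgsPClassNilp

set_option autoImplicit false
open Cfsg

namespace Cfsg.Agent.S4126

/-- Let G be a finite group and p a prime. Suppose every element of order p, and when p = 2 also every element of order 4, has a conjugacy class of p-power size. Then G has a normal p-complement. -/
theorem result {G : Type*} [Group G] [Finite G] (p : ℕ) [Fact p.Prime]
    (h : ∀ x : G, (orderOf x = p ∨ (p = 2 ∧ orderOf x = 4)) → ∃ a : ℕ, (Subgroup.centralizer ({x} : Set G)).index = p ^ a) :
    Cfsg.HasNormalPComplement p G := by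
  have hp : p.Prime := Fact.out
  refine CfsgLib.PClassNilp.hasNormalPComplement fun x hx => ?_
  by_cases h1 : x = 1
  · subst h1
    exact ⟨0, by rw [Subgroup.centralizer_eq_top_iff_subset.2 (by simp), Subgroup.index_top, pow_zero]⟩
  refine h x ?_
  rcases hx with hx | ⟨rfl, hx⟩
  · exact Or.inl (orderOf_eq_prime hx h1)
  · obtain ⟨i, hi, he⟩ := (Nat.dvd_prime_pow Nat.prime_two).1
      (show orderOf x ∣ 2 ^ 2 from orderOf_dvd_of_pow_eq_one hx)
    interval_cases i
    · exact absurd (orderOf_eq_one_iff.1 (by simpa using he)) h1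
    · exact Or.inl (by simpa using he)
    · exact Or.inr ⟨rfl, by simpa using he⟩

end Cfsg.Agent.S4126
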