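import Cfsg.Statements.S4142
import Cfsg.Agent.Lib.InvolBasic

set_option autoImplicit false
open Cfsg

namespace Cfsg.Agent.S4142

/-- Let G be a finite group and N a normal subgroup. Then the conjugacy class of every element g outside N is a union of cosets of N (gn is conjugate to g for all n ∈ N) if and only if for every g outside N the centralizer of g in G has the same order as the centralizer of gN in G/N. -/
theorem result {G : Type*} [Group G] [Finite G] (N : Subgroup G) [N.Normal] :
    (∀ g : G, g ∉ N → ∀ n ∈ N, ∃ x : G, x * g * x⁻¹ = g * n) ↔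
      ∀ g : G, g ∉ N → Nat.card (Subgroup.centralizer ({g} : Set G)) =
        Nat.card (Subgroup.centralizer ({(QuotientGroup.mk g : G ⧸ N)} : Set (G ⧸ N))) := by
  classical
  refine forall_congr' fun g => forall_congr' fun hg => ?_
  set T : Set G := QuotientGroup.mk ⁻¹' {a : G ⧸ N | IsConj (g : G ⧸ N) a} with hT
  have hsub : {x : G | IsConj g x} ⊆ T := fun x hx => by
    show IsConj (g : G ⧸ N) (x : G ⧸ N)
    exact MonoidHom.map_isConj (QuotientGroup.mk' N) hx
  have hcT : Nat.card T = Nat.card N * Nat.card {a : G ⧸ N // IsConj (g : G ⧸ N) a} := by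
    rw [hT, Nat.card_congr (QuotientGroup.preimageMkEquivSubgroupProdSet N _), Nat.card_prod]
    rfl
  have h1 := CfsgLib.Invol.card_isConj_mul_card_centralizer g
  have h2 := CfsgLib.Invol.card_isConj_mul_card_centralizer (g : G ⧸ N)
  have hG : Nat.card G = Nat.card T * Nat.card (Subgroup.centralizer ({(g : G ⧸ N)} : Set (G ⧸ N))) := by
    rw [hcT, Subgroup.card_eq_card_quotient_mul_card_subgroup N, ← h2]
    ring
  rw [← h1] at hG
  constructor
  · intro h
    have heq : {x : G | IsConj g x} = T := Set.Subset.antisymm hsub fun x hx => by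
      obtain ⟨c, hc⟩ := isConj_iff.mp (hx : IsConj (g : G ⧸ N) (x : G ⧸ N))
      obtain ⟨c, rfl⟩ := QuotientGroup.mk_surjective c
      rw [← QuotientGroup.mk_mul, ← QuotientGroup.mk_inv, ← QuotientGroup.mk_mul, QuotientGroup.eq] at hc
      have hn : g⁻¹ * (c⁻¹ * x * c) ∈ N := by
        have := Subgroup.Normal.conj_mem inferInstance _ hc c⁻¹
        simpa [mul_assoc] using this
      obtain ⟨y, hy⟩ := h _ hn
      rw [mul_inv_cancel_left] at hy
      refine isConj_iff.mpr ⟨c * y, ?_⟩
      calc c * y * g * (c * y)⁻¹ = c * (y * g * y⁻¹) * c⁻¹ := by group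
        _ = x := by rw [hy]; group
    have hc : Nat.card {x : G // IsConj g x} = Nat.card T := by rw [← heq]; rfl
    rw [hc] at hG
    haveI : Nonempty T := ⟨⟨g, hsub (IsConj.refl g)⟩⟩
    exact Nat.eq_of_mul_eq_mul_left Nat.card_pos hG
  · intro h n hn
    rw [h] at hG
    have hc : T.ncard ≤ {x : G | IsConj g x}.ncard := by
      rw [← Nat.card_coe_set_eq, ← Nat.card_coe_set_eq]
      exact (Nat.eq_of_mul_eq_mul_right Nat.card_pos hG).ge
    have heq := Set.eq_of_subset_of_ncard_le hsub hc
    have hmem : g * n ∈ T := by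
      show IsConj (g : G ⧸ N) ((g * n : G) : G ⧸ N)
      rw [QuotientGroup.mk_mul, (QuotientGroup.eq_one_iff n).mpr hn, mul_one]
    rw [← heq] at hmem
    exact isConj_iff.mp hmem

end Cfsg.Agent.S4142
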