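import Cfsg.Statements.S4150
import Cfsg.Agent.Lib.PermJordanCycle
import Cfsg.Agent.Lib.FgsTwoPrimeGen
import Cfsg.Agent.Lib.FgsPrimesInterval
import Cfsg.Agent.Lib.FgsDegree13
import Cfsg.Agent.Lib.FgsSmallDegrees

set_option autoImplicit false
open Cfsg

namespace Cfsg.Agent.S4150

open CfsgLib.TwoPrime Equiv Equiv.Perm MulAction

/-- What has to be shown on the set of moved points. -/
def Good (m p q : ℕ) : Prop :=
  ∀ {β : Type} [Fintype β] [DecidableEq β] (x y : Equiv.Perm β), orderOf x = p → orderOf y = q →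
    q ≤ Fintype.card β → Fintype.card β ≤ m →
    IsPreprimitive (Subgroup.closure ({x, y} : Set (Equiv.Perm β))) β →
    IsPretransitive (Subgroup.closure ({x, y} : Set (Equiv.Perm β))) β →
    Subgroup.closure ({x, y} : Set (Equiv.Perm β)) ≤ alternatingGroup β →
    alternatingGroup β ≤ Subgroup.closure ({x, y} : Set (Equiv.Perm β)) ∨
      ∃ d, 5 ≤ d ∧ Nonempty (Subgroup.closure ({x, y} : Set (Equiv.Perm β)) ≃* alternatingGroup (Fin d))

theorem of_good {m p q : ℕ} (hp : p.Prime) (hq : q.Prime) (hp2 : p ≠ 2) (hpq : p < q)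
    (hm : m ≤ 2 * p) (h5 : 5 ≤ q) (h : Good m p q) (x y : alternatingGroup (Fin m))
    (hx : orderOf x = p) (hy : orderOf y = q) :
    ∃ d : ℕ, 5 ≤ d ∧ Nonempty (Subgroup.closure ({x, y} : Set (alternatingGroup (Fin m))) ≃* alternatingGroup (Fin d)) := by
  classical
  set xx : Equiv.Perm (Fin m) := (x : Equiv.Perm (Fin m)) with hxx
  set yy : Equiv.Perm (Fin m) := (y : Equiv.Perm (Fin m)) with hyy
  let P : Fin m → Prop := fun z => xx z ≠ z ∨ yy z ≠ z
  have hinv : ∀ (a b : Equiv.Perm (Fin m)), ∀ z, (a (a z) ≠ a z ∨ b (a z) ≠ a z) ↔ (a z ≠ z ∨ b z ≠ z) := by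
    intro a b z
    by_cases hz : a z = z
    · rw [hz, hz]
    · simp only [ne_eq, hz, not_false_eq_true, true_or, iff_true]
      exact Or.inl fun e => hz (a.injective e)
  have hPx : ∀ z, P (xx z) ↔ P z := fun z => hinv xx yy z
  have hPy : ∀ z, P (yy z) ↔ P z := fun z => by
    have := hinv yy xx z
    simp only [P]
    rw [or_comm, this, or_comm]
  set x' := xx.subtypePerm hPx with hx'
  set y' := yy.subtypePerm hPy with hy'
  have ex : Equiv.Perm.ofSubtype x' = xx := ofSubtype_subtypePerm hPx fun z hz => Or.inl hz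
  have ey : Equiv.Perm.ofSubtype y' = yy := ofSubtype_subtypePerm hPy fun z hz => Or.inr hz
  have hox : orderOf x' = p := by
    rw [← orderOf_injective _ (Equiv.Perm.ofSubtype_injective (p := P)) x', ex, hxx, Subgroup.orderOf_coe, hx]
  have hoy : orderOf y' = q := by
    rw [← orderOf_injective _ (Equiv.Perm.ofSubtype_injective (p := P)) y', ey, hyy, Subgroup.orderOf_coe, hy]
  have hdm : Fintype.card {z // P z} ≤ m := (Fintype.card_subtype_le _).trans (Fintype.card_fin m).le
  have hlarge : Fintype.card {z // P z} < 2 * q := by omega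
  have hdq : q ≤ Fintype.card {z // P z} :=
    (isCycle_of_large hq hoy hlarge).2 ▸ Finset.card_le_univ _
  have hcov : ∀ z : {z // P z}, x' z ≠ z ∨ y' z ≠ z := fun z =>
    z.2.imp (fun h e => h (congrArg Subtype.val e)) (fun h e => h (congrArg Subtype.val e))
  obtain ⟨ht, hprim⟩ := pretransitive_and_primitive x' y' hp hq hox hoy hlarge (by omega) hcov
  have heven := closure_le_alternating x' y' (hox ▸ hp.odd_of_ne_two hp2) (hoy ▸ hq.odd_of_ne_two (by omega))
  rcases h x' y' hox hoy hdq hdm hprim ht heven with hA | ⟨d, hd, ⟨e⟩⟩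
  · exact ⟨_, le_trans h5 hdq, nonempty_mulEquiv_closure x y x' y' ex ey (le_antisymm heven hA)⟩
  · refine ⟨d, hd, ⟨MulEquiv.trans ?_ e⟩⟩
    have h1 : (Subgroup.closure ({x, y} : Set (alternatingGroup (Fin m)))).map (alternatingGroup (Fin m)).subtype =
        (Subgroup.closure ({x', y'} : Set (Equiv.Perm {z // P z}))).map Equiv.Perm.ofSubtype := by
      rw [MonoidHom.map_closure, MonoidHom.map_closure, Set.image_pair, Set.image_pair, ex, ey]
      rfl
    exact ((Subgroup.equivMapOfInjective _ _ (Subgroup.subtype_injective _)).trans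
      (MulEquiv.subgroupCongr h1)).trans
      (Subgroup.equivMapOfInjective _ _ Equiv.Perm.ofSubtype_injective).symm

theorem cycle_or_double {β : Type} [Fintype β] [DecidableEq β] {x : Equiv.Perm β} {p : ℕ} (hp : p.Prime)
    (hx : orderOf x = p) (h : Fintype.card β ≤ 2 * p) :
    (x.IsCycle ∧ x.support.card = p) ∨ 2 * p ≤ Fintype.card β := by
  rcases eq_or_lt_of_le h with h | h
  · exact Or.inr h.ge
  · exact Or.inl (isCycle_of_large hp hx h)

theorem good_general {m p q : ℕ} (hp : p.Prime) (hq : q.Prime) (hm : m ≤ 2 * p) (hpq : p + 3 ≤ q)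
    (hside : m < 2 * p ∨ q + 3 ≤ 2 * p) (hmq : m < 2 * q) : Good m p q := by
  intro β _ _ x y hx hy hd hdm hprim _ _
  left
  have hxK : x ∈ Subgroup.closure ({x, y} : Set (Equiv.Perm β)) := Subgroup.subset_closure (Or.inl rfl)
  have hyK : y ∈ Subgroup.closure ({x, y} : Set (Equiv.Perm β)) := Subgroup.subset_closure (Or.inr rfl)
  rcases cycle_or_double hp hx (by omega) with ⟨hc, hs⟩ | h2
  · exact CfsgLib.Perm.alternatingGroup_le_of_prime_cycle hprim hp
      (by rw [Nat.card_eq_fintype_card]; omega) hc hs hxK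
  · obtain ⟨hc, hs⟩ := isCycle_of_large hq hy (by omega)
    exact CfsgLib.Perm.alternatingGroup_le_of_prime_cycle hprim hq
      (by rw [Nat.card_eq_fintype_card]; omega) hc hs hyK

theorem good_thirteen {m : ℕ} (hm : m ≤ 16) : Good m 11 13 := by
  intro β _ _ x y hx hy hd hdm hprim _ heven
  left
  have hxK : x ∈ Subgroup.closure ({x, y} : Set (Equiv.Perm β)) := Subgroup.subset_closure (Or.inl rfl)
  obtain ⟨hc, hs⟩ := isCycle_of_large (by norm_num : Nat.Prime 11) hx (by omega)
  by_cases h13 : Fintype.card β = 13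
  · exact alternatingGroup_le_degree13 _ h13 hprim heven hxK hc hs
  · exact CfsgLib.Perm.alternatingGroup_le_of_prime_cycle hprim (by norm_num : Nat.Prime 11)
      (by rw [Nat.card_eq_fintype_card]; omega) hc hs hxK

theorem good_seven {m : ℕ} (hm : m ≤ 10) : Good m 5 7 := by
  intro β _ _ x y hx hy hd hdm hprim _ heven
  left
  have hxK : x ∈ Subgroup.closure ({x, y} : Set (Equiv.Perm β)) := Subgroup.subset_closure (Or.inl rfl)
  have hyK : y ∈ Subgroup.closure ({x, y} : Set (Equiv.Perm β)) := Subgroup.subset_closure (Or.inr rfl)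
  rcases cycle_or_double (by norm_num : Nat.Prime 5) hx (by omega) with ⟨hc, hs⟩ | h2
  · by_cases h7 : Fintype.card β = 7
    · exact degree_seven _ h7 hprim heven hxK hc hs
    · exact CfsgLib.Perm.alternatingGroup_le_of_prime_cycle hprim (by norm_num : Nat.Prime 5)
        (by rw [Nat.card_eq_fintype_card]; omega) hc hs hxK
  · obtain ⟨hc, hs⟩ := isCycle_of_large (by norm_num : Nat.Prime 7) hy (by omega)
    exact CfsgLib.Perm.alternatingGroup_le_of_prime_cycle hprim (by norm_num : Nat.Prime 7)
      (by rw [Nat.card_eq_fintype_card]; omega) hc hs hyK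

theorem good_five {m : ℕ} (hm : m ≤ 6) : Good m 3 5 := by
  intro β _ _ x y hx hy hd hdm hprim ht heven
  have hxK : x ∈ Subgroup.closure ({x, y} : Set (Equiv.Perm β)) := Subgroup.subset_closure (Or.inl rfl)
  have hyK : y ∈ Subgroup.closure ({x, y} : Set (Equiv.Perm β)) := Subgroup.subset_closure (Or.inr rfl)
  rcases cycle_or_double Nat.prime_three hx (by omega) with ⟨hc, hs⟩ | h2
  · exact Or.inl (alternatingGroup_le_of_isPreprimitive_of_isThreeCycle_mem hprim
      (card_support_eq_three_iff.mp hs) hxK)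
  · rcases degree_six _ (by omega) ht heven hyK hy hxK hx with h | h
    · exact Or.inl h.ge
    · exact Or.inr ⟨5, le_rfl, h⟩

/-- Let m ≥ 5. Then there are primes p < q with m/2 ≤ p and q ≤ m such that any two elements x, y of the alternating group of degree m with x of order p and y of order q generate a subgroup isomorphic to an alternating group of some degree d ≥ 5. -/
theorem result (m : ℕ) (hm : 5 ≤ m) :
    ∃ p q : ℕ, p.Prime ∧ q.Prime ∧ m ≤ 2 * p ∧ p < q ∧ q ≤ m ∧
      ∀ x y : alternatingGroup (Fin m), orderOf x = p → orderOf y = q →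
        ∃ d : ℕ, 5 ≤ d ∧ Nonempty (Subgroup.closure ({x, y} : Set (alternatingGroup (Fin m))) ≃* alternatingGroup (Fin d)) := by
  by_cases h6 : m ≤ 6
  · exact ⟨3, 5, Nat.prime_three, by norm_num, by omega, by norm_num, by omega, fun x y =>
      of_good Nat.prime_three (by norm_num) (by norm_num) (by norm_num) (by omega) le_rfl (good_five h6) x y⟩
  by_cases h10 : m ≤ 10
  · exact ⟨5, 7, by norm_num, by norm_num, by omega, by norm_num, by omega, fun x y =>
      of_good (by norm_num) (by norm_num) (by norm_num) (by norm_num) (by omega) (by norm_num)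
        (good_seven h10) x y⟩
  by_cases h16 : m = 15 ∨ m = 16
  · exact ⟨11, 13, by norm_num, by norm_num, by omega, by norm_num, by omega, fun x y =>
      of_good (by norm_num) (by norm_num) (by norm_num) (by norm_num) (by omega) (by norm_num)
        (good_thirteen (by omega)) x y⟩
  push_neg at h16
  obtain ⟨p, q, hp, hq, hmp, hpq, hqm, hside⟩ := CfsgLib.PrimeInterval.exists_pair (m := m) (by omega) h16.1 h16.2
  exact ⟨p, q, hp, hq, hmp, by omega, hqm, fun x y =>
    of_good hp hq (by omega) (by omega) hmp (by omega) (good_general hp hq hmp hpq hside (by omega)) x y⟩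

end Cfsg.Agent.S4150
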