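import Cfsg.Statements.S4151
import Cfsg.Agent.Lib.FgsTIHall

set_option autoImplicit false
open Cfsg

namespace Cfsg.Agent.S4151

/-- Let G be a finite group and H a non-normal subgroup meeting each of its conjugates by elements outside N_G(H) trivially, with the order of H coprime to its index in N_G(H), such that G is π-separable for π the set of primes dividing the order of H (G has a chain of normal subgroups from 1 to G each of whose factors has order divisible only by primes dividing the order of H or coprime to it). Suppose a Sylow 2-subgroup of H is abelian and Q is a complement of H in N_G(H). Then C_H(Q), the subgroup of elements of H commuting with Q, has order coprime to its index in G and has a normal complement in G. -/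
theorem result {G : Type*} [Group G] [Finite G] (H : Subgroup G)
    (hTI : Cfsg.IsTISubset (H : Set G)) (hnn : ¬ H.Normal)
    (hHall : (Nat.card H).Coprime (H.subgroupOf (Subgroup.normalizer (H : Set G))).index)
    (hsep : ∃ (n : ℕ) (M : Fin (n + 1) → Subgroup G), M 0 = ⊥ ∧ M (Fin.last n) = ⊤ ∧ Monotone M ∧ (∀ i, (M i).Normal) ∧
      ∀ i : Fin n, (∀ q : ℕ, q.Prime → q ∣ (M i.castSucc).relIndex (M i.succ) → q ∣ Nat.card H) ∨
        ((M i.castSucc).relIndex (M i.succ)).Coprime (Nat.card H))
    (h2 : ∀ P : Sylow 2 H, IsMulCommutative (P : Subgroup H))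
    (Q : Subgroup G) (hQ : Q ≤ Subgroup.normalizer (H : Set G)) (hQH : Q ⊓ H = ⊥) (hQH' : Q ⊔ H = Subgroup.normalizer (H : Set G)) :
    (Nat.card ↥(H ⊓ Subgroup.centralizer (Q : Set G))).Coprime (H ⊓ Subgroup.centralizer (Q : Set G)).index ∧
    ∃ N : Subgroup G, N.Normal ∧ N.IsComplement' (H ⊓ Subgroup.centralizer (Q : Set G)) := by
  classical
  set O := sSup {K : Subgroup G | K.Normal ∧ (Nat.card K).Coprime (Nat.card H)} with hOdef
  haveI hOn : O.Normal := by
    rw [hOdef, sSup_eq_iSup']
    exact @Subgroup.iSup_normal _ _ _ _ fun K => K.2.1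
  have hO : (Nat.card O).Coprime (Nat.card H) := by
    refine Nat.coprime_of_dvd fun r hr hr1 hr2 => ?_
    have h := CfsgLib.Core.isPiNat_card_sSup {q : ℕ | ¬ q ∣ Nat.card H}
      {K : Subgroup G | K.Normal ∧ (Nat.card K).Coprime (Nat.card H)} (fun K hK => hK.1)
      (fun K hK q hq hqK hqH => hq.ne_one (Nat.eq_one_of_dvd_coprimes hK.2 hqK hqH))
    exact h r hr hr1 hr2
  have hcoH := CfsgLib.TIHall.hall_of_TI H hTI hHall
  have hON := CfsgLib.TIHall.sup_normalizer_eq_top H hTI hnn hcoH hsep O hO
    fun K hK hK' => le_sSup ⟨hK, hK'⟩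
  haveI := CfsgLib.TIHall.isZGroup_of_TI H hTI hnn h2 O hO hON
  set N := Subgroup.normalizer (H : Set G) with hN
  have hHN : H ≤ N := Subgroup.le_normalizer
  have hcopQ : (Nat.card Q).Coprime (Nat.card H) := by
    refine hHall.symm.coprime_dvd_left ?_
    have h1 := CfsgLib.Core.card_sup_of_disjoint (A := Q) (K := H) hQ hQH
    rw [hQH'] at h1
    refine dvd_of_eq (Nat.eq_of_mul_eq_mul_left (Nat.card_pos (α := H)) ?_)
    show _ = Nat.card H * (H.relIndex N)
    rw [CfsgLib.Core.card_mul_relIndex hHN, mul_comm, h1]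
  have hsol : Group.IsSolvable H := inferInstance
  set C := H ⊓ Subgroup.centralizer (Q : Set G) with hC
  set M := ⁅H, Q⁆ with hM
  have hMH : M ≤ H := CfsgLib.Core.commutator_le_of_le_normalizer hQ
  have hHMC : M ⊔ C = H := CfsgLib.Core.commutator_sup_centralizer hQ hcopQ (Or.inr hsol)
  have hCM : (Nat.card C).Coprime (Nat.card M) :=
    CfsgLib.TIHall.coprime_fixed_commutator H Q hQ hcopQ
  have hCH : Nat.card C ∣ Nat.card H := Subgroup.card_dvd_of_le inf_le_left
  have hQM : Q ≤ Subgroup.normalizer (M : Set G) := CfsgLib.Core.le_normalizer_commutator_right H Q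
  set N₀ := O ⊔ (Q ⊔ M) with hN₀
  have hCn : C ≤ Subgroup.normalizer (N₀ : Set G) :=
    CfsgLib.Core.le_normalizer_sup (le_top.trans (Subgroup.normalizer_eq_top O).ge)
      (CfsgLib.Core.le_normalizer_sup
        (le_trans (inf_le_right : C ≤ Subgroup.centralizer (Q : Set G))
          (CfsgLib.Core.centralizer_le_normalizer Q))
        (inf_le_left.trans (CfsgLib.Core.le_normalizer_commutator_left H Q)))
  have hN₀C : N₀ ⊔ C = ⊤ := by
    rw [hN₀, sup_assoc, sup_assoc, hHMC, hQH', hON]
  haveI hN₀n : N₀.Normal := by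
    rw [← Subgroup.normalizer_eq_top_iff, eq_top_iff]
    exact hN₀C.ge.trans (sup_le Subgroup.le_normalizer hCn)
  have hcop : (Nat.card N₀).Coprime (Nat.card C) := by
    have h1 : Nat.card N₀ ∣ Nat.card O * (Nat.card Q * Nat.card M) :=
      (by
        rw [hN₀, sup_comm, mul_comm]
        exact CfsgLib.Core.card_sup_dvd_mul (le_top.trans (Subgroup.normalizer_eq_top O).ge) :
        Nat.card N₀ ∣ Nat.card O * Nat.card (Q ⊔ M : Subgroup G)).trans
        (mul_dvd_mul_left _ (CfsgLib.Core.card_sup_dvd_mul hQM))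
    exact ((hO.coprime_dvd_right hCH).mul_left
      ((hcopQ.coprime_dvd_right hCH).mul_left hCM.symm)).coprime_dvd_left h1
  have hdis : N₀ ⊓ C = ⊥ := CfsgLib.Core.inf_eq_bot_of_coprime hcop
  have hcompl : N₀.IsComplement' C :=
    Subgroup.isComplement'_of_disjoint_and_mul_eq_univ (disjoint_iff.2 hdis) (by
      rw [← Subgroup.normal_mul, hN₀C, Subgroup.coe_top])
  refine ⟨?_, N₀, hN₀n, hcompl⟩
  rw [hcompl.index_eq_card]
  exact hcop.symm

end Cfsg.Agent.S4151
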