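import Cfsg.Statements.S4153
import Mathlib

set_option autoImplicit false
open Cfsg

namespace Cfsg.Agent.S4153

/-- Let G be a finite group, p a prime, N a normal subgroup, P a Sylow p-subgroup of G and P̄ a Sylow p-subgroup of G/N. Count the elements of p-power order, the identity included. Then (number of such elements of G/N)/#P̄ ≤ (number of such elements of G)/#P, stated as a cross-multiplied inequality, with equality when N is central. -/
theorem result {G : Type*} [Group G] [Finite G] (p : ℕ) [Fact p.Prime] (N : Subgroup G) [N.Normal]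
    (P : Sylow p G) (Pbar : Sylow p (G ⧸ N)) :
    Nat.card {g : (G ⧸ N) // ∃ k : ℕ, orderOf g = p ^ k} * Nat.card (P : Subgroup G) ≤ Nat.card {g : G // ∃ k : ℕ, orderOf g = p ^ k} * Nat.card (Pbar : Subgroup (G ⧸ N)) ∧
    (N ≤ Subgroup.center G → Nat.card {g : (G ⧸ N) // ∃ k : ℕ, orderOf g = p ^ k} * Nat.card (P : Subgroup G) = Nat.card {g : G // ∃ k : ℕ, orderOf g = p ^ k} * Nat.card (Pbar : Subgroup (G ⧸ N))) := by
  classical
  have hp : p.Prime := Fact.out
  obtain ⟨SN⟩ : Nonempty (Sylow p N) := inferInstance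
  set s := Nat.card SN with hsdef
  have hf : ∀ (X : Type _) [Group X] (g : X) [Finite X], (∃ k, g ^ p ^ k = 1) → ∃ k : ℕ, orderOf g = p ^ k := by
    rintro X _ g _ ⟨k, hk⟩
    obtain ⟨j, -, hj⟩ := (Nat.dvd_prime_pow hp).mp (orderOf_dvd_of_pow_eq_one hk)
    exact ⟨j, hj⟩
  have hP : Nat.card (P : Subgroup G) = Nat.card (Pbar : Subgroup (G ⧸ N)) * s := by
    rw [P.card_eq_multiplicity, Pbar.card_eq_multiplicity, hsdef, SN.card_eq_multiplicity,
      N.card_eq_card_quotient_mul_card_subgroup,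
      Nat.factorization_mul Nat.card_pos.ne' Nat.card_pos.ne', Finsupp.add_apply, pow_add]
  have lift : ∀ x : {g : G ⧸ N // ∃ k : ℕ, orderOf g = p ^ k},
      ∃ (g : G) (D : Subgroup G), (g : G ⧸ N) = x.1 ∧ D ≤ N ∧ Nat.card D = s ∧
        ∀ u ∈ D, ∃ k : ℕ, orderOf (g * u) = p ^ k := by
    rintro ⟨x, j, hj⟩
    set C := Subgroup.zpowers x with hC
    set f := QuotientGroup.mk' N
    set H := C.comap f with hH
    have hNH : N ≤ H := fun n hn => by
      show f n ∈ C
      rw [show f n = 1 from (QuotientGroup.eq_one_iff n).mpr hn]; exact one_mem _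
    obtain ⟨S⟩ : Nonempty (Sylow p H) := inferInstance
    set T := (S : Subgroup H).map H.subtype with hT
    have hTp : IsPGroup p T := S.2.map _
    have hHc : Nat.card H = p ^ j * Nat.card N := by
      rw [← Subgroup.card_mul_index (N.subgroupOf H), Nat.card_congr (Subgroup.subgroupOfEquivOfLe hNH).toEquiv,
        mul_comm]
      congr 1
      rw [← hj, ← Nat.card_zpowers]
      have e : (N.subgroupOf H).index = Nat.card (H.map f) := by
        show N.relIndex H = _
        rw [← Subgroup.relIndex_bot_left, ← Subgroup.relIndex_comap, MonoidHom.comap_bot, QuotientGroup.ker_mk']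
      rw [e, hH, Subgroup.map_comap_eq_self_of_surjective (QuotientGroup.mk'_surjective N)]
    have hTc : Nat.card T = p ^ j * s := by
      rw [hT, Subgroup.card_subtype, S.card_eq_multiplicity, hHc, hsdef, SN.card_eq_multiplicity,
        Nat.factorization_mul (pow_ne_zero _ hp.ne_zero) Nat.card_pos.ne', Finsupp.add_apply,
        hp.factorization_pow, Finsupp.single_eq_same, pow_add]
    have hmapc : T.map f ≤ C := Subgroup.map_le_iff_le_comap.mpr (Subgroup.map_subtype_le _)
    have hD : Nat.card ↥(T ⊓ N) ∣ s := by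
      obtain ⟨i, hi⟩ := IsPGroup.iff_card.mp (hTp.to_le (inf_le_left : T ⊓ N ≤ T))
      rw [hsdef, SN.card_eq_multiplicity, hi]
      refine pow_dvd_pow p ((hp.pow_dvd_iff_le_factorization Nat.card_pos.ne').mp ?_)
      rw [← hi]
      exact Subgroup.card_dvd_of_le inf_le_right
    have hprod : Nat.card T = Nat.card ↥(T ⊓ N) * Nat.card (T.map f) := by
      rw [← Subgroup.card_mul_index (N.subgroupOf T), ← Subgroup.inf_subgroupOf_right N T,
        Nat.card_congr (Subgroup.subgroupOfEquivOfLe (inf_le_right : N ⊓ T ≤ T)).toEquiv, inf_comm]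
      congr 1
      rw [inf_comm, Subgroup.inf_subgroupOf_right]
      show N.relIndex T = _
      rw [← Subgroup.relIndex_bot_left (T.map f), ← Subgroup.relIndex_comap ⊥ f T, MonoidHom.comap_bot, QuotientGroup.ker_mk']
    have hcm : Nat.card (T.map f) ∣ p ^ j := by
      rw [← hj, ← Nat.card_zpowers]; exact Subgroup.card_dvd_of_le hmapc
    rw [hTc] at hprod
    have hspos : 0 < s := Nat.card_pos
    have hDle := Nat.le_of_dvd hspos hD
    have hcmle := Nat.le_of_dvd (pow_pos hp.pos j) hcm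
    have hpos2 : 0 < Nat.card (T.map f) := Nat.card_pos
    have hDeq : Nat.card ↥(T ⊓ N) = s := by nlinarith [pow_pos hp.pos j]
    have hmeq : Nat.card (T.map f) = p ^ j := by
      rw [hDeq, mul_comm (p ^ j)] at hprod
      exact (Nat.eq_of_mul_eq_mul_left hspos hprod).symm
    have hxT : x ∈ T.map f := by
      rw [Subgroup.eq_of_le_of_card_ge hmapc (by rw [hmeq, hC, Nat.card_zpowers, hj])]
      exact Subgroup.mem_zpowers x
    obtain ⟨g, hg, rfl⟩ := hxT
    refine ⟨g, T ⊓ N, rfl, inf_le_right, hDeq, fun u hu => ?_⟩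
    obtain ⟨k, hk⟩ := hTp ⟨g * u, mul_mem hg hu.1⟩
    exact hf G _ ⟨k, by have := congrArg (fun z : T => (z : G)) hk; simpa using this⟩
  choose g D hgx hDN hDc hgu using lift
  let e : (Σ x : {g : G ⧸ N // ∃ k : ℕ, orderOf g = p ^ k}, D x) → {g : G // ∃ k : ℕ, orderOf g = p ^ k} :=
    fun z => ⟨g z.1 * z.2.1, hgu z.1 z.2.1 z.2.2⟩
  have he : Function.Injective e := by
    rintro ⟨x, u, hu⟩ ⟨x', u', hu'⟩ h
    have h' : g x * u = g x' * u' := congrArg Subtype.val h
    have hu1 : ((u : G) : G ⧸ N) = 1 := (QuotientGroup.eq_one_iff u).mpr (hDN x hu)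
    have hu1' : ((u' : G) : G ⧸ N) = 1 := (QuotientGroup.eq_one_iff u').mpr (hDN x' hu')
    have hx : x = x' := by
      apply Subtype.ext
      have := congrArg (fun z : G => (z : G ⧸ N)) h'
      simpa [hu1, hu1', hgx] using this
    subst hx
    obtain rfl : u = u' := mul_left_cancel h'
    rfl
  haveI := Fintype.ofFinite {g : G ⧸ N // ∃ k : ℕ, orderOf g = p ^ k}
  have hsig : Nat.card (Σ x : {g : G ⧸ N // ∃ k : ℕ, orderOf g = p ^ k}, D x) =
      Nat.card {g : G ⧸ N // ∃ k : ℕ, orderOf g = p ^ k} * s := by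
    rw [Nat.card_sigma, Finset.sum_congr rfl fun x _ => hDc x, Finset.sum_const, Finset.card_univ,
      Nat.card_eq_fintype_card, smul_eq_mul]
  refine ⟨?_, fun hZ => ?_⟩
  · rw [hP, mul_comm (Nat.card (Pbar : Subgroup (G ⧸ N))) s, ← mul_assoc, ← hsig]
    exact Nat.mul_le_mul_right _ (Nat.card_le_card_of_injective e he)
  · have hsur : Function.Surjective e := by
      rintro ⟨h, k, hk⟩
      have hx : ∃ k : ℕ, orderOf (h : G ⧸ N) = p ^ k := hf _ _ ⟨k, by
        rw [← QuotientGroup.mk_pow, ← hk, pow_orderOf_eq_one, QuotientGroup.mk_one]⟩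
      set x : {g : G ⧸ N // ∃ k : ℕ, orderOf g = p ^ k} := ⟨(h : G ⧸ N), hx⟩
      have hn : (g x)⁻¹ * h ∈ N := QuotientGroup.eq.mp (hgx x)
      obtain ⟨k', hk'⟩ : ∃ k, orderOf (g x) = p ^ k := by
        obtain ⟨k', hk'⟩ := hgu x 1 (one_mem _)
        exact ⟨k', by rwa [mul_one] at hk'⟩
      set n := (g x)⁻¹ * h with hndef
      have hcomm : Commute h (g x) := by
        have : h = g x * n := by rw [hndef, mul_inv_cancel_left]
        rw [this]
        exact (Commute.refl _).mul_left (Subgroup.mem_center_iff.mp (hZ hn) (g x)).symm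
      have hnp : n ^ p ^ (k + k') = 1 := by
        rw [hndef, (hcomm.inv_right).symm.mul_pow, inv_pow, pow_add]
        conv_lhs => rw [pow_mul h, ← hk, pow_orderOf_eq_one, one_pow, mul_one, mul_comm, pow_mul, ← hk',
          pow_orderOf_eq_one, one_pow, inv_one]
      haveI : IsMulCommutative N := ⟨⟨fun a b => Subtype.ext (Subgroup.mem_center_iff.mp (hZ b.2) a)⟩⟩
      haveI hSn : (SN : Subgroup N).Normal :=
        ⟨fun a ha b => by rw [mul_comm' b a, mul_inv_cancel_right]; exact ha⟩
      haveI := Sylow.unique_of_normal SN hSn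
      have hmemN : ∀ u : N, (∃ i, u ^ p ^ i = 1) → u ∈ (SN : Subgroup N) := by
        rintro u ⟨i, hi⟩
        obtain ⟨j, -, hj⟩ := (Nat.dvd_prime_pow hp).mp (orderOf_dvd_of_pow_eq_one hi)
        obtain ⟨S, hS⟩ := (IsPGroup.of_card (p := p) (n := j) (G := Subgroup.zpowers u)
          (by rw [Nat.card_zpowers, hj])).exists_le_sylow
        rw [Subsingleton.elim SN S]; exact hS (Subgroup.mem_zpowers u)
      have hDS : D x = (SN : Subgroup N).map N.subtype := by
        refine Subgroup.eq_of_le_of_card_ge (fun u hu => ⟨⟨u, hDN x hu⟩, hmemN _ ?_, rfl⟩)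
          (le_of_eq (by rw [Subgroup.card_subtype, hDc x]))
        obtain ⟨i, hi⟩ := hgu x u hu
        refine ⟨i + k', Subtype.ext ?_⟩
        push_cast
        have hc : Commute (g x) u := Subgroup.mem_center_iff.mp (hZ (hDN x hu)) (g x)
        have e1 : u = (g x)⁻¹ * (g x * u) := (inv_mul_cancel_left _ _).symm
        rw [e1, ((Commute.refl (g x)).mul_right hc).inv_left.mul_pow, inv_pow, pow_add]
        conv_lhs => rw [pow_mul (g x * u), ← hi, pow_orderOf_eq_one, one_pow, mul_one, mul_comm, pow_mul, ← hk',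
          pow_orderOf_eq_one, one_pow, inv_one]
      exact ⟨⟨x, n, hDS ▸ ⟨⟨n, hn⟩, hmemN _ ⟨k + k', Subtype.ext (by push_cast; exact hnp)⟩, rfl⟩⟩,
        Subtype.ext (mul_inv_cancel_left _ _)⟩
    rw [hP, mul_comm (Nat.card (Pbar : Subgroup (G ⧸ N))) s, ← mul_assoc, ← hsig,
      Nat.card_congr (Equiv.ofBijective e ⟨he, hsur⟩)]

end Cfsg.Agent.S4153
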