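import Cfsg.Statements.S4154


set_option autoImplicit false
open Cfsg

namespace Cfsg.Agent.S4154

/-- Let G be a finite group and α an automorphism of G such that every element of G is the product of an element fixed by α and an element of the form g⁻¹α(g). If N is a normal α-invariant subgroup, then the automorphism ᾱ induced on G/N has the same property, and every coset fixed by ᾱ contains an element fixed by α (so the fixed points of ᾱ are the images of the fixed points of α). -/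
theorem result {G : Type*} [Group G] [Finite G] (α : MulAut G)
    (hccp : ∀ x : G, ∃ c g : G, α c = c ∧ x = c * (g⁻¹ * α g))
    (N : Subgroup G) [N.Normal] (hN : ∀ n ∈ N, α n ∈ N) :
    (∀ x : G, ∃ c g : G, c⁻¹ * α c ∈ N ∧ x⁻¹ * (c * (g⁻¹ * α g)) ∈ N) ∧
    (∀ x : G, x⁻¹ * α x ∈ N → ∃ c : G, α c = c ∧ c⁻¹ * x ∈ N) := by
  have hN' : ∀ n ∈ N, α.symm n ∈ N := by
    intro n hn
    have hs : Function.Surjective (fun m : N => (⟨α m, hN m m.2⟩ : N)) :=
      Finite.injective_iff_surjective.mp fun a b h => Subtype.ext (α.injective (congrArg Subtype.val h))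
    obtain ⟨m, hm⟩ := hs ⟨n, hn⟩
    have e : α (m : G) = n := congrArg Subtype.val hm
    rw [← e, MulEquiv.symm_apply_apply]
    exact m.2
  have hmap : N.map α.toMonoidHom = N := le_antisymm (by rintro _ ⟨n, hn, rfl⟩; exact hN n hn)
    fun n hn => ⟨α.symm n, hN' n hn, α.apply_symm_apply n⟩
  refine ⟨fun x => ?_, ?_⟩
  · obtain ⟨c, g, hc, rfl⟩ := hccp x
    exact ⟨c, g, by rw [hc, inv_mul_cancel]; exact one_mem _, by rw [inv_mul_cancel]; exact one_mem _⟩
  let β : MulAut (G ⧸ N) := QuotientGroup.congr N N α hmap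
  have hβ : ∀ x : G, β (x : G ⧸ N) = ((α x : G) : G ⧸ N) := fun x => QuotientGroup.congr_mk _ _ _ _ x
  let D : Subgroup (G ⧸ N) := β.toMonoidHom.eqLocus (MonoidHom.id _)
  have hD : ∀ z, z ∈ D ↔ β z = z := fun z => Iff.rfl
  let C : Subgroup G := α.toMonoidHom.eqLocus (MonoidHom.id _)
  have hC : ∀ z, z ∈ C ↔ α z = z := fun z => Iff.rfl
  set C' := C.map (QuotientGroup.mk' N) with hC'
  have hle : C' ≤ D := by
    rintro _ ⟨c, hc, rfl⟩
    rw [hD]
    exact (hβ c).trans (congrArg _ ((hC c).mp hc))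
  let F : C' × ((G ⧸ N) ⧸ D) → G ⧸ N := fun p => (p.1 : G ⧸ N) * (p.2.out * β p.2.out⁻¹)
  have hF : Function.Surjective F := by
    intro z
    obtain ⟨x, rfl⟩ := QuotientGroup.mk_surjective z
    obtain ⟨c, g, hc, rfl⟩ := hccp x
    refine ⟨(⟨_, Subgroup.mem_map_of_mem _ ((hC c).mpr hc)⟩, ((g⁻¹ : G) : G ⧸ N)), ?_⟩
    obtain ⟨d, hd⟩ := QuotientGroup.mk_out_eq_mul D ((g⁻¹ : G) : G ⧸ N)
    have hd' := (hD d).mp d.2
    simp only [F]
    rw [hd, mul_inv_rev, map_mul, map_inv β (d : G ⧸ N), hd']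
    simp [hβ, mul_assoc]
  have hcard := Nat.card_le_card_of_surjective F hF
  rw [Nat.card_prod, Subgroup.card_eq_card_quotient_mul_card_subgroup D, mul_comm (Nat.card C')] at hcard
  have heq : C' = D := Subgroup.eq_of_le_of_card_ge hle (Nat.le_of_mul_le_mul_left hcard Nat.card_pos)
  intro x hx
  have hxD : (x : G ⧸ N) ∈ D := by
    rw [hD, hβ]
    exact (QuotientGroup.eq.mpr hx).symm
  obtain ⟨c, hc, hcx⟩ := heq.ge hxD
  exact ⟨c, (hC c).mp hc, QuotientGroup.eq.mp hcx⟩

end Cfsg.Agent.S4154
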