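import Cfsg.Statements.S4156
import Mathlib

set_option autoImplicit false
open Cfsg

namespace Cfsg.Agent.S4156

/-- Let n ≥ 5 and F a finite field. Then the projective special linear group PSL_n(F) contains a subgroup isomorphic to the alternating group of degree n + 1. -/
theorem result (n : ℕ) (hn : 5 ≤ n) (F : Type*) [Field F] [Finite F] :
    ∃ f : alternatingGroup (Fin (n + 1)) →* Matrix.ProjectiveSpecialLinearGroup (Fin n) F, Function.Injective f := by
  classical
  let L : Fin (n + 1) := Fin.last n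
  let M : Equiv.Perm (Fin (n + 1)) → Matrix (Fin n) (Fin n) F := fun σ j i =>
    (if σ i.castSucc = j.castSucc then 1 else 0) - (if σ L = j.castSucc then 1 else 0)
  have hmul : ∀ σ τ, M (σ * τ) = M σ * M τ := by
    intro σ τ
    ext j i
    rw [Matrix.mul_apply]
    set c : Fin (n + 1) → F := fun k =>
      (if σ k = j.castSucc then 1 else 0) - (if σ L = j.castSucc then 1 else 0) with hc
    have h1 : ∑ k : Fin n, M σ j k * M τ k i = ∑ k : Fin (n + 1),
        c k * ((if τ i.castSucc = k then 1 else 0) - (if τ L = k then 1 else 0)) := by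
      rw [Fin.sum_univ_castSucc]
      have : c (Fin.last n) = 0 := by simp [hc, L]
      rw [this, zero_mul, add_zero]
    rw [h1]
    simp only [mul_sub, mul_ite, mul_one, mul_zero, Finset.sum_sub_distrib, Finset.sum_ite_eq,
      Finset.mem_univ, if_true]
    simp [M, hc]
    congr
  have hone : M 1 = 1 := by
    ext j i
    simp [M, L, Matrix.one_apply, eq_comm (a := Fin.last n), Fin.castSucc_ne_last, eq_comm]
  let φ : alternatingGroup (Fin (n + 1)) →* Matrix (Fin n) (Fin n) F :=
    { toFun := fun σ => M σ, map_one' := hone, map_mul' := fun σ τ => hmul σ τ }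
  haveI : IsSimpleGroup (alternatingGroup (Fin (n + 1))) :=
    alternatingGroup.isSimpleGroup (by rw [Nat.card_eq_fintype_card, Fintype.card_fin]; omega)
  set u : Fin (n + 1) := ⟨0, by omega⟩ with hu
  set v : Fin (n + 1) := ⟨1, by omega⟩ with hv
  set w : Fin (n + 1) := ⟨2, by omega⟩ with hw
  let σ : alternatingGroup (Fin (n + 1)) := ⟨Equiv.swap u v * Equiv.swap v w, by
    simp [Equiv.Perm.mem_alternatingGroup, Equiv.Perm.sign_swap', hu, hv, hw, Fin.ext_iff]⟩
  have huv : u ≠ v ∧ u ≠ w ∧ v ≠ w := by simp [hu, hv, hw, Fin.ext_iff]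
  let ψ : alternatingGroup (Fin (n + 1)) →* Fˣ :=
    ((Matrix.detMonoidHom : Matrix (Fin n) (Fin n) F →* F).comp φ).toHomUnits
  have hψ : ∀ τ, (φ τ).det = 1 := by
    intro τ
    have h1 : ψ.ker = ⊤ := by
      refine ψ.normal_ker.eq_bot_or_eq_top.resolve_left fun hb => ?_
      let σ' : alternatingGroup (Fin (n + 1)) := ⟨Equiv.swap u v * Equiv.swap u ⟨3, by omega⟩, by
        simp [Equiv.Perm.mem_alternatingGroup, Equiv.Perm.sign_swap', hu, hv, hw, Fin.ext_iff]⟩
      have e := (MonoidHom.ker_eq_bot_iff ψ).mp hb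
        (show ψ (σ * σ') = ψ (σ' * σ) by rw [map_mul, map_mul, mul_comm])
      have e' := congrArg (fun τ : alternatingGroup (Fin (n + 1)) => (τ : Equiv.Perm (Fin (n + 1))) u) e
      simp [σ, σ', hu, hv, hw, Equiv.swap_apply_def, Fin.ext_iff] at e'
    exact congrArg Units.val (MonoidHom.mem_ker.mp (h1 ▸ Subgroup.mem_top τ) : ψ τ = 1)
  let f : alternatingGroup (Fin (n + 1)) →* Matrix.SpecialLinearGroup (Fin n) F :=
    { toFun := fun τ => ⟨φ τ, hψ τ⟩
      map_one' := Subtype.ext (map_one φ)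
      map_mul' := fun a b => Subtype.ext (map_mul φ a b) }
  let g := (QuotientGroup.mk' (Subgroup.center (Matrix.SpecialLinearGroup (Fin n) F))).comp f
  refine ⟨g, (MonoidHom.ker_eq_bot_iff g).mp (g.normal_ker.eq_bot_or_eq_top.resolve_right fun h => ?_)⟩
  have hs : f σ ∈ Subgroup.center (Matrix.SpecialLinearGroup (Fin n) F) :=
    (QuotientGroup.eq_one_iff _).mp (MonoidHom.mem_ker.mp (h ▸ Subgroup.mem_top σ) : g σ = 1)
  obtain ⟨r, -, hr⟩ := Matrix.SpecialLinearGroup.mem_center_iff.mp hs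
  have e := congrFun (congrFun hr ⟨1, by omega⟩) ⟨0, by omega⟩
  have hc0 : (Fin.castSucc (⟨0, by omega⟩ : Fin n)) = u := rfl
  have hc1 : (Fin.castSucc (⟨1, by omega⟩ : Fin n)) = v := rfl
  have hσu : (σ : Equiv.Perm (Fin (n + 1))) u = v := by
    simp [σ, Equiv.swap_apply_of_ne_of_ne huv.1 huv.2.1]
  have hσL : (σ : Equiv.Perm (Fin (n + 1))) L ≠ v := by
    intro e'
    have := (σ : Equiv.Perm (Fin (n + 1))).injective (e'.trans hσu.symm)
    simp [L, hu, Fin.ext_iff] at this
    omega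
  have e2 : (f σ : Matrix (Fin n) (Fin n) F) ⟨1, by omega⟩ ⟨0, by omega⟩ = 1 := by
    show (if (σ : Equiv.Perm (Fin (n + 1))) (Fin.castSucc (⟨0, by omega⟩ : Fin n)) = _ then (1 : F) else 0) -
      (if (σ : Equiv.Perm (Fin (n + 1))) L = Fin.castSucc (⟨1, by omega⟩ : Fin n) then 1 else 0) = 1
    rw [hc0, hc1, if_pos hσu, if_neg hσL, sub_zero]
  rw [e2, Matrix.scalar_apply, Matrix.diagonal_apply_ne _ (by simp [Fin.ext_iff])] at e
  exact zero_ne_one e

end Cfsg.Agent.S4156
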