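import Cfsg.Statements.S4169
import Cfsg.Agent.Lib.FgsMinClassNilp

set_option autoImplicit false
open Cfsg

namespace Cfsg.Agent.S4169

/-- Let P be a finite p-group whose conjugacy classes have exactly two sizes (1 and one other value). Then P has nilpotency class at most 3. -/
theorem result {P : Type*} [Group P] [Finite P] {p : ℕ} [Fact p.Prime] (hP : IsPGroup p P)
    (m : ℕ) (hm : 1 < m) (h : ∀ x : P, (Subgroup.centralizer ({x} : Set P)).index = 1 ∨ (Subgroup.centralizer ({x} : Set P)).index = m) :
    upperCentralSeries P 3 = ⊤ := by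
  obtain ⟨A, hAn, hA, hCA⟩ := CfsgLib.TwoGroup.exists_self_centralizing hP
  haveI := hAn
  have hcl : (⊤ : Subgroup P) ≤ Subgroup.closure {x : P | (Subgroup.centralizer ({x} : Set P)).index = 1 ∨
      (Subgroup.centralizer ({x} : Set P)).index = m} := fun x _ => Subgroup.subset_closure (h x)
  have h3 := CfsgLib.MinClass.upperCentralSeries_three hA hCA hm.le (fun y hy => by
    rcases h y with e | e <;> omega) hcl
  have key : ∀ (n : ℕ) (z : (⊤ : Subgroup P)), z ∈ Subgroup.upperCentralSeries ↥(⊤ : Subgroup P) n →
      (z : P) ∈ Subgroup.upperCentralSeries P n := by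
    intro n
    induction n with
    | zero =>
      intro z hz
      rw [Subgroup.upperCentralSeries_zero, Subgroup.mem_bot] at hz ⊢
      rw [hz]; rfl
    | succ k ih =>
      intro z hz
      rw [Subgroup.mem_upperCentralSeries_succ_iff] at hz ⊢
      exact fun w => ih _ (hz ⟨w, Subgroup.mem_top w⟩)
  rw [eq_top_iff]
  intro x _
  exact key 3 ⟨x, Subgroup.mem_top x⟩ (h3.ge (Subgroup.mem_top _))

end Cfsg.Agent.S4169
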