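import Cfsg.Statements.S4177
import Mathlib

set_option autoImplicit false
open Cfsg

namespace Cfsg.Agent.S4177

/-- Let k be a field whose characteristic does not divide the order of the finite group H (for instance a field of characteristic zero), and ρ a k-linear representation of H on V. Let a be a vector whose H-orbit spans V. Then the space of H-fixed vectors has dimension at most 1, and every vector b whose H-orbit has size coprime to the size of the orbit of a is fixed by H. -/
theorem result {k V H : Type*} [Field k] [AddCommGroup V] [Module k V] [Group H] [Finite H]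
    (hchar : ¬ ringChar k ∣ Nat.card H) (ρ : Representation k H V) (a : V)
    (hspan : Submodule.span k {u : V | ∃ h : H, ρ h a = u} = ⊤) :
    Module.finrank k ρ.invariants ≤ 1 ∧
    ∀ b : V, (Nat.card {u : V | ∃ h : H, ρ h a = u}).Coprime (Nat.card {u : V | ∃ h : H, ρ h b = u}) → ∀ h : H, ρ h b = b := by
  classical
  haveI := Fintype.ofFinite H
  letI act : MulAction H V := MulAction.compHom V (ρ : H →* (V →ₗ[k] V))
  have hne : ∀ K : Subgroup H, (Nat.card K : k) ≠ 0 := fun K h => hchar
    (((ringChar.spec k _).mp h).trans (Subgroup.card_subgroup_dvd_card K))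
  have hσ : ∀ v ∈ ρ.invariants, (∑ h : H, ρ h) v = (Nat.card H : k) • v := by
    intro v hv
    rw [LinearMap.sum_apply, Finset.sum_congr rfl (fun h _ => hv h), Finset.sum_const, Finset.card_univ,
      Nat.card_eq_fintype_card, Nat.cast_smul_eq_nsmul]
  set σa := (∑ h : H, ρ h) a with hσa
  have hall : ∀ v : V, (∑ h : H, ρ h) v ∈ Submodule.span k {σa} := by
    intro v
    have hv : v ∈ Submodule.span k {u : V | ∃ h : H, ρ h a = u} := hspan ▸ Submodule.mem_top
    induction hv using Submodule.span_induction with
    | mem u hu =>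
      obtain ⟨g, rfl⟩ := hu
      have : (∑ h : H, ρ h) (ρ g a) = σa := by
        rw [hσa, LinearMap.sum_apply, LinearMap.sum_apply]
        exact Fintype.sum_equiv (Equiv.mulRight g) _ _ fun h => by simp [map_mul]
      rw [this]
      exact Submodule.mem_span_singleton_self _
    | zero => simp
    | add u v _ _ hu hv => rw [map_add]; exact add_mem hu hv
    | smul c u _ hu => rw [map_smul]; exact Submodule.smul_mem _ c hu
  have hH : (Nat.card H : k) ≠ 0 := fun h => hchar ((ringChar.spec k _).mp h)
  have hsub : ρ.invariants ≤ Submodule.span k {σa} := by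
    intro v hv
    have := Submodule.smul_mem _ (Nat.card H : k)⁻¹ (hall v)
    rwa [hσ v hv, inv_smul_smul₀ hH] at this
  refine ⟨(Submodule.finrank_mono hsub).trans ((finrank_span_le_card ({σa} : Set V)).trans (by simp)), fun b hcop g => ?_⟩
  set A := MulAction.stabilizer H a with hA
  set B := MulAction.stabilizer H b with hB
  have horb : ∀ c : V, Nat.card {u : V | ∃ h : H, ρ h c = u} = (MulAction.stabilizer H c).index := by
    intro c
    rw [MulAction.index_stabilizer]
    rfl
  rw [horb, horb] at hcop
  have hrel : A.index ≤ A.relIndex B := by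
    have h1 : (A ⊓ B).relIndex B * B.index = (A ⊓ B).index := Subgroup.relIndex_mul_index inf_le_right
    have h2 : (A ⊓ B).relIndex A * A.index = (A ⊓ B).index := Subgroup.relIndex_mul_index inf_le_left
    rw [Subgroup.inf_relIndex_right] at h1
    have hpos : A.relIndex B ≠ 0 := Subgroup.index_ne_zero_of_finite
    exact Nat.le_of_dvd (Nat.pos_of_ne_zero hpos) (hcop.dvd_of_dvd_mul_right ⟨_, by rw [h1, ← h2, mul_comm]⟩)
  let f : B ⧸ A.subgroupOf B → H ⧸ A := Quotient.map' Subtype.val (fun x y hxy => by
    rw [QuotientGroup.leftRel_apply] at hxy ⊢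
    exact hxy)
  have hf : Function.Injective f := by
    intro x y
    induction x using QuotientGroup.induction_on with
    | H x => induction y using QuotientGroup.induction_on with
      | H y =>
        intro hxy
        exact QuotientGroup.eq.mpr (show ((x : H))⁻¹ * y ∈ A from QuotientGroup.eq.mp hxy)
  haveI := Fintype.ofFinite (H ⧸ A)
  haveI := Fintype.ofFinite (B ⧸ A.subgroupOf B)
  have hfs : Function.Surjective f :=
    ((Nat.bijective_iff_injective_and_card f).mpr ⟨hf, le_antisymm (Nat.card_le_card_of_injective f hf) hrel⟩).surjective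
  have hdec : ∀ h : H, ∃ β ∈ B, ρ h a = ρ β a := by
    intro h
    obtain ⟨q, hq⟩ := hfs (h : H ⧸ A)
    induction q using QuotientGroup.induction_on with
    | H β =>
      refine ⟨β, β.2, ?_⟩
      have hmem : (β : H)⁻¹ * h ∈ A := QuotientGroup.eq.mp hq
      have h3 : ρ ((β : H)⁻¹ * h) a = a := hmem
      symm
      conv_lhs => rw [← h3]
      rw [← LinearMap.comp_apply, ← Module.End.mul_eq_comp, ← map_mul, mul_inv_cancel_left]
  set τ := ∑ β : B, ρ (β : H) with hτ
  have hτb : τ b = (Nat.card B : k) • b := by
    rw [hτ, LinearMap.sum_apply, Finset.sum_congr rfl (fun (β : B) _ => (show ρ (β : H) b = b from β.2)), Finset.sum_const,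
      Finset.card_univ, Nat.card_eq_fintype_card, Nat.cast_smul_eq_nsmul]
  have hτβ : ∀ β ∈ B, ∀ v, τ (ρ β v) = τ v := by
    intro β hβ v
    rw [hτ, LinearMap.sum_apply, LinearMap.sum_apply]
    exact Fintype.sum_equiv (Equiv.mulRight (⟨β, hβ⟩ : B)) _ _ fun γ => by simp [map_mul]
  have hτall : ∀ v : V, τ v ∈ Submodule.span k {τ a} := by
    intro v
    have hv : v ∈ Submodule.span k {u : V | ∃ h : H, ρ h a = u} := hspan ▸ Submodule.mem_top
    induction hv using Submodule.span_induction with
    | mem u hu =>
      obtain ⟨h, rfl⟩ := hu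
      obtain ⟨β, hβ, e⟩ := hdec h
      rw [e, hτβ β hβ]
      exact Submodule.mem_span_singleton_self _
    | zero => simp
    | add u v _ _ hu hv => rw [map_add]; exact add_mem hu hv
    | smul c u _ hu => rw [map_smul]; exact Submodule.smul_mem _ c hu
  have hσinv : σa ∈ ρ.invariants := by
    intro g
    rw [hσa, LinearMap.sum_apply, map_sum]
    exact Fintype.sum_equiv (Equiv.mulLeft g) _ _ fun h => by simp [map_mul]
  have hτσ : (Nat.card H : k) • τ a = (Nat.card B : k) • σa := by
    have h1 : τ σa = (Nat.card B : k) • σa := by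
      rw [hτ, LinearMap.sum_apply, Finset.sum_congr rfl (fun (β : B) _ => hσinv (β : H)), Finset.sum_const,
        Finset.card_univ, Nat.card_eq_fintype_card, Nat.cast_smul_eq_nsmul]
    rw [← h1, hσa, show (∑ h : H, ρ h) a = ∑ h : H, ρ h a from LinearMap.sum_apply _ _ _, map_sum, Finset.sum_congr rfl (fun h _ => ?_), Finset.sum_const,
      Finset.card_univ, Nat.card_eq_fintype_card, Nat.cast_smul_eq_nsmul]
    obtain ⟨β, hβ, e⟩ := hdec h
    rw [e, hτβ β hβ]
  have hτa : τ a ∈ ρ.invariants := by
    have := ρ.invariants.smul_mem (Nat.card H : k)⁻¹ (ρ.invariants.smul_mem (Nat.card B : k) hσinv)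
    rwa [← hτσ, inv_smul_smul₀ hH] at this
  have hb : b ∈ ρ.invariants := by
    have hmem : τ b ∈ ρ.invariants :=
      ((Submodule.span_singleton_le_iff_mem _ _).mpr hτa) (hτall b)
    rw [hτb] at hmem
    have := ρ.invariants.smul_mem (Nat.card B : k)⁻¹ hmem
    rwa [inv_smul_smul₀ (hne B)] at this
  exact hb g

end Cfsg.Agent.S4177
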