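import Cfsg.Statements.S4178
import Mathlib.LinearAlgebra.Dimension.Finite
import Mathlib.Data.Real.Sqrt
import Mathlib.LinearAlgebra.FiniteDimensional.Basic

set_option autoImplicit false
open Cfsg

namespace Cfsg.Agent.S4178

/-- Let F be a finite field with q elements, V a non-zero finite-dimensional F-space of dimension d, H a group of invertible linear maps of V, and R the subgroup of H generated by the elements of H that fix some non-zero vector (have eigenvalue 1). Then the index of R in H is at most q^d − 1; and if H leaves invariant some proper non-zero subspace, the index is at most q^(d/2) − 1. -/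
theorem result {F V : Type*} [Field F] [Fintype F] [AddCommGroup V] [Module F V] [FiniteDimensional F V] [Nontrivial V]
    (H : Subgroup (V ≃ₗ[F] V)) :
    (Subgroup.closure {h : ↥H | ∃ v : V, v ≠ 0 ∧ (h : V ≃ₗ[F] V) v = v}).index ≤ Fintype.card F ^ Module.finrank F V - 1 ∧
    ((∃ W : Submodule F V, W ≠ ⊥ ∧ W ≠ ⊤ ∧ ∀ h ∈ H, ∀ w ∈ W, h w ∈ W) →
      ((Subgroup.closure {h : ↥H | ∃ v : V, v ≠ 0 ∧ (h : V ≃ₗ[F] V) v = v}).index : ℝ) ≤ Real.sqrt ((Fintype.card F : ℝ) ^ Module.finrank F V) - 1) := by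
  classical
  set S : Set ↥H := {h : ↥H | ∃ v : V, v ≠ 0 ∧ (h : V ≃ₗ[F] V) v = v} with hS
  set R := Subgroup.closure S with hR
  haveI hVfin : Finite V := Module.finite_of_finite F
  have key : ∀ (X : Type _) [Finite X] (f : ↥H → X) (x₀ : X), (∀ a b : ↥H, f a = f b → a⁻¹ * b ∈ S) →
      (∀ a : ↥H, f a ≠ x₀) → R.index ≤ Nat.card X - 1 := by
    intro X _ f x₀ h1 h2
    let g : ↥H ⧸ R → {x : X // x ≠ x₀} := fun c => ⟨f c.out, h2 _⟩
    have hg : Function.Injective g := fun a b e => by
      have e1 := h1 _ _ (congrArg Subtype.val e)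
      rw [← QuotientGroup.out_eq' a, ← QuotientGroup.out_eq' b]
      exact QuotientGroup.eq.2 (Subgroup.subset_closure e1)
    refine (Nat.card_le_card_of_injective g hg).trans (le_of_eq ?_)
    haveI := Fintype.ofFinite X
    rw [Nat.card_eq_fintype_card, Nat.card_eq_fintype_card, Fintype.card_subtype_compl,
      Fintype.card_subtype_eq]
  have hfix : ∀ (W : Type _) [AddCommGroup W] (a b : V ≃ₗ[F] V) (v : V), a v = b v → (a⁻¹ * b) v = v := by
    intro W _ a b v e
    show a.symm (b v) = v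
    rw [← e, LinearEquiv.symm_apply_apply]
  obtain ⟨v₀, hv₀⟩ := exists_ne (0 : V)
  have hcard : Nat.card V = Fintype.card F ^ Module.finrank F V := by
    rw [Module.natCard_eq_pow_finrank (K := F), Nat.card_eq_fintype_card]
  refine ⟨?_, ?_⟩
  · rw [← hcard]
    refine key V (fun a => (a : V ≃ₗ[F] V) v₀) 0 (fun a b e => ⟨v₀, hv₀, hfix V _ _ _ e⟩) fun a e => hv₀ ?_
    exact (a : V ≃ₗ[F] V).map_eq_zero_iff.1 e
  · rintro ⟨W, hW0, hW1, hW⟩
    obtain ⟨w, hw, hw0⟩ := Submodule.exists_mem_ne_zero_of_ne_bot hW0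
    have hA : R.index ≤ Nat.card W - 1 := by
      refine key W (fun a => ⟨(a : V ≃ₗ[F] V) w, hW _ a.2 w hw⟩) 0
        (fun a b e => ⟨w, hw0, hfix V _ _ _ (congrArg Subtype.val e)⟩) fun a e => hw0 ?_
      exact (a : V ≃ₗ[F] V).map_eq_zero_iff.1 (congrArg Subtype.val e)
    obtain ⟨u, hu⟩ : ∃ u : V, u ∉ W := by
      by_contra hc; push Not at hc
      exact hW1 (eq_top_iff.2 fun x _ => hc x)
    haveI : Finite (V ⧸ W) := Finite.of_surjective _ (Submodule.Quotient.mk_surjective W)
    have hB : R.index ≤ Nat.card (V ⧸ W) - 1 := by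
      refine key (V ⧸ W) (fun a => Submodule.Quotient.mk ((a : V ≃ₗ[F] V) u)) 0 (fun a b e => ?_) fun a e => hu ?_
      · have h1 : (a : V ≃ₗ[F] V) u - (b : V ≃ₗ[F] V) u ∈ W := (Submodule.Quotient.eq W).1 e
        set c := ((a⁻¹ * b : ↥H) : V ≃ₗ[F] V) with hc
        have h2 : c u - u ∈ W := by
          have h3 := hW _ (a⁻¹ : ↥H).2 _ (W.neg_mem h1)
          have h4 : ((a⁻¹ : ↥H) : V ≃ₗ[F] V) ((a : V ≃ₗ[F] V) u) = u := (a : V ≃ₗ[F] V).symm_apply_apply u
          rw [neg_sub, map_sub, h4] at h3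
          exact h3
        let T : V →ₗ[F] V := c.toLinearMap - LinearMap.id
        by_contra hns
        have hinj : Function.Injective T := by
          rw [← LinearMap.ker_eq_bot, eq_bot_iff]
          intro v hv
          rw [LinearMap.mem_ker] at hv
          by_contra hv0
          exact hns ⟨v, fun e0 => hv0 (by simp [e0]), sub_eq_zero.1 hv⟩
        let TW : W →ₗ[F] W := T.restrict fun x hx => W.sub_mem (hW _ (a⁻¹ * b).2 x hx) hx
        have hTW : Function.Injective TW := fun x y exy => Subtype.ext (hinj (congrArg Subtype.val exy))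
        obtain ⟨x, hx⟩ := LinearMap.injective_iff_surjective.1 hTW ⟨c u - u, h2⟩
        have h5 : (x : V) = u := hinj (congrArg Subtype.val hx)
        exact hu (h5 ▸ x.2)
      · have h1 : (a : V ≃ₗ[F] V) u ∈ W := (Submodule.Quotient.mk_eq_zero W).1 e
        have h2 := hW _ (a⁻¹ : ↥H).2 _ h1
        have h4 : ((a⁻¹ : ↥H) : V ≃ₗ[F] V) ((a : V ≃ₗ[F] V) u) = u := (a : V ≃ₗ[F] V).symm_apply_apply u
        rwa [h4] at h2
    have hprod : Nat.card V = Nat.card (V ⧸ W) * Nat.card W := by
      rw [Submodule.card_eq_card_quotient_mul_card W, mul_comm]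
    have hR1 : (R.index + 1) ^ 2 ≤ Nat.card V := by
      have hpW : 0 < Nat.card W := Nat.card_pos
      have hpQ : 0 < Nat.card (V ⧸ W) := by
        haveI : Finite (V ⧸ W) := Finite.of_surjective _ (Submodule.Quotient.mk_surjective W)
        exact Nat.card_pos
      rw [hprod, pow_two]
      exact Nat.mul_le_mul (by omega) (by omega)
    rw [le_sub_iff_add_le]
    apply Real.le_sqrt_of_sq_le
    rw [hcard] at hR1
    exact_mod_cast hR1

end Cfsg.Agent.S4178
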