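import Cfsg.Statements.S4186


set_option autoImplicit false
open Cfsg

namespace Cfsg.Agent.S4186

/-- Let T and X be subgroups of a group with T a finite 2-group normalizing X but not centralizing it. Then some element of T inverts some non-identity element of X under conjugation. -/
theorem result {G : Type*} [Group G] (T X : Subgroup G) [Finite ↥T] (hT : IsPGroup 2 ↥T) (hTN : T ≤ Subgroup.normalizer (X : Set G)) (hTC : ¬ T ≤ Subgroup.centralizer (X : Set G)) : ∃ t ∈ T, ∃ x ∈ X, x ≠ 1 ∧ t * x * t⁻¹ = x⁻¹ := by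
  classical
  obtain ⟨t₀, ht₀, htn₀⟩ := SetLike.not_le_iff_exists.mp hTC
  have hex : ∃ k, ∃ t : T, orderOf t = k ∧ (t : G) ∉ Subgroup.centralizer (X : Set G) :=
    ⟨_, ⟨t₀, ht₀⟩, rfl, htn₀⟩
  obtain ⟨t, htk, htn⟩ := Nat.find_spec hex
  have htsq : ((t ^ 2 : T) : G) ∈ Subgroup.centralizer (X : Set G) := by
    by_contra hno
    have h := Nat.find_min' hex ⟨t ^ 2, rfl, hno⟩
    obtain ⟨k, hk⟩ := (IsPGroup.iff_orderOf.mp hT) t
    have hk0 : k ≠ 0 := by
      rintro rfl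
      rw [pow_zero, orderOf_eq_one_iff] at hk
      exact htn (by rw [hk]; simp)
    have h2 : 2 ∣ orderOf t := hk ▸ dvd_pow_self 2 hk0
    rw [orderOf_pow_of_dvd two_ne_zero h2, ← htk] at h
    have := orderOf_pos t
    omega
  obtain ⟨y, hy, hty⟩ : ∃ y ∈ X, y * (t : G) ≠ t * y := by
    by_contra hcon
    push Not at hcon
    exact htn (Subgroup.mem_centralizer_iff.mpr hcon)
  have hyX : (t : G) * y * (t : G)⁻¹ ∈ X := (Subgroup.mem_normalizer_iff.mp (hTN t.2) y).mp hy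
  refine ⟨t, t.2, y⁻¹ * ((t : G) * y * (t : G)⁻¹), X.mul_mem (X.inv_mem hy) hyX, ?_, ?_⟩
  · intro e
    apply hty
    rw [inv_mul_eq_one] at e
    conv_lhs => rw [e]
    group
  · have h := Subgroup.mem_centralizer_iff.mp htsq y hy
    simp only [pow_two, Subgroup.coe_mul] at h
    calc (t : G) * (y⁻¹ * ((t : G) * y * (t : G)⁻¹)) * (t : G)⁻¹
        = (t : G) * y⁻¹ * (t : G)⁻¹ * ((t : G) * t * y) * ((t : G) * t)⁻¹ := by group
      _ = (t : G) * y⁻¹ * (t : G)⁻¹ * (y * ((t : G) * t)) * ((t : G) * t)⁻¹ := by rw [h]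
      _ = (y⁻¹ * ((t : G) * y * (t : G)⁻¹))⁻¹ := by group

end Cfsg.Agent.S4186
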