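import Cfsg.Statements.S4189
import Cfsg.Agent.Lib.FgsTaussky
import Cfsg.Agent.S0016

set_option autoImplicit false
open Cfsg

namespace Cfsg.Agent.S4189

/-- Let P be a finite non-abelian 2-group whose commutator subgroup has index 4 and whose automorphism group is not a 2-group (some automorphism has order that is not a power of 2). Then P is isomorphic to the quaternion group of order 8. -/
theorem result {P : Type*} [Group P] [Finite P] (hP : IsPGroup 2 P) (hna : ¬ IsMulCommutative P) (h4 : (commutator P).index = 4) (haut : ¬ IsPGroup 2 (MulAut P)) : Nonempty (P ≃* QuaternionGroup 2) := by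
  classical
  haveI : Fact (Nat.Prime 2) := ⟨Nat.prime_two⟩
  obtain ⟨h8, z, hz⟩ := CfsgLib.Fgs.Taussky.card_eight_unique_involution hP hna h4 haut
  have hkey : ∀ H : Subgroup P, Nat.card H = 2 → H = Subgroup.zpowers z := by
    intro H hH
    obtain ⟨t, ht⟩ := exists_prime_orderOf_dvd_card' (G := H) 2 (dvd_of_eq hH.symm)
    have ht' : orderOf (t : P) = 2 := by rw [Subgroup.orderOf_coe, ht]
    have htz : (t : P) = z := hz _ (fun e => by rw [e, orderOf_one] at ht'; omega)
      (by rw [← pow_two, ← ht']; exact pow_orderOf_eq_one _)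
    refine (Subgroup.eq_of_le_of_card_ge (Subgroup.zpowers_le.mpr (htz ▸ t.2)) ?_).symm
    rw [hH, Nat.card_zpowers, ← htz, ht']
  rcases Cfsg.Agent.S0016.result 2 hP (fun H K hH hK => (hkey H hH).trans (hkey K hK).symm) with
    hc | ⟨-, n, ⟨e⟩⟩
  · haveI := hc
    exact absurd ⟨⟨fun a b => IsCyclic.commGroup.mul_comm a b⟩⟩ hna
  · have hn := Nat.card_congr e.toEquiv
    haveI : NeZero (2 ^ n) := ⟨pow_ne_zero _ two_ne_zero⟩
    rw [h8, Nat.card_eq_fintype_card, QuaternionGroup.card] at hn
    obtain rfl : n = 1 := Nat.pow_right_injective le_rfl (show 2 ^ n = 2 ^ 1 by omega)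
    exact ⟨e⟩

end Cfsg.Agent.S4189
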