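import Cfsg.Statements.S4195


set_option autoImplicit false
open Cfsg

namespace Cfsg.Agent.S4195

/-- Let x be a non-identity element of a finite group G whose centralizer contains a Sylow 2-subgroup of G. If x is conjugate to its inverse, then x has order 2. -/
theorem result {G : Type*} [Group G] [Finite G] (x : G) (hx : x ≠ 1) (P : Sylow 2 G) (hP : (P : Subgroup G) ≤ Subgroup.centralizer ({x} : Set G)) (hreal : IsConj x x⁻¹) : orderOf x = 2 := by
  haveI : Fact (Nat.Prime 2) := ⟨Nat.prime_two⟩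
  refine orderOf_eq_prime ?_ hx
  by_contra hsq
  obtain ⟨g, hg⟩ := isConj_iff.mp hreal
  set C := Subgroup.centralizer ({x} : Set G) with hC
  have hodd : ¬ 2 ∣ C.index := fun h => P.not_dvd_index (h.trans (Subgroup.index_dvd_of_le hP))
  have hinv : ∀ h : G, h * x * h⁻¹ = x → h⁻¹ * x * h = x := fun h hh => by
    calc h⁻¹ * x * h = h⁻¹ * (h * x * h⁻¹) * h := by rw [hh]
      _ = x := by group
  have hneg : ∀ h : G, h * x * h⁻¹ = x⁻¹ → h * x⁻¹ * h⁻¹ = x := fun h hh => by
    calc h * x⁻¹ * h⁻¹ = (h * x * h⁻¹)⁻¹ := by group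
      _ = x := by rw [hh, inv_inv]
  let M : Subgroup G :=
    { carrier := {h | h * x * h⁻¹ = x ∨ h * x * h⁻¹ = x⁻¹}
      mul_mem' := fun {a b} ha hb => by
        have e : a * b * x * (a * b)⁻¹ = a * (b * x * b⁻¹) * a⁻¹ := by group
        simp only [Set.mem_setOf_eq] at ha hb ⊢
        rcases hb with hb | hb <;> rw [e, hb]
        · exact ha
        · rcases ha with ha | ha
          · right; calc a * x⁻¹ * a⁻¹ = (a * x * a⁻¹)⁻¹ := by group
              _ = x⁻¹ := by rw [ha]
          · exact Or.inl (hneg a ha)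
      one_mem' := Or.inl (by group)
      inv_mem' := fun {a} ha => by
        simp only [Set.mem_setOf_eq, inv_inv] at ha ⊢
        rcases ha with ha | ha
        · exact Or.inl (hinv a ha)
        · right
          calc a⁻¹ * x * a = a⁻¹ * (a * x⁻¹ * a⁻¹) * a := by rw [hneg a ha]
            _ = x⁻¹ := by group }
  have hxx : x⁻¹ ≠ x := fun e => hsq (by rw [pow_two]; nth_rw 1 [← e]; exact inv_mul_cancel x)
  have hmemC : ∀ h : G, h ∈ C ↔ h * x * h⁻¹ = x := fun h => by
    rw [hC, Subgroup.mem_centralizer_singleton_iff, mul_inv_eq_iff_eq_mul]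
  have hCM : C ≤ M := fun h hh => Or.inl ((hmemC h).mp hh)
  have hgM : g ∈ M := Or.inr hg
  have hrel : C.relIndex M = 2 := by
    rw [Subgroup.relIndex, Subgroup.index_eq_two_iff]
    refine ⟨⟨g, hgM⟩, ?_⟩
    rintro ⟨b, hb⟩
    simp only [Subgroup.mem_subgroupOf, Subgroup.coe_mul, hmemC]
    have e : b * g * x * (b * g)⁻¹ = b * (g * x * g⁻¹) * b⁻¹ := by group
    rw [e, hg]
    rcases hb with hb | hb
    · refine Or.inr ⟨hb, fun h => hxx ?_⟩
      calc x⁻¹ = (b * x * b⁻¹)⁻¹ := by rw [hb]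
        _ = b * x⁻¹ * b⁻¹ := by group
        _ = x := h
    · exact Or.inl ⟨hneg b hb, fun h => hxx (hb ▸ h)⟩
  exact hodd (hrel ▸ ⟨M.index, (Subgroup.relIndex_mul_index hCM).symm⟩)

end Cfsg.Agent.S4195
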