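import Cfsg.Statements.S4196
import Mathlib
import Cfsg.Agent.S4195

set_option autoImplicit false
open Cfsg
open scoped Pointwise

namespace Cfsg.Agent.S4196

/-- A finite group G has elementary abelian Sylow 2-subgroups (commutative with every element squaring to the identity) if and only if every 2-element of G has a Sylow 2-subgroup in its centralizer and is conjugate to its inverse. -/
theorem result {G : Type*} [Group G] [Finite G] (P : Sylow 2 G) :
    (IsMulCommutative (P : Subgroup G) ∧ ∀ x ∈ (P : Subgroup G), x ^ 2 = 1) ↔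
      ∀ x : G, (∃ k : ℕ, orderOf x = 2 ^ k) → (∃ Q : Sylow 2 G, (Q : Subgroup G) ≤ Subgroup.centralizer ({x} : Set G)) ∧ IsConj x x⁻¹ := by
  haveI : Fact (Nat.Prime 2) := ⟨Nat.prime_two⟩
  constructor
  · rintro ⟨hc, hsq⟩ x ⟨k, hk⟩
    have hx : IsPGroup 2 (Subgroup.zpowers x) := IsPGroup.of_card (by rw [Nat.card_zpowers, hk])
    obtain ⟨Q, hQ⟩ := hx.exists_le_sylow
    obtain ⟨g, rfl⟩ := MulAction.exists_smul_eq G P Q
    have hmem : x ∈ (g • P : Sylow 2 G) := hQ (Subgroup.mem_zpowers x)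
    have hx' : g⁻¹ * x * g ∈ (P : Subgroup G) := by
      have : x ∈ MulAut.conj g • (P : Subgroup G) := hmem
      rw [Subgroup.mem_pointwise_smul_iff_inv_smul_mem] at this
      simpa [MulAut.smul_def, mul_assoc] using this
    refine ⟨⟨g • P, fun y hy => ?_⟩, ?_⟩
    · have hy' : g⁻¹ * y * g ∈ (P : Subgroup G) := by
        have : y ∈ MulAut.conj g • (P : Subgroup G) := hy
        rw [Subgroup.mem_pointwise_smul_iff_inv_smul_mem] at this
        simpa [MulAut.smul_def, mul_assoc] using this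
      rw [Subgroup.mem_centralizer_singleton_iff]
      have h := congrArg Subtype.val (hc.is_comm.comm (⟨_, hy'⟩ : (P : Subgroup G)) ⟨_, hx'⟩)
      simp only [Subgroup.coe_mul] at h
      calc y * x = g * ((g⁻¹ * y * g) * (g⁻¹ * x * g)) * g⁻¹ := by group
        _ = x * y := by rw [h]; group
    · have h := hsq _ hx'
      have : x⁻¹ = x := inv_eq_of_mul_eq_one_right (by
        calc x * x = g * ((g⁻¹ * x * g) ^ 2) * g⁻¹ := by rw [pow_two]; group
          _ = 1 := by rw [h]; group)
      rw [this]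
  · intro h
    have hsq : ∀ x ∈ (P : Subgroup G), x ^ 2 = 1 := by
      intro x hx
      by_cases hx1 : x = 1
      · rw [hx1, one_pow]
      obtain ⟨k, hk⟩ := IsPGroup.iff_orderOf.mp P.isPGroup' ⟨x, hx⟩
      rw [← Subgroup.orderOf_coe] at hk
      obtain ⟨⟨Q, hQ⟩, hreal⟩ := h x ⟨k, hk⟩
      exact orderOf_dvd_iff_pow_eq_one.mp (Cfsg.Agent.S4195.result x hx1 Q hQ hreal).dvd
    refine ⟨⟨⟨fun a b => Subtype.ext ?_⟩⟩, hsq⟩
    have hinv : ∀ c : (P : Subgroup G), ((c : G))⁻¹ = c := fun c =>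
      inv_eq_of_mul_eq_one_right (by rw [← pow_two]; exact hsq _ c.2)
    calc (a : G) * b = ((a * b : (P : Subgroup G)) : G)⁻¹ := (hinv (a * b)).symm
      _ = b * a := by rw [Subgroup.coe_mul, mul_inv_rev, hinv, hinv]

end Cfsg.Agent.S4196
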