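import Cfsg.Statements.S4399
import Cfsg.Agent.Lib.LocalCyclicMaxTwo
import Cfsg.Agent.Lib.TransferMaximalClass

set_option autoImplicit false
open Cfsg
open scoped commutatorElement

namespace Cfsg.Agent.S4399

/-- Powers of `a` indexed by `ZMod N`. -/
theorem zmod_pow {S : Type*} [Group S] {N : ℕ} [NeZero N] {a b : S} (ha : orderOf a = N) (hab : b * a * b⁻¹ = a⁻¹) :
    ∃ f : ZMod N → S, (∀ i j, f (i + j) = f i * f j) ∧ (∀ i, f i * b = b * f (-i)) ∧ Function.Injective f ∧
      (∀ i, f i ∈ Subgroup.zpowers a) ∧ f 0 = 1 ∧ ∀ k : ℕ, f (k : ZMod N) = a ^ k := by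
  refine ⟨fun i => a ^ i.val, fun i j => ?_, fun i => ?_, fun i j h => ?_, fun i => Subgroup.npow_mem_zpowers a _, by simp, fun k => ?_⟩
  · show a ^ (i + j).val = a ^ i.val * a ^ j.val
    rw [← pow_add, pow_eq_pow_iff_modEq, ha, ← ZMod.natCast_eq_natCast_iff, Nat.cast_add]
    simp
  · show a ^ i.val * b = b * a ^ (-i).val
    have h1 : b * a ^ (-i).val * b⁻¹ = a ^ i.val := by
      rw [← conj_pow, hab, inv_pow, inv_eq_iff_mul_eq_one, ← pow_add, ← orderOf_dvd_iff_pow_eq_one, ha,
        ← ZMod.natCast_eq_zero_iff, Nat.cast_add]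
      simp
    conv_lhs => rw [← h1]
    group
  · have h' := pow_inj_mod.mp (show a ^ i.val = a ^ j.val from h)
    rw [ha, Nat.mod_eq_of_lt i.val_lt, Nat.mod_eq_of_lt j.val_lt] at h'
    exact ZMod.val_injective N h'
  · show a ^ (k : ZMod N).val = a ^ k
    rw [pow_inj_mod, ha, ZMod.val_natCast, Nat.mod_mod]

theorem iso_dihedral {S : Type*} [Group S] [Finite S] {N : ℕ} [NeZero N] {a b : S} (hS : Nat.card S = 2 * N)
    (ha : orderOf a = N) (hb : b ∉ Subgroup.zpowers a) (hb2 : b ^ 2 = 1) (hab : b * a * b⁻¹ = a⁻¹) :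
    Nonempty (S ≃* DihedralGroup N) := by
  obtain ⟨f, hadd, hcomm, hinj, hmem, h0, -⟩ := zmod_pow ha hab
  let F : DihedralGroup N → S
    | .r i => f i
    | .sr i => b * f i
  let φ : DihedralGroup N →* S := MonoidHom.mk' F (fun x y => by
    rcases x with i | i <;> rcases y with j | j <;>
      simp only [F, DihedralGroup.r_mul_r, DihedralGroup.r_mul_sr, DihedralGroup.sr_mul_r, DihedralGroup.sr_mul_sr]
    · exact hadd i j
    · rw [← mul_assoc, hcomm, mul_assoc, ← hadd, neg_add_eq_sub]
    · rw [mul_assoc, ← hadd]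
    · rw [mul_assoc, ← mul_assoc (f i), hcomm, mul_assoc, ← hadd, neg_add_eq_sub, ← mul_assoc, ← sq, hb2, one_mul])
  have hφ : Function.Injective φ := by
    rw [injective_iff_map_eq_one]
    rintro (i | i) h
    · change f i = 1 at h
      rw [hinj (h.trans h0.symm), DihedralGroup.one_def]
    · exfalso
      change b * f i = 1 at h
      exact hb (eq_inv_of_mul_eq_one_left h ▸ inv_mem (hmem i))
  exact ⟨(MulEquiv.ofBijective φ ((Nat.bijective_iff_injective_and_card φ).mpr
    ⟨hφ, by rw [DihedralGroup.nat_card, hS]⟩)).symm⟩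

theorem iso_quaternion {S : Type*} [Group S] [Finite S] {n : ℕ} [NeZero n] {a b : S} (hS : Nat.card S = 4 * n)
    (ha : orderOf a = 2 * n) (hb : b ∉ Subgroup.zpowers a) (hb2 : b ^ 2 = a ^ n) (hab : b * a * b⁻¹ = a⁻¹) :
    Nonempty (S ≃* QuaternionGroup n) := by
  obtain ⟨f, hadd, hcomm, hinj, hmem, h0, hpow⟩ := zmod_pow ha hab
  let F : QuaternionGroup n → S
    | .a i => f i
    | .xa i => b * f i
  let φ : QuaternionGroup n →* S := MonoidHom.mk' F (fun x y => by
    rcases x with i | i <;> rcases y with j | j <;>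
      simp only [F, QuaternionGroup.a_mul_a, QuaternionGroup.a_mul_xa, QuaternionGroup.xa_mul_a, QuaternionGroup.xa_mul_xa]
    · exact hadd i j
    · rw [← mul_assoc, hcomm, mul_assoc, ← hadd, neg_add_eq_sub]
    · rw [mul_assoc, ← hadd]
    · rw [mul_assoc, ← mul_assoc (f i), hcomm, mul_assoc, ← hadd, ← mul_assoc, ← sq, hb2, ← hpow, ← hadd]
      congr 1; abel)
  have hφ : Function.Injective φ := by
    rw [injective_iff_map_eq_one]
    rintro (i | i) h
    · change f i = 1 at h
      rw [hinj (h.trans h0.symm), QuaternionGroup.one_def]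
    · exfalso
      change b * f i = 1 at h
      exact hb (eq_inv_of_mul_eq_one_left h ▸ inv_mem (hmem i))
  exact ⟨(MulEquiv.ofBijective φ ((Nat.bijective_iff_injective_and_card φ).mpr
    ⟨hφ, by rw [Nat.card_eq_fintype_card, QuaternionGroup.card, hS]⟩)).symm⟩

/-- Let S be a finite 2-group whose commutator quotient S/[S,S] is a Klein four-group (order 4 and exponent 2). Then S itself has order 4, or S is dihedral of order at least 8, semidihedral of order at least 16 (order 2^(k+4) with an element a of order 2^(k+3) and an involution b with b a b⁻¹ = a^(2^(k+2)−1)), or generalized quaternion of order at least 8. -/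
theorem result {S : Type*} [Group S] [Finite S] (h2 : IsPGroup 2 S) (hab : Nat.card (Abelianization S) = 4)
    (hexp : ∀ x : Abelianization S, x ^ 2 = 1) :
    Nat.card S = 4 ∨
    ((∃ k : ℕ, Nonempty (S ≃* DihedralGroup (2 ^ (k + 2)))) ∨
      (∃ k : ℕ, Nat.card S = 2 ^ (k + 4) ∧ ∃ a b : S, orderOf a = 2 ^ (k + 3) ∧ orderOf b = 2 ∧ b * a * b⁻¹ = a ^ (2 ^ (k + 2) - 1)) ∨
      (∃ k : ℕ, Nonempty (S ≃* QuaternionGroup (2 ^ (k + 1))))) := by
  classical
  haveI : Fact (Nat.Prime 2) := ⟨Nat.prime_two⟩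
  obtain ⟨n, hn⟩ := h2.exists_card_eq
  have hidx : (_root_.commutator S).index = 4 := by rw [Subgroup.index_eq_card]; exact hab
  have hn2 : 2 ≤ n := by
    by_contra hlt
    have hd := (_root_.commutator S).index_dvd_card
    rw [hidx, hn] at hd
    have := (Nat.pow_dvd_pow_iff_le_right Nat.one_lt_two).mp (show 2 ^ 2 ∣ 2 ^ n from hd)
    omega
  rcases eq_or_lt_of_le hn2 with h | h3
  · exact Or.inl (by rw [hn, ← h]; norm_num)
  refine Or.inr ?_
  have hna : ∃ x y : S, x * y ≠ y * x := by
    by_contra hcon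
    push Not at hcon
    have hb : _root_.commutator S = ⊥ := by
      rw [eq_bot_iff, commutator_eq_closure, Subgroup.closure_le]
      rintro _ ⟨x, y, rfl⟩
      exact Subgroup.mem_bot.mpr (commutatorElement_eq_one_iff_mul_comm.mpr (hcon x y))
    rw [hb, Subgroup.index_bot, hn] at hidx
    have := Nat.pow_right_injective le_rfl (show 2 ^ n = 2 ^ 2 from hidx)
    omega
  obtain ⟨-, ⟨C, hC, hCi⟩, -⟩ := CfsgLib.Transfer.two_maximal_class n hn2 hn hidx
  obtain ⟨a, b, ha, hb, hcase⟩ := CfsgLib.LocalCyclicMax.cyclic_maximal_two n (by omega) hn C hC hCi hna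
  obtain ⟨k, rfl⟩ : ∃ k, n = k + 3 := ⟨n - 3, by omega⟩
  rw [show k + 3 - 1 = k + 2 by omega] at ha
  rw [show k + 3 - 2 = k + 1 by omega] at hcase
  rcases hcase with ⟨hb2, hc⟩ | ⟨hb2, hc⟩ | ⟨hk, hb2, hc⟩ | ⟨hk, hb2, hc⟩
  · haveI : NeZero (2 ^ (k + 2)) := ⟨by positivity⟩
    exact Or.inl ⟨k, iso_dihedral (by rw [hn]; ring) ha hb hb2 hc⟩
  · haveI : NeZero (2 ^ (k + 1)) := ⟨by positivity⟩
    exact Or.inr (Or.inr ⟨k, iso_quaternion (by rw [hn]; ring) (by rw [ha]; ring) hb hb2 hc⟩)
  · exfalso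
    set z := a ^ (2 ^ (k + 1)) with hz
    set C' := Subgroup.zpowers z with hC'
    have htop : Subgroup.zpowers a ⊔ Subgroup.zpowers b = ⊤ := by
      have hlt : Subgroup.zpowers a < Subgroup.zpowers a ⊔ Subgroup.zpowers b :=
        lt_of_le_not_ge le_sup_left fun hle => hb (hle (Subgroup.mem_sup_right (Subgroup.mem_zpowers b)))
      have hd := Subgroup.card_subgroup_dvd_card (Subgroup.zpowers a ⊔ Subgroup.zpowers b)
      obtain ⟨i, hi, hci⟩ := (Nat.dvd_prime_pow Nat.prime_two).mp (hn ▸ hd)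
      have hlt2 : Nat.card (Subgroup.zpowers a) < Nat.card (Subgroup.zpowers a ⊔ Subgroup.zpowers b : Subgroup S) := by
        rcases (Subgroup.card_le_of_le hlt.le).lt_or_eq with h | h
        · exact h
        · exact absurd (Subgroup.eq_of_le_of_card_ge hlt.le h.ge) hlt.ne
      rw [Nat.card_zpowers, ha, hci] at hlt2
      have := (Nat.pow_lt_pow_iff_right Nat.one_lt_two).mp hlt2
      exact Subgroup.eq_top_of_card_eq _ (by rw [hci, hn, show i = k + 3 by omega])
    have hzc : z ∈ Subgroup.center S := by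
      have hle : ⊤ ≤ Subgroup.centralizer ({z} : Set S) := by
        rw [← htop]
        refine sup_le (Subgroup.zpowers_le.mpr (Subgroup.mem_centralizer_singleton_iff.mpr ((Commute.refl a).pow_right _).eq))
          (Subgroup.zpowers_le.mpr (Subgroup.mem_centralizer_singleton_iff.mpr ?_))
        refine mul_inv_eq_iff_eq_mul.mp ?_
        rw [hz, ← conj_pow, hc, ← pow_mul, pow_eq_pow_iff_modEq, ha]
        refine (Nat.modEq_iff_dvd' ?_).mpr ⟨2 ^ k, ?_⟩ |>.symm
        · rw [add_mul, one_mul]; exact Nat.le_add_right _ _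
        · rw [add_mul, one_mul, Nat.add_sub_cancel_left, ← pow_add, ← pow_add]; ring_nf
      rw [Subgroup.mem_center_iff]
      exact fun g => Subgroup.mem_centralizer_singleton_iff.mp (hle (Subgroup.mem_top g))
    haveI hC'n : C'.Normal := ⟨fun x hx g => by
      obtain ⟨i, rfl⟩ := hx
      simp only
      rw [show g * z ^ i = z ^ i * g from (Commute.zpow_right (Subgroup.mem_center_iff.mp hzc g) i).eq, mul_inv_cancel_right]
      exact ⟨i, rfl⟩⟩
    let π := QuotientGroup.mk' C'
    have hcab : π b * π a = π a * π b := by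
      have e : π (b * a * b⁻¹) = π a := by
        rw [hc, pow_add, pow_one, map_mul]
        have : π z = 1 := (QuotientGroup.eq_one_iff z).mpr (Subgroup.mem_zpowers z)
        rw [← hz, this, mul_one]
      rw [map_mul, map_mul, map_inv, mul_inv_eq_iff_eq_mul] at e
      exact e
    have hgen : ∀ x : S, π x * π a = π a * π x ∧ π x * π b = π b * π x := by
      intro x
      have hle : ⊤ ≤ (Subgroup.centralizer ({π a, π b} : Set (S ⧸ C'))).comap π := by
        rw [← htop]
        refine sup_le (Subgroup.zpowers_le.mpr ?_) (Subgroup.zpowers_le.mpr ?_) <;>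
          rw [Subgroup.mem_comap, Subgroup.mem_centralizer_iff] <;> rintro y (rfl | rfl)
        · rfl
        · exact hcab
        · exact hcab.symm
        · rfl
      have := Subgroup.mem_centralizer_iff.mp (hle (Subgroup.mem_top x))
      exact ⟨(this _ (Set.mem_insert _ _)).symm, (this _ (Set.mem_insert_of_mem _ rfl)).symm⟩
    have hle : _root_.commutator S ≤ C' := by
      rw [commutator_eq_closure, Subgroup.closure_le]
      rintro _ ⟨x, y, rfl⟩
      refine (QuotientGroup.eq_one_iff _).mp ?_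
      show π ⁅x, y⁆ = 1
      rw [map_commutatorElement, commutatorElement_eq_one_iff_mul_comm]
      have hx : ⊤ ≤ (Subgroup.centralizer ({π x} : Set (S ⧸ C'))).comap π := by
        rw [← htop]
        exact sup_le (Subgroup.zpowers_le.mpr (Subgroup.mem_centralizer_singleton_iff.mpr (hgen x).1.symm))
          (Subgroup.zpowers_le.mpr (Subgroup.mem_centralizer_singleton_iff.mpr (hgen x).2.symm))
      exact (Subgroup.mem_centralizer_singleton_iff.mp (hx (Subgroup.mem_top y))).symm
    have hcard : Nat.card C' ≤ 2 := by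
      rw [hC', Nat.card_zpowers]
      refine Nat.le_of_dvd two_pos (orderOf_dvd_of_pow_eq_one ?_)
      rw [hz, ← pow_mul, ← pow_succ, ← ha, pow_orderOf_eq_one]
    have hm := (_root_.commutator S).card_mul_index
    rw [hidx, hn] at hm
    have hle2 := (Subgroup.card_le_of_le hle).trans hcard
    have : 2 ^ 4 ≤ 2 ^ (k + 3) := Nat.pow_le_pow_right two_pos (by omega)
    norm_num at this
    omega
  · obtain ⟨j, rfl⟩ : ∃ j, k = j + 1 := ⟨k - 1, by omega⟩
    refine Or.inr (Or.inl ⟨j, by rw [hn], a, b, ha, ?_, hc⟩)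
    exact orderOf_eq_prime hb2 (fun h => hb (h ▸ one_mem _))

end Cfsg.Agent.S4399
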