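import Cfsg.Statements.S4211
import Cfsg.Agent.S4399

set_option autoImplicit false
open Cfsg

namespace Cfsg.Agent.S4211

theorem conj_mem_zpowers {G : Type*} [Group G] (hn : ∀ H : Subgroup G, H.Normal) (g x : G) :
    g * x * g⁻¹ ∈ Subgroup.zpowers x := (hn _).conj_mem x (Subgroup.mem_zpowers x) g

theorem comm_mem {G : Type*} [Group G] (hn : ∀ H : Subgroup G, H.Normal) (x y : G) :
    x * y * x⁻¹ * y⁻¹ ∈ Subgroup.zpowers x ∧ x * y * x⁻¹ * y⁻¹ ∈ Subgroup.zpowers y := by
  constructor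
  · rw [show x * y * x⁻¹ * y⁻¹ = x * (y * x⁻¹ * y⁻¹) by group]
    exact mul_mem (Subgroup.mem_zpowers x) ((hn _).conj_mem _ (inv_mem (Subgroup.mem_zpowers x)) y)
  · exact mul_mem (conj_mem_zpowers hn x y) (inv_mem (Subgroup.mem_zpowers y))

theorem comm_iff {G : Type*} [Group G] {x y : G} : x * y * x⁻¹ * y⁻¹ = 1 ↔ x * y = y * x := by
  rw [mul_inv_eq_one, mul_inv_eq_iff_eq_mul]

theorem commute_coprime {G : Type*} [Group G] [Finite G] (hn : ∀ H : Subgroup G, H.Normal) {x y : G}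
    (h : (orderOf x).Coprime (orderOf y)) : x * y = y * x := by
  obtain ⟨h1, h2⟩ := comm_mem hn x y
  rw [← comm_iff, ← orderOf_eq_one_iff]
  exact Nat.eq_one_of_dvd_coprimes h (Nat.card_zpowers x ▸ Subgroup.orderOf_dvd_natCard _ h1)
    (Nat.card_zpowers y ▸ Subgroup.orderOf_dvd_natCard _ h2)

theorem mul_pow_central {G : Type*} [Group G] {a y d : G} (hd : y * a = d * (a * y))
    (hda : Commute d a) (hdy : Commute d y) : ∀ N : ℕ, (a * y) ^ N = a ^ N * y ^ N * d ^ N.choose 2 := by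
  have hyk : ∀ k : ℕ, y ^ k * a = d ^ k * (a * y ^ k) := by
    intro k
    induction k with
    | zero => simp
    | succ k ih =>
      calc y ^ (k + 1) * a = y ^ k * (y * a) := by rw [pow_succ]; group
        _ = (y ^ k * d) * (a * y) := by rw [hd]; group
        _ = d * (y ^ k * a) * y := by rw [show y ^ k * d = d * y ^ k from (hdy.pow_right k).eq.symm]; group
        _ = d ^ (k + 1) * (a * y ^ (k + 1)) := by rw [ih, pow_succ', pow_succ]; group
  intro N
  induction N with
  | zero => simp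
  | succ N ih =>
    have hD : Commute (d ^ N.choose 2) (a * y) := (hda.mul_right hdy).pow_left _
    calc (a * y) ^ (N + 1) = a ^ N * y ^ N * (d ^ N.choose 2 * (a * y)) := by rw [pow_succ, ih]; group
      _ = a ^ N * (y ^ N * a) * y * d ^ N.choose 2 := by rw [hD.eq]; group
      _ = (a ^ N * d ^ N) * a * y ^ N * y * d ^ N.choose 2 := by rw [hyk]; group
      _ = d ^ N * (a ^ (N + 1) * y ^ (N + 1)) * d ^ N.choose 2 := by
          rw [((hda.pow_right N).pow_left N).eq.symm, pow_succ, pow_succ]; group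
      _ = a ^ (N + 1) * y ^ (N + 1) * d ^ (N + 1).choose 2 := by
          rw [(((hda.pow_right (N + 1)).mul_right (hdy.pow_right (N + 1))).pow_left N).eq,
            Nat.choose_succ_succ' N 1, Nat.choose_one_right, pow_add]
          group

/-- A non-abelian Dedekind group contains generators of a quaternion group. -/
theorem exists_quat {G : Type*} [Group G] [Finite G] (hn : ∀ H : Subgroup G, H.Normal)
    (hna : ∃ a b : G, a * b ≠ b * a) :
    ∃ x y : G, orderOf x = 4 ∧ orderOf y = 4 ∧ x ^ 2 = y ^ 2 ∧ x * y * x⁻¹ = y⁻¹ := by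
  classical
  let S : Set (G × G) := {w | w.1 * w.2 ≠ w.2 * w.1 ∧
    ∃ (p i j : ℕ), p.Prime ∧ orderOf w.1 = p ^ i ∧ orderOf w.2 = p ^ j}
  have hSne : S.Nonempty := by
    by_contra hS
    rw [Set.not_nonempty_iff_eq_empty, Set.eq_empty_iff_forall_notMem] at hS
    obtain ⟨a, b, hab⟩ := hna
    -- every Sylow subgroup is central
    have key : ∀ (p : ℕ) [Fact p.Prime] (P : Sylow p G), (P : Subgroup G) ≤ Subgroup.center G := by
      intro p hp P x hx
      obtain ⟨i, hi⟩ := IsPGroup.iff_orderOf.mp P.isPGroup' ⟨x, hx⟩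
      rw [Subgroup.orderOf_mk] at hi
      have hle : ∀ (q : ℕ) [Fact q.Prime] (Q : Sylow q G), (Q : Subgroup G) ≤ Subgroup.centralizer ({x} : Set G) := by
        intro q hq Q y hy
        obtain ⟨j, hj⟩ := IsPGroup.iff_orderOf.mp Q.isPGroup' ⟨y, hy⟩
        rw [Subgroup.orderOf_mk] at hj
        refine Subgroup.mem_centralizer_singleton_iff.mpr ?_
        by_cases hqp : q = p
        · subst hqp
          by_contra hne
          exact hS (y, x) ⟨hne, q, j, i, hq.out, hj, hi⟩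
        · exact commute_coprime hn (by rw [hi, hj]; exact Nat.Coprime.pow _ _ ((Nat.coprime_primes hq.out hp.out).mpr hqp))
      have htop : Subgroup.centralizer ({x} : Set G) = ⊤ := by
        rw [← Subgroup.index_eq_one]
        by_contra hne
        obtain ⟨q, hq, hqd⟩ := Nat.exists_prime_and_dvd hne
        haveI : Fact q.Prime := ⟨hq⟩
        obtain ⟨Q⟩ : Nonempty (Sylow q G) := inferInstance
        exact Q.not_dvd_index (hqd.trans (Subgroup.index_dvd_of_le (hle q Q)))
      rw [Subgroup.mem_center_iff]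
      exact fun g => Subgroup.mem_centralizer_singleton_iff.mp (htop ▸ Subgroup.mem_top g)
    have htop : Subgroup.center G = ⊤ := by
      rw [← Subgroup.index_eq_one]
      by_contra hne
      obtain ⟨q, hq, hqd⟩ := Nat.exists_prime_and_dvd hne
      haveI : Fact q.Prime := ⟨hq⟩
      obtain ⟨Q⟩ : Nonempty (Sylow q G) := inferInstance
      exact Q.not_dvd_index (hqd.trans (Subgroup.index_dvd_of_le (key q Q)))
    exact hab (Subgroup.mem_center_iff.mp (htop ▸ Subgroup.mem_top b) a)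
  obtain ⟨w, hwS, hwmin⟩ := Set.exists_min_image S (fun w => orderOf w.1 + orderOf w.2) (Set.toFinite _) hSne
  -- orient the pair
  obtain ⟨x, y, hxy, p, m, l, hp, hm, hl, hlm, hmin⟩ : ∃ x y : G, x * y ≠ y * x ∧ ∃ p m l : ℕ,
      p.Prime ∧ orderOf x = p ^ m ∧ orderOf y = p ^ l ∧ l ≤ m ∧
      ∀ a b : G, a * b ≠ b * a → (∃ i j : ℕ, orderOf a = p ^ i ∧ orderOf b = p ^ j) →
        orderOf x + orderOf y ≤ orderOf a + orderOf b := by
    obtain ⟨hne, p, i, j, hp, hi, hj⟩ := hwS
    rcases le_total j i with hji | hji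
    · exact ⟨w.1, w.2, hne, p, i, j, hp, hi, hj, hji,
        fun a b hab ⟨i', j', hi', hj'⟩ => hwmin (a, b) ⟨hab, p, i', j', hp, hi', hj'⟩⟩
    · refine ⟨w.2, w.1, fun e => hne e.symm, p, j, i, hp, hj, hi, hji, fun a b hab ⟨i', j', hi', hj'⟩ => ?_⟩
      rw [add_comm (orderOf w.2)]
      exact hwmin (a, b) ⟨hab, p, i', j', hp, hi', hj'⟩
  set c := x * y * x⁻¹ * y⁻¹ with hc
  have hc1 : c ≠ 1 := fun e => hxy (comm_iff.mp e)
  obtain ⟨hcx, hcy⟩ := comm_mem hn x y
  have hcxc : Commute c x := by obtain ⟨i, hi⟩ := hcx; rw [hc, ← hi]; exact (Commute.refl x).zpow_left i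
  have hcyc : Commute c y := by obtain ⟨i, hi⟩ := hcy; rw [hc, ← hi]; exact (Commute.refl y).zpow_left i
  have hxy' : x * y = c * (y * x) := by rw [hc]; group
  have hxn : ∀ k : ℕ, x ^ k * y = c ^ k * (y * x ^ k) := by
    intro k
    induction k with
    | zero => simp
    | succ k ih =>
      calc x ^ (k + 1) * y = x * (x ^ k * y) := by rw [pow_succ']; group
        _ = (x * c ^ k) * (y * x ^ k) := by rw [ih]; group
        _ = c ^ k * (x * y) * x ^ k := by rw [(hcxc.symm.pow_right k).eq]; group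
        _ = c ^ (k + 1) * (y * x ^ (k + 1)) := by rw [hxy', pow_succ, pow_succ']; group
  -- the commutator has order `p`
  have hm1 : 1 ≤ m := by
    by_contra hlt
    rw [show m = 0 by omega, pow_zero, orderOf_eq_one_iff] at hm
    exact hxy (by rw [hm, one_mul, mul_one])
  have hl1 : 1 ≤ l := by
    by_contra hlt
    rw [show l = 0 by omega, pow_zero, orderOf_eq_one_iff] at hl
    exact hxy (by rw [hl, one_mul, mul_one])
  have hcp : c ^ p = 1 := by
    by_contra hne
    have hne' : x ^ p * y ≠ y * x ^ p := fun e => hne (by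
      have := hxn p
      rw [e] at this
      exact mul_eq_right.mp this.symm)
    have ho : orderOf (x ^ p) = p ^ (m - 1) := by
      rw [orderOf_pow' x hp.ne_zero, hm, Nat.gcd_eq_right (dvd_pow_self p (by omega))]
      exact Nat.div_eq_of_eq_mul_left hp.pos (by rw [← pow_succ, show m - 1 + 1 = m by omega])
    have := hmin (x ^ p) y hne' ⟨m - 1, l, ho, hl⟩
    rw [hm, ho] at this
    have := Nat.pow_lt_pow_right hp.one_lt (show m - 1 < m by omega)
    omega
  have hco : orderOf c = p := by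
    haveI : Fact p.Prime := ⟨hp⟩
    exact orderOf_eq_prime hcp hc1
  -- subgroups of order `p` of the two cyclic groups
  have hsub : ∀ (a : G) (i : ℕ), orderOf a = p ^ (i + 1) → c ∈ Subgroup.zpowers a →
      Subgroup.zpowers (a ^ p ^ i) = Subgroup.zpowers c := by
    intro a i ha hca
    have hb : orderOf (a ^ p ^ i) = p := by
      rw [orderOf_pow' a (pow_ne_zero i hp.ne_zero), ha, Nat.gcd_eq_right (pow_dvd_pow p (by omega))]
      exact Nat.div_eq_of_eq_mul_left (pow_pos hp.pos i) (by ring)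
    obtain ⟨k, hk⟩ := hca
    have hk' : a ^ k = c := hk
    have hd : (p ^ (i + 1) : ℤ) ∣ k * p := by
      have := orderOf_dvd_iff_zpow_eq_one.mpr (show a ^ (k * (p : ℤ)) = 1 by
        rw [zpow_mul, hk', zpow_natCast, hcp])
      rw [ha] at this; exact_mod_cast this
    obtain ⟨e, he⟩ : (p ^ i : ℤ) ∣ k := by
      rw [pow_succ] at hd
      exact Int.dvd_of_mul_dvd_mul_right (by exact_mod_cast hp.ne_zero) hd
    refine (Subgroup.eq_of_le_of_card_ge (Subgroup.zpowers_le.mpr ?_) ?_).symm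
    · refine ⟨e, ?_⟩
      show (a ^ p ^ i) ^ e = c
      rw [← zpow_natCast, ← zpow_mul, ← hk', he]
      push_cast; rfl
    · rw [Nat.card_zpowers, Nat.card_zpowers, hb, hco]
  obtain ⟨m', rfl⟩ : ∃ m', m = m' + 1 := ⟨m - 1, by omega⟩
  obtain ⟨l', rfl⟩ : ∃ l', l = l' + 1 := ⟨l - 1, by omega⟩
  have hu := hsub x m' hm hcx
  have hw := hsub y l' hl hcy
  obtain ⟨r, hr⟩ : y ^ p ^ l' ∈ Subgroup.zpowers (x ^ p ^ m') := hu ▸ hw ▸ Subgroup.mem_zpowers _
  have hr' : (x ^ p ^ m') ^ r = y ^ p ^ l' := hr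
  set s : ℤ := -r * (p : ℤ) ^ (m' - l') with hs
  set a := x ^ s with ha
  set N := p ^ l' with hN
  have hsN : s * (N : ℤ) = -(r * (p ^ m' : ℕ)) := by
    rw [hs, hN]; push_cast
    rw [mul_assoc, ← pow_add, show m' - l' + l' = m' by omega]; ring
  have haN : a ^ N * y ^ N = 1 := by
    rw [ha, ← zpow_natCast (x ^ s), ← zpow_mul, hsN, zpow_neg, mul_comm r, zpow_mul, zpow_natCast,
      hr', hN, inv_mul_cancel]
  have hca : Commute c a := hcxc.zpow_right s
  have hconj : a * y * a⁻¹ = c ^ s * y := by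
    obtain ⟨k, hk | hk⟩ : ∃ k : ℕ, s = k ∨ s = -k := s.eq_nat_or_neg
    · rw [ha, hk, zpow_natCast, zpow_natCast, hxn k]; group
    · rw [ha, hk, zpow_neg, zpow_neg, zpow_natCast, zpow_natCast, inv_inv]
      have h := hxn k
      calc (x ^ k)⁻¹ * y * x ^ k = (x ^ k)⁻¹ * (c ^ k)⁻¹ * (c ^ k * (y * x ^ k)) := by group
        _ = ((c ^ k)⁻¹ * (x ^ k)⁻¹) * (x ^ k * y) := by
            rw [← h, (((hcxc.pow_pow k k).symm).inv_inv).eq]
        _ = (c ^ k)⁻¹ * y := by group
  have hd : y * a = c ^ (-s) * (a * y) := by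
    rw [show a * y = a * y * a⁻¹ * a by group, hconj, zpow_neg]; group
  have hpow := mul_pow_central hd (hca.zpow_left _) (hcyc.zpow_left _) N
  rw [haN, one_mul] at hpow
  replace hpow : (a * y) ^ N = c ^ (-s * (N.choose 2 : ℤ)) := by rw [hpow, zpow_mul, zpow_natCast]
  -- minimality
  have hndvd : ¬ (p : ℤ) ∣ s * (N.choose 2 : ℤ) := by
    intro hdv
    have h1 : (a * y) ^ N = 1 := by
      rw [hpow, ← orderOf_dvd_iff_zpow_eq_one, hco, neg_mul]
      exact dvd_neg.mpr hdv
    obtain ⟨j, hj, hjo⟩ := (Nat.dvd_prime_pow hp).mp (hN ▸ orderOf_dvd_of_pow_eq_one h1)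
    have hne : x * (a * y) ≠ a * y * x := by
      intro e
      apply hxy
      have hax : Commute x a := (Commute.refl x).zpow_right s
      have : a * (x * y) = a * (y * x) := by
        rw [← mul_assoc, ← hax.eq, mul_assoc, e, mul_assoc]
      exact mul_left_cancel this
    have := hmin x (a * y) hne ⟨m' + 1, j, hm, hjo⟩
    rw [hl, hjo] at this
    have := Nat.pow_lt_pow_right hp.one_lt (show j < l' + 1 by omega)
    omega
  have hml : m' = l' := by
    by_contra hne
    apply hndvd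
    refine Dvd.dvd.mul_right ?_ _
    rw [hs]
    exact Dvd.dvd.mul_left (dvd_pow_self _ (by omega)) _
  subst hml
  have hp2 : p = 2 := by
    by_contra hne
    apply hndvd
    refine Dvd.dvd.mul_left ?_ _
    rcases Nat.eq_zero_or_pos m' with h0 | h0
    · simp [hN, h0]
    rw [Int.natCast_dvd_natCast]
    have h2 : p ∣ 2 * N.choose 2 := by
      rw [Nat.choose_two_right, Nat.mul_div_cancel' (Nat.even_mul_pred_self N).two_dvd]
      exact (dvd_pow_self p h0.ne').mul_right _
    exact ((hp.dvd_mul.mp h2)).resolve_left fun h => hne ((Nat.prime_dvd_prime_iff_eq hp Nat.prime_two).mp h)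
  subst hp2
  have hm' : m' = 1 := by
    rcases Nat.lt_or_ge m' 1 with h0 | h0
    · exfalso
      refine hndvd (Dvd.dvd.mul_left ?_ _)
      simp [hN, show m' = 0 by omega]
    by_contra hne
    apply hndvd
    refine Dvd.dvd.mul_left ?_ _
    obtain ⟨k, rfl⟩ : ∃ k, m' = k + 2 := ⟨m' - 2, by omega⟩
    rw [Int.natCast_dvd_natCast, Nat.choose_two_right, hN,
      show 2 ^ (k + 2) * (2 ^ (k + 2) - 1) = 2 * (2 ^ (k + 1) * (2 ^ (k + 2) - 1)) by ring,
      Nat.mul_div_cancel_left _ two_pos]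
    exact (dvd_pow_self 2 k.succ_ne_zero).mul_right _
  subst hm'
  have hpair : ∀ z : G, orderOf z = 2 ^ (1 + 1) → Subgroup.zpowers (z ^ 2 ^ 1) = Subgroup.zpowers c → z ^ 2 = c := by
    intro z hz he
    obtain ⟨k, hk⟩ : z ^ 2 ^ 1 ∈ Subgroup.zpowers c := he ▸ Subgroup.mem_zpowers _
    have hk' : c ^ k = z ^ 2 ^ 1 := hk
    rw [pow_one] at hk'
    rcases Int.even_or_odd k with ⟨i, rfl⟩ | ⟨i, rfl⟩
    · exfalso
      rw [← two_mul, zpow_mul, zpow_ofNat, hcp, one_zpow] at hk'
      have := orderOf_dvd_of_pow_eq_one hk'.symm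
      rw [hz] at this; norm_num at this
    · rw [zpow_add, zpow_mul, zpow_ofNat, hcp, one_zpow, one_mul, zpow_one] at hk'
      exact hk'.symm
  have hx2 := hpair x hm hu
  have hy2 := hpair y hl hw
  refine ⟨x, y, by rw [hm]; norm_num, by rw [hl]; norm_num, hx2.trans hy2.symm, ?_⟩
  have hy4 : y ^ 4 = 1 := by rw [show 4 = orderOf y by rw [hl]; norm_num]; exact pow_orderOf_eq_one y
  calc x * y * x⁻¹ = c * y := by rw [hc]; group
    _ = y ^ 2 * y := by rw [hy2]
    _ = y ^ 4 * y⁻¹ := by group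
    _ = y⁻¹ := by rw [hy4, one_mul]

theorem orderOf_conj' {G : Type*} [Group G] (_hn : ∀ H : Subgroup G, H.Normal) (g x : G) :
    orderOf (g * x * g⁻¹) = orderOf x := (MulAut.conj g).orderOf_eq x

theorem cases_of_order_four {G : Type*} [Group G] {x z : G} (hx : orderOf x = 4) (hz : orderOf z = 4)
    (h : z ∈ Subgroup.zpowers x) : z = x ∨ z = x⁻¹ := by
  obtain ⟨i, rfl⟩ := h
  simp only at hz ⊢
  have hx4 : x ^ (4 : ℤ) = 1 := by
    rw [show (4 : ℤ) = ((orderOf x : ℕ) : ℤ) by rw [hx]; rfl, zpow_natCast, pow_orderOf_eq_one]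
  have e : x ^ i = x ^ (i % 4) := by
    conv_lhs => rw [← Int.emod_add_mul_ediv i 4, zpow_add, zpow_mul, hx4, one_zpow, mul_one]
  rw [e] at hz ⊢
  rcases (show i % 4 = 0 ∨ i % 4 = 1 ∨ i % 4 = 2 ∨ i % 4 = 3 by omega) with h | h | h | h <;> rw [h] at hz ⊢
  · rw [zpow_zero, orderOf_one] at hz; omega
  · exact Or.inl (zpow_one x)
  · have : orderOf (x ^ (2 : ℤ)) ∣ 2 := by
      apply orderOf_dvd_of_pow_eq_one
      rw [← zpow_natCast, ← zpow_mul]; exact hx4
    rw [hz] at this; norm_num at this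
  · refine Or.inr (eq_inv_of_mul_eq_one_left ?_)
    rw [← zpow_add_one]; exact hx4

/-- A finite non-abelian group in which every subgroup is normal is the internal direct product of a subgroup isomorphic to the quaternion group of order `8`, an elementary abelian `2`-subgroup and an abelian subgroup of odd order. -/
theorem result {G : Type*} [Group G] [Finite G] (hna : ¬ IsMulCommutative G) (hn : ∀ H : Subgroup G, H.Normal) : ∃ Q E A : Subgroup G, Nonempty (Q ≃* QuaternionGroup 2) ∧ Cfsg.IsElementaryAbelian 2 E ∧ IsMulCommutative A ∧ Odd (Nat.card A) ∧ E ⊓ A = ⊥ ∧ Q ⊓ (E ⊔ A) = ⊥ ∧ Q ⊔ (E ⊔ A) = ⊤ := by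
  classical
  have hna' : ∃ a b : G, a * b ≠ b * a := by
    by_contra h
    push Not at h
    exact hna ⟨⟨h⟩⟩
  obtain ⟨x, y, hx, hy, hxy2, hconj⟩ := exists_quat hn hna'
  -- the quaternion subgroup
  obtain ⟨f, hadd, hcomm, hinj, hmem, h0, hfp⟩ := Cfsg.Agent.S4399.zmod_pow (N := 2 * 2) (a := y) (b := x) hy hconj
  let F : QuaternionGroup 2 → G
    | .a i => f i
    | .xa i => x * f i
  let φ : QuaternionGroup 2 →* G := MonoidHom.mk' F (fun u v => by
    rcases u with i | i <;> rcases v with j | j <;>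
      simp only [F, QuaternionGroup.a_mul_a, QuaternionGroup.a_mul_xa, QuaternionGroup.xa_mul_a, QuaternionGroup.xa_mul_xa]
    · exact hadd i j
    · rw [← mul_assoc, hcomm, mul_assoc, ← hadd, neg_add_eq_sub]
    · rw [mul_assoc, ← hadd]
    · rw [mul_assoc, ← mul_assoc (f i), hcomm, mul_assoc, ← hadd, ← mul_assoc,
        show x * x = f ((2 : ℕ) : ZMod (2 * 2)) by rw [hfp, ← sq, hxy2], ← hadd]
      congr 1; abel)
  have hxny : x ∉ Subgroup.zpowers y := by
    rintro ⟨i, rfl⟩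
    simp only at hconj
    rw [(((Commute.refl y).zpow_left i)).eq, mul_inv_cancel_right] at hconj
    have : orderOf y ∣ 2 := orderOf_dvd_of_pow_eq_one (by rw [sq]; nth_rw 2 [hconj]; exact mul_inv_cancel y)
    rw [hy] at this; norm_num at this
  have hφ : Function.Injective φ := by
    rw [injective_iff_map_eq_one]
    rintro (i | i) h
    · change f i = 1 at h
      rw [hinj (h.trans h0.symm), QuaternionGroup.one_def]
    · exfalso
      change x * f i = 1 at h
      exact hxny (eq_inv_of_mul_eq_one_left h ▸ inv_mem (hmem i))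
  set Q := φ.range with hQ
  have hyQ : y ∈ Q := ⟨.a 1, by
    show f 1 = y
    have := hfp 1
    rw [Nat.cast_one] at this
    rw [this, pow_one]⟩
  have hxQ : x ∈ Q := ⟨.xa 0, by show x * f 0 = x; rw [h0, mul_one]⟩
  set C := Subgroup.centralizer ({x, y} : Set G) with hC
  have hCmem : ∀ g, g ∈ C ↔ g * x = x * g ∧ g * y = y * g := fun g => by
    rw [hC, Subgroup.mem_centralizer_iff]
    exact ⟨fun h => ⟨(h x (by simp)).symm, (h y (by simp)).symm⟩, by rintro ⟨h1, h2⟩ u (rfl | rfl) <;> simp [h1, h2]⟩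
  have hyx : y * x * y⁻¹ = x⁻¹ := by
    calc y * x * y⁻¹ = (x * y * x⁻¹)⁻¹ * x * y⁻¹ := by rw [hconj, inv_inv]
      _ = x * (y ^ 2)⁻¹ := by group
      _ = x⁻¹ := by rw [← hxy2]; group
  -- `G = Q C`
  have hQC : ∀ g : G, ∃ q ∈ Q, q⁻¹ * g ∈ C := by
    intro g
    have h1 := cases_of_order_four hx (z := g * x * g⁻¹) (by rw [← hx]; exact orderOf_conj' hn g x) (conj_mem_zpowers hn g x)
    have h2 := cases_of_order_four hy (z := g * y * g⁻¹) (by rw [← hy]; exact orderOf_conj' hn g y) (conj_mem_zpowers hn g y)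
    have hgo : ∀ q : G, q * x * q⁻¹ = g * x * g⁻¹ → q * y * q⁻¹ = g * y * g⁻¹ → q⁻¹ * g ∈ C := by
      intro q e1 e2
      rw [hCmem]
      constructor
      · calc q⁻¹ * g * x = q⁻¹ * (g * x * g⁻¹) * g := by group
          _ = q⁻¹ * (q * x * q⁻¹) * g := by rw [e1]
          _ = x * (q⁻¹ * g) := by group
      · calc q⁻¹ * g * y = q⁻¹ * (g * y * g⁻¹) * g := by group
          _ = q⁻¹ * (q * y * q⁻¹) * g := by rw [e2]
          _ = y * (q⁻¹ * g) := by group
    have hxx : x * x * x⁻¹ = x := by group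
    have hyy : y * y * y⁻¹ = y := by group
    rcases h1 with e1 | e1 <;> rcases h2 with e2 | e2
    · exact ⟨1, Q.one_mem, hgo 1 (by rw [e1]; group) (by rw [e2]; group)⟩
    · exact ⟨x, hxQ, hgo x (by rw [e1, hxx]) (by rw [e2, hconj])⟩
    · exact ⟨y, hyQ, hgo y (by rw [e1, hyx]) (by rw [e2, hyy])⟩
    · refine ⟨x * y, Q.mul_mem hxQ hyQ, hgo _ ?_ ?_⟩
      · rw [e1]
        calc x * y * x * (x * y)⁻¹ = x * (y * x * y⁻¹) * x⁻¹ := by group
          _ = x⁻¹ := by rw [hyx]; group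
      · rw [e2]
        calc x * y * y * (x * y)⁻¹ = x * y * x⁻¹ := by group
          _ = y⁻¹ := hconj
  set z := x * x with hz
  have hz1 : z ≠ 1 := fun e => by
    have := orderOf_dvd_of_pow_eq_one (show x ^ 2 = 1 by rw [sq]; exact e)
    rw [hx] at this; norm_num at this
  have hz2 : z * z = 1 := by
    have := pow_orderOf_eq_one x
    rw [hx] at this
    rw [hz, ← this, pow_succ, pow_succ, pow_two]; group
  have hzQ : z ∈ Q := Q.mul_mem hxQ hxQ
  have hzy : z * y = y * z := by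
    rw [hz, ← sq, hxy2]; exact ((Commute.refl y).pow_left 2).eq
  have hzC : z ∈ C := (hCmem z).mpr ⟨by rw [hz, mul_assoc], hzy⟩
  -- two-elements of `C` are involutions
  have hfour : ∀ c ∈ C, c ^ 4 = 1 → c ^ 2 = 1 := by
    intro c hc hc4
    obtain ⟨hcx', hcy'⟩ := (hCmem c).mp hc
    have hk : x * c * y * (x * c)⁻¹ * y⁻¹ = z := by
      calc x * c * y * (x * c)⁻¹ * y⁻¹ = x * (c * y) * c⁻¹ * x⁻¹ * y⁻¹ := by group
        _ = (x * y * x⁻¹) * y⁻¹ := by rw [hcy']; group
        _ = (y ^ 2)⁻¹ := by rw [hconj]; group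
        _ = z := by rw [← hxy2, sq, ← hz, inv_eq_iff_mul_eq_one, hz2]
    obtain ⟨i, hi⟩ := (comm_mem hn (x * c) y).1
    have hi' : (x * c) ^ i = z := hi.trans hk
    have hxc2 : (x * c) ^ (2 : ℤ) = z * c ^ 2 := by
      rw [zpow_ofNat, (show Commute x c from hcx'.symm).mul_pow, sq x]
    have hxc4 : (x * c) ^ (4 : ℤ) = 1 := by
      rw [show (4 : ℤ) = 2 + 2 by rfl, zpow_add, hxc2]
      have hzc : Commute (c ^ 2) z := (((show Commute c x from hcx').mul_right (show Commute c x from hcx'))).pow_left 2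
      calc z * c ^ 2 * (z * c ^ 2) = z * (c ^ 2 * z) * c ^ 2 := by group
        _ = (z * z) * c ^ 4 := by rw [hzc.eq]; group
        _ = 1 := by rw [hz2, hc4, one_mul]
    have e : (x * c) ^ i = (x * c) ^ (i % 4) := by
      conv_lhs => rw [← Int.emod_add_mul_ediv i 4, zpow_add, zpow_mul, hxc4, one_zpow, mul_one]
    rw [e] at hi'
    have hxC : x ∉ C := fun h => by
      have := ((hCmem x).mp h).2
      rw [this, mul_inv_cancel_right] at hconj
      have h2 : orderOf y ∣ 2 := orderOf_dvd_of_pow_eq_one (by rw [sq]; nth_rw 2 [hconj]; exact mul_inv_cancel y)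
      rw [hy] at h2; norm_num at h2
    rcases (show i % 4 = 0 ∨ i % 4 = 1 ∨ i % 4 = 2 ∨ i % 4 = 3 by omega) with h | h | h | h <;> rw [h] at hi'
    · rw [zpow_zero] at hi'; exact absurd hi'.symm hz1
    · rw [zpow_one] at hi'
      exact absurd (by rw [show x = z * c⁻¹ by rw [← hi', mul_inv_cancel_right]]; exact C.mul_mem hzC (C.inv_mem hc)) hxC
    · rw [hxc2, mul_eq_left] at hi'; exact hi'
    · exfalso
      have h3 : (x * c) ^ (3 : ℤ) = (x * c)⁻¹ := eq_inv_of_mul_eq_one_left (by rw [← zpow_add_one]; exact hxc4)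
      rw [h3] at hi'
      exact hxC (by rw [show x = z⁻¹ * c⁻¹ by rw [← hi', inv_inv, mul_inv_cancel_right]]; exact C.mul_mem (C.inv_mem hzC) (C.inv_mem hc))
  -- `C` is abelian
  have hCn : ∀ H : Subgroup C, H.Normal := by
    intro H
    haveI := hn (H.map C.subtype)
    rw [← Subgroup.comap_map_eq_self_of_injective C.subtype_injective H]
    infer_instance
  have hCcomm : ∀ a ∈ C, ∀ b ∈ C, a * b = b * a := by
    by_contra h
    push Not at h
    obtain ⟨a, ha, b, hb, hab⟩ := h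
    obtain ⟨u, -, hu, -, -, -⟩ := exists_quat hCn ⟨⟨a, ha⟩, ⟨b, hb⟩, fun e => hab (congrArg Subtype.val e)⟩
    have h4 : (u : G) ^ 4 = 1 := by
      rw [← hu, ← Subgroup.orderOf_coe]; exact pow_orderOf_eq_one _
    have h2 := hfour u u.2 h4
    have := orderOf_dvd_of_pow_eq_one h2
    rw [Subgroup.orderOf_coe, hu] at this; norm_num at this
  -- the elementary part and the odd part
  let E0 : Subgroup G :=
    { carrier := {c | c ∈ C ∧ c ^ 2 = 1}
      mul_mem' := fun {a b} ha hb => ⟨C.mul_mem ha.1 hb.1, by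
        rw [(show Commute a b from hCcomm a ha.1 b hb.1).mul_pow, ha.2, hb.2, one_mul]⟩
      one_mem' := ⟨C.one_mem, one_pow 2⟩
      inv_mem' := fun {a} ha => ⟨C.inv_mem ha.1, by rw [inv_pow, ha.2, inv_one]⟩ }
  let A : Subgroup G :=
    { carrier := {c | c ∈ C ∧ Odd (orderOf c)}
      mul_mem' := fun {a b} ha hb => ⟨C.mul_mem ha.1 hb.1,
        (ha.2.mul hb.2).of_dvd_nat ((show Commute a b from hCcomm a ha.1 b hb.1).orderOf_mul_dvd_mul_orderOf)⟩
      one_mem' := ⟨C.one_mem, by rw [orderOf_one]; exact odd_one⟩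
      inv_mem' := fun {a} ha => ⟨C.inv_mem ha.1, by rw [orderOf_inv]; exact ha.2⟩ }
  obtain ⟨E, hE⟩ := (Set.toFinite {F : Subgroup G | F ≤ E0 ∧ z ∉ F}).exists_maximal
    ⟨⊥, bot_le, fun h => hz1 (Subgroup.mem_bot.mp h)⟩
  obtain ⟨⟨hEle, hzE⟩, hEmax⟩ := hE
  have hE0 : ∀ e ∈ E0, e ∈ E ∨ e * z ∈ E := by
    intro e he
    by_cases heE : e ∈ E
    · exact Or.inl heE
    refine Or.inr ?_
    set F := E ⊔ Subgroup.zpowers e with hF
    have hzF : z ∈ F := by
      by_contra h
      exact heE ((hEmax ⟨sup_le hEle (Subgroup.zpowers_le.mpr he), h⟩ le_sup_left) (Subgroup.mem_sup_right (Subgroup.mem_zpowers e)))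
    haveI := hn E
    have hzF' : z ∈ ((E ⊔ Subgroup.zpowers e : Subgroup G) : Set G) := hzF
    rw [Subgroup.normal_mul] at hzF'
    obtain ⟨u, hu, v, ⟨i, rfl⟩, huv⟩ := hzF'
    have huv' : u * e ^ i = z := huv
    rcases Int.even_or_odd i with ⟨j, rfl⟩ | ⟨j, rfl⟩
    · rw [← two_mul, zpow_mul, zpow_ofNat, he.2, one_zpow, mul_one] at huv'
      exact absurd (huv' ▸ hu) hzE
    · rw [zpow_add, zpow_mul, zpow_ofNat, he.2, one_zpow, one_mul, zpow_one] at huv'
      have hee : e * e = 1 := by rw [← sq]; exact he.2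
      rw [← huv', hCcomm u (hEle hu).1 e he.1, ← mul_assoc, hee, one_mul]
      exact hu
  have hEA : ∀ u ∈ C, ∀ a ∈ C, u ^ 2 = 1 → Odd (orderOf a) → u = a → u = 1 := by
    intro u _ a _ hu2 ha h
    subst h
    refine orderOf_eq_one_iff.mp ?_
    rcases (Nat.dvd_prime Nat.prime_two).mp (orderOf_dvd_of_pow_eq_one hu2) with e | e
    · exact e
    · rw [e] at ha; exact absurd ha (by decide)
  refine ⟨Q, E, A, ⟨(MonoidHom.ofInjective hφ).symm⟩, ⟨⟨⟨fun a b => Subtype.ext (hCcomm a (hEle a.2).1 b (hEle b.2).1)⟩⟩,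
    fun a ha => (hEle ha).2⟩, ⟨⟨fun a b => Subtype.ext (hCcomm a a.2.1 b b.2.1)⟩⟩, ?_, ?_, ?_, ?_⟩
  · rw [← Nat.not_even_iff_odd, even_iff_two_dvd]
    intro h
    haveI : Fact (Nat.Prime 2) := ⟨Nat.prime_two⟩
    obtain ⟨a, ha⟩ := exists_prime_orderOf_dvd_card' (G := A) 2 h
    have := a.2.2
    rw [Subgroup.orderOf_coe, ha] at this
    exact absurd this (by decide)
  · rw [eq_bot_iff]
    rintro u ⟨hu1, hu2⟩
    exact Subgroup.mem_bot.mpr (hEA u (hEle hu1).1 u hu2.1 (hEle hu1).2 hu2.2 rfl)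
  · rw [eq_bot_iff]
    rintro u ⟨⟨q, rfl⟩, hu⟩
    have hu' : φ q ∈ ((E ⊔ A : Subgroup G) : Set G) := hu
    haveI := hn E
    rw [Subgroup.normal_mul] at hu'
    obtain ⟨e, he, a, ha, hea⟩ := hu'
    have hea' : e * a = φ q := hea
    have hqC : φ q ∈ C := hea' ▸ C.mul_mem (hEle he).1 ha.1
    -- the centre of the quaternion group
    have hq : φ q = 1 ∨ φ q = z := by
      obtain ⟨h1, h2⟩ := (hCmem _).mp hqC
      have key : ∀ q : QuaternionGroup 2, q * .xa 0 = .xa 0 * q → q * .a 1 = .a 1 * q → q = 1 ∨ q = .xa 0 * .xa 0 := by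
        decide +kernel
      have ex : φ (.xa 0) = x := by show x * f 0 = x; rw [h0, mul_one]
      have ey : φ (.a 1) = y := by
        show f 1 = y
        have := hfp 1
        rw [Nat.cast_one] at this
        rw [this, pow_one]
      rcases key q (hφ (by rw [map_mul, map_mul, ex, h1])) (hφ (by rw [map_mul, map_mul, ey, h2])) with e | e
      · exact Or.inl (by rw [e, map_one])
      · exact Or.inr (by rw [e, map_mul, ex, hz])
    rcases hq with e1 | e1
    · exact Subgroup.mem_bot.mpr e1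
    · exfalso
      rw [e1] at hea'
      have ha2 : a ^ 2 = 1 := by
        rw [show a = e⁻¹ * z by rw [← hea', inv_mul_cancel_left],
          (show Commute e⁻¹ z from hCcomm _ (C.inv_mem (hEle he).1) z hzC).mul_pow, inv_pow, (hEle he).2, sq z, hz2,
          inv_one, one_mul]
      have := hEA a ha.1 a ha.1 ha2 ha.2 rfl
      rw [this, mul_one] at hea'
      exact hzE (hea' ▸ he)
  · rw [eq_top_iff]
    intro g _
    obtain ⟨q, hq, hc⟩ := hQC g
    rw [show g = q * (q⁻¹ * g) by group]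
    refine Subgroup.mul_mem _ (Subgroup.mem_sup_left hq) ?_
    set c := q⁻¹ * g with hcdef
    obtain ⟨k, m, hm, hkm⟩ := Nat.exists_eq_pow_mul_and_not_dvd (orderOf_pos c).ne' 2 (by norm_num)
    have hmo : Odd m := Nat.odd_iff.mpr (Nat.two_dvd_ne_zero.mp hm)
    have ha : c ^ 2 ^ k ∈ A := ⟨C.pow_mem hc _, hmo.of_dvd_nat (orderOf_dvd_of_pow_eq_one (by rw [← pow_mul, ← hkm, pow_orderOf_eq_one]))⟩
    have he : c ^ m ∈ E0 := by
      refine ⟨C.pow_mem hc _, ?_⟩
      have hind : ∀ j : ℕ, ∀ d ∈ C, d ^ 2 ^ (j + 1) = 1 → d ^ 2 = 1 := by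
        intro j
        induction j with
        | zero => intro d _ h; simpa using h
        | succ j ih =>
          intro d hd h
          have h1 := ih (d ^ 2) (C.pow_mem hd 2) (by rw [← pow_mul, ← pow_succ']; exact h)
          rw [← pow_mul] at h1
          exact hfour d hd h1
      rcases k with _ | k
      · rw [pow_zero, one_mul] at hkm
        rw [← hkm, pow_orderOf_eq_one, one_pow]
      · exact hind k _ (C.pow_mem hc _) (by rw [← pow_mul, mul_comm, ← hkm, pow_orderOf_eq_one])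
    obtain ⟨i, j, hij⟩ : IsCoprime ((2 ^ k : ℕ) : ℤ) (m : ℤ) :=
      Nat.isCoprime_iff_coprime.mpr (((Nat.prime_two.coprime_iff_not_dvd.mpr hm)).pow_left k)
    have hdec : c = (c ^ 2 ^ k) ^ i * (c ^ m) ^ j := by
      rw [← zpow_natCast, ← zpow_natCast, ← zpow_mul, ← zpow_mul, ← zpow_add, mul_comm _ i, mul_comm _ j, hij, zpow_one]
    rw [hdec]
    refine Subgroup.mul_mem _ (Subgroup.zpow_mem _ (Subgroup.mem_sup_right (Subgroup.mem_sup_right ha)) i) (Subgroup.zpow_mem _ ?_ j)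
    rcases hE0 _ he with h | h
    · exact Subgroup.mem_sup_right (Subgroup.mem_sup_left h)
    · rw [show c ^ m = c ^ m * z * z by rw [mul_assoc, hz2, mul_one]]
      exact Subgroup.mul_mem _ (Subgroup.mem_sup_right (Subgroup.mem_sup_left h)) (Subgroup.mem_sup_left hzQ)

end Cfsg.Agent.S4211
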