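import Cfsg.Statements.S4230
import Mathlib

set_option autoImplicit false
open Cfsg

namespace Cfsg.Agent.S4230

/-- Let p be an odd prime, q a natural number not divisible by p, and e the multiplicative order of q modulo p. For a natural number f, p divides the value at q of the f-th cyclotomic polynomial if and only if f = e·p^j for some j ≥ 0. -/
theorem result (p q f : ℕ) (hp : p.Prime) (hp2 : p ≠ 2) (hpq : ¬ p ∣ q) :
    ((p : ℤ) ∣ (Polynomial.cyclotomic f ℤ).eval (q : ℤ)) ↔ ∃ j : ℕ, f = orderOf (q : ZMod p) * p ^ j := by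
  haveI := Fact.mk hp
  have hq0 : (q : ZMod p) ≠ 0 := by rwa [Ne, ZMod.natCast_eq_zero_iff]
  have hroot : ((p : ℤ) ∣ (Polynomial.cyclotomic f ℤ).eval (q : ℤ)) ↔ (Polynomial.cyclotomic f (ZMod p)).IsRoot (q : ZMod p) := by
    rw [← ZMod.intCast_zmod_eq_zero_iff_dvd, Polynomial.IsRoot.def, ← Polynomial.map_cyclotomic_int f (ZMod p),
      show ((q : ZMod p)) = (Int.castRingHom (ZMod p)) (q : ℤ) from (Int.cast_natCast q).symm, Polynomial.eval_map,
      Polynomial.eval₂_at_apply]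
    rfl
  rw [hroot]
  rcases eq_or_ne f 0 with rfl | hf
  · simp only [Polynomial.cyclotomic_zero, Polynomial.IsRoot.def, Polynomial.eval_one, one_ne_zero, false_iff, not_exists]
    intro j h
    have hfin : IsOfFinOrder (q : ZMod p) := isOfFinOrder_iff_pow_eq_one.mpr ⟨p - 1, by have := hp.two_le; omega, ZMod.pow_card_sub_one_eq_one hq0⟩
    exact (Nat.mul_pos (orderOf_pos_iff.mpr hfin) (pow_pos hp.pos j)).ne h
  obtain ⟨k, m, hm, rfl⟩ := Nat.exists_eq_pow_mul_and_not_dvd hf p hp.ne_one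
  haveI : NeZero ((m : ℕ) : ZMod p) := ⟨by rwa [Ne, ZMod.natCast_eq_zero_iff]⟩
  rw [Polynomial.isRoot_cyclotomic_prime_pow_mul_iff_of_charP, IsPrimitiveRoot.iff_orderOf]
  constructor
  · intro h
    exact ⟨k, by rw [h, mul_comm]⟩
  · rintro ⟨j, hj⟩
    have hd : ¬ p ∣ orderOf (q : ZMod p) := fun h => by
      have h1 : p ∣ p - 1 := h.trans (ZMod.orderOf_dvd_card_sub_one hq0)
      have := Nat.le_of_dvd (by have := hp.two_le; omega) h1
      have := hp.two_le
      omega
    have hcop : Nat.Coprime m (p ^ k) := ((Nat.Prime.coprime_iff_not_dvd hp).mpr hm).symm.pow_right k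
    have hcop' : Nat.Coprime (orderOf (q : ZMod p)) (p ^ j) := ((Nat.Prime.coprime_iff_not_dvd hp).mpr hd).symm.pow_right j
    exact Nat.dvd_antisymm
      (Nat.Coprime.dvd_of_dvd_mul_left (((Nat.Prime.coprime_iff_not_dvd hp).mpr hd).symm.pow_right k) ⟨p ^ j, hj⟩)
      (Nat.Coprime.dvd_of_dvd_mul_right (((Nat.Prime.coprime_iff_not_dvd hp).mpr hm).symm.pow_right j) ⟨p ^ k, by rw [← hj, mul_comm]⟩)

end Cfsg.Agent.S4230
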