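import Cfsg.Statements.S4236
import Cfsg.Agent.Lib.FgsSylowThirtyFive

set_option autoImplicit false
open Cfsg

namespace Cfsg.Agent.S4236

/-- No finite group has exactly 35 Sylow 17-subgroups. -/
theorem result {G : Type*} [Group G] [Finite G] : Nat.card (Sylow 17 G) ≠ 35 := by
  exact CfsgLib.ThirtyFive.main _ G rfl

end Cfsg.Agent.S4236
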