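import Cfsg.Statements.S4238
import Cfsg.Agent.Lib.FgsSectionExponent

set_option autoImplicit false
open Cfsg

namespace Cfsg.Agent.S4238

/-- Let G be a finite group and p a prime. Then G has a normal p-complement if and only if every section K = H/N of G (N a normal subgroup of a subgroup H) whose largest normal subgroup of order prime to p is trivial contains an element whose order equals the exponent of K. -/
theorem result {G : Type*} [Group G] [Finite G] (p : ℕ) [Fact p.Prime] :
    Cfsg.HasNormalPComplement p G ↔
      ∀ (H : Subgroup G) (N : Subgroup H) [N.Normal], Cfsg.pPrimeCore p (H ⧸ N) = ⊥ →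
        ∃ k : H ⧸ N, orderOf k = Monoid.exponent (H ⧸ N) := by
  refine ⟨fun h H N _ hK => CfsgLib.SectionExponent.sect_of_npc h (H ⧸ N) H (QuotientGroup.mk' N)
      (QuotientGroup.mk'_surjective N) hK, fun h => CfsgLib.SectionExponent.npc_of_sect _ G rfl ?_⟩
  intro K _ _ H f hf hK
  let e : H ⧸ f.ker ≃* K := QuotientGroup.quotientKerEquivOfSurjective f hf
  have hc : Cfsg.pPrimeCore p (H ⧸ f.ker) = ⊥ := by
    have h1 := CfsgLib.Core.map_pPrimeCore_le_of_surjective p e.toMonoidHom e.surjective
    rw [hK, le_bot_iff] at h1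
    exact (Subgroup.map_eq_bot_iff_of_injective _ (f := e.toMonoidHom) e.injective).1 h1
  obtain ⟨k, hk⟩ := h H f.ker hc
  exact ⟨e k, by rw [e.orderOf_eq, hk, Monoid.exponent_eq_of_mulEquiv e]⟩

end Cfsg.Agent.S4238
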