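import Cfsg.Statements.S4242
import Cfsg.Agent.Lib.FgsMaxNilp

set_option autoImplicit false
open Cfsg

namespace Cfsg.Agent.S4242

/-- Let G be a finite group and p a prime dividing its order. Every maximal subgroup of G of order divisible by p is nilpotent if and only if G is nilpotent, or G is a minimal non-nilpotent group, or G is the internal direct product of a normal subgroup of order p and a normal minimal non-nilpotent subgroup of order prime to p. -/
theorem result {G : Type*} [Group G] [Finite G] (p : ℕ) (hp : p.Prime) (hpG : p ∣ Nat.card G) :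
    (∀ M : Subgroup G, IsCoatom M → p ∣ Nat.card M → Group.IsNilpotent M) ↔
      (Group.IsNilpotent G ∨ Cfsg.IsMinimalNonNilpotent G ∨
        ∃ Z K : Subgroup G, Z.Normal ∧ K.Normal ∧ Z ⊓ K = ⊥ ∧ Z ⊔ K = ⊤ ∧ Nat.card Z = p ∧
          Cfsg.IsMinimalNonNilpotent K ∧ ¬ p ∣ Nat.card K) := by
  haveI := Fact.mk hp
  constructor
  · intro h
    by_cases h1 : Group.IsNilpotent G
    · exact Or.inl h1
    by_cases h2 : Cfsg.IsMinimalNonNilpotent G
    · exact Or.inr (Or.inl h2)
    exact Or.inr (Or.inr (CfsgLib.MaxNilp.forward h hpG h1 h2))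
  · rintro (h | h | ⟨Z, K, hZn, hKn, hdis, hsup, hZ, hK, hpK⟩) M hM hpM
    · infer_instance
    · exact h.2 M hM.1
    · exact CfsgLib.MaxNilp.backward hdis hsup hZ hK hpK hM hpM

end Cfsg.Agent.S4242
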