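import Cfsg.Statements.S4244


set_option autoImplicit false
open Cfsg

namespace Cfsg.Agent.S4244

/-- Let H be a subnormal subgroup of a finite group G. Then for every subgroup K of G the index of H ∩ K in H divides the index of K in G. -/
theorem result {G : Type*} [Group G] [Finite G] (H : Subgroup G) (hH : H.IsSubnormal) (K : Subgroup G) :
    (H ⊓ K).relIndex H ∣ K.index := by
  induction hH with
  | top => simp
  | step H L hle hL hN ih =>
    refine Dvd.dvd.trans ?_ ih
    rw [Subgroup.inf_relIndex_left, Subgroup.inf_relIndex_left]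
    have h1 : K.relIndex H = (K.subgroupOf L).relIndex (H.subgroupOf L) :=
      (Subgroup.relIndex_subgroupOf hle).symm
    have h2 : K.relIndex L = (K.subgroupOf L).index := rfl
    rw [h1, h2]
    haveI := hN
    set A := H.subgroupOf L
    set B := K.subgroupOf L
    refine Dvd.dvd.trans ?_ (Dvd.intro _ (Subgroup.relIndex_mul_index (le_sup_right : B ≤ A ⊔ B)))
    have e1 : Nat.card (A ⊓ B : Subgroup L) * B.relIndex A = Nat.card A := by
      rw [← Subgroup.inf_relIndex_left, ← Subgroup.relIndex_bot_left,
        Subgroup.relIndex_mul_relIndex _ _ _ bot_le inf_le_left, Subgroup.relIndex_bot_left]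
    have e2 : Nat.card (A ⊓ B : Subgroup L) * A.relIndex B = Nat.card B := by
      rw [← Subgroup.inf_relIndex_right, ← Subgroup.relIndex_bot_left,
        Subgroup.relIndex_mul_relIndex _ _ _ bot_le inf_le_right, Subgroup.relIndex_bot_left]
    have e3 : Nat.card A * A.relIndex B = Nat.card (A ⊔ B : Subgroup L) := by
      rw [← Subgroup.relIndex_sup_right, ← Subgroup.relIndex_bot_left, sup_comm,
        Subgroup.relIndex_mul_relIndex _ _ _ bot_le le_sup_left, Subgroup.relIndex_bot_left]
    have e4 : Nat.card B * B.relIndex (A ⊔ B) = Nat.card (A ⊔ B : Subgroup L) := by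
      rw [← Subgroup.relIndex_bot_left, Subgroup.relIndex_mul_relIndex _ _ _ bot_le le_sup_right,
        Subgroup.relIndex_bot_left]
    refine dvd_of_eq (Nat.eq_of_mul_eq_mul_left (Nat.card_pos (α := B)) ?_)
    rw [e4, ← e3]
    nth_rw 1 [← e2]
    rw [← e1]
    ring

end Cfsg.Agent.S4244
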