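import Cfsg.Statements.S4245
import Cfsg.Agent.Lib.CharBurnside
import Cfsg.Agent.Lib.CoreTransfer
import Cfsg.Agent.Lib.TransferMore

set_option autoImplicit false
open Cfsg

namespace Cfsg.Agent.S4245
universe u

private def Str (A : Type*) [Group A] : Prop :=
  ∃ (B : Subgroup A) (_ : B.Normal), IsCyclic ↥B ∧ IsCyclic (A ⧸ B) ∧ ∃ r : ℕ, Nat.card (A ⧸ B) = 2 ^ r

private theorem str_injective {A H : Type*} [Group A] [Group H] [Finite A] (f : H →* A)
    (hf : Function.Injective f) (h : Str A) : Str H := by
  obtain ⟨B, hB, hBc, hQc, r, hr⟩ := h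
  haveI := hB; haveI := hBc; haveI := hQc
  haveI : Finite H := Finite.of_injective f hf
  set g : H ⧸ B.comap f →* A ⧸ B := QuotientGroup.map _ _ f le_rfl
  have hg : Function.Injective g := by
    rw [← MonoidHom.ker_eq_bot_iff, eq_bot_iff]
    intro x hx
    induction x using QuotientGroup.induction_on with
    | H x =>
      rw [Subgroup.mem_bot, QuotientGroup.eq_one_iff]
      exact (QuotientGroup.eq_one_iff (f x)).1 hx
  refine ⟨B.comap f, inferInstance, ?_, isCyclic_of_injective g hg, ?_⟩
  · exact isCyclic_of_injective ((f.comp (B.comap f).subtype).codRestrict B fun x => x.2) fun x y e =>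
      Subtype.ext (hf (congrArg (fun z : ↥B => (z : A)) e))
  · obtain ⟨k, -, hk⟩ := (Nat.dvd_prime_pow Nat.prime_two).1 (hr ▸ Subgroup.card_dvd_of_injective g hg)
    exact ⟨k, hk⟩

private theorem str_surjective {A A' : Type*} [Group A] [Group A'] [Finite A] (f : A →* A')
    (hf : Function.Surjective f) (h : Str A) : Str A' := by
  obtain ⟨B, hB, hBc, hQc, r, hr⟩ := h
  haveI := hB; haveI := hBc; haveI := hQc
  haveI hn : (B.map f).Normal := hB.map f hf
  set g : A ⧸ B →* A' ⧸ B.map f := QuotientGroup.map _ _ f (Subgroup.le_comap_map f B)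
  have hg : Function.Surjective g := by
    intro y
    induction y using QuotientGroup.induction_on with
    | H y =>
      obtain ⟨x, rfl⟩ := hf y
      exact ⟨(x : A ⧸ B), rfl⟩
  refine ⟨B.map f, hn, isCyclic_of_surjective (f.subgroupMap B) (f.subgroupMap_surjective B),
    isCyclic_of_surjective g hg, ?_⟩
  obtain ⟨k, -, hk⟩ := (Nat.dvd_prime_pow Nat.prime_two).1 (hr ▸ Subgroup.card_dvd_of_surjective g hg)
  exact ⟨k, hk⟩

private theorem str_solvable {A : Type*} [Group A] (h : Str A) : Group.IsSolvable A := by
  obtain ⟨B, hB, hBc, hQc, -⟩ := h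
  haveI := hB; haveI := hBc; haveI := hQc
  letI := IsCyclic.commGroup (α := ↥B)
  letI := IsCyclic.commGroup (α := A ⧸ B)
  exact solvable_of_ker_le_range B.subtype (QuotientGroup.mk' B)
    (by rw [QuotientGroup.ker_mk', Subgroup.range_subtype])

private theorem relIndex_dvd_of_normal_right {G : Type*} [Group G] [Finite G] (A N : Subgroup G) [N.Normal] :
    A.relIndex N ∣ A.index := by
  have h1 := Subgroup.relIndex_mul_relIndex (A ⊓ N) N (A ⊔ N) inf_le_right le_sup_right
  have h2 := Subgroup.relIndex_mul_relIndex (A ⊓ N) A (A ⊔ N) inf_le_left le_sup_left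
  rw [Subgroup.inf_relIndex_right, Subgroup.relIndex_sup_right] at h1
  rw [Subgroup.inf_relIndex_left, ← h1, mul_comm] at h2
  have h3 : A.relIndex (A ⊔ N) = A.relIndex N :=
    mul_right_cancel₀ (Subgroup.FiniteIndex.index_ne_zero) h2
  rw [← h3]
  exact Subgroup.relIndex_dvd_index_of_le le_sup_left

private theorem key (p : ℕ) (hp : p.Prime) : ∀ (n : ℕ) (G : Type u) [Group G] [Finite G] (A : Subgroup G) (s : ℕ),
    Nat.card G = n → A.index = p ^ s → Str ↥A → Group.IsSolvable G := by
  intro n
  induction n using Nat.strong_induction_on with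
  | _ n ih =>
  intro G _ _ A s hcard hA hstr
  rcases subsingleton_or_nontrivial G with hG | hG
  · infer_instance
  by_cases hsimple : IsSimpleGroup G
  · haveI := hsimple
    by_contra hns
    have hna : ¬ (Nat.card G).Prime := fun h => hns (by
      haveI := Fact.mk h
      haveI : IsCyclic G := isCyclic_of_prime_card rfl
      letI := IsCyclic.commGroup (α := G)
      infer_instance)
    -- no non-trivial element has prime power class
    have hcls : ∀ b : G, b ≠ 1 → ∀ q : ℕ, q.Prime → ∀ t : ℕ,
        (Subgroup.centralizer ({b} : Set G)).index ∣ q ^ t → False := by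
      intro b hb q hq t ht
      obtain ⟨k, -, hk⟩ := (Nat.dvd_prime_pow hq).1 ht
      exact hna (CfsgLib.Char.prime_card_of_class_prime_pow hq hb hk)
    obtain ⟨B, hBn, hBc, hQc, r, hr⟩ := hstr
    haveI := hBn; haveI := hBc; haveI := hQc
    have hAc : Nat.card ↥A = Nat.card ↥B * 2 ^ r := by
      rw [← hr, mul_comm]; exact B.card_eq_card_quotient_mul_card_subgroup
    -- a power of two, or a trivial subgroup A
    have hpg : ∀ q : ℕ, q.Prime → ∀ t : ℕ, Nat.card G = q ^ t → False := by
      intro q hq t ht
      haveI := Fact.mk hq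
      haveI := (IsPGroup.of_card ht).isNilpotent
      exact hns inferInstance
    by_cases hB1 : B = ⊥
    · rw [hB1, Subgroup.card_bot, one_mul] at hAc
      by_cases hp2 : p = 2
      · exact hpg 2 Nat.prime_two (r + s) (by rw [← A.card_mul_index, hAc, hA, hp2, pow_add])
      · exact hns (CfsgLib.Char.burnside_pq hp Nat.prime_two (Nat.card G) G s r rfl (by
          rw [← A.card_mul_index, hAc, hA, mul_comm]))
    · obtain ⟨b, hb, hb1⟩ := (Subgroup.ne_bot_iff_exists_ne_one).1 hB1 |> fun ⟨x, hx⟩ =>
        (⟨(x : ↥A), x.2, fun e => hx (Subtype.ext e)⟩ : ∃ b : ↥A, b ∈ B ∧ b ≠ 1)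
      have hbG : (b : G) ≠ 1 := fun e => hb1 (Subtype.ext e)
      -- the abelian part centralises
      have hcent : (B.map A.subtype) ≤ Subgroup.centralizer ({(b : G)} : Set G) := by
        rintro _ ⟨c, hc, rfl⟩
        rw [Subgroup.mem_centralizer_singleton_iff]
        letI := IsCyclic.commGroup (α := ↥B)
        exact congrArg (fun z : ↥B => ((z : ↥A) : G)) (mul_comm (⟨c, hc⟩ : ↥B) ⟨b, hb⟩)
      have hidx : (B.map A.subtype).index = 2 ^ r * p ^ s := by
        rw [Subgroup.index_map_subtype, hA, Subgroup.index_eq_card, hr]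
      by_cases hp2 : p = 2
      · exact hcls b hbG 2 Nat.prime_two (r + s)
          ((Subgroup.index_dvd_of_le hcent).trans (by rw [hidx, hp2, pow_add]))
      by_cases hr0 : r = 0
      · exact hcls b hbG p hp s ((Subgroup.index_dvd_of_le hcent).trans (by rw [hidx, hr0, pow_zero, one_mul]))
      by_cases hBeven : 2 ∣ Nat.card ↥B
      · haveI : Fact (Nat.Prime 2) := ⟨Nat.prime_two⟩
        obtain ⟨z, hz⟩ := exists_prime_orderOf_dvd_card' (G := ↥B) 2 hBeven
        have hzG : ((z : ↥A) : G) ≠ 1 := fun e => by
          have : z = 1 := Subtype.ext (Subtype.ext e)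
          rw [this, orderOf_one] at hz; omega
        refine hcls _ hzG p hp s ((Subgroup.index_dvd_of_le (H := A) fun a ha => ?_).trans hA.dvd)
        rw [Subgroup.mem_centralizer_singleton_iff]
        set w : ↥B := ⟨(⟨a, ha⟩ : ↥A) * (z : ↥A) * (⟨a, ha⟩ : ↥A)⁻¹, hBn.conj_mem _ z.2 _⟩ with hw
        have hwo : orderOf w = 2 := by
          rw [← Subgroup.orderOf_coe, hw, ← hz, ← Subgroup.orderOf_coe z]
          exact (SemiconjBy.orderOf_eq (⟨a, ha⟩ : ↥A) (SemiconjBy.conj_mk _ (z : ↥A))).symm
        have hwz : w = z := by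
          classical
          haveI := Fintype.ofFinite ↥B
          by_contra hne
          have h3 : ({1, z, w} : Finset ↥B) ⊆ Finset.univ.filter fun x => x ^ 2 = 1 := by
            intro x hx
            simp only [Finset.mem_insert, Finset.mem_singleton] at hx
            refine Finset.mem_filter.2 ⟨Finset.mem_univ _, ?_⟩
            rcases hx with rfl | rfl | rfl
            · exact one_pow 2
            · rw [← hz, pow_orderOf_eq_one]
            · rw [← hwo, pow_orderOf_eq_one]
          have h4 := (Finset.card_le_card h3).trans (IsCyclic.card_pow_eq_one_le (α := ↥B) two_pos)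
          rw [Finset.card_insert_of_notMem, Finset.card_pair (Ne.symm hne)] at h4
          · omega
          · simp only [Finset.mem_insert, Finset.mem_singleton]
            rintro (h | h)
            · rw [← h, orderOf_one] at hz; omega
            · rw [← h, orderOf_one] at hwo; omega
        have := congrArg (fun x : ↥B => ((x : ↥A) : G)) hwz
        simp only [hw, Subgroup.coe_mul, Subgroup.coe_inv] at this
        exact mul_inv_eq_iff_eq_mul.1 this
      · -- cyclic Sylow 2-subgroup
        haveI : Fact (Nat.Prime 2) := ⟨Nat.prime_two⟩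
        obtain ⟨S⟩ := (inferInstance : Nonempty (Sylow 2 ↥A))
        have hScyc : IsCyclic ↥(S : Subgroup ↥A) := by
          refine isCyclic_of_injective ((QuotientGroup.mk' B).comp (S : Subgroup ↥A).subtype) ?_
          rw [← MonoidHom.ker_eq_bot_iff, eq_bot_iff]
          intro x hx
          rw [MonoidHom.mem_ker, MonoidHom.comp_apply, QuotientGroup.mk'_apply, QuotientGroup.eq_one_iff] at hx
          rw [Subgroup.mem_bot]
          obtain ⟨k, hk⟩ := IsPGroup.iff_orderOf.1 S.2 x
          refine orderOf_eq_one_iff.1 ?_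
          have h2 : orderOf x ∣ Nat.card ↥B := by
            rw [← Subgroup.orderOf_coe]; exact Subgroup.orderOf_dvd_natCard _ hx
          rw [hk] at h2 ⊢
          rcases Nat.eq_zero_or_pos k with rfl | hk0
          · rfl
          · exact absurd ((dvd_pow_self 2 hk0.ne').trans h2) hBeven
        have hcop : ¬ 2 ∣ A.index := by
          rw [hA]; intro h
          exact hp2 ((Nat.prime_dvd_prime_iff_eq Nat.prime_two hp).1 (Nat.prime_two.dvd_of_dvd_pow h)).symm
        set T := (S : Subgroup ↥A).map A.subtype with hT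
        have hTp : IsPGroup 2 T := S.2.map _
        have hTi : ¬ 2 ∣ T.index := by
          rw [hT, Subgroup.index_map_subtype]
          intro h
          rcases Nat.prime_two.dvd_mul.1 h with h | h
          · exact S.not_dvd_index h
          · exact hcop h
        set T' : Sylow 2 G := hTp.toSylow hTi
        haveI : IsCyclic ↥(T' : Subgroup G) := by
          show IsCyclic ↥T
          exact isCyclic_of_surjective _ (A.subtype.subgroupMap_surjective (S : Subgroup ↥A))
        have heven : 2 ∣ Nat.card G := by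
          refine (dvd_pow_self 2 hr0).trans (Dvd.dvd.trans ?_ A.card_subgroup_dvd_card)
          rw [hAc]; exact dvd_mul_left _ _
        obtain ⟨N, hN, hNc, k, hk⟩ := CfsgLib.Core.hasNormalPComplement_iff.1 (CfsgLib.Transfer.burnside T'
          (IsCyclic.normalizer_le_centralizer (Nat.minFac_eq_two_iff _ |>.2 heven) inferInstance))
        rcases hN.eq_bot_or_eq_top with h | h
        · rw [h, Subgroup.index_bot] at hk
          exact hpg 2 Nat.prime_two k hk
        · rw [h, Subgroup.card_top] at hNc
          exact Nat.prime_two.ne_one (Nat.dvd_one.1 (hNc ▸ Nat.dvd_gcd heven dvd_rfl))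
  · obtain ⟨N, hN, hN1, hN2⟩ : ∃ N : Subgroup G, N.Normal ∧ N ≠ ⊥ ∧ N ≠ ⊤ := by
      by_contra hc
      push Not at hc
      exact hsimple ⟨fun H hH => or_iff_not_imp_left.2 (hc H hH)⟩
    haveI := hN
    haveI h1 : Group.IsSolvable ↥N := by
      obtain ⟨k, -, hk⟩ := (Nat.dvd_prime_pow hp).1
        (hA ▸ relIndex_dvd_of_normal_right A N)
      exact ih (Nat.card ↥N) (hcard ▸ lt_of_le_of_ne (Subgroup.card_le_card_group N)
          (fun e => hN2 (N.eq_top_of_card_eq e))) ↥N (A.subgroupOf N) k rfl hk
        (str_injective ((N.subtype.comp (A.subgroupOf N).subtype).codRestrict A fun x => x.2)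
          (fun x y e => Subtype.ext (Subtype.ext (congrArg (fun z : ↥A => (z : G)) e))) hstr)
    haveI h2 : Group.IsSolvable (G ⧸ N) := by
      obtain ⟨k, -, hk⟩ := (Nat.dvd_prime_pow hp).1
        (hA ▸ A.index_map_dvd (QuotientGroup.mk'_surjective N))
      refine ih (Nat.card (G ⧸ N)) ?_ (G ⧸ N) (A.map (QuotientGroup.mk' N)) k rfl hk
        (str_surjective ((QuotientGroup.mk' N).subgroupMap A) ((QuotientGroup.mk' N).subgroupMap_surjective A) hstr)
      rw [← hcard, N.card_eq_card_quotient_mul_card_subgroup]
      exact lt_mul_of_one_lt_right Nat.card_pos ((N.one_lt_card_iff_ne_bot).mpr hN1)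
    exact solvable_of_ker_le_range N.subtype (QuotientGroup.mk' N)
      (by rw [QuotientGroup.ker_mk', Subgroup.range_subtype])


/-- Let G be a finite group with a subgroup A of prime-power index. Suppose A has a normal cyclic subgroup B such that A/B is cyclic of order a power of 2. Then G is solvable. -/
theorem result {G : Type*} [Group G] [Finite G] (A : Subgroup G) (p s : ℕ) (hp : p.Prime) (hA : A.index = p ^ s)
    (B : Subgroup A) [B.Normal] (hB : IsCyclic B) (hAB : IsCyclic (A ⧸ B)) (r : ℕ) (hr : Nat.card (A ⧸ B) = 2 ^ r) :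
    Group.IsSolvable G := by
  exact key p hp _ G A s rfl hA ⟨B, inferInstance, hB, hAB, r, hr⟩

end Cfsg.Agent.S4245
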