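import Cfsg.Statements.S4249
import Cfsg.Agent.Lib.FgsKegel

set_option autoImplicit false
open Cfsg

namespace Cfsg.Agent.S4249

/-- Let G be a finite group and p a prime such that G is not a p-group, and suppose the Hughes subgroup H_p(G), generated by all elements g with g^p ≠ 1, is a proper subgroup. Then H_p(G) is nilpotent and has index p in G. -/
theorem result {G : Type*} [Group G] [Finite G] (p : ℕ) (hp : p.Prime) (hG : ¬ IsPGroup p G)
    (hH : Subgroup.closure {g : G | g ^ p ≠ 1} ≠ ⊤) :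
    Group.IsNilpotent (Subgroup.closure {g : G | g ^ p ≠ 1}) ∧ (Subgroup.closure {g : G | g ^ p ≠ 1}).index = p := by
  classical
  haveI : Fact p.Prime := ⟨hp⟩
  set H := Subgroup.closure {g : G | g ^ p ≠ 1} with hHdef
  have hout : ∀ g, g ∉ H → g ^ p = 1 := fun g hg => by
    by_contra h; exact hg (Subgroup.subset_closure h)
  haveI hHn : H.Normal := by
    rw [← Subgroup.normalizer_eq_top_iff, eq_top_iff]
    intro g _
    rw [Subgroup.mem_normalizer_iff_map_conj_eq, hHdef, MonoidHom.map_closure]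
    congr 1
    ext y
    constructor
    · rintro ⟨z, hz, rfl⟩
      intro h
      apply hz
      apply (MulAut.conj g).injective
      rw [map_pow, map_one]
      exact h
    · intro hy
      refine ⟨(MulAut.conj g).symm y, fun h => hy ?_, (MulAut.conj g).apply_symm_apply y⟩
      have := congrArg (MulAut.conj g) h
      rwa [map_pow, map_one, MulEquiv.apply_symm_apply] at this
  obtain ⟨x₀, hx₀⟩ : ∃ x, x ∉ H := by
    by_contra h
    push Not at h
    exact hH (eq_top_iff.mpr fun g _ => h g)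
  have hnil : Group.IsNilpotent H :=
    CfsgLib.Kegel.isNilpotent_of_splitting hp _ G H x₀ le_rfl
      (by rw [Subgroup.normalizer_eq_top_iff.mpr hHn]; exact Subgroup.mem_top _) hx₀
      fun h hh => hout _ fun hm => hx₀ (by simpa using H.mul_mem (H.inv_mem hh) hm)
  refine ⟨hnil, ?_⟩
  -- the quotient has exponent p
  have hQ : IsPGroup p (G ⧸ H) := by
    intro a
    obtain ⟨g, rfl⟩ := QuotientGroup.mk_surjective a
    refine ⟨1, ?_⟩
    rw [pow_one, ← QuotientGroup.mk_pow, QuotientGroup.eq_one_iff]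
    by_cases hg : g ∈ H
    · exact H.pow_mem hg p
    · rw [hout g hg]; exact H.one_mem
  obtain ⟨a, ha⟩ := hQ.exists_card_eq
  rw [Subgroup.index_eq_card, ha]
  rcases (show a = 0 ∨ a = 1 ∨ 2 ≤ a by omega) with rfl | rfl | h2
  · exfalso
    rw [pow_zero, ← Subgroup.index_eq_card, Subgroup.index_eq_one] at ha
    exact hH ha
  · exact pow_one p
  exfalso
  -- a normal abelian subgroup of order prime to p
  obtain ⟨q, hq, hqp, hqG⟩ : ∃ q, q.Prime ∧ q ≠ p ∧ q ∣ Nat.card G := by
    by_contra h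
    push Not at h
    apply hG
    refine IsPGroup.of_card (n := (Nat.card G).factorization p) ?_
    refine Nat.eq_of_factorization_eq Nat.card_pos.ne' (pow_ne_zero _ hp.ne_zero) fun s => ?_
    rw [hp.factorization_pow]
    rcases eq_or_ne s p with rfl | hs
    · simp
    rw [Finsupp.single_eq_of_ne hs]
    by_cases hs' : s.Prime
    · exact Nat.factorization_eq_zero_of_not_dvd (h s hs' hs)
    · exact Nat.factorization_eq_zero_of_not_prime _ hs'
  haveI := Fact.mk hq
  have hqH : q ∣ Nat.card H := by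
    have h1 := H.index_mul_card
    rw [← h1, Subgroup.index_eq_card, ha] at hqG
    exact (hq.dvd_mul.mp hqG).resolve_left fun h =>
      hqp ((Nat.prime_dvd_prime_iff_eq hq hp).mp (hq.dvd_of_dvd_pow h))
  obtain ⟨Q⟩ : Nonempty (Sylow q H) := inferInstance
  haveI hQn : (Q : Subgroup H).Normal :=
    CfsgLib.Core.isNilpotent_iff_sylow_normal.mp hnil q inferInstance Q
  haveI := Q.characteristic_of_normal hQn
  haveI hQGn : ((Q : Subgroup H).map H.subtype).Normal := inferInstance
  set QG := (Q : Subgroup H).map H.subtype with hQG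
  set M := (Subgroup.center QG).map QG.subtype with hM
  haveI : M.Normal := inferInstance
  haveI : IsMulCommutative M := ⟨⟨fun u v => by
    obtain ⟨_, ⟨u, hu, rfl⟩⟩ := u
    obtain ⟨_, ⟨v, hv, rfl⟩⟩ := v
    exact Subtype.ext (show (u : G) * (v : G) = (v : G) * (u : G) from
      congrArg Subtype.val (Subgroup.mem_center_iff.mp hv u))⟩⟩
  have hQq : IsPGroup q QG := Q.2.map _
  have hMq : IsPGroup q M := hQq.to_le (Subgroup.map_subtype_le _)
  have hM0 : M ≠ ⊥ := by
    rw [hM, Ne, Subgroup.map_eq_bot_iff_of_injective _ QG.subtype_injective]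
    haveI : Nontrivial QG := by
      rw [Subgroup.nontrivial_iff_ne_bot, hQG, Ne, Subgroup.map_eq_bot_iff_of_injective _ H.subtype_injective]
      exact Q.ne_bot_of_dvd_card hqH
    have := hQq.center_nontrivial
    rwa [← Ne, ← Subgroup.nontrivial_iff_ne_bot]
  open scoped IsMulCommutative in
  let φ : G →* MulAut M := MulAut.conjNormal
  have hMH : M ≤ H := (Subgroup.map_subtype_le _).trans (Subgroup.map_subtype_le _)
  have hpM : ∀ v : M, v ^ p = 1 → v = 1 := by
    intro v hv
    have h3 := pow_gcd_eq_one.mpr ⟨hv, (pow_card_eq_one' : v ^ Nat.card M = 1)⟩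
    obtain ⟨k, hk⟩ := hMq.exists_card_eq
    rw [hk, (((Nat.coprime_primes hp hq).mpr hqp.symm).pow_right k).gcd_eq_one, pow_one] at h3
    exact h3
  open scoped IsMulCommutative in
  have hnorm : ∀ g, g ∉ H → ∀ v : M, ∏ i ∈ Finset.range p, φ (g ^ i) v = 1 := fun g hg v =>
    CfsgLib.Kegel.prod_conjNormal_eq_one M v (hout g hg)
      (hout _ fun hm => hg (by simpa using H.mul_mem (H.inv_mem (hMH v.2)) hm))
  -- a Sylow p-subgroup maps onto the quotient
  obtain ⟨P⟩ : Nonempty (Sylow p G) := inferInstance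
  set D := (P : Subgroup G) ⊓ H with hD
  letI := Fintype.ofFinite D
  have hPsurj : ∀ c : G ⧸ H, ∃ g ∈ (P : Subgroup G), (g : G ⧸ H) = c := by
    intro c
    have h1 := (IsPGroup.iff_card.mpr ⟨a, ha⟩ : IsPGroup p (G ⧸ H))
    have h2 : ((P.mapSurjective (QuotientGroup.mk'_surjective H) : Sylow p (G ⧸ H)) : Subgroup (G ⧸ H)) = ⊤ :=
      (P.mapSurjective (QuotientGroup.mk'_surjective H)).3 (h1.to_subgroup ⊤) le_top |>.symm
    have : c ∈ (P : Subgroup G).map (QuotientGroup.mk' H) := by
      rw [← Sylow.coe_mapSurjective (QuotientGroup.mk'_surjective H), h2]; exact Subgroup.mem_top c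
    obtain ⟨g, hg, rfl⟩ := this
    exact ⟨g, hg, rfl⟩
  open scoped IsMulCommutative in
  have hcent : ∀ d ∈ D, ∀ v : M, φ d v = v := by
    intro d hd v
    obtain ⟨g, hgP, hg⟩ := hPsurj (x₀ : G ⧸ H)
    have hgH : g ∉ H := fun h => hx₀ ((QuotientGroup.eq_one_iff x₀).mp (hg ▸ (QuotientGroup.eq_one_iff g).mpr h))
    have hgN : g ∈ Subgroup.normalizer (D : Set G) :=
      CfsgLib.Core.le_normalizer_inf (A := Subgroup.zpowers g)
        (Subgroup.zpowers_le.mpr (Subgroup.le_normalizer hgP))
        (Subgroup.zpowers_le.mpr (by rw [Subgroup.normalizer_eq_top_iff.mpr hHn]; exact Subgroup.mem_top _))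
        (Subgroup.mem_zpowers g)
    have hdH : ∀ e ∈ D, e * g ∉ H := fun e he h => hgH (by simpa using H.mul_mem (H.inv_mem he.2) h)
    have hfix : ∀ v : M, φ d (v ^ Fintype.card D) = v ^ Fintype.card D := by
      intro v
      have key := CfsgLib.Kegel.pow_card_mul_total φ D g hgN hp (fun e he => hout _ (hdH e he))
        (fun e he v => hnorm _ (hdH e he) v) v
      have hW : ∏ i ∈ Finset.range p, CfsgLib.Kegel.cosum φ D g i v = 1 := by
        apply hpM
        have h := hnorm g hgH (∏ i ∈ Finset.range p, CfsgLib.Kegel.cosum φ D g i v)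
        have hf : ∀ i : ℕ, φ (g ^ i) (∏ i ∈ Finset.range p, CfsgLib.Kegel.cosum φ D g i v) =
            ∏ i ∈ Finset.range p, CfsgLib.Kegel.cosum φ D g i v := by
          intro i
          induction i with
          | zero => rw [pow_zero, map_one, MulAut.one_apply]
          | succ k ih =>
            rw [pow_succ, map_mul, MulAut.mul_apply,
              CfsgLib.Kegel.apply_total_self φ D g hgN (hout g hgH), ih]
        rw [Finset.prod_congr rfl (fun i _ => hf i), Finset.prod_const, Finset.card_range] at h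
        exact h
      rw [hW, mul_one] at key
      rw [key, CfsgLib.Kegel.apply_cosum_mem φ D g hd]
    have hco : (Fintype.card D).Coprime (Nat.card M) := by
      obtain ⟨k, hk⟩ := hMq.exists_card_eq
      obtain ⟨l, hl⟩ := (P.2.to_le (inf_le_left : D ≤ P)).exists_card_eq
      rw [← Nat.card_eq_fintype_card, hl, hk]
      exact ((Nat.coprime_primes hp hq).mpr hqp.symm).pow _ _
    obtain ⟨v', rfl⟩ := (powCoprime (G := M) hco.symm).surjective v
    exact hfix v'
  -- a central element and an element outside its span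
  haveI hnt : Nontrivial (G ⧸ H) := Finite.one_lt_card_iff_nontrivial.mp
    (by rw [ha]; exact Nat.one_lt_pow (by omega) hp.one_lt)
  haveI := hQ.center_nontrivial
  obtain ⟨⟨z, hz⟩, hz1⟩ := exists_ne (1 : Subgroup.center (G ⧸ H))
  obtain ⟨c, hc⟩ : ∃ c, c ∉ Subgroup.zpowers z := by
    by_contra h
    push Not at h
    have h1 : Nat.card (Subgroup.zpowers z) = p ^ a := by
      rw [show Subgroup.zpowers z = ⊤ from eq_top_iff.mpr fun w _ => h w, Subgroup.card_top, ha]
    rw [Nat.card_zpowers] at h1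
    have h3 : orderOf z ∣ p := orderOf_dvd_of_pow_eq_one (by
      obtain ⟨g, rfl⟩ := QuotientGroup.mk_surjective z
      rw [← QuotientGroup.mk_pow, QuotientGroup.eq_one_iff]
      by_cases hg : g ∈ H
      · exact H.pow_mem hg p
      · rw [hout g hg]; exact H.one_mem)
    rw [h1] at h3
    have := Nat.le_of_dvd hp.pos h3
    have : p ^ 2 ≤ p ^ a := Nat.pow_le_pow_right hp.pos h2
    have := hp.two_le
    nlinarith
  obtain ⟨x, hxP, hx⟩ := hPsurj c
  obtain ⟨y, hyP, hy⟩ := hPsurj z
  have hxH : x ∉ H := fun h => hc (by rw [← hx, (QuotientGroup.eq_one_iff x).mpr h]; exact one_mem _)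
  have hyH : y ∉ H := fun h => hz1 (Subtype.ext (by show z = 1; rw [← hy, (QuotientGroup.eq_one_iff y).mpr h]))
  have hjH : ∀ j : ℕ, x ^ j * y ∉ H := by
    intro j h
    have h1 : c ^ j * z = 1 := by
      rw [← hx, ← hy, ← QuotientGroup.mk_pow, ← QuotientGroup.mk_mul]
      exact (QuotientGroup.eq_one_iff _).mpr h
    have hcp : c ^ p = 1 := by
      rw [← hx, ← QuotientGroup.mk_pow, hout x hxH, QuotientGroup.mk_one]
    have hjp : ¬ p ∣ j := by
      rintro ⟨k, rfl⟩
      rw [pow_mul, hcp, one_pow, one_mul] at h1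
      exact hz1 (Subtype.ext h1)
    obtain ⟨k, hk⟩ := Nat.exists_mul_mod_eq_one_of_coprime
      ((hp.coprime_iff_not_dvd.mpr hjp).symm : Nat.gcd j p = 1) hp.one_lt
    apply hc
    refine ⟨-(k : ℤ), ?_⟩
    show z ^ (-(k : ℤ)) = c
    rw [eq_inv_of_mul_eq_one_right h1, zpow_neg, zpow_natCast, inv_pow, inv_inv, ← pow_mul,
      pow_eq_pow_mod _ hcp, hk.2, pow_one]
  open scoped IsMulCommutative in
  have hcomm : Commute (φ x) (φ y) := by
    have hd : x * y * x⁻¹ * y⁻¹ ∈ D := by
      refine ⟨(P : Subgroup G).mul_mem ((P : Subgroup G).mul_mem ((P : Subgroup G).mul_mem hxP hyP)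
        ((P : Subgroup G).inv_mem hxP)) ((P : Subgroup G).inv_mem hyP), ?_⟩
      show _ ∈ H
      rw [← QuotientGroup.eq_one_iff]
      simp only [QuotientGroup.mk_mul, QuotientGroup.mk_inv]
      rw [hx, hy, Subgroup.mem_center_iff.mp hz c]
      group
    have h1 : φ (x * y * x⁻¹ * y⁻¹) = 1 := MulEquiv.ext fun v => hcent _ hd v
    rw [map_mul, map_mul, map_mul, map_inv, map_inv, mul_inv_eq_one, mul_inv_eq_iff_eq_mul] at h1
    exact h1
  apply hM0
  rw [eq_bot_iff]
  intro m hm
  open scoped IsMulCommutative in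
  have hpow : (⟨m, hm⟩ : M) ^ p = 1 := by
    set v : M := ⟨m, hm⟩
    have h0 : ∏ j ∈ Finset.range p, ∏ i ∈ Finset.range p, φ ((x ^ j * y) ^ i) v = 1 :=
      Finset.prod_eq_one fun j _ => hnorm _ (hjH j) v
    have hi : ∀ i ∈ Finset.range p, i ≠ 0 → ∏ j ∈ Finset.range p, φ ((x ^ j * y) ^ i) v = 1 := by
      intro i hi hi0
      rw [← hnorm x hxH (φ (y ^ i) v)]
      refine Finset.prod_bij (fun j _ => i * j % p) (fun j _ => Finset.mem_range.mpr (Nat.mod_lt _ hp.pos)) ?_ ?_ ?_
      · intro j hj k hk h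
        have hcop : Nat.Coprime p i :=
          hp.coprime_iff_not_dvd.mpr (Nat.not_dvd_of_pos_of_lt (Nat.pos_of_ne_zero hi0) (Finset.mem_range.mp hi))
        have h' : j ≡ k [MOD p] := Nat.ModEq.cancel_left_of_coprime hcop h
        exact h'.eq_of_lt_of_lt (Finset.mem_range.mp hj) (Finset.mem_range.mp hk)
      · intro k hk
        obtain ⟨w, hw⟩ := Nat.exists_mul_mod_eq_one_of_coprime
          ((hp.coprime_iff_not_dvd.mpr (Nat.not_dvd_of_pos_of_lt (Nat.pos_of_ne_zero hi0) (Finset.mem_range.mp hi))).symm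
            : Nat.gcd i p = 1) hp.one_lt
        refine ⟨w * k % p, Finset.mem_range.mpr (Nat.mod_lt _ hp.pos), ?_⟩
        rw [Nat.mul_mod, Nat.mod_mod, ← Nat.mul_mod, ← mul_assoc, Nat.mul_mod, hw.2, one_mul, Nat.mod_mod,
          Nat.mod_eq_of_lt (Finset.mem_range.mp hk)]
      · intro j _
        rw [map_pow, map_mul, map_pow, (hcomm.pow_left j).mul_pow, ← pow_mul, mul_comm j i, MulAut.mul_apply,
          ← map_pow φ y i, ← pow_eq_pow_mod (i * j) (by rw [hout x hxH]), map_pow φ x (i * j)]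
    rw [Finset.prod_comm, Finset.prod_eq_single 0 hi (fun h => absurd (Finset.mem_range.mpr hp.pos) h)] at h0
    simpa using h0
  exact Subgroup.mem_bot.mpr (congrArg Subtype.val (hpM _ hpow))

end Cfsg.Agent.S4249
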