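import Cfsg.Statements.S4252
import Cfsg.Agent.Lib.CoreFrobenius

set_option autoImplicit false
open Cfsg

namespace Cfsg.Agent.S4252

/-- Let a finite group G act on a finite set Ω with more than one point, transitively but not regularly, so that no non-identity element of G fixes two distinct points. Then the stabilizer H of any point is a Frobenius complement in G (nontrivial, proper, meeting its other conjugates trivially), and the Frobenius kernel of G with respect to H (the identity together with the elements lying in no conjugate of H) is exactly the set consisting of the identity and the elements fixing no point. -/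
theorem result {G Ω : Type*} [Group G] [Finite G] [Fintype Ω] [MulAction G Ω] (hΩ : 1 < Fintype.card Ω)
    (htrans : ∀ α β : Ω, ∃ g : G, g • α = β) (hnreg : ∃ g : G, g ≠ 1 ∧ ∃ α : Ω, g • α = α)
    (hfix : ∀ g : G, g ≠ 1 → ∀ α β : Ω, g • α = α → g • β = β → α = β) (α : Ω) :
    Cfsg.IsFrobeniusComplement (MulAction.stabilizer G α) ∧
      Cfsg.frobeniusKernel (MulAction.stabilizer G α) = {g : G | g = 1 ∨ ∀ ω : Ω, g • ω ≠ ω} := by
  obtain ⟨g₀, hg₀, α₀, hα₀⟩ := hnreg
  obtain ⟨t, ht⟩ := htrans α₀ α
  refine ⟨CfsgLib.Core.isFrobeniusComplement_of_malnormal ?_ ?_ ?_, ?_⟩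
  · intro e
    apply hg₀
    have h : t * g₀ * t⁻¹ ∈ MulAction.stabilizer G α := by
      rw [MulAction.mem_stabilizer_iff, ← ht, mul_smul, mul_smul, inv_smul_smul, hα₀]
    rw [e, Subgroup.mem_bot] at h
    calc g₀ = t⁻¹ * (t * g₀ * t⁻¹) * t := by group
      _ = 1 := by rw [h]; group
  · intro e
    obtain ⟨β, hβ⟩ := Fintype.exists_ne_of_one_lt_card hΩ α
    obtain ⟨g, hg⟩ := htrans α β
    have h : g ∈ MulAction.stabilizer G α := e ▸ Subgroup.mem_top g
    exact hβ (hg ▸ MulAction.mem_stabilizer_iff.mp h)
  · intro g hg x hx hgx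
    by_contra hx1
    rw [MulAction.mem_stabilizer_iff] at hx hgx hg
    refine hg (hfix (g * x * g⁻¹) (fun e => hx1 (by simpa using e)) α (g • α) hgx ?_).symm
    simp [mul_smul, hx]
  · ext x
    simp only [Cfsg.frobeniusKernel, Set.mem_setOf_eq]
    refine or_congr_right ⟨fun h ω hω => ?_, fun h g hg => ?_⟩
    · obtain ⟨g, rfl⟩ := htrans α ω
      refine h g (CfsgLib.Core.mem_conj_smul.mpr ?_)
      rw [MulAction.mem_stabilizer_iff, mul_smul, mul_smul, hω, inv_smul_smul]
    · have h' := MulAction.mem_stabilizer_iff.mp (CfsgLib.Core.mem_conj_smul.mp hg)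
      rw [mul_smul, mul_smul, inv_smul_eq_iff] at h'
      exact h (g • α) h' 

end Cfsg.Agent.S4252
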