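import Cfsg.Statements.S4253
import Cfsg.Agent.Lib.CoreFrobenius

set_option autoImplicit false
open Cfsg

namespace Cfsg.Agent.S4253

/-- Let H be a Frobenius complement in a finite group G (a nontrivial proper subgroup meeting each conjugate gHg⁻¹ with g outside H trivially). Then in the action of G on the left cosets of H by left multiplication, no non-identity element of G fixes two distinct cosets. -/
theorem result {G : Type*} [Group G] [Finite G] (H : Subgroup G) (hH : Cfsg.IsFrobeniusComplement H)
    (g : G) (hg : g ≠ 1) (a b : G ⧸ H) (ha : g • a = a) (hb : g • b = b) : a = b := by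
  obtain ⟨a, rfl⟩ := QuotientGroup.mk_surjective a
  obtain ⟨b, rfl⟩ := QuotientGroup.mk_surjective b
  have key : ∀ c : G, g • (c : G ⧸ H) = (c : G ⧸ H) → c⁻¹ * g * c ∈ H := by
    intro c hc
    rw [MulAction.Quotient.smul_coe, smul_eq_mul, QuotientGroup.eq] at hc
    simpa [mul_assoc] using H.inv_mem hc
  rw [QuotientGroup.eq]
  by_contra hab
  have h := CfsgLib.Core.malnormal_of_isFrobeniusComplement hH (b⁻¹ * a)
    (fun h => hab (by simpa using H.inv_mem h)) (a⁻¹ * g * a) (key a ha)
    (by simpa [mul_assoc] using key b hb)
  apply hg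
  calc g = a * (a⁻¹ * g * a) * a⁻¹ := by group
    _ = 1 := by rw [h]; group

end Cfsg.Agent.S4253
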