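import Cfsg.Statements.S4260


set_option autoImplicit false
open Cfsg

namespace Cfsg.Agent.S4260

/-- Let H be a Hall subgroup of a finite group G (the order of H is coprime to its index) such that x^[G : H] lies in H for every x in G. Then H is normal in G. -/
theorem result {G : Type*} [Group G] [Finite G] (H : Subgroup G) (hHall : (Nat.card H).Coprime H.index)
    (hexp : ∀ x : G, x ^ H.index ∈ H) : H.Normal := by
  obtain ⟨a, ha⟩ : ∃ a : ℤ, ∃ b : ℤ, a * H.index + b * Nat.card H = 1 := by
    obtain ⟨a, b, hab⟩ := Int.isCoprime_iff_gcd_eq_one.mpr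
      (show Int.gcd (H.index : ℤ) (Nat.card H : ℤ) = 1 by rw [Int.gcd_natCast_natCast]; exact hHall.symm)
    exact ⟨a, b, hab⟩
  obtain ⟨b, hab⟩ := ha
  have key : ∀ x : G, x ^ Nat.card H = 1 → x ∈ H := by
    intro x hx
    have : x = (x ^ H.index) ^ a * (x ^ Nat.card H) ^ b := by
      rw [← zpow_natCast, ← zpow_natCast, ← zpow_mul, ← zpow_mul, ← zpow_add,
        mul_comm (H.index : ℤ), mul_comm (Nat.card H : ℤ), hab, zpow_one]
    rw [this, hx, one_zpow, mul_one]
    exact H.zpow_mem (hexp x) a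
  refine ⟨fun n hn g => key _ ?_⟩
  have h := congrArg Subtype.val (pow_card_eq_one' (x := (⟨n, hn⟩ : H)))
  simp only [Subgroup.coe_pow, Subgroup.coe_one] at h
  rw [conj_pow, h, mul_one, mul_inv_cancel]

end Cfsg.Agent.S4260
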