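import Cfsg.Statements.S4261
import Cfsg.Agent.S0048
import Cfsg.Agent.Lib.CorePGroup

set_option autoImplicit false
open Cfsg

namespace Cfsg.Agent.S4261

/-- Let M be a maximal subgroup of a finite solvable group G such that x^[G : M] lies in M for every x in G. Then M is normal in G. -/
theorem result {G : Type*} [Group G] [Finite G] (hG : Group.IsSolvable G) (M : Subgroup G) (hM : IsCoatom M)
    (hexp : ∀ x : G, x ^ M.index ∈ M) : M.Normal := by
  haveI := hG
  obtain ⟨p, k, hp, hk, hidx⟩ := Cfsg.Agent.S0048.result M hM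
  haveI : Fact p.Prime := ⟨hp.nat_prime⟩
  let K : Subgroup G := Subgroup.closure {g : G | (orderOf g).Coprime p}
  haveI : K.Normal := by
    refine ⟨fun x hx g => ?_⟩
    have : K ≤ K.comap (MulAut.conj g).toMonoidHom := by
      rw [Subgroup.closure_le]
      intro y hy
      exact Subgroup.subset_closure (show (orderOf (MulAut.conj g y)).Coprime p by
        rw [MulEquiv.orderOf_eq]; exact hy)
    exact this hx
  have hKM : K ≤ M := by
    rw [Subgroup.closure_le]
    intro g hg
    obtain ⟨m, hm⟩ := exists_pow_eq_self_of_coprime (show (M.index).Coprime (orderOf g) by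
      rw [← hidx]; exact (Nat.Coprime.pow_right k hg).symm)
    rw [SetLike.mem_coe, ← hm]
    exact M.pow_mem (hexp g) m
  have hP : IsPGroup p (G ⧸ K) := by
    rintro x
    obtain ⟨g, rfl⟩ := QuotientGroup.mk_surjective x
    refine ⟨(orderOf g).factorization p, ?_⟩
    rw [← QuotientGroup.mk_pow, QuotientGroup.eq_one_iff]
    apply Subgroup.subset_closure
    show (orderOf (g ^ _)).Coprime p
    rw [orderOf_pow' g (pow_ne_zero _ hp.nat_prime.pos.ne'), Nat.gcd_eq_right (Nat.ordProj_dvd _ _)]
    exact (Nat.coprime_ordCompl hp.nat_prime (orderOf_pos g).ne').symm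
  have hsurj := QuotientGroup.mk'_surjective K
  have hMc : (M.map (QuotientGroup.mk' K)).comap (QuotientGroup.mk' K) = M := by
    rw [Subgroup.comap_map_eq, QuotientGroup.ker_mk', sup_eq_left.mpr hKM]
  have hco : IsCoatom (M.map (QuotientGroup.mk' K)) := by
    refine ⟨fun h => hM.1 ?_, fun N hN => ?_⟩
    · rw [← hMc, h, Subgroup.comap_top]
    · have h1 : M < N.comap (QuotientGroup.mk' K) := by
        conv_lhs => rw [← hMc]
        exact (Subgroup.comap_lt_comap_of_surjective hsurj).mpr hN
      rw [← Subgroup.map_comap_eq_self_of_surjective hsurj N, hM.2 _ h1,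
        Subgroup.map_top_of_surjective _ hsurj]
  haveI := (CfsgLib.Core.index_of_coatom_pgroup hP hco).1
  rw [← hMc]
  infer_instance

end Cfsg.Agent.S4261
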