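import Cfsg.Statements.S4262
import Cfsg.Agent.Lib.CoreFrobenius
import Cfsg.Agent.Lib.CoreFpfComplement
import Cfsg.Agent.Lib.CoreThompsonFpf
import Cfsg.Agent.Lib.CharBurnside

set_option autoImplicit false
open Cfsg

namespace Cfsg.Agent.S4262

open Subgroup CfsgLib.Core
open scoped Pointwise

universe u

variable {G : Type u} [Group G] [Finite G]

/-- A subgroup containing all primary parts of an element contains the element. -/
theorem mem_of_primary {K : Subgroup G} {g : G}
    (h : ∀ r : ℕ, r.Prime → r ∣ orderOf g → ∃ y, y ∈ zpowers g ∧ y ∈ K ∧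
      orderOf y = r ^ (orderOf g).factorization r) : g ∈ K := by
  have hn : orderOf g ≠ 0 := (orderOf_pos g).ne'
  have hdvd : orderOf g ∣ Nat.card (zpowers g ⊓ K : Subgroup G) := by
    refine (Nat.dvd_iff_prime_pow_dvd_dvd _ _).mpr fun r k hr hk => ?_
    rcases Nat.eq_zero_or_pos k with rfl | hk0
    · exact one_dvd _
    obtain ⟨y, hy1, hy2, hy⟩ := h r hr ((dvd_pow_self r hk0.ne').trans hk)
    have hle : k ≤ (orderOf g).factorization r := (hr.pow_dvd_iff_le_factorization hn).mp hk
    exact (pow_dvd_pow r hle).trans (hy ▸ Subgroup.orderOf_dvd_natCard _ (show y ∈ zpowers g ⊓ K from ⟨hy1, hy2⟩))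
  have := eq_of_le_of_card_ge (inf_le_left : zpowers g ⊓ K ≤ zpowers g)
    (by rw [Nat.card_zpowers]; exact Nat.le_of_dvd Nat.card_pos hdvd)
  exact (inf_eq_left.mp this) (mem_zpowers g)

theorem mem_of_all_primary {M K : Subgroup G}
    (h : ∀ (r : ℕ) (y : G), r.Prime → y ∈ M → (∃ a, orderOf y = r ^ a) → y ∈ K) : M ≤ K := by
  intro g hg
  refine mem_of_primary fun r hr _ => ⟨g ^ ordCompl[r] (orderOf g), npow_mem_zpowers g _, ?_, ?_⟩
  · refine h r _ hr (pow_mem hg _) ⟨(orderOf g).factorization r, ?_⟩
    rw [orderOf_pow' g (Nat.ordCompl_pos r (orderOf_pos g).ne').ne',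
      Nat.gcd_eq_right (Nat.ordCompl_dvd _ r), Nat.div_div_self (Nat.ordProj_dvd _ r) (orderOf_pos g).ne']
  · rw [orderOf_pow' g (Nat.ordCompl_pos r (orderOf_pos g).ne').ne',
      Nat.gcd_eq_right (Nat.ordCompl_dvd _ r), Nat.div_div_self (Nat.ordProj_dvd _ r) (orderOf_pos g).ne']

/-- If the primary elements of other primes in `M` are central, then `M` is nilpotent. -/
theorem isNilpotent_of_primary_central {M : Subgroup G} {r : ℕ} [Fact r.Prime]
    (h : ∀ (t : ℕ) (y : G), t.Prime → t ≠ r → y ∈ M → (∃ a, orderOf y = t ^ a) → y ∈ center G) :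
    Group.IsNilpotent M := by
  have hp : IsPGroup r (M.map (QuotientGroup.mk' (center G))) := by
    rintro ⟨_, g, hg, rfl⟩
    refine ⟨(orderOf g).factorization r, ?_⟩
    have hc : g ^ ordProj[r] (orderOf g) ∈ center G := by
      refine mem_of_primary fun t ht htd => ?_
      set z := g ^ ordProj[r] (orderOf g) with hz
      have hoz : orderOf z = ordCompl[r] (orderOf g) := by
        rw [hz, orderOf_pow' g (Nat.ordProj_pos (orderOf g) r).ne', Nat.gcd_eq_right (Nat.ordProj_dvd _ r)]
      have htr : t ≠ r := fun e => Nat.not_dvd_ordCompl ht (orderOf_pos g).ne' (by subst e; rwa [← hoz])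
      have ho : orderOf (z ^ ordCompl[t] (orderOf z)) = t ^ (orderOf z).factorization t := by
        rw [orderOf_pow' z (Nat.ordCompl_pos t (orderOf_pos z).ne').ne',
          Nat.gcd_eq_right (Nat.ordCompl_dvd _ t), Nat.div_div_self (Nat.ordProj_dvd _ t) (orderOf_pos z).ne']
      exact ⟨_, npow_mem_zpowers z _, h t _ ht htr (pow_mem (pow_mem hg _) _) ⟨_, ho⟩, ho⟩
    exact Subtype.ext ((QuotientGroup.eq_one_iff _).mpr hc)
  haveI := isNilpotent_of_isPGroup hp
  refine Subgroup.isNilpotent_of_ker_le_center ((QuotientGroup.mk' (center G)).subgroupMap M) (fun y hy => ?_)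
  have h1 : (y : G) ∈ center G := (QuotientGroup.eq_one_iff _).mp (congrArg Subtype.val hy)
  exact mem_center_iff.mpr fun z => Subtype.ext (mem_center_iff.mp h1 z)

theorem isSolvable_of_normal_coatom {M : Subgroup G} [M.Normal] (hM : IsCoatom M) [Group.IsSolvable M] :
    Group.IsSolvable G := by
  obtain ⟨g, hg⟩ : ∃ g, g ∉ M := by
    by_contra h
    push Not at h
    exact hM.1 (eq_top_iff.mpr fun x _ => h x)
  have hcy : IsCyclic (G ⧸ M) := by
    refine ⟨⟨(g : G ⧸ M), fun z => ?_⟩⟩
    have htop : M ⊔ zpowers g = ⊤ := hM.2 _ (left_lt_sup.mpr fun hle => hg (hle (mem_zpowers g)))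
    obtain ⟨y, rfl⟩ := QuotientGroup.mk_surjective z
    obtain ⟨a, ha, b, ⟨k, rfl⟩, rfl⟩ := mem_sup_of_normal_left.mp (htop ▸ mem_top y)
    refine ⟨k, ?_⟩
    show (g : G ⧸ M) ^ k = ((a * g ^ k : G) : G ⧸ M)
    rw [QuotientGroup.mk_mul, (QuotientGroup.eq_one_iff a).mpr ha, one_mul, QuotientGroup.mk_zpow]
  haveI := hcy
  haveI : Group.IsSolvable (G ⧸ M) := Group.isSolvable_of_comm (IsCyclic.commGroup).mul_comm
  exact Group.isSolvable_of_ker_le_range M.subtype (QuotientGroup.mk' M) (by simp)

theorem centralizer_pow_le (g : G) (k : ℕ) : centralizer ({g} : Set G) ≤ centralizer {g ^ k} := by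
  intro y hy
  rw [mem_centralizer_singleton_iff] at hy ⊢
  exact Commute.pow_right hy k

theorem center_le_centralizer' (s : Set G) : center G ≤ centralizer s :=
  fun _ hz => mem_centralizer_iff.mpr fun y _ => mem_center_iff.mp hz y

/-- The case of an abelian centraliser. -/
theorem solvable_of_comm (h : ∀ g : G, g ∉ center G → IsCoatom (centralizer ({g} : Set G)))
    {x : G} (hx : x ∉ center G) (hc : IsMulCommutative (centralizer ({x} : Set G))) : Group.IsSolvable G := by
  classical
  set M := centralizer ({x} : Set G) with hM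
  have hMco := h x hx
  haveI := hc
  haveI : Group.IsSolvable M := Group.isSolvable_of_comm fun a b => hc.1.1 a b
  by_cases hn : M.Normal
  · exact isSolvable_of_normal_coatom hMco
  have hNM : normalizer (M : Set G) = M := by
    refine ((hMco.le_iff).mp le_normalizer).resolve_left fun e => hn (normalizer_eq_top_iff.mp e)
  have hinter : ∀ g, g ∉ M → ∀ u ∈ M, g * u * g⁻¹ ∈ M → u ∈ center G := by
    intro g hg u hu hgu
    by_contra huc
    apply hg
    have h1 : M = centralizer ({u} : Set G) := by
      refine ((hMco.le_iff.mp ?_).resolve_left (h u huc).1).symm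
      intro y hy
      rw [mem_centralizer_singleton_iff]
      exact congrArg Subtype.val (hc.1.1 ⟨y, hy⟩ ⟨u, hu⟩)
    have huc' : g * u * g⁻¹ ∉ center G := fun hz => huc (by
      have := (inferInstance : (center G).Normal).conj_mem _ hz g⁻¹
      simpa [mul_assoc] using this)
    have h2 : M = centralizer ({g * u * g⁻¹} : Set G) := by
      refine ((hMco.le_iff.mp ?_).resolve_left (h _ huc').1).symm
      intro y hy
      rw [mem_centralizer_singleton_iff]
      exact congrArg Subtype.val (hc.1.1 ⟨y, hy⟩ ⟨_, hgu⟩)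
    rw [← hNM, mem_normalizer_iff]
    intro y
    conv_lhs => rw [h1]
    conv_rhs => rw [h2]
    rw [mem_centralizer_singleton_iff, mem_centralizer_singleton_iff]
    constructor
    · intro e
      calc g * y * g⁻¹ * (g * u * g⁻¹) = g * (y * u) * g⁻¹ := by group
        _ = g * (u * y) * g⁻¹ := by rw [e]
        _ = g * u * g⁻¹ * (g * y * g⁻¹) := by group
    · intro e
      have : g * (y * u) * g⁻¹ = g * (u * y) * g⁻¹ := by
        calc g * (y * u) * g⁻¹ = g * y * g⁻¹ * (g * u * g⁻¹) := by group
          _ = g * u * g⁻¹ * (g * y * g⁻¹) := e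
          _ = g * (u * y) * g⁻¹ := by group
      exact mul_left_cancel (mul_right_cancel this)
  set f := QuotientGroup.mk' (center G) with hf
  set H := M.map f with hH
  have hZM : center G ≤ M := center_le_centralizer' _
  have hcomap : ∀ g, f g ∈ H ↔ g ∈ M := fun g => by
    constructor
    · rintro ⟨m, hm, he⟩
      have h1 : m⁻¹ * g ∈ center G := QuotientGroup.eq.mp he
      simpa using M.mul_mem hm (hZM h1)
    · exact fun hg => mem_map_of_mem f hg
  have hxM : x ∈ M := mem_centralizer_singleton_iff.mpr rfl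
  have hFC : Cfsg.IsFrobeniusComplement H := by
    refine isFrobeniusComplement_of_malnormal ?_ ?_ ?_
    · intro e
      exact hx ((QuotientGroup.eq_one_iff x).mp (mem_bot.mp (e ▸ (hcomap x).mpr hxM)))
    · intro e
      exact hMco.1 (eq_top_iff.mpr fun g _ => (hcomap g).mp (e ▸ mem_top _))
    · intro a ha b hb hab
      obtain ⟨g, rfl⟩ := QuotientGroup.mk'_surjective (center G) a
      obtain ⟨m, hm, rfl⟩ := hb
      refine (QuotientGroup.eq_one_iff m).mpr (hinter g (fun hg => ha ((hcomap g).mpr hg)) m hm ?_)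
      rw [← hcomap]
      simpa [hf] using hab
  obtain ⟨K, hKn, -, hKH, hKtop, -⟩ := exists_kernel hFC
  haveI := hKn
  obtain ⟨r, hr, hrd⟩ := Nat.exists_prime_and_dvd
    (fun e => hFC.1 (eq_bot_of_card_eq _ e) : Nat.card H ≠ 1)
  haveI := Fact.mk hr
  obtain ⟨w, hw⟩ := exists_prime_orderOf_dvd_card' (G := H) r hrd
  haveI hKnil : Group.IsNilpotent K := by
    refine isNilpotent_of_fpf_prime hr _ K le_rfl (MulAut.conjNormal (H := K) (w : G ⧸ center G)) ?_ ?_
    · rw [← map_pow, ← Subgroup.coe_pow, ← hw, pow_orderOf_eq_one, coe_one, map_one]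
    · intro k hk
      refine Subtype.ext (eq_one_of_commute_kernel hFC hKH w.2 ?_ k.2 ?_)
      · intro e
        rw [show w = 1 from Subtype.ext e, orderOf_one] at hw
        exact hr.one_lt.ne hw
      · have := congrArg Subtype.val hk
        rw [MulAut.conjNormal_apply] at this
        exact mul_inv_eq_iff_eq_mul.mp this
  haveI : Group.IsSolvable H := Group.isSolvable_of_surjective (f.subgroupMap_surjective M)
  haveI : Group.IsSolvable ((G ⧸ center G) ⧸ K) := by
    refine Group.isSolvable_of_surjective (f := (QuotientGroup.mk' K).comp H.subtype) fun z => ?_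
    obtain ⟨y, rfl⟩ := QuotientGroup.mk_surjective z
    obtain ⟨a, ha, b, hb, rfl⟩ := mem_sup_of_normal_left.mp (hKtop ▸ mem_top y)
    refine ⟨⟨b, hb⟩, ?_⟩
    show ((b : G ⧸ center G) : (G ⧸ center G) ⧸ K) = ((a * b : G ⧸ center G) : (G ⧸ center G) ⧸ K)
    rw [QuotientGroup.mk_mul, (QuotientGroup.eq_one_iff a).mpr ha, one_mul]
  haveI : Group.IsSolvable (G ⧸ center G) :=
    Group.isSolvable_of_ker_le_range K.subtype (QuotientGroup.mk' K) (by simp)
  haveI : Group.IsSolvable (center G) := Group.isSolvable_of_comm fun a b => Subtype.ext (mem_center_iff.mp b.2 a)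
  exact Group.isSolvable_of_ker_le_range (center G).subtype (QuotientGroup.mk' (center G)) (by simp)

/-- Without abelian centralisers, centralisers of primary elements are primary modulo the centre. -/
theorem mixed_central (h : ∀ g : G, g ∉ center G → IsCoatom (centralizer ({g} : Set G)))
    (hno : ∀ x : G, x ∉ center G → ¬ IsMulCommutative (centralizer ({x} : Set G)))
    {r t : ℕ} (hr : r.Prime) (ht : t.Prime) (hrt : t ≠ r) {y b : G} (hy : y ∉ center G)
    (hry : ∃ a, orderOf y = r ^ a) (htb : ∃ a, orderOf b = t ^ a) (hb : b ∈ centralizer ({y} : Set G)) :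
    b ∈ center G := by
  have hkey : ∀ (s s' : ℕ) (u v : G), s.Prime → s'.Prime → s' ≠ s → u ∉ center G → (∃ a, orderOf u = s ^ a) →
      (∃ a, orderOf v = s' ^ a) → Commute v u → centralizer ({u} : Set G) ≤ centralizer {v} := by
    intro s s' u v hs hs' hne hu ⟨a, ha⟩ ⟨c, hc⟩ hcm
    have hcop : (orderOf u).Coprime (orderOf v) := by
      rw [ha, hc]; exact ((Nat.coprime_primes hs hs').mpr hne.symm).pow _ _
    have key : ∀ (u v : G), Commute u v → (orderOf u).Coprime (orderOf v) → ∀ z, Commute z (u * v) → Commute z u := by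
      intro u v huv hco z hz
      obtain ⟨k, hk⟩ := exists_pow_eq_self_of_coprime (x := u) hco.symm
      have h1 : (u * v) ^ orderOf v = u ^ orderOf v := by rw [huv.mul_pow, pow_orderOf_eq_one, mul_one]
      have h2 := (hz.pow_right (orderOf v)).pow_right k
      rwa [h1, hk] at h2
    have h1 : centralizer ({u * v} : Set G) ≤ centralizer {u} := fun z hz => by
      rw [mem_centralizer_singleton_iff] at hz ⊢
      exact key u v hcm.symm hcop z hz
    have h2 : centralizer ({u * v} : Set G) ≤ centralizer {v} := fun z hz => by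
      rw [mem_centralizer_singleton_iff] at hz ⊢
      refine key v u hcm hcop.symm z ?_
      rw [hcm.eq]
      exact hz
    have huv : u * v ∉ center G := fun hz => hu (mem_center_iff.mpr fun z =>
      key u v hcm.symm hcop z (mem_center_iff.mp hz z))
    rwa [((h _ huv).le_iff.mp h1).resolve_left (h u hu).1]
  by_contra hbc
  have hcm : Commute b y := mem_centralizer_singleton_iff.mp hb
  have hle := hkey r t y b hr ht hrt hy hry htb hcm
  have hle' := hkey t r b y ht hr hrt.symm hbc htb hry hcm.symm
  apply hno y hy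
  refine ⟨⟨fun u v => Subtype.ext ?_⟩⟩
  have hall : centralizer ({y} : Set G) ≤ centralizer (centralizer ({y} : Set G) : Set G) := by
    refine mem_of_all_primary fun s e hs he hse => mem_centralizer_iff.mpr fun z hz => ?_
    have hec : Commute e y := mem_centralizer_singleton_iff.mp he
    by_cases hsr : s = r
    · subst hsr
      have heb : Commute e b := mem_centralizer_singleton_iff.mp (hle he)
      exact mem_centralizer_singleton_iff.mp (hkey t s b e ht hs hrt.symm hbc htb hse heb (hle hz))
    · exact mem_centralizer_singleton_iff.mp (hkey r s y e hr hs hsr hy hry hse hec hz)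
  exact (mem_centralizer_iff.mp (hall u.2) v v.2).symm

/-- The case without abelian centralisers. -/
theorem solvable_of_no_comm (h : ∀ g : G, g ∉ center G → IsCoatom (centralizer ({g} : Set G)))
    (hno : ∀ x : G, x ∉ center G → ¬ IsMulCommutative (centralizer ({x} : Set G))) : Group.IsSolvable G := by
  classical
  by_cases hodd : ∀ (r : ℕ) (x : G), r.Prime → r ≠ 2 → (∃ a, orderOf x = r ^ a) → x ∈ center G
  · haveI := Fact.mk Nat.prime_two
    haveI : Group.IsNilpotent (⊤ : Subgroup G) :=
      isNilpotent_of_primary_central (r := 2) fun t y ht ht2 _ hy => hodd t y ht ht2 hy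
    haveI : Group.IsNilpotent G := Group.nilpotent_of_mulEquiv Subgroup.topEquiv
    infer_instance
  push Not at hodd
  obtain ⟨r, x₀, hr, hr2, hx₀r, hx₀⟩ := hodd
  haveI := Fact.mk hr
  -- the structure of the centraliser
  have hnilC : ∀ (t : ℕ) (y : G), t.Prime → y ∉ center G → (∃ a, orderOf y = t ^ a) →
      Group.IsNilpotent (centralizer ({y} : Set G)) := fun t y ht hy hty =>
    haveI := Fact.mk ht
    isNilpotent_of_primary_central (r := t) fun s e hs hst he hse =>
      mixed_central h hno ht hs hst hy hty hse he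
  set M₀ := centralizer ({x₀} : Set G) with hM₀
  haveI hM₀nil := hnilC r x₀ hr hx₀ hx₀r
  by_cases hn : M₀.Normal
  · exact isSolvable_of_normal_coatom (h x₀ hx₀)
  obtain ⟨R₀⟩ : Nonempty (Sylow r M₀) := inferInstance
  haveI hR₀n : (R₀ : Subgroup M₀).Normal := isNilpotent_iff_sylow_normal.mp hM₀nil r inferInstance R₀
  set R := (R₀ : Subgroup M₀).map M₀.subtype with hR
  have hRM : R ≤ M₀ := map_subtype_le _
  have hMsup : M₀ ≤ R ⊔ center G := by
    refine mem_of_all_primary fun s e hs he hse => ?_
    by_cases hsr : s = r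
    · subst hsr
      obtain ⟨a, ha⟩ := hse
      refine mem_sup_left ⟨⟨e, he⟩, ?_, rfl⟩
      obtain ⟨Q, hQ⟩ := (IsPGroup.of_card (p := s) (n := a) (G := zpowers (⟨e, he⟩ : M₀))
        (by rw [Nat.card_zpowers, orderOf_mk, ha])).exists_le_sylow
      haveI := @Unique.instSubsingleton _ (Sylow.unique_of_normal R₀ hR₀n)
      rw [Subsingleton.elim R₀ Q]
      exact hQ (mem_zpowers _)
    · exact mem_sup_right (mixed_central h hno hr hs hsr hx₀ hx₀r hse he)
  have hRZ : R ⊔ center G = M₀ :=
    le_antisymm (sup_le hRM (center_le_centralizer' _)) hMsup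
  have hNR : normalizer (R : Set G) = M₀ := by
    have hle : M₀ ≤ normalizer (R : Set G) := by
      intro m hm
      refine mem_normalizer_iff.mpr fun y => ⟨fun hy => ?_, fun hy => ?_⟩
      · obtain ⟨z, hz, rfl⟩ := hy
        exact ⟨⟨m, hm⟩ * z * ⟨m, hm⟩⁻¹, hR₀n.conj_mem z hz _, rfl⟩
      · obtain ⟨z, hz, hze⟩ := hy
        refine ⟨⟨m, hm⟩⁻¹ * z * ⟨m, hm⟩⁻¹⁻¹, hR₀n.conj_mem z hz _, ?_⟩
        show m⁻¹ * (z : G) * (m⁻¹)⁻¹ = y
        rw [show (z : G) = m * y * m⁻¹ from hze]; group
    refine ((h x₀ hx₀).le_iff.mp hle).resolve_left fun e => hn ?_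
    haveI : R.Normal := normalizer_eq_top_iff.mp e
    rw [← hRZ]
    infer_instance
  have hRp : IsPGroup r R := R₀.2.map _
  obtain ⟨S, hS⟩ := hRp.exists_le_sylow
  have hSR : (S : Subgroup G) = R := by
    by_contra hne
    have hlt : R.subgroupOf (S : Subgroup G) < ⊤ := lt_top_iff_ne_top.mpr fun e =>
      hne (le_antisymm (subgroupOf_eq_top.mp e) hS)
    haveI := isNilpotent_of_isPGroup S.2
    obtain ⟨y, hy1, hy2⟩ := SetLike.exists_of_lt (Group.normalizerCondition_of_isNilpotent _ hlt)
    apply hy2
    have hyN : (y : G) ∈ M₀ := by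
      rw [← hNR, mem_normalizer_iff]
      intro z
      rw [mem_normalizer_iff] at hy1
      constructor
      · intro hz
        exact (hy1 ⟨z, hS hz⟩).mp hz
      · intro hz
        have hzS : z ∈ (S : Subgroup G) := by
          have := (S : Subgroup G).mul_mem ((S : Subgroup G).mul_mem ((S : Subgroup G).inv_mem y.2) (hS hz)) y.2
          simpa [mul_assoc] using this
        exact (hy1 ⟨z, hzS⟩).mpr hz
    show (y : G) ∈ R
    obtain ⟨a, ha⟩ := IsPGroup.iff_orderOf.mp S.2 y
    obtain ⟨Q, hQ⟩ := (IsPGroup.of_card (p := r) (n := a) (G := zpowers (⟨(y : G), hyN⟩ : M₀))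
      (by rw [Nat.card_zpowers, orderOf_mk, ← ha, orderOf_coe])).exists_le_sylow
    haveI := @Unique.instSubsingleton _ (Sylow.unique_of_normal R₀ hR₀n)
    refine ⟨⟨y, hyN⟩, ?_, rfl⟩
    rw [Subsingleton.elim R₀ Q]
    exact hQ (mem_zpowers _)
  set W := CfsgLib.Stable.Zsub 0 R with hW
  have hx₀R : x₀ ∈ R := by
    obtain ⟨a, ha⟩ := hx₀r
    refine ⟨⟨x₀, mem_centralizer_singleton_iff.mpr rfl⟩, ?_, rfl⟩
    obtain ⟨Q, hQ⟩ := (IsPGroup.of_card (p := r) (n := a)
      (G := zpowers (⟨x₀, mem_centralizer_singleton_iff.mpr rfl⟩ : M₀))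
      (by rw [Nat.card_zpowers, orderOf_mk, ha])).exists_le_sylow
    haveI := @Unique.instSubsingleton _ (Sylow.unique_of_normal R₀ hR₀n)
    rw [Subsingleton.elim R₀ Q]
    exact hQ (mem_zpowers _)
  have hxW : x₀ ∈ W := by
    have hc : ∀ a ∈ R, a * x₀ = x₀ * a := fun a ha => mem_centralizer_singleton_iff.mp (hRM ha)
    refine ⟨?_, mem_centralizer_iff.mpr fun a ha => hc a (CfsgLib.Stable.Jsub_le 0 R ha)⟩
    obtain ⟨A, hA⟩ := CfsgLib.Stable.exists_isMax 0 R
    exact CfsgLib.Stable.isMax_le_Jsub hA
      (CfsgLib.Stable.mem_of_isMax hA hx₀R (pow_zero _) fun a ha => hc a (hA.1 ha))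
  by_cases hWn : W.Normal
  · -- two primes
    haveI := hWn
    set f := QuotientGroup.mk' (center G) with hf
    have hWr : IsPGroup r W := hRp.to_le (CfsgLib.Stable.Zsub_le 0 R)
    have hprimes : ∀ t : ℕ, t.Prime → t ∣ Nat.card (G ⧸ center G) → t = r ∨ t = 2 := by
      intro t ht htd
      by_contra hcon
      push Not at hcon
      haveI := Fact.mk ht
      obtain ⟨T⟩ : Nonempty (Sylow t G) := inferInstance
      set Tb := T.mapSurjective (QuotientGroup.mk'_surjective (center G)) with hTb
      have hTc : (Tb : Subgroup (G ⧸ center G)) = (T : Subgroup G).map f := Sylow.coe_mapSurjective _ T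
      have hWb : W.map f ≠ ⊥ := fun e =>
        hx₀ ((QuotientGroup.eq_one_iff x₀).mp (mem_bot.mp (e ▸ mem_map_of_mem f hxW)))
      haveI : (W.map f).Normal := hWn.map f (QuotientGroup.mk'_surjective _)
      rcases cyclic_or_quaternion_of_fpf (P := (Tb : Subgroup (G ⧸ center G))) (K := W.map f) Tb.2
          (by rw [normalizer_eq_top_iff.mpr inferInstance]; exact le_top) hWb (fun a ha ha1 v hv hav => by
            rw [hTc] at ha
            obtain ⟨b, hb, rfl⟩ := ha
            obtain ⟨y, hy, rfl⟩ := hv
            by_contra hy1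
            apply ha1
            have hyc : y ∉ center G := fun hz => hy1 ((QuotientGroup.eq_one_iff y).mpr hz)
            obtain ⟨k, hk⟩ := IsPGroup.iff_orderOf.mp T.2 ⟨b, hb⟩
            rw [orderOf_mk] at hk
            obtain ⟨l, hl⟩ := IsPGroup.iff_orderOf.mp hWr ⟨y, hy⟩
            rw [orderOf_mk] at hl
            set c := b * y * b⁻¹ * y⁻¹ with hc
            have hcW : c ∈ W := W.mul_mem (hWn.conj_mem y hy b) (W.inv_mem hy)
            have hcZ : c ∈ center G := (QuotientGroup.eq_one_iff c).mp (by
              show f c = 1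
              rw [hc, map_mul, map_mul, map_mul, map_inv, map_inv, hav]; group)
            have hconj : ∀ n : ℕ, b ^ n * y * (b ^ n)⁻¹ = c ^ n * y := by
              intro n
              induction n with
              | zero => simp
              | succ m ih =>
                calc b ^ (m + 1) * y * (b ^ (m + 1))⁻¹ = b * (b ^ m * y * (b ^ m)⁻¹) * b⁻¹ := by
                      rw [pow_succ']; group
                  _ = b * (c ^ m * y) * b⁻¹ := by rw [ih]
                  _ = c ^ m * (b * y * b⁻¹) := by
                      rw [← mul_assoc, mem_center_iff.mp (pow_mem hcZ m) b]; group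
                  _ = c ^ (m + 1) * y := by rw [pow_succ c m, hc]; group
            have h1 := hconj (orderOf b)
            rw [pow_orderOf_eq_one, one_mul, inv_one, mul_one] at h1
            have h2 : c ^ orderOf b = 1 := mul_right_cancel (h1.symm.trans (one_mul y).symm)
            obtain ⟨i, hi⟩ := IsPGroup.iff_orderOf.mp hWr ⟨c, hcW⟩
            rw [orderOf_mk] at hi
            have hc1 : c = 1 := orderOf_eq_one_iff.mp (Nat.eq_one_of_dvd_coprimes
              (((Nat.coprime_primes hr ht).mpr hcon.1.symm).pow i k) (hi ▸ dvd_rfl)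
              (hk ▸ orderOf_dvd_of_pow_eq_one h2))
            refine (QuotientGroup.eq_one_iff b).mpr (mixed_central h hno hr ht hcon.1 hyc ⟨l, hl⟩ ⟨k, hk⟩ ?_)
            rw [mem_centralizer_singleton_iff]
            exact mul_inv_eq_iff_eq_mul.mp (mul_inv_eq_one.mp hc1)) with hcyc | ⟨ht2, -⟩
      · -- an abelian centraliser
        haveI := hcyc
        have hTab : ∀ a ∈ (T : Subgroup G), ∀ b ∈ (T : Subgroup G), Commute a b := by
          intro a ha b hb
          obtain ⟨⟨g, hg⟩, hgen⟩ := IsCyclic.exists_generator (α := (Tb : Subgroup (G ⧸ center G)))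
          obtain ⟨i, hi⟩ := hgen ⟨f a, hTc ▸ mem_map_of_mem f ha⟩
          obtain ⟨j, hj⟩ := hgen ⟨f b, hTc ▸ mem_map_of_mem f hb⟩
          obtain ⟨g₀, rfl⟩ := QuotientGroup.mk'_surjective (center G) g
          obtain ⟨z, hz, hza⟩ : ∃ z ∈ center G, g₀ ^ i * z = a := by
            refine ⟨(g₀ ^ i)⁻¹ * a, QuotientGroup.eq.mp ?_, by group⟩
            have := congrArg Subtype.val hi
            simpa [hf] using this
          obtain ⟨w, hw, hwb⟩ : ∃ z ∈ center G, g₀ ^ j * z = b := by
            refine ⟨(g₀ ^ j)⁻¹ * b, QuotientGroup.eq.mp ?_, by group⟩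
            have := congrArg Subtype.val hj
            simpa [hf] using this
          rw [← hza, ← hwb]
          have hzc : ∀ u, Commute z u := fun u => (mem_center_iff.mp hz u).symm
          have hwc : ∀ u, Commute u w := fun u => mem_center_iff.mp hw u
          exact Commute.mul_left ((Commute.zpow_zpow_self g₀ i j).mul_right (hwc _)) (hzc _)
        obtain ⟨b, hb, hbc⟩ : ∃ b ∈ (T : Subgroup G), b ∉ center G := by
          by_contra hall
          push Not at hall
          have hbot : (Tb : Subgroup (G ⧸ center G)) = ⊥ := by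
            rw [hTc, eq_bot_iff]
            rintro _ ⟨a, ha, rfl⟩
            exact mem_bot.mpr ((QuotientGroup.eq_one_iff a).mpr (hall a ha))
          exact Tb.ne_bot_of_dvd_card htd hbot
        obtain ⟨k, hk⟩ := IsPGroup.iff_orderOf.mp T.2 ⟨b, hb⟩
        rw [orderOf_mk] at hk
        apply hno b hbc
        haveI := hnilC t b ht hbc ⟨k, hk⟩
        set C := centralizer ({b} : Set G) with hC
        obtain ⟨Q⟩ : Nonempty (Sylow t C) := inferInstance
        haveI hQn : (Q : Subgroup C).Normal := isNilpotent_iff_sylow_normal.mp inferInstance t inferInstance Q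
        obtain ⟨T', hT'⟩ := (Q.2.map C.subtype).exists_le_sylow
        obtain ⟨g, hg⟩ := MulAction.exists_smul_eq G T T'
        have hT'ab : ∀ a ∈ (T' : Subgroup G), ∀ b ∈ (T' : Subgroup G), Commute a b := by
          intro a ha c hc
          rw [← hg] at ha hc
          obtain ⟨a', ha', rfl⟩ := ha
          obtain ⟨c', hc', rfl⟩ := hc
          exact (hTab a' ha' c' hc').map (MulAut.conj g).toMonoidHom
        have hprim : ∀ (s : ℕ) (e : G), s.Prime → e ∈ C → (∃ a, orderOf e = s ^ a) →
            e ∈ center G ∨ e ∈ (T' : Subgroup G) := by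
          intro s e hs he hse
          by_cases hst : s = t
          · subst hst
            obtain ⟨a, ha⟩ := hse
            obtain ⟨Q', hQ'⟩ := (IsPGroup.of_card (p := s) (n := a) (G := zpowers (⟨e, he⟩ : C))
              (by rw [Nat.card_zpowers, orderOf_mk, ha])).exists_le_sylow
            haveI := @Unique.instSubsingleton _ (Sylow.unique_of_normal Q hQn)
            refine Or.inr (hT' ⟨⟨e, he⟩, ?_, rfl⟩)
            rw [Subsingleton.elim Q Q']
            exact hQ' (mem_zpowers _)
          · exact Or.inl (mixed_central h hno ht hs hst hbc ⟨k, hk⟩ hse he)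
        refine ⟨⟨fun u v => Subtype.ext ?_⟩⟩
        have hall : C ≤ centralizer (C : Set G) := by
          refine mem_of_all_primary fun s e hs he hse => ?_
          rcases hprim s e hs he hse with h1 | h1
          · exact center_le_centralizer' _ h1
          · have hCe : C ≤ centralizer ({e} : Set G) := by
              refine mem_of_all_primary fun s' e' hs' he' hse' => mem_centralizer_singleton_iff.mpr ?_
              rcases hprim s' e' hs' he' hse' with h2 | h2
              · exact (mem_center_iff.mp h2 e).symm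
              · exact hT'ab e' h2 e h1
            exact mem_centralizer_iff.mpr fun z hz => mem_centralizer_singleton_iff.mp (hCe hz)
        exact (mem_centralizer_iff.mp (hall u.2) v v.2).symm
      · exact hcon.2 ht2
    haveI : Group.IsSolvable (G ⧸ center G) := by
      refine CfsgLib.Char.burnside_pq hr Nat.prime_two _ (G ⧸ center G) ((Nat.card (G ⧸ center G)).factorization r)
        ((Nat.card (G ⧸ center G)).factorization 2) rfl ?_
      refine Nat.eq_of_factorization_eq Nat.card_pos.ne'
        (Nat.mul_ne_zero (pow_ne_zero _ hr.ne_zero) (pow_ne_zero _ two_ne_zero)) fun s => ?_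
      rw [Nat.factorization_mul (pow_ne_zero _ hr.ne_zero) (pow_ne_zero _ two_ne_zero), Finsupp.add_apply,
        hr.factorization_pow, Nat.prime_two.factorization_pow]
      by_cases h1 : s = r
      · subst h1; simp [Finsupp.single_eq_of_ne, hr2]
      by_cases h2 : s = 2
      · subst h2; simp [Finsupp.single_eq_of_ne, Ne.symm hr2]
      rw [Finsupp.single_eq_of_ne h1, Finsupp.single_eq_of_ne h2, add_zero]
      by_cases hs : s.Prime
      · exact Nat.factorization_eq_zero_of_not_dvd fun hd => (hprimes s hs hd).elim h1 h2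
      · exact Nat.factorization_eq_zero_of_not_prime _ hs
    haveI : Group.IsSolvable (center G) :=
      Group.isSolvable_of_comm fun a b => Subtype.ext (mem_center_iff.mp b.2 a)
    exact Group.isSolvable_of_ker_le_range (center G).subtype (QuotientGroup.mk' (center G)) (by simp)
  -- a normal r-complement
  have hNW : normalizer (W : Set G) = M₀ := by
    refine ((h x₀ hx₀).le_iff.mp ?_).resolve_left fun e => hWn (normalizer_eq_top_iff.mp e)
    intro m hm
    rw [← hM₀, ← hNR, mem_normalizer_iff_map_conj_eq] at hm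
    rw [mem_normalizer_iff_map_conj_eq]
    have e := CfsgLib.Stable.map_Zsub 0 R (↑(MulAut.conj m) : G →* G)
      (Set.injOn_of_injective (MulAut.conj m).injective)
    rwa [hm, ← hW] at e
  obtain ⟨N, hN, hNcop, k, hk⟩ := hasNormalPComplement_iff.mp (CfsgLib.Stable.npc_of_Zsub hr2 (Or.inl rfl) S (by
    rw [hSR, ← hW, hNW]
    exact hasNormalPComplement_of_isNilpotent))
  haveI := hN
  haveI : Group.IsSolvable (G ⧸ N) := by
    haveI := isNilpotent_of_isPGroup (IsPGroup.of_card (p := r) (G := G ⧸ N) (n := k) (by rw [← index_eq_card, hk]))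
    infer_instance
  suffices hall : Group.IsSolvable G ∨ N ≤ center G by
    rcases hall with hall | hall
    · exact hall
    · haveI : Group.IsSolvable N := Group.isSolvable_of_comm fun a b => Subtype.ext (mem_center_iff.mp (hall b.2) a)
      exact Group.isSolvable_of_ker_le_range N.subtype (QuotientGroup.mk' N) (by simp)
  by_contra hcon
  push Not at hcon
  apply hcon.2
  refine mem_of_all_primary fun t e ht he hte => ?_
  haveI := Fact.mk ht
  have htr : t ≠ r ∨ e = 1 := by
    by_contra hcc
    push Not at hcc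
    obtain ⟨a, ha⟩ := hte
    have h1 : orderOf e ∣ Nat.card N := orderOf_dvd_natCard N he
    rw [ha, hcc.1] at h1
    rcases Nat.eq_zero_or_pos a with rfl | ha0
    · exact hcc.2 (orderOf_eq_one_iff.mp (by rw [ha, pow_zero]))
    · exact (hr.coprime_iff_not_dvd.mp hNcop.symm) ((dvd_pow_self r ha0.ne').trans h1)
  rcases htr with htr | rfl
  swap
  · exact one_mem _
  obtain ⟨a, ha⟩ := hte
  obtain ⟨Tn, hTn⟩ := (IsPGroup.of_card (p := t) (n := a) (G := zpowers (⟨e, he⟩ : N))
    (by rw [Nat.card_zpowers, orderOf_mk, ha])).exists_le_sylow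
  set T := (Tn : Subgroup N).map N.subtype with hT
  have heT : e ∈ T := ⟨⟨e, he⟩, hTn (mem_zpowers _), rfl⟩
  have hfr : normalizer (T : Set G) ⊔ N = ⊤ := Sylow.normalizer_sup_eq_top Tn
  have hidx : ¬ r ∣ (normalizer (T : Set G)).index := by
    intro hd
    have h2 : N.relIndex (normalizer (T : Set G)) = N.index := by
      rw [← relIndex_sup_right, hfr, relIndex_top_right]
    obtain ⟨i, hi⟩ := hd
    obtain ⟨m, hm⟩ : N.index ∣ Nat.card (normalizer (T : Set G)) := h2 ▸ relIndex_dvd_card _ _
    apply hr.coprime_iff_not_dvd.mp hNcop.symm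
    refine ⟨i * m, ?_⟩
    have e1 := (normalizer (T : Set G)).index_mul_card
    rw [← N.index_mul_card, hi, hm] at e1
    exact Nat.eq_of_mul_eq_mul_left (Nat.pos_of_ne_zero (index_ne_zero_of_finite (H := N))) (by rw [← e1]; ring)
  obtain ⟨S₁⟩ : Nonempty (Sylow r (normalizer (T : Set G))) := inferInstance
  obtain ⟨S₂, hS₂⟩ := (S₁.2.map (normalizer (T : Set G)).subtype).exists_le_sylow
  have hS₂le : (S₂ : Subgroup G) ≤ normalizer (T : Set G) := by
    have hcard : Nat.card ((S₁ : Subgroup (normalizer (T : Set G))).map (normalizer (T : Set G)).subtype) =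
        Nat.card (S₂ : Subgroup G) := by
      rw [Nat.card_congr (equivMapOfInjective _ _ (normalizer (T : Set G)).subtype_injective).toEquiv.symm,
        S₁.card_eq_multiplicity, S₂.card_eq_multiplicity, ← (normalizer (T : Set G)).index_mul_card,
        Nat.factorization_mul index_ne_zero_of_finite Nat.card_pos.ne', Finsupp.add_apply,
        Nat.factorization_eq_zero_of_not_dvd hidx, zero_add]
    exact (eq_of_le_of_card_ge hS₂ hcard.ge) ▸ map_subtype_le _
  obtain ⟨g, hg⟩ := MulAction.exists_smul_eq G S S₂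
  set M₂ := M₀.map (MulAut.conj g).toMonoidHom with hM₂
  have hM₂T : M₂ ≤ normalizer (T : Set G) := by
    rw [hM₂, map_le_iff_le_comap, ← hRZ, sup_le_iff, ← map_le_iff_le_comap]
    refine ⟨?_, fun z hz => ?_⟩
    · refine le_trans (le_of_eq ?_) hS₂le
      rw [← hSR, ← hg]
      rfl
    · show g * z * g⁻¹ ∈ normalizer (T : Set G)
      rw [show g * z * g⁻¹ = z by rw [mem_center_iff.mp hz g, mul_inv_cancel_right]]
      exact Subgroup.centralizer_le_normalizer _ (center_le_centralizer' _ hz)
  have hco : IsCoatom M₂ := by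
    refine ⟨fun e => (h x₀ hx₀).1 ?_, fun L hL => ?_⟩
    · apply map_injective (f := (MulAut.conj g).toMonoidHom) (MulAut.conj g).injective
      rw [← hM₂, e, map_top_of_surjective _ (MulAut.conj g).surjective]
    · have hL' : M₀ < L.comap (MulAut.conj g).toMonoidHom := by
        refine lt_of_le_of_ne ((map_le_iff_le_comap).mp hL.le) fun e => hL.ne ?_
        rw [hM₂, e, map_comap_eq_self_of_surjective (MulAut.conj g).surjective]
      have := (h x₀ hx₀).2 _ hL'
      rw [← map_comap_eq_self_of_surjective (f := (MulAut.conj g).toMonoidHom) (MulAut.conj g).surjective L, this,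
        map_top_of_surjective _ (MulAut.conj g).surjective]
  by_cases hTM : T ≤ M₂
  · obtain ⟨m, hm, hme⟩ := hTM heT
    have hme' : orderOf m = t ^ a := by
      rw [← ha, ← hme]; exact ((MulAut.conj g).orderOf_eq m).symm
    have := mixed_central h hno hr ht htr hx₀ hx₀r ⟨a, hme'⟩ hm
    rw [← hme]
    show g * m * g⁻¹ ∈ center G
    exact (inferInstance : (center G).Normal).conj_mem m this g
  · exfalso
    have htop : T ⊔ M₂ = ⊤ := hco.2 _ (right_lt_sup.mpr hTM)
    haveI hTnorm : T.Normal := normalizer_eq_top_iff.mp (top_le_iff.mp (htop ▸ sup_le le_normalizer hM₂T))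
    haveI : Group.IsNilpotent T := isNilpotent_of_isPGroup (Tn.2.map _)
    haveI : Group.IsNilpotent M₂ := Group.nilpotent_of_mulEquiv
      (equivMapOfInjective M₀ (MulAut.conj g).toMonoidHom (MulAut.conj g).injective)
    haveI : Group.IsSolvable (G ⧸ T) := by
      refine Group.isSolvable_of_surjective (f := (QuotientGroup.mk' T).comp M₂.subtype) fun z => ?_
      obtain ⟨y, rfl⟩ := QuotientGroup.mk_surjective z
      obtain ⟨c, hc, b, hb, rfl⟩ := mem_sup_of_normal_left.mp (htop ▸ mem_top y)
      refine ⟨⟨b, hb⟩, ?_⟩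
      show ((b : G) : G ⧸ T) = ((c * b : G) : G ⧸ T)
      rw [QuotientGroup.mk_mul, (QuotientGroup.eq_one_iff c).mpr hc, one_mul]
    exact hcon.1 (Group.isSolvable_of_ker_le_range T.subtype (QuotientGroup.mk' T) (by simp))

/-- Let G be a finite group in which the centralizer of every non-central element is a maximal subgroup of G. Then G is solvable. -/
theorem result {G : Type*} [Group G] [Finite G]
    (h : ∀ g : G, g ∉ Subgroup.center G → IsCoatom (Subgroup.centralizer ({g} : Set G))) :
    Group.IsSolvable G := by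
  classical
  by_cases hc : ∃ x : G, x ∉ Subgroup.center G ∧ IsMulCommutative (Subgroup.centralizer ({x} : Set G))
  · obtain ⟨x, hx, hx'⟩ := hc
    exact solvable_of_comm h hx hx'
  · push Not at hc
    exact solvable_of_no_comm h hc

end Cfsg.Agent.S4262
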