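import Cfsg.Statements.S4263
import Cfsg.Agent.Lib.CoreFitting

set_option autoImplicit false
open Cfsg

namespace Cfsg.Agent.S4263

open CfsgLib.Core in
theorem pow_index_mem_of_nilpotent {F : Type*} [Group F] [Finite F] [hF : Group.IsNilpotent F]
    (K : Subgroup F) (x : F) : x ^ K.index ∈ K := by
  induction h : K.index using Nat.strong_induction_on generalizing K x with
  | _ n ih =>
    subst h
    by_cases hK : K = ⊤
    · simp [hK]
    · have hlt : K < Subgroup.normalizer (K : Set F) :=
        (Group.normalizerCondition_of_isNilpotent (G := F)) K (lt_top_iff_ne_top.mpr hK)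
      set N := Subgroup.normalizer (K : Set F) with hN
      have hmul : K.relIndex N * N.index = K.index := Subgroup.relIndex_mul_index hlt.le
      have hidx : N.index < K.index := Subgroup.index_strictAnti hlt
      have hxN : x ^ N.index ∈ N := ih _ hidx N x rfl
      haveI : (K.subgroupOf N).Normal := Subgroup.normal_in_normalizer
      have := Subgroup.pow_index_mem (K.subgroupOf N) (⟨x ^ N.index, hxN⟩ : N)
      rw [Subgroup.mem_subgroupOf] at this
      rw [← hmul, mul_comm, pow_mul]
      simpa [Subgroup.relIndex] using this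

/-- Let G be a finite group. An element x lies in the Fitting subgroup F(G) if and only if, for every subgroup H of G, the power x^[G : H] lies in H. -/
theorem result {G : Type*} [Group G] [Finite G] (x : G) :
    x ∈ Cfsg.fittingSubgroup G ↔ ∀ H : Subgroup G, x ^ H.index ∈ H := by
  haveI hFn : (Cfsg.fittingSubgroup G).Normal := by
    haveI := CfsgLib.Core.characteristic_fittingSubgroup (G := G)
    infer_instance
  set F := Cfsg.fittingSubgroup G with hF
  constructor
  · intro hx H
    haveI := CfsgLib.Core.isNilpotent_fittingSubgroup (G := G)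
    have h1 := pow_index_mem_of_nilpotent (H.subgroupOf F) (⟨x, hx⟩ : F)
    rw [Subgroup.mem_subgroupOf] at h1
    have h2 : H.relIndex F ∣ H.index := by
      have e1 := CfsgLib.Core.card_inf_mul_relIndex H F
      have e2 := CfsgLib.Core.card_sup_mul_card_inf (A := H) (K := F)
        (by rw [Subgroup.normalizer_eq_top]; exact le_top)
      have e3 : Nat.card ↥(H ⊔ F) = Nat.card H * H.relIndex F := by
        refine Nat.eq_of_mul_eq_mul_right (Nat.card_pos (α := ↥(H ⊓ F))) ?_
        rw [e2, ← e1]; ring
      have e4 := Subgroup.card_subgroup_dvd_card (H ⊔ F)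
      rw [e3, ← H.card_mul_index] at e4
      exact Nat.dvd_of_mul_dvd_mul_left Nat.card_pos e4
    obtain ⟨c, hc⟩ := h2
    rw [hc, pow_mul]
    exact H.pow_mem (by simpa [Subgroup.relIndex] using h1) c
  · intro h
    rw [← QuotientGroup.eq_one_iff, ← orderOf_eq_one_iff]
    by_contra hne
    obtain ⟨p, hp, hdvd⟩ := Nat.exists_prime_and_dvd hne
    haveI := Fact.mk hp
    obtain ⟨P⟩ : Nonempty (Sylow p G) := inferInstance
    have hidx : ∀ Q : Sylow p G, (Q : Subgroup G).index = (P : Subgroup G).index := fun Q => by
      have e : Nat.card (Q : Subgroup G) = Nat.card (P : Subgroup G) := by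
        rw [Q.card_eq_multiplicity, P.card_eq_multiplicity]
      have h3 := (Q : Subgroup G).card_mul_index
      have h4 := (P : Subgroup G).card_mul_index
      rw [e, ← h4] at h3
      exact Nat.eq_of_mul_eq_mul_left Nat.card_pos h3
    have hmem : x ^ (P : Subgroup G).index ∈ Cfsg.pCore p G := by
      rw [CfsgLib.Core.pCore_eq_iInf_sylow, Subgroup.mem_iInf]
      intro Q
      rw [← hidx Q]
      exact h _
    have hq : (QuotientGroup.mk x : G ⧸ F) ^ (P : Subgroup G).index = 1 := by
      rw [← QuotientGroup.mk_pow, QuotientGroup.eq_one_iff]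
      exact CfsgLib.Core.pCore_le_fittingSubgroup p hmem
    exact P.not_dvd_index (hdvd.trans (orderOf_dvd_of_pow_eq_one hq))

end Cfsg.Agent.S4263
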