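import Cfsg.Statements.S4269


set_option autoImplicit false
open Cfsg
open scoped commutatorElement Pointwise

namespace Cfsg.Agent.S4269

/-- Let G be a finite group, V an abelian normal subgroup and H a subgroup with HV = G. Then H is pronormal in G (H and gHg⁻¹ are conjugate inside the subgroup they generate, for every g) if and only if every H-invariant subgroup U of V satisfies U = N_U(H)·[H, U], that is, U is the join of U ∩ N_G(H) and the commutator subgroup [H, U]. -/
theorem result {G : Type*} [Group G] [Finite G]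
    (V : Subgroup G) [V.Normal] (hV : IsMulCommutative ↥V) (H : Subgroup G) (hHV : H ⊔ V = ⊤) :
    Cfsg.IsPronormal H ↔
      ∀ U : Subgroup G, U ≤ V → (∀ h ∈ H, U.map (MulAut.conj h).toMonoidHom = U) →
        U = (U ⊓ Subgroup.normalizer (H : Set G)) ⊔ ⁅H, U⁆ := by
  classical
  have hVc : ∀ a ∈ V, ∀ b ∈ V, a * b = b * a := fun a ha b hb =>
    congrArg Subtype.val (hV.is_comm.comm (⟨a, ha⟩ : V) ⟨b, hb⟩)
  have hmap : ∀ (g : G) (x : G), x ∈ H.map (MulAut.conj g).toMonoidHom ↔ g⁻¹ * x * g ∈ H := by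
    intro g x
    constructor
    · rintro ⟨a, ha, rfl⟩
      show g⁻¹ * (g * a * g⁻¹) * g ∈ H
      rw [show g⁻¹ * (g * a * g⁻¹) * g = a by group]; exact ha
    · intro hx
      exact ⟨_, hx, by show g * (g⁻¹ * x * g) * g⁻¹ = x; group⟩
  constructor
  · intro hpro U hUV hUinv
    refine le_antisymm (fun u hu => ?_) ?_
    swap
    · refine sup_le inf_le_left (Subgroup.commutator_le.mpr fun h hh u hu => ?_)
      rw [commutatorElement_def]
      refine U.mul_mem ?_ (U.inv_mem hu)
      rw [← hUinv h hh]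
      exact ⟨u, hu, rfl⟩
    set W := ⁅H, U⁆ with hW
    have hWU : W ≤ U := by
      refine Subgroup.commutator_le.mpr fun h hh v hv => ?_
      rw [commutatorElement_def]
      refine U.mul_mem ?_ (U.inv_mem hv)
      rw [← hUinv h hh]
      exact ⟨v, hv, rfl⟩
    have hn : H ≤ Subgroup.normalizer (W : Set G) := by
      have h1 : ∀ h ∈ H, ∀ w ∈ W, h * w * h⁻¹ ∈ W := by
        intro h hh w hw
        rw [show h * w * h⁻¹ = ⁅h, w⁆ * w by rw [commutatorElement_def]; group]
        exact W.mul_mem (Subgroup.commutator_mem_commutator hh (hWU hw)) hw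
      intro h hh
      rw [Subgroup.mem_normalizer_iff]
      intro w
      refine ⟨h1 h hh w, fun hw => ?_⟩
      have := h1 h⁻¹ (H.inv_mem hh) _ hw
      simpa [mul_assoc] using this
    obtain ⟨x, hx, hxe⟩ := hpro u
    have hJ : H ⊔ H.map (MulAut.conj u).toMonoidHom ≤ H ⊔ W := by
      refine sup_le le_sup_left ?_
      intro y hy
      have hy' := (hmap u y).mp hy
      set h := u⁻¹ * y * u
      have e : y = ⁅h, u⁆⁻¹ * h := by rw [commutatorElement_def]; simp only [h]; group
      rw [e]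
      exact Subgroup.mul_mem _ (Subgroup.mem_sup_right (W.inv_mem (Subgroup.commutator_mem_commutator hy' hu)))
        (Subgroup.mem_sup_left hy')
    have hxJ : x ∈ ((W ⊔ H : Subgroup G) : Set G) := by rw [sup_comm]; exact hJ hx
    rw [Subgroup.coe_mul_of_right_le_normalizer_left W H hn] at hxJ
    obtain ⟨w, hw, h, hh, hwh⟩ := hxJ
    have hwh' : w * h = x := hwh
    have hN : u⁻¹ * w ∈ U ⊓ Subgroup.normalizer (H : Set G) := by
      refine ⟨U.mul_mem (U.inv_mem hu) (hWU hw), Subgroup.mem_normalizer_iff.mpr fun y => ?_⟩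
      have hiff : ∀ z : G, u⁻¹ * z * u ∈ H ↔ w⁻¹ * z * w ∈ H := by
        intro z
        rw [← hmap u z, hxe, hmap x z, ← hwh']
        constructor
        · intro hz
          have := H.mul_mem (H.mul_mem hh hz) (H.inv_mem hh)
          simpa [mul_assoc] using this
        · intro hz
          have := H.mul_mem (H.mul_mem (H.inv_mem hh) hz) hh
          simpa [mul_assoc] using this
      have h1 := hiff (w * y * w⁻¹)
      rw [show w⁻¹ * (w * y * w⁻¹) * w = y by group] at h1
      rw [← h1, show u⁻¹ * w * y * (u⁻¹ * w)⁻¹ = u⁻¹ * (w * y * w⁻¹) * u by group]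
    have e : u = w * (u⁻¹ * w)⁻¹ := by group
    rw [e]
    exact Subgroup.mul_mem _ (Subgroup.mem_sup_right hw) (Subgroup.mem_sup_left (Subgroup.inv_mem _ hN))
  · intro hcond g
    obtain ⟨v, hv, h₀, hh₀, hvh⟩ : g ∈ (V : Set G) * (H : Set G) := by
      rw [← Subgroup.normal_mul, sup_comm, hHV]; trivial
    have hvh' : v * h₀ = g := hvh
    set S : Set G := {y | ∃ a ∈ H, y = a * v * a⁻¹} with hS
    set U := Subgroup.closure S with hU
    have hUV : U ≤ V := by
      rw [hU, Subgroup.closure_le]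
      rintro _ ⟨a, -, rfl⟩
      exact Subgroup.Normal.conj_mem inferInstance v hv a
    have hUinv : ∀ a ∈ H, U.map (MulAut.conj a).toMonoidHom = U := by
      intro a ha
      rw [hU, MonoidHom.map_closure]
      congr 1
      ext y
      constructor
      · rintro ⟨_, ⟨b, hb, rfl⟩, rfl⟩
        exact ⟨a * b, H.mul_mem ha hb, by show a * (b * v * b⁻¹) * a⁻¹ = _; group⟩
      · rintro ⟨b, hb, rfl⟩
        exact ⟨(a⁻¹ * b) * v * (a⁻¹ * b)⁻¹, ⟨_, H.mul_mem (H.inv_mem ha) hb, rfl⟩,
          by show a * ((a⁻¹ * b) * v * (a⁻¹ * b)⁻¹) * a⁻¹ = b * v * b⁻¹; group⟩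
    have hvU : v ∈ U := Subgroup.subset_closure ⟨1, H.one_mem, by group⟩
    set N := U ⊓ Subgroup.normalizer (H : Set G) with hN
    have hn : ⁅H, U⁆ ≤ Subgroup.normalizer (N : Set G) := by
      intro a ha
      have haV : a ∈ V := by
        have hle : ⁅H, U⁆ ≤ V := Subgroup.commutator_le.mpr fun b hb c hc => by
          rw [commutatorElement_def]
          exact V.mul_mem (Subgroup.Normal.conj_mem inferInstance c (hUV hc) b) (V.inv_mem (hUV hc))
        exact hle ha
      rw [Subgroup.mem_normalizer_iff]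
      intro b
      constructor
      · intro hb; rwa [hVc a haV b (hUV hb.1), mul_inv_cancel_right]
      · intro hb
        have e := hVc a haV _ (hUV hb.1)
        rw [inv_mul_cancel_right] at e
        rwa [mul_left_cancel e] at hb
    have hvmem : v ∈ ((⁅H, U⁆ ⊔ N : Subgroup G) : Set G) := by
      rw [sup_comm, hN, ← hcond U hUV hUinv]; exact hvU
    rw [Subgroup.coe_mul_of_left_le_normalizer_right _ _ hn] at hvmem
    obtain ⟨w, hw, n, hn', hwn⟩ := hvmem
    have hwn' : w * n = v := hwn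
    set J := H ⊔ H.map (MulAut.conj g).toMonoidHom with hJ
    have hbase : ∀ a ∈ H, a * v * a⁻¹ * v⁻¹ ∈ J := by
      intro a ha
      have : v * a⁻¹ * v⁻¹ ∈ H.map (MulAut.conj g).toMonoidHom := by
        rw [hmap, ← hvh']
        have := H.mul_mem (H.mul_mem (H.inv_mem hh₀) (H.inv_mem ha)) hh₀
        simpa [mul_assoc] using this
      rw [show a * v * a⁻¹ * v⁻¹ = a * (v * a⁻¹ * v⁻¹) by group]
      exact J.mul_mem (Subgroup.mem_sup_left ha) (Subgroup.mem_sup_right this)
    have hwJ : w ∈ J := by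
      have hle : ⁅H, U⁆ ≤ J := by
        refine Subgroup.commutator_le.mpr fun a ha u hu => ?_
        rw [commutatorElement_def]
        induction hu using Subgroup.closure_induction with
        | mem y hy =>
          obtain ⟨b, hb, rfl⟩ := hy
          rw [show a * (b * v * b⁻¹) * a⁻¹ * (b * v * b⁻¹)⁻¹ = b * ((b⁻¹ * a * b) * v * (b⁻¹ * a * b)⁻¹ * v⁻¹) * b⁻¹ by group]
          exact J.mul_mem (J.mul_mem (Subgroup.mem_sup_left hb) (hbase _ (H.mul_mem (H.mul_mem (H.inv_mem hb) ha) hb)))
            (J.inv_mem (Subgroup.mem_sup_left hb))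
        | one => simp
        | mul y z hy hz ihy ihz =>
          have hyV := hUV hy
          have hzV : a * z * a⁻¹ * z⁻¹ ∈ V :=
            V.mul_mem (Subgroup.Normal.conj_mem inferInstance z (hUV hz) a) (V.inv_mem (hUV hz))
          have e : a * (y * z) * a⁻¹ * (y * z)⁻¹ = (a * y * a⁻¹ * y⁻¹) * (a * z * a⁻¹ * z⁻¹) := by
            calc a * (y * z) * a⁻¹ * (y * z)⁻¹ = (a * y * a⁻¹) * ((a * z * a⁻¹ * z⁻¹) * y⁻¹) := by group
              _ = (a * y * a⁻¹) * (y⁻¹ * (a * z * a⁻¹ * z⁻¹)) := by rw [hVc _ hzV _ (V.inv_mem hyV)]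
              _ = _ := by group
          rw [e]; exact J.mul_mem ihy ihz
        | inv y hy ih =>
          have hyV := hUV hy
          have hc := hVc _ (V.inv_mem hyV) _ (Subgroup.Normal.conj_mem inferInstance y hyV a)
          have e : a * y⁻¹ * a⁻¹ * y⁻¹⁻¹ = (a * y * a⁻¹ * y⁻¹)⁻¹ := by
            have hc2 := hVc _ hyV _ (Subgroup.Normal.conj_mem inferInstance _ (V.inv_mem hyV) a)
            calc a * y⁻¹ * a⁻¹ * y⁻¹⁻¹ = (a * y⁻¹ * a⁻¹) * y := by group
              _ = y * (a * y⁻¹ * a⁻¹) := hc2.symm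
              _ = _ := by group
          rw [e]; exact J.inv_mem ih
      exact hle hw
    refine ⟨w, hwJ, ?_⟩
    ext z
    rw [hmap, hmap, ← hvh', ← hwn']
    have hn2 := Subgroup.mem_normalizer_iff.mp hn'.2
    rw [hn2]
    constructor
    · intro hz
      have h1 := H.mul_mem (H.mul_mem hh₀ ((hn2 _).mpr hz)) (H.inv_mem hh₀)
      have h2 := (hn2 _).mp h1
      simpa [mul_assoc] using h2
    · intro hz
      rw [← hn2]
      have h1 : n⁻¹ * (w⁻¹ * z * w) * n ∈ H := (hn2 _).mpr (by simpa [mul_assoc] using hz)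
      have h2 := H.mul_mem (H.mul_mem (H.inv_mem hh₀) h1) hh₀
      simpa [mul_assoc] using h2

end Cfsg.Agent.S4269
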