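import Cfsg.Statements.S4332
import Cfsg.Agent.Lib.FgsTransp

set_option autoImplicit false
open Pointwise
open Cfsg

namespace Cfsg.Agent.S4332

/-- In the symmetric group of degree 8, let A be the subgroup generated by a 3-cycle. Then every conjugacy class contains an element g for which A is subnormal in the subgroup generated by A and its conjugate by g, although O_3 of the symmetric group of degree 8 is trivial. -/
theorem result
    (σ : Equiv.Perm (Fin 8)) (hσ : σ.IsThreeCycle) :
    (∀ c : Equiv.Perm (Fin 8), ∃ g : Equiv.Perm (Fin 8), IsConj c g ∧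
      ((Subgroup.zpowers σ).subgroupOf (Subgroup.zpowers σ ⊔ MulAut.conj g • Subgroup.zpowers σ)).IsSubnormal) ∧
    Cfsg.pCore 3 (Equiv.Perm (Fin 8)) = ⊥ := by
  have pick : ∀ (s t : Finset (Fin 8)), s.card < t.card → ∃ z ∈ t, z ∉ s := fun s t h =>
    Finset.exists_mem_notMem_of_card_lt_card h
  have mkτ : ∀ (d : Equiv.Perm (Fin 8)) (u v w : Fin 8), d * (Equiv.swap u v * Equiv.swap u w) * d⁻¹ =
      Equiv.swap (d u) (d v) * Equiv.swap (d u) (d w) := by
    intro d u v w
    rw [Equiv.swap_apply_apply, Equiv.swap_apply_apply]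
    group
  have disj : ∀ u v w x y z : Fin 8, (∀ i ∈ ({u, v, w} : Finset (Fin 8)), i ∉ ({x, y, z} : Finset (Fin 8))) →
      Commute (Equiv.swap u v * Equiv.swap u w) (Equiv.swap x y * Equiv.swap x z) := by
    intro u v w x y z h
    refine Equiv.Perm.Disjoint.commute fun i => ?_
    by_cases hi : i ∈ ({u, v, w} : Finset (Fin 8))
    · right
      have := h i hi
      simp only [Finset.mem_insert, Finset.mem_singleton, not_or] at this
      obtain ⟨h1, h2, h3⟩ := this
      rw [Equiv.Perm.mul_apply, Equiv.swap_apply_of_ne_of_ne h1 h3, Equiv.swap_apply_of_ne_of_ne h1 h2]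
    · left
      simp only [Finset.mem_insert, Finset.mem_singleton, not_or] at hi
      obtain ⟨h1, h2, h3⟩ := hi
      rw [Equiv.Perm.mul_apply, Equiv.swap_apply_of_ne_of_ne h1 h3, Equiv.swap_apply_of_ne_of_ne h1 h2]
  have main : ∀ c : Equiv.Perm (Fin 8), ∃ τ : Equiv.Perm (Fin 8), τ.IsThreeCycle ∧ Commute τ (c * τ * c⁻¹) := by
    intro c
    by_cases h3 : ∃ x, c x ≠ x ∧ c (c (c x)) = x
    · obtain ⟨x, hx, hx3⟩ := h3
      have h2 : c (c x) ≠ x := fun h => hx (by rw [h] at hx3; exact hx3)
      have h12 : c (c x) ≠ c x := fun h => hx (c.injective h)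
      refine ⟨_, Equiv.Perm.isThreeCycle_swap_mul_swap_same hx.symm h2.symm h12.symm, ?_⟩
      rw [mkτ, hx3]
      have he : Equiv.swap (c x) (c (c x)) * Equiv.swap (c x) x = Equiv.swap x (c x) * Equiv.swap x (c (c x)) := by
        apply Equiv.ext
        intro i
        simp only [Equiv.Perm.mul_apply]
        by_cases i1 : i = x
        · subst i1
          rw [Equiv.swap_apply_right, Equiv.swap_apply_left, Equiv.swap_apply_left,
            Equiv.swap_apply_of_ne_of_ne h2 h12]
        by_cases i2 : i = c x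
        · subst i2
          rw [Equiv.swap_apply_left, Equiv.swap_apply_of_ne_of_ne (Ne.symm hx) (Ne.symm h2),
            Equiv.swap_apply_of_ne_of_ne hx h12.symm, Equiv.swap_apply_right]
        by_cases i3 : i = c (c x)
        · subst i3
          rw [Equiv.swap_apply_of_ne_of_ne h12 h2, Equiv.swap_apply_right, Equiv.swap_apply_right,
            Equiv.swap_apply_left]
        rw [Equiv.swap_apply_of_ne_of_ne i2 i1, Equiv.swap_apply_of_ne_of_ne i2 i3,
          Equiv.swap_apply_of_ne_of_ne i1 i3, Equiv.swap_apply_of_ne_of_ne i1 i2]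
      rw [he]
    by_cases hF : 2 < (Finset.univ.filter fun x => c x = x).card
    · obtain ⟨a, b, e, ha, hb, he, hab, hae, hbe⟩ := Finset.two_lt_card_iff.1 hF
      simp only [Finset.mem_filter, Finset.mem_univ, true_and] at ha hb he
      refine ⟨_, Equiv.Perm.isThreeCycle_swap_mul_swap_same hab hae hbe, ?_⟩
      rw [mkτ, ha, hb, he]
    push Not at h3
    set M := Finset.univ.filter (fun x : Fin 8 => ¬ c x = x) with hM
    have hMc : 6 ≤ M.card := by
      have := Finset.card_filter_add_card_filter_not (s := (Finset.univ : Finset (Fin 8))) (fun x => c x = x)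
      rw [Finset.card_univ, Fintype.card_fin, ← hM] at this
      omega
    have hmem : ∀ i, i ∈ M ↔ c i ≠ i := fun i => by simp [hM]
    obtain ⟨x, hxM, -⟩ := pick ∅ M (by rw [Finset.card_empty]; omega)
    by_cases h2 : ∃ x, c x ≠ x ∧ c (c x) = x
    · obtain ⟨x, hx, hx2⟩ := h2
      obtain ⟨y, hyM, hy⟩ := pick {x, c x} M (by
        have := Finset.card_le_two (a := x) (b := c x); omega)
      obtain ⟨z, hzM, hz⟩ := pick {x, c x, y, c y, c⁻¹ y} M (by
        have := Finset.card_le_five (a := x) (b := c x) (c := y) (d := c y) (e := c⁻¹ y); omega)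
      simp only [Finset.mem_insert, Finset.mem_singleton, not_or] at hy hz
      rw [hmem] at hyM hzM
      refine ⟨_, Equiv.Perm.isThreeCycle_swap_mul_swap_same (Ne.symm hy.1) (Ne.symm hz.1) (Ne.symm hz.2.2.1), ?_⟩
      rw [mkτ]
      have e1 : c y ≠ x := fun h => hy.2 (c.injective (h.trans hx2.symm))
      have e2 : c z ≠ x := fun h => hz.2.1 (c.injective (h.trans hx2.symm))
      have e3 : c z ≠ y := fun h => hz.2.2.2.2 (by rw [← h]; exact (c.symm_apply_apply z).symm)
      apply disj
      intro i hi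
      simp only [Finset.mem_insert, Finset.mem_singleton, not_or] at hi ⊢
      rcases hi with rfl | rfl | rfl
      · exact ⟨hx.symm, Ne.symm e1, Ne.symm e2⟩
      · exact ⟨hy.2, hyM.symm, Ne.symm e3⟩
      · exact ⟨hz.2.1, hz.2.2.2.1, hzM.symm⟩
    · push Not at h2
      rw [hmem] at hxM
      set y := c (c x) with hy
      have hyx : y ≠ x := h2 x hxM
      have hyM : c y ≠ y := fun h => hxM (c.injective (c.injective h))
      have hycx : y ≠ c x := fun h => hxM (c.injective h)
      obtain ⟨z, hzM, hz⟩ := pick {x, c x, y, c y, c⁻¹ x} M (by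
        have := Finset.card_le_five (a := x) (b := c x) (c := y) (d := c y) (e := c⁻¹ x); omega)
      simp only [Finset.mem_insert, Finset.mem_singleton, not_or] at hz
      rw [hmem] at hzM
      refine ⟨_, Equiv.Perm.isThreeCycle_swap_mul_swap_same hyx.symm (Ne.symm hz.1) (Ne.symm hz.2.2.1), ?_⟩
      rw [mkτ]
      have e1 : c y ≠ x := h3 x hxM
      have e2 : c z ≠ x := fun h => hz.2.2.2.2 (by rw [← h]; exact (c.symm_apply_apply z).symm)
      have e3 : c z ≠ y := fun h => hz.2.1 (c.injective h)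
      apply disj
      intro i hi
      simp only [Finset.mem_insert, Finset.mem_singleton, not_or] at hi ⊢
      rcases hi with rfl | rfl | rfl
      · exact ⟨hxM.symm, Ne.symm e1, Ne.symm e2⟩
      · exact ⟨hycx, hyM.symm, Ne.symm e3⟩
      · exact ⟨hz.2.1, hz.2.2.2.1, hzM.symm⟩
  refine ⟨fun c => ?_, ?_⟩
  · obtain ⟨τ, hτ, hcomm⟩ := main c
    obtain ⟨h, hh⟩ := isConj_iff.1 (Equiv.Perm.isConj_iff_cycleType_eq.2 (hσ.cycleType.trans hτ.cycleType.symm))
    subst hh
    refine ⟨h⁻¹ * c * h, isConj_iff.2 ⟨h⁻¹, by group⟩, ?_⟩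
    have hc : Commute σ ((h⁻¹ * c * h) * σ * (h⁻¹ * c * h)⁻¹) := by
      rw [← Commute.conj_iff h]
      refine (congrArg (Commute (h * σ * h⁻¹)) ?_).mp hcomm
      group
    set J := Subgroup.zpowers σ ⊔ MulAut.conj (h⁻¹ * c * h) • Subgroup.zpowers σ with hJ
    have hle : J ≤ Subgroup.centralizer (Subgroup.zpowers σ : Set (Equiv.Perm (Fin 8))) := by
      refine sup_le ?_ ?_
      · intro x hx
        rw [Subgroup.mem_centralizer_iff]
        intro y hy
        obtain ⟨i, rfl⟩ := Subgroup.mem_zpowers_iff.1 hx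
        obtain ⟨j, rfl⟩ := Subgroup.mem_zpowers_iff.1 hy
        exact ((Commute.refl σ).zpow_zpow j i).eq
      · intro x hx
        obtain ⟨y, hy, rfl⟩ := Subgroup.mem_pointwise_smul_iff_inv_smul_mem.1 hx |> fun h' =>
          (⟨_, h', smul_inv_smul _ x⟩ : ∃ y ∈ Subgroup.zpowers σ, MulAut.conj (h⁻¹ * c * h) • y = x)
        obtain ⟨i, rfl⟩ := Subgroup.mem_zpowers_iff.1 hy
        rw [Subgroup.mem_centralizer_iff]
        intro z hz
        obtain ⟨j, rfl⟩ := Subgroup.mem_zpowers_iff.1 hz
        rw [MulAut.smul_def, MulAut.conj_apply, ← conj_zpow]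
        exact (hc.zpow_zpow j i).eq
    have hn : ((Subgroup.zpowers σ).subgroupOf J).Normal := by
      refine ⟨fun a ha g => ?_⟩
      rw [Subgroup.mem_subgroupOf] at ha ⊢
      have := Subgroup.mem_centralizer_iff.1 (hle g.2) _ ha
      rw [Subgroup.coe_mul, Subgroup.coe_mul, Subgroup.coe_inv, ← this, mul_inv_cancel_right]
      exact ha
    exact hn.isSubnormal
  · rw [eq_bot_iff]
    refine sSup_le ?_
    rintro N ⟨hN, hN3⟩
    by_contra hne
    have h8 := CfsgLib.FgsTransp.card_dvd_of_normal hN (fun h => hne h.le)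
    rw [Nat.card_eq_fintype_card, Fintype.card_fin] at h8
    obtain ⟨k, hk⟩ := hN3.exists_card_eq
    rw [hk] at h8
    have := Nat.prime_two.dvd_of_dvd_pow ((by norm_num : 2 ∣ 8).trans h8)
    norm_num at this

end Cfsg.Agent.S4332
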