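import Cfsg.Statements.S4337
import Cfsg.Agent.Lib.FgsTransp
import Cfsg.Agent.Lib.CharBurnside

set_option autoImplicit false
open Cfsg

namespace Cfsg.Agent.S4337

/-- In a finite symmetric group, any three transpositions generate a solvable subgroup. -/
theorem result (n : ℕ) (a b c : Equiv.Perm (Fin n))
    (ha : a.IsSwap) (hb : b.IsSwap) (hc : c.IsSwap) :
    Group.IsSolvable (Subgroup.closure ({a, b, c} : Set (Equiv.Perm (Fin n)))) := by
  obtain ⟨a1, a2, -, rfl⟩ := ha
  obtain ⟨b1, b2, -, rfl⟩ := hb
  obtain ⟨c1, c2, -, rfl⟩ := hc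
  set H := Subgroup.closure ({Equiv.swap a1 a2, Equiv.swap b1 b2, Equiv.swap c1 c2} : Set (Equiv.Perm (Fin n)))
  have hp : ∀ p : ℕ, p.Prime → p ∣ Nat.card H → p = 2 ∨ p = 3 := by
    intro p hp hdvd
    have := CfsgLib.FgsTransp.prime_le_of_swaps [(a1, a2), (b1, b2), (c1, c2)]
      ({Equiv.swap a1 a2, Equiv.swap b1 b2, Equiv.swap c1 c2} : Set (Equiv.Perm (Fin n)))
      (by rintro s (rfl | rfl | rfl) <;> simp) hp hdvd
    simp only [List.length_cons, List.length_nil] at this
    have := hp.two_le
    interval_cases p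
    · exact Or.inl rfl
    · exact Or.inr rfl
    · norm_num at hp
  have hn0 : Nat.card H ≠ 0 := Nat.card_pos.ne'
  have hcard : Nat.card H = 2 ^ (Nat.card H).factorization 2 * 3 ^ (Nat.card H).factorization 3 := by
    refine Nat.eq_of_factorization_eq hn0 (by positivity) fun q => ?_
    rw [Nat.factorization_mul (by positivity) (by positivity),
      Nat.Prime.factorization_pow Nat.prime_two, Nat.Prime.factorization_pow Nat.prime_three,
      Finsupp.add_apply, Finsupp.single_apply, Finsupp.single_apply]
    by_cases h2 : 2 = q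
    · subst h2; simp
    by_cases h3 : 3 = q
    · subst h3; simp
    rw [if_neg h2, if_neg h3, add_zero, Nat.factorization_eq_zero_iff]
    by_contra h
    push Not at h
    rcases hp q h.1 h.2.1 with rfl | rfl <;> omega
  exact CfsgLib.Char.burnside_pq Nat.prime_two Nat.prime_three _ H _ _ rfl hcard

end Cfsg.Agent.S4337
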