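import Cfsg.Statements.S4342
import Mathlib

set_option autoImplicit false
open Cfsg

namespace Cfsg.Agent.S4342

/-- Let H be a normal subgroup of a finite group G and p a prime not dividing the index of H. Then the number of Sylow p-subgroups of H/Z(H) equals the number of Sylow p-subgroups of G. -/
theorem result {G : Type*} [Group G] [Finite G]
    (p : ℕ) [Fact p.Prime] (H : Subgroup G) [H.Normal] (hp : ¬ p ∣ H.index) :
    Nat.card (Sylow p (H ⧸ Subgroup.center H)) = Nat.card (Sylow p G) := by
  classical
  have hle : ∀ P : Sylow p G, (P : Subgroup G) ≤ H := by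
    intro P x hx
    rw [← QuotientGroup.eq_one_iff]
    have hcop : (orderOf x).Coprime H.index := by
      obtain ⟨k, hk⟩ := IsPGroup.iff_orderOf.mp P.isPGroup' ⟨x, hx⟩
      rw [← Subgroup.orderOf_coe] at hk
      rw [hk]
      exact ((Fact.out : p.Prime).coprime_iff_not_dvd.mpr hp).pow_left k
    have h1 : orderOf (x : G ⧸ H) ∣ orderOf x := orderOf_map_dvd (QuotientGroup.mk' H) x
    have h2 : orderOf (x : G ⧸ H) ∣ H.index := orderOf_dvd_natCard _
    exact orderOf_eq_one_iff.mp (Nat.eq_one_of_dvd_coprimes hcop h1 h2)
  let f : Sylow p G → Sylow p (H ⧸ Subgroup.center H) := fun P =>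
    (P.subtype (hle P)).mapSurjective (QuotientGroup.mk'_surjective _)
  refine (Nat.card_congr (Equiv.ofBijective f ⟨?_, ?_⟩)).symm
  · intro P Q hPQ
    have hP := congrArg (fun S : Sylow p (H ⧸ Subgroup.center H) => ((S : Subgroup _)).comap (QuotientGroup.mk' (Subgroup.center H))) hPQ
    simp only [f, Sylow.coe_mapSurjective, Subgroup.comap_map_eq, QuotientGroup.ker_mk'] at hP
    set A := P.subtype (hle P) with hA
    set B := Q.subtype (hle Q) with hB
    suffices A = B from Sylow.subtype_injective this
    haveI hn : ((A : Subgroup H).subgroupOf ((A : Subgroup H) ⊔ Subgroup.center H)).Normal := by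
      rw [Subgroup.normal_subgroupOf_iff_le_normalizer le_sup_left]
      exact sup_le Subgroup.le_normalizer ((Subgroup.center_le_normalizer _))
    have hBle : (B : Subgroup H) ≤ (A : Subgroup H) ⊔ Subgroup.center H := hP ▸ le_sup_left
    let A' := A.subtype (le_sup_left (b := Subgroup.center H))
    let B' := B.subtype hBle
    haveI hnA : (A'.toSubgroup).Normal := hn
    haveI := Sylow.unique_of_normal A' hnA
    exact Sylow.subtype_injective (show A' = B' from Subsingleton.elim _ _)
  · intro S
    obtain ⟨T, hT⟩ := Sylow.mapSurjective_surjective (QuotientGroup.mk'_surjective (Subgroup.center H)) p S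
    have hP : IsPGroup p ((T : Subgroup H).map H.subtype) := T.isPGroup'.map _
    obtain ⟨P, hP'⟩ := hP.exists_le_sylow
    refine ⟨P, ?_⟩
    rw [← hT]
    show Sylow.mapSurjective _ _ = _
    congr 1
    refine Sylow.ext (T.3 (P.subtype (hle P)).isPGroup' ?_)
    intro x hx
    exact hP' ⟨x, hx, rfl⟩

end Cfsg.Agent.S4342
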