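import Cfsg.Statements.S4343
import Cfsg.Agent.Lib.PermSylow
import Cfsg.Agent.S1009

set_option autoImplicit false
open Cfsg

namespace Cfsg.Agent.S4343

/-- Let S be a finite non-abelian simple group and p a prime dividing its order. If S has fewer than p² Sylow p-subgroups, then its Sylow p-subgroups have order p. -/
theorem result {S : Type*} [Group S] [Finite S]
    [IsSimpleGroup S] (hS : ¬ IsMulCommutative S) (p : ℕ) [Fact p.Prime] (hp : p ∣ Nat.card S)
    (hn : Nat.card (Sylow p S) < p ^ 2) (P : Sylow p S) : Nat.card P = p := by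
  classical
  have hP1 : Nat.card P ≠ 1 := fun e => by
    have h1 := P.card_eq_multiplicity.symm.trans e
    rw [Nat.pow_eq_one] at h1
    rcases h1 with h1 | h1
    · exact (Fact.out : p.Prime).ne_one h1
    · exact ((Fact.out : p.Prime).factorization_pos_of_dvd Nat.card_pos.ne' hp).ne' h1
  set f := MulAction.toPermHom S (Sylow p S) with hf
  have hfk : f.ker = ⊥ := by
    refine (f.normal_ker.eq_bot_or_eq_top).resolve_right fun h => CfsgLib.Perm.sylow_not_normal hS hp P ?_
    rw [← Subgroup.normalizer_eq_top_iff, eq_top_iff]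
    intro g _
    refine Sylow.smul_eq_iff_mem_normalizer.mp ?_
    have : g ∈ f.ker := h ▸ Subgroup.mem_top g
    exact Equiv.ext_iff.mp (MonoidHom.mem_ker.mp this) P
  have hstab : ∀ (R Q : Sylow p S), (MulAction.stabilizer (R : Subgroup S) Q).index < p ^ 2 := fun R Q => by
    rw [MulAction.index_stabilizer]
    exact lt_of_le_of_lt (Set.ncard_le_card _) hn
  have hcomm : ∀ R : Sylow p S, IsMulCommutative ↥(R : Subgroup S) := by
    intro R
    refine ⟨⟨fun a b => ?_⟩⟩
    have hmem : ((a * b * a⁻¹ * b⁻¹ : (R : Subgroup S)) : S) ∈ f.ker := by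
      refine MonoidHom.mem_ker.mpr (Equiv.ext fun Q => ?_)
      set T := MulAction.stabilizer (R : Subgroup S) Q with hT
      obtain ⟨j, hj⟩ := (IsPGroup.index R.isPGroup' T)
      have hj1 : j ≤ 1 := by
        by_contra hlt
        have := Nat.pow_le_pow_right (Fact.out : p.Prime).pos (show 2 ≤ j by omega)
        have := hstab R Q
        rw [← hT, hj] at this
        omega
      show (a * b * a⁻¹ * b⁻¹ : (R : Subgroup S)) • Q = Q
      refine MulAction.mem_stabilizer_iff.mp (show _ ∈ T from ?_)
      rcases (show j = 0 ∨ j = 1 by omega) with rfl | rfl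
      · rw [pow_zero, Subgroup.index_eq_one] at hj
        rw [hj]; exact Subgroup.mem_top _
      · rw [pow_one] at hj
        haveI : T.Normal := by
          refine Subgroup.normal_of_index_eq_minFac_card ?_
          obtain ⟨k, hk⟩ := R.isPGroup'.exists_card_eq
          have hk0 : k ≠ 0 := by
            intro h0
            have hd := T.index_dvd_card
            rw [hk, h0, pow_zero, hj, Nat.dvd_one] at hd
            exact (Fact.out : p.Prime).ne_one hd
          rw [hj, hk, Nat.pow_minFac hk0, (Fact.out : p.Prime).minFac_eq]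
        haveI : IsCyclic ((R : Subgroup S) ⧸ T) := isCyclic_of_prime_card (p := p) hj
        letI := IsCyclic.commGroup (α := (R : Subgroup S) ⧸ T)
        rw [← QuotientGroup.eq_one_iff]
        show QuotientGroup.mk' T (a * b * a⁻¹ * b⁻¹) = 1
        rw [map_mul, map_mul, map_mul, map_inv, map_inv, mul_comm (QuotientGroup.mk' T a) (QuotientGroup.mk' T b)]
        group
    rw [hfk, Subgroup.mem_bot, OneMemClass.coe_eq_one] at hmem
    exact mul_inv_eq_iff_eq_mul.mp (mul_inv_eq_one.mp hmem)
  obtain ⟨A, B, hAB⟩ := Cfsg.Agent.S1009.result p hcomm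
  have hbot : (A : Subgroup S) ⊓ (B : Subgroup S) = ⊥ := by
    rw [hAB]
    have hnor : (⨅ R : Sylow p S, (R : Subgroup S)).Normal := by
      refine ⟨fun x hx g => ?_⟩
      rw [Subgroup.mem_iInf] at hx ⊢
      intro R
      obtain ⟨a, ha, hax⟩ : x ∈ ((g⁻¹ • R : Sylow p S) : Subgroup S) := hx _
      have e : g * x * g⁻¹ = a := by
        rw [← hax]
        show g * (g⁻¹ * a * g⁻¹⁻¹) * g⁻¹ = a
        group
      rw [e]; exact ha
    refine hnor.eq_bot_or_eq_top.resolve_right fun h => CfsgLib.Perm.sylow_not_normal hS hp P ?_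
    have : (P : Subgroup S) = ⊤ := top_le_iff.mp (h ▸ iInf_le _ P)
    rw [this]; infer_instance
  have hst : MulAction.stabilizer (A : Subgroup S) B = ⊥ := by
    rw [eq_bot_iff]
    intro g hg
    have h5 : (g : S) ∈ (A : Subgroup S) ⊓ Subgroup.normalizer ((B : Subgroup S) : Set S) :=
      ⟨g.2, Sylow.smul_eq_iff_mem_normalizer.mp hg⟩
    rw [show (A : Subgroup S) ⊓ Subgroup.normalizer ((B : Subgroup S) : Set S) = ⊥ from
      (A.isPGroup'.inf_normalizer_sylow B).trans hbot, Subgroup.mem_bot] at h5
    exact Subgroup.mem_bot.mpr (Subtype.ext h5)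
  have hlt := hstab A B
  rw [hst, Subgroup.index_bot] at hlt
  rw [CfsgLib.Perm.card_eq_of_card_sylow (P := A) rfl P] at hP1 ⊢
  obtain ⟨j, hj⟩ := A.isPGroup'.exists_card_eq
  rw [hj] at hlt hP1 ⊢
  have h2 : j < 2 := (Nat.pow_lt_pow_iff_right (Fact.out : p.Prime).one_lt).mp hlt
  rcases (show j = 0 ∨ j = 1 by omega) with rfl | rfl
  · exact absurd (pow_zero p) hP1
  · exact pow_one p

end Cfsg.Agent.S4343
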