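import Cfsg.Statements.S4344
import Mathlib
import Cfsg.Agent.Lib.FgsCyclicSub


set_option autoImplicit false
open Cfsg

namespace Cfsg.Agent.S4344

/-- Let S be a finite non-abelian simple group, M a maximal subgroup of S and C a cyclic normal subgroup of M. If a Sylow p-subgroup P of S (for a prime p dividing the order of S) is contained in C, then the number of Sylow p-subgroups of S equals the index of M. -/
theorem result {S : Type*} [Group S] [Finite S]
    [IsSimpleGroup S] (hS : ¬ IsMulCommutative S) (p : ℕ) [Fact p.Prime] (hp : p ∣ Nat.card S)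
    (M : Subgroup S) (hM : IsCoatom M) (C : Subgroup S) (hCM : C ≤ M) (hCn : (C.subgroupOf M).Normal)
    (hC : IsCyclic C) (P : Sylow p S) (hP : (P : Subgroup S) ≤ C) :
    Nat.card (Sylow p S) = M.index := by
  set Q := (P : Subgroup S) with hQ
  have hPM : Q ≤ M := hP.trans hCM
  have hmap : ∀ m ∈ M, ∀ x ∈ Q, m * x * m⁻¹ ∈ Q := by
    intro m hm x hx
    have hxC : m * x * m⁻¹ ∈ C := by
      have := hCn.conj_mem ⟨x, hPM hx⟩ (Subgroup.mem_subgroupOf.mpr (hP hx)) ⟨m, hm⟩
      simpa [Subgroup.mem_subgroupOf] using this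
    haveI := hC
    have hd : Nat.card (Subgroup.zpowers (⟨m * x * m⁻¹, hxC⟩ : C)) ∣ Nat.card (Q.subgroupOf C) := by
      have e1 : orderOf (⟨m * x * m⁻¹, hxC⟩ : C) = orderOf x := by
        rw [← Subgroup.orderOf_coe]
        exact MulEquiv.orderOf_eq (MulAut.conj m) x
      rw [Nat.card_zpowers, e1, Nat.card_congr (Subgroup.subgroupOfEquivOfLe hP).toEquiv]
      have := orderOf_dvd_natCard (⟨x, hx⟩ : Q)
      rwa [← Subgroup.orderOf_coe] at this
    have := CfsgLib.Fgs.cyclic_le_of_card_dvd hd (Subgroup.mem_zpowers _)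
    exact Subgroup.mem_subgroupOf.mp this
  have hMN : M ≤ Subgroup.normalizer (Q : Set S) := by
    intro m hm
    rw [Subgroup.mem_normalizer_iff]
    refine fun x => ⟨hmap m hm x, fun hx => ?_⟩
    have := hmap m⁻¹ (M.inv_mem hm) _ hx
    simpa [mul_assoc] using this
  have hne : Subgroup.normalizer (Q : Set S) ≠ ⊤ := by
    intro e
    have hn : Q.Normal := Subgroup.normalizer_eq_top_iff.mp e
    rcases hn.eq_bot_or_eq_top with h | h
    · have := P.dvd_card_of_dvd_card hp
      rw [← hQ, h, Subgroup.card_bot] at this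
      exact (Fact.out : p.Prime).one_lt.ne' (Nat.dvd_one.mp this)
    · exact hM.1 (top_le_iff.mp (h ▸ hPM))
  rcases hM.le_iff.mp hMN with h | h
  · exact absurd h hne
  · rw [P.card_eq_index_normalizer]
    exact congrArg Subgroup.index h

end Cfsg.Agent.S4344
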