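import Cfsg.Statements.S4345
import Cfsg.Agent.Lib.FgsSylowProduct

set_option autoImplicit false
open Cfsg

namespace Cfsg.Agent.S4345

/-- Let G be a finite solvable group and p, ℓ primes. Then the largest power of ℓ dividing the number of Sylow p-subgroups of G is congruent to 1 modulo p. -/
theorem result {G : Type*} [Group G] [Finite G]
    (hG : Group.IsSolvable G) (p ℓ : ℕ) [Fact p.Prime] (hℓ : ℓ.Prime) :
    ℓ ^ (Nat.card (Sylow p G)).factorization ℓ ≡ 1 [MOD p] := by
  have key := CfsgLib.SylowProd.sylow_number_induction p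
    (fun n => n ≠ 0 ∧ ℓ ^ n.factorization ℓ ≡ 1 [MOD p]) True ⟨one_ne_zero, by simp; rfl⟩ ?_ ?_ ?_
    _ G rfl fun _ => hG
  · exact key.2
  · rintro a b ⟨ha0, ha⟩ ⟨hb0, hb⟩
    refine ⟨mul_ne_zero ha0 hb0, ?_⟩
    rw [Nat.factorization_mul ha0 hb0, Finsupp.add_apply, pow_add]
    simpa using ha.mul hb
  · intro q k hq _ h
    refine ⟨pow_ne_zero _ hq.ne_zero, ?_⟩
    rw [hq.factorization_pow]
    by_cases e : q = ℓ
    · subst e
      rw [Finsupp.single_eq_same, Nat.ModEq, Nat.one_mod_eq_one.2 (Fact.out : p.Prime).ne_one]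
      exact h
    · rw [Finsupp.single_eq_of_ne (Ne.symm e), pow_zero]
  · intro S _ _ hS hsol
    haveI := hsol trivial
    haveI := hS
    have hcomm : commutator S = ⊥ := by
      rcases hS.eq_bot_or_eq_top_of_normal (commutator S) inferInstance with h | h
      · exact h
      · exact absurd h (IsSolvable.commutator_lt_top_of_nontrivial S).ne
    obtain ⟨P⟩ := (inferInstance : Nonempty (Sylow p S))
    haveI hn : (P : Subgroup S).Normal :=
      Subgroup.Normal.of_commutator_le S (hcomm ▸ bot_le)
    haveI := Sylow.unique_of_normal P hn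
    refine ⟨Nat.card_pos.ne', ?_⟩
    rw [Nat.card_unique, Nat.factorization_one]
    simp; rfl

end Cfsg.Agent.S4345
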