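import Cfsg.Statements.S4354
import Mathlib
import Cfsg.Agent.Lib.InvolBasic

set_option autoImplicit false
open Cfsg

namespace Cfsg.Agent.S4354

/-- Let G be a finite group and p a prime such that the Sylow p-subgroups of G are non-abelian while every element of p-power order has conjugacy class size prime to p, and suppose no nontrivial proper normal subgroup N of G has this property and no quotient G/N by such an N has it. Then G is simple. -/
theorem result {G : Type*} [Group G] [Finite G]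
    (p : ℕ) [Fact p.Prime] (h : ((∃ P : Sylow p G, ¬ IsMulCommutative P) ∧ ∀ x : G, (∃ k : ℕ, orderOf x = p ^ k) → ¬ p ∣ (Subgroup.centralizer ({x} : Set G)).index))
    (hmin : ∀ (N : Subgroup G) [N.Normal], N ≠ ⊥ → N ≠ ⊤ →
      ¬ ((∃ P : Sylow p N, ¬ IsMulCommutative P) ∧ ∀ x : N, (∃ k : ℕ, orderOf x = p ^ k) → ¬ p ∣ (Subgroup.centralizer ({x} : Set N)).index) ∧
      ¬ ((∃ P : Sylow p (G ⧸ N), ¬ IsMulCommutative P) ∧ ∀ x : (G ⧸ N), (∃ k : ℕ, orderOf x = p ^ k) → ¬ p ∣ (Subgroup.centralizer ({x} : Set (G ⧸ N))).index)) :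
    IsSimpleGroup G := by
  classical
  have hp : p.Prime := Fact.out
  obtain ⟨⟨P, hPnc⟩, hC⟩ := h
  haveI : Nontrivial G := by
    by_contra hnt
    rw [not_nontrivial_iff_subsingleton] at hnt
    exact hPnc ⟨⟨fun a b => Subtype.ext (Subsingleton.elim _ _)⟩⟩
  refine { exists_pair_ne := exists_pair_ne G, eq_bot_or_eq_top_of_normal := ?_ }
  intro N hN
  by_contra hne
  rw [not_or] at hne
  obtain ⟨hA, hB⟩ := hmin N hne.1 hne.2
  -- centralisers of p-elements contain Sylow subgroups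
  have hsyl : ∀ x : G, (∃ k : ℕ, orderOf x = p ^ k) →
      ∃ Q : Sylow p G, (Q : Subgroup G) ≤ Subgroup.centralizer ({x} : Set G) := by
    intro x hx
    obtain ⟨T⟩ : Nonempty (Sylow p (Subgroup.centralizer ({x} : Set G))) := inferInstance
    obtain ⟨Q, hQ⟩ := (T.isPGroup'.map (Subgroup.centralizer ({x} : Set G)).subtype).exists_le_sylow
    refine ⟨Q, ?_⟩
    have hidx : ¬ p ∣ ((T : Subgroup (Subgroup.centralizer ({x} : Set G))).map
        (Subgroup.centralizer ({x} : Set G)).subtype).index := by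
      rw [Subgroup.index_map_subtype]
      exact hp.not_dvd_mul T.not_dvd_index (hC x hx)
    have heq : (T : Subgroup (Subgroup.centralizer ({x} : Set G))).map
        (Subgroup.centralizer ({x} : Set G)).subtype = (Q : Subgroup G) := by
      refine le_antisymm hQ (Subgroup.relIndex_eq_one.mp ?_)
      obtain ⟨j, hj⟩ := (IsPGroup.iff_card.mp Q.isPGroup')
      have hd := Subgroup.relIndex_dvd_card ((T : Subgroup (Subgroup.centralizer ({x} : Set G))).map
        (Subgroup.centralizer ({x} : Set G)).subtype) (Q : Subgroup G)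
      rw [hj] at hd
      obtain ⟨i, -, hi⟩ := (Nat.dvd_prime_pow hp).mp hd
      rcases i with _ | i
      · simpa using hi
      · exact absurd ((dvd_pow_self p (Nat.succ_ne_zero i)).trans (hi ▸ Subgroup.relIndex_dvd_index_of_le hQ)) hidx
    rw [← heq]
    exact Subgroup.map_subtype_le _
  -- the Sylow subgroups of `N` are commutative
  have hTN : ∀ T : Sylow p N, IsMulCommutative T := by
    intro T
    by_contra hT
    refine hA ⟨⟨T, hT⟩, fun x hx hd => ?_⟩
    obtain ⟨Q, hQ⟩ := hsyl x (by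
      obtain ⟨k, hk⟩ := hx
      exact ⟨k, by rw [Subgroup.orderOf_coe, hk]⟩)
    obtain ⟨T', hT'⟩ := (Q.isPGroup'.comap_subtype (K := N)).exists_le_sylow
    obtain ⟨Q', hQ'⟩ := (T'.isPGroup'.map N.subtype).exists_le_sylow
    obtain ⟨g, hg⟩ := MulAction.exists_smul_eq G Q' Q
    have hmem : ∀ z : N, z ∈ (T' : Subgroup N) → g * (z : G) * g⁻¹ ∈ (Q : Subgroup G) := fun z hz => by
      rw [← hg]; exact ⟨z, hQ' ⟨z, hz, rfl⟩, rfl⟩
    have hcard : Nat.card (T' : Subgroup N) ≤ Nat.card ((Q : Subgroup G).subgroupOf N) :=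
      Nat.card_le_card_of_injective
        (fun z : (T' : Subgroup N) => (⟨⟨g * ((z : N) : G) * g⁻¹, hN.conj_mem _ (z : N).2 g⟩, hmem z z.2⟩ :
          (Q : Subgroup G).subgroupOf N))
        (fun a b hab => by
          have h := congrArg (fun w : (Q : Subgroup G).subgroupOf N => ((w : N) : G)) hab
          simp only [mul_left_inj, mul_right_inj] at h
          exact Subtype.ext (Subtype.ext h))
    have heq : (Q : Subgroup G).subgroupOf N = (T' : Subgroup N) := Subgroup.eq_of_le_of_card_ge hT' hcard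
    refine T'.not_dvd_index (hd.trans (Subgroup.index_dvd_of_le ?_))
    intro z hz
    rw [← heq] at hz
    rw [Subgroup.mem_centralizer_singleton_iff]
    exact Subtype.ext (Subgroup.mem_centralizer_singleton_iff.mp (hQ hz))
  set π := QuotientGroup.mk' N with hπdef
  have hπ : Function.Surjective π := QuotientGroup.mk'_surjective N
  set Pb : Sylow p (G ⧸ N) := P.mapSurjective hπ with hPb
  have hPbc : IsMulCommutative Pb := by
    by_contra hc
    refine hB ⟨⟨Pb, hc⟩, fun x hx => ?_⟩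
    obtain ⟨k, hk⟩ := hx
    obtain ⟨R, hR⟩ := (IsPGroup.of_card (p := p) (n := k) (G := Subgroup.zpowers x)
      (by rw [Nat.card_zpowers, hk])).exists_le_sylow
    obtain ⟨c, hc'⟩ := MulAction.exists_smul_eq (G ⧸ N) Pb R
    obtain ⟨w, hw, hwx⟩ : x ∈ ((c • Pb : Sylow p (G ⧸ N)) : Subgroup (G ⧸ N)) :=
      hc' ▸ hR (Subgroup.mem_zpowers x)
    rw [hPb, Sylow.coe_mapSurjective] at hw
    obtain ⟨y, hy, rfl⟩ := hw
    obtain ⟨c, rfl⟩ := hπ c
    have hwx : π (c * y * c⁻¹) = x := by rw [← hwx]; simp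
    obtain ⟨j, hj⟩ := IsPGroup.iff_orderOf.mp P.isPGroup' ⟨y, hy⟩
    rw [Subgroup.orderOf_mk] at hj
    intro hd
    refine hC (c * y * c⁻¹) ⟨j, by rw [CfsgLib.Invol.orderOf_conj, hj]⟩ (hd.trans ?_)
    refine dvd_trans (Subgroup.index_dvd_of_le ?_) (Subgroup.index_map_dvd _ hπ)
    rintro _ ⟨z, hz, rfl⟩
    rw [Subgroup.mem_centralizer_singleton_iff, ← hwx, ← map_mul, ← map_mul,
      Subgroup.mem_centralizer_singleton_iff.mp hz]
  have hsplit : ∀ y ∈ (P : Subgroup G), ∃ w a, y = w * a ∧ w ∈ (P : Subgroup G) ∧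
      (∀ u ∈ (P : Subgroup G), u * w = w * u) ∧ a ∈ (P : Subgroup G) ∧ a ∈ N := by
    intro y hy
    obtain ⟨j, hj⟩ := IsPGroup.iff_orderOf.mp P.isPGroup' ⟨y, hy⟩
    rw [Subgroup.orderOf_mk] at hj
    obtain ⟨Q, hQ⟩ := hsyl y ⟨j, hj⟩
    obtain ⟨g, hg⟩ := MulAction.exists_smul_eq G Q P
    set z := g * y * g⁻¹ with hz
    have hzP' : ∀ u ∈ (P : Subgroup G), u * z = z * u := by
      intro u hu
      rw [← hg] at hu
      obtain ⟨v, hv, rfl⟩ := hu
      have hvy := Subgroup.mem_centralizer_singleton_iff.mp (hQ hv)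
      change g * v * g⁻¹ * z = z * (g * v * g⁻¹)
      rw [hz]
      calc g * v * g⁻¹ * (g * y * g⁻¹) = g * (v * y) * g⁻¹ := by group
        _ = g * (y * v) * g⁻¹ := by rw [hvy]
        _ = _ := by group
    have hzP : z ∈ (P : Subgroup G) := by
      have hzp : IsPGroup p (Subgroup.zpowers z) := IsPGroup.of_card (n := j)
        (by rw [Nat.card_zpowers, hz, CfsgLib.Invol.orderOf_conj, hj])
      refine ((hzp.inf_normalizer_sylow P).le ⟨Subgroup.mem_zpowers z, ?_⟩).2
      exact Subgroup.centralizer_le_normalizer _ (Subgroup.mem_centralizer_iff.mpr hzP')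
    have hmemb : ∀ u ∈ (P : Subgroup G), π u ∈ (Pb : Subgroup (G ⧸ N)) := fun u hu => by
      rw [hPb, Sylow.coe_mapSurjective]; exact ⟨u, hu, rfl⟩
    haveI := hPbc
    obtain ⟨nb, hnb, hconj⟩ := Sylow.conj_eq_normalizer_conj_of_mem Pb (π y) (π g)⁻¹ (hmemb y hy)
      (by rw [inv_inv, ← map_inv, ← map_mul, ← map_mul]; exact hmemb z hzP)
    rw [inv_inv] at hconj
    have hconj' : nb⁻¹ * π y * nb = π z := by rw [← hconj]; simp [hz]
    obtain ⟨n, rfl⟩ := hπ nb
    -- correct n into the normaliser of P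
    set M := (Pb : Subgroup (G ⧸ N)).comap π with hM
    have hPM : (P : Subgroup G) ≤ M := fun u hu => hmemb u hu
    have hnPM : ((n • P : Sylow p G) : Subgroup G) ≤ M := by
      rintro _ ⟨u, hu, rfl⟩
      change π (n * u * n⁻¹) ∈ (Pb : Subgroup (G ⧸ N))
      rw [map_mul, map_mul, map_inv]
      exact (Subgroup.mem_normalizer_iff.mp hnb _).mp (hmemb u hu)
    obtain ⟨m, hm⟩ := MulAction.exists_smul_eq M ((n • P).subtype hnPM) (P.subtype hPM)
    rw [Sylow.smul_subtype hnPM m] at hm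
    have hk : ((m : G) * n) • P = P := by rw [mul_smul]; exact Sylow.subtype_injective hm
    set k := (m : G) * n with hkdef
    set w := k * z * k⁻¹ with hwdef
    have hkN := Subgroup.mem_normalizer_iff.mp (Sylow.smul_eq_iff_mem_normalizer.mp hk)
    have hwP : w ∈ (P : Subgroup G) := (hkN z).mp hzP
    have hπw : π w = π y := by
      have h1 : π n * π z * (π n)⁻¹ = π y := by rw [← hconj']; group
      rw [hwdef, hkdef, map_mul, map_mul, map_inv, map_mul]
      calc π m * π n * π z * (π m * π n)⁻¹ = π m * (π n * π z * (π n)⁻¹) * (π m)⁻¹ := by group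
        _ = π m * π y * (π m)⁻¹ := by rw [h1]
        _ = π y := by
          have : (⟨π m, m.2⟩ : (Pb : Subgroup (G ⧸ N))) * ⟨π y, hmemb y hy⟩ = ⟨π y, hmemb y hy⟩ * ⟨π m, m.2⟩ :=
            hPbc.is_comm.comm _ _
          rw [show π m * π y = π y * π m from congrArg Subtype.val this, mul_inv_cancel_right]
    refine ⟨w, w⁻¹ * y, (mul_inv_cancel_left w y).symm, hwP, fun u hu => ?_,
      mul_mem (inv_mem hwP) hy, QuotientGroup.eq.mp hπw⟩
    have hu' : k⁻¹ * u * k ∈ (P : Subgroup G) := (hkN _).mpr (by convert hu using 1; group)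
    have := hzP' _ hu'
    calc u * w = k * ((k⁻¹ * u * k) * z) * k⁻¹ := by rw [hwdef]; group
      _ = k * (z * (k⁻¹ * u * k)) * k⁻¹ := by rw [this]
      _ = w * u := by rw [hwdef]; group
  apply hPnc
  refine ⟨⟨fun a b => Subtype.ext ?_⟩⟩
  obtain ⟨w₁, a₁, e₁, -, c₁, haP, haN⟩ := hsplit a a.2
  obtain ⟨w₂, a₂, e₂, hw₂, c₂, hbP, hbN⟩ := hsplit b b.2
  obtain ⟨T, hT⟩ := (P.isPGroup'.comap_subtype (K := N)).exists_le_sylow
  have hab : a₁ * a₂ = a₂ * a₁ :=
    congrArg (fun s : (T : Subgroup N) => ((s : N) : G))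
      ((hTN T).is_comm.comm ⟨⟨a₁, haN⟩, hT haP⟩ ⟨⟨a₂, hbN⟩, hT hbP⟩)
  change (a : G) * b = b * a
  rw [e₁, e₂]
  calc w₁ * a₁ * (w₂ * a₂) = w₁ * (a₁ * w₂) * a₂ := by group
    _ = w₁ * w₂ * (a₁ * a₂) := by rw [c₂ a₁ haP]; group
    _ = (w₂ * w₁) * (a₂ * a₁) := by rw [← c₁ w₂ hw₂, hab]
    _ = w₂ * (w₁ * a₂) * a₁ := by group
    _ = w₂ * (a₂ * w₁) * a₁ := by rw [c₁ a₂ hbP]
    _ = w₂ * a₂ * (w₁ * a₁) := by group

end Cfsg.Agent.S4354
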