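import Cfsg.Statements.S4370
import Cfsg.Agent.S0016

set_option autoImplicit false
open Cfsg

namespace Cfsg.Agent.S4370

theorem quat_centralizer {n : ℕ} [NeZero n] (q : QuaternionGroup n) (hq : q ∉ Subgroup.center (QuaternionGroup n)) :
    IsCyclic (Subgroup.centralizer ({q} : Set (QuaternionGroup n))) := by
  rcases q with i | i
  · have h2 : i + i ≠ 0 := by
      intro e
      apply hq
      rw [Subgroup.mem_center_iff]
      rintro (j | j)
      · simp only [QuaternionGroup.a_mul_a]; rw [add_comm]
      · simp only [QuaternionGroup.a_mul_xa, QuaternionGroup.xa_mul_a]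
        congr 1
        linear_combination e
    have hle : Subgroup.centralizer ({QuaternionGroup.a i} : Set (QuaternionGroup n)) ≤ Subgroup.zpowers (QuaternionGroup.a 1) := by
      rintro (j | j) hj
      · exact ⟨(j.val : ℤ), by show QuaternionGroup.a 1 ^ (j.val : ℤ) = _; rw [zpow_natCast, QuaternionGroup.a_one_pow, ZMod.natCast_zmod_val]⟩
      · exfalso
        rw [Subgroup.mem_centralizer_singleton_iff] at hj
        simp only [QuaternionGroup.a_mul_xa, QuaternionGroup.xa_mul_a, QuaternionGroup.xa.injEq] at hj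
        exact h2 (by linear_combination hj)
    exact isCyclic_of_injective (Subgroup.inclusion hle) (Subgroup.inclusion_injective hle)
  · have hle : Subgroup.centralizer ({QuaternionGroup.xa i} : Set (QuaternionGroup n)) ≤ Subgroup.zpowers (QuaternionGroup.xa i) := by
      have hsplit : ∀ d : ZMod (2 * n), d + d = 0 → d = 0 ∨ d = (n : ZMod (2 * n)) := by
        intro d hd
        rw [← ZMod.natCast_zmod_val d, ← Nat.cast_add, ZMod.natCast_eq_zero_iff] at hd
        have hlt := d.val_lt
        obtain ⟨c, hc⟩ := hd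
        rcases Nat.lt_or_ge c 1 with h | h
        · exact Or.inl (by rw [← ZMod.natCast_zmod_val d, show d.val = 0 by subst_vars; interval_cases c; omega, Nat.cast_zero])
        · have hc1 : c = 1 := by nlinarith
          exact Or.inr (by rw [← ZMod.natCast_zmod_val d, show d.val = n by subst hc1; omega])
      have hsq : QuaternionGroup.xa i ^ 2 = QuaternionGroup.a (n : ZMod (2 * n)) := by
        rw [sq, QuaternionGroup.xa_mul_xa]; congr 1; ring
      rintro (j | j) hj <;> rw [Subgroup.mem_centralizer_singleton_iff] at hj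
      · simp only [QuaternionGroup.a_mul_xa, QuaternionGroup.xa_mul_a, QuaternionGroup.xa.injEq] at hj
        rcases hsplit j (by linear_combination (-1 : ZMod (2 * n)) * hj) with e | e
        · rw [e, QuaternionGroup.a_zero]; exact one_mem _
        · rw [e, ← hsq]; exact pow_mem (Subgroup.mem_zpowers _) 2
      · simp only [QuaternionGroup.xa_mul_xa, QuaternionGroup.a.injEq] at hj
        rcases hsplit (i - j) (by linear_combination hj) with e | e
        · rw [sub_eq_zero.mp e]; exact Subgroup.mem_zpowers _
        · have : QuaternionGroup.xa j = QuaternionGroup.xa i ^ 3 := by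
            rw [pow_succ, hsq, QuaternionGroup.a_mul_xa]; congr 1; linear_combination -e
          rw [this]; exact pow_mem (Subgroup.mem_zpowers _) 3
    exact isCyclic_of_injective (Subgroup.inclusion hle) (Subgroup.inclusion_injective hle)

/-- Let G be a finite non-abelian nilpotent group. Then the centralizer of every non-central element of G is cyclic if and only if G is isomorphic to the direct product of a generalized quaternion group and a cyclic group of odd order. -/
theorem result {G : Type*} [Group G] [Finite G] (hG : Group.IsNilpotent G)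
    (hna : ¬ IsMulCommutative G) :
    (∀ x : G, x ∉ Subgroup.center G → IsCyclic (Subgroup.centralizer ({x} : Set G))) ↔
      ∃ (k m : ℕ), 1 ≤ k ∧ Odd m ∧ Nonempty (G ≃* QuaternionGroup (2 ^ k) × Multiplicative (ZMod m)) := by
  classical
  haveI := hG
  constructor
  swap
  · rintro ⟨k, m, hk, hm, ⟨e⟩⟩ x hx
    haveI : NeZero m := ⟨fun h => by rw [h] at hm; exact absurd hm (by decide)⟩
    haveI : NeZero (2 ^ k) := ⟨by positivity⟩
    set q := (e x).1 with hq
    have hqc : q ∉ Subgroup.center (QuaternionGroup (2 ^ k)) := by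
      intro h
      apply hx
      rw [Subgroup.mem_center_iff]
      intro g
      apply e.injective
      rw [map_mul, map_mul]
      exact Prod.ext (Subgroup.mem_center_iff.mp h (e g).1) (mul_comm (e g).2 (e x).2)
    haveI hc := quat_centralizer q hqc
    obtain ⟨g, hg⟩ := hc.exists_generator
    set C := Subgroup.centralizer ({q} : Set (QuaternionGroup (2 ^ k)))
    -- coprime orders
    have hcard : (Nat.card C).Coprime (Nat.card (Multiplicative (ZMod m))) := by
      rw [Nat.card_congr Multiplicative.toAdd, Nat.card_zmod]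
      refine Nat.Coprime.coprime_dvd_left (Subgroup.card_subgroup_dvd_card C) ?_
      rw [Nat.card_eq_fintype_card, QuaternionGroup.card, show 4 * 2 ^ k = 2 ^ (k + 2) by ring]
      exact (Nat.coprime_two_left.mpr hm).pow_left _
    haveI : IsCyclic (C × Multiplicative (ZMod m)) := Group.isCyclic_prod_iff.mpr ⟨hc, inferInstance, hcard⟩
    let f : Subgroup.centralizer ({x} : Set G) →* C × Multiplicative (ZMod m) :=
      MonoidHom.prod (((MonoidHom.fst _ _).comp (e.toMonoidHom.comp (Subgroup.subtype _))).codRestrict C fun y =>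
        Subgroup.mem_centralizer_singleton_iff.mpr (by
          have := congrArg (fun z => (e z).1) (Subgroup.mem_centralizer_singleton_iff.mp y.2)
          simpa [hq] using this))
        ((MonoidHom.snd _ _).comp (e.toMonoidHom.comp (Subgroup.subtype _)))
    refine isCyclic_of_injective f ?_
    intro a b hab
    have h1 : ((f a).1 : QuaternionGroup (2 ^ k)) = (f b).1 := by rw [hab]
    have h2 : (f a).2 = (f b).2 := by rw [hab]
    exact Subtype.ext (e.injective (Prod.ext h1 h2))
  intro hcy
  have hcop : ∀ (p q : ℕ) [Fact p.Prime] [Fact q.Prime], p ≠ q → ∀ (P : Sylow p G) (Q : Sylow q G),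
      ∀ a ∈ (P : Subgroup G), ∀ b ∈ (Q : Subgroup G), a * b = b * a := by
    intro p q _ _ hpq P Q a ha b hb
    haveI hPn : (P : Subgroup G).Normal := Sylow.normal_of_normalizerCondition Group.normalizerCondition_of_isNilpotent P
    haveI hQn : (Q : Subgroup G).Normal := Sylow.normal_of_normalizerCondition Group.normalizerCondition_of_isNilpotent Q
    exact (Subgroup.commute_of_normal_of_disjoint _ _ hPn hQn (IsPGroup.disjoint_of_ne p q hpq _ _ P.isPGroup' Q.isPGroup') a b ha hb).eq
  have htop : ∀ H : Subgroup G, (∀ (p : ℕ) [Fact p.Prime] (P : Sylow p G), (P : Subgroup G) ≤ H) → H = ⊤ := by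
    intro H hH
    rw [← Subgroup.index_eq_one]
    by_contra hne
    obtain ⟨q, hq, hqd⟩ := Nat.exists_prime_and_dvd hne
    haveI : Fact q.Prime := ⟨hq⟩
    obtain ⟨Q⟩ : Nonempty (Sylow q G) := inferInstance
    exact Q.not_dvd_index (hqd.trans (Subgroup.index_dvd_of_le (hH q Q)))
  obtain ⟨p, hp, P, x, hxP, hxZ⟩ : ∃ (p : ℕ) (_ : Fact p.Prime) (P : Sylow p G) (x : G),
      x ∈ (P : Subgroup G) ∧ x ∉ Subgroup.center G := by
    by_contra hcon
    push Not at hcon
    have h := htop (Subgroup.center G) fun p hp P x hx => hcon p hp P x hx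
    exact hna ⟨⟨fun a b => Subgroup.mem_center_iff.mp (h ▸ Subgroup.mem_top b) a⟩⟩
  haveI := hp
  haveI hCx := hcy x hxZ
  have hother : ∀ (q : ℕ) [Fact q.Prime], q ≠ p → ∀ Q : Sylow q G, (Q : Subgroup G) ≤ Subgroup.center G := by
    intro q hq hqp Q
    have hle : (Q : Subgroup G) ≤ Subgroup.centralizer ({x} : Set G) := fun b hb =>
      Subgroup.mem_centralizer_singleton_iff.mpr (hcop q p hqp Q P b hb x hxP)
    haveI : IsCyclic (Q : Subgroup G) := isCyclic_of_injective (Subgroup.inclusion hle) (Subgroup.inclusion_injective hle)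
    intro b hb
    have hall : Subgroup.centralizer ({b} : Set G) = ⊤ := htop _ fun r hr R a ha => by
      refine Subgroup.mem_centralizer_singleton_iff.mpr ?_
      by_cases hrq : r = q
      · subst hrq
        haveI hQn : (Q : Subgroup G).Normal := Sylow.normal_of_normalizerCondition Group.normalizerCondition_of_isNilpotent Q
        haveI := Sylow.unique_of_normal Q hQn
        have : R = Q := Subsingleton.elim _ _
        subst this
        letI : CommGroup (R : Subgroup G) := IsCyclic.commGroup
        exact congrArg Subtype.val (mul_comm (⟨a, ha⟩ : (R : Subgroup G)) ⟨b, hb⟩)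
      · exact hcop r q hrq R Q a ha b hb
    rw [Subgroup.mem_center_iff]
    exact fun g => Subgroup.mem_centralizer_singleton_iff.mp (hall ▸ Subgroup.mem_top g)
  -- a single subgroup of order `p`
  have hPuniq : ∀ X Y : Subgroup (P : Subgroup G), Nat.card X = p → Nat.card Y = p → X = Y := by
    intro X Y hX hY
    have hPp := P.isPGroup'
    haveI : Nontrivial (P : Subgroup G) := ⟨⟨⟨x, hxP⟩, 1, fun e => hxZ (by
      rw [show x = 1 from congrArg Subtype.val e]; exact one_mem _)⟩⟩
    haveI := hPp.center_nontrivial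
    obtain ⟨j, hj0, hj⟩ := (IsPGroup.nontrivial_iff_card (hPp.to_subgroup (Subgroup.center (P : Subgroup G)))).1 inferInstance
    obtain ⟨z, hz⟩ := exists_prime_orderOf_dvd_card' (G := Subgroup.center (P : Subgroup G)) p (hj ▸ dvd_pow_self p hj0.ne')
    suffices key : ∀ S : Subgroup (P : Subgroup G), Nat.card S = p → S = Subgroup.zpowers (z : (P : Subgroup G)) by
      rw [key X hX, key Y hY]
    intro S hS
    obtain ⟨s, hs⟩ := exists_prime_orderOf_dvd_card' (G := S) p (by rw [hS])
    have hSeq : Subgroup.zpowers (s : (P : Subgroup G)) = S :=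
      Subgroup.eq_of_le_of_card_ge (Subgroup.zpowers_le.mpr s.2) (by rw [Nat.card_zpowers, Subgroup.orderOf_coe, hs, hS])
    have hzs : Commute ((z : (P : Subgroup G)) : G) ((s : (P : Subgroup G)) : G) :=
      congrArg Subtype.val (Subgroup.mem_center_iff.mp z.2 (s : (P : Subgroup G))).symm
    -- both lie in one cyclic centralizer
    obtain ⟨w, hw, hzw, hsw⟩ : ∃ w : G, w ∉ Subgroup.center G ∧
        ((z : (P : Subgroup G)) : G) ∈ Subgroup.centralizer ({w} : Set G) ∧ ((s : (P : Subgroup G)) : G) ∈ Subgroup.centralizer ({w} : Set G) := by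
      by_cases hsZ : ((s : (P : Subgroup G)) : G) ∈ Subgroup.center G
      · refine ⟨x, hxZ, Subgroup.mem_centralizer_singleton_iff.mpr ?_, Subgroup.mem_centralizer_singleton_iff.mpr (Subgroup.mem_center_iff.mp hsZ x).symm⟩
        exact congrArg Subtype.val (Subgroup.mem_center_iff.mp z.2 (⟨x, hxP⟩ : (P : Subgroup G))).symm
      · exact ⟨_, hsZ, Subgroup.mem_centralizer_singleton_iff.mpr hzs.eq, Subgroup.mem_centralizer_singleton_iff.mpr rfl⟩
    haveI := hcy w hw
    have hzo : orderOf (⟨_, hzw⟩ : Subgroup.centralizer ({w} : Set G)) = p := by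
      rw [Subgroup.orderOf_mk, Subgroup.orderOf_coe, Subgroup.orderOf_coe, hz]
    have hso : orderOf (⟨_, hsw⟩ : Subgroup.centralizer ({w} : Set G)) = p := by
      rw [Subgroup.orderOf_mk, Subgroup.orderOf_coe, Subgroup.orderOf_coe, hs]
    letI : CommGroup (Subgroup.centralizer ({w} : Set G)) := IsCyclic.commGroup
    have hkey : ∀ u : Subgroup.centralizer ({w} : Set G), orderOf u = p →
        Subgroup.zpowers u = (powMonoidHom p : Subgroup.centralizer ({w} : Set G) →* _).ker := by
      intro u hu
      refine Subgroup.eq_of_le_of_card_ge (Subgroup.zpowers_le.mpr (MonoidHom.mem_ker.mpr ?_)) ?_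
      · show u ^ p = 1
        rw [← hu, pow_orderOf_eq_one]
      · rw [IsCyclic.card_powMonoidHom_ker, Nat.card_zpowers, hu]
        exact Nat.le_of_dvd (Fact.out : p.Prime).pos (Nat.gcd_dvd_right _ _)
    have heq : Subgroup.zpowers (⟨_, hzw⟩ : Subgroup.centralizer ({w} : Set G)) = Subgroup.zpowers ⟨_, hsw⟩ :=
      (hkey _ hzo).trans (hkey _ hso).symm
    have hm := Subgroup.mem_zpowers (⟨_, hzw⟩ : Subgroup.centralizer ({w} : Set G))
    rw [heq] at hm
    obtain ⟨i, hi⟩ := hm
    rw [← hSeq]
    refine (Subgroup.eq_of_le_of_card_ge (Subgroup.zpowers_le.mpr (Subgroup.mem_zpowers_iff.mpr ⟨i, ?_⟩)) (by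
      rw [Nat.card_zpowers, Nat.card_zpowers, Subgroup.orderOf_coe, hs, Subgroup.orderOf_coe, hz])).symm
    apply Subtype.ext
    simp only at hi
    have := congrArg Subtype.val hi
    exact this
  have hPna : ¬ IsMulCommutative (P : Subgroup G) := by
    intro hc
    apply hxZ
    have hall : Subgroup.centralizer ({x} : Set G) = ⊤ := htop _ fun r hr R a ha => by
      refine Subgroup.mem_centralizer_singleton_iff.mpr ?_
      by_cases hrp : r = p
      · subst hrp
        haveI hPn : (P : Subgroup G).Normal := Sylow.normal_of_normalizerCondition Group.normalizerCondition_of_isNilpotent P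
        haveI := Sylow.unique_of_normal P hPn
        have : R = P := Subsingleton.elim _ _
        subst this
        exact congrArg Subtype.val (hc.is_comm.comm (⟨a, ha⟩ : (R : Subgroup G)) ⟨x, hxP⟩)
      · exact hcop r p hrp R P a ha x hxP
    rw [Subgroup.mem_center_iff]
    exact fun g => Subgroup.mem_centralizer_singleton_iff.mp (hall ▸ Subgroup.mem_top g)
  rcases Cfsg.Agent.S0016.result p P.isPGroup' hPuniq with hc | ⟨hp2, k, ⟨eQ⟩⟩
  · exact absurd (⟨⟨fun a b => by letI : CommGroup (P : Subgroup G) := IsCyclic.commGroup; exact mul_comm a b⟩⟩) hPna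
  subst hp2
  have hk : 1 ≤ k := by
    by_contra hk
    rw [show k = 0 by omega] at eQ
    apply hPna
    have key : ∀ a b : QuaternionGroup (2 ^ 0), a * b = b * a := by decide +kernel
    exact ⟨⟨fun a b => eQ.injective (by rw [map_mul, map_mul]; exact key _ _)⟩⟩
  let A : Subgroup G :=
    { carrier := {c | c ∈ Subgroup.center G ∧ Odd (orderOf c)}
      mul_mem' := fun {a b} ha hb => ⟨mul_mem ha.1 hb.1,
        (ha.2.mul hb.2).of_dvd_nat ((show Commute a b from Subgroup.mem_center_iff.mp hb.1 a).orderOf_mul_dvd_mul_orderOf)⟩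
      one_mem' := ⟨one_mem _, by rw [orderOf_one]; exact odd_one⟩
      inv_mem' := fun {a} ha => ⟨inv_mem ha.1, by rw [orderOf_inv]; exact ha.2⟩ }
  have hAle : A ≤ Subgroup.centralizer ({x} : Set G) := fun a ha =>
    Subgroup.mem_centralizer_singleton_iff.mpr (Subgroup.mem_center_iff.mp ha.1 x).symm
  haveI hAc : IsCyclic A := isCyclic_of_injective (Subgroup.inclusion hAle) (Subgroup.inclusion_injective hAle)
  have hAodd : Odd (Nat.card A) := by
    rw [← Nat.not_even_iff_odd, even_iff_two_dvd]
    intro h
    obtain ⟨a, ha⟩ := exists_prime_orderOf_dvd_card' (G := A) 2 h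
    have := a.2.2
    rw [Subgroup.orderOf_coe, ha] at this
    exact absurd this (by decide)
  let φ : ↥(P : Subgroup G) × ↥A →* G := MonoidHom.mk' (fun u => (u.1 : G) * u.2) fun u v => by
    show ((u.1 : G) * v.1) * ((u.2 : G) * v.2) = (u.1 : G) * u.2 * ((v.1 : G) * v.2)
    calc ((u.1 : G) * v.1) * ((u.2 : G) * v.2) = (u.1 : G) * ((v.1 : G) * u.2) * v.2 := by group
      _ = (u.1 : G) * ((u.2 : G) * v.1) * v.2 := by rw [Subgroup.mem_center_iff.mp u.2.2.1 (v.1 : G)]
      _ = _ := by group
  have hdis : Disjoint (P : Subgroup G) A := by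
    rw [Subgroup.disjoint_def]
    intro a ha ha'
    obtain ⟨j, hj⟩ := IsPGroup.iff_orderOf.mp P.isPGroup' ⟨a, ha⟩
    rw [Subgroup.orderOf_mk] at hj
    have h2 := ha'.2
    rw [hj] at h2
    rcases j with _ | j
    · exact orderOf_eq_one_iff.mp (hj.trans (pow_zero 2))
    · exact absurd (even_two.pow_of_ne_zero j.succ_ne_zero) (Nat.not_even_iff_odd.mpr h2)
  have hinj : Function.Injective φ := fun u v h => by
    have := Subgroup.mul_injective_of_disjoint hdis (a₁ := u) (a₂ := v) h
    exact this
  have hsurj : Function.Surjective φ := by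
    have hr : φ.range = ⊤ := htop _ fun r hr R a ha => by
      by_cases hr2 : r = 2
      · subst hr2
        haveI hPn : (P : Subgroup G).Normal := Sylow.normal_of_normalizerCondition Group.normalizerCondition_of_isNilpotent P
        haveI := Sylow.unique_of_normal P hPn
        have : R = P := Subsingleton.elim _ _
        subst this
        exact ⟨(⟨a, ha⟩, 1), by show (a : G) * ((1 : A) : G) = a; rw [OneMemClass.coe_one, mul_one]⟩
      · have haA : a ∈ A := ⟨hother r hr2 R ha, by
          obtain ⟨j, hj⟩ := IsPGroup.iff_orderOf.mp R.isPGroup' ⟨a, ha⟩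
          rw [Subgroup.orderOf_mk] at hj
          rw [hj]; exact (hr.out.odd_of_ne_two hr2).pow⟩
        exact ⟨(1, ⟨a, haA⟩), by show ((1 : (P : Subgroup G)) : G) * a = a; rw [OneMemClass.coe_one, one_mul]⟩
    exact MonoidHom.range_eq_top.mp hr
  exact ⟨k, Nat.card A, hk, hAodd, ⟨(MulEquiv.ofBijective φ ⟨hinj, hsurj⟩).symm.trans
    (MulEquiv.prodCongr eQ (zmodCyclicMulEquiv hAc).symm)⟩⟩

end Cfsg.Agent.S4370
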