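import Cfsg.Statements.S4376
import Mathlib
import Cfsg.Agent.Lib.FgsOrderTypeExample

set_option autoImplicit false
open Cfsg

namespace Cfsg.Agent.S4376

set_option synthInstance.maxSize 20000
set_option synthInstance.maxHeartbeats 400000
set_option maxHeartbeats 800000

/-- There are finite groups G and H having the same number of elements of each order (the same order type) with G solvable and H not solvable. -/
theorem result :
    ∃ (G : Type) (_ : Group G) (_ : Finite G) (H : Type) (_ : Group H) (_ : Finite H),
      Group.IsSolvable G ∧ ¬ Group.IsSolvable H ∧ ∀ n : ℕ, Nat.card {g : G // orderOf g = n} = Nat.card {h : H // orderOf h = n} := by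
  exact ⟨CfsgLib.OrderType.GS, inferInstance, inferInstance, CfsgLib.OrderType.GH, inferInstance,
    inferInstance, CfsgLib.OrderType.isSolvable_GS, CfsgLib.OrderType.not_isSolvable_GH,
    CfsgLib.OrderType.card_orderOf_eq CfsgLib.OrderType.same_pc⟩

end Cfsg.Agent.S4376
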