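import Cfsg.Statements.S4377


set_option autoImplicit false
open Cfsg

namespace Cfsg.Agent.S4377

theorem card_pow_eq_one_eq_sum {K : Type*} [Group K] [Finite K] (n : ℕ) (hn : n ≠ 0) :
    Nat.card {g : K // g ^ n = 1} = ∑ d ∈ n.divisors, Nat.card {g : K // orderOf g = d} := by
  classical
  haveI := Fintype.ofFinite K
  simp only [Nat.card_eq_fintype_card, Fintype.card_subtype]
  rw [Finset.card_eq_sum_card_fiberwise (f := fun g : K => orderOf g) (t := n.divisors)]
  · refine Finset.sum_congr rfl fun d hd => ?_
    rw [Finset.filter_filter]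
    congr 1
    ext g
    simp only [Finset.mem_filter, Finset.mem_univ, true_and]
    exact ⟨fun h => h.2, fun h => ⟨orderOf_dvd_iff_pow_eq_one.mp (h ▸ (Nat.mem_divisors.mp hd).1), h⟩⟩
  · intro g hg
    simp only [Finset.coe_filter, Finset.mem_univ, true_and, Set.mem_setOf_eq] at hg
    exact Finset.mem_coe.mpr (Nat.mem_divisors.mpr ⟨orderOf_dvd_of_pow_eq_one hg, hn⟩)

theorem card_pow_all {K : Type*} [Group K] [Finite K] (m : ℕ) (hm : Nat.card K ∣ m) :
    Nat.card {g : K // g ^ m = 1} = Nat.card {g : K // g ^ 0 = 1} := by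
  refine Nat.card_congr (Equiv.subtypeEquivRight fun g => ?_)
  simp [orderOf_dvd_iff_pow_eq_one.mp ((orderOf_dvd_natCard g).trans hm)]

/-- Two finite groups have the same number of elements of each order if and only if, for every n, they have the same number of elements g with gⁿ = 1. -/
theorem result {G H : Type*} [Group G] [Finite G] [Group H] [Finite H] :
    (∀ n : ℕ, Nat.card {g : G // orderOf g = n} = Nat.card {h : H // orderOf h = n}) ↔
      ∀ n : ℕ, Nat.card {g : G // g ^ n = 1} = Nat.card {h : H // h ^ n = 1} := by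
  classical
  constructor
  · intro h n
    rcases eq_or_ne n 0 with rfl | hn
    · rw [← card_pow_all (K := G) (Nat.card G * Nat.card H) (dvd_mul_right _ _),
        ← card_pow_all (K := H) (Nat.card G * Nat.card H) (dvd_mul_left _ _),
        card_pow_eq_one_eq_sum _ (Nat.mul_pos Nat.card_pos Nat.card_pos).ne',
        card_pow_eq_one_eq_sum _ (Nat.mul_pos Nat.card_pos Nat.card_pos).ne']
      exact Finset.sum_congr rfl fun d _ => h d
    · rw [card_pow_eq_one_eq_sum n hn, card_pow_eq_one_eq_sum n hn]
      exact Finset.sum_congr rfl fun d _ => h d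
  · intro h n
    induction n using Nat.strong_induction_on with
    | _ n ih =>
    rcases eq_or_ne n 0 with rfl | hn
    · haveI : IsEmpty {g : G // orderOf g = 0} := ⟨fun g => (orderOf_pos g.1).ne' g.2⟩
      haveI : IsEmpty {g : H // orderOf g = 0} := ⟨fun g => (orderOf_pos g.1).ne' g.2⟩
      rw [Nat.card_of_isEmpty, Nat.card_of_isEmpty]
    · have e := h n
      rw [card_pow_eq_one_eq_sum n hn, card_pow_eq_one_eq_sum n hn, ← Nat.cons_self_properDivisors hn] at e
      · rw [Finset.sum_cons, Finset.sum_cons,
          Finset.sum_congr rfl (fun d hd => ih d (Nat.mem_properDivisors.mp hd).2)] at e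
        exact Nat.add_right_cancel e

end Cfsg.Agent.S4377
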