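import Cfsg.Statements.S4387
import Cfsg.Agent.Lib.FgsConjCover


set_option autoImplicit false
open Pointwise
open Cfsg
open scoped Pointwise

namespace Cfsg.Agent.S4387

/-- Let G be a non-trivial finite group in which any two maximal subgroups are conjugate. Then G is cyclic of prime-power order. -/
theorem result {G : Type*} [Group G] [Finite G] [Nontrivial G]
    (h : ∀ M N : Subgroup G, IsCoatom M → IsCoatom N → ∃ g : G, N = MulAut.conj g • M) :
    IsCyclic G ∧ IsPrimePow (Nat.card G) := by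
  classical
  have hcyc : IsCyclic G := by
    by_contra hnc
    have hne : ∀ x : G, Subgroup.zpowers x ≠ ⊤ := fun x h =>
      hnc (isCyclic_iff_exists_zpowers_eq_top.mpr ⟨x, h⟩)
    obtain ⟨M, hM, -⟩ := (eq_top_or_exists_le_coatom (⊥ : Subgroup G)).resolve_left bot_ne_top
    obtain ⟨x, hx⟩ := CfsgLib.Fgs.exists_not_mem_conj (G := G) (H := M) hM.1
    obtain ⟨N, hN, hxN⟩ := (eq_top_or_exists_le_coatom _).resolve_left (hne x)
    obtain ⟨g, rfl⟩ := h M N hM hN
    exact hx g (hxN (Subgroup.mem_zpowers x))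
  refine ⟨hcyc, ?_⟩
  haveI := hcyc
  have huniq : ∀ M N : Subgroup G, IsCoatom M → IsCoatom N → M = N := by
    intro M N hM hN
    obtain ⟨g, rfl⟩ := h M N hM hN
    letI := IsCyclic.commGroup (α := G)
    ext y
    rw [Subgroup.mem_pointwise_smul_iff_inv_smul_mem]
    simp
  rw [isPrimePow_iff_unique_prime_dvd]
  obtain ⟨p, hp, hpd⟩ := Nat.exists_prime_and_dvd (Finite.one_lt_card (α := G)).ne'
  refine ⟨p, ⟨hp, hpd⟩, fun q ⟨hq, hqd⟩ => ?_⟩
  letI := IsCyclic.commGroup (α := G)
  obtain ⟨N, hN⟩ : ∃ N : Subgroup G, N.index = p :=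
    ⟨(powMonoidHom p : G →* G).range, by rw [IsCyclic.index_powMonoidHom_range, Nat.gcd_eq_right hpd]⟩
  obtain ⟨M, hM⟩ : ∃ M : Subgroup G, M.index = q :=
    ⟨(powMonoidHom q : G →* G).range, by rw [IsCyclic.index_powMonoidHom_range, Nat.gcd_eq_right hqd]⟩
  have key : ∀ (K : Subgroup G) (r : ℕ), r.Prime → K.index = r → IsCoatom K := by
    intro K r hr hK
    refine ⟨fun e => hr.one_lt.ne' (by rw [← hK, e, Subgroup.index_top]), fun L hL => ?_⟩
    by_contra hne
    have hd := Subgroup.index_dvd_of_le hL.le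
    rw [hK] at hd
    rcases (Nat.dvd_prime hr).mp hd with e | e
    · exact hne (Subgroup.index_eq_one.mp e)
    · have := Subgroup.index_strictAnti hL
      omega
  rw [← hM, ← hN, huniq M N (key M q hq hM) (key N p hp hN)]

end Cfsg.Agent.S4387
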