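import Cfsg.Statements.S4398
import Cfsg.Agent.Lib.CoreNormalCyclic

set_option autoImplicit false
open Cfsg

namespace Cfsg.Agent.S4398

lemma two_le_of_lt {S : Type*} [Group S] [Finite S] {H K : Subgroup S} (h : H < K) : 2 * Nat.card H ≤ Nat.card K := by
  have h1 := (H.subgroupOf K).card_mul_index
  rw [Nat.card_congr (Subgroup.subgroupOfEquivOfLe h.le).toEquiv] at h1
  have h2 : 2 ≤ (H.subgroupOf K).index := by
    have h3 : (H.subgroupOf K).index ≠ 0 := Subgroup.index_ne_zero_of_finite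
    have h4 : (H.subgroupOf K).index ≠ 1 := fun e => h.not_ge (Subgroup.relIndex_eq_one.1 e)
    omega
  rw [← h1, mul_comm 2]
  exact Nat.mul_le_mul_left _ h2

lemma invol_powers {S : Type*} [Group S] {w g : S} (hw : w * w = 1) (hg : g ∈ Subgroup.zpowers w) : g = 1 ∨ g = w := by
  obtain ⟨i, rfl⟩ := hg
  rcases Int.even_or_odd i with ⟨k, rfl⟩ | ⟨k, rfl⟩
  · left
    show w ^ (k + k) = 1
    rw [← two_mul, zpow_mul, zpow_ofNat, pow_two, hw, one_zpow]
  · right
    show w ^ (2 * k + 1) = w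
    rw [zpow_add, zpow_mul, zpow_ofNat, pow_two, hw, one_zpow, one_mul, zpow_one]

/-- Three commuting independent involutions modulo a central subgroup contradict sectional rank two. -/
lemma three_contra {S : Type*} [Group S] [Finite S] (hr : Cfsg.SectionalPRankLE 2 2 S) {z a b c : S}
    (hza : Commute z a) (hzb : Commute z b) (hzc : Commute z c)
    (ha : a * a ∈ Subgroup.zpowers z) (hb : b * b ∈ Subgroup.zpowers z) (hc : c * c ∈ Subgroup.zpowers z)
    (hab : a⁻¹ * (b * a * b⁻¹) ∈ Subgroup.zpowers z) (hac : a⁻¹ * (c * a * c⁻¹) ∈ Subgroup.zpowers z)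
    (hbc : b⁻¹ * (c * b * c⁻¹) ∈ Subgroup.zpowers z)
    (h1 : a ∉ Subgroup.zpowers z) (h2 : b ∉ Subgroup.zpowers z ⊔ Subgroup.zpowers a)
    (h3 : c ∉ Subgroup.zpowers z ⊔ Subgroup.zpowers a ⊔ Subgroup.zpowers b) : False := by
  classical
  set K := Subgroup.closure ({z, a, b, c} : Set S)
  have haK : a ∈ K := Subgroup.subset_closure (by simp)
  have hbK : b ∈ K := Subgroup.subset_closure (by simp)
  have hcK : c ∈ K := Subgroup.subset_closure (by simp)
  have hKC : K ≤ Subgroup.centralizer ({z} : Set S) := by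
    refine (Subgroup.closure_le _).2 ?_
    rintro x (rfl | rfl | rfl | rfl) <;> rw [SetLike.mem_coe, Subgroup.mem_centralizer_singleton_iff]
    · exact hza.symm.eq
    · exact hzb.symm.eq
    · exact hzc.symm.eq
  let Z : Subgroup K := (Subgroup.zpowers z).subgroupOf K
  haveI : Z.Normal := ⟨fun x hx g => by
    rw [Subgroup.mem_subgroupOf] at hx ⊢
    obtain ⟨i, hi⟩ := hx
    have hi' : z ^ i = (x : S) := hi
    have hg : Commute (g : S) z := Subgroup.mem_centralizer_singleton_iff.1 (hKC g.2)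
    show (g : S) * x * (g : S)⁻¹ ∈ _
    rw [← hi', (hg.zpow_right i).eq, mul_inv_cancel_right]
    exact Subgroup.zpow_mem _ (Subgroup.mem_zpowers z) i⟩
  set π := QuotientGroup.mk' Z
  have hQ : ∀ x : K, π x = 1 ↔ (x : S) ∈ Subgroup.zpowers z := fun x => by
    rw [QuotientGroup.mk'_apply, QuotientGroup.eq_one_iff, Subgroup.mem_subgroupOf]
  set A := π ⟨a, haK⟩
  set B := π ⟨b, hbK⟩
  set C := π ⟨c, hcK⟩
  have hsq : ∀ (x : S) (hx : x ∈ K), x * x ∈ Subgroup.zpowers z → π ⟨x, hx⟩ * π ⟨x, hx⟩ = 1 := by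
    intro x hx h; rw [← map_mul, hQ]; exact h
  have hcomm : ∀ (x y : S) (hx : x ∈ K) (hy : y ∈ K), x⁻¹ * (y * x * y⁻¹) ∈ Subgroup.zpowers z →
      Commute (π ⟨x, hx⟩) (π ⟨y, hy⟩) := by
    intro x y hx hy h
    have h' : π ((⟨x, hx⟩ : K)⁻¹ * ((⟨y, hy⟩ : K) * ⟨x, hx⟩ * (⟨y, hy⟩ : K)⁻¹)) = 1 := (hQ _).2 h
    rw [map_mul, map_mul, map_mul, map_inv, map_inv, inv_mul_eq_one, eq_mul_inv_iff_mul_eq] at h'
    exact h'
  set W := Subgroup.closure ({A, B, C} : Set (K ⧸ Z))
  have hW : IsMulCommutative W := by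
    refine Subgroup.isMulCommutative_closure ?_
    have hAB := hcomm a b haK hbK hab
    have hAC := hcomm a c haK hcK hac
    have hBC := hcomm b c hbK hcK hbc
    rintro x (rfl | rfl | rfl) y (rfl | rfl | rfl)
    all_goals first | rfl | exact hAB | exact hAC | exact hBC | exact hAB.symm | exact hAC.symm | exact hBC.symm
  have hexp : ∀ w ∈ W, w ^ 2 = 1 := by
    intro w hw
    refine Subgroup.closure_induction ?_ (one_pow 2) ?_ ?_ hw
    · rintro x (rfl | rfl | rfl) <;> rw [pow_two]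
      · exact hsq a haK ha
      · exact hsq b hbK hb
      · exact hsq c hcK hc
    · intro x y hx hy h1 h2
      rw [(show Commute x y from congrArg Subtype.val (hW.is_comm.comm ⟨x, hx⟩ ⟨y, hy⟩)).mul_pow, h1, h2, one_mul]
    · intro x _ h1; rw [inv_pow, h1, inv_one]
  have hle := hr K Z W hW hexp
  have hA1 : A ≠ 1 := fun h => h1 ((hQ _).1 h)
  have hBA : B ∉ Subgroup.zpowers A := by
    intro h
    apply h2
    rw [show Subgroup.zpowers A = (Subgroup.zpowers (⟨a, haK⟩ : K)).map π from (MonoidHom.map_zpowers π _).symm] at h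
    obtain ⟨x, hx, hxe⟩ := h
    have h' : π (x⁻¹ * ⟨b, hbK⟩) = 1 := by rw [map_mul, map_inv, hxe, inv_mul_cancel]
    rw [show b = (x : S) * ((x⁻¹ * ⟨b, hbK⟩ : K) : S) from by simp]
    obtain ⟨i, rfl⟩ := hx
    exact Subgroup.mul_mem _ (Subgroup.mem_sup_right ⟨i, rfl⟩) (Subgroup.mem_sup_left ((hQ _).1 h'))
  have hCAB : C ∉ Subgroup.zpowers A ⊔ Subgroup.zpowers B := by
    intro h
    apply h3
    rw [show Subgroup.zpowers A ⊔ Subgroup.zpowers B =
      (Subgroup.zpowers (⟨a, haK⟩ : K) ⊔ Subgroup.zpowers (⟨b, hbK⟩ : K)).map π from by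
        rw [Subgroup.map_sup, MonoidHom.map_zpowers, MonoidHom.map_zpowers]] at h
    obtain ⟨x, hx, hxe⟩ := h
    have h' : π (x⁻¹ * ⟨c, hcK⟩) = 1 := by rw [map_mul, map_inv, hxe, inv_mul_cancel]
    rw [show c = (x : S) * ((x⁻¹ * ⟨c, hcK⟩ : K) : S) from by simp]
    refine Subgroup.mul_mem _ ?_ (Subgroup.mem_sup_left (Subgroup.mem_sup_left ((hQ _).1 h')))
    have hsub : Subgroup.zpowers (⟨a, haK⟩ : K) ⊔ Subgroup.zpowers (⟨b, hbK⟩ : K) ≤
        (Subgroup.zpowers z ⊔ Subgroup.zpowers a ⊔ Subgroup.zpowers b).subgroupOf K :=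
      sup_le (Subgroup.zpowers_le.2 (Subgroup.mem_sup_left (Subgroup.mem_sup_right (Subgroup.mem_zpowers a))))
        (Subgroup.zpowers_le.2 (Subgroup.mem_sup_right (Subgroup.mem_zpowers b)))
    exact hsub hx
  have c1 : 2 * Nat.card (⊥ : Subgroup (K ⧸ Z)) ≤ Nat.card (Subgroup.zpowers A) :=
    two_le_of_lt (bot_lt_iff_ne_bot.2 (Subgroup.zpowers_ne_bot.2 hA1))
  have c2 := two_le_of_lt (lt_of_le_of_ne (le_sup_left : Subgroup.zpowers A ≤ Subgroup.zpowers A ⊔ Subgroup.zpowers B)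
    (fun e => hBA (e.ge (Subgroup.mem_sup_right (Subgroup.mem_zpowers B)))))
  have c3 := two_le_of_lt (lt_of_le_of_ne (le_sup_left : Subgroup.zpowers A ⊔ Subgroup.zpowers B ≤ Subgroup.zpowers A ⊔ Subgroup.zpowers B ⊔ Subgroup.zpowers C)
    (fun e => hCAB (e.ge (Subgroup.mem_sup_right (Subgroup.mem_zpowers C)))))
  have c4 := Subgroup.card_le_of_le (show Subgroup.zpowers A ⊔ Subgroup.zpowers B ⊔ Subgroup.zpowers C ≤ W from
    sup_le (sup_le (Subgroup.zpowers_le.2 (Subgroup.subset_closure (by simp)))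
      (Subgroup.zpowers_le.2 (Subgroup.subset_closure (by simp)))) (Subgroup.zpowers_le.2 (Subgroup.subset_closure (by simp))))
  rw [Subgroup.card_bot] at c1
  have : (2 : ℕ) ^ 2 = 4 := by norm_num
  omega

lemma eq_top_of_pair {S : Type*} [Group S] [Finite S] (hS : IsPGroup 2 S) (hr : Cfsg.SectionalPRankLE 2 2 S)
    (hpair : CfsgLib.NormalCyclic.HasPair S 2) (H : Subgroup S) (a b : S) (ha : a ∈ H) (hb : b ∈ H)
    (ha4 : orderOf a = 4) (hba : b * a * b⁻¹ = a⁻¹) (hbn : b ∉ Subgroup.zpowers a) (hbb : b * b ∈ Subgroup.zpowers (a * a))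
    (hmem : ∀ h ∈ H, h ∈ Subgroup.zpowers a ∨ ∃ i : ℤ, h = b * a ^ i) : H = ⊤ := by
  classical
  obtain ⟨z, e, hz, hz1, hzc, he, hne, hconj⟩ := hpair
  have hcz : ∀ g : S, g * z = z * g := fun g => Subgroup.mem_center_iff.1 hzc g
  have hzz : z * z = 1 := by rw [← pow_two]; exact hz
  have hee : e * e = 1 := by rw [← pow_two]; exact he
  have ha2 : a * a ≠ 1 := by
    intro h
    have h' := orderOf_dvd_of_pow_eq_one (show a ^ 2 = 1 by rw [pow_two, h])
    rw [ha4] at h'
    norm_num at h'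
  have haa : a * a * (a * a) = 1 := by
    rw [← pow_two, ← pow_two, ← pow_mul]
    have := pow_orderOf_eq_one a
    rwa [ha4] at this
  have hzp2 : ∀ i : ℤ, a ^ i = 1 ∨ a ^ i = a ∨ a ^ i = a * a ∨ a ^ i = a⁻¹ := by
    intro i
    have h0 := Int.emod_nonneg i (show (4 : ℤ) ≠ 0 by norm_num)
    have h4 := Int.emod_lt_of_pos i (show (0 : ℤ) < 4 by norm_num)
    rw [show a ^ i = a ^ (i % (4 : ℤ)) from by rw [← zpow_mod_orderOf a i, ha4]; rfl]
    rcases (show i % 4 = 0 ∨ i % 4 = 1 ∨ i % 4 = 2 ∨ i % 4 = 3 by omega) with h | h | h | h <;> rw [h]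
    · left; exact zpow_zero a
    · right; left; exact zpow_one a
    · right; right; left; rw [zpow_ofNat, pow_two]
    · right; right; right
      refine eq_inv_of_mul_eq_one_left ?_
      rw [zpow_ofNat, ← pow_succ]
      have := pow_orderOf_eq_one a
      rwa [ha4] at this
  have haz : a ∉ Subgroup.zpowers (a * a) := by
    intro h
    rcases invol_powers haa h with h' | h'
    · exact ha2 (by rw [h', one_mul])
    · exact ha2 (by have h'' : a = 1 := mul_eq_left.1 h'.symm; rw [h'', one_mul])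
  have hab' : a⁻¹ * (b * a * b⁻¹) ∈ Subgroup.zpowers (a * a) := by
    rw [hba, show a⁻¹ * a⁻¹ = (a * a)⁻¹ from by group]
    exact Subgroup.inv_mem _ (Subgroup.mem_zpowers _)
  have hsupA : Subgroup.zpowers (a * a) ⊔ Subgroup.zpowers a ≤ Subgroup.zpowers a :=
    sup_le (Subgroup.zpowers_le.2 (Subgroup.mul_mem _ (Subgroup.mem_zpowers a) (Subgroup.mem_zpowers a))) le_rfl
  have hsupH : ∀ w ∈ H, Subgroup.zpowers (a * a) ⊔ Subgroup.zpowers a ⊔ Subgroup.zpowers w ≤ H := fun w hw =>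
    sup_le (sup_le (Subgroup.zpowers_le.2 (H.mul_mem ha ha)) (Subgroup.zpowers_le.2 ha)) (Subgroup.zpowers_le.2 hw)
  have hcaa : ∀ {w : S}, w * a * w⁻¹ = a⁻¹ → Commute (a * a) w := by
    intro w hw
    have h1 : w * (a * a) * w⁻¹ = a * a := by
      rw [show w * (a * a) * w⁻¹ = (w * a * w⁻¹) * (w * a * w⁻¹) from by group, hw, ← mul_inv_rev]
      exact inv_eq_of_mul_eq_one_right haa
    exact (mul_inv_eq_iff_eq_mul.1 h1).symm
  have hconst : ∀ g w : S, g * w = w * g → w⁻¹ * (g * w * g⁻¹) ∈ Subgroup.zpowers (a * a) := by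
    intro g w h
    rw [h, mul_inv_cancel_right, inv_mul_cancel]
    exact Subgroup.one_mem _
  have hzH : z ∈ H := by
    by_contra hzn
    exact three_contra hr ((Commute.refl a).mul_left (Commute.refl a)) (hcaa hba) (hcz (a * a))
      (Subgroup.mem_zpowers _) hbb (by rw [hzz]; exact Subgroup.one_mem _) hab'
      (hconst z a (hcz a).symm) (hconst z b (hcz b).symm) haz (fun h => hbn (hsupA h)) (fun h => hzn (hsupH b hb h))
  have hzA : z = a * a := by
    rcases hmem z hzH with ⟨i, hi⟩ | ⟨i, hi⟩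
    · rcases hzp2 i with h | h | h | h <;> have h' : z = _ := hi.symm.trans h
      · exact absurd h' hz1
      · rw [h'] at hzz; exact absurd hzz ha2
      · exact h'
      · rw [h', ← mul_inv_rev, inv_eq_one] at hzz; exact absurd hzz ha2
    · exfalso
      have h1 : b * a * b⁻¹ = a := by
        have h2 : Commute z a := (hcz a).symm
        rw [hi] at h2
        have h3 : Commute (b * a ^ i * (a ^ i)⁻¹) a := h2.mul_left ((Commute.refl a).zpow_left i).inv_left
        rw [mul_inv_cancel_right] at h3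
        rw [h3.eq, mul_inv_cancel_right]
      rw [hba, inv_eq_iff_mul_eq_one] at h1
      exact ha2 h1
  subst hzA
  by_cases heH : e ∈ H
  swap
  · exfalso
    have hsw : ∀ g : S, g⁻¹ * (e * g * e⁻¹) ∈ Subgroup.zpowers (a * a) := by
      intro g
      obtain ⟨k, hk⟩ := hconj g⁻¹
      have hk' : (a * a) ^ k = e⁻¹ * (g⁻¹ * e * g⁻¹⁻¹) := hk
      rw [show g⁻¹ * (e * g * e⁻¹) = e * (e⁻¹ * (g⁻¹ * e * g⁻¹⁻¹)) * e⁻¹ from by group, ← hk',
        ((show Commute e (a * a) from hcz e).zpow_right k).eq, mul_inv_cancel_right]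
      exact Subgroup.zpow_mem _ (Subgroup.mem_zpowers _) k
    exact three_contra hr (hcz a).symm (hcz b).symm (hcz e).symm
      (Subgroup.mem_zpowers _) hbb (by rw [hee]; exact Subgroup.one_mem _) hab'
      (hsw a) (hsw b) haz (fun h => hbn (hsupA h)) (fun h => heH (hsupH b hb h))
  -- e inverts a
  have hen : e ∉ Subgroup.zpowers a := by
    rintro ⟨i, hi⟩
    rcases hzp2 i with h | h | h | h <;> have h' : e = _ := hi.symm.trans h
    · exact hne (h' ▸ Subgroup.one_mem _)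
    · rw [h'] at hee; exact ha2 hee
    · exact hne (h' ▸ Subgroup.mem_zpowers _)
    · rw [h', ← mul_inv_rev, inv_eq_one] at hee; exact ha2 hee
  obtain ⟨i0, hi0⟩ := (hmem e heH).resolve_left hen
  have hea : e * a * e⁻¹ = a⁻¹ := by
    rw [hi0, show b * a ^ i0 * a * (b * a ^ i0)⁻¹ = b * (a ^ i0 * a * (a ^ i0)⁻¹) * b⁻¹ from by group,
      ((Commute.refl a).zpow_left i0).eq, mul_inv_cancel_right, hba]
  have hmem' : ∀ h ∈ H, h ∈ Subgroup.zpowers a ∨ ∃ i : ℤ, h = e * a ^ i := by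
    intro h hh
    rcases hmem h hh with h1 | ⟨i, rfl⟩
    · exact Or.inl h1
    · refine Or.inr ⟨-i0 + i, ?_⟩
      rw [hi0, mul_assoc, ← zpow_add]
      congr 2
      ring
  by_contra hH
  obtain ⟨c, hcN, hc2, hcH⟩ : ∃ c, c ∈ Subgroup.normalizer (H : Set S) ∧ c * c ∈ H ∧ c ∉ H := by
    haveI := hS.isNilpotent
    obtain ⟨c, hcN, hcH⟩ := SetLike.exists_of_lt (Group.normalizerCondition_of_isNilpotent H (lt_top_iff_ne_top.2 hH))
    obtain ⟨k, hk⟩ := hS c
    have hex : ∃ i, c ^ 2 ^ i ∈ H := ⟨k, by rw [hk]; exact H.one_mem⟩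
    obtain ⟨i, hi⟩ : ∃ i, Nat.find hex = i + 1 := Nat.exists_eq_succ_of_ne_zero (fun e' => hcH (by
      have := Nat.find_spec hex; rwa [e', pow_zero, pow_one] at this))
    refine ⟨c ^ 2 ^ i, Subgroup.pow_mem _ hcN _, ?_, Nat.find_min hex (by omega)⟩
    rw [← pow_two, ← pow_mul, ← pow_succ, ← hi]; exact Nat.find_spec hex
  have hadj : ∀ {c : S}, c ∈ Subgroup.normalizer (H : Set S) → c * c ∈ H → c ∉ H → ∀ f ∈ H,
      f * c ∈ Subgroup.normalizer (H : Set S) ∧ f * c * (f * c) ∈ H ∧ f * c ∉ H := by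
    intro c hcN hc2 hcH f hf
    refine ⟨Subgroup.mul_mem _ (Subgroup.le_normalizer hf) hcN, ?_, fun h => hcH ((H.mul_mem_cancel_left hf).1 h)⟩
    rw [show f * c * (f * c) = f * (c * f * c⁻¹) * (c * c) from by group]
    exact H.mul_mem (H.mul_mem hf ((Subgroup.mem_normalizer_iff.1 hcN f).1 hf)) hc2
  have hae : a * e * a⁻¹ = e * (a * a)⁻¹ := by
    calc a * e * a⁻¹ = e * (e⁻¹ * a * e) * a⁻¹ := by group
      _ = e * (e * a * e⁻¹) * a⁻¹ := by rw [show e⁻¹ = e from inv_eq_of_mul_eq_one_right hee]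
      _ = e * (a * a)⁻¹ := by rw [hea]; group
  obtain ⟨c1, hc1N, hc12, hc1H, hc1e⟩ : ∃ c1, c1 ∈ Subgroup.normalizer (H : Set S) ∧ c1 * c1 ∈ H ∧ c1 ∉ H ∧ c1 * e * c1⁻¹ = e := by
    rcases invol_powers haa (hconj c) with h | h
    · exact ⟨c, hcN, hc2, hcH, (inv_mul_eq_one.1 h).symm⟩
    · obtain ⟨h1, h2, h3⟩ := hadj hcN hc2 hcH a ha
      refine ⟨a * c, h1, h2, h3, ?_⟩
      rw [inv_mul_eq_iff_eq_mul] at h
      rw [show a * c * e * (a * c)⁻¹ = a * (c * e * c⁻¹) * a⁻¹ from by group, h,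
        show a * (e * (a * a)) * a⁻¹ = (a * e * a⁻¹) * (a * a) from by group, hae]
      group
  obtain ⟨c2, hc2N, hc22, hc2H, hc2e, hc2a⟩ : ∃ c2, c2 ∈ Subgroup.normalizer (H : Set S) ∧ c2 * c2 ∈ H ∧ c2 ∉ H ∧
      c2 * e * c2⁻¹ = e ∧ c2 * a * c2⁻¹ = a := by
    have hca : c1 * a * c1⁻¹ ∈ H := (Subgroup.mem_normalizer_iff.1 hc1N a).1 ha
    rcases hmem' _ hca with ⟨i, hi⟩ | ⟨i, hi⟩
    · rcases hzp2 i with h | h | h | h <;> have h' : c1 * a * c1⁻¹ = _ := hi.symm.trans h
      · exfalso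
        rw [conj_eq_one_iff] at h'
        exact ha2 (by rw [h', one_mul])
      · exact ⟨c1, hc1N, hc12, hc1H, hc1e, h'⟩
      · exfalso
        have h2 : c1 * (a * a) * c1⁻¹ = 1 := by
          rw [show c1 * (a * a) * c1⁻¹ = (c1 * a * c1⁻¹) * (c1 * a * c1⁻¹) from by group, h', haa]
        exact ha2 (conj_eq_one_iff.1 h2)
      · obtain ⟨h1, h2, h3⟩ := hadj hc1N hc12 hc1H e heH
        refine ⟨e * c1, h1, h2, h3, ?_, ?_⟩
        · rw [show e * c1 * e * (e * c1)⁻¹ = e * (c1 * e * c1⁻¹) * e⁻¹ from by group, hc1e, mul_inv_cancel_right]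
        · rw [show e * c1 * a * (e * c1)⁻¹ = e * (c1 * a * c1⁻¹) * e⁻¹ from by group, h',
            show e * a⁻¹ * e⁻¹ = (e * a * e⁻¹)⁻¹ from by group, hea, inv_inv]
    · exfalso
      have h2 : (e * a ^ i) * (e * a ^ i) = 1 := by
        calc e * a ^ i * (e * a ^ i) = (e * a ^ i * e⁻¹) * (e * e) * a ^ i := by group
          _ = 1 := by rw [← conj_zpow, hea, hee, mul_one, inv_zpow, inv_mul_cancel]
      rw [← hi, show c1 * a * c1⁻¹ * (c1 * a * c1⁻¹) = c1 * (a * a) * c1⁻¹ from by group, conj_eq_one_iff] at h2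
      exact ha2 h2
  have hca : Commute c2 a := mul_inv_eq_iff_eq_mul.1 hc2a
  have hce : Commute c2 e := mul_inv_eq_iff_eq_mul.1 hc2e
  have hc2z : c2 * c2 ∈ Subgroup.zpowers (a * a) := by
    rcases hmem' _ hc22 with ⟨i, hi⟩ | ⟨i, hi⟩
    · rcases hzp2 i with h | h | h | h <;> have h' : c2 * c2 = _ := hi.symm.trans h
      · exact h' ▸ Subgroup.one_mem _
      · exfalso
        have h4 : Commute e a := h' ▸ (hce.symm.mul_right hce.symm)
        rw [h4.eq, mul_inv_cancel_right, eq_comm, inv_eq_iff_mul_eq_one] at hea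
        exact ha2 hea
      · exact h' ▸ Subgroup.mem_zpowers _
      · exfalso
        have h4 : Commute e a := by
          have h5 : Commute e a⁻¹ := h' ▸ (hce.symm.mul_right hce.symm)
          exact Commute.inv_right_iff.1 h5
        rw [h4.eq, mul_inv_cancel_right, eq_comm, inv_eq_iff_mul_eq_one] at hea
        exact ha2 hea
    · exfalso
      have h4 : Commute (c2 * c2) a := hca.mul_left hca
      rw [hi] at h4
      have h5 : Commute (e * a ^ i * (a ^ i)⁻¹) a := h4.mul_left ((Commute.refl a).zpow_left i).inv_left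
      rw [mul_inv_cancel_right] at h5
      rw [h5.eq, mul_inv_cancel_right, eq_comm, inv_eq_iff_mul_eq_one] at hea
      exact ha2 hea
  exact three_contra hr (hcz a).symm (hcz e).symm (hcz c2).symm
    (Subgroup.mem_zpowers _) (by rw [hee]; exact Subgroup.one_mem _) hc2z
    (by rw [hea, show a⁻¹ * a⁻¹ = (a * a)⁻¹ from by group]; exact Subgroup.inv_mem _ (Subgroup.mem_zpowers _))
    (hconst c2 a hca.eq) (hconst c2 e hce.eq) haz (fun h => hen (hsupA h)) (fun h => hc2H (hsupH e heH h))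

/-- Let S be a finite 2-group of sectional 2-rank at most 2 that contains a subgroup isomorphic to the dihedral group of order 8 or to the quaternion group of order 8. Then S is dihedral of order at least 8, semidihedral of order at least 16 (order 2^(k+4) with an element a of order 2^(k+3) and an involution b with b a b⁻¹ = a^(2^(k+2)−1)), or generalized quaternion of order at least 8. -/
theorem result {S : Type*} [Group S] [Finite S] (h2 : IsPGroup 2 S) (hr : Cfsg.SectionalPRankLE 2 2 S)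
    (hsub : ∃ H : Subgroup S, Nonempty (↥H ≃* DihedralGroup 4) ∨ Nonempty (↥H ≃* QuaternionGroup 2)) :
    ((∃ k : ℕ, Nonempty (S ≃* DihedralGroup (2 ^ (k + 2)))) ∨
      (∃ k : ℕ, Nat.card S = 2 ^ (k + 4) ∧ ∃ a b : S, orderOf a = 2 ^ (k + 3) ∧ orderOf b = 2 ∧ b * a * b⁻¹ = a ^ (2 ^ (k + 2) - 1)) ∨
      (∃ k : ℕ, Nonempty (S ≃* QuaternionGroup (2 ^ (k + 1))))) := by
  classical
  haveI : Fact (Nat.Prime 2) := ⟨Nat.prime_two⟩
  obtain ⟨m, hm⟩ := IsPGroup.iff_card.1 h2
  obtain ⟨H, hH⟩ := hsub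
  have hdata : Nat.card H = 8 ∧ ∃ a b : S, a ∈ H ∧ b ∈ H ∧ orderOf a = 4 ∧ b * a * b⁻¹ = a⁻¹ ∧ b ∉ Subgroup.zpowers a ∧
      b * b ∈ Subgroup.zpowers (a * a) ∧ ∀ h ∈ H, h ∈ Subgroup.zpowers a ∨ ∃ i : ℤ, h = b * a ^ i := by
    rcases hH with ⟨⟨e⟩⟩ | ⟨⟨e⟩⟩
    · refine ⟨by rw [Nat.card_congr e.toEquiv, DihedralGroup.nat_card],
        e.symm (DihedralGroup.r 1), e.symm (DihedralGroup.sr 0), Subtype.coe_prop _, Subtype.coe_prop _, ?_, ?_, ?_, ?_, ?_⟩
      · rw [Subgroup.orderOf_coe, MulEquiv.orderOf_eq, DihedralGroup.orderOf_r_one]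
      · exact congrArg Subtype.val (e.injective (a₁ := e.symm (DihedralGroup.sr 0) * e.symm (DihedralGroup.r 1) * (e.symm (DihedralGroup.sr 0))⁻¹)
          (a₂ := (e.symm (DihedralGroup.r 1))⁻¹) (by simp <;> decide))
      · rintro ⟨i, hi⟩
        have h' : (e.symm (DihedralGroup.r (1 : ZMod 4))) ^ i = e.symm (DihedralGroup.sr 0) := Subtype.ext (by simpa using hi)
        have h'' := congrArg e h'
        simp [DihedralGroup.r_one_zpow] at h''
      · have h' : e.symm (DihedralGroup.sr (0 : ZMod 4)) * e.symm (DihedralGroup.sr 0) = 1 := by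
          rw [← map_mul, DihedralGroup.sr_mul_self, map_one]
        have h'' := congrArg Subtype.val h'
        rw [Subgroup.coe_mul, Subgroup.coe_one] at h''
        rw [h'']; exact Subgroup.one_mem _
      · intro h hh
        rcases hx : e ⟨h, hh⟩ with i | i
        · left
          refine ⟨(i.val : ℤ), ?_⟩
          have h' : ⟨h, hh⟩ = (e.symm (DihedralGroup.r (1 : ZMod 4))) ^ i.val := by
            rw [← map_pow, DihedralGroup.r_one_pow, ZMod.natCast_val, ZMod.cast_id, ← hx, MulEquiv.symm_apply_apply]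
          have h'' := congrArg Subtype.val h'
          simp only [SubmonoidClass.coe_pow] at h''
          show _ ^ (i.val : ℤ) = h
          rw [zpow_natCast]; exact h''.symm
        · right
          refine ⟨(i.val : ℤ), ?_⟩
          have h' : ⟨h, hh⟩ = e.symm (DihedralGroup.sr (0 : ZMod 4)) * (e.symm (DihedralGroup.r (1 : ZMod 4))) ^ i.val := by
            rw [← map_pow, ← map_mul, DihedralGroup.r_one_pow, DihedralGroup.sr_mul_r, zero_add, ZMod.natCast_val, ZMod.cast_id, ← hx, MulEquiv.symm_apply_apply]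
          have h'' := congrArg Subtype.val h'
          simp only [Subgroup.coe_mul, SubmonoidClass.coe_pow] at h''
          rw [zpow_natCast]; exact h''
    · refine ⟨by rw [Nat.card_congr e.toEquiv, Nat.card_eq_fintype_card, QuaternionGroup.card],
        e.symm (QuaternionGroup.a 1), e.symm (QuaternionGroup.xa 0), Subtype.coe_prop _, Subtype.coe_prop _, ?_, ?_, ?_, ?_, ?_⟩
      · rw [Subgroup.orderOf_coe, MulEquiv.orderOf_eq, QuaternionGroup.orderOf_a_one]
      · exact congrArg Subtype.val (e.injective (a₁ := e.symm (QuaternionGroup.xa 0) * e.symm (QuaternionGroup.a 1) * (e.symm (QuaternionGroup.xa 0))⁻¹)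
          (a₂ := (e.symm (QuaternionGroup.a 1))⁻¹) (by simp; decide))
      · rintro ⟨i, hi⟩
        have h' : (e.symm (QuaternionGroup.a (1 : ZMod (2 * 2)))) ^ i = e.symm (QuaternionGroup.xa 0) := Subtype.ext (by simpa using hi)
        obtain ⟨j, hj⟩ := Int.eq_ofNat_of_zero_le (Int.emod_nonneg i (show (4 : ℤ) ≠ 0 by norm_num))
        rw [← zpow_mod_orderOf, MulEquiv.orderOf_eq, QuaternionGroup.orderOf_a_one,
          show i % ((2 * 2 : ℕ) : ℤ) = (j : ℤ) from hj, zpow_natCast, ← map_pow, QuaternionGroup.a_one_pow] at h'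
        exact absurd (e.symm.injective h') (by simp)
      · have h' : e.symm (QuaternionGroup.xa (0 : ZMod (2 * 2))) * e.symm (QuaternionGroup.xa 0) =
            e.symm (QuaternionGroup.a 1) * e.symm (QuaternionGroup.a 1) := by
          rw [← map_mul, ← map_mul, QuaternionGroup.xa_mul_xa, QuaternionGroup.a_mul_a]
          congr 1
        have h'' := congrArg Subtype.val h'
        simp only [Subgroup.coe_mul] at h''
        rw [h'']; exact Subgroup.mem_zpowers _
      · intro h hh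
        rcases hx : e ⟨h, hh⟩ with i | i
        · left
          refine ⟨(i.val : ℤ), ?_⟩
          have h' : ⟨h, hh⟩ = (e.symm (QuaternionGroup.a (1 : ZMod (2 * 2)))) ^ i.val := by
            rw [← map_pow, QuaternionGroup.a_one_pow, ZMod.natCast_val, ZMod.cast_id, ← hx, MulEquiv.symm_apply_apply]
          have h'' := congrArg Subtype.val h'
          simp only [SubmonoidClass.coe_pow] at h''
          show _ ^ (i.val : ℤ) = h
          rw [zpow_natCast]; exact h''.symm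
        · right
          refine ⟨(i.val : ℤ), ?_⟩
          have h' : ⟨h, hh⟩ = e.symm (QuaternionGroup.xa (0 : ZMod (2 * 2))) * (e.symm (QuaternionGroup.a (1 : ZMod (2 * 2)))) ^ i.val := by
            rw [← map_pow, ← map_mul, QuaternionGroup.a_one_pow, QuaternionGroup.xa_mul_a, zero_add, ZMod.natCast_val, ZMod.cast_id, ← hx, MulEquiv.symm_apply_apply]
          have h'' := congrArg Subtype.val h'
          simp only [Subgroup.coe_mul, SubmonoidClass.coe_pow] at h''
          rw [zpow_natCast]; exact h''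
  obtain ⟨hH8, a, b, ha, hb, ha4, hba, hbn, hbb, hmem⟩ := hdata
  have hm3 : 3 ≤ m := by
    have := Nat.le_of_dvd (pow_pos two_pos m) (hm ▸ hH8 ▸ H.card_subgroup_dvd_card)
    by_contra hc
    interval_cases m <;> omega
  by_cases hpair : CfsgLib.NormalCyclic.HasPair S 2
  · have htop := eq_top_of_pair h2 hr hpair H a b ha hb ha4 hba hbn hbb hmem
    subst htop
    rcases hH with ⟨⟨e⟩⟩ | ⟨⟨e⟩⟩
    · exact Or.inl ⟨0, ⟨Subgroup.topEquiv.symm.trans e⟩⟩
    · exact Or.inr (Or.inr ⟨0, ⟨Subgroup.topEquiv.symm.trans e⟩⟩)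
  rcases CfsgLib.NormalCyclic.structure_of_no_pair h2 hpair with h | ⟨-, ⟨n, ⟨e⟩⟩ | ⟨n, hn, ⟨e⟩⟩ | ⟨n, hn, hc, x, y, hx, hy, hxy⟩⟩
  · exfalso
    haveI := h
    letI := IsCyclic.commGroup (α := S)
    rw [mul_comm b a, mul_inv_cancel_right, eq_inv_iff_mul_eq_one] at hba
    have h' := orderOf_dvd_of_pow_eq_one (show a ^ 2 = 1 by rw [pow_two, hba])
    rw [ha4] at h'
    norm_num at h'
  · rcases Nat.eq_zero_or_pos n with rfl | hn0
    · exfalso
      haveI : Finite (QuaternionGroup 0) := Finite.of_equiv S e.toEquiv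
      have : Finite (ZMod (2 * 0)) := Finite.of_injective QuaternionGroup.a (fun i j h => by cases h; rfl)
      haveI : Finite ℤ := this
      exact not_finite ℤ
    haveI : NeZero n := ⟨hn0.ne'⟩
    rw [Nat.card_congr e.toEquiv, Nat.card_eq_fintype_card, QuaternionGroup.card] at hm
    obtain ⟨k, rfl⟩ : ∃ k, m = k + 3 := ⟨m - 3, by omega⟩
    obtain rfl : n = 2 ^ (k + 1) := by rw [pow_add] at hm ⊢; omega
    exact Or.inr (Or.inr ⟨k, ⟨e⟩⟩)
  · haveI : NeZero n := ⟨by omega⟩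
    rw [Nat.card_congr e.toEquiv, DihedralGroup.nat_card] at hm
    obtain ⟨k, rfl⟩ : ∃ k, m = k + 3 := ⟨m - 3, by omega⟩
    obtain rfl : n = 2 ^ (k + 2) := by rw [pow_add] at hm ⊢; omega
    exact Or.inl ⟨k, ⟨e⟩⟩
  · obtain ⟨k, rfl⟩ : ∃ k, n = k + 3 := ⟨n - 3, by omega⟩
    exact Or.inr (Or.inl ⟨k, hc, x, y, hx, hy, hxy⟩)

end Cfsg.Agent.S4398
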