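import Cfsg.Statements.S4406
import Mathlib

set_option autoImplicit false
open Cfsg
set_option synthInstance.maxSize 20000
set_option synthInstance.maxHeartbeats 400000
set_option maxHeartbeats 1000000

namespace Cfsg.Agent.S4406

/-- In the direct product P = A₄ × A₄, let X be the Sylow 2-subgroup, X₁ and X₂ its intersections with the two direct factors, Q a Sylow 3-subgroup and Q₁, Q₂ its intersections with the two factors. Then every subgroup B of X of order 4 either meets X₁ or X₂ nontrivially, or is normalized by one of the two subgroups of Q of order 3 other than Q₁ and Q₂. -/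
theorem result
    (X : Sylow 2 (↥(alternatingGroup (Fin 4)) × ↥(alternatingGroup (Fin 4))))
    (Q : Sylow 3 (↥(alternatingGroup (Fin 4)) × ↥(alternatingGroup (Fin 4))))
    (B : Subgroup (↥(alternatingGroup (Fin 4)) × ↥(alternatingGroup (Fin 4)))) (hBX : B ≤ (X : Subgroup _)) (hB4 : Nat.card ↥B = 4) :
    B ⊓ ((X : Subgroup _) ⊓ Subgroup.prod ⊤ ⊥) ≠ ⊥ ∨ B ⊓ ((X : Subgroup _) ⊓ Subgroup.prod ⊥ ⊤) ≠ ⊥ ∨
      ∃ R : Subgroup (↥(alternatingGroup (Fin 4)) × ↥(alternatingGroup (Fin 4))), R ≤ (Q : Subgroup _) ∧ Nat.card ↥R = 3 ∧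
        R ≠ (Q : Subgroup _) ⊓ Subgroup.prod ⊤ ⊥ ∧ R ≠ (Q : Subgroup _) ⊓ Subgroup.prod ⊥ ⊤ ∧ R ≤ Subgroup.normalizer (B : Set _) := by
  haveI : Fact (Nat.Prime 2) := ⟨Nat.prime_two⟩
  haveI : Fact (Nat.Prime 3) := ⟨Nat.prime_three⟩
  by_contra hcon
  push Not at hcon
  obtain ⟨hB1, hB2, hR⟩ := hcon
  have hA : Nat.card ↥(alternatingGroup (Fin 4)) = 12 := by
    rw [Nat.card_eq_fintype_card]; decide +kernel
  have hG : Nat.card (↥(alternatingGroup (Fin 4)) × ↥(alternatingGroup (Fin 4))) = 144 := by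
    rw [Nat.card_prod, hA]
  have hsq : ∀ a : ↥(alternatingGroup (Fin 4)), a ^ 4 = 1 → a * a = 1 := by decide +kernel
  have hel : ∀ x ∈ B, x ≠ 1 → x.1 ≠ 1 ∧ x.2 ≠ 1 ∧ x.1 * x.1 = 1 ∧ x.2 * x.2 = 1 := by
    intro x hx hne
    have h4 : x ^ 4 = 1 := by
      have := orderOf_dvd_iff_pow_eq_one.mp (Subgroup.orderOf_dvd_natCard B hx)
      rwa [hB4] at this
    refine ⟨fun e => hne ?_, fun e => hne ?_, hsq _ (congrArg Prod.fst h4), hsq _ (congrArg Prod.snd h4)⟩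
    · have : x ∈ B ⊓ ((X : Subgroup _) ⊓ Subgroup.prod ⊥ ⊤) :=
        ⟨hx, hBX hx, Subgroup.mem_bot.mpr e, Subgroup.mem_top _⟩
      rwa [hB2, Subgroup.mem_bot] at this
    · have : x ∈ B ⊓ ((X : Subgroup _) ⊓ Subgroup.prod ⊤ ⊥) :=
        ⟨hx, hBX hx, Subgroup.mem_top _, Subgroup.mem_bot.mpr e⟩
      rwa [hB1, Subgroup.mem_bot] at this
  obtain ⟨x, hx, hx1⟩ : ∃ x ∈ B, x ≠ 1 := B.bot_or_exists_ne_one.resolve_left (fun e => by
    rw [e, Subgroup.card_bot] at hB4; omega)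
  obtain ⟨y, hy, hy1, hyx⟩ : ∃ y ∈ B, y ≠ 1 ∧ y ≠ x := by
    by_contra hall
    push Not at hall
    haveI := Fintype.ofFinite B
    have hsub : (Finset.univ : Finset B) ⊆ {1, ⟨x, hx⟩} := fun v _ => by
      by_cases hv : v = 1
      · simp [hv]
      · simp [Subtype.ext_iff, hall v v.2 (fun e => hv (Subtype.ext e))]
    have := (Finset.card_le_card hsub).trans Finset.card_le_two
    rw [Finset.card_univ, ← Nat.card_eq_fintype_card, hB4] at this
    omega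
  obtain ⟨hx₁, hx₂, hx₁', hx₂'⟩ := hel x hx hx1
  obtain ⟨hy₁, hy₂, hy₁', hy₂'⟩ := hel y hy hy1
  have hxx : x * x = 1 := Prod.ext hx₁' hx₂'
  have hd : x.1 ≠ y.1 ∧ x.2 ≠ y.2 := by
    have hm := mul_mem hx hy
    have hne : x * y ≠ 1 := fun e => hyx (mul_left_cancel (e.trans hxx.symm))
    obtain ⟨a1, a2, -, -⟩ := hel _ hm hne
    exact ⟨fun e => a1 (by rw [Prod.fst_mul, e, hy₁']), fun e => a2 (by rw [Prod.snd_mul, e, hy₂'])⟩
  have hQ : Nat.card Q = 9 := by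
    rw [Q.card_eq_multiplicity, hG]
    have : (144 : ℕ).factorization 3 = 2 := by
      rw [show (144 : ℕ) = 2 ^ 4 * 3 ^ 2 from rfl, Nat.factorization_mul (by norm_num) (by norm_num),
        Finsupp.add_apply, Nat.prime_two.factorization_pow, Nat.prime_three.factorization_pow,
        Finsupp.single_eq_of_ne (by norm_num), Finsupp.single_eq_same]
    rw [this]
    norm_num
  set Q₁ := (Q : Subgroup _).map (MonoidHom.fst ↥(alternatingGroup (Fin 4)) ↥(alternatingGroup (Fin 4))) with hQ₁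
  set Q₂ := (Q : Subgroup _).map (MonoidHom.snd ↥(alternatingGroup (Fin 4)) ↥(alternatingGroup (Fin 4))) with hQ₂
  have hprod : Q₁.prod Q₂ = (Q : Subgroup _) := by
    refine Q.3 ?_ (fun q hq => ⟨⟨q, hq, rfl⟩, ⟨q, hq, rfl⟩⟩)
    obtain ⟨i, hi⟩ := IsPGroup.iff_card.mp (Q.2.map (MonoidHom.fst ↥(alternatingGroup (Fin 4)) ↥(alternatingGroup (Fin 4))))
    obtain ⟨j, hj⟩ := IsPGroup.iff_card.mp (Q.2.map (MonoidHom.snd ↥(alternatingGroup (Fin 4)) ↥(alternatingGroup (Fin 4))))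
    refine IsPGroup.of_card (n := i + j) ?_
    rw [Nat.card_congr (Subgroup.prodEquiv Q₁ Q₂).toEquiv, Nat.card_prod, hi, hj, pow_add]
  have hc : Nat.card Q₁ * Nat.card Q₂ = 9 := by
    rw [← Nat.card_prod, ← Nat.card_congr (Subgroup.prodEquiv Q₁ Q₂).toEquiv, hprod, hQ]
  have d1 : Nat.card Q₁ ∣ 12 := hA ▸ Subgroup.card_subgroup_dvd_card Q₁
  have d2 : Nat.card Q₂ ∣ 12 := hA ▸ Subgroup.card_subgroup_dvd_card Q₂
  have key : ∀ i ∈ Nat.divisors 12, ∀ j ∈ Nat.divisors 12, i * j = 9 → i = 3 ∧ j = 3 := by decide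
  obtain ⟨c1, c2⟩ := key _ (Nat.mem_divisors.mpr ⟨d1, by norm_num⟩) _ (Nat.mem_divisors.mpr ⟨d2, by norm_num⟩) hc
  obtain ⟨a, ha⟩ := exists_prime_orderOf_dvd_card' (G := Q₁) 3 (by rw [c1])
  obtain ⟨b, hb⟩ := exists_prime_orderOf_dvd_card' (G := Q₂) 3 (by rw [c2])
  rw [← Subgroup.orderOf_coe] at ha hb
  have P3 : ∀ u : ↥(alternatingGroup (Fin 4)), orderOf u = 3 → u ≠ 1 ∧ u * u * u = 1 := fun u hu =>
    ⟨fun e => by rw [e, orderOf_one] at hu; omega,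
      by rw [← pow_three', ← hu]; exact pow_orderOf_eq_one u⟩
  have dec : ∀ a : ↥(alternatingGroup (Fin 4)), a ≠ 1 ∧ a * a * a = 1 →
      ∀ b : ↥(alternatingGroup (Fin 4)), b ≠ 1 ∧ b * b * b = 1 →
      ∀ x1 : ↥(alternatingGroup (Fin 4)), x1 ≠ 1 ∧ x1 * x1 = 1 →
      ∀ x2 : ↥(alternatingGroup (Fin 4)), x2 ≠ 1 ∧ x2 * x2 = 1 →
      ∀ y1 : ↥(alternatingGroup (Fin 4)), y1 ≠ 1 ∧ y1 * y1 = 1 ∧ x1 ≠ y1 →
      ∀ y2 : ↥(alternatingGroup (Fin 4)), y2 ≠ 1 ∧ y2 * y2 = 1 ∧ x2 ≠ y2 →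
      (((a * x1 * a⁻¹, b * x2 * b⁻¹) = (x1, x2) ∨ (a * x1 * a⁻¹, b * x2 * b⁻¹) = (y1, y2) ∨
          (a * x1 * a⁻¹, b * x2 * b⁻¹) = (x1 * y1, x2 * y2)) ∧
        ((a * y1 * a⁻¹, b * y2 * b⁻¹) = (x1, x2) ∨ (a * y1 * a⁻¹, b * y2 * b⁻¹) = (y1, y2) ∨
          (a * y1 * a⁻¹, b * y2 * b⁻¹) = (x1 * y1, x2 * y2))) ∨
      (((a * x1 * a⁻¹, b * b * x2 * (b * b)⁻¹) = (x1, x2) ∨ (a * x1 * a⁻¹, b * b * x2 * (b * b)⁻¹) = (y1, y2) ∨
          (a * x1 * a⁻¹, b * b * x2 * (b * b)⁻¹) = (x1 * y1, x2 * y2)) ∧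
        ((a * y1 * a⁻¹, b * b * y2 * (b * b)⁻¹) = (x1, x2) ∨ (a * y1 * a⁻¹, b * b * y2 * (b * b)⁻¹) = (y1, y2) ∨
          (a * y1 * a⁻¹, b * b * y2 * (b * b)⁻¹) = (x1 * y1, x2 * y2))) := by decide +kernel
  have finish : ∀ c : ↥(alternatingGroup (Fin 4)), c ∈ Q₂ → orderOf c = 3 →
      (((a : ↥(alternatingGroup (Fin 4))), c) * x * ((a : ↥(alternatingGroup (Fin 4))), c)⁻¹ ∈ B) →
      (((a : ↥(alternatingGroup (Fin 4))), c) * y * ((a : ↥(alternatingGroup (Fin 4))), c)⁻¹ ∈ B) → False := by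
    intro c hc2 hc3 hrx hry
    set r : ↥(alternatingGroup (Fin 4)) × ↥(alternatingGroup (Fin 4)) := ((a : ↥(alternatingGroup (Fin 4))), c)
    have hr3 : orderOf r = 3 := by rw [Prod.orderOf_mk, ha, hc3]; rfl
    refine hR (Subgroup.zpowers r) (Subgroup.zpowers_le.mpr (hprod ▸ ⟨a.2, hc2⟩))
      (by rw [Nat.card_zpowers, hr3]) ?_ ?_ ?_
    · intro e
      have : r ∈ (Q : Subgroup _) ⊓ Subgroup.prod ⊤ ⊥ := e ▸ Subgroup.mem_zpowers r
      exact (P3 c hc3).1 (Subgroup.mem_bot.mp this.2.2)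
    · intro e
      have : r ∈ (Q : Subgroup _) ⊓ Subgroup.prod ⊥ ⊤ := e ▸ Subgroup.mem_zpowers r
      exact (P3 _ ha).1 (Subgroup.mem_bot.mp this.2.1)
    · rw [Subgroup.zpowers_le, Subgroup.mem_normalizer_iff_map_conj_eq]
      refine Subgroup.eq_of_le_of_card_ge ?_ (le_of_eq (Nat.card_congr
        (B.equivMapOfInjective _ (MulAut.conj r).injective).toEquiv))
      have hBgen : B ≤ (B.comap (MulAut.conj r).toMonoidHom) := by
        intro v hv
        by_cases h1 : v = 1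
        · subst h1; exact one_mem _
        by_cases h2 : v = x
        · subst h2; exact hrx
        by_cases h3 : v = y
        · subst h3; exact hry
        have h4 : v = x * y := by
          haveI := Fintype.ofFinite B
          by_contra h4
          have hxy1 : x * y ≠ 1 := fun e => hyx (mul_left_cancel (e.trans hxx.symm))
          have hxyx : x * y ≠ x := fun e => hy1 (by simpa using e)
          have hxyy : x * y ≠ y := fun e => hx1 (by simpa using e)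
          have h5 : ({1, ⟨x, hx⟩, ⟨y, hy⟩, ⟨x * y, mul_mem hx hy⟩, ⟨v, hv⟩} : Finset B).card ≤ 4 :=
            le_of_le_of_eq (Finset.card_le_univ _) (Nat.card_eq_fintype_card.symm.trans hB4)
          rw [Finset.card_insert_of_notMem (by simp [Subtype.ext_iff, Ne.symm hx1, Ne.symm hy1, Ne.symm hxy1, Ne.symm h1]),
            Finset.card_insert_of_notMem (by simp [Subtype.ext_iff, Ne.symm hyx, Ne.symm hxyx, Ne.symm h2]),
            Finset.card_insert_of_notMem (by simp [Subtype.ext_iff, Ne.symm hxyy, Ne.symm h3]),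
            Finset.card_pair (by simp [Subtype.ext_iff, Ne.symm h4])] at h5
          omega
        subst h4
        show MulAut.conj r (x * y) ∈ B
        rw [map_mul]
        exact mul_mem hrx hry
      exact Subgroup.map_le_iff_le_comap.mpr hBgen
  have mem3 : ∀ v : ↥(alternatingGroup (Fin 4)) × ↥(alternatingGroup (Fin 4)),
      v = (x.1, x.2) ∨ v = (y.1, y.2) ∨ v = (x.1 * y.1, x.2 * y.2) → v ∈ B := by
    rintro v (rfl | rfl | rfl)
    · exact hx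
    · exact hy
    · exact mul_mem hx hy
  rcases dec _ (P3 _ ha) _ (P3 _ hb) _ ⟨hx₁, hx₁'⟩ _ ⟨hx₂, hx₂'⟩ _ ⟨hy₁, hy₁', hd.1⟩ _ ⟨hy₂, hy₂', hd.2⟩ with h | h
  · exact finish b b.2 hb (mem3 _ h.1) (mem3 _ h.2)
  · refine finish (b * b) (mul_mem b.2 b.2) ?_ (mem3 _ h.1) (mem3 _ h.2)
    refine orderOf_eq_prime ?_ ?_
    · rw [pow_three]
      calc (b : ↥(alternatingGroup (Fin 4))) * b * (b * b * (b * b)) = (b * b * b) * (b * b * b) := by simp only [mul_assoc]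
        _ = 1 := by rw [(P3 _ hb).2, one_mul]
    · intro e
      exact (P3 _ hb).1 (by rw [← (P3 _ hb).2, e, one_mul])

end Cfsg.Agent.S4406
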