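import Cfsg.Statements.S4408
import Cfsg.Agent.Lib.FgsEigenChain
import Cfsg.Agent.Lib.CoreLayer

set_option autoImplicit false
open Cfsg

namespace Cfsg.Agent.S4408

/-- Let S be a finite solvable group whose Fitting subgroup F(S) has odd order, and let I be an elementary abelian 2-subgroup of S of order 2ⁿ with n ≥ 1. Then F(S) contains subgroups A₁, …, Aₙ of prime order, each normalized by I, pairwise commuting and generating a subgroup A of order |A₁|⋯|Aₙ| (their internal direct product), such that no non-identity element of I centralizes A. -/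
theorem result {S : Type*} [Group S] [Finite S]
    [Group.IsSolvable S] (hF : Odd (Nat.card ↥(Cfsg.fittingSubgroup S)))
    (I : Subgroup S) (hI : Cfsg.IsElementaryAbelian 2 I) (n : ℕ) (hn : 1 ≤ n) (hIn : Nat.card ↥I = 2 ^ n) :
    ∃ f : Fin n → Subgroup S, (∀ i, (Nat.card ↥(f i)).Prime) ∧ (∀ i, f i ≤ Cfsg.fittingSubgroup S) ∧
      (∀ i, I ≤ Subgroup.normalizer ((f i) : Set S)) ∧ (∀ i j, i ≠ j → ∀ a ∈ f i, ∀ b ∈ f j, a * b = b * a) ∧
      Nat.card ↥(⨆ i, f i) = ∏ i, Nat.card ↥(f i) ∧ I ⊓ Subgroup.centralizer ((⨆ i, f i : Subgroup S) : Set S) = ⊥ := by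
  have hfix : I ⊓ Subgroup.centralizer (Cfsg.fittingSubgroup S : Set S) = ⊥ := by
    rw [eq_bot_iff]
    rintro x ⟨hx, hxc⟩
    have hxF : x ∈ Cfsg.fittingSubgroup S := CfsgLib.Core.centralizer_fitting_le hxc
    rw [Subgroup.mem_bot, ← orderOf_eq_one_iff]
    exact Nat.Coprime.eq_one_of_dvd (Nat.Coprime.coprime_dvd_left (orderOf_dvd_of_pow_eq_one (hI.2 x hx))
      (Nat.coprime_two_left.2 hF)) (Subgroup.orderOf_dvd_natCard _ hxF)
  haveI := CfsgLib.Core.normal_fittingSubgroup (G := S)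
  obtain ⟨f, h1, h2, h3, h4, h5, -, h7⟩ := CfsgLib.EigenChain.chain I hI n (Cfsg.fittingSubgroup S) I
    CfsgLib.Core.isNilpotent_fittingSubgroup hF (by rw [Subgroup.normalizer_eq_top]; exact le_top) le_rfl hIn hfix
  exact ⟨f, h1, h2, h3, h4, h5, h7⟩

end Cfsg.Agent.S4408
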