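import Cfsg.Statements.S4420
import Mathlib

set_option autoImplicit false
open Cfsg

namespace Cfsg.Agent.S4420

/-- Structure of groups in which every element outside some proper subgroup has square 1. Let H be a finite group with a proper subgroup A such that every element outside A has square 1. Then H has an abelian normal subgroup B of index 2 such that every element outside B is an involution inverting every element of B; and if H is not an elementary abelian 2-group, B is the only abelian normal subgroup of index 2 with this property. -/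
theorem result {H : Type*} [Group H] [Finite H] (A : Subgroup H) (hA : A ≠ ⊤) (hD : ∀ x : H, x ∉ A → x ^ 2 = 1) :
    ∃ B : Subgroup H, B.Normal ∧ IsMulCommutative ↥B ∧ B.index = 2 ∧
      (∀ x : H, x ∉ B → x ^ 2 = 1 ∧ ∀ b ∈ B, x * b * x⁻¹ = b⁻¹) ∧
      (¬ (IsMulCommutative H ∧ ∀ x : H, x ^ 2 = 1) →
        ∀ B' : Subgroup H, B'.Normal → IsMulCommutative ↥B' → B'.index = 2 →
          (∀ x : H, x ∉ B' → x ^ 2 = 1 ∧ ∀ b ∈ B', x * b * x⁻¹ = b⁻¹) → B' = B) := by
  classical
  obtain ⟨t, ht⟩ : ∃ t : H, t ∉ A := by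
    by_contra hcon
    push Not at hcon
    exact hA ((Subgroup.eq_top_iff' A).mpr hcon)
  have hinv : ∀ t : H, t ∉ A → ∀ a ∈ A, t * a * t⁻¹ = a⁻¹ := by
    intro t ht a ha
    have h1 : t * a ∉ A := fun h => ht (by simpa using A.mul_mem h (A.inv_mem ha))
    have h2 := hD _ h1
    have h3 := hD _ ht
    rw [pow_two] at h2 h3
    have ht' : t⁻¹ = t := inv_eq_of_mul_eq_one_right h3
    calc t * a * t⁻¹ = (t * a * (t * a)) * a⁻¹ := by rw [ht']; group
      _ = a⁻¹ := by rw [h2, one_mul]
  have hAc : IsMulCommutative A := ⟨⟨fun a b => Subtype.ext (by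
    have h : ((a : H) * b)⁻¹ = (a : H)⁻¹ * (b : H)⁻¹ := by
      rw [← hinv t ht _ (A.mul_mem a.2 b.2), ← hinv t ht _ a.2, ← hinv t ht _ b.2]
      group
    rw [mul_inv_rev] at h
    simpa using congrArg (·⁻¹) h)⟩⟩
  by_cases hel : IsMulCommutative H ∧ ∀ x : H, x ^ 2 = 1
  · obtain ⟨hc, hsq⟩ := hel
    haveI := hc
    have hp2 : IsPGroup 2 H := fun g => ⟨1, by simpa using hsq g⟩
    haveI : Nontrivial H := ⟨⟨t, 1, fun e => ht (e ▸ one_mem A)⟩⟩
    haveI : Fact (Nat.Prime 2) := ⟨Nat.prime_two⟩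
    obtain ⟨M, hM⟩ : ∃ M : Subgroup H, M.index = 2 := by
      obtain ⟨n, hn⟩ := hp2.exists_card_eq
      have hn0 : n ≠ 0 := fun e => Finite.one_lt_card.ne' (by rw [hn, e, pow_zero])
      obtain ⟨M, hM⟩ := Sylow.exists_subgroup_card_pow_prime (G := H) (p := 2) (n := n - 1) (hn ▸ pow_dvd_pow 2 (Nat.sub_le n 1))
      refine ⟨M, ?_⟩
      have := M.card_mul_index
      rw [hM, hn] at this
      have e : 2 ^ n = 2 ^ (n - 1) * 2 := by rw [← pow_succ, Nat.sub_add_cancel (Nat.pos_of_ne_zero hn0)]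
      rw [e] at this
      exact Nat.eq_of_mul_eq_mul_left (by positivity) this
    refine ⟨M, inferInstance, inferInstance, hM, fun x _ => ⟨hsq x, fun b _ => ?_⟩, fun h => absurd ⟨hc, hsq⟩ h⟩
    rw [mul_comm' x b, mul_inv_cancel_right]
    exact (inv_eq_of_mul_eq_one_right (by rw [← pow_two]; exact hsq b)).symm
  · -- now `A` has index two
    have hexp : ¬ ∀ a ∈ A, a ^ 2 = 1 := by
      intro h
      apply hel
      have hsq : ∀ x : H, x ^ 2 = 1 := fun x => if hx : x ∈ A then h x hx else hD x hx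
      refine ⟨⟨⟨fun a b => ?_⟩⟩, hsq⟩
      have hi : ∀ c : H, c⁻¹ = c := fun c => inv_eq_of_mul_eq_one_right (by rw [← pow_two]; exact hsq c)
      calc a * b = (a * b)⁻¹ := (hi _).symm
        _ = b * a := by rw [mul_inv_rev, hi, hi]
    push Not at hexp
    obtain ⟨a₀, ha₀, hne⟩ := hexp
    have hidx : A.index = 2 := by
      rw [Subgroup.index_eq_two_iff]
      refine ⟨t, fun b => ?_⟩
      by_cases hb : b ∈ A
      · exact Or.inr ⟨hb, fun h => ht (by simpa using A.mul_mem (A.inv_mem hb) h)⟩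
      · refine Or.inl ⟨?_, hb⟩
        by_contra hbt
        apply hne
        have h1 := hinv _ hbt a₀ ha₀
        have h2 : b * t * a₀ * (b * t)⁻¹ = a₀ := by
          calc b * t * a₀ * (b * t)⁻¹ = b * (t * a₀ * t⁻¹) * b⁻¹ := by group
            _ = (b * a₀ * b⁻¹)⁻¹ := by rw [hinv t ht a₀ ha₀]; group
            _ = a₀ := by rw [hinv b hb a₀ ha₀, inv_inv]
        rw [pow_two]
        nth_rw 1 [← h2]
        rw [h1, inv_mul_cancel]
    refine ⟨A, Subgroup.normal_of_index_eq_two hidx, hAc, hidx, fun x hx => ⟨hD x hx, hinv x hx⟩, fun _ B' _ hB'c hB'i hB' => ?_⟩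
    have ha₀B : a₀ ∈ B' := by
      by_contra h
      exact hne (hB' _ h).1
    have hle : B' ≤ A := by
      intro b hb
      by_contra hbA
      apply hne
      have h1 := hinv b hbA a₀ ha₀
      have h2 : b * a₀ = a₀ * b := congrArg Subtype.val (hB'c.is_comm.comm (⟨b, hb⟩ : B') ⟨a₀, ha₀B⟩)
      rw [h2, mul_inv_cancel_right] at h1
      rw [pow_two]
      nth_rw 1 [h1]
      exact inv_mul_cancel a₀
    refine Subgroup.eq_of_le_of_card_ge hle (le_of_eq ?_)
    have e1 := A.card_mul_index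
    have e2 := B'.card_mul_index
    rw [hidx] at e1
    rw [hB'i] at e2
    omega

end Cfsg.Agent.S4420
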