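import Cfsg.Statements.S4517
import Cfsg.Agent.Lib.BlockTwoReal

set_option autoImplicit false
open Cfsg
open CfsgLib.Block
open scoped ComplexConjugate


namespace Cfsg.Agent.S4517

/-- Let G be a finite group, M a maximal ideal of the algebraic integers containing 2, and k a natural number coprime to the order of G with g ^ k = g⁻¹ for every element g of odd order (so that g ↦ g ^ k induces a field automorphism of the character values inverting the roots of unity of odd order). If B is a 2-block of full defect (its defect equals the exponent of 2 in the order of G) that is stable under χ ↦ χ ∘ (· ^ k), then B is the principal 2-block. -/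
theorem result {G : Type*} [Group G] [Finite G] (M : Ideal Cfsg.AlgInt) (hM : Cfsg.IsPModular 2 M) (k : ℕ) (hk : Nat.Coprime k (Nat.card G)) (hk₂ : ∀ g : G, Odd (orderOf g) → g ^ k = g⁻¹) (B : Set (Cfsg.IrrCharacter G)) (hB : Cfsg.IsPBlock M B) (hdef : Cfsg.blockDefect 2 B = (Nat.card G).factorization 2) (hstab : ∀ χ ∈ B, ∃ ψ ∈ B, ∀ g : G, (ψ : G → ℂ) g = (χ : G → ℂ) (g ^ k)) : B = Cfsg.principalBlock M G := by
  haveI := Fintype.ofFinite G
  classical
  haveI : Fact (Nat.Prime 2) := ⟨Nat.prime_two⟩
  have h0 : blockMin 2 B = 0 := by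
    have h := hdef
    rw [blockDefect_eq] at h
    have h2 := blockMin_le_card hM hB
    omega
  refine eq_principal_of_inv_stable hM hB h0 ?_
  choose σ hσB hσ using hstab
  have hbij : Function.Bijective (fun g : G => g ^ k) :=
    (powCoprime (Nat.coprime_comm.1 hk)).bijective
  let σ' : B → B := fun χ => ⟨σ χ.1 χ.2, hσB χ.1 χ.2⟩
  have hinj : Function.Injective σ' := fun χ φ h => by
    refine Subtype.ext (Subtype.ext (funext fun g => ?_))
    obtain ⟨y, rfl⟩ := hbij.2 g
    show (χ.1 : G → ℂ) (y ^ k) = (φ.1 : G → ℂ) (y ^ k)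
    rw [← hσ χ.1 χ.2, ← hσ φ.1 φ.2, show σ χ.1 χ.2 = σ φ.1 φ.2 from congrArg Subtype.val h]
  let E : B ≃ B := Equiv.ofBijective σ' (Finite.injective_iff_bijective.1 hinj)
  have hcoeff : ∀ g, blockCoeff B (g ^ k) = blockCoeff B g := fun g => by
    unfold blockCoeff
    congr 1
    rw [← finsum_set_coe_eq_finsum_mem, ← finsum_set_coe_eq_finsum_mem]
    conv_rhs => rw [← finsum_comp_equiv E]
    refine finsum_congr fun χ => ?_
    show _ = (σ χ.1 χ.2 : G → ℂ) 1 * conj ((σ χ.1 χ.2 : G → ℂ) g)
    rw [hσ, hσ, one_pow]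
  intro g
  by_cases hg : Odd (orderOf g)
  · have e := hcoeff g
    rw [hk₂ g hg] at e
    show (fun z : ℂ => if h : z ∈ locRing hM then res hM ⟨z, h⟩ else 0) (blockCoeff B g⁻¹) = _
    rw [e]
    rfl
  · have h2 : 2 ∣ orderOf g := even_iff_two_dvd.1 (Nat.not_odd_iff_even.1 hg)
    rw [gFn_block hM hB, cred_bIdem_singular hM hB h2,
      cred_bIdem_singular hM hB (by rwa [orderOf_inv])]

end Cfsg.Agent.S4517
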