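import Cfsg.Statements.S4518
import Mathlib.GroupTheory.Perm.Cycle.Type
import Cfsg.Agent.Lib.CharGalois
import Cfsg.Agent.Lib.CharNormal

set_option autoImplicit false
open Cfsg

namespace Cfsg.Agent.S4518

/-- Let N be a normal subgroup of the finite group G whose index is not divisible by the prime p, and let k be coprime to the order of G with k ^ (p ^ e) ≡ 1 modulo the order of G for some e (so g ↦ g ^ k induces a field automorphism of p-power order on character values). If an irreducible character χ of G satisfies χ (g ^ k) = χ g for all g, then every irreducible constituent θ of the restriction of χ to N satisfies θ (n ^ k) = θ n for all n. -/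
theorem result {G : Type*} [Group G] [Fintype G] (p : ℕ) [Fact p.Prime] (N : Subgroup G) [N.Normal] [Fintype N] (hidx : ¬ p ∣ N.index) (k e : ℕ) (hk : Nat.Coprime k (Nat.card G)) (hke : k ^ (p ^ e) ≡ 1 [MOD Nat.card G]) (χ : Cfsg.IrrCharacter G) (hχ : ∀ g : G, (χ : G → ℂ) (g ^ k) = (χ : G → ℂ) g) (θ : Cfsg.IrrCharacter N) (hθ : Cfsg.classInner (fun n : N => (χ : G → ℂ) n) (θ : N → ℂ) ≠ 0) : ∀ n : N, (θ : N → ℂ) (n ^ k) = (θ : N → ℂ) n := by
  classical
  have hkN : Nat.Coprime k (Nat.card ↥N) := hk.coprime_dvd_right N.card_subgroup_dvd_card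
  let Ω := {φ : IrrCharacter ↥N // classInner (fun n : ↥N => (χ : G → ℂ) n) (φ : ↥N → ℂ) ≠ 0}
  let f : Ω → Ω := fun φ => ⟨⟨_, CfsgLib.Char.powTwist_irr hkN φ.1.2⟩, by
    have h : CfsgLib.Char.powTwist k (fun n : ↥N => (χ : G → ℂ) n) = fun n : ↥N => (χ : G → ℂ) n :=
      funext fun n => hχ n
    show classInner (fun n : ↥N => (χ : G → ℂ) n) (CfsgLib.Char.powTwist k (φ.1 : ↥N → ℂ)) ≠ 0
    exact ne_of_eq_of_ne ((congrArg (fun F => classInner F (CfsgLib.Char.powTwist k (φ.1 : ↥N → ℂ))) h.symm).trans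
      (CfsgLib.Char.inner_powTwist hkN _ _)) φ.2⟩
  have hiter : ∀ (j : ℕ) (φ : Ω) (n : ↥N), ((f^[j] φ).1 : ↥N → ℂ) n = (φ.1 : ↥N → ℂ) (n ^ k ^ j) := by
    intro j
    induction j with
    | zero => intro φ n; simp
    | succ j ih =>
      intro φ n
      rw [Function.iterate_succ_apply, ih]
      show (φ.1 : ↥N → ℂ) ((n ^ k ^ j) ^ k) = _
      rw [← pow_mul, ← pow_succ]
  have hper : ∀ φ : Ω, f^[p ^ e] φ = φ := by
    intro φ
    refine Subtype.ext (Subtype.ext (funext fun n => ?_))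
    rw [hiter]
    refine congrArg _ ?_
    conv_rhs => rw [← pow_one n]
    exact pow_eq_pow_iff_modEq.2 (hke.of_dvd ((orderOf_dvd_natCard n).trans N.card_subgroup_dvd_card))
  have hbij : Function.Bijective f := by
    obtain ⟨m, hm⟩ : ∃ m, p ^ e = m + 1 := ⟨p ^ e - 1, (Nat.succ_pred (pow_ne_zero _ (Fact.out : p.Prime).ne_zero)).symm⟩
    constructor
    · intro a b h
      rw [← hper a, ← hper b, hm, Function.iterate_succ_apply, Function.iterate_succ_apply, h]
    · intro b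
      exact ⟨f^[m] b, by rw [← Function.iterate_succ_apply' f, ← Nat.add_one, ← hm, hper]⟩
  let σ : Equiv.Perm Ω := Equiv.ofBijective f hbij
  have hσ : σ ^ p ^ e = 1 := Equiv.ext fun φ => by
    rw [← Equiv.Perm.iterate_eq_pow, Equiv.Perm.one_apply]
    exact hper φ
  haveI : Fintype Ω := Fintype.ofFinite Ω
  have hcard : ¬ p ∣ Fintype.card Ω := by
    have h1 : Fintype.card Ω = (CfsgLib.Char.conjOrbit (G := G) (θ : ↥N → ℂ)).card := by
      rw [← Fintype.card_coe]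
      refine Fintype.card_congr (Equiv.ofBijective (fun φ : Ω => ⟨(φ.1 : ↥N → ℂ), CfsgLib.Char.mem_conjOrbit.2 (CfsgLib.Char.constituent_conj χ.2 θ.2 φ.1.2 hθ φ.2)⟩) ⟨fun a b h => Subtype.ext (Subtype.ext (congrArg (fun x : CfsgLib.Char.conjOrbit (G := G) (θ : ↥N → ℂ) => (x : ↥N → ℂ)) h)), ?_⟩)
      rintro ⟨φ, hφ⟩
      obtain ⟨g, rfl⟩ := CfsgLib.Char.mem_conjOrbit.1 hφ
      refine ⟨⟨⟨_, CfsgLib.Char.isIrrCharacter_conjFn θ.2 g⟩, ?_⟩, rfl⟩
      show classInner (fun n : ↥N => (χ : G → ℂ) n) (CfsgLib.Char.conjFn g (θ : ↥N → ℂ)) ≠ 0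
      rw [CfsgLib.Char.clifford χ.2 θ.2 hθ, CfsgLib.Char.inner_smul_left, CfsgLib.Char.inner_sum_left]
      refine mul_ne_zero hθ ?_
      rw [Finset.sum_eq_single (CfsgLib.Char.conjFn g (θ : ↥N → ℂ))]
      · rw [CfsgLib.Char.irr_inner_self (CfsgLib.Char.isIrrCharacter_conjFn θ.2 g)]; exact one_ne_zero
      · intro φ hφ hne
        obtain ⟨k', rfl⟩ := CfsgLib.Char.mem_conjOrbit.1 hφ
        exact CfsgLib.Char.irr_inner_ne (CfsgLib.Char.isIrrCharacter_conjFn θ.2 k') (CfsgLib.Char.isIrrCharacter_conjFn θ.2 g) hne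
      · intro h'
        exact absurd (CfsgLib.Char.mem_conjOrbit.2 ⟨g, rfl⟩) h'
    rw [h1, CfsgLib.Char.card_conjOrbit_eq_index]
    exact fun h => hidx (h.trans (Subgroup.index_dvd_of_le (CfsgLib.Char.le_inertia (CfsgLib.Char.isCharacter_classFunction θ.2.isCharacter'))))
  obtain ⟨φ, hφ⟩ := Equiv.Perm.exists_fixed_point_of_prime hcard hσ
  have hφ' : ∀ n : ↥N, (φ.1 : ↥N → ℂ) (n ^ k) = (φ.1 : ↥N → ℂ) n := fun n =>
    congrFun (congrArg (fun x : Ω => (x.1 : ↥N → ℂ)) hφ) n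
  obtain ⟨g, hg⟩ := CfsgLib.Char.constituent_conj χ.2 φ.1.2 θ.2 φ.2 hθ
  intro n
  rw [hg, CfsgLib.Char.conjFn_eq_comp, Function.comp_apply, Function.comp_apply, map_pow]
  exact hφ' _

end Cfsg.Agent.S4518
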