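import Cfsg.Statements.S4519
import Cfsg.Agent.Lib.BlockPrincipalNormal
import Cfsg.Agent.Lib.CharGallagher
import Cfsg.Agent.Lib.CharGalois

set_option autoImplicit false
set_option maxHeartbeats 400000
open Cfsg CfsgLib.Block CfsgLib.Char
open scoped ComplexConjugate

namespace Cfsg.Agent.S4519

universe u

section
variable {G : Type u} [Group G] [Fintype G] (N : Subgroup G) [hN : N.Normal] [Fintype N]

theorem not_conj_of_odd (hidx : Odd N.index) {k : ℕ}
    (hk₂ : ∀ g : G, Odd (orderOf g) → g ^ k = g⁻¹) (g : G) :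
    g ^ (k + 1) ∈ N ∧ ∀ c : G, c * g ^ k * c⁻¹ * g⁻¹ ∈ N → g ∈ N := by
  have hodd : ∀ q : G ⧸ N, Odd (orderOf q) := fun q =>
    Odd.of_dvd_nat hidx (by rw [Subgroup.index_eq_card]; exact orderOf_dvd_natCard q)
  have hk1 : ((g : G) : G ⧸ N) ^ (k + 1) = 1 := by
    obtain ⟨a, b, hb, hab⟩ := Nat.exists_eq_two_pow_mul_odd (orderOf_pos g).ne'
    have hu : orderOf (g ^ 2 ^ a) = b := by
      rw [orderOf_pow_of_dvd (pow_ne_zero _ two_ne_zero) ⟨b, hab⟩, hab,
        Nat.mul_div_cancel_left _ (pow_pos two_pos _)]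
    have h2 : (g ^ 2 ^ a) ^ (k + 1) = 1 := by
      rw [pow_succ, hk₂ _ (hu ▸ hb), inv_mul_cancel]
    rw [← orderOf_eq_one_iff]
    refine Nat.eq_one_of_dvd_coprimes ?_ dvd_rfl
      (orderOf_dvd_iff_pow_eq_one.2 (show (((g : G) : G ⧸ N) ^ (k + 1)) ^ 2 ^ a = 1 by
        rw [← QuotientGroup.mk_pow, ← QuotientGroup.mk_pow, ← pow_mul, mul_comm, pow_mul, h2,
          QuotientGroup.mk_one]))
    exact (Nat.coprime_two_right.2 (hodd _)).pow_right a
  refine ⟨(QuotientGroup.eq_one_iff _).1 (by rw [QuotientGroup.mk_pow]; exact hk1), fun c hc => ?_⟩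
  have hinv : ((g : G) : G ⧸ N) ^ k = ((g : G) : G ⧸ N)⁻¹ :=
    eq_inv_of_mul_eq_one_left (by rw [← pow_succ]; exact hk1)
  have hc' : (c : G ⧸ N) * ((g : G) : G ⧸ N)⁻¹ * (c : G ⧸ N)⁻¹ = ((g : G) : G ⧸ N) := by
    have h := (QuotientGroup.eq_one_iff _).2 hc
    simp only [QuotientGroup.mk_mul, QuotientGroup.mk_inv, QuotientGroup.mk_pow, hinv,
      mul_inv_eq_one] at h
    exact h
  rw [← QuotientGroup.eq_one_iff]
  revert hc'
  generalize ((g : G) : G ⧸ N) = q
  generalize (c : G ⧸ N) = h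
  intro hc'
  have hcm : Commute (h ^ 2) q := by
    have h1 : h * q * h⁻¹ = q⁻¹ := by
      rw [eq_inv_iff_mul_eq_one, ← mul_right_inj (h * q⁻¹ * h⁻¹), mul_one]
      conv_rhs => rw [hc']
      group
    show h ^ 2 * q = q * h ^ 2
    calc h ^ 2 * q = h * (h * q * h⁻¹) * h := by rw [sq]; group
      _ = h * q⁻¹ * h := by rw [h1]
      _ = (h * q⁻¹ * h⁻¹) * (h * h) := by group
      _ = q * h ^ 2 := by rw [hc', sq]
  have hcq : Commute h q := by
    obtain ⟨r, hr⟩ := hodd h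
    have h2 : h = (h ^ 2) ^ (r + 1) := by
      rw [← pow_mul, show 2 * (r + 1) = orderOf h + 1 by omega, pow_succ, pow_orderOf_eq_one,
        one_mul]
    rw [h2]; exact hcm.pow_left _
  rw [show h * q⁻¹ * h⁻¹ = q⁻¹ by rw [hcq.inv_right.eq, mul_inv_cancel_right]] at hc'
  rw [← orderOf_eq_one_iff]
  refine Nat.eq_one_of_dvd_coprimes (Nat.coprime_two_right.2 (hodd q)) dvd_rfl
    (orderOf_dvd_iff_pow_eq_one.2 ?_)
  rw [sq]
  nth_rw 1 [← hc']
  rw [inv_mul_cancel]

open Classical in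
/-- Exactly one fixed character lies over a fixed one. -/
theorem card_fixed_eq_one (hidx : Odd N.index) {k : ℕ} (hk : k.Coprime (Nat.card G))
    (hk₂ : ∀ g : G, Odd (orderOf g) → g ^ k = g⁻¹) (θ : IrrCharacter N)
    (hθ : ∀ n : N, (θ : N → ℂ) (n ^ k) = (θ : N → ℂ) n) :
    (Finset.univ.filter fun χ : IrrCharacter G =>
      classInner (fun n : N => (χ : G → ℂ) n) (θ : N → ℂ) ≠ 0 ∧
        powTwist k (χ : G → ℂ) = χ).card = 1 := by
  obtain ⟨t, ht⟩ : ∃ t : ℕ, t = (conjOrbit (θ : N → ℂ)).card := ⟨_, rfl⟩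
  obtain ⟨Θ, hΘ⟩ : ∃ Θ : N → ℂ, Θ = ∑ φ ∈ conjOrbit (θ : N → ℂ), φ := ⟨_, rfl⟩
  obtain ⟨e, he⟩ : ∃ e : IrrCharacter G → ℕ, e = fun χ => resMult N χ θ := ⟨_, rfl⟩
  have hec : ∀ χ, (e χ : ℂ) = classInner (fun n : N => (χ : G → ℂ) n) (θ : N → ℂ) :=
    fun χ => he ▸ resMult_cast χ θ
  have hI : (Nat.card (inertia (θ : N → ℂ)) : ℂ) ≠ 0 := Nat.cast_ne_zero.2 Nat.card_pos.ne'
  have hΘsum : Θ = (Nat.card (inertia (θ : N → ℂ)) : ℂ)⁻¹ • ∑ x : G, conjFn x (θ : N → ℂ) := by
    rw [sum_conjFn, inv_smul_smul₀ hI, hΘ]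
  have hΘg : ∀ g : G, conjFn g Θ = Θ := by
    intro g
    rw [hΘsum]
    funext n
    simp only [conjFn_eq_comp, Function.comp_apply, Pi.smul_apply, Finset.sum_apply, smul_eq_mul]
    congr 1
    refine Fintype.sum_equiv (Equiv.mulRight g) _ _ fun x => ?_
    refine congrArg (θ : N → ℂ) (Subtype.ext ?_)
    simp [MulAut.conjNormal_apply, mul_assoc]
  have hΘk : ∀ n : N, Θ (n ^ k) = Θ n := by
    intro n
    rw [hΘsum]
    simp only [conjFn_eq_comp, Function.comp_apply, Pi.smul_apply, Finset.sum_apply, smul_eq_mul,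
      map_pow, hθ]
  have hinn : ∀ χ : IrrCharacter G, classInner (fun n : N => (χ : G → ℂ) n) Θ = t * e χ := by
    intro χ
    rw [hΘ, inner_sum_right, ht, ← nsmul_eq_mul, ← Finset.sum_const]
    refine Finset.sum_congr rfl fun φ hφ => ?_
    obtain ⟨g, rfl⟩ := mem_conjOrbit.1 hφ
    conv_lhs => rw [← classFunction_restrict_conjFn (irr_classFunction χ) g]
    rw [conjFn_eq_comp, conjFn_eq_comp, inner_comp_equiv, hec]
  have hΘΘ : ∑ n : N, Θ n * conj (Θ n) = (Nat.card N : ℂ) * t := by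
    have h : classInner Θ Θ = t := by
      rw [hΘ, inner_sum_left, ht, ← nsmul_one, ← Finset.sum_const]
      refine Finset.sum_congr rfl fun φ hφ => ?_
      obtain ⟨g, rfl⟩ := mem_conjOrbit.1 hφ
      rw [inner_sum_right, Finset.sum_eq_single _ (fun ψ hψ hne => ?_) (fun h => absurd hφ h)]
      · exact irr_inner_self (isIrrCharacter_conjFn θ.2 g)
      · obtain ⟨g', rfl⟩ := mem_conjOrbit.1 hψ
        exact irr_inner_ne (isIrrCharacter_conjFn θ.2 g) (isIrrCharacter_conjFn θ.2 g') hne.symm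
    rw [← h, classInner, ← mul_assoc, mul_inv_cancel₀ (natCard_ne_zero N), one_mul]
  obtain ⟨S, hS⟩ : ∃ S, S = Finset.univ.filter fun χ : IrrCharacter G =>
      classInner (fun n : N => (χ : G → ℂ) n) (θ : N → ℂ) ≠ 0 := ⟨_, rfl⟩
  have hres : ∀ χ ∈ S, ∀ n : N, (χ : G → ℂ) n = e χ * Θ n := by
    intro χ hχ n
    rw [hS, Finset.mem_filter] at hχ
    have := congrFun (clifford χ.2 θ.2 hχ.2) n
    rw [Pi.smul_apply, smul_eq_mul, ← hΘ, ← hec] at this
    exact this
  -- the kernel of the projection onto the characters over θ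
  have hker : ∀ g : G, g ∉ N →
      ∑ χ ∈ S, (χ : G → ℂ) (g ^ k) * conj ((χ : G → ℂ) g) = 0 := by
    intro g hg
    let F : G → ℂ := fun a => if h : a ∈ N then conj (Θ ⟨a, h⟩) else 0
    have hFcl : ∀ c a, F (c * a * c⁻¹) = F a := by
      intro c a
      by_cases ha : a ∈ N
      · have hb : c * a * c⁻¹ ∈ N := hN.conj_mem a ha c
        simp only [F, dif_pos ha, dif_pos hb]
        conv_rhs => rw [← hΘg c]
        rfl
      · have hb : c * a * c⁻¹ ∉ N := fun h => ha (by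
          simpa [mul_assoc] using hN.conj_mem _ h c⁻¹)
        simp only [F, dif_neg ha, dif_neg hb]
    have hA : ∀ (χ : IrrCharacter G) (x : G),
        ∑ a, F a * (χ : G → ℂ) (a * x) = om (χ : G → ℂ) F * (χ : G → ℂ) x := by
      intro χ x
      have h1 : ∑ y : G, ∑ a, F a * (χ : G → ℂ) (y * a * y⁻¹ * x)
          = (Nat.card G : ℂ) * ∑ a, F a * (χ : G → ℂ) (a * x) := by
        rw [Nat.card_eq_fintype_card, ← nsmul_eq_mul, ← Finset.card_univ, ← Finset.sum_const]
        refine Finset.sum_congr rfl fun y _ => ?_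
        exact Fintype.sum_equiv (MulAut.conj y).toEquiv _ _ fun a => by
          rw [MulEquiv.toEquiv_eq_coe, EquivLike.coe_coe, MulAut.conj_apply, hFcl]
      rw [Finset.sum_comm] at h1
      simp only [← Finset.mul_sum, sum_conj_mul] at h1
      apply mul_left_cancel₀ (natCard_ne_zero G)
      rw [← h1, om, Finset.sum_div, Finset.sum_mul, Finset.mul_sum]
      exact Finset.sum_congr rfl fun a _ => by ring
    have hom : ∀ χ : IrrCharacter G,
        om (χ : G → ℂ) F = (Nat.card N : ℂ) * (t * e χ) / (χ : G → ℂ) 1 := by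
      intro χ
      have h : ∑ a, F a * (χ : G → ℂ) a = ∑ n : N, (χ : G → ℂ) n * conj (Θ n) := by
        rw [← Finset.sum_subset (Finset.subset_univ (Finset.univ.filter (· ∈ N)))
          (fun a _ ha => by
            simp only [Finset.mem_filter, Finset.mem_univ, true_and] at ha
            simp [F, ha])]
        symm
        refine Finset.sum_bij (fun n _ => (n : G)) (fun n _ => by simp)
          (fun n _ m _ h => Subtype.ext h) (fun a ha => ?_) (fun n _ => ?_)
        · simp only [Finset.mem_filter, Finset.mem_univ, true_and] at ha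
          exact ⟨⟨a, ha⟩, Finset.mem_univ _, rfl⟩
        · simp [F, mul_comm]
      rw [om, h, ← hinn, classInner, ← mul_assoc, mul_inv_cancel₀ (natCard_ne_zero N), one_mul]
    have hzero : ∑ χ : IrrCharacter G,
        (∑ a, F a * (χ : G → ℂ) (a * g ^ k)) * conj ((χ : G → ℂ) g) = 0 := by
      simp only [Finset.sum_mul, mul_assoc]
      rw [Finset.sum_comm]
      refine Finset.sum_eq_zero fun a _ => ?_
      rw [← Finset.mul_sum]
      by_cases ha : a ∈ N
      · rw [column_orth_not_conj, mul_zero]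
        intro hc
        obtain ⟨c, hc⟩ := isConj_iff.1 hc
        refine hg ((not_conj_of_odd N hidx hk₂ g).2 c ?_)
        have e1 : c * g ^ k * c⁻¹ * g⁻¹ = c * a⁻¹ * c⁻¹ * (c * (a * g ^ k) * c⁻¹ * g⁻¹) := by
          group
        rw [e1, hc, mul_inv_cancel, mul_one]
        exact hN.conj_mem _ (inv_mem ha) c
      · simp [F, ha]
    simp only [hA, hom] at hzero
    rw [← Finset.sum_subset (Finset.subset_univ S) (fun χ _ hχ => by
      rw [hS, Finset.mem_filter] at hχ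
      have : (e χ : ℂ) = 0 := by rw [hec]; by_contra h; exact hχ ⟨Finset.mem_univ _, h⟩
      simp [this])] at hzero
    have hscal : ∀ χ ∈ S, (Nat.card N : ℂ) * (t * e χ) / (χ : G → ℂ) 1
        = (Nat.card N : ℂ) / (θ : N → ℂ) 1 := by
      intro χ hχ
      have hS' := hχ
      rw [hS, Finset.mem_filter] at hS'
      have h1 := clifford_degree χ.2 θ.2 hS'.2
      rw [← hec, ← card_conjOrbit_eq_index, ← ht] at h1
      rw [h1, mul_comm (t : ℂ), ← mul_div_mul_right (Nat.card N : ℂ) ((θ : N → ℂ) 1)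
        (c := (e χ : ℂ) * t) (mul_ne_zero (by rw [hec]; exact hS'.2) ?_)]
      · ring
      · rw [Nat.cast_ne_zero, ht]
        exact (Finset.card_pos.2 ⟨_, self_mem_conjOrbit _⟩).ne'
    rw [Finset.sum_congr rfl (fun χ hχ => by rw [hscal χ hχ, mul_assoc]), ← Finset.mul_sum,
      mul_eq_zero] at hzero
    exact hzero.resolve_left (div_ne_zero (natCard_ne_zero N) (irr_one_ne_zero θ))
  -- count the fixed characters
  have hmem : ∀ χ ∈ S, ∀ h : IsIrrCharacter G (powTwist k (χ : G → ℂ)),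
      (⟨_, h⟩ : IrrCharacter G) ∈ S := by
    intro χ hχ h
    rw [hS, Finset.mem_filter] at hχ ⊢
    refine ⟨Finset.mem_univ _, ?_⟩
    have hkN : k.Coprime (Nat.card N) := hk.coprime_dvd_right (Subgroup.card_subgroup_dvd_card N)
    show classInner (powTwist k fun n : N => (χ : G → ℂ) n) (θ : N → ℂ) ≠ 0
    rw [show (θ : N → ℂ) = powTwist k (θ : N → ℂ) from (funext hθ).symm, inner_powTwist hkN]
    exact hχ.2
  have hcount : (((Finset.univ.filter fun χ : IrrCharacter G =>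
      classInner (fun n : N => (χ : G → ℂ) n) (θ : N → ℂ) ≠ 0 ∧
        powTwist k (χ : G → ℂ) = χ).card : ℕ) : ℂ)
      = ∑ χ ∈ S, classInner (powTwist k (χ : G → ℂ)) (χ : G → ℂ) := by
    rw [hS, ← Finset.filter_filter, Finset.card_filter, Nat.cast_sum]
    refine Finset.sum_congr rfl fun χ _ => ?_
    split_ifs with h
    · rw [h, irr_inner_self χ.2, Nat.cast_one]
    · rw [irr_inner_ne (powTwist_irr hk χ.2) χ.2 h, Nat.cast_zero]
  have hdeg : (t : ℂ) * ∑ χ ∈ S, (e χ : ℂ) ^ 2 = N.index := by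
    have h := congrArg (Nat.cast : ℕ → ℂ) (sum_resMult_induced (N := N) (G := G) θ)
    push_cast at h
    rw [← Finset.sum_subset (Finset.subset_univ S) (fun χ _ hχ => by
      rw [hS, Finset.mem_filter] at hχ
      have : (resMult N χ θ : ℂ) = 0 := by
        rw [resMult_cast]; by_contra h; exact hχ ⟨Finset.mem_univ _, h⟩
      rw [this, zero_mul]), charDegree_cast θ.2.isCharacter'] at h
    apply mul_right_cancel₀ (irr_one_ne_zero θ)
    rw [← h, Finset.mul_sum, Finset.sum_mul]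
    refine Finset.sum_congr rfl fun χ hχ => ?_
    have hS' := hχ
    rw [hS, Finset.mem_filter] at hS'
    have h1 := clifford_degree χ.2 θ.2 hS'.2
    rw [← hec, ← card_conjOrbit_eq_index, ← ht] at h1
    rw [charDegree_cast χ.2.isCharacter', h1, resMult_cast, ← hec]
    ring
  have hfin : ∑ χ ∈ S, classInner (powTwist k (χ : G → ℂ)) (χ : G → ℂ) = 1 := by
    simp only [classInner, powTwist]
    rw [← Finset.mul_sum, Finset.sum_comm,
      ← Finset.sum_subset (Finset.subset_univ (Finset.univ.filter (· ∈ N))) (fun g _ hg => by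
        simp only [Finset.mem_filter, Finset.mem_univ, true_and] at hg
        exact hker g hg)]
    have h : ∑ g ∈ Finset.univ.filter (· ∈ N), ∑ χ ∈ S, (χ : G → ℂ) (g ^ k) * conj ((χ : G → ℂ) g)
        = ∑ n : N, (∑ χ ∈ S, (e χ : ℂ) ^ 2) * (Θ n * conj (Θ n)) := by
      symm
      refine Finset.sum_bij (fun n _ => (n : G)) (fun n _ => by simp)
        (fun n _ m _ h => Subtype.ext h) (fun a ha => ?_) (fun n _ => ?_)
      · simp only [Finset.mem_filter, Finset.mem_univ, true_and] at ha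
        exact ⟨⟨a, ha⟩, Finset.mem_univ _, rfl⟩
      · rw [Finset.sum_mul]
        refine Finset.sum_congr rfl fun χ hχ => ?_
        rw [← SubmonoidClass.coe_pow, hres χ hχ, hres χ hχ, hΘk, map_mul, Complex.conj_natCast]
        ring
    rw [h, ← Finset.mul_sum, hΘΘ]
    have hc : (Nat.card N : ℂ) * (N.index : ℂ) = (Nat.card G : ℂ) := by
      exact_mod_cast Subgroup.card_mul_index N
    rw [show (∑ χ ∈ S, (e χ : ℂ) ^ 2) * ((Nat.card N : ℂ) * t)
      = (Nat.card N : ℂ) * ((t : ℂ) * ∑ χ ∈ S, (e χ : ℂ) ^ 2) by ring, hdeg, hc,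
      inv_mul_cancel₀ (natCard_ne_zero G)]
  rw [hfin] at hcount
  exact_mod_cast hcount

theorem existsUnique_fixed (hidx : Odd N.index) {k : ℕ} (hk : k.Coprime (Nat.card G))
    (hk₂ : ∀ g : G, Odd (orderOf g) → g ^ k = g⁻¹) (θ : IrrCharacter N)
    (hθ : ∀ n : N, (θ : N → ℂ) (n ^ k) = (θ : N → ℂ) n) :
    ∃! χ : IrrCharacter G, classInner (fun n : N => (χ : G → ℂ) n) (θ : N → ℂ) ≠ 0 ∧
      ∀ g : G, (χ : G → ℂ) (g ^ k) = (χ : G → ℂ) g := by
  classical
  obtain ⟨χ, hχ⟩ := Finset.card_eq_one.1 (card_fixed_eq_one N hidx hk hk₂ θ hθ)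
  simp only [Finset.ext_iff, Finset.mem_filter, Finset.mem_univ, true_and,
    Finset.mem_singleton, funext_iff, powTwist] at hχ
  exact ⟨χ, (hχ χ).2 rfl, fun χ' h => (hχ χ').1 h⟩

/-- An extendible fixed character has a fixed extension. -/
theorem exists_fixed_extension (hidx : Odd N.index) {k : ℕ} (hk : k.Coprime (Nat.card G))
    (hk₂ : ∀ g : G, Odd (orderOf g) → g ^ k = g⁻¹) (θ : IrrCharacter N)
    (hθ : ∀ n : N, (θ : N → ℂ) (n ^ k) = (θ : N → ℂ) n)
    {ψ : G → ℂ} (hψ : IsIrrCharacter G ψ) (hres : ∀ n : N, ψ n = (θ : N → ℂ) n) :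
    ∃ χ : IrrCharacter G, (∀ n : N, (χ : G → ℂ) n = (θ : N → ℂ) n) ∧
      ∀ g : G, (χ : G → ℂ) (g ^ k) = (χ : G → ℂ) g := by
  have hψ' := powTwist_irr hk hψ
  have hψN : (fun n : N => ψ n) = (θ : N → ℂ) := funext hres
  have hψ'N : ∀ n : N, powTwist k ψ n = (θ : N → ℂ) n := fun n => by
    rw [powTwist, ← SubmonoidClass.coe_pow, hres, hθ]
  obtain ⟨hirr, heq⟩ := (gallagher N hψ (hψN ▸ θ.2) hψ').1 (by
    rw [hψN, show (fun n : N => powTwist k ψ n) = (θ : N → ℂ) from funext hψ'N,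
      irr_inner_self θ.2]
    exact one_ne_zero)
  have h1 : cosetAvg N (powTwist k ψ) ψ 1 = 1 := by
    have := congrFun heq 1
    rw [Pi.mul_apply, powTwist, one_pow] at this
    exact (mul_eq_right₀ (irr_apply_one_ne_zero hψ)).1 this
  obtain ⟨f, hf⟩ := exists_hom_of_degree_one hirr.isCharacter' h1
  have hfN : ∀ g ∈ N, f g = 1 := by
    intro g hg
    have := cosetAvg_mul_coset N (powTwist k ψ) ψ ⟨g, hg⟩ 1
    rw [mul_one, h1, hf] at this
    exact Units.ext this
  obtain ⟨r, hr⟩ := hidx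
  obtain ⟨μ, hμ⟩ : ∃ μ : G →* ℂˣ, ∀ g, μ g = f g ^ (r + 1) :=
    ⟨f ^ (r + 1), fun g => homPow_apply f _ g⟩
  have hμ2 : ∀ g, μ g * μ g = f g := fun g => by
    rw [hμ, ← pow_add, show r + 1 + (r + 1) = N.index + 1 by omega, pow_succ, ← map_pow,
      hfN _ (Subgroup.pow_index_mem N g), one_mul]
  have hμk : ∀ g, μ (g ^ k) = (μ g)⁻¹ := fun g => by
    refine eq_inv_of_mul_eq_one_left ?_
    rw [← map_mul, ← pow_succ, hμ,
      hfN _ (not_conj_of_odd N ⟨r, hr⟩ hk₂ g).1, one_pow]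
  have hirr' : IsIrrCharacter G ((fun g => (μ g : ℂ)) * ψ) := by
    refine isIrr_of_inner_self_one (isCharacter_mul (isCharacter_hom μ) hψ.isCharacter') ?_
    rw [← irr_inner_self hψ, classInner, classInner]
    refine congrArg _ (Finset.sum_congr rfl fun g _ => ?_)
    have hm : (μ g : ℂ) * conj (μ g : ℂ) = 1 := by
      rw [← isCharacter_inv_eq_conj (isCharacter_hom μ) g, map_inv,
        ← Units.val_mul, mul_inv_cancel, Units.val_one]
    simp only [Pi.mul_apply, map_mul]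
    linear_combination (ψ g * conj (ψ g)) * hm
  refine ⟨⟨_, hirr'⟩, fun n => ?_, fun g => ?_⟩
  · show (μ (n : G) : ℂ) * ψ n = _
    rw [hres, hμ, hfN _ n.2, one_pow, Units.val_one, one_mul]
  · show (μ (g ^ k) : ℂ) * ψ (g ^ k) = (μ g : ℂ) * ψ g
    have h := congrFun heq g
    rw [Pi.mul_apply, powTwist, hf] at h
    rw [← h, hμk, ← mul_assoc]
    beta_reduce
    rw [← Units.val_mul, ← hμ2, inv_mul_cancel_left]

end

theorem exists_extension_ppow (q : ℕ) [Fact q.Prime] (k : ℕ) :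
    ∀ (m : ℕ) (G : Type u) [Group G] [Fintype G] (N : Subgroup G) [hN : N.Normal] [Fintype N],
      Nat.card G ≤ m → (∃ a, N.index = q ^ a) → Odd N.index → k.Coprime (Nat.card G) →
      (∀ g : G, Odd (orderOf g) → g ^ k = g⁻¹) → ∀ θ : IrrCharacter N,
      (∀ n : N, (θ : N → ℂ) (n ^ k) = (θ : N → ℂ) n) →
      (∀ g : G, ∀ n : N, (θ : N → ℂ) ⟨g * n * g⁻¹, hN.conj_mem n n.2 g⟩ = (θ : N → ℂ) n) →
      ∃ χ : G → ℂ, IsIrrCharacter G χ ∧ ∀ n : N, χ n = (θ : N → ℂ) n := by
  intro m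
  induction m with
  | zero => intro G _ _ N _ _ hG; exact absurd hG (by have := Nat.card_pos (α := G); omega)
  | succ m ih =>
    intro G _ _ N hN _ hG hq hodd hk hk₂ θ hθ hinv
    classical
    obtain ⟨a, ha⟩ := hq
    have hinv' : ∀ (g : G) (n : N), (θ : N → ℂ) (MulAut.conjNormal g n) = (θ : N → ℂ) n :=
      fun g n => hinv g n
    rcases Nat.eq_zero_or_pos a with h0 | h0
    · have hNtop : N = ⊤ := Subgroup.index_eq_one.1 (by rw [ha, h0, pow_zero])
      exact exists_extension_of_cyclic θ.2 hinv' 1 fun g =>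
        ⟨0, by rw [hNtop]; exact Subgroup.mem_top _⟩
    obtain ⟨b, rfl⟩ : ∃ b, a = b + 1 := ⟨a - 1, by omega⟩
    have hQ : Nat.card (G ⧸ N) = q ^ (b + 1) := by rw [← Subgroup.index_eq_card, ha]
    obtain ⟨K, hK⟩ := Sylow.exists_subgroup_card_pow_prime q
      (G := G ⧸ N) (n := b) (hQ ▸ pow_dvd_pow q (Nat.le_succ b))
    have hKi : K.index = q := by
      have h := Subgroup.card_mul_index K
      rw [hK, hQ, pow_succ] at h
      exact Nat.eq_of_mul_eq_mul_left (pow_pos (Fact.out : q.Prime).pos b) h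
    haveI hKn : K.Normal := Subgroup.normal_of_index_eq_minFac_card (by
      rw [hKi, hQ, Nat.pow_minFac (Nat.succ_ne_zero b), (Fact.out : q.Prime).minFac_eq])
    obtain ⟨P, hP⟩ : ∃ P, P = K.comap (QuotientGroup.mk' N) := ⟨_, rfl⟩
    haveI : P.Normal := hP ▸ hKn.comap _
    have hNP : N ≤ P := fun x hx => by
      rw [hP, Subgroup.mem_comap, QuotientGroup.mk'_apply, (QuotientGroup.eq_one_iff x).2 hx]
      exact one_mem K
    have hPi : P.index = q := by
      rw [hP, Subgroup.index_comap_of_surjective _ (QuotientGroup.mk'_surjective N), hKi]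
    obtain ⟨g₀, hg₀⟩ : ∃ g₀, g₀ ∉ P := by
      by_contra h
      push Not at h
      rw [(Subgroup.eq_top_iff' P).2 h, Subgroup.index_top] at hPi
      exact (Fact.out : q.Prime).one_lt.ne hPi
    have hgen : ∀ g : G, ∃ j : ℤ, g₀ ^ j * g⁻¹ ∈ P := by
      intro g
      obtain ⟨j, hj⟩ := mem_zpowers_of_prime_card (p := q) (G := G ⧸ P)
        (g := (g₀ : G ⧸ P)) (g' := (g : G ⧸ P))
        (by rw [← Subgroup.index_eq_card, hPi]) (fun h => hg₀ ((QuotientGroup.eq_one_iff _).1 h))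
      refine ⟨j, (QuotientGroup.eq_one_iff _).1 ?_⟩
      rw [QuotientGroup.mk_mul, QuotientGroup.mk_zpow, QuotientGroup.mk_inv]
      exact mul_inv_eq_one.2 hj
    haveI : Fintype P := Fintype.ofFinite _
    haveI : Fintype (N.subgroupOf P) := Fintype.ofFinite _
    have hlt : Nat.card P < Nat.card G := by
      rw [← Subgroup.card_mul_index P, hPi]
      exact lt_mul_of_one_lt_right Nat.card_pos (Fact.out : q.Prime).one_lt
    have hdvd : (N.subgroupOf P).index ∣ q ^ (b + 1) := by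
      rw [← ha, ← Subgroup.relIndex_mul_index hNP]
      exact dvd_mul_right _ _
    have hodd' : Odd (N.subgroupOf P).index := hodd.of_dvd_nat (ha ▸ hdvd)
    let eN : (N.subgroupOf P) ≃* N := Subgroup.subgroupOfEquivOfLe hNP
    have hθ' : IsIrrCharacter (N.subgroupOf P) ((θ : N → ℂ) ∘ eN) :=
      isIrrCharacter_comp_equiv θ.2 eN
    have hkP : k.Coprime (Nat.card P) := hk.coprime_dvd_right (Subgroup.card_subgroup_dvd_card P)
    have hk₂P : ∀ g : P, Odd (orderOf g) → g ^ k = g⁻¹ := fun g hg => Subtype.ext (by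
      rw [SubmonoidClass.coe_pow, Subgroup.coe_inv]
      exact hk₂ _ (by rwa [Subgroup.orderOf_coe]))
    have hθk' : ∀ n : N.subgroupOf P, (⟨_, hθ'⟩ : IrrCharacter (N.subgroupOf P)).1 (n ^ k)
        = ((θ : N → ℂ) ∘ eN) n := fun n => by
      show (θ : N → ℂ) (eN (n ^ k)) = _
      rw [map_pow, hθ]; rfl
    obtain ⟨η₀, hη₀, hη₀r⟩ := ih P (N.subgroupOf P) (by omega)
      (by obtain ⟨i, -, hi⟩ := (Nat.dvd_prime_pow (Fact.out : q.Prime)).1 hdvd; exact ⟨i, hi⟩)
      hodd' hkP hk₂P ⟨_, hθ'⟩ hθk' (fun g n => by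
        show (θ : N → ℂ) (eN _) = (θ : N → ℂ) (eN n)
        rw [← hinv (g : G) (eN n)]
        rfl)
    obtain ⟨η, hηr, hηk⟩ := exists_fixed_extension (N.subgroupOf P) hodd' hkP hk₂P ⟨_, hθ'⟩
      hθk' hη₀ hη₀r
    have huniq := existsUnique_fixed (N.subgroupOf P) hodd' hkP hk₂P ⟨_, hθ'⟩ hθk'
    have hinvη : ∀ (g : G) (x : P), (η : P → ℂ) (MulAut.conjNormal g x) = (η : P → ℂ) x := by
      intro g x
      have h2 : (⟨_, isIrrCharacter_conjFn η.2 g⟩ : IrrCharacter P) = η := by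
        refine huniq.unique ⟨?_, fun y => ?_⟩ ⟨?_, hηk⟩
        · have e : (fun n : N.subgroupOf P => conjFn g (η : P → ℂ) n) = (θ : N → ℂ) ∘ eN := by
            funext n
            have hmem : g * ((n : P) : G) * g⁻¹ ∈ N := hN.conj_mem _ n.2 g
            have := hηr ⟨⟨g * ((n : P) : G) * g⁻¹, hNP hmem⟩, hmem⟩
            rw [conjFn_eq_comp]
            exact this.trans (hinv g ⟨((n : P) : G), n.2⟩)
          show classInner (fun n : N.subgroupOf P => conjFn g (η : P → ℂ) n) _ ≠ 0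
          rw [e, irr_inner_self hθ']
          exact one_ne_zero
        · show conjFn g (η : P → ℂ) (y ^ k) = conjFn g (η : P → ℂ) y
          rw [conjFn_eq_comp, Function.comp_apply, Function.comp_apply, map_pow, hηk]
        · rw [show (fun n : N.subgroupOf P => (η : P → ℂ) n) = (θ : N → ℂ) ∘ eN from funext hηr,
            irr_inner_self hθ']
          exact one_ne_zero
      have h3 : conjFn g (η : P → ℂ) x = (η : P → ℂ) x := congrFun (congrArg Subtype.val h2) x
      rw [conjFn_eq_comp] at h3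
      exact h3
    obtain ⟨χ, hχ, hχr⟩ := exists_extension_of_cyclic η.2 hinvη g₀ hgen
    refine ⟨χ, hχ, fun n => ?_⟩
    rw [show (n : G) = (((⟨⟨(n : G), hNP n.2⟩, n.2⟩ : N.subgroupOf P) : P) : G) from rfl, hχr, hηr]
    rfl


/-- Let N be a normal subgroup of odd index in the finite group G, and let k be coprime to the order of G with k ^ (2 ^ e) ≡ 1 modulo the order of G for some e and g ^ k = g⁻¹ for every element g of odd order (so g ↦ g ^ k induces a field automorphism of 2-power order inverting the roots of unity of odd order). If an irreducible character θ of N satisfies θ (n ^ k) = θ n for all n, then there is exactly one irreducible character χ of G with θ a constituent of its restriction to N and χ (g ^ k) = χ g for all g; moreover, if θ is invariant under conjugation by G, that χ restricts to θ. -/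
theorem result {G : Type*} [Group G] [Fintype G] (N : Subgroup G) [hN : N.Normal] [Fintype N] (hidx : Odd N.index) (k e : ℕ) (hk : Nat.Coprime k (Nat.card G)) (hke : k ^ (2 ^ e) ≡ 1 [MOD Nat.card G]) (hk₂ : ∀ g : G, Odd (orderOf g) → g ^ k = g⁻¹) (θ : Cfsg.IrrCharacter N) (hθ : ∀ n : N, (θ : N → ℂ) (n ^ k) = (θ : N → ℂ) n) : ∃ χ : Cfsg.IrrCharacter G, (Cfsg.classInner (fun n : N => (χ : G → ℂ) n) (θ : N → ℂ) ≠ 0 ∧ (∀ g : G, (χ : G → ℂ) (g ^ k) = (χ : G → ℂ) g) ∧ ((∀ g : G, ∀ n : N, (θ : N → ℂ) ⟨g * n * g⁻¹, hN.conj_mem n n.2 g⟩ = (θ : N → ℂ) n) → ∀ n : N, (χ : G → ℂ) n = (θ : N → ℂ) n)) ∧ ∀ χ' : Cfsg.IrrCharacter G, Cfsg.classInner (fun n : N => (χ' : G → ℂ) n) (θ : N → ℂ) ≠ 0 → (∀ g : G, (χ' : G → ℂ) (g ^ k) = (χ' : G → ℂ) g) → χ' = χ := by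
  classical
  obtain ⟨χ, ⟨h1, h2⟩, huniq⟩ := existsUnique_fixed N hidx hk hk₂ θ hθ
  refine ⟨χ, ⟨h1, h2, fun hinv => ?_⟩, fun χ' a b => huniq χ' ⟨a, b⟩⟩
  obtain ⟨ψ, hψ, hψr⟩ : ∃ ψ : G → ℂ, IsIrrCharacter G ψ ∧ ∀ n : N, ψ n = (θ : N → ℂ) n := by
    refine exists_extension_of_sylow θ.2 (fun g n => hinv g n) fun q hq => ?_
    haveI := Fact.mk hq
    obtain ⟨S⟩ : Nonempty (Sylow q (G ⧸ N)) := inferInstance
    obtain ⟨P, hP⟩ : ∃ P, P = (S : Subgroup (G ⧸ N)).comap (QuotientGroup.mk' N) := ⟨_, rfl⟩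
    have hNP : N ≤ P := fun x hx => by
      rw [hP, Subgroup.mem_comap, QuotientGroup.mk'_apply, (QuotientGroup.eq_one_iff x).2 hx]
      exact one_mem _
    have hPi : P.index = (S : Subgroup (G ⧸ N)).index := by
      rw [hP, Subgroup.index_comap_of_surjective _ (QuotientGroup.mk'_surjective N)]
    haveI : Fintype P := Fintype.ofFinite _
    haveI : Fintype (N.subgroupOf P) := Fintype.ofFinite _
    have hrel : (N.subgroupOf P).index = Nat.card (S : Subgroup (G ⧸ N)) := by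
      have e1 : N.relIndex P * P.index = N.index := Subgroup.relIndex_mul_index hNP
      have e2 := Subgroup.card_mul_index (S : Subgroup (G ⧸ N))
      rw [hPi, Subgroup.index_eq_card N, ← e2] at e1
      exact Nat.eq_of_mul_eq_mul_right (Nat.pos_of_ne_zero Subgroup.index_ne_zero_of_finite) e1
    have hqi : ∃ a, (N.subgroupOf P).index = q ^ a := by
      rw [hrel, S.card_eq_multiplicity]; exact ⟨_, rfl⟩
    have hodd' : Odd (N.subgroupOf P).index :=
      hidx.of_dvd_nat (Subgroup.relIndex_mul_index hNP ▸ dvd_mul_right _ _)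
    let eN : (N.subgroupOf P) ≃* N := Subgroup.subgroupOfEquivOfLe hNP
    obtain ⟨η, hη, hηr⟩ := exists_extension_ppow q k (Nat.card P) P (N.subgroupOf P) le_rfl hqi
      hodd' (hk.coprime_dvd_right (Subgroup.card_subgroup_dvd_card P))
      (fun g hg => Subtype.ext (by
        rw [SubmonoidClass.coe_pow, Subgroup.coe_inv]
        exact hk₂ _ (by rwa [Subgroup.orderOf_coe])))
      ⟨_, isIrrCharacter_comp_equiv θ.2 eN⟩
      (fun n => by
        show (θ : N → ℂ) (eN (n ^ k)) = (θ : N → ℂ) (eN n)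
        rw [map_pow, hθ])
      (fun g n => by
        show (θ : N → ℂ) (eN _) = (θ : N → ℂ) (eN n)
        rw [← hinv (g : G) (eN n)]
        rfl)
    refine ⟨P, hNP, η, ?_, hη, fun n => hηr ⟨⟨(n : G), hNP n.2⟩, n.2⟩⟩
    rw [hPi]
    exact ((hq.coprime_iff_not_dvd).2 S.not_dvd_index).symm
  obtain ⟨χ', hr', hk'⟩ := exists_fixed_extension N hidx hk hk₂ θ hθ hψ hψr
  have : χ' = χ := huniq χ' ⟨by
    rw [show (fun n : N => (χ' : G → ℂ) n) = (θ : N → ℂ) from funext hr', irr_inner_self θ.2]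
    exact one_ne_zero, hk'⟩
  exact this ▸ hr'

end Cfsg.Agent.S4519
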