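import Cfsg.Statements.S4520
import Cfsg.Agent.Lib.BlockTwoReal
import Cfsg.Agent.Lib.BlockPrincipalNormal
import Cfsg.Agent.Lib.CharGalois
import Cfsg.Agent.Lib.CharDegree
import Cfsg.Agent.Lib.BlockDefect

set_option autoImplicit false
open Cfsg
open CfsgLib.Block CfsgLib.Char

namespace Cfsg.Agent.S4520

/-- Let N be a normal subgroup of odd index in the finite group G, M a maximal ideal of the algebraic integers containing 2, and k coprime to the order of G with k ^ (2 ^ e) ≡ 1 modulo the order of G for some e and g ^ k = g⁻¹ for every element g of odd order. Let θ be an irreducible character of N and χ an irreducible character of G over θ, both unchanged by composing with g ↦ g ^ k. Then χ lies in the principal 2-block of G if and only if θ lies in the principal 2-block of N. -/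
theorem result {G : Type*} [Group G] [Fintype G] (M : Ideal Cfsg.AlgInt) (hM : Cfsg.IsPModular 2 M) (N : Subgroup G) [N.Normal] [Fintype N] (hidx : Odd N.index) (k e : ℕ) (hk : Nat.Coprime k (Nat.card G)) (hke : k ^ (2 ^ e) ≡ 1 [MOD Nat.card G]) (hk₂ : ∀ g : G, Odd (orderOf g) → g ^ k = g⁻¹) (θ : Cfsg.IrrCharacter N) (hθ : ∀ n : N, (θ : N → ℂ) (n ^ k) = (θ : N → ℂ) n) (χ : Cfsg.IrrCharacter G) (hχ : ∀ g : G, (χ : G → ℂ) (g ^ k) = (χ : G → ℂ) g) (hover : Cfsg.classInner (fun n : N => (χ : G → ℂ) n) (θ : N → ℂ) ≠ 0) : χ ∈ Cfsg.principalBlock M G ↔ θ ∈ Cfsg.principalBlock M N := by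
  classical
  haveI : Fact (Nat.Prime 2) := ⟨Nat.prime_two⟩
  refine ⟨fun h => mem_principal_of_over hM h hover, fun hθB => ?_⟩
  set B := blockOf M (χ : G → ℂ) with hBdef
  have hB : IsPBlock M B := isPBlock_blockOf χ
  have hχB : χ ∈ B := mem_blockOf_self hM χ
  -- a member over the trivial character has odd degree
  obtain ⟨ψ, hψB, hψ⟩ := exists_over_of_covers hM hB (isPBlock_principal M)
    ⟨χ, hχB, θ, hθB, hover⟩ (trivIrr_mem_principal (G := N) hM)
  have hψodd : ¬ 2 ∣ charDegree (ψ : G → ℂ) := by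
    obtain ⟨m, hm⟩ := inner_character_nat (isCharacter_restrict ψ.2.isCharacter' N)
      (trivIrr N).2.isCharacter'
    have horb : conjOrbit (G := G) ((trivIrr N : IrrCharacter N) : N → ℂ) =
        {((trivIrr N : IrrCharacter N) : N → ℂ)} := by
      refine Finset.eq_singleton_iff_unique_mem.2 ⟨self_mem_conjOrbit _, fun φ hφ => ?_⟩
      obtain ⟨g, rfl⟩ := mem_conjOrbit.1 hφ
      rfl
    have hcl := clifford ψ.2 (trivIrr N).2 hψ
    rw [horb, Finset.sum_singleton, hm] at hcl
    have hd := mult_dvd_index ψ.2 (trivIrr N).2 (fun g n => rfl) m hcl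
    have h1 : (ψ : G → ℂ) 1 = (m : ℂ) := by
      have := congrFun hcl 1
      simpa [trivIrr] using this
    have : charDegree (ψ : G → ℂ) = m := by simp [charDegree, h1]
    rw [this]
    exact fun h2 => hidx.not_two_dvd_nat (h2.trans hd)
  -- the block is stable under the Galois twist
  let τ : IrrCharacter G → IrrCharacter G := fun ξ => ⟨powTwist k (ξ : G → ℂ), powTwist_irr hk ξ.2⟩
  have hinj : Function.Injective fun g : G => g ^ k := (powCoprime (Nat.Coprime.symm hk)).injective
  have hCpow : ∀ g : G, Subgroup.centralizer ({g ^ k} : Set G) = Subgroup.centralizer ({g} : Set G) := by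
    intro g
    ext x
    simp only [Subgroup.mem_centralizer_singleton_iff]
    refine ⟨fun h => ?_, fun h => (Commute.pow_right (show Commute x g from h) k).eq⟩
    obtain ⟨i, hi⟩ := exists_pow_eq_self_of_coprime (hk.coprime_dvd_right (orderOf_dvd_natCard g))
    rw [← hi]
    exact (Commute.pow_right (show Commute x (g ^ k) from h) i).eq
  have hcc : ∀ (ξ : IrrCharacter G) (g : G),
      centralChar (τ ξ : G → ℂ) g = centralChar (ξ : G → ℂ) (g ^ k) := fun ξ g => by
    simp only [centralChar, τ, powTwist, one_pow, hCpow]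
  have hmem : ∀ ξ, ξ ∈ B → τ ξ ∈ B := fun ξ hξ g => by
    rw [hcc]
    have h1 : centralChar (χ : G → ℂ) g = centralChar (χ : G → ℂ) (g ^ k) := by
      simp only [centralChar, hCpow, hχ]
    rw [h1]
    exact sameBlock_of_mem hM hB hχB hξ (g ^ k)
  have hτinj : Function.Injective τ := fun ξ ξ' h => Subtype.ext (funext fun g => by
    obtain ⟨i, hi⟩ := exists_pow_eq_self_of_coprime (hk.coprime_dvd_right (orderOf_dvd_natCard g))
    have := congrFun (congrArg Subtype.val h) (g ^ i)
    simp only [τ] at this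
    rwa [show powTwist k (ξ : G → ℂ) (g ^ i) = (ξ : G → ℂ) g by
        rw [powTwist, ← pow_mul, mul_comm, pow_mul, hi],
      show powTwist k (ξ' : G → ℂ) (g ^ i) = (ξ' : G → ℂ) g by
        rw [powTwist, ← pow_mul, mul_comm, pow_mul, hi]] at this)
  have hτbij : Function.Bijective τ := Finite.injective_iff_bijective.1 hτinj
  have hmem' : ∀ ξ, τ ξ ∈ B ↔ ξ ∈ B := by
    intro ξ
    refine ⟨fun h => ?_, hmem ξ⟩
    let s : {x // x ∈ B} → {x // x ∈ B} := fun x => ⟨τ x.1, hmem _ x.2⟩
    have hs : Function.Surjective s := Finite.injective_iff_surjective.1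
      fun a b h => Subtype.ext (hτinj (congrArg Subtype.val h))
    obtain ⟨⟨ξ', hξ'⟩, he⟩ := hs ⟨τ ξ, h⟩
    rw [← hτinj (congrArg Subtype.val he)]
    exact hξ'
  have hinv : ∀ g, gFn hM B g⁻¹ = gFn hM B g := by
    intro g
    by_cases hg : Odd (orderOf g)
    · have e : blockCoeff B g⁻¹ = blockCoeff B g := by
        rw [← hk₂ g hg, blockCoeff_eq_coef, blockCoeff_eq_coef, CfsgLib.Block.coef,
          CfsgLib.Block.coef]
        congr 1
        conv_rhs => rw [← Equiv.sum_comp (Equiv.ofBijective τ hτbij)]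
        refine Finset.sum_congr rfl fun ξ _ => ?_
        show _ = indVal B (τ ξ) * (ξ : G → ℂ) (1 ^ k) * (starRingEnd ℂ) ((ξ : G → ℂ) (g ^ k))
        rw [one_pow]
        simp only [indVal, hmem']
      simp only [gFn, e]
    · have h2 : 2 ∣ orderOf g := even_iff_two_dvd.1 (Nat.not_odd_iff_even.1 hg)
      rw [gFn_block hM hB, cred_bIdem_singular hM hB h2,
        cred_bIdem_singular hM hB (by rwa [orderOf_inv])]
  rw [← eq_principal_of_inv_stable hM hB (blockMin_eq_zero_of_odd hM hB hψB hψodd) hinv]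
  exact hχB

end Cfsg.Agent.S4520
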