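import Cfsg.Statements.S4521
import Cfsg.Agent.Lib.BlockPrincipalNormal
import Cfsg.Agent.Lib.CharBrauer3

set_option autoImplicit false
set_option maxHeartbeats 300000
open Cfsg CfsgLib.Block CfsgLib.Char

namespace Cfsg.Agent.S4521

/-- Let the finite group G be generated by subgroups U₁ and U₂ that commute elementwise and whose intersection is a p-group, and let M be a maximal ideal of the algebraic integers containing the prime p. If the irreducible character χ of G has the irreducible constituents ψ₁ on U₁ and ψ₂ on U₂, then χ lies in the principal block of G if and only if ψ₁ and ψ₂ lie in the principal blocks of U₁ and U₂. -/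
theorem result {G : Type*} [Group G] [Fintype G] (p : ℕ) [Fact p.Prime] (M : Ideal Cfsg.AlgInt) (hM : Cfsg.IsPModular p M) (U₁ U₂ : Subgroup G) [Fintype U₁] [Fintype U₂] (hcomm : ∀ u ∈ U₁, ∀ v ∈ U₂, u * v = v * u) (hgen : U₁ ⊔ U₂ = ⊤) (hZ : IsPGroup p ↥(U₁ ⊓ U₂)) (χ : Cfsg.IrrCharacter G) (ψ₁ : Cfsg.IrrCharacter U₁) (ψ₂ : Cfsg.IrrCharacter U₂) (h₁ : Cfsg.classInner (fun u : U₁ => (χ : G → ℂ) u) (ψ₁ : U₁ → ℂ) ≠ 0) (h₂ : Cfsg.classInner (fun u : U₂ => (χ : G → ℂ) u) (ψ₂ : U₂ → ℂ) ≠ 0) : χ ∈ Cfsg.principalBlock M G ↔ (ψ₁ ∈ Cfsg.principalBlock M U₁ ∧ ψ₂ ∈ Cfsg.principalBlock M U₂) := by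
  classical
  have hgfac : ∀ g : G, ∃ a ∈ U₁, ∃ b ∈ U₂, g = a * b := by
    intro g
    have : g ∈ Subgroup.closure ((U₁ : Set G) ∪ (U₂ : Set G)) := by
      rw [← Subgroup.sup_eq_closure, hgen]; exact Subgroup.mem_top g
    induction this using Subgroup.closure_induction'' with
    | one => exact ⟨1, one_mem _, 1, one_mem _, (one_mul 1).symm⟩
    | mem x hx =>
      rcases hx with hx | hx
      · exact ⟨x, hx, 1, one_mem _, (mul_one x).symm⟩
      · exact ⟨1, one_mem _, x, hx, (one_mul x).symm⟩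
    | inv_mem x hx =>
      rcases hx with hx | hx
      · exact ⟨x⁻¹, inv_mem hx, 1, one_mem _, (mul_one _).symm⟩
      · exact ⟨1, one_mem _, x⁻¹, inv_mem hx, (one_mul _).symm⟩
    | mul x y _ _ hx hy =>
      obtain ⟨a, ha, b, hb, rfl⟩ := hx
      obtain ⟨c, hc, d, hd, rfl⟩ := hy
      refine ⟨a * c, mul_mem ha hc, b * d, mul_mem hb hd, ?_⟩
      rw [show a * b * (c * d) = a * (b * c) * d by group, ← hcomm c hc b hb]
      group
  have hN1 : U₁.Normal := ⟨fun n hn g => by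
    obtain ⟨a, ha, b, hb, rfl⟩ := hgfac g
    have h : a * b * n * (a * b)⁻¹ = a * n * a⁻¹ := by
      rw [mul_assoc a b n, ← hcomm n hn b hb]; group
    rw [h]; exact mul_mem (mul_mem ha hn) (inv_mem ha)⟩
  have hN2 : U₂.Normal := ⟨fun n hn g => by
    obtain ⟨a, ha, b, hb, rfl⟩ := hgfac g
    have h : a * b * n * (a * b)⁻¹ = b * n * b⁻¹ := by
      have h2 := hcomm a ha (b * n * b⁻¹) (mul_mem (mul_mem hb hn) (inv_mem hb))
      rw [show a * b * n * (a * b)⁻¹ = a * (b * n * b⁻¹) * a⁻¹ by group, h2]; group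
    rw [h]; exact mul_mem (mul_mem hb hn) (inv_mem hb)⟩
  refine ⟨fun hχ => ⟨mem_principal_of_over hM hχ h₁, mem_principal_of_over hM hχ h₂⟩, ?_⟩
  rintro ⟨hp1, hp2⟩
  have hp := (Fact.out : p.Prime)
  -- the character is a product on the two factors
  have hprod : ∀ a ∈ U₁, ∀ b ∈ U₂, (χ : G → ℂ) (a * b)
      = (χ : G → ℂ) a * (χ : G → ℂ) b / (χ : G → ℂ) 1 := by
    intro a ha b hb
    have h := sum_conj_mul χ a b
    have hterm : ∀ x : G, (χ : G → ℂ) (x * a * x⁻¹ * b) = (χ : G → ℂ) (a * b) := by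
      intro x
      obtain ⟨c, hc, d, hd, rfl⟩ := hgfac x
      have e1 : c * d * a * (c * d)⁻¹ * b = c * (a * b) * c⁻¹ := by
        have q1 : d * a = a * d := (hcomm a ha d hd).symm
        have q2 : c⁻¹ * b = b * c⁻¹ := hcomm c⁻¹ (inv_mem hc) b hb
        calc c * d * a * (c * d)⁻¹ * b = c * (d * a) * d⁻¹ * (c⁻¹ * b) := by group
          _ = c * (a * d) * d⁻¹ * (b * c⁻¹) := by rw [q1, q2]
          _ = c * (a * b) * c⁻¹ := by group
      rw [e1]
      exact classFun_isConj (irr_classFunction χ) (isConj_iff.2 ⟨c, rfl⟩)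
    rw [Finset.sum_congr rfl (fun x _ => hterm x), Finset.sum_const, Finset.card_univ,
      nsmul_eq_mul, ← Nat.card_eq_fintype_card, mul_assoc, mul_div_assoc] at h
    exact mul_left_cancel₀ (natCard_ne_zero G) h
  have hhom : ∀ (U : Subgroup G) [Fintype U] [U.Normal] (W : Subgroup G),
      (∀ g : G, ∃ a ∈ U, ∃ b ∈ W, g = a * b) → (∀ u ∈ U, ∀ v ∈ W, u * v = v * u) →
      ∀ ψ : Cfsg.IrrCharacter U, Cfsg.classInner (fun u : U => (χ : G → ℂ) u) (ψ : U → ℂ) ≠ 0 →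
      ∀ u : U, (χ : G → ℂ) u / (χ : G → ℂ) 1 = (ψ : U → ℂ) u / (ψ : U → ℂ) 1 := by
    intro U _ _ W hfac hc ψ hψ u
    have horb : conjOrbit (ψ : U → ℂ) = {(ψ : U → ℂ)} := by
      ext φ
      rw [mem_conjOrbit, Finset.mem_singleton]
      refine ⟨?_, fun h => ⟨1, by rw [h, conjFn_one]⟩⟩
      rintro ⟨g, rfl⟩
      obtain ⟨a, ha, b, hb, rfl⟩ := hfac g
      rw [conjFn_mul, conjFn_of_mem (irr_classFunction ψ) ha, conjFn_eq_comp]
      funext n
      refine congrArg (ψ : U → ℂ) (Subtype.ext ?_)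
      show b * (n : G) * b⁻¹ = n
      rw [← hc n n.2 b hb, mul_inv_cancel_right]
    have hcl := clifford χ.2 ψ.2 hψ
    rw [horb, Finset.sum_singleton] at hcl
    have e1 := congrFun hcl u
    have e2 := congrFun hcl 1
    simp only [Pi.smul_apply, smul_eq_mul, OneMemClass.coe_one] at e1 e2
    rw [e1, e2, mul_div_mul_left _ _ hψ]
  have hfac2 : ∀ g : G, ∃ a ∈ U₂, ∃ b ∈ U₁, g = a * b := fun g => by
    obtain ⟨a, ha, b, hb, rfl⟩ := hgfac g
    exact ⟨b, hb, a, ha, hcomm a ha b hb⟩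
  have r1 := hhom U₁ U₂ hgfac hcomm ψ₁ h₁
  have r2 := hhom U₂ U₁ hfac2 (fun u hu v hv => (hcomm v hv u hu).symm) ψ₂ h₂
  obtain ⟨a, ha⟩ := exists_partExp (m := p ^ (Nat.card G).factorization p)
    (n := Nat.card G / p ^ (Nat.card G).factorization p)
    ((Nat.coprime_ordCompl hp Nat.card_pos.ne').pow_left _)
  have hpreg : ∀ g : G, ¬ p ∣ orderOf g → g ^ a = g := fun g hg => ha.eq_self
    (orderOf_dvd_iff_pow_eq_one.1 ((Nat.Coprime.pow_right _
      (hp.coprime_iff_not_dvd.2 hg).symm).dvd_of_dvd_mul_left (by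
        rw [Nat.ordProj_mul_ordCompl_eq_self]; exact orderOf_dvd_natCard g)))
  have hregpow : ∀ g : G, ¬ p ∣ orderOf (g ^ a) := fun g hd => by
    have h := orderOf_dvd_iff_pow_eq_one.2 (ha.pow_n (x := g) (by
      rw [Nat.ordProj_mul_ordCompl_eq_self]; exact pow_card_eq_one'))
    exact hp.coprime_iff_not_dvd.1 (Nat.coprime_ordCompl hp Nat.card_pos.ne') (hd.trans h)
  have hmulreg : ∀ x y : G, x * y = y * x → ¬ p ∣ orderOf x → ¬ p ∣ orderOf y →
      ¬ p ∣ orderOf (x * y) := fun x y hxy hx hy hd =>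
    (hp.dvd_mul.1 (hd.trans (Commute.orderOf_mul_dvd_mul_orderOf hxy))).elim hx hy
  -- the pairs of regular elements parametrise the regular elements
  have hsum : ∀ F : G → ℂ, (∀ g, p ∣ orderOf g → F g = 0) →
      ∑ g, F g = ∑ v : U₂, ∑ u : U₁,
        if ¬ p ∣ orderOf (v : G) then F ((u : G) * v) else 0 := by
    intro F hF
    let I : U₂ × U₁ → Prop := fun q => ¬ p ∣ orderOf (q.1 : G) ∧ ¬ p ∣ orderOf (q.2 : G)
    have hstep : (∑ v : U₂, ∑ u : U₁, if ¬ p ∣ orderOf (v : G) then F ((u : G) * v) else 0)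
        = ∑ q ∈ Finset.univ.filter I, F ((q.2 : G) * q.1) := by
      rw [← Fintype.sum_prod_type' (f := fun (v : U₂) (u : U₁) =>
        if ¬ p ∣ orderOf (v : G) then F ((u : G) * v) else 0), Finset.sum_filter]
      refine Finset.sum_congr rfl fun q _ => ?_
      show (if ¬ p ∣ orderOf (q.1 : G) then F ((q.2 : G) * q.1) else 0)
        = if I q then F ((q.2 : G) * q.1) else 0
      by_cases h1 : p ∣ orderOf (q.1 : G)
      · rw [if_neg (by simpa using h1), if_neg (fun h => h.1 h1)]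
      by_cases h2 : p ∣ orderOf (q.2 : G)
      · rw [if_pos h1, if_neg (fun h => h.2 h2)]
        refine hF _ ?_
        by_contra hd
        have hcom := hcomm _ q.2.2 _ q.1.2
        have := hmulreg ((q.2 : G) * q.1) (q.1 : G)⁻¹
          (by rw [mul_inv_cancel_right, hcom, inv_mul_cancel_left]) hd
          (by rwa [orderOf_inv])
        rw [mul_inv_cancel_right] at this
        exact this h2
      · rw [if_pos h1, if_pos ⟨h1, h2⟩]
    rw [hstep, ← Finset.sum_filter_of_ne (s := (Finset.univ : Finset G))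
      (p := fun g => ¬ p ∣ orderOf g) (fun g _ hne hd => hne (hF g hd))]
    symm
    refine Finset.sum_bij (fun q _ => (q.2 : G) * q.1) ?_ ?_ ?_ (fun _ _ => rfl)
    · intro q hq
      rw [Finset.mem_filter] at hq ⊢
      exact ⟨Finset.mem_univ _, hmulreg _ _ (hcomm _ q.2.2 _ q.1.2) hq.2.2 hq.2.1⟩
    · intro q hq q' hq' he
      rw [Finset.mem_filter] at hq hq'
      have hz : ((q'.2 : G))⁻¹ * q.2 = (q'.1 : G) * (q.1 : G)⁻¹ := by
        rw [eq_mul_inv_iff_mul_eq, mul_assoc, he, inv_mul_cancel_left]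
      have hmem : ((q'.2 : G))⁻¹ * q.2 ∈ U₁ ⊓ U₂ :=
        Subgroup.mem_inf.2
          ⟨U₁.mul_mem (U₁.inv_mem q'.2.2) q.2.2, hz ▸ U₂.mul_mem q'.1.2 (U₂.inv_mem q.1.2)⟩
      have hc : Commute ((q'.2 : G))⁻¹ (q.2 : G) := by
        have h' : ((q'.2 : G))⁻¹ * q.2 * (q'.2 : G) = (q'.2 : G) * (((q'.2 : G))⁻¹ * q.2) :=
          (hcomm _ q'.2.2 _ hmem.2).symm
        rw [mul_inv_cancel_left] at h'
        show ((q'.2 : G))⁻¹ * q.2 = q.2 * ((q'.2 : G))⁻¹
        rw [eq_mul_inv_iff_mul_eq]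
        exact h'
      have hr : ¬ p ∣ orderOf (((q'.2 : G))⁻¹ * q.2) :=
        hmulreg _ _ hc (by rw [orderOf_inv]; exact hq'.2.2) hq.2.2
      have hone : ((q'.2 : G))⁻¹ * q.2 = 1 := by
        obtain ⟨j, hj⟩ := hZ ⟨_, hmem⟩
        have hj' : (((q'.2 : G))⁻¹ * q.2) ^ p ^ j = 1 := by
          have := congrArg Subtype.val hj; simpa using this
        rw [← orderOf_eq_one_iff]
        exact Nat.eq_one_of_dvd_coprimes (((hp.coprime_iff_not_dvd.2 hr).symm).pow_right j)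
          dvd_rfl (orderOf_dvd_iff_pow_eq_one.2 hj')
      refine Prod.ext (Subtype.ext ?_) (Subtype.ext (inv_mul_eq_one.1 hone).symm)
      exact (mul_inv_eq_one.1 (hz.symm.trans hone)).symm
    · intro g hg
      rw [Finset.mem_filter] at hg
      obtain ⟨x, hx, y, hy, rfl⟩ := hgfac g
      refine ⟨(⟨y ^ a, pow_mem hy a⟩, ⟨x ^ a, pow_mem hx a⟩), ?_, ?_⟩
      · rw [Finset.mem_filter]; exact ⟨Finset.mem_univ _, hregpow y, hregpow x⟩
      · show x ^ a * y ^ a = x * y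
        rw [← (show Commute x y from hcomm x hx y hy).mul_pow, hpreg _ hg.2]
  have hB : IsPBlock M (principalBlock M G) := isPBlock_principal M
  obtain ⟨f, hf⟩ : ∃ f, f = coef (indVal (principalBlock M G)) := ⟨_, rfl⟩
  have hfint : ∀ g, f g ∈ locRing hM := fun g => hf ▸ indVal_mem hM hB g
  have hfcl : IsClassFunction G f := hf ▸ coef_classFunction _
  have hfs : ∀ g, p ∣ orderOf g → f g = 0 := fun g hg => hf ▸ coef_indVal_singular hM hB hg
  have hFcl : ∀ v : U₂, IsClassFunction U₁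
      (fun u : U₁ => if ¬ p ∣ orderOf (v : G) then f ((u : G) * v) else 0) := fun v u w => by
    show ite _ _ _ = ite _ _ _
    refine if_congr Iff.rfl ?_ rfl
    have e : (w : G) * u * (w : G)⁻¹ * v = (w : G) * (u * v) * (w : G)⁻¹ := by
      rw [mul_assoc _ (w : G)⁻¹, hcomm _ (inv_mem w.2) _ v.2]; group
    push_cast
    rw [e]
    exact classFun_isConj hfcl (isConj_iff.2 ⟨w, rfl⟩)
  have hFint : ∀ (v : U₂) (u : U₁),
      (if ¬ p ∣ orderOf (v : G) then f ((u : G) * v) else 0) ∈ locRing hM := fun v u => by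
    split_ifs
    · exact zero_mem _
    · exact hfint _
  let H : Cfsg.IrrCharacter U₁ → U₂ → ℂ := fun ξ v => om (ξ : U₁ → ℂ)
    (fun u : U₁ => if ¬ p ∣ orderOf (v : G) then f ((u : G) * v) else 0)
  have hHint : ∀ ξ v, H ξ v ∈ locRing hM := fun ξ v =>
    val_mem hM (ofFun hM _ (hFcl v) (hFint v)).2 ξ
  have hHcl : ∀ ξ, IsClassFunction U₂ (H ξ) := fun ξ v w => by
    refine congrArg (om (ξ : U₁ → ℂ)) (funext fun u => ?_)
    have e : (u : G) * ((w : G) * v * (w : G)⁻¹) = (w : G) * (u * v) * (w : G)⁻¹ := by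
      rw [← mul_assoc, ← mul_assoc, hcomm _ u.2 _ w.2]; group
    push_cast
    rw [e, classFun_isConj hfcl (isConj_iff.2 ⟨(w : G), rfl⟩)]
    have ho : orderOf ((w : G) * v * (w : G)⁻¹) = orderOf (v : G) := orderOf_conj_eq _ _
    rw [ho]
  have hkey : ∀ (θ : Cfsg.IrrCharacter G) (ξ : Cfsg.IrrCharacter U₁) (η : Cfsg.IrrCharacter U₂),
      (∀ (u : U₁) (v : U₂), (θ : G → ℂ) ((u : G) * v) / (θ : G → ℂ) 1
        = (ξ : U₁ → ℂ) u / (ξ : U₁ → ℂ) 1 * ((η : U₂ → ℂ) v / (η : U₂ → ℂ) 1)) →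
      om (θ : G → ℂ) f = om (η : U₂ → ℂ) (H ξ) := by
    intro θ ξ η hval
    unfold om H
    simp only [om, Finset.sum_div]
    rw [hsum (fun g => f g * (θ : G → ℂ) g / (θ : G → ℂ) 1)
      (fun g hg => by simp [hfs g hg])]
    refine Finset.sum_congr rfl fun v _ => ?_
    rw [Finset.sum_mul, Finset.sum_div]
    refine Finset.sum_congr rfl fun u _ => ?_
    split_ifs with hv
    · simp
    · rw [mul_div_assoc, hval u v]; ring
  have e1 : om (χ : G → ℂ) f = om (ψ₂ : U₂ → ℂ) (H ψ₁) := hkey χ ψ₁ ψ₂ fun u v => by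
    rw [hprod _ u.2 _ v.2, ← r1 u, ← r2 v]; ring
  have e2 : om (trivIrr G : G → ℂ) f = om (trivIrr U₂ : U₂ → ℂ) (H (trivIrr U₁)) :=
    hkey _ _ _ fun u v => by simp [trivIrr]
  have hcong : ev hM ψ₂ (ofFun hM _ (hHcl ψ₁) (hHint ψ₁))
      = ev hM (trivIrr U₂) (ofFun hM _ (hHcl (trivIrr U₁)) (hHint (trivIrr U₁))) := by
    rw [(sameBlock_iff_ev hM _ _).1 (sameBlock_of_mem hM (isPBlock_principal M) hp2
      (trivIrr_mem_principal hM)), ev_eq_sum, ev_eq_sum]
    refine Finset.sum_congr rfl fun C _ => ?_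
    rw [cred_ofFun, cred_ofFun]
    refine congrArg (· * _) ?_
    exact (sameBlock_iff_ev hM _ _).1 (sameBlock_of_mem hM (isPBlock_principal M) hp1
      (trivIrr_mem_principal hM)) (ofFun hM _ (hFcl (Quotient.out C)) (hFint (Quotient.out C)))
  have hv : ∀ θ : Cfsg.IrrCharacter G, om (θ : G → ℂ) f = indVal (principalBlock M G) θ :=
    fun θ => hf ▸ om_coef _ θ
  by_contra hn
  have z1 : om (ψ₂ : U₂ → ℂ) (H ψ₁) = 0 := by
    rw [← e1, hv, indVal, if_neg hn]
  have z2 : om (trivIrr U₂ : U₂ → ℂ) (H (trivIrr U₁)) = 1 := by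
    rw [← e2, hv, indVal, if_pos (trivIrr_mem_principal hM)]
  have h0 : (0 : ResField M) = 1 := by
    calc (0 : ResField M) = res hM 0 := (map_zero _).symm
      _ = ev hM ψ₂ (ofFun hM _ (hHcl ψ₁) (hHint ψ₁)) := congrArg (res hM) (Subtype.ext z1.symm)
      _ = _ := hcong
      _ = res hM 1 := congrArg (res hM) (Subtype.ext z2)
      _ = 1 := map_one _
  letI : Field (ResField M) := @Ideal.Quotient.field _ _ M hM.2.1
  exact zero_ne_one h0

end Cfsg.Agent.S4521
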