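import Cfsg.Statements.S4539
import Cfsg.Agent.Lib.BlockQuadAvg
import Cfsg.Agent.Lib.BlockMatLattice

set_option autoImplicit false
open Cfsg
open CfsgLib.Block CfsgLib.Char
open scoped Classical


namespace Cfsg.Agent.S4539

/-- Let B be a p-block of the finite group G (relative to a maximal ideal M of the algebraic integers containing p) of defect d with defect group D. Let z be an element of D commuting with every element of D, and let b be a block of the centralizer C of z with defect group D that induces B (a major subsection (z, b)). If b has p-regular rank at most two, then B contains at most p ^ d irreducible characters. -/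
theorem result {G : Type*} [Group G] [Finite G] (p : ℕ) [Fact p.Prime] (M : Ideal Cfsg.AlgInt) (hM : Cfsg.IsPModular p M) (B : Set (Cfsg.IrrCharacter G)) (hB : Cfsg.IsPBlock M B) (D : Subgroup G) (hD : Cfsg.IsDefectGroup p M B D) (z : G) (hzD : z ∈ D) (hzc : ∀ d ∈ D, d * z = z * d) (b : Set (Cfsg.IrrCharacter ↥(Subgroup.centralizer ({z} : Set G)))) (hb : Cfsg.IsInducedBlock M (Subgroup.centralizer ({z} : Set G)) b B) (hbD : Cfsg.IsDefectGroup p M b (D.subgroupOf (Subgroup.centralizer ({z} : Set G)))) (hl : Cfsg.blockRank p b ≤ 2) : Nat.card B ≤ p ^ Cfsg.blockDefect p B := by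
  haveI := Fintype.ofFinite G
  have hp : p.Prime := hM.1
  obtain ⟨a, ha⟩ := exists_orderOf_major hM hB hD hzD
  have hbd := blockDefect_major hM hB hD hzc hb hbD
  set d := Cfsg.blockDefect p B with hd
  have hN : 0 < p ^ (a + 1) := pow_pos hp.pos _
  have hζ := Complex.isPrimitiveRoot_exp (p ^ (a + 1)) hN.ne'
  set ζ := Complex.exp (2 * Real.pi * Complex.I / (p ^ (a + 1) : ℕ))
  set J := galExps p (p ^ (a + 1)) with hJdef
  have hJ : ∀ k ∈ J, ¬ p ∣ k := fun k hk => galExps_not_dvd hk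
  have hm : (0 : ℝ) < J.card := by
    exact_mod_cast Finset.card_pos.2 ⟨1, one_mem_galExps hp a⟩
  set Bs := blkFin B with hBs
  have hk : Nat.card B = Bs.card := by
    rw [Nat.card_eq_fintype_card, hBs, blkFin]
    exact Fintype.card_subtype _
  have hmemB : ∀ χ ∈ Bs, χ ∈ B := fun χ h => mem_blkFin.1 h
  set av : IrrCharacter G → ℝ := fun χ => ∑ k ∈ J, (qCoef p z b χ χ k).re with hav
  have hsum : ∑ χ ∈ Bs, av χ = (J.card : ℝ) * ((p : ℝ) ^ d * Cfsg.blockRank p b) := by
    rw [hav, Finset.sum_comm, Finset.sum_congr rfl fun k hk' =>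
      qCoef_trace_re hM hB hb ha (hJ k hk'), Finset.sum_const, nsmul_eq_mul, hbd]
  have hav1 : ∀ χ ∈ Bs, (J.card : ℝ) * (p : ℝ) ^ Cfsg.blockHeight p B (χ : G → ℂ) ≤ av χ :=
    fun χ hχ => qCoef_self_avg hM hB hb hbd ha (hmemB χ hχ)
  have hav0 : ∀ χ ∈ Bs, (J.card : ℝ) ≤ av χ := fun χ hχ => by
    refine le_trans ?_ (hav1 χ hχ)
    exact le_mul_of_one_le_right hm.le (one_le_pow₀ (by exact_mod_cast hp.one_le))
  have hfin : ∀ r : ℝ, 0 < r → r * ((J.card : ℝ) * Bs.card) ≤ r * ((J.card : ℝ) * (p : ℝ) ^ d) →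
      Nat.card B ≤ p ^ d := by
    intro r hr h
    have h1 := le_of_mul_le_mul_left (le_of_mul_le_mul_left h hr) hm
    rw [hk]
    exact_mod_cast h1
  by_cases hl1 : Cfsg.blockRank p b ≤ 1
  · refine hfin 1 one_pos ?_
    rw [one_mul, one_mul]
    calc (J.card : ℝ) * Bs.card = ∑ _χ ∈ Bs, (J.card : ℝ) := by
          rw [Finset.sum_const, nsmul_eq_mul, mul_comm]
      _ ≤ ∑ χ ∈ Bs, av χ := Finset.sum_le_sum hav0
      _ ≤ _ := by
          rw [hsum]
          have : (Cfsg.blockRank p b : ℝ) ≤ 1 := by exact_mod_cast hl1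
          exact mul_le_mul_of_nonneg_left (mul_le_of_le_one_right (by positivity) this) hm.le
  have hl2 : Cfsg.blockRank p b = 2 := by omega
  choose A hA using exists_int_qMat hM hb.1
  have hAs : ∀ i j, A i j = A j i := by
    intro i j
    have h := hA j i
    rw [← blockMat_conj] at h
    have h2 := congrArg (starRingEnd ℂ) (hA i j)
    simp only [map_mul, conj_indVal, map_intCast] at h2
    have : (A i j : ℂ) = A j i := by rw [← h, ← h2]; ring
    exact_mod_cast this
  have hAsq : ∀ i j, ∑ w, A i w * A w j = ((p ^ d : ℕ) : ℤ) * A i j := by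
    intro i j
    have h : ∑ w, (A i w : ℂ) * A w j = (p : ℂ) ^ d * A i j := by
      simp only [← hA]
      by_cases hj : j ∈ b
      · have h1 := sum_blockMat_mul hM hb.1 (χ := i) hj
        rw [Finset.sum_filter, hbd] at h1
        simp only [indVal, hj, if_true, mul_one]
        calc _ = (if i ∈ b then (1 : ℂ) else 0) *
              ∑ w, if w ∈ b then blockMat p b i w * blockMat p b w j else 0 := by
              rw [Finset.mul_sum]
              exact Finset.sum_congr rfl fun w _ => by split_ifs <;> simp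
          _ = _ := by rw [h1]; ring
      · simp [indVal, hj]
    exact_mod_cast h
  have hAtr : ∑ i, A i i = 2 * ((p ^ d : ℕ) : ℤ) := by
    have h : ∑ i, (A i i : ℂ) = ((2 : ℕ) : ℂ) * (p : ℂ) ^ d := by
      rw [← hl2, blockRank_cast hM hb.1, Finset.sum_mul]
      refine Finset.sum_congr rfl fun i _ => ?_
      rw [← hA, blockMat, CfsgLib.Char.inner_smul_left, regMat, hbd, ind_sq]
      ring
    exact_mod_cast h
  obtain ⟨x, y, α, β, γ, hα, hγ, hβα, hβγ, hrep⟩ :=
    exists_reduced_binary A (by exact_mod_cast pow_pos hp.pos d) hAs hAsq hAtr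
  set cf : (IrrCharacter (Subgroup.centralizer ({z} : Set G)) → ℤ) → IrrCharacter G → ℕ → ℂ :=
    fun v χ k => ∑ w : IrrCharacter (Subgroup.centralizer ({z} : Set G)),
      ((qMult z χ w : ℂ) * (v w : ℂ)) * centVal w (qElt z) ^ k with hcf
  have hG : ∀ v χ, GalVal p ζ (cf v χ) := fun v χ => by
    refine galVal_sum _ _ fun w _ => ?_
    exact GalVal.congr (((galVal_const ((qMult z χ w : ℕ) : ℤ)).mul (galVal_const (v w))).mul
      (galVal_of_root hN hζ (centVal_qElt_pow ha w))) fun k _ => by push_cast; ring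
  have hP : ∀ χ ψ k, qCoef p z b χ ψ k =
      (α : ℂ) * (cf x χ k * (starRingEnd ℂ) (cf x ψ k)) +
        (β : ℂ) * (cf x χ k * (starRingEnd ℂ) (cf y ψ k) +
          cf y χ k * (starRingEnd ℂ) (cf x ψ k)) +
        (γ : ℂ) * (cf y χ k * (starRingEnd ℂ) (cf y ψ k)) := by
    intro χ ψ k
    have e : ∀ v v' : IrrCharacter (Subgroup.centralizer ({z} : Set G)) → ℤ,
        cf v χ k * (starRingEnd ℂ) (cf v' ψ k) =
          ∑ w : IrrCharacter (Subgroup.centralizer ({z} : Set G)),
          ∑ w' : IrrCharacter (Subgroup.centralizer ({z} : Set G)),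
            ((qMult z χ w * qMult z ψ w' : ℕ) : ℂ) * ((v w : ℂ) * (v' w' : ℂ)) *
              (centVal w (qElt z) ^ k * (starRingEnd ℂ) (centVal w' (qElt z) ^ k)) := by
      intro v v'
      simp only [hcf, map_sum, map_mul, map_intCast, Complex.conj_natCast, Finset.sum_mul_sum]
      refine Finset.sum_congr rfl fun w _ => Finset.sum_congr rfl fun w' _ => ?_
      push_cast
      ring
    simp only [e, qCoef, hA, hrep, ← Finset.sum_add_distrib, Finset.mul_sum]
    refine Finset.sum_congr rfl fun w _ => Finset.sum_congr rfl fun w' _ => ?_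
    push_cast
    ring
  have hzero : ∀ v χ, cf v χ 1 = 0 → ∀ k ∈ J, cf v χ k = 0 := fun v χ h k hk' => by
    simpa using GalVal.eq_of_int hp hζ (hG v χ) (n := 0) (by simpa using h) (hJ k hk')
  have hnorm : ∀ v χ, cf v χ 1 ≠ 0 → (J.card : ℝ) ≤ ∑ k ∈ J, Complex.normSq (cf v χ k) := by
    intro v χ h
    have h1 := GalVal.le_sum hM hζ
      (((hG v χ).mul ((hG v χ).conj hp hζ.pow_eq_one)).congr fun k _ => (Complex.mul_conj _).symm) 0
      (fun k hk' => Complex.normSq_pos.2 ((hG v χ).ne_zero hp hζ h (hJ k hk'))) fun k _ => ?_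
    · simpa using h1
    · rw [pow_zero, div_one, ← Complex.mul_conj]
      have hw : ∀ w : IrrCharacter (Subgroup.centralizer ({z} : Set G)),
          IsIntegral ℤ (centVal w (qElt z)) := fun w =>
        IsIntegral.of_pow hN (by rw [centVal_qElt_pow ha w]; exact isIntegral_one)
      have hwc : ∀ w : IrrCharacter (Subgroup.centralizer ({z} : Set G)),
          IsIntegral ℤ ((starRingEnd ℂ) (centVal w (qElt z))) := fun w =>
        IsIntegral.of_pow hN (by
          rw [← map_pow, centVal_qElt_pow ha w, map_one]; exact isIntegral_one)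
      refine mul_mem (sum_mem fun w _ => mul_mem (mul_mem (natCast_mem _ _) (intCast_mem _ _))
        (pow_mem (isIntegral_mem hM (hw w)) k)) ?_
      simp only [hcf, map_sum, map_mul, map_pow, map_intCast, Complex.conj_natCast]
      exact sum_mem fun w _ => mul_mem (mul_mem (natCast_mem _ _) (intCast_mem _ _))
        (pow_mem (isIntegral_mem hM (hwc w)) k)
  have hself : ∀ χ k, ((α : ℝ) - |(β : ℝ)|) * Complex.normSq (cf x χ k) +
      ((γ : ℝ) - |(β : ℝ)|) * Complex.normSq (cf y χ k) ≤ (qCoef p z b χ χ k).re := by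
    intro χ k
    rw [hP]
    simp only [Complex.add_re, Complex.mul_re, Complex.mul_im, Complex.intCast_re,
      Complex.intCast_im, Complex.conj_re, Complex.conj_im, Complex.add_im, Complex.normSq_apply]
    rcases abs_cases (β : ℝ) with ⟨h, hb'⟩ | ⟨h, hb'⟩ <;> rw [h] <;>
      nlinarith [mul_self_nonneg ((cf x χ k).re + (cf y χ k).re),
        mul_self_nonneg ((cf x χ k).im + (cf y χ k).im),
        mul_self_nonneg ((cf x χ k).re - (cf y χ k).re),
        mul_self_nonneg ((cf x χ k).im - (cf y χ k).im)]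
  have hαR : (1 : ℝ) ≤ α := by exact_mod_cast hα
  have hγR : (1 : ℝ) ≤ γ := by exact_mod_cast hγ
  have hne : ∀ χ ∈ Bs, cf x χ 1 ≠ 0 ∨ cf y χ 1 ≠ 0 := by
    intro χ hχ
    by_contra h
    push_neg at h
    have h1 := qCoef_self_pos hM hB hb hbd ha (hmemB χ hχ) hp.not_dvd_one
    rw [hP, h.1, h.2] at h1
    simp at h1
  have hboth : ∀ χ, cf x χ 1 ≠ 0 → cf y χ 1 ≠ 0 →
      (((α : ℝ) - |(β : ℝ)|) + ((γ : ℝ) - |(β : ℝ)|)) * (J.card : ℝ) ≤ av χ := by
    intro χ hx hy
    have hβ1 : |(β : ℝ)| ≤ (α : ℝ) / 2 := by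
      rw [le_div_iff₀ two_pos, mul_comm]; exact_mod_cast hβα
    have hβ2 : |(β : ℝ)| ≤ (γ : ℝ) / 2 := by
      rw [le_div_iff₀ two_pos, mul_comm]; exact_mod_cast hβγ
    refine le_trans ?_ (Finset.sum_le_sum fun k _ => hself χ k)
    rw [Finset.sum_add_distrib, ← Finset.mul_sum, ← Finset.mul_sum, add_mul]
    exact add_le_add (mul_le_mul_of_nonneg_left (hnorm x χ hx) (by linarith))
      (mul_le_mul_of_nonneg_left (hnorm y χ hy) (by linarith))
  have hdone : (∀ χ ∈ Bs, 2 * (J.card : ℝ) ≤ av χ) → Nat.card B ≤ p ^ d := by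
    intro h
    refine hfin 2 two_pos ?_
    calc 2 * ((J.card : ℝ) * Bs.card) = ∑ _χ ∈ Bs, 2 * (J.card : ℝ) := by
          rw [Finset.sum_const, nsmul_eq_mul]; ring
      _ ≤ ∑ χ ∈ Bs, av χ := Finset.sum_le_sum h
      _ = _ := by rw [hsum, hl2]; push_cast; ring
  by_cases hbig : 2 ≤ α ∧ 2 ≤ γ
  · refine hdone fun χ hχ => ?_
    have hα2 : (2 : ℝ) ≤ α := by exact_mod_cast hbig.1
    have hγ2 : (2 : ℝ) ≤ γ := by exact_mod_cast hbig.2
    by_cases hx : cf x χ 1 = 0
    · have hy := (hne χ hχ).resolve_left (not_not.2 hx)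
      calc 2 * (J.card : ℝ) ≤ (γ : ℝ) * ∑ k ∈ J, Complex.normSq (cf y χ k) :=
            mul_le_mul hγ2 (hnorm y χ hy) hm.le (by linarith)
        _ = av χ := by
            rw [hav, Finset.mul_sum]
            refine Finset.sum_congr rfl fun k hk' => ?_
            rw [hP, hzero x χ hx k hk']
            simp [Complex.mul_re, Complex.normSq_apply]
    · by_cases hy : cf y χ 1 = 0
      · calc 2 * (J.card : ℝ) ≤ (α : ℝ) * ∑ k ∈ J, Complex.normSq (cf x χ k) :=
              mul_le_mul hα2 (hnorm x χ hx) hm.le (by linarith)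
          _ = av χ := by
              rw [hav, Finset.mul_sum]
              refine Finset.sum_congr rfl fun k hk' => ?_
              rw [hP, hzero y χ hy k hk']
              simp [Complex.mul_re, Complex.normSq_apply]
      · refine le_trans (mul_le_mul_of_nonneg_right ?_ hm.le) (hboth χ hx hy)
        have h1 : 2 * |(β : ℝ)| ≤ α := by exact_mod_cast hβα
        have h2 : 2 * |(β : ℝ)| ≤ γ := by exact_mod_cast hβγ
        linarith
  have hβ0 : β = 0 := abs_eq_zero.1 (by have := abs_nonneg β; omega)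
  subst hβ0
  simp only [Int.cast_zero, zero_mul, add_zero] at hP
  -- a character of height zero supported on one coordinate bounds the support of that coordinate
  have hone : ∀ (e : ℤ) (v : IrrCharacter (Subgroup.centralizer ({z} : Set G)) → ℤ)
      (ψ : IrrCharacter G), 1 ≤ e → ψ ∈ Bs → Cfsg.blockHeight p B (ψ : G → ℂ) = 0 →
      (∀ χ, ∀ k ∈ J, qCoef p z b χ ψ k = (e : ℂ) * (cf v χ k * (starRingEnd ℂ) (cf v ψ k))) →
      Nat.card B ≤ p ^ d := by
    intro e v ψ he hψ hψ0 hPv
    have heR : (1 : ℝ) ≤ e := by exact_mod_cast he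
    have h1J := one_mem_galExps hp a
    have hsupp : ∀ χ ∈ Bs, cf v χ 1 ≠ 0 := fun χ hχ h0 => by
      apply qCoef_ne_zero hM hB hb hbd ha (hmemB χ hχ) (hmemB ψ hψ) hψ0 hp.not_dvd_one
      rw [hPv χ 1 h1J, h0]
      ring
    have hrow : ∀ k ∈ J, (e : ℝ) * ∑ χ ∈ Bs, Complex.normSq (cf v χ k) = (p : ℝ) ^ d := by
      intro k hk'
      have h := qCoef_row_re hM hB hb ha ψ (hJ k hk')
      rw [Finset.sum_congr rfl fun χ _ => (show Complex.normSq (qCoef p z b ψ χ k) =
        Complex.normSq (qCoef p z b χ ψ k) by rw [← qCoef_conj, Complex.normSq_conj]),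
        Finset.sum_congr rfl fun χ _ => congrArg Complex.normSq (hPv χ k hk'),
        hPv ψ k hk', Complex.mul_conj, hbd] at h
      simp only [map_mul, Complex.normSq_conj, ← Finset.mul_sum, ← Finset.sum_mul] at h
      have h0 : 0 < Complex.normSq (cf v ψ k) :=
        Complex.normSq_pos.2 ((hG v ψ).ne_zero hp hζ (hsupp ψ hψ) (hJ k hk'))
      have e2 : ((e : ℂ) * (Complex.normSq (cf v ψ k) : ℂ)).re =
          (e : ℝ) * Complex.normSq (cf v ψ k) := by simp
      have e3 : Complex.normSq (e : ℂ) = (e : ℝ) * e := Complex.normSq_intCast e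
      rw [e2, e3] at h
      apply mul_right_cancel₀ (mul_ne_zero (zero_lt_one.trans_le heR).ne' h0.ne')
      linear_combination h
    refine hfin 1 one_pos ?_
    rw [one_mul, one_mul]
    calc (J.card : ℝ) * Bs.card = ∑ _χ ∈ Bs, (J.card : ℝ) := by
          rw [Finset.sum_const, nsmul_eq_mul, mul_comm]
      _ ≤ ∑ χ ∈ Bs, ∑ k ∈ J, Complex.normSq (cf v χ k) :=
          Finset.sum_le_sum fun χ hχ => hnorm v χ (hsupp χ hχ)
      _ = ∑ k ∈ J, ∑ χ ∈ Bs, Complex.normSq (cf v χ k) := Finset.sum_comm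
      _ ≤ ∑ k ∈ J, (e : ℝ) * ∑ χ ∈ Bs, Complex.normSq (cf v χ k) :=
          Finset.sum_le_sum fun k _ => le_mul_of_one_le_left
            (Finset.sum_nonneg fun χ _ => Complex.normSq_nonneg _) heR
      _ = _ := by rw [Finset.sum_congr rfl hrow, Finset.sum_const, nsmul_eq_mul]
  by_cases hy : ∃ ψ ∈ Bs, Cfsg.blockHeight p B (ψ : G → ℂ) = 0 ∧ cf y ψ 1 = 0
  · obtain ⟨ψ, hψ, hψ0, hy0⟩ := hy
    exact hone α x ψ hα hψ hψ0 fun χ k hk' => by rw [hP, hzero y ψ hy0 k hk']; simp
  by_cases hx : ∃ ψ ∈ Bs, Cfsg.blockHeight p B (ψ : G → ℂ) = 0 ∧ cf x ψ 1 = 0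
  · obtain ⟨ψ, hψ, hψ0, hx0⟩ := hx
    exact hone γ y ψ hγ hψ hψ0 fun χ k hk' => by rw [hP, hzero x ψ hx0 k hk']; simp
  push_neg at hx hy
  refine hdone fun χ hχ => ?_
  by_cases h0 : Cfsg.blockHeight p B (χ : G → ℂ) = 0
  · refine le_trans (mul_le_mul_of_nonneg_right ?_ hm.le) (hboth χ (hx χ hχ h0) (hy χ hχ h0))
    simp
    linarith
  · refine le_trans ?_ (hav1 χ hχ)
    rw [mul_comm]
    refine mul_le_mul_of_nonneg_left ?_ hm.le
    calc (2 : ℝ) ≤ (p : ℝ) ^ 1 := by rw [pow_one]; exact_mod_cast hp.two_le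
      _ ≤ _ := pow_le_pow_right₀ (by exact_mod_cast hp.one_le) (by omega)

end Cfsg.Agent.S4539
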