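import Cfsg.Statements.S4540
import Cfsg.Agent.Lib.BlockQuadAvg
import Cfsg.Agent.Lib.BlockGalTwoDiv

set_option autoImplicit false
open Cfsg
open CfsgLib.Block CfsgLib.Char
open scoped Classical


namespace Cfsg.Agent.S4540

/-- Let B be a 2-block of the finite group G (relative to a maximal ideal M of the algebraic integers containing 2) of defect d with defect group D. Let z be an element of D commuting with every element of D, and let b be a block of the centralizer C of z with defect group D that induces B (a major subsection (z, b)). If b has 2-regular rank at most three, then 3·k(B) ≤ 3·k₀(B) + 2·Σ 2 ^ h(χ), where k(B) is the number of members of B, k₀(B) the number of members of height zero, and the sum runs over the members χ of B of positive height h(χ); this bound is at most 3·2 ^ d, so in particular B contains at most 2 ^ d irreducible characters. -/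
theorem result {G : Type*} [Group G] [Finite G] (M : Ideal Cfsg.AlgInt) (hM : Cfsg.IsPModular 2 M) (B : Set (Cfsg.IrrCharacter G)) (hB : Cfsg.IsPBlock M B) (D : Subgroup G) (hD : Cfsg.IsDefectGroup 2 M B D) (z : G) (hzD : z ∈ D) (hzc : ∀ d ∈ D, d * z = z * d) (b : Set (Cfsg.IrrCharacter ↥(Subgroup.centralizer ({z} : Set G)))) (hb : Cfsg.IsInducedBlock M (Subgroup.centralizer ({z} : Set G)) b B) (hbD : Cfsg.IsDefectGroup 2 M b (D.subgroupOf (Subgroup.centralizer ({z} : Set G)))) (hl : Cfsg.blockRank 2 b ≤ 3) : 3 * Nat.card B ≤ 3 * Nat.card {χ : Cfsg.IrrCharacter G // χ ∈ B ∧ Cfsg.blockHeight 2 B (χ : G → ℂ) = 0} + 2 * (∑ᶠ χ ∈ {χ : Cfsg.IrrCharacter G | χ ∈ B ∧ 1 ≤ Cfsg.blockHeight 2 B (χ : G → ℂ)}, 2 ^ Cfsg.blockHeight 2 B (χ : G → ℂ)) ∧ 3 * Nat.card {χ : Cfsg.IrrCharacter G // χ ∈ B ∧ Cfsg.blockHeight 2 B (χ : G → ℂ) = 0} + 2 * (∑ᶠ χ ∈ {χ : Cfsg.IrrCharacter G | χ ∈ B ∧ 1 ≤ Cfsg.blockHeight 2 B (χ : G → ℂ)}, 2 ^ Cfsg.blockHeight 2 B (χ : G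 → ℂ)) ≤ 3 * 2 ^ Cfsg.blockDefect 2 B := by
  haveI := Fintype.ofFinite G
  haveI : Fact (Nat.Prime 2) := ⟨Nat.prime_two⟩
  obtain ⟨a, ha⟩ := exists_orderOf_major hM hB hD hzD
  have hbd := blockDefect_major hM hB hD hzc hb hbD
  set d := Cfsg.blockDefect 2 B with hd
  have hζ := Complex.isPrimitiveRoot_exp (2 ^ (a + 1)) (pow_pos two_pos _).ne'
  set J := oddExps a with hJdef
  have hJ' : galExps 2 (2 ^ (a + 1)) = J := rfl
  have hJ : ∀ k ∈ J, ¬ 2 ∣ k := fun k hk => (Finset.mem_filter.1 hk).2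
  have hJc : J.card = 2 ^ a := by
    rw [hJdef, card_oddExps, Finset.card_image_of_injective _ (fun x y h => by simpa using h),
      Finset.card_range]
  set ht : IrrCharacter G → ℕ := fun χ => Cfsg.blockHeight 2 B (χ : G → ℂ) with hht
  have hkey : ∀ χ : IrrCharacter G, χ ∈ B → ∃ c : ℤ, 0 < c ∧
      ∑ k ∈ J, qCoef 2 z b χ χ k = (2 : ℂ) ^ a * c ∧
      (ht χ = 0 → Odd c) ∧ (1 ≤ ht χ → 2 * 2 ^ ht χ ≤ c) := by
    intro χ hχ
    have hreal : ∀ k, ¬ 2 ∣ k → (starRingEnd ℂ) (qCoef 2 z b χ χ k) = qCoef 2 z b χ χ k :=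
      fun k _ => qCoef_conj χ χ k
    have hpos : ∀ c : ℤ, ∑ k ∈ J, qCoef 2 z b χ χ k = (2 : ℂ) ^ a * c → 0 < c := by
      intro c hc
      have h1 := congrArg Complex.re hc
      rw [Complex.re_sum, show (2 : ℂ) ^ a * (c : ℂ) = (((2 : ℝ) ^ a * c : ℝ) : ℂ) by
        push_cast; rfl, Complex.ofReal_re] at h1
      have h2 : (0 : ℝ) < (2 : ℝ) ^ a * c := h1 ▸ Finset.sum_pos
        (fun k hk => qCoef_self_pos hM hB hb hbd ha hχ (hJ k hk)) ⟨1, one_mem_galExps Nat.prime_two a⟩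
      exact_mod_cast pos_of_mul_pos_right h2 (by positivity)
    by_cases h0 : ht χ = 0
    · obtain ⟨S, c, -, -, -, hc⟩ := galTwo_average hM hζ (galVal_qCoef hM hb.1 ha hζ χ χ)
        (qCoef_not_mem hM hB hb ha hχ h0 hχ h0 1)
      obtain ⟨hodd, -, hsum⟩ := hc hreal
      exact ⟨c, hpos c hsum, hsum, fun _ => hodd, fun h => absurd h (by omega)⟩
    · obtain ⟨θ, hθ, hθ0⟩ := exists_height_zero hM hB
      have h21 : ¬ 2 ∣ 1 := by decide
      have hdiv := qCoef_div hM hB hb hbd ha hχ χ h21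
      have hmem : MemLocalIdeal M (qCoef 2 z b χ χ 1 / ((2 : ℕ) : ℂ) ^ ht χ) := by
        rw [qCoef_div_mem_iff hM hB hb hbd ha hχ hθ χ h21, hθ0, pow_zero, div_one,
          ← qCoef_conj, conj_qCoef_eq_pow hM hb.1 ha]
        have h1 := (qCoef_div hM hB hb hbd ha hχ θ (not_dvd_mul_pow_sub_one Nat.prime_two (a := a) h21)).1
        rw [memLocalIdeal_iff_exists hM]
        have hne : ((2 : ℕ) : ℂ) ^ Cfsg.blockHeight 2 B (χ : G → ℂ) ≠ 0 :=
          pow_ne_zero _ (Nat.cast_ne_zero.2 two_ne_zero)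
        have hm2 := mul_mem
          (pow_mem (natCast_mem (locRing hM) 2) (Cfsg.blockHeight 2 B (χ : G → ℂ))) h1
        rw [mul_div_cancel₀ _ hne] at hm2
        refine ⟨hm2, ?_⟩
        have e2 : (⟨_, hm2⟩ : locRing hM) = (2 : locRing hM) ^ ht χ * ⟨_, h1⟩ := by
          apply Subtype.ext
          have h2 : (((2 : locRing hM) ^ ht χ : locRing hM) : ℂ) =
              ((2 : ℕ) : ℂ) ^ Cfsg.blockHeight 2 B (χ : G → ℂ) := by
            rw [show (2 : locRing hM) = ((2 : ℕ) : locRing hM) from Nat.cast_ofNat.symm,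
              SubmonoidClass.coe_pow]
            rfl
          rw [MulMemClass.coe_mul, h2]
          exact (mul_div_cancel₀ _ hne).symm
        haveI := charP_resField hM
        rw [e2, map_mul, map_pow, show res hM (2 : locRing hM) = 0 by
          rw [show (2 : locRing hM) = ((2 : ℕ) : locRing hM) by simp, map_natCast,
            CharP.cast_eq_zero], zero_pow h0, zero_mul]
      have hcast : ((2 : ℕ) : ℂ) = (2 : ℂ) := Nat.cast_ofNat
      rw [hcast] at hmem
      obtain ⟨c', hev, hsum⟩ := galTwo_average_even hM hζ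
        (galVal_div_two_pow hM hζ (galVal_qCoef hM hb.1 ha hζ χ χ) (ht χ)
          (by simpa [hht] using hdiv.1))
        hmem (fun k hk => by simp [hreal k hk, map_ofNat])
      rw [← Finset.sum_div, div_eq_iff (pow_ne_zero _ (two_ne_zero' ℂ))] at hsum
      have hc : ∑ k ∈ J, qCoef 2 z b χ χ k = (2 : ℂ) ^ a * ((c' * 2 ^ ht χ : ℤ) : ℂ) := by
        rw [hJdef, hsum]; push_cast; ring
      refine ⟨c' * 2 ^ ht χ, hpos _ hc, hc, fun h => absurd h h0, fun _ => ?_⟩
      have h1 := hpos _ hc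
      have h2 : 0 < c' := pos_of_mul_pos_left h1 (by positivity)
      obtain ⟨t, ht'⟩ := hev
      exact mul_le_mul_of_nonneg_right (by omega) (by positivity)
  choose! c hcpos hcsum hcodd hchi using hkey
  set Bs := blkFin B with hBs
  have hmemB : ∀ χ ∈ Bs, χ ∈ B := fun χ h => mem_blkFin.1 h
  have htr : ∑ χ ∈ Bs, c χ ≤ (3 : ℤ) * 2 ^ d := by
    have e : (2 : ℝ) ^ a * ((∑ χ ∈ Bs, c χ : ℤ) : ℝ) ≤ (2 : ℝ) ^ a * (3 * (2 : ℝ) ^ d) := by
      calc (2 : ℝ) ^ a * ((∑ χ ∈ Bs, c χ : ℤ) : ℝ)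
          = ∑ χ ∈ Bs, ∑ k ∈ J, (qCoef 2 z b χ χ k).re := by
            push_cast
            rw [Finset.mul_sum]
            refine Finset.sum_congr rfl fun χ hχ => ?_
            apply Complex.ofReal_injective
            push_cast
            rw [← hcsum χ (hmemB χ hχ)]
            exact Finset.sum_congr rfl fun k _ => (qCoef_self_ofReal χ k).symm
        _ = (2 : ℝ) ^ a * ((2 : ℝ) ^ d * Cfsg.blockRank 2 b) := by
            rw [Finset.sum_comm, Finset.sum_congr rfl fun k hk =>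
              qCoef_trace_re hM hB hb ha (hJ k hk), Finset.sum_const, hJc, nsmul_eq_mul, hbd]
            push_cast
            rfl
        _ ≤ _ := by
            rw [mul_comm (3 : ℝ)]
            gcongr
            exact_mod_cast hl
    exact_mod_cast le_of_mul_le_mul_left e (by positivity)
  have hsplit : ∀ F : IrrCharacter G → ℕ,
      ∑ χ ∈ Bs, F χ = ∑ χ ∈ Bs.filter (fun χ => ht χ = 0), F χ +
        ∑ χ ∈ Bs.filter (fun χ => ¬ ht χ = 0), F χ := fun F =>
    (Finset.sum_filter_add_sum_filter_not _ _ _).symm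
  have hk : Nat.card B = Bs.card := by
    rw [Nat.card_eq_fintype_card, hBs, blkFin]
    exact Fintype.card_subtype _
  have hk0 : Nat.card {χ : Cfsg.IrrCharacter G //
      χ ∈ B ∧ Cfsg.blockHeight 2 B (χ : G → ℂ) = 0} = (Bs.filter (fun χ => ht χ = 0)).card := by
    rw [Nat.card_eq_fintype_card, Fintype.card_subtype, hBs, blkFin, Finset.filter_filter]
  have hfs : (∑ᶠ χ ∈ {χ : Cfsg.IrrCharacter G | χ ∈ B ∧ 1 ≤ Cfsg.blockHeight 2 B (χ : G → ℂ)},
      2 ^ Cfsg.blockHeight 2 B (χ : G → ℂ)) =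
        ∑ χ ∈ Bs.filter (fun χ => ¬ ht χ = 0), 2 ^ ht χ := by
    rw [finsum_mem_eq_toFinset_sum]
    refine Finset.sum_congr ?_ fun _ _ => rfl
    ext χ
    simp [hBs, mem_blkFin, hht, Nat.one_le_iff_ne_zero]
  rw [hk, hk0, hfs]
  have hcard3 : ∀ s : Finset (IrrCharacter G), 3 * s.card = ∑ _χ ∈ s, 3 := fun s => by
    rw [Finset.sum_const, smul_eq_mul, mul_comm]
  refine ⟨?_, ?_⟩
  · rw [hcard3, hcard3, hsplit, Finset.mul_sum]
    refine Nat.add_le_add_left (Finset.sum_le_sum fun χ hχ => ?_) _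
    have h1 : 1 ≤ ht χ := Nat.one_le_iff_ne_zero.2 (Finset.mem_filter.1 hχ).2
    calc 3 ≤ 2 * 2 ^ 1 := by norm_num
      _ ≤ _ := Nat.mul_le_mul_left 2 (Nat.pow_le_pow_right two_pos h1)
  set F : IrrCharacter G → ℕ := fun χ => if ht χ = 0 then 3 else 2 * 2 ^ ht χ with hF
  have hgoal : 3 * (Bs.filter (fun χ => ht χ = 0)).card +
      2 * ∑ χ ∈ Bs.filter (fun χ => ¬ ht χ = 0), 2 ^ ht χ = ∑ χ ∈ Bs, F χ := by
    rw [hsplit, hcard3, Finset.mul_sum]
    refine congrArg₂ _ (Finset.sum_congr rfl fun χ hχ => ?_) (Finset.sum_congr rfl fun χ hχ => ?_)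
    · simp [hF, (Finset.mem_filter.1 hχ).2]
    · simp [hF, (Finset.mem_filter.1 hχ).2]
  rw [hgoal]
  by_cases hex : ∃ ψ ∈ Bs, ht ψ = 0 ∧ c ψ = 1
  · obtain ⟨ψ, hψ, hψ0, hψ1⟩ := hex
    have e : (2 : ℝ) ^ a * ((∑ χ ∈ Bs, F χ : ℕ) : ℝ) ≤ (2 : ℝ) ^ a * (3 * (2 : ℝ) ^ d) := by
      calc (2 : ℝ) ^ a * ((∑ χ ∈ Bs, F χ : ℕ) : ℝ)
          ≤ ∑ χ ∈ Bs, 3 * ∑ k ∈ J, Complex.normSq (qCoef 2 z b χ ψ k) := by
            push_cast
            rw [Finset.mul_sum]
            refine Finset.sum_le_sum fun χ hχ => ?_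
            have h1 := qCoef_normSq_avg hM hB hb hbd ha (hmemB χ hχ) (hmemB ψ hψ) hψ0
            rw [hJ', hJc] at h1
            have h2 : (F χ : ℝ) ≤ 3 * (2 : ℝ) ^ (2 * ht χ) := by
              simp only [hF]
              split_ifs with h
              · simp [h]
              · have : (2 : ℝ) ^ ht χ ≤ (2 : ℝ) ^ (2 * ht χ) :=
                  pow_le_pow_right₀ one_le_two (by omega)
                push_cast
                nlinarith [pow_pos (two_pos : (0 : ℝ) < 2) (ht χ)]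
            push_cast at h1
            calc (2 : ℝ) ^ a * (F χ : ℝ) ≤ (2 : ℝ) ^ a * (3 * (2 : ℝ) ^ (2 * ht χ)) := by gcongr
              _ ≤ _ := by rw [mul_left_comm]; gcongr
        _ = _ := by
            rw [← Finset.mul_sum, Finset.sum_comm, Finset.sum_congr rfl fun k hk => show
              ∑ χ ∈ Bs, Complex.normSq (qCoef 2 z b χ ψ k) =
                (2 : ℝ) ^ d * (qCoef 2 z b ψ ψ k).re by
                rw [Finset.sum_congr rfl fun χ _ => (show Complex.normSq (qCoef 2 z b χ ψ k) =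
                  Complex.normSq (qCoef 2 z b ψ χ k) by rw [← qCoef_conj, Complex.normSq_conj]),
                  qCoef_row_re hM hB hb ha ψ (hJ k hk), hbd]
                push_cast
                rfl, ← Finset.mul_sum]
            have h1 := congrArg Complex.re (hcsum ψ (hmemB ψ hψ))
            rw [Complex.re_sum, hψ1, Int.cast_one, mul_one,
              show (2 : ℂ) ^ a = (((2 : ℝ) ^ a : ℝ) : ℂ) by push_cast; rfl, Complex.ofReal_re] at h1
            rw [h1]
            ring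
    exact_mod_cast le_of_mul_le_mul_left e (by positivity)
  · push_neg at hex
    have h3 : ((∑ χ ∈ Bs, F χ : ℕ) : ℤ) ≤ 3 * 2 ^ d := by
      refine le_trans ?_ htr
      push_cast
      refine Finset.sum_le_sum fun χ hχ => ?_
      simp only [hF]
      split_ifs with h
      · have h1 := hcpos χ (hmemB χ hχ)
        have h2 := hex χ hχ h
        obtain ⟨t, ht'⟩ := hcodd χ (hmemB χ hχ) h
        push_cast
        omega
      · push_cast
        exact hchi χ (hmemB χ hχ) (Nat.one_le_iff_ne_zero.2 h)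
    exact_mod_cast h3

end Cfsg.Agent.S4540
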