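import Cfsg.Statements.S4541
import Cfsg.Agent.Lib.BlockQuadForm
import Cfsg.Agent.Lib.BlockGalTwo

set_option autoImplicit false
open Cfsg
open CfsgLib.Block CfsgLib.Char
open scoped Classical


namespace Cfsg.Agent.S4541

/-- Let B be a 2-block of the finite group G (relative to a maximal ideal M of the algebraic integers containing 2), u a 2-element, and b a block of the centralizer of u inducing B (a subsection (u, b)), of defect q and 2-regular rank l; write s for the integer square root of l and k₀(B) for the number of members of B of height zero. If s is odd then k₀(B) ≤ s·2 ^ q, and otherwise (s + 1)·k₀(B) ≤ l·2 ^ q; in particular k₀(B) ≤ 2 ^ q when l ≤ 3. -/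
theorem result {G : Type*} [Group G] [Finite G] (M : Ideal Cfsg.AlgInt) (hM : Cfsg.IsPModular 2 M) (B : Set (Cfsg.IrrCharacter G)) (hB : Cfsg.IsPBlock M B) (u : G) (hu : ∃ j : ℕ, orderOf u = 2 ^ j) (b : Set (Cfsg.IrrCharacter ↥(Subgroup.centralizer ({u} : Set G)))) (hb : Cfsg.IsInducedBlock M (Subgroup.centralizer ({u} : Set G)) b B) : (Odd (Nat.sqrt (Cfsg.blockRank 2 b)) → Nat.card {χ : Cfsg.IrrCharacter G // χ ∈ B ∧ Cfsg.blockHeight 2 B (χ : G → ℂ) = 0} ≤ Nat.sqrt (Cfsg.blockRank 2 b) * 2 ^ Cfsg.blockDefect 2 b) ∧ (¬ Odd (Nat.sqrt (Cfsg.blockRank 2 b)) → (Nat.sqrt (Cfsg.blockRank 2 b) + 1) * Nat.card {χ : Cfsg.IrrCharacter G // χ ∈ B ∧ Cfsg.blockHeight 2 B (χ : G → ℂ) = 0} ≤ Cfsg.blockRank 2 b * 2 ^ Cfsg.blockDefect 2 b) ∧ (Cfsg.blockRank 2 b ≤ 3 → Nat.card {χ : Cfsg.IrrCharacter G // χ ∈ B ∧ Cfsg.blockHeight 2 B (χ : G → ℂ) = 0} ≤ 2 ^ Cfsg.blockDefect 2 b) := by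
  haveI := Fintype.ofFinite G
  haveI : Fact (Nat.Prime 2) := ⟨Nat.prime_two⟩
  obtain ⟨a, ha⟩ := hu
  set q := Cfsg.blockDefect 2 b with hq
  set l := Cfsg.blockRank 2 b with hl
  set Bs := blkFin B with hBs
  set K := Bs.filter (fun χ : IrrCharacter G => Cfsg.blockHeight 2 B (χ : G → ℂ) = 0) with hK
  have hKc : Nat.card {χ : Cfsg.IrrCharacter G // χ ∈ B ∧ Cfsg.blockHeight 2 B (χ : G → ℂ) = 0} =
      K.card := by
    rw [Nat.card_eq_fintype_card, Fintype.card_subtype, hK, hBs, blkFin, Finset.filter_filter]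
  rw [hKc]
  have hζ := Complex.isPrimitiveRoot_exp (2 ^ (a + 1)) (pow_pos two_pos _).ne'
  have hJ : ∀ k ∈ oddExps a, ¬ 2 ∣ k := fun k hk => (Finset.mem_filter.1 hk).2
  have hkey : ∀ χ : IrrCharacter G, χ ∈ K → ∃ c : ℤ, Odd c ∧ 0 ≤ c ∧
      ∑ k ∈ oddExps a, qCoef 2 u b χ χ k = (2 : ℂ) ^ a * c ∧
      c ^ 2 + ((K.card : ℤ) - 1) ≤ 2 ^ q * c := by
    intro χ hχK
    obtain ⟨hχB, hχ0⟩ := Finset.mem_filter.1 hχK
    rw [hBs, mem_blkFin] at hχB
    choose! S c hSodd hS0 hS hc using fun ψ : IrrCharacter G => fun (h : ψ ∈ K) =>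
      galTwo_average hM hζ (galVal_qCoef hM hb.1 ha hζ χ ψ)
        (qCoef_not_mem hM hB hb ha hχB hχ0 (mem_blkFin.1 (hBs ▸ (Finset.mem_filter.1 h).1))
          (Finset.mem_filter.1 h).2 1)
    obtain ⟨hcodd, hcle, hcsum⟩ := hc χ hχK (fun k _ => qCoef_conj χ χ k)
    have hrowk : ∀ k ∈ oddExps a,
        ∑ ψ ∈ Bs, Complex.normSq (qCoef 2 u b χ ψ k) = (2 : ℝ) ^ q * (qCoef 2 u b χ χ k).re := by
      intro k hk
      have h := congrArg Complex.re (qCoef_row hM hB hb ha χ (hJ k hk))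
      simp only [Complex.mul_conj, Complex.re_sum, Complex.ofReal_re] at h
      rw [show ((2 : ℕ) : ℂ) ^ blockDefect 2 b = (((2 : ℝ) ^ q : ℝ) : ℂ) by push_cast; rfl,
        Complex.re_ofReal_mul] at h
      exact h
    have hre : ∑ k ∈ oddExps a, (qCoef 2 u b χ χ k).re = (2 : ℝ) ^ a * c χ := by
      have := congrArg Complex.re hcsum
      rw [Complex.re_sum, show (2 : ℂ) ^ a * (c χ : ℂ) = (((2 : ℝ) ^ a * (c χ) : ℝ) : ℂ) by
        push_cast; rfl, Complex.ofReal_re] at this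
      exact this
    have hSre : ∀ ψ ∈ K, ∑ k ∈ oddExps a, Complex.normSq (qCoef 2 u b χ ψ k) =
        (2 : ℝ) ^ a * S ψ := fun ψ hψ => by
      apply Complex.ofReal_injective
      push_cast
      simpa [Complex.mul_conj] using hS ψ hψ
    have hrow : ∑ ψ ∈ K, ((2 : ℝ) ^ a * S ψ) ≤ (2 : ℝ) ^ a * ((2 : ℝ) ^ q * c χ) := by
      calc ∑ ψ ∈ K, ((2 : ℝ) ^ a * S ψ)
          = ∑ ψ ∈ K, ∑ k ∈ oddExps a, Complex.normSq (qCoef 2 u b χ ψ k) :=
            Finset.sum_congr rfl fun ψ hψ => (hSre ψ hψ).symm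
        _ ≤ ∑ ψ ∈ Bs, ∑ k ∈ oddExps a, Complex.normSq (qCoef 2 u b χ ψ k) :=
            Finset.sum_le_sum_of_subset_of_nonneg (Finset.filter_subset _ _) fun ψ _ _ =>
              Finset.sum_nonneg fun k _ => Complex.normSq_nonneg _
        _ = _ := by
          rw [Finset.sum_comm, Finset.sum_congr rfl hrowk, ← Finset.mul_sum, hre]
          ring
    rw [← Finset.mul_sum] at hrow
    have hrow' : ∑ ψ ∈ K, S ψ ≤ (2 : ℤ) ^ q * c χ := by
      have := le_of_mul_le_mul_left hrow (by positivity)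
      exact_mod_cast this
    have hcard : (S χ : ℤ) + ((K.card : ℤ) - 1) ≤ ∑ ψ ∈ K, S ψ := by
      rw [← Finset.add_sum_erase _ _ hχK]
      gcongr
      calc ((K.card : ℤ) - 1) = ∑ ψ ∈ K.erase χ, (1 : ℤ) := by
            rw [Finset.sum_const, Finset.card_erase_of_mem hχK, nsmul_one,
              Nat.cast_sub (Finset.card_pos.2 ⟨χ, hχK⟩), Nat.cast_one]
        _ ≤ _ := Finset.sum_le_sum fun ψ hψ => by
            have hψK := Finset.mem_of_mem_erase hψ
            have h1 := hS0 ψ hψK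
            obtain ⟨t, ht⟩ := hSodd ψ hψK
            omega
    refine ⟨c χ, hcodd, ?_, hcsum, by linarith⟩
    have h0 : (0 : ℤ) ≤ 2 ^ q * c χ := le_trans (Finset.sum_nonneg hS0) hrow'
    exact nonneg_of_mul_nonneg_right h0 (by positivity)
  choose! c hcodd hc0 hcsum hrow using hkey
  have htr : ∑ χ ∈ K, c χ ≤ (2 : ℤ) ^ q * l := by
    have hnn : ∀ k ∈ oddExps a, ∀ χ : IrrCharacter G, 0 ≤ (qCoef 2 u b χ χ k).re := by
      intro k hk χ
      have h := congrArg Complex.re (qCoef_row hM hB hb ha χ (hJ k hk))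
      simp only [Complex.mul_conj, Complex.re_sum, Complex.ofReal_re] at h
      rw [show ((2 : ℕ) : ℂ) ^ blockDefect 2 b = (((2 : ℝ) ^ q : ℝ) : ℂ) by push_cast; rfl,
        Complex.re_ofReal_mul] at h
      exact nonneg_of_mul_nonneg_right
        (h ▸ Finset.sum_nonneg fun ψ _ => Complex.normSq_nonneg _) (by positivity)
    have hcard : (oddExps a).card = 2 ^ a := by
      rw [card_oddExps, Finset.card_image_of_injective _ (fun x y h => by simpa using h),
        Finset.card_range]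
    have e : (2 : ℝ) ^ a * ((∑ χ ∈ K, c χ : ℤ) : ℝ) ≤
        (2 : ℝ) ^ a * (((2 : ℤ) ^ q * l : ℤ) : ℝ) := by
      calc (2 : ℝ) ^ a * ((∑ χ ∈ K, c χ : ℤ) : ℝ)
          = ∑ χ ∈ K, ∑ k ∈ oddExps a, (qCoef 2 u b χ χ k).re := by
            push_cast
            rw [Finset.mul_sum]
            refine Finset.sum_congr rfl fun χ hχ => ?_
            apply Complex.ofReal_injective
            push_cast
            rw [← hcsum χ hχ]
            exact Finset.sum_congr rfl fun k _ => (Complex.conj_eq_iff_re.1 (qCoef_conj χ χ k)).symm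
        _ ≤ ∑ χ ∈ Bs, ∑ k ∈ oddExps a, (qCoef 2 u b χ χ k).re :=
            Finset.sum_le_sum_of_subset_of_nonneg (Finset.filter_subset _ _) fun χ _ _ =>
              Finset.sum_nonneg fun k hk => hnn k hk χ
        _ = _ := by
            rw [Finset.sum_comm, Finset.sum_congr rfl fun k hk => by
              rw [← Complex.re_sum, qCoef_trace hM hB hb ha (hJ k hk), Complex.intCast_re],
              Finset.sum_const, hcard, nsmul_eq_mul]
            push_cast
            rfl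
    have := le_of_mul_le_mul_left e (by positivity)
    exact_mod_cast this
  have hone : ∀ χ ∈ K, 1 ≤ c χ := fun χ hχ => by
    have h1 := hc0 χ hχ
    obtain ⟨t, ht⟩ := hcodd χ hχ
    omega
  have hs1 : Nat.sqrt l * Nat.sqrt l ≤ l := Nat.sqrt_le l
  have hs2 : l < (Nat.sqrt l + 1) * (Nat.sqrt l + 1) := Nat.lt_succ_sqrt l
  set s := Nat.sqrt l with hs
  have h2q : (0 : ℤ) < (2 : ℤ) ^ q := by positivity
  have hmain : ∀ r : ℕ, (∃ χ ∈ K, c χ ≤ (r : ℤ)) → K.card ≤ r * 2 ^ q := by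
    rintro r ⟨χ, hχ, hle⟩
    have h1 := hrow χ hχ
    have h2 := hone χ hχ
    have h3 : (K.card : ℤ) ≤ (r : ℤ) * 2 ^ q := by nlinarith
    exact_mod_cast h3
  have hbig : ∀ r : ℕ, (∀ χ ∈ K, (r : ℤ) ≤ c χ) → r * K.card ≤ l * 2 ^ q := by
    intro r hr
    have h3 : (r : ℤ) * K.card ≤ (l : ℤ) * 2 ^ q := by
      have h := Finset.sum_le_sum hr
      rw [Finset.sum_const, nsmul_eq_mul] at h
      linarith
    exact_mod_cast h3
  have hodd : Odd s → K.card ≤ s * 2 ^ q := by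
    intro ho
    by_cases hex : ∃ χ ∈ K, c χ ≤ (s : ℤ)
    · exact hmain s hex
    · push_neg at hex
      have := hbig (s + 2) fun χ hχ => by
        have h1 := hex χ hχ
        obtain ⟨t, ht⟩ := hcodd χ hχ
        obtain ⟨t', ht'⟩ := ho
        push_cast [ht'] at *
        omega
      have hl' : l ≤ s * (s + 2) := by nlinarith
      refine Nat.le_of_mul_le_mul_left ?_ (by omega : 0 < s + 2)
      calc (s + 2) * K.card ≤ l * 2 ^ q := this
        _ ≤ s * (s + 2) * 2 ^ q := Nat.mul_le_mul_right _ hl'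
        _ = _ := by ring
  refine ⟨hodd, ?_, ?_⟩
  · intro he
    rw [Nat.not_odd_iff_even] at he
    by_cases hex : ∃ χ ∈ K, c χ ≤ (s : ℤ)
    · obtain ⟨χ, hχ, hle⟩ := hex
      obtain ⟨t, ht⟩ := hcodd χ hχ
      obtain ⟨t', ht'⟩ := he
      have h1 := hone χ hχ
      obtain ⟨s', hs'⟩ : ∃ s', s = s' + 1 := ⟨s - 1, by omega⟩
      have hK1 : K.card ≤ s' * 2 ^ q := hmain s' ⟨χ, hχ, by omega⟩
      calc (s + 1) * K.card ≤ (s + 1) * (s' * 2 ^ q) := Nat.mul_le_mul_left _ hK1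
        _ ≤ l * 2 ^ q := by
          rw [← mul_assoc]
          exact Nat.mul_le_mul_right _ (by nlinarith)
    · push_neg at hex
      exact hbig (s + 1) fun χ hχ => by have := hex χ hχ; push_cast; omega
  · intro hl3
    rcases Nat.eq_zero_or_pos l with h0 | h0
    · have := hbig 1 (by simpa using hone)
      rw [h0, zero_mul, one_mul] at this
      exact le_trans this (Nat.zero_le _)
    · have hs' : s = 1 := by
        rcases Nat.lt_or_ge s 1 with h | h
        · interval_cases s; omega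
        · rcases Nat.lt_or_ge s 2 with h' | h'
          · omega
          · nlinarith
      simpa [hs'] using hodd (by rw [hs']; decide)

end Cfsg.Agent.S4541
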