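import Cfsg.Statements.S4550
import Cfsg.Agent.Lib.BlockPrinColumn
import Cfsg.Agent.Lib.BlockPrincipal
import Cfsg.Agent.Lib.CharGalois
import Cfsg.Agent.Lib.CharRep
import Mathlib.Tactic

set_option autoImplicit false
open Cfsg

namespace Cfsg.Agent.S4550

open CfsgLib.Char CfsgLib.Block
open scoped ComplexConjugate

theorem invol_parity {G : Type*} [Group G] [Finite G] {χ : G → ℂ} (hχ : IsCharacter G χ) {t : G}
    (ht : t * t = 1) : ∃ z : ℤ, χ t = z ∧ ((z : ZMod 2)) = (charDegree χ : ZMod 2) := by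
  obtain ⟨n, ρ, rfl⟩ := hχ
  obtain ⟨b, μ, -, hμ, hk⟩ := CfsgLib.Char.exists_rep_eigenbasis ρ t
  have hord : orderOf t ∣ 2 := orderOf_dvd_of_pow_eq_one (by rw [pow_two, ht])
  have h1 : ∀ i, ∃ z : ℤ, μ i = z ∧ (z : ZMod 2) = 1 := fun i => by
    obtain ⟨c, hc⟩ := hord
    have h2 : μ i ^ 2 = 1 := by rw [hc, pow_mul, hμ, one_pow]
    rcases sq_eq_one_iff.1 h2 with h | h
    · exact ⟨1, by rw [h]; norm_num, by simp⟩
    · exact ⟨-1, by rw [h]; norm_num, by decide⟩
  choose z hz hz2 using h1
  refine ⟨∑ i, z i, ?_, ?_⟩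
  · have h3 := hk 1
    rw [pow_one] at h3
    rw [h3, Int.cast_sum]
    exact Finset.sum_congr rfl fun i _ => by rw [pow_one, hz]
  · have hd : charDegree ρ.character = n := by
      rw [charDegree, ρ.char_one]; simp
    rw [hd, Int.cast_sum]
    simp [hz2]

theorem pow_two_pow_modEq_one {k : ℕ} (hk : Odd k) {i a : ℕ} (hia : i ≤ a) :
    k ^ 2 ^ a ≡ 1 [MOD 2 ^ i] := by
  have hd : Nat.totient (2 ^ i) ∣ 2 ^ a := by
    rcases i.eq_zero_or_pos with rfl | hi
    · simp
    · rw [Nat.totient_prime_pow Nat.prime_two hi]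
      simpa using pow_dvd_pow 2 (show i - 1 ≤ a by omega)
  obtain ⟨c, hc⟩ := hd
  rw [hc, pow_mul]
  simpa using (Nat.ModEq.pow_totient ((Nat.coprime_two_right.mpr hk).pow_right i)).pow c

/-- Let G be a finite group of even order and M a maximal ideal of the algebraic integers containing 2. Let k be a natural number with g ^ k = g ^ 3 for every 2-element g and g ^ k = g for every element g of odd order (such k exist); an irreducible character χ is unchanged by g ↦ g ^ k exactly when it is fixed by the field automorphism that cubes the 2-power roots of unity and fixes the roots of unity of odd order. Then the number of members χ of the principal 2-block of odd degree with χ (g ^ k) = χ g for all g is even. -/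
theorem result {G : Type*} [Group G] [Finite G] (M : Ideal Cfsg.AlgInt) (hM : Cfsg.IsPModular 2 M) (hev : Even (Nat.card G)) (k : ℕ) (hk₁ : ∀ g : G, (∃ j : ℕ, orderOf g = 2 ^ j) → g ^ k = g ^ 3) (hk₂ : ∀ g : G, Odd (orderOf g) → g ^ k = g) : Even (Nat.card {χ : Cfsg.IrrCharacter G // χ ∈ Cfsg.principalBlock M G ∧ Odd (Cfsg.charDegree (χ : G → ℂ)) ∧ ∀ g : G, (χ : G → ℂ) (g ^ k) = (χ : G → ℂ) g}) := by
  classical
  haveI := Fintype.ofFinite G
  haveI : Fact (Nat.Prime 2) := ⟨Nat.prime_two⟩
  obtain ⟨t, ht⟩ := exists_prime_orderOf_dvd_card' (G := G) 2 (even_iff_two_dvd.mp hev)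
  have htt : t * t = 1 := by rw [← pow_two, ← ht, pow_orderOf_eq_one]
  have ht1 : t ≠ 1 := fun h => by rw [h, orderOf_one] at ht; omega
  have hkodd : Odd k := by
    rw [← Nat.not_even_iff_odd]
    rintro ⟨r, hr⟩
    have h := hk₁ t ⟨1, by rw [ht, pow_one]⟩
    rw [hr, ← two_mul, pow_mul, pow_two, htt, one_pow, pow_succ, pow_two, htt, one_mul] at h
    exact ht1 h.symm
  have hcop : k.Coprime (Nat.card G) := by
    rw [Nat.coprime_comm]
    refine Nat.coprime_of_dvd fun q hq hqG hqk => ?_
    by_cases hq2 : q = 2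
    · subst hq2; exact Nat.not_even_iff_odd.mpr hkodd (even_iff_two_dvd.mpr hqk)
    · haveI := Fact.mk hq
      obtain ⟨g, hg⟩ := exists_prime_orderOf_dvd_card' (G := G) q hqG
      have h := hk₂ g (hg ▸ hq.odd_of_ne_two hq2)
      obtain ⟨c, hc⟩ := hqk
      rw [hc, pow_mul, ← hg, pow_orderOf_eq_one, one_pow] at h
      exact hq.ne_one (by rw [← hg, ← h, orderOf_one])
  have hper : ∀ g : G, g ^ k ^ 2 ^ Nat.card G = g := by
    intro g
    have hpos := orderOf_pos g
    obtain ⟨i, m, hm, hmi⟩ := Nat.exists_eq_two_pow_mul_odd hpos.ne'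
    have hi : i ≤ Nat.card G := by
      have h1 : 2 ^ i ≤ Nat.card G :=
        le_trans (Nat.le_of_dvd hpos ⟨m, hmi⟩) (Nat.le_of_dvd Nat.card_pos (orderOf_dvd_natCard g))
      exact le_trans (Nat.lt_two_pow_self).le h1
    have hom : orderOf (g ^ 2 ^ i) = m := by
      rw [orderOf_pow' g (pow_ne_zero _ two_ne_zero), hmi, Nat.gcd_mul_right_left,
        Nat.mul_div_cancel_left _ (Nat.two_pow_pos i)]
    have hk1 : k ≡ 1 [MOD m] := by
      rw [← hom, ← pow_eq_pow_iff_modEq, pow_one]
      exact hk₂ _ (hom ▸ hm)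
    have h := (Nat.modEq_and_modEq_iff_modEq_mul ((Nat.coprime_two_left.mpr hm).pow_left i)).mp
      ⟨pow_two_pow_modEq_one hkodd hi, by simpa using hk1.pow (2 ^ Nat.card G)⟩
    rw [← hmi, ← pow_eq_pow_iff_modEq, pow_one] at h
    exact h
  let S := {χ : IrrCharacter G // χ ∈ principalBlock M G ∧ Odd (charDegree (χ : G → ℂ))}
  have hmem : ∀ χ : IrrCharacter G, χ ∈ principalBlock M G →
      (⟨powTwist k (χ : G → ℂ), powTwist_irr hcop χ.2⟩ : IrrCharacter G) ∈ principalBlock M G := by
    intro χ hχ g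
    have h := hχ (g ^ k)
    have hC : Subgroup.centralizer ({g ^ k} : Set G) = Subgroup.centralizer ({g} : Set G) := by
      ext x
      rw [Subgroup.mem_centralizer_singleton_iff, Subgroup.mem_centralizer_singleton_iff]
      constructor
      · intro hx
        have hgz : g ∈ Subgroup.zpowers (g ^ k) :=
          mem_zpowers_pow_iff.mpr (hcop.coprime_dvd_right (orderOf_dvd_natCard g))
        obtain ⟨j, hj⟩ := hgz
        rw [← hj]
        exact ((show Commute x (g ^ k) from hx).zpow_right j).eq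
      · intro hx; exact ((show Commute x g from hx).pow_right k).eq
    simpa [centralChar, powTwist, hC, one_pow] using h
  let σ : S → S := fun χ => ⟨⟨powTwist k (χ.1 : G → ℂ), powTwist_irr hcop χ.1.2⟩, hmem _ χ.2.1, by
    simpa [charDegree, powTwist] using χ.2.2⟩
  have hσ : ∀ (n : ℕ) (χ : S) (g : G), ((σ^[n] χ).1 : G → ℂ) g = (χ.1 : G → ℂ) (g ^ k ^ n) := by
    intro n
    induction n with
    | zero => intro χ g; simp
    | succ n ih =>
      intro χ g
      rw [Function.iterate_succ_apply, ih]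
      show (χ.1 : G → ℂ) ((g ^ k ^ n) ^ k) = _
      rw [← pow_mul, ← pow_succ]
  have hσ1 : σ^[2 ^ Nat.card G] = id := by
    funext χ
    refine Subtype.ext (Subtype.ext (funext fun g => ?_))
    rw [hσ, hper]
    rfl
  have hbij : Function.Bijective σ := by
    constructor
    · intro a b h
      have : σ^[2 ^ Nat.card G] a = σ^[2 ^ Nat.card G] b := by
        conv_lhs => rw [← Nat.succ_pred_eq_of_pos (Nat.two_pow_pos (Nat.card G))]
        conv_rhs => rw [← Nat.succ_pred_eq_of_pos (Nat.two_pow_pos (Nat.card G))]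
        rw [Function.iterate_succ_apply, Function.iterate_succ_apply, h]
      rw [hσ1] at this
      exact this
    · intro b
      refine ⟨σ^[2 ^ Nat.card G - 1] b, ?_⟩
      rw [← Function.iterate_succ_apply' σ, Nat.succ_eq_add_one,
        Nat.sub_add_cancel (Nat.two_pow_pos (Nat.card G)), hσ1]
      rfl
  let e : Equiv.Perm S := Equiv.ofBijective σ hbij
  have he : e ^ 2 ^ Nat.card G = 1 := by
    ext1 χ
    rw [← Equiv.Perm.iterate_eq_pow]
    exact congrFun hσ1 χ
  have hSeven : Even (Fintype.card S) := by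
    have h0 := block_sum_pElement_eq_zero hM (isPBlock_principal (G := G) M) (u := 1) (v := t)
      ⟨0, by simp⟩ ⟨1, by rw [ht, pow_one]⟩ (fun h => ht1 (by
        obtain ⟨x, hx⟩ := isConj_iff.mp h
        simpa using hx.symm))
    choose z hz hz2 using fun χ : IrrCharacter G => invol_parity χ.2.isCharacter' htt
    have hterm : ∀ χ : IrrCharacter G, indVal (principalBlock M G) χ *
        ((χ : G → ℂ) t * conj ((χ : G → ℂ) 1)) =
        (((if χ ∈ principalBlock M G then z χ * (charDegree (χ : G → ℂ) : ℤ) else 0 : ℤ)) : ℂ) := by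
      intro χ
      obtain ⟨d, hd⟩ := exists_degree χ.2.isCharacter'
      have hdd : charDegree (χ : G → ℂ) = d := by rw [charDegree, hd]; simp
      unfold indVal
      split_ifs with h <;> simp [hz, hd, hdd]
    rw [Finset.sum_congr rfl fun χ _ => hterm χ, ← Int.cast_sum, Int.cast_eq_zero] at h0
    have h2 := congrArg (fun x : ℤ => (x : ZMod 2)) h0
    simp only [Int.cast_sum, Int.cast_zero] at h2
    rw [← ZMod.natCast_eq_zero_iff_even, Fintype.card_subtype, ← h2, ← Finset.sum_boole]
    refine Finset.sum_congr rfl fun χ _ => ?_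
    split_ifs with h1 h3 h3
    · rw [Int.cast_mul, hz2]
      push_cast
      rw [ZMod.natCast_eq_one_iff_odd.mpr h1.2, mul_one]
    · exact absurd h1.1 h3
    · rw [Int.cast_mul, hz2]
      push_cast
      rw [ZMod.natCast_eq_zero_iff_even.mpr (Nat.not_odd_iff_even.mp fun h4 => h1 ⟨h3, h4⟩), mul_zero]
    · simp
  have hfix : Nat.card S ≡ Nat.card (Function.fixedPoints e) [MOD 2] := by
    have h := (IsPGroup.of_card (p := 2) (G := Subgroup.zpowers e) (n := (Nat.dvd_prime_pow Nat.prime_two).mp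
      (orderOf_dvd_of_pow_eq_one he) |>.choose) (by
        rw [Nat.card_zpowers]
        exact ((Nat.dvd_prime_pow Nat.prime_two).mp (orderOf_dvd_of_pow_eq_one he)).choose_spec.2)).card_modEq_card_fixedPoints S
    refine h.trans (congrArg (fun x => x % 2) ?_)
    refine Nat.card_congr (Equiv.setCongr (Set.ext fun χ => ⟨fun hx => hx ⟨e, Subgroup.mem_zpowers e⟩, ?_⟩))
    rintro hx ⟨f, n, rfl⟩
    exact MulAction.mem_stabilizer_iff.mp (zpow_mem (show e ∈ MulAction.stabilizer (Equiv.Perm S) χ from hx) n)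
  rw [Nat.card_eq_fintype_card (α := S)] at hfix
  have hres : Even (Nat.card (Function.fixedPoints e)) := by
    rw [Nat.even_iff] at hSeven ⊢
    rw [← hfix, hSeven]
  convert hres using 1
  refine Nat.card_congr
    { toFun := fun χ => ⟨⟨χ.1, χ.2.1, χ.2.2.1⟩, Subtype.ext (Subtype.ext (funext χ.2.2.2))⟩
      invFun := fun χ => ⟨χ.1.1, χ.1.2.1, χ.1.2.2, fun g =>
        congrFun (congrArg (fun y : S => (y.1 : G → ℂ)) χ.2) g⟩
      left_inv := fun χ => rfl
      right_inv := fun χ => rfl }

end Cfsg.Agent.S4550
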