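import Cfsg.Statements.S4558
import Cfsg.Agent.Lib.BlockDefect2

set_option autoImplicit false
open Cfsg
open CfsgLib.Block CfsgLib.Char
open scoped Classical


namespace Cfsg.Agent.S4558

/-- Let χ be a character of the finite group G and g an element of p-power order for the prime p. If χ g = 0, then p divides the degree of χ. -/
theorem result {G : Type*} [Group G] [Finite G] (p : ℕ) [Fact p.Prime] (χ : G → ℂ) (hχ : Cfsg.IsCharacter G χ) (g : G) (hg : ∃ j : ℕ, orderOf g = p ^ j) (h0 : χ g = 0) : p ∣ Cfsg.charDegree χ := by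
  haveI := Fintype.ofFinite G
  obtain ⟨M, hM⟩ := exists_isPModular (Fact.out : p.Prime)
  have h := res_apply_mul hM hχ (Commute.one_right g) hg
    (by rw [orderOf_one]; exact hM.1.not_dvd_one)
  rw [← res_natCast_eq_zero_iff hM]
  have e : ∀ (z : ℂ) (hz : z ∈ locRing hM), z = 0 → res hM ⟨z, hz⟩ = 0 := fun z hz e => by
    subst e
    exact (res hM).map_zero
  rw [e _ _ (by rw [mul_one, h0])] at h
  rw [h]
  exact congrArg (res hM) (Subtype.ext (by rw [SubringClass.coe_natCast]; exact charDegree_cast hχ))

end Cfsg.Agent.S4558
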