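import Cfsg.Statements.S4565
import Cfsg.Agent.Lib.CharExtend
import Cfsg.Agent.Lib.CharGallagher
import Cfsg.Agent.Lib.CharRamified
import Cfsg.Agent.Lib.CharInd

set_option autoImplicit false
open Cfsg

namespace Cfsg.Agent.S4565

open CfsgLib.Char
open scoped ComplexConjugate

/-- Let χ be an irreducible character of the finite group H that is fully ramified over the normal subgroup Z: the restriction of χ to Z is e times an irreducible character of Z with e ^ 2 equal to the index of Z. If Z ≠ H, then H/Z has no cyclic subgroup that is its own centralizer. -/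
theorem result {H : Type*} [Group H] [Finite H] (Z : Subgroup H) [Z.Normal] (χ : Cfsg.IrrCharacter H) (hfr : ∃ (θ : Cfsg.IrrCharacter ↥Z) (e : ℕ), e ^ 2 = Z.index ∧ ∀ z : ↥Z, (χ : H → ℂ) z = (e : ℂ) * (θ : ↥Z → ℂ) z) (hZ : Z ≠ ⊤) (C : Subgroup (H ⧸ Z)) (hC : IsCyclic C) : Subgroup.centralizer (C : Set (H ⧸ Z)) ≠ C := by
  classical
  haveI := Fintype.ofFinite H
  intro hself
  obtain ⟨θ, e, he2, hθ⟩ := hfr
  haveI := Fintype.ofFinite Z
  obtain ⟨⟨cb, hcb⟩, hgen⟩ := hC.exists_generator
  have hgen' : ∀ q ∈ C, ∃ k : ℤ, q = cb ^ k := fun q hq => by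
    obtain ⟨k, hk⟩ := hgen ⟨q, hq⟩
    exact ⟨k, by simpa using (congrArg Subtype.val hk).symm⟩
  have hcb1 : cb ≠ 1 := by
    intro h
    apply hZ
    have hCbot : C = ⊥ := by
      rw [eq_bot_iff]; intro q hq
      obtain ⟨k, rfl⟩ := hgen' q hq
      simp [h]
    rw [hCbot] at hself
    rw [eq_top_iff]
    intro x _
    have hx : (QuotientGroup.mk x : H ⧸ Z) ∈ Subgroup.centralizer ((⊥ : Subgroup (H ⧸ Z)) : Set (H ⧸ Z)) := by
      rw [Subgroup.mem_centralizer_iff]
      intro y hy
      rw [Subgroup.mem_bot.mp hy, one_mul, mul_one]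
    rw [hself, Subgroup.mem_bot, QuotientGroup.eq_one_iff] at hx
    exact hx
  obtain ⟨c, rfl⟩ := QuotientGroup.mk_surjective cb
  set K : Subgroup H := C.comap (QuotientGroup.mk' Z) with hK
  have hmemK : ∀ x : H, x ∈ K ↔ (QuotientGroup.mk x : H ⧸ Z) ∈ C := fun x => Iff.rfl
  have hcK : c ∈ K := hcb
  have hZK : Z ≤ K := fun z hz => by rw [hmemK, (QuotientGroup.eq_one_iff z).mpr hz]; exact one_mem C
  set N : Subgroup K := Z.subgroupOf K with hN
  let θ' : N → ℂ := fun n => (θ : Z → ℂ) ⟨((n : K) : H), n.2⟩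
  have hθ' : IsIrrCharacter N θ' := isIrrCharacter_comp_equiv θ.2 (Subgroup.subgroupOfEquivOfLe hZK)
  have hχZ : (fun z : Z => (χ : H → ℂ) z) = (e : ℂ) • (θ : Z → ℂ) := funext fun z => hθ z
  have hcon : classInner (fun z : Z => (χ : H → ℂ) z) (θ : Z → ℂ) ≠ 0 := by
    rw [hχZ, CfsgLib.Char.inner_smul_left, irr_inner_self θ.2, mul_one]
    intro h
    rw [Nat.cast_eq_zero] at h
    subst h
    exact Z.index_ne_zero_of_finite (by simpa using he2.symm)
  obtain ⟨⟨h1, -⟩, ⟨h2, -⟩⟩ := fully_ramified_iff Z χ.2 θ.2 hcon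
  obtain ⟨hvan, hinvZ⟩ := h1 ⟨e, hχZ, he2⟩
  have huniq := h2 ⟨e, hχZ, he2⟩
  have hinv : ∀ (g : K) (n : N), θ' (MulAut.conjNormal g n) = θ' n := by
    intro g n
    exact hinvZ (g : H) ⟨((n : K) : H), n.2⟩
  obtain ⟨ψ, hψ, hψθ⟩ := exists_extension_of_cyclic hθ' hinv ⟨c, hcK⟩ (by
    intro g
    obtain ⟨k, hk⟩ := hgen' _ ((hmemK g).mp g.2)
    refine ⟨k, ?_⟩
    rw [hN, Subgroup.mem_subgroupOf]
    rw [← QuotientGroup.eq_one_iff]
    simp [← hk])
  have hψN : IsIrrCharacter N (fun n : N => ψ n) := by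
    rw [show (fun n : N => ψ n) = θ' from funext hψθ]; exact hθ'
  let h : K → ℂ := fun x => if (QuotientGroup.mk (x : H) : H ⧸ Z) = QuotientGroup.mk c then ψ x else 0
  let y₀ : K := ⟨c, hcK⟩
  obtain ⟨n₀, hn₀⟩ : ∃ n : N, ψ ((n : K) * y₀) ≠ 0 := by
    by_contra hall
    push Not at hall
    have h1 := congrFun (cosetAvg_self N hψ hψN) y₀
    rw [cosetAvg_eq] at h1
    simp [hall] at h1
  have hmk : ∀ n : N, (QuotientGroup.mk (((n : K) * y₀ : K) : H) : H ⧸ Z) = QuotientGroup.mk c := by
    intro n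
    rw [Subgroup.coe_mul, QuotientGroup.mk_mul, (QuotientGroup.eq_one_iff ((n : K) : H)).mpr n.2, one_mul]
  set y : H := (((n₀ : K) * y₀ : K) : H) with hy
  -- the induced function is nonzero at `y`
  have hval : indFun K h y ≠ 0 := by
    have hterm : ∀ x : H, extendByZero K h (x⁻¹ * y * x) =
        if x ∈ K then ψ ((n₀ : K) * y₀) else 0 := by
      intro x
      by_cases hx : x ∈ K
      · rw [if_pos hx, extendByZero_mem h (mul_mem (mul_mem (inv_mem hx) ((n₀ : K) * y₀).2) hx)]
        have hxy : (⟨x⁻¹ * y * x, mul_mem (mul_mem (inv_mem hx) ((n₀ : K) * y₀).2) hx⟩ : K) =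
            (⟨x, hx⟩ : K)⁻¹ * ((n₀ : K) * y₀) * (⟨x, hx⟩ : K)⁻¹⁻¹ := Subtype.ext (by simp [y])
        rw [hxy]
        simp only [h]
        rw [if_pos ?_, isCharacter_classFunction hψ.isCharacter' _ _]
        have hcom : (QuotientGroup.mk x : H ⧸ Z) * QuotientGroup.mk c = QuotientGroup.mk c * QuotientGroup.mk x := by
          obtain ⟨k, hk⟩ := hgen' _ hx
          rw [show (QuotientGroup.mk x : H ⧸ Z) = (QuotientGroup.mk c : H ⧸ Z) ^ k from hk]
          exact ((Commute.refl (QuotientGroup.mk c : H ⧸ Z)).zpow_left k).eq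
        simp only [Subgroup.coe_mul, Subgroup.coe_inv, QuotientGroup.mk_mul, QuotientGroup.mk_inv,
          inv_inv, (QuotientGroup.eq_one_iff ((n₀ : K) : H)).mpr n₀.2, one_mul]
        rw [mul_assoc, ← hcom, inv_mul_cancel_left]
      · rw [if_neg hx]
        by_cases hm : x⁻¹ * y * x ∈ K
        · rw [extendByZero_mem h hm]
          simp only [h]
          rw [if_neg]
          intro heq
          rw [QuotientGroup.mk_mul, QuotientGroup.mk_mul, QuotientGroup.mk_inv, hy, hmk n₀,
            mul_assoc, inv_mul_eq_iff_eq_mul] at heq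
          apply hx
          rw [hmemK, ← hself, Subgroup.mem_centralizer_iff]
          intro q hq
          obtain ⟨k, rfl⟩ := hgen' q hq
          exact ((show Commute (QuotientGroup.mk c : H ⧸ Z) (QuotientGroup.mk x) from heq).zpow_left k).eq
        · exact extendByZero_not_mem h hm
    rw [indFun_apply, Finset.sum_congr rfl fun x _ => hterm x, Finset.sum_ite, Finset.sum_const_zero,
      add_zero, Finset.sum_const, nsmul_eq_mul]
    refine mul_ne_zero (inv_ne_zero (natCard_ne_zero K)) (mul_ne_zero ?_ hn₀)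
    rw [Nat.cast_ne_zero]
    exact (Finset.card_pos.mpr ⟨1, by simp⟩).ne'
  apply hval
  have hzero : ∀ η : IrrCharacter H, classInner (indFun K h) (η : H → ℂ) = 0 := by
    intro η
    rw [CfsgLib.Char.frobenius h _ (isCharacter_classFunction η.2.isCharacter')]
    by_cases hη : classInner (indFun Z (θ : Z → ℂ)) (η : H → ℂ) = 0
    · have hres : classInner (fun n : N => (η : H → ℂ) ((n : K) : H)) θ' = 0 := by
        rw [CfsgLib.Char.frobenius _ _ (isCharacter_classFunction η.2.isCharacter')] at hη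
        rw [← CfsgLib.Char.inner_conj_symm, map_eq_zero]
        rw [← inner_comp_equiv (Subgroup.subgroupOfEquivOfLe hZK)] at hη
        exact hη
      set ηK : K → ℂ := fun k => (η : H → ℂ) k with hηK
      have hηc : IsCharacter K ηK := isCharacter_restrict η.2.isCharacter' K
      choose m hm0 using (isCharacter_iff_nat.mp hηc).2
      have hm : ηK = ∑ ξ : IrrCharacter K, (m (ξ : K → ℂ) ξ.2 : ℂ) • (ξ : K → ℂ) := by
        conv_lhs => rw [classFunction_eq_sum ηK (isCharacter_iff_nat.mp hηc).1]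
        exact Finset.sum_congr rfl fun ξ _ => by rw [hm0 (ξ : K → ℂ) ξ.2]
      have hsum : ∑ ξ : IrrCharacter K, (m (ξ : K → ℂ) ξ.2 : ℂ) *
          classInner (fun n : N => (ξ : K → ℂ) n) (fun n : N => ψ n) = 0 := by
        rw [← hres, show θ' = (fun n : N => ψ n) from funext fun n => (hψθ n).symm,
          show (fun n : N => (η : H → ℂ) ((n : K) : H)) = fun n : N => ηK n from rfl, hm]
        rw [show (fun n : N => (∑ ξ : IrrCharacter K, (m (ξ : K → ℂ) ξ.2 : ℂ) • (ξ : K → ℂ)) n) =
          ∑ ξ : IrrCharacter K, (m (ξ : K → ℂ) ξ.2 : ℂ) • fun n : N => (ξ : K → ℂ) n from by funext n; simp,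
          inner_sum_left]
        simp only [CfsgLib.Char.inner_smul_left]
      choose r hr using fun ξ : IrrCharacter K =>
        inner_character_nat (isCharacter_restrict ξ.2.isCharacter' N) hψN.isCharacter'
      simp only [hr, ← Nat.cast_mul, ← Nat.cast_sum, Nat.cast_eq_zero, Finset.sum_eq_zero_iff] at hsum
      have hcos : ∀ ξ : IrrCharacter K, (m (ξ : K → ℂ) ξ.2 : ℂ) * cosetAvg N (ξ : K → ℂ) ψ y₀ = 0 := by
        intro ξ
        rcases Nat.mul_eq_zero.mp (hsum ξ (Finset.mem_univ _)) with h0 | h0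
        · simp [h0]
        · rw [(gallagher N hψ hψN ξ.2).2 (by rw [hr, h0]; simp)]; simp
      have havg : cosetAvg N ηK ψ y₀ = 0 := by
        rw [cosetAvg_eq, hm]
        simp only [Finset.sum_apply, Pi.smul_apply, smul_eq_mul, Finset.sum_mul]
        rw [Finset.sum_comm, Finset.mul_sum]
        refine Finset.sum_eq_zero fun ξ _ => ?_
        rw [← hcos ξ, cosetAvg_eq, Finset.mul_sum, Finset.mul_sum, Finset.mul_sum]
        exact Finset.sum_congr rfl fun n _ => by ring
      simp only [classInner]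
      refine mul_eq_zero_of_right _ ?_
      rw [cosetAvg_eq, mul_eq_zero, inv_eq_zero] at havg
      have hs := havg.resolve_left (natCard_ne_zero N)
      rw [show ∑ x : K, h x * conj ((η : H → ℂ) x) =
          ∑ x ∈ Finset.univ.filter (fun x : K => (QuotientGroup.mk (x : H) : H ⧸ Z) = QuotientGroup.mk c),
            ψ x * conj (ηK x) from by
        rw [Finset.sum_filter]
        exact Finset.sum_congr rfl fun x _ => by simp only [h, hηK]; split_ifs <;> simp]
      rw [← map_eq_zero (starRingEnd ℂ), map_sum, ← hs]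
      refine Finset.sum_bij' (fun x hx => (⟨x * y₀⁻¹, ?_⟩ : N)) (fun n _ => (n : K) * y₀)
        (fun x hx => Finset.mem_univ _) (fun n _ => Finset.mem_filter.mpr ⟨Finset.mem_univ _, hmk n⟩)
        (fun x hx => by simp) (fun n _ => Subtype.ext (by simp)) (fun x hx => by simp [mul_comm])
      rw [hN, Subgroup.mem_subgroupOf, ← QuotientGroup.eq_one_iff]
      simp [(Finset.mem_filter.mp hx).2, y₀]
    · have hηχ := (huniq 1 1).2 η η.2 hη
      simp only [classInner]
      refine mul_eq_zero_of_right _ (Finset.sum_eq_zero fun x _ => ?_)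
      simp only [h]
      split_ifs with hx
      · rw [hηχ, hvan (x : H) fun hz => hcb1 (by rw [← hx, (QuotientGroup.eq_one_iff (x : H)).mpr hz]), map_zero, mul_zero]
      · rw [zero_mul]
  rw [classFunction_eq_sum _ (indFun_classFunction h)]
  simp [hzero]

end Cfsg.Agent.S4565
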