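import Cfsg.Statements.S4566
import Cfsg.Agent.Lib.BlockRegular
import Cfsg.Agent.Lib.CharBasic

set_option autoImplicit false
open Cfsg
open CfsgLib.Block CfsgLib.Char
open scoped Classical


namespace Cfsg.Agent.S4566

/-- Let N be a central subgroup of the finite group G, ψ a faithful irreducible (hence degree-one) character of N, and χ an irreducible character of G whose restriction to N contains ψ. If g ∈ G and some x ∈ G has commutator x⁻¹ g⁻¹ x g in N but different from 1, then χ g = 0. -/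
theorem result {G : Type*} [Group G] [Fintype G] (N : Subgroup G) [Fintype N] (hN : N ≤ Subgroup.center G) (ψ : Cfsg.IrrCharacter ↥N) (hfaith : ∀ n : ↥N, (ψ : ↥N → ℂ) n = (ψ : ↥N → ℂ) 1 → n = 1) (χ : Cfsg.IrrCharacter G) (hover : Cfsg.classInner (fun n : ↥N => (χ : G → ℂ) n) (ψ : ↥N → ℂ) ≠ 0) (g x : G) (hcomm : x⁻¹ * g⁻¹ * x * g ∈ N) (hne : x⁻¹ * g⁻¹ * x * g ≠ 1) : (χ : G → ℂ) g = 0 := by
  haveI := Fintype.ofFinite G
  set z : ↥N := ⟨_, hcomm⟩ with hz
  have hzc : (z : G) ∈ Subgroup.center G := hN z.2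
  obtain ⟨ω, -, hω⟩ := irr_central_mul χ (inv_mem hzc)
  obtain ⟨ω', -, hω'⟩ := irr_central_mul ψ (s := z⁻¹)
    (inv_mem (Subgroup.mem_center_iff.mpr fun v => Subtype.ext (Subgroup.mem_center_iff.mp hzc v)))
  have hne1 : ω ≠ 1 := by
    intro e
    apply hover
    set S := classInner (fun n : ↥N => (χ : G → ℂ) n) (ψ : ↥N → ℂ) with hS
    have h1 : S = starRingEnd ℂ ω' * S := by
      rw [hS]
      simp only [Cfsg.classInner]
      rw [mul_left_comm]
      refine congrArg (fun t : ℂ => (Nat.card ↥N : ℂ)⁻¹ * t) ?_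
      rw [Finset.mul_sum]
      refine Fintype.sum_equiv (Equiv.mulLeft z) _ _ fun n => ?_
      have a1 := hω ((z * n : ↥N) : G)
      have a2 := hω' (z * n)
      rw [inv_mul_cancel_left] at a2
      rw [Subgroup.coe_mul, inv_mul_cancel_left, e, one_mul] at a1
      rw [Equiv.coe_mulLeft, a1, a2, map_mul, Subgroup.coe_mul]
      ring
    rcases eq_or_ne (starRingEnd ℂ ω') 1 with hw | hw
    · exfalso
      have hw' : ω' = 1 := by rw [← Complex.conj_conj ω', hw, map_one]
      have h2 := hω' 1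
      rw [hw', one_mul, mul_one] at h2
      exact hne (congrArg Subtype.val (inv_eq_one.mp (hfaith z⁻¹ h2)))
    · by_contra hS0
      exact hw ((mul_eq_right₀ hS0).mp h1.symm)
  have h3 := hω g
  have hgz : IsConj g ((z : G)⁻¹ * g) := by
    refine isConj_iff.mpr ⟨x⁻¹, ?_⟩
    rw [inv_inv]
    have hc : g * (z : G)⁻¹ = (z : G)⁻¹ * g :=
      Subgroup.mem_center_iff.mp (inv_mem hzc) g
    calc x⁻¹ * g * x = g * (z : G)⁻¹ := by
          show x⁻¹ * g * x = g * (x⁻¹ * g⁻¹ * x * g)⁻¹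
          group
      _ = (z : G)⁻¹ * g := hc
  rw [← (isConj_iff_irr_eq _ _).1 hgz χ] at h3
  by_contra h0
  exact hne1 ((mul_eq_right₀ h0).mp h3.symm)

end Cfsg.Agent.S4566
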