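import Cfsg.Statements.S4567
import Cfsg.Agent.Lib.CharLinear
import Cfsg.Agent.Lib.CharNormal
import Cfsg.Agent.Lib.CharPerm
import Cfsg.Agent.Lib.BlockRegular

set_option autoImplicit false
open Cfsg

namespace Cfsg.Agent.S4567

/-- Let N be a central subgroup of the finite group G and ψ a faithful irreducible (hence degree-one) character of N. Call a coset g N special when every x ∈ G whose commutator x⁻¹ g⁻¹ x g lies in N actually commutes with g (this depends only on the coset). Then the number of irreducible characters of G whose restriction to N contains ψ equals the number of conjugacy classes of G/N consisting of special cosets. -/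
theorem result {G : Type*} [Group G] [Fintype G] (N : Subgroup G) [N.Normal] [Fintype N] (hN : N ≤ Subgroup.center G) (ψ : Cfsg.IrrCharacter ↥N) (hfaith : ∀ n : ↥N, (ψ : ↥N → ℂ) n = (ψ : ↥N → ℂ) 1 → n = 1) : Nat.card {χ : Cfsg.IrrCharacter G // Cfsg.classInner (fun n : ↥N => (χ : G → ℂ) n) (ψ : ↥N → ℂ) ≠ 0} = Nat.card {C : ConjClasses (G ⧸ N) // ∃ g : G, ConjClasses.mk (g : G ⧸ N) = C ∧ ∀ x : G, x⁻¹ * g⁻¹ * x * g ∈ N → x * g = g * x} := by
  classical
  have hcl : ∀ χ : IrrCharacter G, IsClassFunction G (χ : G → ℂ) := fun χ => CfsgLib.Char.isCharacter_classFunction χ.2.isCharacter'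
  have hcomm : ∀ a b : ↥N, a * b = b * a := fun a b =>
    Subtype.ext ((Subgroup.mem_center_iff.1 (hN a.2) (b : G)).symm)
  obtain ⟨l, hl⟩ := CfsgLib.Char.exists_hom_of_irr_comm hcomm ψ.2
  have hcen : ∀ (n : ↥N) (g : G), g * (n : G) = (n : G) * g := fun n g => Subgroup.mem_center_iff.1 (hN n.2) g
  -- the membership indicator
  have hind : ∀ χ : IrrCharacter G, (Nat.card ↥N : ℂ)⁻¹ * ∑ n : ↥N, (χ : G → ℂ) n / (χ : G → ℂ) 1 * (starRingEnd ℂ) ((ψ : ↥N → ℂ) n) =
      if classInner (fun n : ↥N => (χ : G → ℂ) n) (ψ : ↥N → ℂ) ≠ 0 then 1 else 0 := by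
    intro χ
    have h1 : (Nat.card ↥N : ℂ)⁻¹ * ∑ n : ↥N, (χ : G → ℂ) n / (χ : G → ℂ) 1 * (starRingEnd ℂ) ((ψ : ↥N → ℂ) n) =
        classInner (fun n : ↥N => (χ : G → ℂ) n) (ψ : ↥N → ℂ) / (χ : G → ℂ) 1 := by
      rw [classInner, mul_div_assoc, Finset.sum_div]
      congr 1
      exact Finset.sum_congr rfl fun n _ => by ring
    rw [h1]
    split_ifs with h
    · have hcon := CfsgLib.Char.clifford χ.2 ψ.2 h
      have horb : CfsgLib.Char.conjOrbit (G := G) (ψ : ↥N → ℂ) = {(ψ : ↥N → ℂ)} := by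
        refine Finset.eq_singleton_iff_unique_mem.2 ⟨CfsgLib.Char.self_mem_conjOrbit _, fun φ hφ => ?_⟩
        obtain ⟨g, rfl⟩ := CfsgLib.Char.mem_conjOrbit.1 hφ
        funext n
        rw [CfsgLib.Char.conjFn_eq_comp, Function.comp_apply]
        refine congrArg _ (Subtype.ext ?_)
        rw [MulAut.conjNormal_apply, hcen n g, mul_inv_cancel_right]
      rw [horb, Finset.sum_singleton] at hcon
      have h1' := congrFun hcon 1
      simp only [Pi.smul_apply, smul_eq_mul, Subgroup.coe_one] at h1'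
      rw [show (ψ : ↥N → ℂ) 1 = 1 by simp [hl], mul_one] at h1'
      rw [← h1', div_self (CfsgLib.Block.irr_one_ne_zero χ)]
    · rw [not_not.1 h, zero_div]
  have hmul : ∀ (χ : IrrCharacter G) (n : ↥N) (g : G), (χ : G → ℂ) ((n : G) * g) = (χ : G → ℂ) n / (χ : G → ℂ) 1 * (χ : G → ℂ) g := by
    intro χ n g
    obtain ⟨ω, -, hω⟩ := CfsgLib.Block.irr_central_mul χ (hN n.2)
    have := hω 1
    rw [mul_one] at this
    rw [hω g, this, mul_div_assoc, div_self (CfsgLib.Block.irr_one_ne_zero χ), mul_one]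
  let Sp : G → Prop := fun g => ∀ x : G, x⁻¹ * g⁻¹ * x * g ∈ N → x * g = g * x
  -- the fusion subgroup of a coset
  have hA : ∀ g : G, ∀ n : ↥N, IsConj g ((n : G) * g) ↔ ∃ x : G, x⁻¹ * g⁻¹ * x * g = (n : G) := by
    intro g n
    rw [isConj_iff]
    refine exists_congr fun x => ?_
    constructor
    · intro h
      calc x⁻¹ * g⁻¹ * x * g = x⁻¹ * g⁻¹ * (x * g * x⁻¹) * x := by group
        _ = x⁻¹ * g⁻¹ * ((n : G) * g) * x := by rw [h]
        _ = x⁻¹ * g⁻¹ * (g * (n : G)) * x := by rw [hcen n g]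
        _ = x⁻¹ * ((n : G) * x) := by group
        _ = x⁻¹ * (x * (n : G)) := by rw [hcen n x]
        _ = (n : G) := by group
    · intro h
      calc x * g * x⁻¹ = g * x * (x⁻¹ * g⁻¹ * x * g) * x⁻¹ := by group
        _ = g * (x * (n : G)) * x⁻¹ := by rw [h]; group
        _ = g * ((n : G) * x) * x⁻¹ := by rw [hcen n x]
        _ = g * (n : G) := by group
        _ = (n : G) * g := hcen n g
  have hsp : ∀ g : G, Sp g ↔ ∀ n : ↥N, IsConj g ((n : G) * g) → n = 1 := by
    intro g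
    constructor
    · intro h n hn
      obtain ⟨x, hx⟩ := (hA g n).1 hn
      have h2 := h x (hx ▸ n.2)
      apply Subtype.ext
      rw [← hx, mul_assoc, h2, Subgroup.coe_one]
      group
    · intro h x hx
      have h2 := congrArg Subtype.val (h ⟨_, hx⟩ ((hA g ⟨_, hx⟩).2 ⟨x, rfl⟩))
      rw [Subgroup.coe_one] at h2
      change x⁻¹ * g⁻¹ * x * g = 1 at h2
      calc x * g = g * x * (x⁻¹ * g⁻¹ * x * g) := by group
        _ = g * x := by rw [h2, mul_one]
  have hAsum : ∀ g : G, ∑ n ∈ Finset.univ.filter (fun n : ↥N => IsConj g ((n : G) * g)), (starRingEnd ℂ) ((ψ : ↥N → ℂ) n) =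
      if Sp g then 1 else 0 := by
    intro g
    set A := Finset.univ.filter (fun n : ↥N => IsConj g ((n : G) * g)) with hAdef
    have hmem : ∀ n, n ∈ A ↔ IsConj g ((n : G) * g) := fun n => by simp [hAdef]
    have h1A : (1 : ↥N) ∈ A := (hmem 1).2 (by rw [Subgroup.coe_one, one_mul])
    split_ifs with h
    · have : A = {1} := Finset.eq_singleton_iff_unique_mem.2 ⟨h1A, fun n hn => (hsp g).1 h n ((hmem n).1 hn)⟩
      rw [this, Finset.sum_singleton, hl]; simp
    · rw [hsp] at h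
      push Not at h
      obtain ⟨n₀, hn₀, hn₀1⟩ := h
      have hstep : ∀ n, n ∈ A → n₀ * n ∈ A := by
        intro n hn
        rw [hmem, Subgroup.coe_mul, mul_assoc]
        obtain ⟨x, hx⟩ := isConj_iff.1 ((hmem n).1 hn)
        refine hn₀.trans ?_
        rw [isConj_iff]
        refine ⟨x, ?_⟩
        calc x * ((n₀ : G) * g) * x⁻¹ = x * (n₀ : G) * (g * x⁻¹) := by group
          _ = (n₀ : G) * x * (g * x⁻¹) := by rw [hcen n₀ x]
          _ = (n₀ : G) * (x * g * x⁻¹) := by group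
          _ = (n₀ : G) * ((n : G) * g) := by rw [hx]
      have himg : A.image (n₀ * ·) = A := Finset.eq_of_subset_of_card_le
        (fun y hy => by obtain ⟨n, hn, rfl⟩ := Finset.mem_image.1 hy; exact hstep n hn)
        (by rw [Finset.card_image_of_injective _ (mul_right_injective n₀)])
      have hne : (starRingEnd ℂ) ((ψ : ↥N → ℂ) n₀) ≠ 1 := by
        intro e
        have h2 : (ψ : ↥N → ℂ) n₀ = 1 := by
          have := congrArg (starRingEnd ℂ) e
          rwa [Complex.conj_conj, map_one] at this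
        exact hn₀1 (hfaith n₀ (by rw [h2]; simp [hl]))
      have hs : ∑ n ∈ A, (starRingEnd ℂ) ((ψ : ↥N → ℂ) n) = (starRingEnd ℂ) ((ψ : ↥N → ℂ) n₀) * ∑ n ∈ A, (starRingEnd ℂ) ((ψ : ↥N → ℂ) n) := by
        conv_lhs => rw [← himg, Finset.sum_image fun a _ b _ e => mul_left_cancel e]
        rw [Finset.mul_sum]
        refine Finset.sum_congr rfl fun n _ => ?_
        simp [hl]
      have h3 : ((starRingEnd ℂ) ((ψ : ↥N → ℂ) n₀) - 1) * ∑ n ∈ A, (starRingEnd ℂ) ((ψ : ↥N → ℂ) n) = 0 := by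
        linear_combination -hs
      exact (mul_eq_zero.1 h3).resolve_left (sub_ne_zero.2 hne)
  have hSpcl : ∀ g c : G, Sp g → Sp (c * g * c⁻¹) := by
    intro g c h x hx
    have hx' : (c⁻¹ * x * c)⁻¹ * g⁻¹ * (c⁻¹ * x * c) * g ∈ N := by
      have h2 := Subgroup.Normal.conj_mem inferInstance _ hx c⁻¹
      simpa [mul_assoc] using h2
    have h2 := h _ hx'
    calc x * (c * g * c⁻¹) = c * (c⁻¹ * x * c * g) * c⁻¹ := by group
      _ = c * (g * (c⁻¹ * x * c)) * c⁻¹ := by rw [h2]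
      _ = c * g * c⁻¹ * x := by group
  let PC : ConjClasses G → Prop := fun C => ∃ g, ConjClasses.mk g = C ∧ Sp g
  have hPC : ∀ g, PC (ConjClasses.mk g) ↔ Sp g := by
    intro g
    refine ⟨fun ⟨h, hh, hs⟩ => ?_, fun h => ⟨g, rfl, h⟩⟩
    obtain ⟨c, rfl⟩ := isConj_iff.1 (ConjClasses.mk_eq_mk_iff_isConj.1 hh)
    exact hSpcl h c hs
  -- count with second orthogonality
  set X := {χ : IrrCharacter G // classInner (fun n : ↥N => (χ : G → ℂ) n) (ψ : ↥N → ℂ) ≠ 0}
  have hkey : ∀ g : G, ∑ χ : IrrCharacter G, (if classInner (fun n : ↥N => (χ : G → ℂ) n) (ψ : ↥N → ℂ) ≠ 0 then (1 : ℂ) else 0) *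
      ((χ : G → ℂ) g * (starRingEnd ℂ) ((χ : G → ℂ) g)) =
      (Nat.card ↥N : ℂ)⁻¹ * ((Nat.card (Subgroup.centralizer ({g} : Set G)) : ℂ) * if Sp g then 1 else 0) := by
    intro g
    simp only [← hind]
    rw [← hAsum g, Finset.mul_sum, Finset.mul_sum, Finset.sum_filter]
    simp only [mul_assoc, Finset.mul_sum, Finset.sum_mul]
    rw [Finset.sum_comm]
    refine Finset.sum_congr rfl fun n _ => ?_
    have hterm : ∀ χ : IrrCharacter G, (Nat.card ↥N : ℂ)⁻¹ * ((χ : G → ℂ) n / (χ : G → ℂ) 1 * ((starRingEnd ℂ) ((ψ : ↥N → ℂ) n) * ((χ : G → ℂ) g * (starRingEnd ℂ) ((χ : G → ℂ) g)))) =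
        (Nat.card ↥N : ℂ)⁻¹ * (starRingEnd ℂ) ((ψ : ↥N → ℂ) n) * ((χ : G → ℂ) ((n : G) * g) * (starRingEnd ℂ) ((χ : G → ℂ) g)) := by
      intro χ; rw [hmul]; ring
    simp only [hterm]
    rw [← Finset.mul_sum]
    split_ifs with h
    · rw [CfsgLib.Char.column_orth_conj h.symm, CfsgLib.Char.card_centralizer_of_isConj h.symm]; ring
    · rw [CfsgLib.Char.column_orth_not_conj fun e => h e.symm]; simp
  obtain ⟨w, hw⟩ : ∃ w : IrrCharacter G → ℂ, ∀ χ : IrrCharacter G, w χ = (if classInner (fun n : ↥N => (χ : G → ℂ) n) (ψ : ↥N → ℂ) ≠ 0 then (1 : ℂ) else 0) :=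
    ⟨_, fun χ => rfl⟩
  have hcount : (Nat.card G : ℂ) * (Nat.card X : ℂ) * (Nat.card ↥N : ℂ) = (Nat.card G : ℂ) * (Nat.card {C : ConjClasses G // PC C} : ℂ) := by
    rw [← CfsgLib.Char.sum_centralizer_card PC, Finset.sum_filter]
    have hX : (Nat.card X : ℂ) = ∑ χ : IrrCharacter G, w χ * classInner (χ : G → ℂ) (χ : G → ℂ) := by
      simp only [hw, CfsgLib.Char.irr_inner_self (Subtype.prop _), mul_one]
      rw [Finset.sum_boole, ← Fintype.card_subtype, ← Nat.card_eq_fintype_card]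
    rw [hX]
    simp only [classInner, Finset.mul_sum, Finset.sum_mul]
    rw [Finset.sum_comm]
    refine Finset.sum_congr rfl fun g _ => ?_
    rw [← Finset.sum_mul]
    have h1 := hkey g
    have hG0 := CfsgLib.Char.natCard_ne_zero G
    have hN0 := CfsgLib.Char.natCard_ne_zero ↥N
    simp only [← hw] at h1
    calc _ = (∑ χ : IrrCharacter G, w χ *
        ((χ : G → ℂ) g * (starRingEnd ℂ) ((χ : G → ℂ) g))) * (Nat.card ↥N : ℂ) := by
          congr 1
          refine Finset.sum_congr rfl fun χ _ => ?_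
          field_simp
      _ = _ := by
          rw [h1]
          simp only [hPC g]
          split_ifs
          · field_simp
          · simp
  have hcount' : Nat.card X * Nat.card ↥N = Nat.card {C : ConjClasses G // PC C} := by
    have := mul_left_cancel₀ (CfsgLib.Char.natCard_ne_zero G) ((mul_assoc _ _ _).symm.trans hcount)
    exact_mod_cast this
  -- classes above a special class of the quotient
  set Y := {C : ConjClasses (G ⧸ N) // ∃ g : G, ConjClasses.mk (g : G ⧸ N) = C ∧ ∀ x : G, x⁻¹ * g⁻¹ * x * g ∈ N → x * g = g * x}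
  let rep : Y → G := fun C => C.2.choose
  have hrep : ∀ C : Y, ConjClasses.mk ((rep C : G) : G ⧸ N) = C.1 ∧ Sp (rep C) := fun C => C.2.choose_spec
  have hSpn : ∀ (n : ↥N) (g : G), Sp g → Sp ((n : G) * g) := by
    intro n g h x hx
    have hx' : x⁻¹ * g⁻¹ * x * g ∈ N := by
      have e : x⁻¹ * ((n : G) * g)⁻¹ * x * ((n : G) * g) = x⁻¹ * g⁻¹ * x * g := by
        calc x⁻¹ * ((n : G) * g)⁻¹ * x * ((n : G) * g) = x⁻¹ * g⁻¹ * ((n : G)⁻¹ * (x * (n : G))) * g := by group
          _ = x⁻¹ * g⁻¹ * ((n : G)⁻¹ * ((n : G) * x)) * g := by rw [hcen n x]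
          _ = x⁻¹ * g⁻¹ * x * g := by group
      rwa [e] at hx
    calc x * ((n : G) * g) = (n : G) * (x * g) := by rw [← mul_assoc, hcen n x, mul_assoc]
      _ = (n : G) * (g * x) := by rw [h x hx']
      _ = (n : G) * g * x := by group
  have hbij : Nat.card (↥N × Y) = Nat.card {C : ConjClasses G // PC C} := by
    refine Nat.card_eq_of_bijective (fun z => ⟨ConjClasses.mk ((z.1 : G) * rep z.2), (hPC _).2 (hSpn _ _ (hrep z.2).2)⟩) ⟨?_, ?_⟩
    · rintro ⟨n, C⟩ ⟨n', C'⟩ h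
      have h1 : IsConj ((n : G) * rep C) ((n' : G) * rep C') := ConjClasses.mk_eq_mk_iff_isConj.1 (congrArg Subtype.val h)
      have hq : ∀ (m : ↥N) (g : G), (((m : G) * g : G) : G ⧸ N) = (g : G ⧸ N) := fun m g => by
        rw [QuotientGroup.mk_mul, (QuotientGroup.eq_one_iff (m : G)).2 m.2, one_mul]
      have hC : C = C' := by
        apply Subtype.ext
        rw [← (hrep C).1, ← (hrep C').1, ConjClasses.mk_eq_mk_iff_isConj]
        have := (QuotientGroup.mk' N).map_isConj h1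
        simpa [hq] using this
      subst hC
      have h2 : IsConj (rep C) (((n⁻¹ * n' : ↥N) : G) * rep C) := by
        obtain ⟨c, hc⟩ := isConj_iff.1 h1
        refine isConj_iff.2 ⟨c, ?_⟩
        calc c * rep C * c⁻¹ = (n : G)⁻¹ * ((n : G) * c) * rep C * c⁻¹ := by group
          _ = (n : G)⁻¹ * (c * (n : G)) * rep C * c⁻¹ := by rw [hcen n c]
          _ = (n : G)⁻¹ * (c * ((n : G) * rep C) * c⁻¹) := by group
          _ = _ := by rw [hc, Subgroup.coe_mul, Subgroup.coe_inv, mul_assoc]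
      have h3 := (hsp _).1 (hrep C).2 _ h2
      rw [inv_mul_eq_one] at h3
      rw [h3]
    · rintro ⟨C, hC⟩
      obtain ⟨g, rfl⟩ := ConjClasses.mk_surjective C
      have hg : Sp g := (hPC g).1 hC
      let C' : Y := ⟨ConjClasses.mk (g : G ⧸ N), g, rfl, hg⟩
      obtain ⟨c, hc⟩ := isConj_iff.1 (ConjClasses.mk_eq_mk_iff_isConj.1 (hrep C').1)
      induction c using QuotientGroup.induction_on with
      | _ c =>
        have hmem : g * (c * rep C' * c⁻¹)⁻¹ ∈ N := by
          rw [← QuotientGroup.eq_one_iff, QuotientGroup.mk_mul, QuotientGroup.mk_inv, QuotientGroup.mk_mul,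
            QuotientGroup.mk_mul, QuotientGroup.mk_inv, hc, mul_inv_cancel]
        refine ⟨(⟨_, hmem⟩, C'), Subtype.ext (ConjClasses.mk_eq_mk_iff_isConj.2 (isConj_iff.2 ⟨c, ?_⟩))⟩
        show c * (g * (c * rep C' * c⁻¹)⁻¹ * rep C') * c⁻¹ = g
        calc c * (g * (c * rep C' * c⁻¹)⁻¹ * rep C') * c⁻¹
            = c * (g * (c * rep C' * c⁻¹)⁻¹) * (rep C' * c⁻¹) := by group
          _ = g * (c * rep C' * c⁻¹)⁻¹ * c * (rep C' * c⁻¹) := by rw [show c * (g * (c * rep C' * c⁻¹)⁻¹) = (g * (c * rep C' * c⁻¹)⁻¹) * c from hcen ⟨_, hmem⟩ c]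
          _ = g := by group
  rw [Nat.card_prod, mul_comm] at hbij
  exact Nat.eq_of_mul_eq_mul_right Nat.card_pos (hcount'.trans hbij.symm)

end Cfsg.Agent.S4567
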