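import Cfsg.Statements.S4571
import Cfsg.Agent.Lib.BlockQuotient
import Cfsg.Agent.Lib.BlockPrincipal
import Cfsg.Agent.Lib.BlockRank
-- import your own Cfsg.Agent.* helpers here

set_option autoImplicit false
open Cfsg

namespace Cfsg.Agent.S4571

/-- Let Q be a normal p-subgroup of the finite group G with G = Q·C_G(Q), and M a maximal ideal of the algebraic integers containing p. Then the principal p-blocks of G and of G/Q have the same p-regular rank (the same number of irreducible Brauer characters). -/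
theorem result {G : Type*} [Group G] [Finite G] (p : ℕ) [Fact p.Prime] (M : Ideal Cfsg.AlgInt) (hM : Cfsg.IsPModular p M) (Q : Subgroup G) [Q.Normal] (hQ : IsPGroup p Q) (hsup : Q ⊔ Subgroup.centralizer (Q : Set G) = ⊤) : Cfsg.blockRank p (Cfsg.principalBlock M G) = Cfsg.blockRank p (Cfsg.principalBlock M (G ⧸ Q)) := by
  classical
  have : Fintype G := Fintype.ofFinite G
  haveI : Fintype (G ⧸ Q) := Fintype.ofFinite _
  have hp : p.Prime := Fact.out
  -- regular elements centralize Q
  have hcent : ∀ g : G, ¬ p ∣ orderOf g → g ∈ Subgroup.centralizer (Q : Set G) := by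
    intro g hg
    set C := Subgroup.centralizer (Q : Set G)
    haveI : C.Normal := Subgroup.normal_centralizer
    have hf : Function.Surjective ((QuotientGroup.mk' C).comp Q.subtype) := by
      intro x
      obtain ⟨x, rfl⟩ := QuotientGroup.mk'_surjective C x
      obtain ⟨a, ha, b, hb, rfl⟩ :=
        Subgroup.mem_sup_of_normal_left.1 (hsup ▸ Subgroup.mem_top x : x ∈ Q ⊔ C)
      refine ⟨⟨a, ha⟩, ?_⟩
      rw [map_mul, show QuotientGroup.mk' C b = 1 from (QuotientGroup.eq_one_iff b).2 hb, mul_one]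
      rfl
    obtain ⟨k, hk⟩ := IsPGroup.iff_orderOf.1 (hQ.of_surjective _ hf) (QuotientGroup.mk' C g)
    have h1 : p ^ k ∣ orderOf g := hk ▸ orderOf_map_dvd (QuotientGroup.mk' C) g
    have hk0 : k = 0 := by
      by_contra h0
      exact hg ((dvd_pow_self p h0).trans h1)
    rw [hk0, pow_zero, orderOf_eq_one_iff] at hk
    exact (QuotientGroup.eq_one_iff g).1 hk
  -- two regular elements in one coset are equal
  have huniq : ∀ g g' : G, ¬ p ∣ orderOf g → ¬ p ∣ orderOf g' →
      (g : G ⧸ Q) = (g' : G ⧸ Q) → g' = g := by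
    intro g g' hg hg' h
    have hn : g⁻¹ * g' ∈ Q := QuotientGroup.eq.1 h
    have h1 := CfsgLib.Block.eq_one_of_regular (G := G) Q hQ hn
      (Subgroup.mem_centralizer_iff.1 (hcent g hg) _ hn).symm hg (by rwa [mul_inv_cancel_left])
    exact (inv_mul_eq_one.1 h1).symm
  -- regular lifts
  have hlift : ∀ q : G ⧸ Q, ¬ p ∣ orderOf q → ∃ g : G, ¬ p ∣ orderOf g ∧ (g : G ⧸ Q) = q := by
    intro q hq
    obtain ⟨x, rfl⟩ := QuotientGroup.mk_surjective q
    obtain ⟨u, hu⟩ := CfsgLib.Block.exists_isPPart hp x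
    obtain ⟨y, rfl, hc, ⟨k, hk⟩, hy⟩ := CfsgLib.Block.isPPart_data hu
    refine ⟨y, hy, ?_⟩
    have hu1 : (u : G ⧸ Q) = 1 := by
      refine CfsgLib.Block.isPPart_unique hp (g := ((u * y : G) : G ⧸ Q))
        ⟨(y : G ⧸ Q), (QuotientGroup.mk_mul Q u y).symm, hc.map (QuotientGroup.mk' Q), ?_, ?_⟩
        (CfsgLib.Block.isPPart_self_of_pRegular hq)
      · obtain ⟨j, -, hj⟩ := (Nat.dvd_prime_pow hp).1 (hk ▸ orderOf_map_dvd (QuotientGroup.mk' Q) u)
        exact ⟨j, hj⟩
      · exact fun h => hy (h.trans (orderOf_map_dvd (QuotientGroup.mk' Q) y))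
    rw [QuotientGroup.mk_mul, hu1, one_mul]
  set B := principalBlock M G with hBdef
  set Bq := principalBlock M (G ⧸ Q) with hBqdef
  have hB : IsPBlock M B := CfsgLib.Block.isPBlock_principal M
  have htriv : CfsgLib.Block.inflate Q (CfsgLib.Block.trivIrr (G ⧸ Q)) =
      CfsgLib.Block.trivIrr G := rfl
  have hmem : ∀ η : IrrCharacter (G ⧸ Q), CfsgLib.Block.inflate Q η ∈ B ↔ η ∈ Bq := by
    intro η
    refine ⟨fun h => ?_, fun h => ?_⟩
    · exact CfsgLib.Block.sameBlock_of_inflate_pGroup Q hM hQ ⊥ IsPGroup.of_bot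
        (fun g hg _ => hcent g hg) (χ := CfsgLib.Block.trivIrr (G ⧸ Q)) (by rw [htriv]; exact h)
    · have h1 := CfsgLib.Block.sameBlock_inflate Q hM (χ := CfsgLib.Block.trivIrr (G ⧸ Q)) h
      rw [htriv] at h1
      exact h1
  -- transfer of regular functions
  let L : (G ⧸ Q → ℂ) →ₗ[ℂ] (G → ℂ) :=
    { toFun := fun f g => if p ∣ orderOf g then 0 else f (g : G ⧸ Q)
      map_add' := fun f f' => funext fun g => by
        simp only [Pi.add_apply]; split_ifs <;> simp
      map_smul' := fun a f => funext fun g => by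
        simp only [Pi.smul_apply, RingHom.id_apply]; split_ifs <;> simp }
  have hLη : ∀ η : IrrCharacter (G ⧸ Q), L (pRegularPart p (η : G ⧸ Q → ℂ)) =
      pRegularPart p (CfsgLib.Block.inflate Q η : G → ℂ) := by
    intro η
    funext g
    simp only [L, LinearMap.coe_mk, AddHom.coe_mk, CfsgLib.Block.pRegularPart_eq,
      CfsgLib.Block.regPart, CfsgLib.Block.inflate_apply]
    split_ifs with h1 h2
    · rfl
    · exact absurd (h2.trans (orderOf_map_dvd (QuotientGroup.mk' Q) g)) h1
    · rfl
  set W := Submodule.span ℂ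
    ((fun χ : IrrCharacter G => pRegularPart p (χ : G → ℂ)) '' B) with hW
  set W' := Submodule.span ℂ
    ((fun χ : IrrCharacter (G ⧸ Q) => pRegularPart p (χ : G ⧸ Q → ℂ)) '' Bq) with hW'
  have hmap : W'.map L = W := by
    refine le_antisymm ?_ ?_
    · rw [hW', Submodule.map_span, Submodule.span_le]
      rintro _ ⟨_, ⟨η, hη, rfl⟩, rfl⟩
      rw [hLη]
      exact Submodule.subset_span ⟨_, (hmem η).2 hη, rfl⟩
    · rw [hW, Submodule.span_le]
      rintro _ ⟨χ, hχ, rfl⟩
      -- the function on the quotient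
      let f : G ⧸ Q → ℂ := fun q => if h : p ∣ orderOf q then 0 else
        (χ : G → ℂ) (hlift q h).choose
      have hf : ∀ g : G, ¬ p ∣ orderOf g → f (g : G ⧸ Q) = (χ : G → ℂ) g := by
        intro g hg
        have h : ¬ p ∣ orderOf (g : G ⧸ Q) := fun h =>
          hg (h.trans (orderOf_map_dvd (QuotientGroup.mk' Q) g))
        simp only [f, dif_neg h]
        rw [huniq g _ hg (hlift _ h).choose_spec.1 (hlift _ h).choose_spec.2.symm]
      have hfcl : IsClassFunction (G ⧸ Q) f := by
        intro q c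
        have ho : orderOf (c * q * c⁻¹) = orderOf q := (MulAut.conj c).orderOf_eq q
        by_cases h : p ∣ orderOf q
        · simp only [f]
          rw [dif_pos h, dif_pos (ho ▸ h)]
        · obtain ⟨g, hg, rfl⟩ := hlift q h
          obtain ⟨c, rfl⟩ := QuotientGroup.mk_surjective c
          have hg' : ¬ p ∣ orderOf (c * g * c⁻¹) := by
            rw [show orderOf (c * g * c⁻¹) = orderOf g from (MulAut.conj c).orderOf_eq g]
            exact hg
          have e : ((c * g * c⁻¹ : G) : G ⧸ Q) = (c : G ⧸ Q) * g * (c : G ⧸ Q)⁻¹ := rfl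
          rw [← e, hf _ hg', hf g hg]
          exact CfsgLib.Block.irr_classFunction χ g c
      have hexp : pRegularPart p (χ : G → ℂ) = ∑ η : IrrCharacter (G ⧸ Q),
          classInner f (η : G ⧸ Q → ℂ) • pRegularPart p (CfsgLib.Block.inflate Q η : G → ℂ) := by
        funext g
        simp only [Finset.sum_apply, Pi.smul_apply, smul_eq_mul, CfsgLib.Block.pRegularPart_eq,
          CfsgLib.Block.regPart, CfsgLib.Block.inflate_apply]
        by_cases hg : p ∣ orderOf g
        · simp [hg]
        · simp only [if_neg hg]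
          rw [← hf g hg]
          conv_lhs => rw [CfsgLib.Char.classFunction_eq_sum f hfcl]
          simp [Finset.sum_apply]
      -- projection onto the block
      let prj : (G → ℂ) → (G → ℂ) := fun F => ∑ φ : IrrCharacter G,
        (CfsgLib.Block.indVal B φ * classInner F (φ : G → ℂ)) • (φ : G → ℂ)
      have hin : ∀ ψ : IrrCharacter G, ψ ∈ B →
          prj (pRegularPart p (ψ : G → ℂ)) = pRegularPart p (ψ : G → ℂ) := by
        intro ψ hψ
        simp only [prj, CfsgLib.Block.pRegularPart_eq]
        exact (CfsgLib.Block.regPart_eq_sum_block hM hB hψ).symm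
      have hout : ∀ ψ : IrrCharacter G, ψ ∉ B → prj (pRegularPart p (ψ : G → ℂ)) = 0 := by
        intro ψ hψ
        refine Finset.sum_eq_zero fun φ _ => ?_
        by_cases hφ : φ ∈ B
        · rw [CfsgLib.Block.pRegularPart_eq, CfsgLib.Block.classInner_regPart_eq_zero hM
            (fun h => hψ ?_), mul_zero, zero_smul]
          rw [CfsgLib.Block.isPBlock_eq_blockOf hM hB hφ]
          exact CfsgLib.Block.sameBlock_symm hM h
        · simp [CfsgLib.Block.indVal, hφ]
      have hlin : prj (∑ η : IrrCharacter (G ⧸ Q),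
          classInner f (η : G ⧸ Q → ℂ) • pRegularPart p (CfsgLib.Block.inflate Q η : G → ℂ)) =
          ∑ η : IrrCharacter (G ⧸ Q), classInner f (η : G ⧸ Q → ℂ) •
            prj (pRegularPart p (CfsgLib.Block.inflate Q η : G → ℂ)) := by
        simp only [prj, CfsgLib.Char.inner_sum_left, CfsgLib.Char.inner_smul_left, Finset.mul_sum,
          Finset.sum_smul, Finset.smul_sum, smul_smul]
        rw [Finset.sum_comm]
        refine Finset.sum_congr rfl fun η _ => Finset.sum_congr rfl fun φ _ => ?_
        ring_nf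
      show pRegularPart p (χ : G → ℂ) ∈ W'.map L
      rw [← hin χ hχ, hexp, hlin]
      refine Submodule.sum_mem _ fun η _ => Submodule.smul_mem _ _ ?_
      by_cases hη : CfsgLib.Block.inflate Q η ∈ B
      · rw [hin _ hη, ← hLη]
        exact Submodule.mem_map_of_mem (Submodule.subset_span ⟨η, (hmem η).1 hη, rfl⟩)
      · rw [hout _ hη]
        exact Submodule.zero_mem _
  show Module.finrank ℂ W = Module.finrank ℂ W'
  rw [← hmap]
  refine LinearEquiv.finrank_eq (LinearEquiv.ofBijective (L.submoduleMap W') ⟨?_, ?_⟩).symm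
  · rw [injective_iff_map_eq_zero]
    rintro ⟨w, hw⟩ h
    refine Subtype.ext (funext fun q => ?_)
    show w q = 0
    by_cases hq : p ∣ orderOf q
    · have hsupp : W' ≤ LinearMap.ker (LinearMap.proj q : (G ⧸ Q → ℂ) →ₗ[ℂ] ℂ) := by
        rw [hW', Submodule.span_le]
        rintro _ ⟨η, -, rfl⟩
        simp [CfsgLib.Block.pRegularPart_eq, CfsgLib.Block.regPart, hq]
      exact hsupp hw
    · obtain ⟨g, hg, rfl⟩ := hlift q hq
      have h1 := congrFun (congrArg Subtype.val h) g
      simp only [L] at h1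
      simpa [hg] using h1
  · exact L.submoduleMap_surjective W' 

end Cfsg.Agent.S4571
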