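import Cfsg.Statements.S4574
import Cfsg.Agent.Lib.BlockZeroCount
import Cfsg.Agent.Lib.BlockRegular

set_option autoImplicit false
open Cfsg
open CfsgLib.Block CfsgLib.Char
open scoped Classical


namespace Cfsg.Agent.S4574

/-- Let χ be an irreducible character of the finite group G, of degree d, and let Z(χ) be the set of elements g with |χ g| = d (the centre of χ). Then χ vanishes on at least (d ^ 2 - 1) · |Z(χ)| elements of G, with equality when every value |χ g| is 0, 1 or d. -/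
theorem result {G : Type*} [Group G] [Fintype G] [DecidableEq G] (χ : G → ℂ) (hχ : Cfsg.IsIrrCharacter G χ) : (Cfsg.charDegree χ ^ 2 - 1) * (Finset.univ.filter (fun g : G => ‖χ g‖ = (Cfsg.charDegree χ : ℝ))).card ≤ (Finset.univ.filter (fun g : G => χ g = 0)).card ∧ ((∀ g : G, ‖χ g‖ = 0 ∨ ‖χ g‖ = 1 ∨ ‖χ g‖ = (Cfsg.charDegree χ : ℝ)) → (Cfsg.charDegree χ ^ 2 - 1) * (Finset.univ.filter (fun g : G => ‖χ g‖ = (Cfsg.charDegree χ : ℝ))).card = (Finset.univ.filter (fun g : G => χ g = 0)).card) := by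
  obtain ⟨d, hd0, hd⟩ := exists_degree_pos hχ
  have hcd : Cfsg.charDegree χ = d := by
    have h := charDegree_cast hχ.isCharacter'
    rw [hd] at h
    exact_mod_cast h
  rw [hcd]
  set Q : Finset G := Finset.univ.filter (fun g : G => ‖χ g‖ = (d : ℝ)) with hQ
  set Z : Finset G := Finset.univ.filter (fun g : G => χ g = 0) with hZ
  set R : Finset G := Finset.univ.filter (fun g : G => ‖χ g‖ ≠ (d : ℝ) ∧ χ g ≠ 0) with hR
  have hd' : (0 : ℝ) < d := by exact_mod_cast hd0
  have hnd : ∀ g : G, ‖χ g‖ = (d : ℝ) ↔ ‖χ g‖ ^ 2 = ((d ^ 2 : ℕ) : ℚ) := fun g => by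
    push_cast
    exact (pow_left_inj₀ (norm_nonneg _) hd'.le two_ne_zero).symm
  have hsplit : ∀ f : G → ℝ, ∑ g, f g = ∑ g ∈ Q, f g + (∑ g ∈ Z, f g + ∑ g ∈ R, f g) := by
    intro f
    rw [← Finset.sum_filter_add_sum_filter_not Finset.univ (fun g : G => ‖χ g‖ = (d : ℝ)) f,
      ← Finset.sum_filter_add_sum_filter_not (Finset.univ.filter fun g : G => ¬ ‖χ g‖ = (d : ℝ))
        (fun g => χ g = 0) f, Finset.filter_filter, Finset.filter_filter]
    congr 3
    ext g
    simp only [hZ, Finset.mem_filter, Finset.mem_univ, true_and, and_iff_right_iff_imp]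
    intro h e
    rw [h, norm_zero] at e
    exact hd'.ne e
  have h1 := hsplit fun _ => 1
  have h2 := hsplit fun g => ‖χ g‖ ^ 2
  rw [sum_normSq_irr hχ] at h2
  simp only [Finset.sum_const, Finset.card_univ, nsmul_eq_mul, mul_one,
    ← Nat.card_eq_fintype_card] at h1
  rw [Finset.sum_congr (f := fun g => ‖χ g‖ ^ 2) (g := fun _ => (d : ℝ) ^ 2) rfl
      (fun g hg => by rw [(Finset.mem_filter.mp hg).2]),
    Finset.sum_eq_zero (s := Z) (f := fun g => ‖χ g‖ ^ 2)
      (fun g hg => by simp [(Finset.mem_filter.mp hg).2]),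
    Finset.sum_const, nsmul_eq_mul, zero_add] at h2
  have hge := card_le_sum_normSq hχ.isCharacter' R (fun k hk g => by
    have e1 : ‖χ (g ^ k)‖ = (d : ℝ) ↔ ‖χ g‖ = (d : ℝ) := by
      rw [hnd, hnd]
      refine ⟨fun h => ?_, fun h => normSq_apply_pow hχ.isCharacter' h hk⟩
      obtain ⟨m, hm⟩ := exists_pow_eq_self_of_coprime (hk.coprime_dvd_right (orderOf_dvd_natCard g))
      obtain ⟨j, hj, hjm⟩ := exists_coprime_congr Nat.card_pos (orderOf_dvd_natCard g) (a := m) (by
        have h3 : g ^ (k * m) = g ^ 1 := by rw [pow_mul, hm, pow_one]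
        exact Nat.Coprime.coprime_mul_left (k := k)
          (by rw [Nat.Coprime, (pow_eq_pow_iff_modEq.mp h3).gcd_eq, Nat.gcd_one_left]))
      have h5 : (g ^ k) ^ j = g := by
        conv_rhs => rw [← hm]
        rw [← pow_mul, ← pow_mul, pow_eq_pow_iff_modEq]
        exact hjm.mul_left k
      exact h5 ▸ normSq_apply_pow hχ.isCharacter' h hj
    simp only [hR, Finset.mem_filter, Finset.mem_univ, true_and, ne_eq, e1,
      apply_pow_eq_zero_iff hχ.isCharacter' hk]) fun g hg => (Finset.mem_filter.mp hg).2.2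
  have hd1 : 1 ≤ d ^ 2 := Nat.one_le_pow _ _ hd0
  refine ⟨?_, fun hall => ?_⟩
  · have : (((d ^ 2 - 1) * Q.card : ℕ) : ℝ) ≤ (Z.card : ℝ) := by
      push_cast [Nat.cast_sub hd1]
      linarith
    exact_mod_cast this
  · have hRs : ∑ g ∈ R, ‖χ g‖ ^ 2 = (R.card : ℝ) := by
      rw [Finset.sum_congr (g := fun _ => (1 : ℝ)) rfl fun g hg => ?_]
      · simp
      · obtain ⟨-, hgd, hg0⟩ := Finset.mem_filter.mp hg
        rcases hall g with h | h | h
        · exact absurd (norm_eq_zero.mp h) hg0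
        · rw [h, one_pow]
        · exact absurd h hgd
    have : (((d ^ 2 - 1) * Q.card : ℕ) : ℝ) = (Z.card : ℝ) := by
      push_cast [Nat.cast_sub hd1]
      linarith
    exact_mod_cast this

end Cfsg.Agent.S4574
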