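import Cfsg.Statements.S4580
import Cfsg.Agent.Lib.BlockTwoReal
import Cfsg.Agent.Lib.CharGallagher
import Cfsg.Agent.Lib.BlockShortFacts

set_option autoImplicit false
open Cfsg
open CfsgLib.Block CfsgLib.Char

namespace Cfsg.Agent.S4580

/-- Let N be a normal subgroup of the finite group G, M a maximal ideal of the algebraic integers containing 2, and θ a real-valued irreducible character of N of odd degree that extends to G (some irreducible character of G restricts to θ). Then θ has an extension to G lying in the principal 2-block of G. -/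
theorem result {G : Type*} [Group G] [Finite G] (N : Subgroup G) [N.Normal] (M : Ideal Cfsg.AlgInt) (hM : Cfsg.IsPModular 2 M) (θ : Cfsg.IrrCharacter N) (hreal : ∀ n : N, ((θ : N → ℂ) n).im = 0) (hodd : Odd (Cfsg.charDegree (θ : N → ℂ))) (hext : ∃ η : Cfsg.IrrCharacter G, ∀ n : N, (η : G → ℂ) n = (θ : N → ℂ) n) :
    ∃ η : Cfsg.IrrCharacter G, (∀ n : N, (η : G → ℂ) n = (θ : N → ℂ) n) ∧ η ∈ Cfsg.principalBlock M G := by
  classical
  haveI := Fintype.ofFinite G
  haveI := Fintype.ofFinite ↥N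
  haveI : Fact (Nat.Prime 2) := ⟨Nat.prime_two⟩
  obtain ⟨η, hη⟩ := hext
  have hηN : (fun n : N => (η : G → ℂ) n) = (θ : N → ℂ) := funext hη
  have hconjN : (fun n : N => (irrConj η : G → ℂ) n) = (θ : N → ℂ) := funext fun n => by
    show (starRingEnd ℂ) ((η : G → ℂ) n) = _
    rw [hη, Complex.conj_eq_iff_im.2 (hreal n)]
  have hin : classInner (fun n : N => (irrConj η : G → ℂ) n) (fun n : N => (η : G → ℂ) n) ≠ 0 := by
    rw [hconjN, hηN, irr_inner_self θ.2]; exact one_ne_zero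
  obtain ⟨hβ, hβe⟩ := (gallagher N η.2 (hηN ▸ θ.2) (irrConj η).2).1 hin
  have hβ1 : cosetAvg N (irrConj η : G → ℂ) (η : G → ℂ) 1 = 1 := by
    have h := congrFun hβe 1
    rw [Pi.mul_apply, show (irrConj η : G → ℂ) 1 = (η : G → ℂ) 1 from irr_conj_one η] at h
    exact (mul_eq_right₀ (irr_one_ne_zero η)).1 h
  obtain ⟨μ, hμ⟩ := exists_hom_of_degree_one hβ.isCharacter' hβ1
  have hμN : ∀ n : N, μ (n : G) = 1 := fun n => Units.ext (by
    rw [Units.val_one, ← congrFun hμ (n : G), ← hβ1]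
    have := cosetAvg_mul_coset N (irrConj η : G → ℂ) (η : G → ℂ) n 1
    rwa [mul_one] at this)
  have hfin : μ ^ Nat.card G = 1 := MonoidHom.ext fun g => by
    rw [MonoidHom.pow_apply, ← map_pow, pow_card_eq_one', map_one, MonoidHom.one_apply]
  have hm : orderOf μ ≠ 0 := (orderOf_pos_iff.2 (isOfFinOrder_iff_pow_eq_one.2
    ⟨Nat.card G, Nat.card_pos, hfin⟩)).ne'
  set r := orderOf μ / 2 ^ (orderOf μ).factorization 2 with hr
  have hr2 : ¬ 2 ∣ r := Nat.not_dvd_ordCompl Nat.prime_two hm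
  set j := (r + 1) / 2 with hj
  have hjr : 2 * j = r + 1 := by omega
  have hν : IsIrrCharacter G (fun g => (η : G → ℂ) g * ((μ ^ j) g : ℂ)) := by
    refine isIrr_of_inner_self_one (isCharacter_mul η.2.isCharacter'
      (isIrrCharacter_hom (μ ^ j)).isCharacter') ?_
    rw [← irr_inner_self η.2]
    simp only [classInner]
    congr 1
    refine Finset.sum_congr rfl fun g _ => ?_
    rw [map_mul, ← isCharacter_inv_eq_conj (isIrrCharacter_hom (μ ^ j)).isCharacter' g, map_inv,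
      Units.val_inv_eq_inv_val]
    have : ((μ ^ j) g : ℂ) ≠ 0 := Units.ne_zero _
    field_simp
  set η' : IrrCharacter G := ⟨_, hν⟩ with hη'
  have hconj : ∀ g, (irrConj η' : G → ℂ) g = (η' : G → ℂ) g * (((μ g) ^ r)⁻¹ : ℂˣ) := by
    intro g
    show (starRingEnd ℂ) ((η : G → ℂ) g * ((μ ^ j) g : ℂ)) = (η : G → ℂ) g * ((μ ^ j) g : ℂ) * _
    rw [map_mul, ← isCharacter_inv_eq_conj (isIrrCharacter_hom (μ ^ j)).isCharacter' g,
      show (starRingEnd ℂ) ((η : G → ℂ) g) = (μ g : ℂ) * (η : G → ℂ) g by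
        rw [← congrFun hμ g]; exact (congrFun hβe g).symm]
    simp only [MonoidHom.pow_apply, map_inv, inv_pow, Units.val_inv_eq_inv_val, Units.val_pow_eq_pow_val]
    have h0 : (μ g : ℂ) ≠ 0 := Units.ne_zero _
    field_simp
    rw [← pow_mul, mul_comm j 2, hjr]
    ring
  have hone : ∀ g : G, res hM ⟨((((μ g) ^ r)⁻¹ : ℂˣ) : ℂ), irr_mem hM ⟨fun g => ((((μ ^ r)⁻¹ : G →* ℂˣ) g : ℂˣ) : ℂ),
      isIrrCharacter_hom _⟩ g⟩ = 1 := by
    intro g
    refine res_eq_one_of_pow_prime_pow hM (n := (orderOf μ).factorization 2) (Subtype.ext ?_)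
    show ((((μ g) ^ r)⁻¹ : ℂˣ) : ℂ) ^ (2 ^ (orderOf μ).factorization 2) = 1
    rw [← Units.val_pow_eq_pow_val, inv_pow, ← pow_mul, mul_comm r, hr,
      Nat.ordProj_mul_ordCompl_eq_self, ← MonoidHom.pow_apply, pow_orderOf_eq_one,
      MonoidHom.one_apply, inv_one, Units.val_one]
  set B := blockOf M (η' : G → ℂ) with hBdef
  have hB : IsPBlock M B := isPBlock_blockOf η'
  have hηB : η' ∈ B := mem_blockOf_self hM η'
  have hccr : ∀ h : G, res hM ⟨centralChar (η' : G → ℂ) h⁻¹, centralChar_mem hM η' h⁻¹⟩ =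
      res hM ⟨centralChar (η' : G → ℂ) h, centralChar_mem hM η' h⟩ := by
    intro h
    rw [← mul_one (res hM ⟨centralChar (η' : G → ℂ) h, centralChar_mem hM η' h⟩), ← hone h, ← map_mul]
    refine congrArg (res hM) (Subtype.ext ?_)
    show centralChar (η' : G → ℂ) h⁻¹ = centralChar (η' : G → ℂ) h * _
    rw [← centralChar_irrConj]
    simp only [centralChar, hconj, map_one, one_pow, inv_one, Units.val_one, mul_one]
    ring
  have hmem : ∀ ψ, irrConj ψ ∈ B ↔ ψ ∈ B := by
    have key : ∀ ψ, ψ ∈ B → irrConj ψ ∈ B := fun ψ hψ => by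
      intro h
      have h1 := sameBlock_of_mem hM hB hηB hψ h⁻¹
      rw [centralChar_irrConj]
      have e1 := (res_eq_res_iff hM ⟨centralChar (η' : G → ℂ) h⁻¹, centralChar_mem hM η' h⁻¹⟩
        ⟨centralChar (ψ : G → ℂ) h⁻¹, centralChar_mem hM ψ h⁻¹⟩).2 h1
      exact (res_eq_res_iff hM ⟨centralChar (η' : G → ℂ) h, centralChar_mem hM η' h⟩
        ⟨centralChar (ψ : G → ℂ) h⁻¹, centralChar_mem hM ψ h⁻¹⟩).1 ((hccr h).symm.trans e1)
    have hii : ∀ ψ : IrrCharacter G, irrConj (irrConj ψ) = ψ := fun ψ =>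
      Subtype.ext (funext fun x => Complex.conj_conj _)
    exact fun ψ => ⟨fun h => hii ψ ▸ key _ h, key ψ⟩
  have hinv : ∀ g, gFn hM B g⁻¹ = gFn hM B g := by
    intro g
    have e : blockCoeff B g⁻¹ = blockCoeff B g := by
      rw [blockCoeff_eq_coef, blockCoeff_eq_coef, CfsgLib.Block.coef, CfsgLib.Block.coef]
      congr 1
      let σ : IrrCharacter G ≃ IrrCharacter G := ⟨irrConj, irrConj,
        fun ψ => Subtype.ext (funext fun x => Complex.conj_conj _),
        fun ψ => Subtype.ext (funext fun x => Complex.conj_conj _)⟩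
      conv_rhs => rw [← Equiv.sum_comp σ]
      refine Finset.sum_congr rfl fun ψ _ => ?_
      show _ = indVal B (irrConj ψ) * (starRingEnd ℂ) ((ψ : G → ℂ) 1) *
        (starRingEnd ℂ) ((starRingEnd ℂ) ((ψ : G → ℂ) g))
      rw [irr_conj_one, Complex.conj_conj, isCharacter_inv_eq_conj ψ.2.isCharacter',
        Complex.conj_conj]
      simp only [indVal, hmem]
    simp only [gFn, e]
  have hN' : ∀ n : N, (η' : G → ℂ) n = (θ : N → ℂ) n := fun n => by
    show (η : G → ℂ) n * ((μ ^ j) (n : G) : ℂ) = _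
    rw [MonoidHom.pow_apply, hμN, one_pow, Units.val_one, mul_one, hη]
  refine ⟨η', hN', ?_⟩
  rw [← eq_principal_of_inv_stable hM hB (blockMin_eq_zero_of_odd hM hB hηB ?_) hinv]
  · exact hηB
  · have e : charDegree (η' : G → ℂ) = charDegree (θ : N → ℂ) := by
      simp only [charDegree]
      rw [show (η' : G → ℂ) 1 = (θ : N → ℂ) 1 from hN' 1]
    rw [e]
    exact hodd.not_two_dvd_nat

end Cfsg.Agent.S4580
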