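import Cfsg.Statements.S4582
import Cfsg.Agent.Lib.CharGallagher
import Cfsg.Agent.Lib.CharGalois
import Cfsg.Agent.Lib.CharClifford
import Cfsg.Agent.Lib.CharLinear
import Cfsg.Agent.Lib.BlockRegular
import Mathlib.GroupTheory.FiniteAbelian.Duality
import Mathlib.GroupTheory.Sylow
import Mathlib.LinearAlgebra.Determinant

set_option autoImplicit false
set_option maxHeartbeats 600000
open Cfsg

namespace Cfsg.Agent.S4582

universe w

open CfsgLib.Char CfsgLib.Block
open scoped ComplexConjugate Classical commutatorElement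

/-- determinant through eigenvalues -/
theorem det_eigen {G : Type w} [Group G] [Finite G] {χ : G → ℂ} (hχ : IsCharacter G χ) (g : G) :
    ∃ μ : Fin (charDegree χ) → ℂ, (∀ i, μ i ^ orderOf g = 1) ∧ (∀ k : ℕ, χ (g ^ k) = ∑ i, μ i ^ k) ∧
      detChar χ g = ∏ i, μ i := by
  haveI := Fintype.ofFinite G
  have h2 : detChar χ g = LinearMap.det ((Classical.choose (Classical.choose_spec hχ)) g) := by
    unfold detChar
    rw [dif_pos hχ]
  have hρ : (Classical.choose (Classical.choose_spec hχ)).character = χ := Classical.choose_spec (Classical.choose_spec hχ)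
  generalize Classical.choose (Classical.choose_spec hχ) = ρ at h2 hρ
  obtain ⟨b, μ, hb, hμ, hk⟩ := exists_rep_eigenbasis ρ g
  have hn : charDegree χ = Module.finrank ℂ (Fin (Classical.choose hχ) → ℂ) := by
    have h := charDegree_cast hχ
    conv_rhs at h => rw [← hρ, ρ.char_one]
    exact_mod_cast h
  refine ⟨fun i => μ (finCongr hn i), fun i => hμ _, fun k => ?_, ?_⟩
  · rw [← congrFun hρ (g ^ k), hk k]
    exact (Fintype.sum_equiv (finCongr hn) _ _ fun i => rfl).symm
  · have hd : LinearMap.toMatrix b b (ρ g) = Matrix.diagonal μ := by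
      ext i j
      rw [LinearMap.toMatrix_apply, hb j, map_smul, Module.Basis.repr_self, Finsupp.smul_single, smul_eq_mul, mul_one]
      by_cases h : i = j
      · subst h; simp
      · simp [Finsupp.single_eq_of_ne h, Matrix.diagonal_apply_ne _ h]
    rw [h2, ← LinearMap.det_toMatrix b, hd, Matrix.det_diagonal]
    exact (Fintype.prod_equiv (finCongr hn) _ _ fun i => rfl).symm

/-- roots of unity with equal power sums have equal products -/
theorem prod_eq_of_powsum {n m o : ℕ} (ho : 0 < o) (μ : Fin n → ℂ) (ν : Fin m → ℂ) (hμ : ∀ i, μ i ^ o = 1)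
    (hν : ∀ i, ν i ^ o = 1) (h : ∀ j : ℕ, ∑ i, μ i ^ j = ∑ i, ν i ^ j) : ∏ i, μ i = ∏ i, ν i := by
  let R := Finset.univ.image μ ∪ Finset.univ.image ν
  have hR : ∀ ξ ∈ R, ξ ^ o = 1 := by
    intro ξ hξ
    rcases Finset.mem_union.1 hξ with hh | hh <;> obtain ⟨i, -, rfl⟩ := Finset.mem_image.1 hh
    · exact hμ i
    · exact hν i
  have key : ∀ {l : ℕ} (f : Fin l → ℂ), (∀ i, f i ^ o = 1) → ∀ ξ : ℂ, ξ ^ o = 1 →
      ∑ j ∈ Finset.range o, (conj ξ) ^ j * ∑ i, f i ^ j = ((o * (Finset.univ.filter fun i => f i = ξ).card : ℕ) : ℂ) := by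
    intro l f hf ξ hξ
    have hnorm : ξ * conj ξ = 1 := by
      rw [Complex.mul_conj', Complex.norm_eq_one_of_pow_eq_one hξ ho.ne']; simp
    simp only [Finset.mul_sum, ← mul_pow]
    rw [Finset.sum_comm, Nat.cast_mul, mul_comm (o : ℂ), ← nsmul_eq_mul, ← Finset.sum_const, Finset.sum_filter]
    refine Finset.sum_congr rfl fun i _ => ?_
    split_ifs with hi
    · rw [hi, mul_comm, hnorm]; simp
    · have hne : conj ξ * f i ≠ 1 := fun e => hi (by rw [← one_mul (f i), ← hnorm, mul_assoc, e, mul_one])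
      rw [geom_sum_eq hne, mul_pow, ← map_pow, hξ, hf, map_one, one_mul, sub_self, zero_div]
  have hcnt : ∀ ξ ∈ R, (Finset.univ.filter fun i => μ i = ξ).card = (Finset.univ.filter fun i => ν i = ξ).card := by
    intro ξ hξ
    have h1 := key μ hμ ξ (hR ξ hξ)
    rw [Finset.sum_congr rfl fun j _ => by rw [h j], key ν hν ξ (hR ξ hξ), Nat.cast_inj] at h1
    exact (Nat.eq_of_mul_eq_mul_left ho h1).symm
  rw [← Finset.prod_fiberwise_of_maps_to (g := μ) (t := R) (fun i _ => Finset.mem_union_left _ (Finset.mem_image_of_mem _ (Finset.mem_univ i))),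
    ← Finset.prod_fiberwise_of_maps_to (g := ν) (t := R) (fun i _ => Finset.mem_union_right _ (Finset.mem_image_of_mem _ (Finset.mem_univ i)))]
  refine Finset.prod_congr rfl fun ξ hξ => ?_
  rw [Finset.prod_congr rfl fun i hi => (Finset.mem_filter.1 hi).2, Finset.prod_const,
    Finset.prod_congr rfl fun i hi => (Finset.mem_filter.1 hi).2, Finset.prod_const, hcnt ξ hξ]

/-- the contradiction in a group generated by the normal subgroup and the two-subgroup -/
theorem key {G : Type w} [Group G] [Finite G] (N P : Subgroup G) [N.Normal] (hP : IsPGroup 2 P)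
    (hPi : Odd P.index) (htop : N ⊔ P = ⊤)
    (hab : Odd (Nat.card (Abelianization N))) (l : P →* ℂˣ)
    (hQ : ∀ (q : P), (q : G) ∈ N → l q * l q = 1)
    (hPsq : ∀ η : P →* ℂˣ, (∀ q : P, (q : G) ∈ N → η q = l q) → η * η = l * l)
    (hne : l * l ≠ 1) : False := by
  haveI := Fintype.ofFinite G
  haveI := Fintype.ofFinite N
  haveI := Fintype.ofFinite P
  haveI : Fact (Nat.Prime 2) := ⟨Nat.prime_two⟩
  have hQi : Odd (P.subgroupOf N).index := by
    let Q : Subgroup N := P.subgroupOf N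
    let M : Subgroup P := N.subgroupOf P
    have hNP : M.index = N.index := by
      show N.relIndex P = N.index
      rw [← Subgroup.relIndex_sup_right (H := P) (K := N), sup_comm, htop, Subgroup.relIndex_top_right]
    have hMQ : Nat.card M = Nat.card Q := Nat.card_congr
      { toFun := fun q => ⟨⟨((q : P) : G), q.2⟩, (q : P).2⟩
        invFun := fun q => ⟨⟨((q : N) : G), q.2⟩, (q : N).2⟩
        left_inv := fun _ => rfl
        right_inv := fun _ => rfl }
    have e1 := M.index_mul_card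
    have e2 := Q.index_mul_card
    have e3 := P.index_mul_card
    have e4 := N.index_mul_card
    rw [hNP, hMQ] at e1
    rw [← e1, ← e4, ← e2] at e3
    have e5 : P.index = Q.index := by
      apply Nat.eq_of_mul_eq_mul_right (Nat.mul_pos (Nat.pos_of_ne_zero (Subgroup.index_ne_zero_of_finite (H := N))) (Nat.card_pos (α := Q)))
      rw [e3]; ring
    show Odd Q.index
    rw [← e5]; exact hPi
  -- the exponent of the twist
  generalize hA : (Nat.card G).factorization 2 = A
  generalize hm : Nat.card G / 2 ^ A = m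
  have hG : Nat.card G = 2 ^ A * m := by rw [← hm, ← hA, Nat.mul_div_cancel' (Nat.ordProj_dvd _ 2)]
  have hcop : (2 ^ A).Coprime m := by rw [← hm, ← hA]; exact (Nat.coprime_ordCompl Nat.prime_two Nat.card_pos.ne').pow_left _
  obtain ⟨k, hk1, hk2⟩ := Nat.chineseRemainder hcop (2 ^ A - 1) 1
  have hkk : k * k ≡ 1 [MOD Nat.card G] := by
    rw [hG]
    refine (Nat.modEq_and_modEq_iff_modEq_mul hcop).1 ⟨(hk1.mul hk1).trans ?_, by simpa using hk2.mul hk2⟩
    have h1 : 1 ≤ 2 ^ A := Nat.one_le_two_pow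
    rcases A.eq_zero_or_pos with hA0 | hA0
    · subst hA0; exact Nat.modEq_one
    · have h2 : 2 ≤ 2 ^ A := le_self_pow (by norm_num) hA0.ne'
      obtain ⟨j, hj⟩ : ∃ j, 2 ^ A = j + 2 := ⟨2 ^ A - 2, by omega⟩
      rw [hj]
      show (j + 2 - 1) * (j + 2 - 1) % (j + 2) = 1 % (j + 2)
      rw [show (j + 2 - 1) * (j + 2 - 1) = 1 + (j + 2) * j by
        rw [show j + 2 - 1 = j + 1 by omega]; ring, Nat.add_mul_mod_self_left]
  have hkc : k.Coprime (Nat.card G) := by
    have h := hkk.gcd_eq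
    rw [Nat.gcd_one_left] at h
    exact (Nat.Coprime.coprime_mul_left (h : (k * k).Coprime (Nat.card G)))
  have hkN : k.Coprime (Nat.card N) := hkc.coprime_dvd_right N.card_subgroup_dvd_card
  have hkP : k.Coprime (Nat.card P) := hkc.coprime_dvd_right P.card_subgroup_dvd_card
  have hinvP : ∀ s : P, s ^ k = s⁻¹ := by
    intro s
    apply eq_inv_of_mul_eq_one_left
    rw [← pow_succ]
    have hdv : orderOf s ∣ 2 ^ A := by
      obtain ⟨j, hj⟩ := IsPGroup.iff_orderOf.1 hP s
      have h := (orderOf_dvd_natCard s).trans P.card_subgroup_dvd_card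
      rw [hj] at h ⊢
      rw [hG] at h
      exact (Nat.Coprime.pow_left j (hm ▸ hA ▸ Nat.coprime_ordCompl Nat.prime_two Nat.card_pos.ne')).dvd_of_dvd_mul_right h
    refine orderOf_dvd_iff_pow_eq_one.1 (hdv.trans (Nat.modEq_zero_iff_dvd.1 ?_))
    refine (hk1.add_right 1).trans ?_
    rw [Nat.sub_add_cancel Nat.one_le_two_pow]
    exact Nat.modEq_zero_iff_dvd.2 dvd_rfl
  -- the character induced from the intersection
  let Q : Subgroup N := P.subgroupOf N
  haveI := Fintype.ofFinite Q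
  let μ : Q → ℂ := fun q => (l ⟨((q : N) : G), q.2⟩ : ℂ)
  have hμc : IsCharacter Q μ := (isIrrCharacter_hom (l.comp ({ toFun := fun q => ⟨((q : N) : G), q.2⟩, map_one' := rfl, map_mul' := fun _ _ => rfl } : Q →* P))).isCharacter'
  let π : N → ℂ := indFun Q μ
  have hπ : IsCharacter N π := isCharacter_indFun hμc
  have hπk : powTwist k π = π := by
    rw [powTwist_indFun hkN]
    congr 1
    funext q
    show (l _ : ℂ) = (l _ : ℂ)
    rw [show (⟨(((q ^ k : Q) : N) : G), (q ^ k).2⟩ : P) = (⟨((q : N) : G), q.2⟩ : P) ^ k from Subtype.ext (by simp),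
      hinvP, map_inv]
    congr 1
    exact inv_eq_of_mul_eq_one_right (hQ _ (q : N).2)
  choose w hw using fun ξ : IrrCharacter N => inner_character_nat hπ ξ.2.isCharacter'
  choose dg hdg using fun ξ : IrrCharacter N => exists_degree ξ.2.isCharacter'
  have hπinv : ∀ (s : P) (n : N), π (MulAut.conjNormal (s : G) n) = π n := by
    intro s n
    show indFun Q μ _ = indFun Q μ _
    rw [indFun_apply, indFun_apply]
    congr 1
    symm
    refine Fintype.sum_equiv (MulAut.conjNormal (s : G) : MulAut N).toEquiv _ _ fun y => ?_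
    show extendByZero Q μ _ = extendByZero Q μ ((MulAut.conjNormal (s : G) y)⁻¹ * MulAut.conjNormal (s : G) n * MulAut.conjNormal (s : G) y)
    rw [← map_inv, ← map_mul, ← map_mul]
    generalize y⁻¹ * n * y = u
    by_cases hu : u ∈ Q
    · have hu' : MulAut.conjNormal (s : G) u ∈ Q := by
        show ((MulAut.conjNormal (s : G) u : N) : G) ∈ P
        rw [MulAut.conjNormal_apply]
        exact P.mul_mem (P.mul_mem s.2 hu) (P.inv_mem s.2)
      rw [extendByZero_mem _ hu, extendByZero_mem _ hu']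
      show (l _ : ℂ) = (l _ : ℂ)
      rw [show (⟨((MulAut.conjNormal (s : G) u : N) : G), hu'⟩ : P) = s * ⟨(u : G), hu⟩ * s⁻¹ from Subtype.ext (by simp [MulAut.conjNormal_apply]),
        map_mul, map_mul, map_inv, mul_comm (l s), mul_inv_cancel_right]
    · have hu' : MulAut.conjNormal (s : G) u ∉ Q := fun h => hu (by
        have h' : ((MulAut.conjNormal (s : G) u : N) : G) ∈ P := h
        rw [MulAut.conjNormal_apply] at h'
        have := P.mul_mem (P.mul_mem (P.inv_mem s.2) h') s.2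
        show (u : G) ∈ P
        simpa [mul_assoc] using this)
      rw [extendByZero_not_mem _ hu, extendByZero_not_mem _ hu']
  let S := {ξ : IrrCharacter N // ¬ 2 ∣ w ξ * dg ξ}
  have hSodd : ¬ 2 ∣ Nat.card S := by
    have h1 : ((∑ ξ : IrrCharacter N, w ξ * dg ξ : ℕ) : ℂ) = (Q.index : ℂ) := by
      have h := congrFun (classFunction_eq_sum π (indFun_classFunction μ)) 1
      simp only [Finset.sum_apply, Pi.smul_apply, smul_eq_mul, hw, hdg] at h
      push_cast
      rw [← h]
      show indFun Q μ 1 = _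
      rw [indFun_one_apply, show μ 1 = 1 by
        show (l ⟨_, _⟩ : ℂ) = 1
        rw [show (⟨(((1 : Q) : N) : G), (1 : Q).2⟩ : P) = 1 from Subtype.ext rfl, map_one, Units.val_one], mul_one]
    intro h2
    have h3 : ((∑ ξ : IrrCharacter N, w ξ * dg ξ : ℕ) : ZMod 2) = 0 := by
      rw [Nat.cast_sum, ← Finset.sum_filter_add_sum_filter_not Finset.univ (fun ξ => 2 ∣ w ξ * dg ξ)]
      have hodd1 : ∀ x : ℕ, ¬ 2 ∣ x → (x : ZMod 2) = 1 := fun x hx =>
        ZMod.natCast_eq_one_iff_odd.2 (Nat.not_even_iff_odd.1 fun e => hx e.two_dvd)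
      rw [Finset.sum_eq_zero (fun ξ hξ => (ZMod.natCast_eq_zero_iff _ 2).2 (Finset.mem_filter.1 hξ).2), zero_add,
        Finset.sum_congr rfl (fun ξ hξ => hodd1 _ (Finset.mem_filter.1 hξ).2),
        Finset.sum_const, nsmul_eq_mul, mul_one, ← Fintype.card_subtype, ← Nat.card_eq_fintype_card]
      exact (ZMod.natCast_eq_zero_iff _ 2).2 h2
    rw [Nat.cast_inj.1 h1, ZMod.natCast_eq_one_iff_odd.2 hQi] at h3
    exact one_ne_zero h3
  -- `P` acts
  have hwinv : ∀ (ξ η : IrrCharacter N) (e : N ≃ N), (η : N → ℂ) = (fun n => (ξ : N → ℂ) (e n)) → (∀ n, π (e n) = π n) → e 1 = 1 →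
      (¬ 2 ∣ w ξ * dg ξ) → ¬ 2 ∣ w η * dg η := by
    intro ξ η e he hπe he1 h
    have h1 : w η = w ξ := by
      have hh := hw η
      rw [he, classInner, Fintype.sum_equiv e (fun n => π n * conj ((ξ : N → ℂ) (e n))) (fun n => π n * conj ((ξ : N → ℂ) n))
        (fun n => by rw [hπe]), ← classInner, hw ξ] at hh
      exact_mod_cast hh.symm
    have h2 : dg η = dg ξ := by
      have hh := hdg η
      rw [congrFun he 1, he1, hdg ξ] at hh
      exact_mod_cast hh.symm
    rwa [h1, h2]
  let act : P → S → S := fun s ξ => ⟨⟨conjFn ((s : G)⁻¹) (ξ.1 : N → ℂ), isIrrCharacter_conjFn ξ.1.2 _⟩,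
    hwinv ξ.1 _ (MulAut.conjNormal ((s⁻¹ : P) : G) : MulAut N).toEquiv (by show conjFn ((s : G)⁻¹) _ = _; rw [conjFn_eq_comp, ← Subgroup.coe_inv]; rfl)
      (fun n => hπinv s⁻¹ n) (map_one (MulAut.conjNormal ((s⁻¹ : P) : G) : MulAut N)) ξ.2⟩
  letI : MulAction P S :=
    { smul := act
      one_smul := fun ξ => Subtype.ext (Subtype.ext (by
        show conjFn (((1 : P) : G))⁻¹ _ = _
        rw [OneMemClass.coe_one, inv_one, conjFn_one]))
      mul_smul := fun s t ξ => Subtype.ext (Subtype.ext (by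
        show conjFn (((s * t : P) : G))⁻¹ _ = conjFn ((s : G))⁻¹ (conjFn ((t : G))⁻¹ _)
        rw [Subgroup.coe_mul, mul_inv_rev, conjFn_mul])) }
  have hmod := hP.card_modEq_card_fixedPoints S
  have hFodd : ¬ 2 ∣ Nat.card (MulAction.fixedPoints P S) := fun h => hSodd ((Nat.ModEq.dvd_iff hmod dvd_rfl).2 h)
  -- the twist on the fixed points
  have htwinv : ∀ ξ : S, ¬ 2 ∣ w ⟨powTwist k (ξ.1 : N → ℂ), powTwist_irr hkN ξ.1.2⟩ * dg ⟨powTwist k (ξ.1 : N → ℂ), powTwist_irr hkN ξ.1.2⟩ :=
    fun ξ => hwinv ξ.1 _ (powCoprime hkN.symm) rfl (fun n => congrFun hπk n) (one_pow k) ξ.2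
  let T : MulAction.fixedPoints P S → MulAction.fixedPoints P S := fun ξ => ⟨⟨⟨powTwist k (ξ.1.1 : N → ℂ), powTwist_irr hkN ξ.1.1.2⟩, htwinv ξ.1⟩, fun s => by
    have h := congrArg (fun x : S => (x.1 : N → ℂ)) (ξ.2 s)
    refine Subtype.ext (Subtype.ext ?_)
    funext n
    show (ξ.1.1 : N → ℂ) (_ ^ k) = (ξ.1.1 : N → ℂ) (n ^ k)
    rw [← congrFun h (n ^ k)]
    show _ = conjFn ((s : G))⁻¹ (ξ.1.1 : N → ℂ) (n ^ k)
    rw [conjFn_eq_comp, Function.comp_apply, map_pow]
    rfl⟩
  have hTT : Function.Involutive T := fun ξ => Subtype.ext (Subtype.ext (Subtype.ext (funext fun n => by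
    show (ξ.1.1 : N → ℂ) ((n ^ k) ^ k) = _
    rw [← pow_mul, pow_eq_pow_iff_modEq.2 (hkk.of_dvd ((orderOf_dvd_natCard n).trans N.card_subgroup_dvd_card)), pow_one])))
  obtain ⟨ξ₀, hξ₀⟩ : ∃ ξ, T ξ = ξ := by
    by_contra hno
    push Not at hno
    apply hFodd
    haveI := Fintype.ofFinite (MulAction.fixedPoints P S)
    rw [Nat.card_eq_fintype_card, ← Finset.card_univ, ← ZMod.natCast_eq_zero_iff, Finset.card_eq_sum_ones, Nat.cast_sum]
    exact Finset.sum_ninvolution T (fun _ => by rw [Nat.cast_one]; exact CharTwo.add_self_eq_zero _) (fun ξ _ => hno ξ) (fun ξ => Finset.mem_univ _) hTT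
  let ξ := ξ₀.1.1
  have hξw := ξ₀.1.2
  have hξk : powTwist k (ξ : N → ℂ) = (ξ : N → ℂ) := congrArg (fun x : MulAction.fixedPoints P S => (x.1.1 : N → ℂ)) hξ₀
  have hξP : ∀ s : P, conjFn ((s : G))⁻¹ (ξ : N → ℂ) = (ξ : N → ℂ) := fun s => congrArg (fun x : S => (x.1 : N → ℂ)) (ξ₀.2 s)
  have hinert : inertia (ξ : N → ℂ) = ⊤ := by
    rw [eq_top_iff, ← htop]
    refine sup_le (le_inertia (irr_classFunction ξ)) (fun s hs => ?_)
    have h := hξP ⟨s⁻¹, P.inv_mem hs⟩
    simp only [inv_inv] at h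
    exact h
  have hinv : ∀ (g : G) (n : N), (ξ : N → ℂ) ⟨g * n * g⁻¹, (inferInstance : N.Normal).conj_mem (n : G) n.2 g⟩ = (ξ : N → ℂ) n := by
    intro g n
    have h : g ∈ inertia (ξ : N → ℂ) := by rw [hinert]; trivial
    have h1 := congrFun (mem_inertia.1 h) n
    rw [conjFn_eq_comp, Function.comp_apply] at h1
    exact (congrArg (ξ : N → ℂ) (Subtype.ext (MulAut.conjNormal_apply g n).symm)).trans h1
  -- odd determinantal order
  obtain ⟨f, hf⟩ := exists_hom_of_degree_one (detChar_isLinear ξ.2.isCharacter').1 (detChar_isLinear ξ.2.isCharacter').2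
  have hdo : Odd (detOrder (ξ : N → ℂ)) := by
    rw [detOrder, hf, orderOf_homFn]
    refine hab.of_dvd_nat (orderOf_dvd_of_pow_eq_one (MonoidHom.ext fun n => ?_))
    rw [homPow_apply, MonoidHom.one_apply]
    have : f n = Abelianization.lift f (Abelianization.of n) := by simp
    rw [this, ← map_pow, pow_card_eq_one', map_one]
  have hdd : Odd (dg ξ) := by
    rw [← Nat.not_even_iff_odd]; exact fun e => hξw (dvd_mul_of_dvd_right e.two_dvd _)
  have hNi : ∃ i, N.index = 2 ^ i := by
    obtain ⟨i, hi⟩ := IsPGroup.iff_card.1 hP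
    have h1 : N.index ∣ Nat.card P := by
      have : N.relIndex P = N.index := by rw [← Subgroup.relIndex_sup_right (H := P) (K := N), sup_comm, htop, Subgroup.relIndex_top_right]
      rw [← this]; exact Subgroup.relIndex_dvd_card N P
    rw [hi] at h1
    obtain ⟨j, -, hj⟩ := (Nat.dvd_prime_pow Nat.prime_two).1 h1
    exact ⟨j, hj⟩
  obtain ⟨i, hi⟩ := hNi
  have hcop2 : ∀ {x : ℕ}, Odd x → Nat.Coprime N.index x := fun hx => by
    rw [hi]; exact (Nat.coprime_two_left.2 hx).pow_left i
  obtain ⟨χ, ⟨hχ, hχN, hχo⟩, huniq⟩ := canonical_extension N ξ.2 hinv (hdg ξ) (hcop2 (hdo.mul hdd))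
  -- the twisted extension agrees
  have hχk : powTwist k χ = χ := by
    have hirr := powTwist_irr hkc hχ
    refine huniq _ hirr (fun n => ?_) (hcop2 ?_)
    · show χ ((n : G) ^ k) = _
      rw [← Subgroup.coe_pow, hχN]
      exact congrFun hξk n
    · have hχo' : Odd (detOrder χ) := hχo ▸ hdo
      refine hχo'.of_dvd_nat ?_
      show orderOf (detChar (powTwist k χ)) ∣ detOrder χ
      refine orderOf_dvd_of_pow_eq_one (funext fun g => ?_)
      obtain ⟨μ', hμ', hk', hd'⟩ := det_eigen hirr.isCharacter' g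
      obtain ⟨ν, hν, hkν, hdν⟩ := det_eigen hχ.isCharacter' g
      have hpow : ∀ j, ∑ x, μ' x ^ j = ∑ x, (ν x ^ k) ^ j := fun j => by
        rw [← hk' j]
        show χ ((g ^ j) ^ k) = _
        rw [← pow_mul, hkν]
        exact Finset.sum_congr rfl fun x _ => by rw [← pow_mul, mul_comm]
      have hp := prod_eq_of_powsum (orderOf_pos g) μ' (fun x => ν x ^ k) hμ'
        (fun x => by rw [← pow_mul, mul_comm, pow_mul, hν, one_pow]) hpow
      rw [Pi.pow_apply, hd', hp, Finset.prod_pow, ← hdν, ← pow_mul, mul_comm, pow_mul]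
      have h1 := congrFun (pow_orderOf_eq_one (detChar χ)) g
      rw [Pi.pow_apply] at h1
      rw [show detOrder χ = orderOf (detChar χ) from rfl, h1]
      simp
  -- the restriction to `P`
  let χP : P → ℂ := fun s => χ (s : G)
  have hχP : IsCharacter P χP := isCharacter_restrict hχ.isCharacter' P
  let M : Subgroup P := N.subgroupOf P
  haveI := Fintype.ofFinite M
  let lM : M → ℂ := fun q => (l (q : P) : ℂ)
  have hlM : IsCharacter M lM := (isIrrCharacter_hom (l.comp M.subtype)).isCharacter'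
  choose a ha using fun η : IrrCharacter P => inner_character_nat hχP η.2.isCharacter'
  choose c hc using fun η : IrrCharacter P => inner_character_nat (isCharacter_restrict η.2.isCharacter' M) hlM
  have hsum : classInner (fun q : M => χP q) lM = ((∑ η : IrrCharacter P, a η * c η : ℕ) : ℂ) := by
    have hexp := classFunction_eq_sum χP (isCharacter_classFunction hχP)
    rw [show (fun q : M => χP q) = ∑ η : IrrCharacter P, classInner χP (η : P → ℂ) • (fun q : M => (η : P → ℂ) q) from funext fun q => by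
      have h := congrFun hexp (q : P)
      simp only [Finset.sum_apply, Pi.smul_apply] at h ⊢
      exact h, inner_sum_left]
    push_cast
    refine Finset.sum_congr rfl fun η _ => ?_
    rw [CfsgLib.Char.inner_smul_left, ha, hc]
  have hwM : classInner (fun q : M => χP q) lM = (w ξ : ℂ) := by
    rw [← hw ξ, frobenius μ _ (irr_classFunction ξ)]
    rw [inner_comm_of_isCharacter hμc (isCharacter_restrict ξ.2.isCharacter' Q)]
    let e : M ≃* Q :=
      { toFun := fun q => ⟨⟨((q : P) : G), q.2⟩, (q : P).2⟩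
        invFun := fun q => ⟨⟨((q : N) : G), q.2⟩, (q : N).2⟩
        left_inv := fun _ => rfl
        right_inv := fun _ => rfl
        map_mul' := fun _ _ => rfl }
    rw [← inner_comp_equiv e (fun q : Q => (ξ : N → ℂ) q) μ]
    congr 1
    funext q
    exact hχN ⟨((q : P) : G), q.2⟩
  have hodd : ¬ 2 ∣ ∑ η : IrrCharacter P, a η * c η := by
    rw [← Nat.cast_inj.1 (hwM.symm.trans hsum)]
    exact fun h => hξw (dvd_mul_of_dvd_left h _)
  apply hodd
  rw [← ZMod.natCast_eq_zero_iff, Nat.cast_sum]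
  let U : IrrCharacter P → IrrCharacter P := fun η => ⟨powTwist k (η : P → ℂ), powTwist_irr hkP η.2⟩
  have hU : Function.Involutive U := fun η => Subtype.ext (funext fun s => by
    show (η : P → ℂ) ((s ^ k) ^ k) = _
    rw [hinvP, hinvP, inv_inv])
  have hainv : ∀ η, a (U η) * c (U η) = a η * c η := by
    intro η
    have h1 : a (U η) = a η := by
      have h := ha (U η)
      rw [classInner, Fintype.sum_equiv (powCoprime hkP.symm) (fun s => χP s * conj ((U η : P → ℂ) s)) (fun s => χP s * conj ((η : P → ℂ) s))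
        (fun s => by
          show _ = χP (s ^ k) * conj ((η : P → ℂ) (s ^ k))
          have h2 : χP (s ^ k) = χP s := congrFun hχk (s : G)
          rw [h2]
          rfl), ← classInner, ha η] at h
      exact_mod_cast h.symm
    have h2 : c (U η) = c η := by
      have h := hc (U η)
      rw [classInner, Fintype.sum_equiv (Equiv.inv M) (fun q : M => (U η : P → ℂ) q * conj (lM q)) (fun q : M => (η : P → ℂ) q * conj (lM q))
        (fun q => by
          show (η : P → ℂ) ((q : P) ^ k) * conj (l (q : P) : ℂ) = (η : P → ℂ) ((q⁻¹ : M) : P) * conj (l ((q⁻¹ : M) : P) : ℂ)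
          rw [hinvP, Subgroup.coe_inv, map_inv]
          congr 3
          exact (inv_eq_of_mul_eq_one_right (hQ _ q.2)).symm), ← classInner, hc η] at h
      exact_mod_cast h.symm
    rw [h1, h2]
  refine Finset.sum_ninvolution U (fun η => by rw [hainv]; exact CharTwo.add_self_eq_zero _) (fun η hη hUη => hη ?_) (fun _ => Finset.mem_univ _) hU
  rw [ZMod.natCast_eq_zero_iff]
  apply dvd_mul_of_dvd_right
  by_cases hc0 : c η = 0
  · rw [hc0]; exact dvd_zero 2
  obtain ⟨j, hj, -⟩ : ∃ j : ℕ, charDegree (η : P → ℂ) = 2 ^ j ∧ True := by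
    obtain ⟨i', hi'⟩ := IsPGroup.iff_card.1 hP
    obtain ⟨j, -, hj⟩ := (Nat.dvd_prime_pow Nat.prime_two).1 (hi' ▸ charDegree_dvd_card η)
    exact ⟨j, hj, trivial⟩
  haveI : M.Normal := (inferInstance : N.Normal).subgroupOf P
  have hlirr : IsIrrCharacter M lM := isIrrCharacter_hom (l.comp M.subtype)
  have hcon : classInner (fun q : M => (η : P → ℂ) q) lM ≠ 0 := by rw [hc]; exact Nat.cast_ne_zero.2 hc0
  have htop' : inertia lM = ⊤ := by
    rw [eq_top_iff]
    intro s _
    rw [mem_inertia, conjFn_eq_comp]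
    funext q
    show (l _ : ℂ) = (l _ : ℂ)
    rw [MulAut.conjNormal_apply, map_mul, map_mul, map_inv, mul_comm (l s), mul_inv_cancel_right]
  have hcd := clifford_degree η.2 hlirr hcon
  rw [htop', Subgroup.index_top, hc, show lM 1 = 1 by simp [lM], Nat.cast_one, mul_one, mul_one,
    ← charDegree_cast η.2.isCharacter', Nat.cast_inj] at hcd
  rcases j.eq_zero_or_pos with hj0 | hj0
  · exfalso
    subst hj0
    rw [pow_zero] at hj
    obtain ⟨e, he⟩ := exists_hom_of_degree_one η.2.isCharacter' (by rw [← charDegree_cast η.2.isCharacter', hj, Nat.cast_one])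
    have hres : ∀ q : P, (q : G) ∈ N → e q = l q := by
      intro q hq
      have h := hcon
      by_contra hne'
      apply h
      refine irr_inner_ne ?_ hlirr ?_
      · rw [he]; exact isIrrCharacter_hom (e.comp M.subtype)
      · intro hh
        have := congrFun hh ⟨q, hq⟩
        rw [congrFun he q] at this
        exact hne' (Units.ext this)
    apply hne
    rw [← hPsq e hres]
    refine MonoidHom.ext fun s => ?_
    have h1 := congrFun (congrArg Subtype.val hUη) s
    change (η : P → ℂ) (s ^ k) = (η : P → ℂ) s at h1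
    rw [hinvP, he] at h1
    have h2 : e s⁻¹ = e s := Units.ext h1
    rw [map_inv] at h2
    show e s * e s = 1
    nth_rewrite 1 [← h2]
    rw [inv_mul_cancel]
  · rw [← hcd, hj]; exact dvd_pow_self 2 hj0.ne'

/-- Let N be a normal subgroup of the finite group G, P a Sylow 2-subgroup of G and Q = P ∩ N. Suppose that P/QP' and Q/Q' are elementary abelian (every square of an element of P lies in the subgroup generated by Q and the derived subgroup of P, and every square of an element of Q lies in the derived subgroup of Q), and that the commutator factor group N/N' has odd order. Then P/P' is elementary abelian. -/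
theorem result {G : Type*} [Group G] [Finite G] (N : Subgroup G) [N.Normal] (P : Sylow 2 G)
    (hP : ∀ x ∈ (P : Subgroup G), x ^ 2 ∈ ((P : Subgroup G) ⊓ N) ⊔ ⁅(P : Subgroup G), (P : Subgroup G)⁆)
    (hQ : ∀ x ∈ (P : Subgroup G) ⊓ N, x ^ 2 ∈ ⁅(P : Subgroup G) ⊓ N, (P : Subgroup G) ⊓ N⁆)
    (hodd : Odd (Nat.card (Abelianization N))) :
    ∀ x ∈ (P : Subgroup G), x ^ 2 ∈ ⁅(P : Subgroup G), (P : Subgroup G)⁆ := by
  classical
  intro x hx
  by_contra hxc
  let P₀ : Subgroup G := (P : Subgroup G)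
  -- a linear character of order four
  have hmap : (commutator P₀).map P₀.subtype = ⁅P₀, P₀⁆ := Subgroup.map_subtype_commutator P₀
  have hxc' : (⟨x, hx⟩ : P₀) ^ 2 ∉ commutator P₀ := by
    intro h
    apply hxc
    rw [← hmap]
    exact ⟨_, h, by simp⟩
  haveI : Finite (Abelianization P₀) := Finite.of_surjective (Abelianization.of (G := P₀)) Quotient.mk_surjective
  haveI : NeZero (Monoid.exponent (Abelianization P₀)) := ⟨Monoid.exponent_ne_zero_of_finite⟩
  obtain ⟨l', hl'⟩ := CommGroup.exists_apply_ne_one_of_hasEnoughRootsOfUnity (Abelianization P₀) ℂ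
    (a := Abelianization.of ((⟨x, hx⟩ : P₀) ^ 2)) (fun h => hxc' ((QuotientGroup.eq_one_iff _).1 h))
  let l : P₀ →* ℂˣ := l'.comp Abelianization.of
  have hlc : ∀ (e : P₀ →* ℂˣ) (c : G) (hc : c ∈ ⁅P₀, P₀⁆) (hcP : c ∈ P₀), e ⟨c, hcP⟩ = 1 := by
    intro e c hc hcP
    rw [← hmap] at hc
    obtain ⟨c', hc', rfl⟩ := hc
    exact MonoidHom.mem_ker.1 (Abelianization.commutator_subset_ker e hc')
  let H : Subgroup G := N ⊔ P₀
  let N₁ := N.subgroupOf H
  let P₁ := P₀.subgroupOf H
  let eP : P₁ ≃* P₀ := Subgroup.subgroupOfEquivOfLe le_sup_right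
  let eN : N₁ ≃* N := Subgroup.subgroupOfEquivOfLe le_sup_left
  haveI : N₁.Normal := (inferInstance : N.Normal).subgroupOf H
  have hP₁i : Odd P₁.index := by
    have h : P₁.index ∣ P₀.index := Subgroup.relIndex_dvd_index_of_le le_sup_right
    exact (Nat.odd_iff.2 (Nat.two_dvd_ne_zero.1 P.not_dvd_index)).of_dvd_nat h
  have htop : N₁ ⊔ P₁ = ⊤ := by
    rw [← Subgroup.subgroupOf_sup le_sup_left le_sup_right, Subgroup.subgroupOf_self]
  have hsq : ∀ q : P₀, (q : G) ∈ N → l q * l q = 1 := by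
    intro q hq
    rw [← map_mul, ← pow_two]
    exact hlc l _ (Subgroup.commutator_mono inf_le_left inf_le_left (hQ (q : G) ⟨q.2, hq⟩)) _
  refine key N₁ P₁ (P.isPGroup'.of_equiv eP.symm) hP₁i htop ?_ (l.comp eP.toMonoidHom) (fun q hq => hsq (eP q) hq) ?_ ?_
  · rw [Nat.card_congr eN.abelianizationCongr.toEquiv]; exact hodd
  · intro η hη
    refine MonoidHom.ext fun s => ?_
    show η s * η s = l (eP s) * l (eP s)
    have hs2 := hP ((eP s : P₀) : G) (eP s).2
    let φ : P₀ →* ℂˣ := η.comp eP.symm.toMonoidHom * l⁻¹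
    have hker : (P₀ ⊓ N) ⊔ ⁅P₀, P₀⁆ ≤ φ.ker.map P₀.subtype := by
      refine sup_le (fun q hq => ⟨⟨q, hq.1⟩, ?_, rfl⟩) (fun c hc => ⟨⟨c, ?_⟩, ?_, rfl⟩)
      · show η (eP.symm ⟨q, hq.1⟩) * (l ⟨q, hq.1⟩)⁻¹ = 1
        rw [hη (eP.symm ⟨q, hq.1⟩) (show q ∈ N from hq.2)]
        show l (eP (eP.symm ⟨q, hq.1⟩)) * _ = 1
        rw [MulEquiv.apply_symm_apply, mul_inv_cancel]
      · exact (Subgroup.commutator_le_self P₀) hc
      · exact hlc φ c hc _
    obtain ⟨u, hu, hu2⟩ := hker hs2
    have hu' : u = eP s ^ 2 := Subtype.ext (by simpa using hu2)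
    rw [hu'] at hu
    change η (eP.symm (eP s ^ 2)) * (l (eP s ^ 2))⁻¹ = 1 at hu
    rw [map_pow eP.symm, MulEquiv.symm_apply_apply, mul_inv_eq_one, map_pow, map_pow, pow_two, pow_two] at hu
    exact hu
  · intro h
    apply hl'
    have h1 := DFunLike.congr_fun h (eP.symm ⟨x, hx⟩)
    change l (eP (eP.symm ⟨x, hx⟩)) * l (eP (eP.symm ⟨x, hx⟩)) = 1 at h1
    rw [MulEquiv.apply_symm_apply, ← map_mul, ← pow_two] at h1
    exact h1


end Cfsg.Agent.S4582
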