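import Cfsg.Statements.S4583
import Cfsg.Agent.Lib.BlockPrinInduce
import Cfsg.Agent.Lib.BlockAlperinDade2
import Cfsg.Agent.Lib.BlockPairBridge

set_option autoImplicit false
open Cfsg
open CfsgLib.Block CfsgLib.Char

namespace Cfsg.Agent.S4583

/-- Let N be a normal subgroup of the finite group G, p a prime, M a maximal ideal of the algebraic integers containing p, and P a Sylow p-subgroup of G. Let θ be an irreducible character of N of degree prime to p lying in the principal p-block of N, and suppose θ extends to the subgroup NP (some irreducible character of NP restricts to θ). Then some irreducible character χ of G of degree prime to p in the principal p-block of G lies over θ (θ is a constituent of the restriction of χ to N). -/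
theorem result {G : Type*} [Group G] [Finite G] (N : Subgroup G) [N.Normal] (p : ℕ) [Fact p.Prime] (M : Ideal Cfsg.AlgInt) (hM : Cfsg.IsPModular p M) (P : Sylow p G)
    (θ : Cfsg.IrrCharacter N) (hθ : θ ∈ Cfsg.principalBlock M N) (hdeg : ¬ p ∣ Cfsg.charDegree (θ : N → ℂ))
    (hext : ∃ η : Cfsg.IrrCharacter ↥(N ⊔ (P : Subgroup G)), ∀ n : N, (η : ↥(N ⊔ (P : Subgroup G)) → ℂ) (Subgroup.inclusion le_sup_left n) = (θ : N → ℂ) n) :
    ∃ χ : Cfsg.IrrCharacter G, χ ∈ Cfsg.principalBlock M G ∧ ¬ p ∣ Cfsg.charDegree (χ : G → ℂ) ∧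
      haveI := Fintype.ofFinite N; Cfsg.classInner (fun n : N => (χ : G → ℂ) n) (θ : N → ℂ) ≠ 0 := by
  classical
  haveI := Fintype.ofFinite G
  haveI := Fintype.ofFinite ↥N
  haveI := Fintype.ofFinite ↥(N ⊔ (P : Subgroup G))
  haveI := charP_resField hM
  haveI := nontrivial_resField hM
  haveI := hM.2.1
  letI := Ideal.Quotient.field M
  obtain ⟨η, hη⟩ := hext
  have hPH : (P : Subgroup G) ≤ (N ⊔ (P : Subgroup G)) := le_sup_right
  have hNH : N ≤ (N ⊔ (P : Subgroup G)) := le_sup_left
  have hidx : ¬ p ∣ (N ⊔ (P : Subgroup G)).index := fun h => P.not_dvd_index (h.trans (Subgroup.index_dvd_of_le hPH))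
  have hηθ1 : (η : ↥(N ⊔ (P : Subgroup G)) → ℂ) 1 = (θ : ↥N → ℂ) 1 := by
    rw [← hη 1, map_one]
  have hηdeg : charDegree (η : ↥(N ⊔ (P : Subgroup G)) → ℂ) = charDegree (θ : ↥N → ℂ) := by simp [charDegree, hηθ1]
  have hθ1mem : (θ : ↥N → ℂ) 1 ∈ locRing hM := irr_mem hM θ 1
  -- values at elements centralizing a Sylow subgroup
  have hval : ∀ n : N, (∀ x ∈ (P : Subgroup G), Commute x (n : G)) →
      res hM ⟨(θ : ↥N → ℂ) n, irr_mem hM θ n⟩ = res hM ⟨(θ : ↥N → ℂ) 1, hθ1mem⟩ := by
    intro n hn
    obtain ⟨Q, hQ⟩ : ∃ Q : Sylow p ↥N, (Q : Subgroup ↥N) = (P : Subgroup G).subgroupOf N := by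
      refine ⟨⟨(P : Subgroup G).subgroupOf N, ?_, ?_⟩, rfl⟩
      · exact P.isPGroup'.comap_of_injective _ N.subtype_injective
      · intro R hR hle
        refine le_antisymm (fun r hr => ?_) hle
        obtain ⟨g, hg⟩ := (hR.map N.subtype).exists_le_sylow
        have hsub : (P : Subgroup G).subgroupOf N ≤ R := hle
        have hcard : Nat.card R ≤ Nat.card ((P : Subgroup G).subgroupOf N) := by
          obtain ⟨i, hi⟩ := hR.exists_card_eq
          obtain ⟨j, hj⟩ := (P.isPGroup'.comap_of_injective _ N.subtype_injective).exists_card_eq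
          have hj' : Nat.card ((P : Subgroup G).subgroupOf N) = p ^ j := hj
          rw [hi, hj']
          have hd : ¬ p ∣ ((P : Subgroup G).subgroupOf N).index := by
            intro hd
            haveI : ((N : Subgroup G).subgroupOf (N ⊔ (P : Subgroup G))).Normal := inferInstance
            refine P.not_dvd_index (hd.trans ?_)
            show (P : Subgroup G).relIndex N ∣ (P : Subgroup G).index
            refine dvd_trans ?_ (Subgroup.relIndex_dvd_index_of_le hPH)
            refine Dvd.intro_left 1 ?_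
            rw [one_mul]
            have e1 := Subgroup.relIndex_mul_relIndex ((P : Subgroup G) ⊓ N) N (N ⊔ (P : Subgroup G))
              inf_le_right hNH
            have e2 := Subgroup.relIndex_mul_relIndex ((P : Subgroup G) ⊓ N) (P : Subgroup G)
              (N ⊔ (P : Subgroup G)) inf_le_left hPH
            rw [Subgroup.inf_relIndex_right] at e1
            rw [Subgroup.inf_relIndex_left] at e2
            have e3 : N.relIndex (N ⊔ (P : Subgroup G)) = N.relIndex (P : Subgroup G) :=
              Subgroup.relIndex_sup_left _ _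
            rw [e3] at e1
            rw [← e1, mul_comm] at e2
            exact (mul_right_cancel₀ Subgroup.index_ne_zero_of_finite e2).symm
          have hpow : p ^ i ∣ Nat.card ↥N := hi ▸ Subgroup.card_subgroup_dvd_card R
          rw [← Subgroup.card_mul_index ((P : Subgroup G).subgroupOf N), hj'] at hpow
          exact Nat.le_of_dvd (pow_pos (Fact.out : p.Prime).pos j)
            (((Nat.Coprime.pow_left i ((Fact.out : p.Prime).coprime_iff_not_dvd.2 hd))).dvd_of_dvd_mul_right hpow)
        exact (Subgroup.eq_of_le_of_card_ge hsub hcard) ▸ hr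
    have hQC : (Q : Subgroup ↥N) ≤ Subgroup.centralizer ({n} : Set ↥N) := fun x hx => by
      rw [hQ] at hx
      exact Subgroup.mem_centralizer_singleton_iff.2 (Subtype.ext (hn _ hx).eq)
    have hi : ¬ p ∣ (Subgroup.centralizer ({n} : Set ↥N)).index :=
      fun h => Q.not_dvd_index (h.trans (Subgroup.index_dvd_of_le hQC))
    have hsame := sameBlock_of_mem hM (isPBlock_principal M) (trivIrr_mem_principal hM) hθ n
    set i := (Subgroup.centralizer ({n} : Set ↥N)).index with hidef
    have h1 := (res_eq_res_iff hM ⟨centralChar ((trivIrr ↥N : IrrCharacter ↥N) : ↥N → ℂ) n,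
      centralChar_mem hM _ n⟩ ⟨centralChar (θ : ↥N → ℂ) n, centralChar_mem hM θ n⟩).2 hsame
    have e1 : (⟨centralChar ((trivIrr ↥N : IrrCharacter ↥N) : ↥N → ℂ) n, centralChar_mem hM _ n⟩ :
        locRing hM) = (i : locRing hM) := Subtype.ext (by
      show centralChar ((trivIrr ↥N : IrrCharacter ↥N) : ↥N → ℂ) n = _
      simp [centralChar, trivIrr, hidef])
    have e2 : (i : locRing hM) * ⟨(θ : ↥N → ℂ) n, irr_mem hM θ n⟩ =
        ⟨centralChar (θ : ↥N → ℂ) n, centralChar_mem hM θ n⟩ * ⟨(θ : ↥N → ℂ) 1, hθ1mem⟩ :=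
      Subtype.ext (by
        show ((i : locRing hM) : ℂ) * (θ : ↥N → ℂ) n = centralChar (θ : ↥N → ℂ) n * (θ : ↥N → ℂ) 1
        rw [centralChar, div_mul_cancel₀ _ (irr_one_ne_zero θ)]
        simp [hidef])
    have e3 := congrArg (res hM) e2
    rw [map_mul, map_mul, ← h1, e1] at e3
    exact mul_left_cancel₀ (fun h => hi ((res_natCast_eq_zero_iff hM i).1 h)) e3
  -- the residual value
  set B := principalBlock M G with hBdef
  have hB : IsPBlock M B := isPBlock_principal M
  have hterm : ∀ h : ↥(N ⊔ (P : Subgroup G)), coef (indVal B) (h : G) * (η : ↥(N ⊔ (P : Subgroup G)) → ℂ) h ∈ locRing hM :=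
    fun h => mul_mem (indVal_mem hM hB _) (irr_mem hM η h)
  obtain ⟨z, hz⟩ := (isUnit_of_res_ne_zero hM (z := (⟨(θ : ↥N → ℂ) 1, hθ1mem⟩ : locRing hM))
    fun h => hdeg ((res_natCast_eq_zero_iff hM _).1 (by
      rw [← h]; exact congrArg (res hM) (Subtype.ext (by simp [charDegree_cast θ.2.isCharacter'])))) ).exists_left_inv
  have homeq : om (η : ↥(N ⊔ (P : Subgroup G)) → ℂ) (fun h : ↥(N ⊔ (P : Subgroup G)) => coef (indVal B) (h : G)) =
      ((z * ∑ h : ↥(N ⊔ (P : Subgroup G)), ⟨_, hterm h⟩ : locRing hM) : ℂ) := by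
    have hzv : (z : ℂ) = ((θ : ↥N → ℂ) 1)⁻¹ :=
      eq_inv_of_mul_eq_one_left (congrArg Subtype.val hz)
    simp [om, hηθ1, hzv, div_eq_inv_mul]
  have hmem : om (η : ↥(N ⊔ (P : Subgroup G)) → ℂ) (fun h : ↥(N ⊔ (P : Subgroup G)) => coef (indVal B) (h : G)) ∈ locRing hM :=
    homeq ▸ (z * ∑ h : ↥(N ⊔ (P : Subgroup G)), ⟨_, hterm h⟩ : locRing hM).2
  obtain ⟨χ, hχB, hχp, hin⟩ := exists_over_of_om_ne hM (N ⊔ (P : Subgroup G)) hidx B η (hηdeg ▸ hdeg) hmem (by
    rw [show (⟨_, hmem⟩ : locRing hM) = z * ∑ h : ↥(N ⊔ (P : Subgroup G)), ⟨_, hterm h⟩ from Subtype.ext homeq, map_mul,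
      map_sum]
    refine mul_ne_zero (fun h => ?_) ?_
    · have := congrArg (res hM) hz
      rw [map_mul, h, zero_mul, map_one] at this
      exact zero_ne_one this
    set r : G → ResField M := fun g => if hg : g ∈ (N ⊔ (P : Subgroup G)) then res hM ⟨_, irr_mem hM η ⟨g, hg⟩⟩ else 0
      with hr
    set a : G → ResField M := fun g => gFn hM B g * r g with ha
    have hra : ∀ g, g ∉ (N ⊔ (P : Subgroup G)) → a g = 0 := fun g hg => by simp [ha, hr, hg]
    have hsum : ∑ h : ↥(N ⊔ (P : Subgroup G)), res hM ⟨_, hterm h⟩ = ∑ g, a g := by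
      rw [← ext0_restrict (a := a) hra, sum_ext0]
      refine Finset.sum_congr rfl fun h _ => ?_
      simp only [ha, hr, dif_pos h.2, gFn_block hM hB, cred, ← map_mul]
      exact congrArg (res hM) (Subtype.ext rfl)
    have hinv : InvBy (P : Subgroup G) a := fun x hx g => by
      simp only [ha, gFn_classFunction]
      congr 1
      simp only [hr]
      by_cases hg : g ∈ (N ⊔ (P : Subgroup G))
      · rw [dif_pos hg, dif_pos (mul_mem (mul_mem (hPH hx) hg) (inv_mem (hPH hx)))]
        exact congrArg (res hM) (Subtype.ext (irr_classFunction η ⟨g, hg⟩ ⟨x, hPH hx⟩))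
      · rw [dif_neg hg, dif_neg fun h' => hg ?_]
        have := mul_mem (mul_mem (inv_mem (hPH hx)) h') (hPH hx)
        rwa [show x⁻¹ * (x * g * x⁻¹) * x = g by group] at this
    rw [hsum, ← sum_trc_eq hM P.isPGroup' hinv]
    obtain ⟨K, hKC, hKp, hKn, hdec⟩ := exists_centralizer_complement P
    set t := trc (P : Subgroup G) (gFn hM B) with ht
    have htK : ∀ g, t g = if g ∈ K then prinFn hM (P : Subgroup G) 1 else 0 := by
      intro g
      rw [ht, trc_gFn_principal hM P]
      by_cases hg : g ∈ K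
      · rw [if_pos hg]
        have := prinFn_mul_left hM hKC hKp hKn hg (1 : G)
        rwa [mul_one] at this
      · rw [if_neg hg]
        by_cases hgC : g ∈ Subgroup.centralizer ((P : Subgroup G) : Set G)
        · rw [← trc_gFn_principal hM P, trc, if_pos hgC, gFn_block hM hB]
          refine cred_bIdem_singular hM hB ?_
          obtain ⟨w, hw, k, hk, rfl⟩ := hdec g hgC
          have hw1 : w ≠ 1 := fun e => hg (by rw [e, one_mul]; exact hk)
          have hwk : Commute w k := Subgroup.mem_centralizer_iff.1 (hKC hk) w hw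
          obtain ⟨j, hj⟩ := P.isPGroup' ⟨w, hw⟩
          have hjw : w ^ p ^ j = 1 := congrArg Subtype.val hj
          by_contra hnd
          refine hw1 (orderOf_eq_one_iff.1 (Nat.eq_one_of_dvd_coprimes (Nat.Coprime.pow_left j
            ((Fact.out : p.Prime).coprime_iff_not_dvd.2 (fun hd => hnd ?_))) (orderOf_dvd_of_pow_eq_one hjw)
            (dvd_refl (orderOf w))))
          have hk' : w ^ orderOf (w * k) * k ^ orderOf (w * k) = 1 := by
            rw [← hwk.mul_pow, pow_orderOf_eq_one]
          have hkc : ¬ p ∣ orderOf k := fun h => hKp (h.trans (Subgroup.orderOf_dvd_natCard K hk))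
          have h2 : w ^ (orderOf (w * k) * orderOf k) = 1 := by
            have := congrArg (fun u => u ^ orderOf k) hk'
            simp only [one_pow] at this
            rw [(hwk.pow_pow _ _).mul_pow, ← pow_mul, ← pow_mul, mul_comm _ (orderOf k),
              pow_mul k, pow_orderOf_eq_one, one_pow, mul_one, mul_comm] at this
            exact this
          exact ((Fact.out : p.Prime).dvd_mul.1 (hd.trans (orderOf_dvd_of_pow_eq_one h2))).resolve_right hkc
        · exact (pairFn_principal hM P.isPGroup').2.supp hgC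
    have htr : ∀ g, trc (P : Subgroup G) a g = if g ∈ K ⊓ N then
        prinFn hM (P : Subgroup G) 1 * res hM ⟨(θ : ↥N → ℂ) 1, hθ1mem⟩ else 0 := by
      intro g
      have e : trc (P : Subgroup G) a g = t g * r g := by
        simp only [ht, trc, ha]; split_ifs <;> simp
      rw [e, htK g]
      by_cases hgK : g ∈ K
      · rw [if_pos hgK]
        by_cases hgN : g ∈ N
        · rw [if_pos (show g ∈ K ⊓ N from ⟨hgK, hgN⟩)]
          congr 1
          simp only [hr, dif_pos (hNH hgN)]
          rw [← hval ⟨g, hgN⟩ fun x hx => Subgroup.mem_centralizer_iff.1 (hKC hgK) x hx]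
          exact congrArg (res hM) (Subtype.ext (hη ⟨g, hgN⟩))
        · rw [if_neg fun h => hgN h.2, show r g = 0 from dif_neg fun hg => hgN ?_, mul_zero]
          have hH' : (N.subgroupOf (N ⊔ (P : Subgroup G))).Normal := inferInstance
          refine (QuotientGroup.eq_one_iff (⟨g, hg⟩ : ↥(N ⊔ (P : Subgroup G))) (N := N.subgroupOf (N ⊔ (P : Subgroup G)))).1 ?_
          rw [← orderOf_eq_one_iff]
          refine Nat.eq_one_of_dvd_coprimes (b := orderOf g) (a := Nat.card (P : Subgroup G)) ?_ ?_ ?_
          · obtain ⟨j, hj⟩ := P.isPGroup'.exists_card_eq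
            rw [hj]
            exact Nat.Coprime.pow_left j ((Fact.out : p.Prime).coprime_iff_not_dvd.2
              fun h => hKp (h.trans (Subgroup.orderOf_dvd_natCard K hgK)))
          · refine (orderOf_dvd_natCard _).trans ?_
            rw [← Subgroup.index_eq_card]
            show N.relIndex (N ⊔ (P : Subgroup G)) ∣ _
            rw [Subgroup.relIndex_sup_left]
            exact Subgroup.relIndex_dvd_card _ _
          · rw [← Subgroup.orderOf_mk g hg]
            exact orderOf_map_dvd (QuotientGroup.mk' _) _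
      · rw [if_neg hgK, if_neg fun h => hgK h.1, zero_mul]
    rw [Finset.sum_congr rfl fun g _ => htr g, ← Finset.sum_filter, Finset.sum_const, nsmul_eq_mul,
      show (Finset.univ.filter fun g : G => g ∈ K ⊓ N).card = Nat.card (K ⊓ N : Subgroup G) by
        rw [Nat.card_eq_fintype_card, Fintype.card_subtype]]
    refine mul_ne_zero ?_ (mul_ne_zero ?_ ?_)
    · rw [← map_natCast (res hM)]
      exact fun h => hKp (((res_natCast_eq_zero_iff hM _).1 h).trans
        (Subgroup.card_dvd_of_le inf_le_left))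
    · intro h0
      have h := sum_prinFn hM (P : Subgroup G)
      rw [← trc_gFn_principal hM P] at h
      rw [Finset.sum_eq_zero fun g _ => by rw [← ht, htK g, h0, ite_self]] at h
      exact zero_ne_one h
    · exact fun h => hdeg ((res_natCast_eq_zero_iff hM _).1 (by
        rw [← h]
        exact congrArg (res hM) (Subtype.ext (by simp [charDegree_cast θ.2.isCharacter'])))))
  refine ⟨χ, hχB, hχp, ?_⟩
  have hc := isCharacter_restrict χ.2.isCharacter' (N ⊔ (P : Subgroup G))
  choose k hk using fun φ : IrrCharacter ↥(N ⊔ (P : Subgroup G)) => inner_character_nat hc φ.2.isCharacter'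
  have hcN : ∀ φ : IrrCharacter ↥(N ⊔ (P : Subgroup G)), ∃ j : ℕ,
      classInner (fun n : N => (φ : ↥(N ⊔ (P : Subgroup G)) → ℂ) (Subgroup.inclusion hNH n)) (θ : ↥N → ℂ) = j := fun φ =>
    inner_character_nat (isCharacter_comp φ.2.isCharacter' (Subgroup.inclusion hNH)) θ.2.isCharacter'
  choose j hj using hcN
  have hexp : classInner (fun n : N => (χ : G → ℂ) n) (θ : ↥N → ℂ) = ((∑ φ, k φ * j φ : ℕ) : ℂ) := by
    have e : (fun n : N => (χ : G → ℂ) n) = ∑ φ : IrrCharacter ↥(N ⊔ (P : Subgroup G)),
        (k φ : ℂ) • fun n : N => (φ : ↥(N ⊔ (P : Subgroup G)) → ℂ) (Subgroup.inclusion hNH n) := funext fun n => by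
      have := congrFun (classFunction_eq_sum _ (isCharacter_classFunction hc))
        (Subgroup.inclusion hNH n)
      simp only [Finset.sum_apply, Pi.smul_apply, hk] at this ⊢
      exact this
    rw [e, inner_sum_left, Nat.cast_sum]
    exact Finset.sum_congr rfl fun φ _ => by
      rw [CfsgLib.Char.inner_smul_left, hj, Nat.cast_mul]
  intro e0
  have h0 : (∑ φ, k φ * j φ : ℕ) = 0 := Nat.cast_eq_zero.1 (hexp.symm.trans (by convert e0))
  have h1 := Finset.sum_eq_zero_iff.1 h0 η (Finset.mem_univ _)
  have hj1 : (j η : ℂ) = 1 := by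
    rw [← hj η, show (fun n : N => (η : ↥(N ⊔ (P : Subgroup G)) → ℂ) (Subgroup.inclusion hNH n)) = (θ : ↥N → ℂ) from
      funext hη, irr_inner_self θ.2]
  rcases Nat.mul_eq_zero.1 h1 with h | h
  · exact hin (by rw [hk η, h, Nat.cast_zero])
  · rw [h, Nat.cast_zero] at hj1
    exact zero_ne_one hj1

end Cfsg.Agent.S4583
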