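import Cfsg.Statements.S4584
import Mathlib.GroupTheory.Abelianization.Finite
import Mathlib.GroupTheory.PGroup
import Mathlib.GroupTheory.Index
import Mathlib.GroupTheory.IndexNormal
import Mathlib.GroupTheory.Commutator.Basic

set_option autoImplicit false
open Cfsg

namespace Cfsg.Agent.S4584

/-- Let p be a prime and P a group of order p^4. Then the derived subgroup P' has order p if and only if the centre Z(P) has index p^2 in P. -/
theorem result {P : Type*} [Group P] [Finite P] (p : ℕ) [Fact p.Prime] (hP : Nat.card P = p ^ 4) :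
    Nat.card (commutator P) = p ↔ (Subgroup.center P).index = p ^ 2 := by
  classical
  have hp : p.Prime := Fact.out
  have hPG : IsPGroup p P := IsPGroup.of_card hP
  constructor
  · intro hc
    -- centralizers have index at most `p`
    have hC : ∀ x : P, (Subgroup.centralizer ({x} : Set P)).index ≤ p := by
      intro x
      rw [← hc, Subgroup.index, ]
      refine Nat.card_le_card_of_injective
        (Quotient.lift (fun g : P => (⟨g * x * g⁻¹ * x⁻¹, Subgroup.commutator_mem_commutator (Subgroup.mem_top g) (Subgroup.mem_top x)⟩ : commutator P))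
          fun a b hab => ?_) ?_
      · have h : a⁻¹ * b ∈ Subgroup.centralizer ({x} : Set P) := QuotientGroup.leftRel_apply.1 hab
        rw [Subgroup.mem_centralizer_singleton_iff] at h
        refine Subtype.ext ?_
        show a * x * a⁻¹ * x⁻¹ = b * x * b⁻¹ * x⁻¹
        have : a * x * a⁻¹ = b * x * b⁻¹ := by
          calc a * x * a⁻¹ = a * (x * (a⁻¹ * b)) * b⁻¹ := by group
            _ = a * (a⁻¹ * b * x) * b⁻¹ := by rw [h]
            _ = b * x * b⁻¹ := by group
        rw [this]
      · intro a b
        refine Quotient.inductionOn₂' a b fun a b h => ?_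
        have h' : a * x * a⁻¹ * x⁻¹ = b * x * b⁻¹ * x⁻¹ := congrArg Subtype.val h
        have h'' := mul_right_cancel h'
        refine Quotient.sound' (QuotientGroup.leftRel_apply.2 (Subgroup.mem_centralizer_singleton_iff.2 ?_))
        calc a⁻¹ * b * x = a⁻¹ * (b * x * b⁻¹) * b := by group
          _ = a⁻¹ * (a * x * a⁻¹) * b := by rw [h'']
          _ = x * (a⁻¹ * b) := by group
    obtain ⟨x, y, hxy⟩ : ∃ x y : P, x * y ≠ y * x := by
      by_contra h
      push Not at h
      have h1 : commutator P = ⊥ := by
        rw [commutator_def, Subgroup.commutator_eq_bot_iff_le_centralizer]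
        exact fun g _ k _ => h k g
      rw [h1, Subgroup.card_bot] at hc
      exact hp.one_lt.ne hc
    set K := Subgroup.centralizer ({x} : Set P) ⊓ Subgroup.centralizer ({y} : Set P) with hKdef
    have hxC : x ∈ Subgroup.centralizer ({x} : Set P) := Subgroup.mem_centralizer_singleton_iff.2 rfl
    have hyC : y ∈ Subgroup.centralizer ({y} : Set P) := Subgroup.mem_centralizer_singleton_iff.2 rfl
    have hsize : ∀ H : Subgroup P, ∃ i : ℕ, i ≤ 4 ∧ H.index = p ^ i := fun H =>
      (Nat.dvd_prime_pow hp).1 (hP ▸ H.index_dvd_card)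
    -- `K` is central
    have hKle : K.index ≤ p ^ 2 := by
      rw [pow_two]; exact Subgroup.index_inf_le.trans (Nat.mul_le_mul (hC x) (hC y))
    have hKc : Subgroup.zpowers x ⊔ Subgroup.zpowers y ⊔ K ≤ Subgroup.centralizer (K : Set P) → K ≤ Subgroup.center P := by
      intro hle
      have htop : Subgroup.zpowers x ⊔ Subgroup.zpowers y ⊔ K = ⊤ := by
        by_contra hne
        set T := Subgroup.zpowers x ⊔ Subgroup.zpowers y ⊔ K with hTdef
        have hxT : x ∈ T := Subgroup.mem_sup_left (Subgroup.mem_sup_left (Subgroup.mem_zpowers x))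
        have hyT : y ∈ T := Subgroup.mem_sup_left (Subgroup.mem_sup_right (Subgroup.mem_zpowers y))
        have hKT : K < Subgroup.centralizer ({x} : Set P) ⊓ T :=
          lt_of_le_of_ne (le_inf inf_le_left le_sup_right) fun e => hxy
            (Subgroup.mem_centralizer_singleton_iff.1 (show x ∈ K from e ▸ ⟨hxC, hxT⟩).2)
        have h1 : Subgroup.centralizer ({x} : Set P) ⊓ T < T :=
          lt_of_le_of_ne inf_le_right fun e => hxy
            (Subgroup.mem_centralizer_singleton_iff.1 (show y ∈ Subgroup.centralizer ({x} : Set P) ⊓ T from e.symm ▸ hyT).1).symm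
        have h2 : T < ⊤ := lt_top_iff_ne_top.2 hne
        have a1 := Subgroup.index_strictAnti hKT
        have a2 := Subgroup.index_strictAnti h1
        have a3 := Subgroup.index_strictAnti h2
        obtain ⟨i1, -, e1⟩ := hsize K
        obtain ⟨i2, -, e2⟩ := hsize (Subgroup.centralizer ({x} : Set P) ⊓ T)
        obtain ⟨i3, -, e3⟩ := hsize T
        rw [Subgroup.index_top, e3] at a3
        rw [e2, e3] at a2
        rw [e1, e2] at a1
        rw [e1] at hKle
        have b1 := (Nat.pow_lt_pow_iff_right hp.one_lt).1 a1
        have b2 := (Nat.pow_lt_pow_iff_right hp.one_lt).1 a2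
        have b3 := (Nat.pow_le_pow_iff_right hp.one_lt).1 hKle
        have b4 : 0 < i3 := Nat.pos_of_ne_zero fun h => by rw [h, pow_zero] at a3; exact lt_irrefl 1 a3
        omega
      rw [htop] at hle
      intro k hk
      exact Subgroup.mem_center_iff.2 fun g => (hle (Subgroup.mem_top g) k hk).symm
    obtain ⟨i, hi4, hi⟩ := hsize (Subgroup.center P)
    have hcz : ¬ IsCyclic (P ⧸ Subgroup.center P) := fun h => by
      haveI := h
      exact hxy (commutative_of_cyclic_center_quotient (QuotientGroup.mk' (Subgroup.center P)) (by rw [QuotientGroup.ker_mk']) x y)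
    have hi2 : 2 ≤ i := by
      by_contra hlt
      apply hcz
      have hcard : Nat.card (P ⧸ Subgroup.center P) = p ^ i := hi
      interval_cases i
      · rw [pow_zero] at hcard
        haveI : Subsingleton (P ⧸ Subgroup.center P) := (Nat.card_eq_one_iff_unique.1 hcard).1
        infer_instance
      · rw [pow_one] at hcard
        exact isCyclic_of_prime_card hcard
    obtain ⟨iK, hiK4, hiK⟩ := hsize K
    have hiK2 : iK ≤ 2 := by rw [hiK] at hKle; exact (Nat.pow_le_pow_iff_right hp.one_lt).1 hKle
    have habK : ∀ a ∈ K, ∀ b ∈ K, a * b = b * a := by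
      intro a ha b hb
      by_cases h1 : iK ≤ 1
      · exfalso
        have hle : K ≤ Subgroup.centralizer ({x} : Set P) := inf_le_left
        have h2 : K < Subgroup.centralizer ({x} : Set P) := lt_of_le_of_ne hle fun e => hxy
          (Subgroup.mem_centralizer_singleton_iff.1 (show x ∈ K from e.symm ▸ hxC).2)
        have h3 : Subgroup.centralizer ({x} : Set P) < ⊤ := lt_top_iff_ne_top.2 fun e => hxy
          (Subgroup.mem_centralizer_singleton_iff.1 (show y ∈ Subgroup.centralizer ({x} : Set P) from e.symm ▸ Subgroup.mem_top y)).symm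
        have a2 := Subgroup.index_strictAnti h2
        have a3 := Subgroup.index_strictAnti h3
        obtain ⟨i2, -, e2⟩ := hsize (Subgroup.centralizer ({x} : Set P))
        rw [Subgroup.index_top, e2] at a3
        rw [e2, hiK] at a2
        have b1 := (Nat.pow_lt_pow_iff_right hp.one_lt).1 a2
        have b2 : 0 < i2 := Nat.pos_of_ne_zero fun h => by rw [h, pow_zero] at a3; exact lt_irrefl 1 a3
        omega
      · have hcard : Nat.card K = p ^ 2 := by
          have h := K.card_mul_index
          rw [hiK, show iK = 2 by omega, hP] at h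
          exact Nat.eq_of_mul_eq_mul_right (pow_pos hp.pos 2) (h.trans (by ring))
        haveI hKc' := IsPGroup.isMulCommutative_of_card_eq_prime_sq hcard
        exact congrArg Subtype.val (hKc'.is_comm.comm (⟨a, ha⟩ : K) ⟨b, hb⟩)
    have hKZ : K ≤ Subgroup.center P := hKc (by
      refine sup_le (sup_le (Subgroup.zpowers_le.2 fun k hk => ?_) (Subgroup.zpowers_le.2 fun k hk => ?_)) fun a ha k hk => habK k hk a ha
      · exact Subgroup.mem_centralizer_singleton_iff.1 hk.1
      · exact Subgroup.mem_centralizer_singleton_iff.1 hk.2)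
    have hle' := Subgroup.index_antitone hKZ
    rw [hi, hiK] at hle'
    have := (Nat.pow_le_pow_iff_right hp.one_lt).1 hle'
    rw [hi, show i = 2 by omega]
  · intro hz
    have hZcard : Nat.card (Subgroup.center P) = p ^ 2 := by
      have h := (Subgroup.center P).card_mul_index
      rw [hz, hP] at h
      exact Nat.eq_of_mul_eq_mul_right (pow_pos hp.pos 2) (h.trans (by ring))
    obtain ⟨x, y, hxy⟩ : ∃ x y : P, x * y ≠ y * x := by
      by_contra h
      push Not at h
      have h1 : Subgroup.center P = ⊤ := eq_top_iff.2 fun g _ => Subgroup.mem_center_iff.2 fun k => h k g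
      rw [h1, Subgroup.index_top] at hz
      exact (Nat.one_lt_pow (by norm_num) hp.one_lt).ne hz
    set Z := Subgroup.center P with hZ
    set X := Subgroup.centralizer ({x} : Set P) with hX
    have hZX : Z < X := lt_of_le_of_ne (fun g hg => Subgroup.mem_centralizer_singleton_iff.2 (Subgroup.mem_center_iff.1 hg x).symm)
      fun e => hxy (Subgroup.mem_center_iff.1 (show x ∈ Z from e ▸ Subgroup.mem_centralizer_singleton_iff.2 rfl) y).symm
    have hXT : X < ⊤ := lt_top_iff_ne_top.2 fun e => hxy
      (Subgroup.mem_centralizer_singleton_iff.1 (show y ∈ X from e.symm ▸ Subgroup.mem_top y)).symm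
    have hXi : X.index = p := by
      obtain ⟨i2, -, e2⟩ := (Nat.dvd_prime_pow hp).1 (hP ▸ X.index_dvd_card)
      have a1 := Subgroup.index_strictAnti hZX
      have a2 := Subgroup.index_strictAnti hXT
      rw [Subgroup.index_top, e2] at a2
      rw [e2, hz] at a1
      have b1 := (Nat.pow_lt_pow_iff_right hp.one_lt).1 a1
      have b2 : 0 < i2 := Nat.pos_of_ne_zero fun h => by rw [h, pow_zero] at a2; exact lt_irrefl 1 a2
      rw [e2, show i2 = 1 by omega, pow_one]
    haveI hXn : X.Normal := Subgroup.normal_of_index_eq_minFac_card (by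
      rw [hXi, hP, Nat.pow_minFac (by norm_num), hp.minFac_eq])
    -- `X` is abelian and every commutator is `[y, a]` with `a ∈ X`
    have hXab : ∀ a ∈ X, ∀ b ∈ X, a * b = b * a := by
      intro a ha b hb
      have hXc : (Subgroup.center X).index ≤ p := by
        have hle : Z.subgroupOf X ≤ Subgroup.center X := fun g hg =>
          Subgroup.mem_center_iff.2 fun k => Subtype.ext (Subgroup.mem_center_iff.1 hg (k : P))
        refine (Nat.le_of_dvd (Nat.pos_of_ne_zero Subgroup.index_ne_zero_of_finite) (Subgroup.index_dvd_of_le hle)).trans (le_of_eq ?_)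
        have h := Subgroup.relIndex_mul_index hZX.le
        rw [hXi, hz, pow_two] at h
        exact Nat.eq_of_mul_eq_mul_right hp.pos h
      have hcyc : IsCyclic (X ⧸ Subgroup.center X) := by
        obtain ⟨j, -, hj⟩ := (Nat.dvd_prime_pow hp).1 ((Subgroup.index_dvd_card _).trans ((Subgroup.card_subgroup_dvd_card X).trans (dvd_of_eq hP)) : (Subgroup.center X).index ∣ p ^ 4)
        rw [hj] at hXc
        have hj1 : j ≤ 1 := (Nat.pow_le_pow_iff_right hp.one_lt).1 (by rw [pow_one]; exact hXc)
        have hcard : Nat.card (X ⧸ Subgroup.center X) = p ^ j := hj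
        interval_cases j
        · rw [pow_zero] at hcard
          haveI : Subsingleton (X ⧸ Subgroup.center X) := (Nat.card_eq_one_iff_unique.1 hcard).1
          infer_instance
        · rw [pow_one] at hcard
          exact isCyclic_of_prime_card hcard
      exact congrArg Subtype.val (commutative_of_cyclic_center_quotient (QuotientGroup.mk' (Subgroup.center X)) (by rw [QuotientGroup.ker_mk']) (⟨a, ha⟩ : X) ⟨b, hb⟩)
    let f : X →* P :=
      { toFun := fun a => y * a * y⁻¹ * (a : P)⁻¹
        map_one' := by simp
        map_mul' := fun a b => by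
          have hc1 : (y * (b : P) * y⁻¹) * (a : P)⁻¹ = (a : P)⁻¹ * (y * b * y⁻¹) :=
            hXab _ (hXn.conj_mem b b.2 y) _ (X.inv_mem a.2)
          show y * ((a : P) * b) * y⁻¹ * ((a : P) * b)⁻¹ = y * a * y⁻¹ * (a : P)⁻¹ * (y * b * y⁻¹ * (b : P)⁻¹)
          calc y * ((a : P) * b) * y⁻¹ * ((a : P) * b)⁻¹ = (y * a * y⁻¹) * ((y * b * y⁻¹) * (b : P)⁻¹ * (a : P)⁻¹) := by group
            _ = (y * a * y⁻¹) * ((y * b * y⁻¹) * (a : P)⁻¹ * (b : P)⁻¹) := by
              rw [mul_assoc (y * b * y⁻¹) (b : P)⁻¹, hXab _ (X.inv_mem b.2) _ (X.inv_mem a.2)]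
              simp only [mul_assoc]
            _ = _ := by rw [hc1]; group }
    have hfr : f.range ≤ commutator P := by
      rintro _ ⟨a, rfl⟩
      exact Subgroup.commutator_mem_commutator (Subgroup.mem_top y) (Subgroup.mem_top (a : P))
    have hker : Z.subgroupOf X ≤ f.ker := fun g hg => by
      rw [MonoidHom.mem_ker]
      show y * (g : P) * y⁻¹ * (g : P)⁻¹ = 1
      have h : y * (g : P) = (g : P) * y := Subgroup.mem_center_iff.1 hg y
      rw [h, mul_inv_cancel_right, mul_inv_cancel]
    have hrcard : Nat.card f.range ≤ p := by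
      rw [← Subgroup.index_ker]
      refine (Nat.le_of_dvd (Nat.pos_of_ne_zero Subgroup.index_ne_zero_of_finite) (Subgroup.index_dvd_of_le hker)).trans (le_of_eq ?_)
      have h := Subgroup.relIndex_mul_index hZX.le
      rw [hXi, hz, pow_two] at h
      exact Nat.eq_of_mul_eq_mul_right hp.pos h
    have hne : f.range ≠ ⊥ := by
      intro e
      refine hxy ?_
      have h : f ⟨x, Subgroup.mem_centralizer_singleton_iff.2 rfl⟩ ∈ f.range := ⟨_, rfl⟩
      rw [e, Subgroup.mem_bot] at h
      have h' : y * x * y⁻¹ * x⁻¹ = 1 := h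
      rw [mul_inv_eq_one, mul_inv_eq_iff_eq_mul] at h'
      exact h'.symm
    have hrp : Nat.card f.range = p := by
      obtain ⟨j, -, hj⟩ := (Nat.dvd_prime_pow hp).1 ((Subgroup.card_subgroup_dvd_card f.range).trans (dvd_of_eq hP))
      rw [hj] at hrcard
      have hj1 : j ≤ 1 := (Nat.pow_le_pow_iff_right hp.one_lt).1 (by rw [pow_one]; exact hrcard)
      have hj0 : j ≠ 0 := fun h => hne (Subgroup.card_eq_one.1 (by rw [hj, h, pow_zero]))
      rw [hj, show j = 1 by omega, pow_one]
    -- the range is central, hence normal, and the quotient is abelian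
    haveI : (f.range).Normal := by
      have hcentre : f.range ≤ Z := by
        have hQ : IsMulCommutative (P ⧸ Z) := IsPGroup.isMulCommutative_of_card_eq_prime_sq hz
        exact hfr.trans (Subgroup.Normal.quotient_commutative_iff_commutator_le.1 hQ)
      exact ⟨fun n hn g => by rwa [Subgroup.mem_center_iff.1 (hcentre hn) g, mul_inv_cancel_right]⟩
    have hle : commutator P ≤ f.range := by
      rw [← Subgroup.Normal.quotient_commutative_iff_commutator_le]
      let π := QuotientGroup.mk' f.range
      have hgen : ∀ g : P, ∀ a ∈ X, Commute (π g) (π a) := by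
        intro g a ha
        have hy : Commute (π y) (π a) := by
          show π y * π a = π a * π y
          rw [← mul_inv_eq_iff_eq_mul, ← mul_inv_eq_one, ← map_mul, ← map_inv, ← map_mul, ← map_inv, ← map_mul]
          exact (QuotientGroup.eq_one_iff _).2 ⟨⟨a, ha⟩, rfl⟩
        have hmem : g ∈ (Subgroup.centralizer ({π a} : Set (P ⧸ f.range))).comap π := by
          have htop : (Subgroup.centralizer ({π a} : Set (P ⧸ f.range))).comap π = ⊤ := by
            by_contra hne'
            set W := (Subgroup.centralizer ({π a} : Set (P ⧸ f.range))).comap π with hWdef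
            have hXW : X < W := lt_of_le_of_ne (fun b hb => by
              rw [hWdef, Subgroup.mem_comap, Subgroup.mem_centralizer_singleton_iff, ← map_mul, ← map_mul, hXab b hb a ha])
              fun e => hxy (Subgroup.mem_centralizer_singleton_iff.1 (show y ∈ X from e ▸
                Subgroup.mem_comap.2 (Subgroup.mem_centralizer_singleton_iff.2 hy.eq))).symm
            have a1 := Subgroup.index_strictAnti hXW
            have a2 := Subgroup.index_strictAnti (lt_top_iff_ne_top.2 hne')
            rw [Subgroup.index_top] at a2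
            obtain ⟨i2, -, e2⟩ := (Nat.dvd_prime_pow hp).1 (hP ▸ W.index_dvd_card)
            rw [hXi, e2] at a1
            rw [e2] at a2
            have b1 := (Nat.pow_lt_pow_iff_right hp.one_lt).1 (by rwa [pow_one] : p ^ i2 < p ^ 1)
            rw [show i2 = 0 by omega, pow_zero] at a2
            exact lt_irrefl 1 a2
          rw [htop]; exact Subgroup.mem_top g
        exact Subgroup.mem_centralizer_singleton_iff.1 hmem
      refine ⟨⟨fun a b => ?_⟩⟩
      obtain ⟨a, rfl⟩ := QuotientGroup.mk'_surjective f.range a
      obtain ⟨b, rfl⟩ := QuotientGroup.mk'_surjective f.range b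
      have hW : (Subgroup.centralizer ({π a} : Set (P ⧸ f.range))).comap π = ⊤ := by
        by_contra hne'
        set W := (Subgroup.centralizer ({π a} : Set (P ⧸ f.range))).comap π with hWdef
        by_cases haX : a ∈ X
        · exact hne' (eq_top_iff.2 fun g _ => Subgroup.mem_comap.2 (Subgroup.mem_centralizer_singleton_iff.2 (hgen g a haX).eq))
        · have hXW : X < W := lt_of_le_of_ne (fun g hg => Subgroup.mem_comap.2 (Subgroup.mem_centralizer_singleton_iff.2 (hgen a g hg).eq.symm))
            fun e => haX (e ▸ Subgroup.mem_comap.2 (Subgroup.mem_centralizer_singleton_iff.2 rfl))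
          have a1 := Subgroup.index_strictAnti hXW
          have a2 := Subgroup.index_strictAnti (lt_top_iff_ne_top.2 hne')
          rw [Subgroup.index_top] at a2
          obtain ⟨i2, -, e2⟩ := (Nat.dvd_prime_pow hp).1 (hP ▸ W.index_dvd_card)
          rw [hXi, e2] at a1
          rw [e2] at a2
          have b1 := (Nat.pow_lt_pow_iff_right hp.one_lt).1 (by rwa [pow_one] : p ^ i2 < p ^ 1)
          rw [show i2 = 0 by omega, pow_zero] at a2
          exact lt_irrefl 1 a2
      have hb : b ∈ (Subgroup.centralizer ({π a} : Set (P ⧸ f.range))).comap π := by rw [hW]; exact Subgroup.mem_top b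
      exact (Subgroup.mem_centralizer_singleton_iff.1 hb).symm
    rw [← le_antisymm hfr hle, hrp]

end Cfsg.Agent.S4584
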