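import Cfsg.Statements.S4585
import Cfsg.Agent.S4584
import Cfsg.Agent.Lib.TransferMaximalClass
import Cfsg.Agent.Lib.LocalMaxClass

set_option autoImplicit false
open Cfsg
open scoped commutatorElement

namespace Cfsg.Agent.S4585

/-- Let p be a prime and P a group of order p^4. Then P' has index p^2 in P if and only if P has maximal nilpotency class, that is, nilpotency class exactly 3. -/
theorem result {P : Type*} [Group P] [Finite P] (p : ℕ) [Fact p.Prime] (hP : Nat.card P = p ^ 4) :
    (commutator P).index = p ^ 2 ↔ Group.nilpotencyClass P = 3 := by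
  classical
  have hp : p.Prime := Fact.out
  have hPG : IsPGroup p P := IsPGroup.of_card hP
  haveI := hPG.isNilpotent
  have h1 : (⊤ : Subgroup P).lowerCentralSeries 1 = commutator P := rfl
  constructor
  · intro hidx
    have hcard : Nat.card (commutator P) = p ^ 2 := by
      have := (commutator P).card_mul_index
      rw [hidx, hP, show p ^ 4 = p ^ 2 * p ^ 2 by ring] at this
      exact Nat.eq_of_mul_eq_mul_right (pow_pos hp.pos 2) this
    have hle : Group.nilpotencyClass P ≤ 3 :=
      Subgroup.lowerCentralSeries_eq_bot_iff_nilpotencyClass_le.1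
        (CfsgLib.MaxClass.lcs_card_le 4 (by norm_num) hP)
    by_contra hne
    have h2 : (⊤ : Subgroup P).lowerCentralSeries 2 = ⊥ :=
      Subgroup.lowerCentralSeries_eq_bot_iff_nilpotencyClass_le.2 (by omega)
    have hcz : commutator P ≤ Subgroup.center P := by
      intro x hx
      rw [Subgroup.mem_center_iff]
      intro g
      have hm : ⁅x, g⁆ ∈ (⊤ : Subgroup P).lowerCentralSeries 2 :=
        Subgroup.commutator_mem_commutator (h1.symm ▸ hx) (Subgroup.mem_top g)
      rw [h2, Subgroup.mem_bot, commutatorElement_eq_one_iff_mul_comm] at hm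
      exact hm.symm
    have hnab : ¬ ∀ a b : P, a * b = b * a := by
      intro hab
      have hb : commutator P = ⊥ := by
        rw [commutator_def, Subgroup.commutator_eq_bot_iff_le_centralizer]
        exact fun g _ k _ => hab k g
      rw [hb, Subgroup.card_bot] at hcard
      exact absurd hcard.symm (ne_of_gt (Nat.one_lt_pow two_ne_zero hp.one_lt))
    obtain ⟨i, hi4, hi⟩ := (Nat.dvd_prime_pow hp).1 (hP ▸ (Subgroup.center P).index_dvd_card)
    have hi2 : i ≤ 2 := by
      have h3 := Nat.le_of_dvd (pow_pos hp.pos 2) (hidx ▸ Subgroup.index_dvd_of_le hcz)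
      rw [hi] at h3
      exact (Nat.pow_le_pow_iff_right hp.one_lt).1 h3
    have hcyc : ¬ IsCyclic (P ⧸ Subgroup.center P) := fun h => by
      haveI := h
      exact hnab (commutative_of_cyclic_center_quotient (QuotientGroup.mk' (Subgroup.center P)) (by rw [QuotientGroup.ker_mk']))
    have hq : Nat.card (P ⧸ Subgroup.center P) = p ^ i := hi
    interval_cases i
    · apply hcyc
      rw [pow_zero] at hq
      haveI : Subsingleton (P ⧸ Subgroup.center P) := (Nat.card_eq_one_iff_unique.1 hq).1
      infer_instance
    · rw [pow_one] at hq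
      exact hcyc (isCyclic_of_prime_card hq)
    · have := (Cfsg.Agent.S4584.result p hP).2 hi
      rw [hcard] at this
      exact absurd this (ne_of_gt (lt_self_pow₀ hp.one_lt (by norm_num)))
  · intro hc
    exact (CfsgLib.Transfer.card_commutator_of_maximal_class 4 (by norm_num) hP (by rw [hc])).1


end Cfsg.Agent.S4585
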