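import Cfsg.Statements.S4586
import Mathlib.GroupTheory.Index
import Mathlib.GroupTheory.QuotientGroup.Basic
import Mathlib.GroupTheory.Abelianization.Defs
import Mathlib.GroupTheory.PGroup

set_option autoImplicit false
open Cfsg
open scoped commutatorElement

namespace Cfsg.Agent.S4586

universe w

/-- the counting identity `p·c = |M|·[P : P']` -/
theorem key {P : Type w} [Group P] [Finite P] (N M : Subgroup P) [hNn : N.Normal] [hMn : M.Normal]
    (hMN : M ≤ N) (hM : ∀ a ∈ N, ∀ b ∈ N, ⁅a, b⁆ ∈ M) (hMc : M ≤ commutator P)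
    (x : P) (hsup : N ⊔ Subgroup.zpowers x = ⊤) :
    N.index * Nat.card {n : N // x * n * x⁻¹ * (n : P)⁻¹ ∈ M} = Nat.card M * (commutator P).index := by
  classical
  have hcomm : ∀ a ∈ N, ∀ b ∈ N, (a : P ⧸ M) * b = (b : P ⧸ M) * a := by
    intro a ha b hb
    have h := (QuotientGroup.eq_one_iff _).2 (hM a ha b hb)
    rw [← commutatorElement_eq_one_iff_mul_comm]
    exact h
  have hxn : ∀ n : N, x * n * x⁻¹ * (n : P)⁻¹ ∈ N := fun n =>
    N.mul_mem (hNn.conj_mem n n.2 x) (N.inv_mem n.2)
  let φ : N →* P ⧸ M :=
    { toFun := fun n => ((x * n * x⁻¹ * (n : P)⁻¹ : P) : P ⧸ M)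
      map_one' := by simp
      map_mul' := fun n m => by
        have e : x * ((n * m : N) : P) * x⁻¹ * ((n * m : N) : P)⁻¹
            = (x * n * x⁻¹) * ((x * m * x⁻¹ * (m : P)⁻¹) * (n : P)⁻¹) := by
          push_cast; group
        show ((x * ((n * m : N) : P) * x⁻¹ * ((n * m : N) : P)⁻¹ : P) : P ⧸ M) = _
        rw [e]
        have h2 := hcomm _ (hxn m) _ (N.inv_mem n.2)
        generalize x * (m : P) * x⁻¹ * (m : P)⁻¹ = B at h2 ⊢
        generalize x * (n : P) * x⁻¹ = A
        generalize (n : P)⁻¹ = C at h2 ⊢
        simp only [QuotientGroup.mk_mul]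
        rw [h2, mul_assoc] }
  have hφ : ∀ n : N, φ n = ((x * n * x⁻¹ * (n : P)⁻¹ : P) : P ⧸ M) := fun n => rfl
  have hker : Nat.card φ.ker = Nat.card {n : N // x * n * x⁻¹ * (n : P)⁻¹ ∈ M} :=
    Nat.card_congr (Equiv.subtypeEquivRight fun n => by
      rw [MonoidHom.mem_ker, hφ]; exact QuotientGroup.eq_one_iff _)
  have hN : Nat.card N = Nat.card φ.ker * Nat.card φ.range := by
    rw [← Nat.card_congr (QuotientGroup.quotientKerEquivRange φ).toEquiv, mul_comm]
    exact Subgroup.card_eq_card_quotient_mul_card_subgroup φ.ker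
  have hK : φ.range.comap (QuotientGroup.mk' M) = commutator P := by
    apply le_antisymm
    · intro g hg
      rw [Subgroup.mem_comap, MonoidHom.mem_range] at hg
      obtain ⟨n, hn⟩ := hg
      rw [hφ, QuotientGroup.mk'_apply, QuotientGroup.eq] at hn
      have h1 : x * n * x⁻¹ * (n : P)⁻¹ ∈ commutator P :=
        Subgroup.commutator_mem_commutator (Subgroup.mem_top x) (Subgroup.mem_top (n : P))
      have := (commutator P).mul_mem h1 (hMc hn)
      rwa [mul_inv_cancel_left] at this
    · let K := φ.range.comap (QuotientGroup.mk' M)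
      have hKN : K ≤ N := by
        intro g hg
        obtain ⟨n, hn⟩ := MonoidHom.mem_range.1 (Subgroup.mem_comap.1 hg)
        rw [hφ, QuotientGroup.mk'_apply, QuotientGroup.eq] at hn
        have := N.mul_mem (hxn n) (hMN hn)
        rwa [mul_inv_cancel_left] at this
      have hKx : ∀ n ∈ N, x * n * x⁻¹ * n⁻¹ ∈ K := fun n hn =>
        Subgroup.mem_comap.2 ⟨⟨n, hn⟩, rfl⟩
      have hMK : M ≤ K := fun m hm => Subgroup.mem_comap.2 (by
        rw [QuotientGroup.mk'_apply, (QuotientGroup.eq_one_iff m).2 hm]; exact φ.range.one_mem)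
      have hnorm : N ⊔ Subgroup.zpowers x ≤ Subgroup.normalizer (K : Set P) := by
        refine sup_le ?_ ?_
        · intro n hn
          rw [Subgroup.mem_normalizer_iff]
          intro k
          have aux : ∀ a ∈ N, ∀ b ∈ K, a * b * a⁻¹ ∈ K := by
            intro a ha b hb
            have : a * b * a⁻¹ = ⁅a, b⁆ * b := by simp [commutatorElement_def]
            rw [this]
            exact K.mul_mem (hMK (hM a ha b (hKN hb))) hb
          refine ⟨aux n hn k, fun h => ?_⟩
          have := aux n⁻¹ (N.inv_mem hn) _ h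
          simpa [mul_assoc] using this
        · rw [Subgroup.zpowers_le, Subgroup.mem_normalizer_iff]
          have aux : ∀ b ∈ K, x * b * x⁻¹ ∈ K := by
            intro b hb
            have : x * b * x⁻¹ = (x * b * x⁻¹ * b⁻¹) * b := by group
            rw [this]
            exact K.mul_mem (hKx b (hKN hb)) hb
          intro k
          refine ⟨aux k, fun h => ?_⟩
          have hk : k ∈ N := by
            have := hNn.conj_mem _ (hKN h) x⁻¹
            simpa [mul_assoc] using this
          have : k = (x * k * x⁻¹ * k⁻¹)⁻¹ * (x * k * x⁻¹) := by group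
          rw [this]
          exact K.mul_mem (K.inv_mem (hKx k hk)) h
      rw [hsup] at hnorm
      haveI hKn : K.Normal := ⟨fun k hk g => ((Subgroup.mem_normalizer_iff.1 (hnorm (Subgroup.mem_top g))) k).1 hk⟩
      let q := QuotientGroup.mk' K
      have qc : ∀ a b : P, ⁅a, b⁆ ∈ K → q a * q b = q b * q a := by
        intro a b h
        rw [← commutatorElement_eq_one_iff_mul_comm, ← map_commutatorElement]
        exact (QuotientGroup.eq_one_iff _).2 h
      have hx : ∀ g : P, q x * q g = q g * q x := by
        intro g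
        have hle : N ⊔ Subgroup.zpowers x ≤ (Subgroup.centralizer {q x}).comap q := by
          refine sup_le (fun n hn => ?_) (Subgroup.zpowers_le.2 ?_)
          · exact Subgroup.mem_comap.2 (Subgroup.mem_centralizer_singleton_iff.2 (qc x n (hKx n hn)).symm)
          · exact Subgroup.mem_comap.2 (Subgroup.mem_centralizer_singleton_iff.2 rfl)
        exact (Subgroup.mem_centralizer_singleton_iff.1 (hle (hsup ▸ Subgroup.mem_top g))).symm
      have hn' : ∀ n ∈ N, ∀ g : P, q n * q g = q g * q n := by
        intro n hn g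
        have hle : N ⊔ Subgroup.zpowers x ≤ (Subgroup.centralizer {q n}).comap q := by
          refine sup_le (fun m hm => ?_) (Subgroup.zpowers_le.2 ?_)
          · exact Subgroup.mem_comap.2 (Subgroup.mem_centralizer_singleton_iff.2
              (qc m n (hMK (hM m hm n hn))))
          · exact Subgroup.mem_comap.2 (Subgroup.mem_centralizer_singleton_iff.2 (hx n))
        exact (Subgroup.mem_centralizer_singleton_iff.1 (hle (hsup ▸ Subgroup.mem_top g))).symm
      rw [commutator_def, Subgroup.commutator_le]
      intro a _ b _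
      have hle : N ⊔ Subgroup.zpowers x ≤ (Subgroup.centralizer {q b}).comap q := by
        refine sup_le (fun m hm => ?_) (Subgroup.zpowers_le.2 ?_)
        · exact Subgroup.mem_comap.2 (Subgroup.mem_centralizer_singleton_iff.2 (hn' m hm b))
        · exact Subgroup.mem_comap.2 (Subgroup.mem_centralizer_singleton_iff.2 (hx b))
      have h := Subgroup.mem_centralizer_singleton_iff.1 (hle (hsup ▸ Subgroup.mem_top a))
      rw [← commutatorElement_eq_one_iff_mul_comm, ← map_commutatorElement] at h
      exact (QuotientGroup.eq_one_iff _).1 h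
  have hidx : (commutator P).index = φ.range.index := by
    rw [← hK]; exact φ.range.index_comap_of_surjective (QuotientGroup.mk'_surjective M)
  have e1 : φ.range.index * Nat.card φ.range = M.index := φ.range.index_mul_card
  have e2 : M.index * Nat.card M = Nat.card P := M.index_mul_card
  have e3 : N.index * Nat.card N = Nat.card P := N.index_mul_card
  have hpos : 0 < Nat.card φ.range := Nat.card_pos
  rw [← hker, hidx]
  apply Nat.eq_of_mul_eq_mul_right hpos
  calc N.index * Nat.card φ.ker * Nat.card φ.range = N.index * Nat.card N := by rw [hN, mul_assoc]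
    _ = M.index * Nat.card M := by rw [e3, e2]
    _ = Nat.card M * φ.range.index * Nat.card φ.range := by rw [← e1]; ring

/-- Let p be a prime, P a finite p-group and N a normal subgroup of P of index p. For x ∈ P write c(x) for the number of elements n of N whose commutator x n x⁻¹ n⁻¹ lies in the derived subgroup N' (so c(x)/#N' is the order of the centralizer of x acting on N/N'). Then [P : P'] = p² if and only if c(x) = p·#N' for every x ∈ P outside N, and also if and only if c(x) = p·#N' for some x ∈ P outside N. -/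
theorem result {P : Type*} [Group P] [Finite P] (p : ℕ) [Fact p.Prime] (hP : IsPGroup p P) (N : Subgroup P) [N.Normal] (hN : N.index = p) :
    ((commutator P).index = p ^ 2 ↔ ∀ x : P, x ∉ N →
        Nat.card {n : N // x * n * x⁻¹ * (n : P)⁻¹ ∈ (commutator N).map N.subtype} = p * Nat.card (commutator N)) ∧
    ((commutator P).index = p ^ 2 ↔ ∃ x : P, x ∉ N ∧
        Nat.card {n : N // x * n * x⁻¹ * (n : P)⁻¹ ∈ (commutator N).map N.subtype} = p * Nat.card (commutator N)) := by
  classical
  have hp : p.Prime := Fact.out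
  let M := (commutator N).map N.subtype
  have hMeq : M = ⁅N, N⁆ := Subgroup.map_subtype_commutator N
  haveI : M.Normal := by rw [hMeq]; infer_instance
  have hMN : M ≤ N := Subgroup.map_subtype_le _
  have hM : ∀ a ∈ N, ∀ b ∈ N, ⁅a, b⁆ ∈ M := fun a ha b hb => by
    rw [hMeq]; exact Subgroup.commutator_mem_commutator ha hb
  have hMc : M ≤ commutator P := by
    rw [hMeq, commutator_def]; exact Subgroup.commutator_mono le_top le_top
  have hcard : Nat.card M = Nat.card (commutator N) := Subgroup.card_subtype N (commutator N)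
  have hne : N ≠ ⊤ := fun h => by rw [h, Subgroup.index_top] at hN; exact hp.one_lt.ne hN
  have main : ∀ x : P, x ∉ N → ((commutator P).index = p ^ 2 ↔
      Nat.card {n : N // x * n * x⁻¹ * (n : P)⁻¹ ∈ M} = p * Nat.card (commutator N)) := by
    intro x hx
    have hsup : N ⊔ Subgroup.zpowers x = ⊤ := by
      rcases hp.eq_one_or_self_of_dvd _ (hN ▸ Subgroup.index_dvd_of_le (le_sup_left : N ≤ N ⊔ Subgroup.zpowers x)) with h | h
      · exact Subgroup.index_eq_one.1 h
      · have hlt : N < N ⊔ Subgroup.zpowers x :=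
          lt_of_le_of_ne le_sup_left fun e => hx (e ▸ Subgroup.mem_sup_right (Subgroup.mem_zpowers x))
        exact absurd (Subgroup.index_strictAnti hlt) (by rw [h, hN]; exact lt_irrefl p)
    have k := key N M hMN hM hMc x hsup
    rw [hN, hcard] at k
    constructor
    · intro h
      rw [h] at k
      exact Nat.eq_of_mul_eq_mul_left hp.pos (by rw [k]; ring)
    · intro h
      rw [h] at k
      exact Nat.eq_of_mul_eq_mul_left (Nat.card_pos : 0 < Nat.card (commutator N)) (by rw [← k]; ring)
  obtain ⟨x₀, -, hx₀⟩ := SetLike.exists_of_lt (lt_top_iff_ne_top.2 hne)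
  exact ⟨⟨fun h x hx => (main x hx).1 h, fun h => (main x₀ hx₀).2 (h x₀ hx₀)⟩,
    ⟨fun h => ⟨x₀, hx₀, (main x₀ hx₀).1 h⟩, fun ⟨x, hx, h⟩ => (main x hx).2 h⟩⟩


end Cfsg.Agent.S4586
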