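import Cfsg.Statements.S4591
import Cfsg.Agent.Lib.BlockGlauberman
import Cfsg.Agent.Lib.BlockCoprimeExt
import Cfsg.Agent.Lib.BlockShortFacts
import Cfsg.Agent.Lib.CharMisc
import Cfsg.Agent.Lib.CharNormal
import Cfsg.Agent.Lib.CharFrobenius
import Cfsg.Agent.Lib.CoreTransfer
import Cfsg.Agent.Lib.CorePGroup
import Cfsg.Agent.Lib.BlockInflate
import Cfsg.Agent.Lib.BlockPrincipal
import Cfsg.Agent.Lib.CharGallagher
import Cfsg.Agent.Lib.PermRelIndexNormal
-- import your own Cfsg.Agent.* helpers here

set_option autoImplicit false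
open Cfsg
open scoped commutatorElement

namespace Cfsg.Agent.S4591

open CfsgLib.Block CfsgLib.Char CfsgLib.Glauberman
open scoped Classical ComplexConjugate

universe u

variable {G : Type u} [Group G] [Fintype G] {p : ℕ} [Fact p.Prime]

/-- The conjugation action of a subgroup on a normal subgroup. -/
noncomputable def act (P : Subgroup G) (L : Subgroup G) [L.Normal] : P →* MulAut L :=
  (MulAut.conjNormal (H := L)).comp P.subtype

theorem coe_fix_iff (P L : Subgroup G) [L.Normal] (l : L) :
    l ∈ fix (act P L) ↔ (l : G) ∈ Subgroup.centralizer (P : Set G) := by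
  rw [mem_fix, Subgroup.mem_centralizer_iff]
  constructor
  · intro h x hx
    have h1 := congrArg Subtype.val (h ⟨x, hx⟩)
    simp only [act, MonoidHom.comp_apply, Subgroup.coe_subtype, MulAut.conjNormal_apply] at h1
    exact mul_inv_eq_iff_eq_mul.1 h1
  · intro h x
    refine Subtype.ext ?_
    simp only [act, MonoidHom.comp_apply, Subgroup.coe_subtype, MulAut.conjNormal_apply]
    rw [h x x.2, mul_inv_cancel_right]

theorem fix_eq_bot (P L : Subgroup G) [L.Normal] (h : L ⊓ Subgroup.centralizer (P : Set G) = ⊥) :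
    fix (act P L) = ⊥ := by
  rw [eq_bot_iff]
  intro l hl
  have h1 : (l : G) ∈ L ⊓ Subgroup.centralizer (P : Set G) :=
    Subgroup.mem_inf.2 ⟨l.2, (coe_fix_iff P L l).1 hl⟩
  rw [h, Subgroup.mem_bot] at h1
  rw [Subgroup.mem_bot]
  exact Subtype.ext h1

omit [Fact p.Prime] in
/-- A character of degree prime to `p` lying over a given one. -/
theorem exists_pprime_over (hp : p.Prime) (H : Subgroup G) [Fintype H] (η : IrrCharacter H)
    (hH : ¬ p ∣ H.index) (hη : ¬ p ∣ charDegree (η : H → ℂ)) :
    ∃ χ : IrrCharacter G, ¬ p ∣ charDegree (χ : G → ℂ) ∧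
      classInner (fun h : H => (χ : G → ℂ) h) (η : H → ℂ) ≠ 0 := by
  have hind := isCharacter_indFun (G := G) η.2.isCharacter'
  choose c hc using fun χ : IrrCharacter G => inner_character_nat hind χ.2.isCharacter'
  have h1 := congrFun (classFunction_eq_sum _ (isCharacter_classFunction hind)) 1
  simp only [indFun_one_apply, Finset.sum_apply, Pi.smul_apply, smul_eq_mul, hc,
    ← charDegree_cast η.2.isCharacter',
    ← charDegree_cast (IsIrrCharacter.isCharacter' (Subtype.prop _))] at h1
  have h2 : H.index * charDegree (η : H → ℂ) = ∑ χ, c χ * charDegree (χ : G → ℂ) := by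
    exact_mod_cast h1
  by_contra hcon
  push Not at hcon
  have h3 : p ∣ H.index * charDegree (η : H → ℂ) := by
    rw [h2]
    refine Finset.dvd_sum fun χ _ => ?_
    by_cases hd : p ∣ charDegree (χ : G → ℂ)
    · exact dvd_mul_of_dvd_right hd _
    · have h0 : classInner (indFun H (η : H → ℂ)) (χ : G → ℂ) = 0 := by
        rw [CfsgLib.Char.frobenius _ _ (isCharacter_classFunction χ.2.isCharacter'), ← CfsgLib.Char.inner_conj_symm,
          hcon χ hd, map_zero]
      rw [hc, Nat.cast_eq_zero] at h0
      rw [h0, zero_mul]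
      exact dvd_zero p
  exact (hp.dvd_mul.1 h3).elim hH hη

/-- Constituents of a restriction are trivial on the kernel. -/
theorem apply_of_over (H : Subgroup G) [Fintype H] (χ : IrrCharacter G) (η : IrrCharacter H)
    (h : classInner (fun x : H => (χ : G → ℂ) x) (η : H → ℂ) ≠ 0) {x : H}
    (hx : (χ : G → ℂ) x = (χ : G → ℂ) 1) : (η : H → ℂ) x = (η : H → ℂ) 1 :=
  constituent_ker (isCharacter_restrict χ.2.isCharacter' H) η.2 h hx

/-- A normal subgroup whose sum is nonzero lies in the kernel. -/
theorem le_ker_of_sum_ne_zero (χ : IrrCharacter G) (L : Subgroup G) [L.Normal]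
    (h : ∑ l : L, (χ : G → ℂ) l ≠ 0) : ∀ l ∈ L, (χ : G → ℂ) l = (χ : G → ℂ) 1 := by
  intro l hl
  obtain ⟨n, ρ, hρi, hρ⟩ := χ.2
  haveI := hρi
  set A : Module.End ℂ (Fin n → ℂ) := ∑ a : L, ρ (a : G)
  have hA : ∀ x : G, A * ρ x = ρ x * A := by
    intro x
    simp only [A, Finset.sum_mul, Finset.mul_sum, ← map_mul]
    refine Fintype.sum_equiv (MulAut.conjNormal x⁻¹ : L ≃* L).toEquiv _ _ fun a => ?_
    rw [MulEquiv.toEquiv_eq_coe, EquivLike.coe_coe, MulAut.conjNormal_apply]
    simp [mul_assoc]
  obtain ⟨s, hs⟩ := schur_scalar (ρ := ρ) A hA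
  have hs0 : s ≠ 0 := fun h0 => h (by
    have h2 : LinearMap.trace ℂ _ A = ∑ a : L, (χ : G → ℂ) a := by
      simp only [A, map_sum, ← hρ]
      rfl
    rw [← h2, hs, h0, zero_smul, map_zero])
  have h1 : ρ l * A = A := by
    simp only [A, Finset.mul_sum, ← map_mul]
    exact Fintype.sum_equiv (Equiv.mulLeft (⟨l, hl⟩ : L)) _ _ fun a => by simp
  rw [hs, mul_smul_comm, mul_one] at h1
  rw [← hρ]
  show LinearMap.trace ℂ _ (ρ l) = LinearMap.trace ℂ _ (ρ 1)
  rw [map_one, smul_right_injective _ hs0 h1]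

/-- A normal subgroup on which the Sylow subgroup acts without fixed points lies in the kernel
of every character of degree prime to `p`. -/
theorem fpf_le_ker (P : Sylow p G) (L : Subgroup G) [L.Normal]
    (hL : L ⊓ Subgroup.centralizer ((P : Subgroup G) : Set G) = ⊥) :
    ¬ p ∣ Nat.card L ∧ ∀ χ : IrrCharacter G, ¬ p ∣ charDegree (χ : G → ℂ) →
      ∀ l ∈ L, (χ : G → ℂ) l = (χ : G → ℂ) 1 := by
  have hfix := fix_eq_bot (P : Subgroup G) L hL
  have hmod : Nat.card L ≡ 1 [MOD p] := by
    have h := card_modEq (G := L) (φ := act (P : Subgroup G) L) P.isPGroup'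
    rwa [hfix, Subgroup.card_bot] at h
  have hnd : ¬ p ∣ Nat.card L := fun h => (Fact.out : p.Prime).ne_one (Nat.dvd_one.1
    ((Nat.modEq_zero_iff_dvd).1 (hmod.symm.trans (Nat.modEq_zero_iff_dvd.2 h))))
  refine ⟨hnd, fun χ hχ => le_ker_of_sum_ne_zero χ L fun h0 => hχ ?_⟩
  obtain ⟨M, hM⟩ := exists_isPModular (Fact.out : p.Prime)
  let F : L → ResField M := fun l => res hM ⟨(χ : G → ℂ) l, irr_mem hM χ l⟩
  have h := sum_fixed (G := L) (φ := act (P : Subgroup G) L) P.isPGroup' hM F fun x l => by
    refine congrArg (res hM) (Subtype.ext ?_)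
    show (χ : G → ℂ) ((x : G) * l * (x : G)⁻¹) = _
    exact irr_classFunction χ _ _
  have hsub : ∑ c : fix (act (P : Subgroup G) L), F c = F 1 := by
    rw [Finset.sum_eq_single (1 : fix (act (P : Subgroup G) L))]
    · rfl
    · intro c _ hc
      refine absurd (Subtype.ext ?_) hc
      exact Subgroup.mem_bot.1 (le_of_eq hfix c.2)
    · exact fun h => absurd (Finset.mem_univ _) h
  rw [hsub, ← map_sum] at h
  have h2 : (∑ l : L, (⟨(χ : G → ℂ) l, irr_mem hM χ l⟩ : locRing hM)) = 0 := Subtype.ext (by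
    rw [AddSubmonoidClass.coe_finsetSum]; exact h0)
  rw [h2, map_zero] at h
  refine (res_natCast_eq_zero_iff hM _).1 ?_
  rw [h]
  exact congrArg (res hM) (Subtype.ext (by simp [charDegree_cast χ.2.isCharacter']))

/-- Conversely, the kernel of the characters of degree prime to `p` has no normal `p'`-subgroup
with fixed points. -/
theorem fix_of_ker (P : Sylow p G) (L : Subgroup G) [hLn : L.Normal] (hnd : ¬ p ∣ Nat.card L)
    (hker : ∀ χ : IrrCharacter G, ¬ p ∣ charDegree (χ : G → ℂ) →
      ∀ l ∈ L, (χ : G → ℂ) l = (χ : G → ℂ) 1) :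
    L ⊓ Subgroup.centralizer ((P : Subgroup G) : Set G) = ⊥ := by
  haveI : Fintype L := Fintype.ofFinite _
  have hp : p.Prime := Fact.out
  by_contra hne
  set φ := act (P : Subgroup G) L with hφ
  haveI : Nontrivial (fix φ) := by
    rw [Subgroup.nontrivial_iff_ne_bot]
    intro hb
    refine hne (eq_bot_iff.2 fun x hx => ?_)
    obtain ⟨hxL, hxC⟩ := Subgroup.mem_inf.1 hx
    have h1 : (⟨x, hxL⟩ : L) ∈ fix φ := (coe_fix_iff _ L _).2 hxC
    rw [hb, Subgroup.mem_bot] at h1
    rw [Subgroup.mem_bot]
    exact congrArg Subtype.val h1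
  obtain ⟨M, hM⟩ := exists_isPModular hp
  obtain ⟨θ, hθ, hθ1⟩ : ∃ θ : IrrCharacter L, Inv φ (θ : L → ℂ) ∧ θ ≠ trivIrr L := by
    by_contra hcon
    push Not at hcon
    haveI : Subsingleton {θ : IrrCharacter L // Inv φ (θ : L → ℂ)} :=
      ⟨fun a b => Subtype.ext ((hcon a a.2).trans (hcon b b.2).symm)⟩
    have h := card_invariant (φ := φ) P.isPGroup' hnd hM
    haveI : Fintype (fix φ) := Fintype.ofFinite _
    rw [card_irrCharacter] at h
    have h2 : 1 < Nat.card (ConjClasses (fix φ)) := by
      obtain ⟨a, ha⟩ := exists_ne (1 : fix φ)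
      haveI : Nontrivial (ConjClasses (fix φ)) := ⟨ConjClasses.mk a, ConjClasses.mk 1, fun e =>
        ha (isConj_one_left.1 (ConjClasses.mk_eq_mk_iff_isConj.1 e))⟩
      exact Finite.one_lt_card
    have h3 := Finite.card_le_one_iff_subsingleton.2
      (inferInstance : Subsingleton {θ : IrrCharacter L // Inv φ (θ : L → ℂ)})
    omega
  set H := L ⊔ (P : Subgroup G) with hH
  haveI : Fintype H := Fintype.ofFinite _
  have hLH : L ≤ H := le_sup_left
  set L' := L.subgroupOf H
  haveI : Fintype L' := Fintype.ofFinite _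
  let e : L' ≃* L := Subgroup.subgroupOfEquivOfLe hLH
  let θ' : L' → ℂ := fun l => (θ : L → ℂ) (e l)
  have hθ'irr : IsIrrCharacter L' θ' :=
    isIrrCharacter_comp_surjective θ.2 e.toMonoidHom e.surjective
  have hinert : H ≤ inertia (θ : L → ℂ) := by
    refine sup_le (le_inertia (isCharacter_classFunction θ.2.isCharacter')) fun x hx => ?_
    rw [mem_inertia]
    funext l
    show _ = (θ : L → ℂ) l
    rw [← hθ ⟨x, hx⟩ l]
    rfl
  have hinv : ∀ (g : H) (n : L'), θ' ⟨g * n * g⁻¹,
      (inferInstance : L'.Normal).conj_mem (n : H) n.2 g⟩ = θ' n := by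
    intro g n
    have h1 := congrFun (mem_inertia.1 (hinert g.2)) (e n)
    exact h1
  have hidx : ∃ k, L'.index = p ^ k := by
    obtain ⟨k, hk⟩ := P.isPGroup'.exists_card_eq
    refine ⟨k, ?_⟩
    show L.relIndex H = p ^ k
    rw [hH, sup_comm, Subgroup.relIndex_sup_right, ← Subgroup.inf_relIndex_right]
    have hdisj : L ⊓ (P : Subgroup G) = ⊥ := by
      rw [← Subgroup.card_eq_one]
      refine Nat.eq_one_of_dvd_coprimes ?_ (Subgroup.card_dvd_of_le inf_le_left)
        ((Subgroup.card_dvd_of_le inf_le_right).trans hk.dvd)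
      exact (hp.coprime_iff_not_dvd.2 hnd).symm.pow_right k
    rw [hdisj, Subgroup.relIndex_bot_left, hk]
  have hcardL' : Nat.card L' = Nat.card L := Nat.card_congr e.toEquiv
  obtain ⟨k, hk⟩ := hidx
  have hcop : (Nat.card L').Coprime L'.index := by
    rw [hcardL', hk]
    exact (hp.coprime_iff_not_dvd.2 hnd).symm.pow_right k
  have hco : Nat.Coprime L'.index (detOrder θ' * charDegree θ') :=
    Nat.Coprime.mul_right (hcop.symm.coprime_dvd_right (detOrder_dvd_card hθ'irr.isCharacter'))
      (hcop.symm.coprime_dvd_right (charDegree_dvd_card ⟨θ', hθ'irr⟩))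
  obtain ⟨η, ⟨hη, hηres, -⟩, -⟩ := canonical_extension L' hθ'irr hinv
    (charDegree_cast hθ'irr.isCharacter').symm hco
  have hHidx : ¬ p ∣ H.index := fun h =>
    P.not_dvd_index (h.trans (Subgroup.index_dvd_of_le le_sup_right))
  have hηd : ¬ p ∣ charDegree η := by
    have h1 : charDegree η = charDegree θ' := by
      unfold charDegree
      rw [show η 1 = θ' 1 from hηres 1]
    rw [h1]
    exact fun h => hnd (hcardL' ▸ h.trans (charDegree_dvd_card ⟨θ', hθ'irr⟩))
  obtain ⟨χ, hχ, hover⟩ := exists_pprime_over hp H ⟨η, hη⟩ hHidx hηd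
  apply hθ1
  refine Subtype.ext (funext fun l => ?_)
  have h1 : η ⟨(l : G), hLH l.2⟩ = η 1 :=
    apply_of_over H χ ⟨η, hη⟩ hover (hker χ hχ l l.2)
  have h2 : η ⟨(l : G), hLH l.2⟩ = (θ : L → ℂ) l := by
    have := hηres (e.symm l)
    simp only [θ', MulEquiv.apply_symm_apply] at this
    exact this
  have h3 : η 1 = (θ : L → ℂ) 1 := by
    have := hηres 1
    simp only [θ', map_one] at this
    exact this
  rw [h2, h3] at h1
  rw [h1]
  -- the character is constant, hence trivial
  have hconst : ∀ m : L, (θ : L → ℂ) m = (θ : L → ℂ) 1 := fun m => by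
    have a1 : η ⟨(m : G), hLH m.2⟩ = η 1 :=
      apply_of_over H χ ⟨η, hη⟩ hover (hker χ hχ m m.2)
    have a2 : η ⟨(m : G), hLH m.2⟩ = (θ : L → ℂ) m := by
      have := hηres (e.symm m)
      simp only [θ', MulEquiv.apply_symm_apply] at this
      exact this
    rw [← a2, a1, h3]
  have hn := irr_inner_self θ.2
  simp only [classInner, hconst, irr_conj_one, Finset.sum_const, Finset.card_univ, nsmul_eq_mul,
    ← Nat.card_eq_fintype_card] at hn
  rw [inv_mul_cancel_left₀ (natCard_ne_zero L), ← charDegree_cast θ.2.isCharacter',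
    ← Nat.cast_mul, Nat.cast_eq_one] at hn
  rw [← charDegree_cast θ.2.isCharacter', Nat.eq_one_of_mul_eq_one_right hn, Nat.cast_one]
  rfl


/-- Let G be a finite group, p a prime and P a Sylow p-subgroup, and let N be the largest normal subgroup of G in which P has trivial centralizer (N is normal with C_N(P) = 1 and contains every normal subgroup with that property). Then the intersection of the kernels of the irreducible characters of G of degree prime to p is the normal core in G of the subgroup N·P' (P' the derived subgroup of P). In particular, when G has no nontrivial normal subgroup of order prime to p, that intersection is the normal core of P'. -/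
theorem result {G : Type*} [Group G] [Finite G] (p : ℕ) [Fact p.Prime] (P : Sylow p G) (N : Subgroup G) [N.Normal]
    (hN : N ⊓ Subgroup.centralizer ((P : Subgroup G) : Set G) = ⊥)
    (hmax : ∀ L : Subgroup G, L.Normal → L ⊓ Subgroup.centralizer ((P : Subgroup G) : Set G) = ⊥ → L ≤ N) :
    {g : G | ∀ χ : Cfsg.IrrCharacter G, ¬ p ∣ Cfsg.charDegree (χ : G → ℂ) → (χ : G → ℂ) g = (χ : G → ℂ) 1} =
      ((N ⊔ ⁅(P : Subgroup G), (P : Subgroup G)⁆).normalCore : Set G) := by
  classical
  have : Fintype G := Fintype.ofFinite G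
  have hp : p.Prime := Fact.out
  obtain ⟨hNnd, hNker⟩ := fpf_le_ker P N hN
  set D := ⁅(P : Subgroup G), (P : Subgroup G)⁆ with hD
  set L := (N ⊔ D).normalCore with hLdef
  have hDP : D ≤ (P : Subgroup G) := Subgroup.commutator_le.2 fun a ha b hb => by
    rw [commutatorElement_def]
    exact mul_mem (mul_mem (mul_mem ha hb) (inv_mem ha)) (inv_mem hb)
  -- the characters of degree prime to p and their common kernel
  set K : Subgroup G := ⨅ (χ : IrrCharacter G) (_ : ¬ p ∣ charDegree (χ : G → ℂ)),
    charKer χ.2.isCharacter' with hKdef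
  have hKmem : ∀ g : G, g ∈ K ↔ ∀ χ : IrrCharacter G, ¬ p ∣ charDegree (χ : G → ℂ) →
      (χ : G → ℂ) g = (χ : G → ℂ) 1 := fun g => by
    simp only [hKdef, Subgroup.mem_iInf]
    exact Iff.rfl
  haveI hKn : K.Normal := ⟨fun x hx g => (hKmem _).2 fun χ hχ => by
    rw [irr_classFunction χ x g]; exact (hKmem x).1 hx χ hχ⟩
  suffices hKL : K = L by
    ext g
    rw [SetLike.mem_coe, ← hKL, hKmem]
    rfl
  refine le_antisymm ?_ ?_
  · -- the intersection with the Sylow subgroup
    haveI : Fintype (P : Subgroup G) := Fintype.ofFinite _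
    have hKP : K ⊓ (P : Subgroup G) ≤ D := by
      intro g hg
      obtain ⟨hgK, hgP⟩ := Subgroup.mem_inf.1 hg
      by_contra hgD
      set P0 := (P : Subgroup G)
      set C := commutator P0 with hC
      have hgC : (⟨g, hgP⟩ : P0) ∉ C := fun h => hgD (by
        have h2 : ((⟨g, hgP⟩ : P0) : G) ∈ C.map P0.subtype := Subgroup.mem_map_of_mem _ h
        rw [hC, commutator_def, Subgroup.map_commutator, ← MonoidHom.range_eq_map,
          Subgroup.range_subtype] at h2
        exact h2)
      haveI : Fintype (P0 ⧸ C) := Fintype.ofFinite _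
      have hab : ∀ a b : P0 ⧸ C, a * b = b * a := by
        intro a b
        obtain ⟨a, rfl⟩ := QuotientGroup.mk_surjective a
        obtain ⟨b, rfl⟩ := QuotientGroup.mk_surjective b
        rw [← QuotientGroup.mk_mul, ← QuotientGroup.mk_mul, QuotientGroup.eq]
        rw [show (a * b)⁻¹ * (b * a) = ⁅b⁻¹, a⁻¹⁆ by simp [commutatorElement_def, mul_assoc]]
        exact Subgroup.commutator_mem_commutator (Subgroup.mem_top _) (Subgroup.mem_top _)
      have hnc : ¬ IsConj ((⟨g, hgP⟩ : P0) : P0 ⧸ C) 1 := fun h =>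
        hgC ((QuotientGroup.eq_one_iff _).1 (isConj_one_left.1 h))
      rw [isConj_iff_irr_eq] at hnc
      push Not at hnc
      obtain ⟨ξ, hξ⟩ := hnc
      let lam : IrrCharacter P0 := inflate C ξ
      have hlam1 : (lam : P0 → ℂ) 1 = 1 := irr_degree_one_of_comm hab ξ.2
      have hlamd : charDegree (lam : P0 → ℂ) = 1 := by
        have h := charDegree_cast lam.2.isCharacter'
        rw [hlam1] at h
        exact_mod_cast h
      obtain ⟨χ, hχ, hover⟩ := exists_pprime_over hp P0 lam P.not_dvd_index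
        (by rw [hlamd]; exact hp.not_dvd_one)
      exact hξ (apply_of_over P0 χ lam hover (x := ⟨g, hgP⟩) ((hKmem g).1 hgK χ hχ))
    have hfrat : K ⊓ (P : Subgroup G) ≤
        (frattini ↥(P : Subgroup G)).map (P : Subgroup G).subtype := by
      refine hKP.trans ?_
      rw [hD, show ⁅(P : Subgroup G), (P : Subgroup G)⁆ =
          (commutator ↥(P : Subgroup G)).map (P : Subgroup G).subtype by
        rw [commutator_def, Subgroup.map_commutator, ← MonoidHom.range_eq_map,
          Subgroup.range_subtype]]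
      exact Subgroup.map_mono (CfsgLib.Core.pgroup_commutator_le_frattini P.isPGroup')
    obtain ⟨M₀, hM₀n, hM₀c, k, hk⟩ :=
      CfsgLib.Core.hasNormalPComplement_iff.1 (CfsgLib.Core.tate P hfrat)
    set M := (pPrimeCore p K).map K.subtype with hMdef
    haveI : (pPrimeCore p K).Characteristic := CfsgLib.Core.characteristic_pPrimeCore p
    haveI hMn : M.Normal := inferInstance
    have hMK : M ≤ K := Subgroup.map_subtype_le _
    have hMnd : ¬ p ∣ Nat.card M := by
      rw [Nat.card_congr ((pPrimeCore p K).equivMapOfInjective _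
        (Subgroup.subtype_injective _)).toEquiv.symm]
      exact CfsgLib.Core.not_dvd_card_pPrimeCore p
    have hMfix := fix_of_ker P M hMnd fun χ hχ l hl => (hKmem l).1 (hMK hl) χ hχ
    have hMN : M ≤ N := hmax M hMn hMfix
    have hKle : K ≤ M ⊔ (K ⊓ (P : Subgroup G)) := by
      intro g hg
      have hidx : ∃ j, (pPrimeCore p K).index = p ^ j := by
        obtain ⟨j, -, hj⟩ := (Nat.dvd_prime_pow hp).1
          (hk ▸ Subgroup.index_dvd_of_le (CfsgLib.Core.le_pPrimeCore hM₀n hM₀c) :
            (pPrimeCore p K).index ∣ p ^ k)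
        exact ⟨j, hj⟩
      obtain ⟨j, hj⟩ := hidx
      haveI : (pPrimeCore p K).Normal := CfsgLib.Core.normal_pPrimeCore p
      have hPK : ¬ p ∣ ((P : Subgroup G).subgroupOf K).index := fun h =>
        P.not_dvd_index (h.trans (CfsgLib.RelIdxNormal.relIndex_dvd_index (P : Subgroup G) K))
      have htop : pPrimeCore p K ⊔ (P : Subgroup G).subgroupOf K = ⊤ := by
        rw [← Subgroup.index_eq_one]
        refine Nat.eq_one_of_dvd_coprimes (a := p ^ j) (b := ((P : Subgroup G).subgroupOf K).index)
          ?_ ?_ (Subgroup.index_dvd_of_le le_sup_right)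
        · exact (hp.coprime_iff_not_dvd.2 hPK).pow_left j
        · exact hj ▸ Subgroup.index_dvd_of_le le_sup_left
      have hgt : (⟨g, hg⟩ : K) ∈ pPrimeCore p K ⊔ (P : Subgroup G).subgroupOf K := by
        rw [htop]; exact Subgroup.mem_top _
      have h := Subgroup.mem_map_of_mem K.subtype hgt
      rw [Subgroup.map_sup, Subgroup.subgroupOf_map_subtype, inf_comm] at h
      exact h
    exact (Subgroup.normal_le_normalCore).2 (hKle.trans (sup_le_sup hMN hKP))
  · intro g hg
    rw [hKmem]
    intro χ hχ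
    haveI : L.Normal := Subgroup.normalCore_normal _
    refine le_ker_of_sum_ne_zero χ L ?_ g hg
    set R := L ⊓ D with hR
    haveI : Fintype R := Fintype.ofFinite _
    haveI : Fintype N := Fintype.ofFinite _
    have hNL : N ≤ L := Subgroup.normal_le_normalCore.2 le_sup_left
    have hND : Disjoint N D := by
      rw [disjoint_iff, ← Subgroup.card_eq_one]
      obtain ⟨k, hk⟩ := P.isPGroup'.exists_card_eq
      exact Nat.eq_one_of_dvd_coprimes ((hp.coprime_iff_not_dvd.2 hNnd).symm.pow_right k)
        (Subgroup.card_dvd_of_le inf_le_left)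
        ((Subgroup.card_dvd_of_le (inf_le_right.trans hDP)).trans hk.dvd)
    let f : N × R → L := fun q => ⟨(q.1 : G) * (q.2 : G),
      mul_mem (hNL q.1.2) (Subgroup.mem_inf.1 q.2.2).1⟩
    have hfb : Function.Bijective f := by
      constructor
      · rintro ⟨a, b⟩ ⟨a', b'⟩ h
        have h1 : (a : G) * (b : G) = (a' : G) * (b' : G) := congrArg Subtype.val h
        have h2 : (a' : G)⁻¹ * (a : G) = (b' : G) * (b : G)⁻¹ := by
          rw [eq_mul_inv_iff_mul_eq, mul_assoc, h1, inv_mul_cancel_left]
        have h3 : (a' : G)⁻¹ * (a : G) = 1 := Subgroup.disjoint_def.1 hND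
          (mul_mem (inv_mem a'.2) a.2)
          (h2 ▸ mul_mem (Subgroup.mem_inf.1 b'.2).2 (inv_mem (Subgroup.mem_inf.1 b.2).2))
        rw [inv_mul_eq_one] at h3
        rw [h3] at h1
        exact Prod.ext (Subtype.ext h3.symm) (Subtype.ext (mul_left_cancel h1))
      · rintro ⟨l, hl⟩
        have hl2 : l ∈ N ⊔ D := Subgroup.normalCore_le _ hl
        obtain ⟨a, ha, b, hb, rfl⟩ := Subgroup.mem_sup_of_normal_left.1 hl2
        have hbL : b ∈ L := by
          simpa [← mul_assoc] using mul_mem (inv_mem (hNL ha)) hl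
        exact ⟨(⟨a, ha⟩, ⟨b, Subgroup.mem_inf.2 ⟨hbL, hb⟩⟩), rfl⟩
    have hNmul : ∀ (a : N) (b : G), (χ : G → ℂ) ((a : G) * b) = (χ : G → ℂ) b := by
      intro a b
      have h1 := char_mul_of_mem_ker χ.2.isCharacter'
        (hNker χ hχ (b⁻¹ * a * b) (by
          simpa using (inferInstance : N.Normal).conj_mem _ a.2 b⁻¹)) b
      rw [← h1]
      group
    rw [← Fintype.sum_bijective f hfb (fun q => (χ : G → ℂ) ((q.1 : G) * (q.2 : G)))
      (fun l : L => (χ : G → ℂ) l) (fun q => rfl), Fintype.sum_prod_type]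
    simp only [hNmul, Finset.sum_const, Finset.card_univ, nsmul_eq_mul, ← Finset.mul_sum]
    refine mul_ne_zero (Nat.cast_ne_zero.2 Fintype.card_ne_zero) ?_
    -- a linear constituent of the restriction to the Sylow subgroup
    haveI : Fintype (P : Subgroup G) := Fintype.ofFinite _
    have hres := isCharacter_restrict χ.2.isCharacter' (P : Subgroup G)
    choose c hc using fun η : IrrCharacter (P : Subgroup G) =>
      inner_character_nat hres η.2.isCharacter'
    obtain ⟨η, hηc, hη1⟩ : ∃ η : IrrCharacter (P : Subgroup G),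
        c η ≠ 0 ∧ charDegree (η : ↥(P : Subgroup G) → ℂ) = 1 := by
      by_contra hcon
      push Not at hcon
      apply hχ
      have h1 := congrFun (classFunction_eq_sum _ (isCharacter_classFunction hres)) 1
      simp only [Finset.sum_apply, Pi.smul_apply, smul_eq_mul, hc, Subgroup.coe_one,
        ← charDegree_cast χ.2.isCharacter',
        ← charDegree_cast (IsIrrCharacter.isCharacter' (Subtype.prop _))] at h1
      have h2 : charDegree (χ : G → ℂ) =
          ∑ η, c η * charDegree (η : ↥(P : Subgroup G) → ℂ) := by exact_mod_cast h1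
      rw [h2]
      refine Finset.dvd_sum fun η _ => ?_
      by_cases h0 : c η = 0
      · rw [h0, zero_mul]; exact dvd_zero p
      · obtain ⟨k, hk⟩ := P.isPGroup'.exists_card_eq
        obtain ⟨j, -, hj⟩ := (Nat.dvd_prime_pow hp).1 (hk ▸ charDegree_dvd_card η)
        rw [hj]
        refine dvd_mul_of_dvd_right (dvd_pow_self p fun hj0 => hcon η h0 ?_) _
        rw [hj, hj0, pow_zero]
    have hd1 : (η : ↥(P : Subgroup G) → ℂ) 1 = 1 := by
      rw [← charDegree_cast η.2.isCharacter', hη1, Nat.cast_one]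
    obtain ⟨lam, hlam⟩ := exists_hom_of_degree_one η.2.isCharacter' hd1
    have hRker : ∀ r : R, lam ⟨(r : G), hDP (Subgroup.mem_inf.1 r.2).2⟩ = 1 := by
      intro r
      refine Abelianization.commutator_subset_ker lam ?_
      have h1 : (r : G) ∈ (commutator ↥(P : Subgroup G)).map (P : Subgroup G).subtype := by
        rw [commutator_def, Subgroup.map_commutator, ← MonoidHom.range_eq_map,
          Subgroup.range_subtype]
        exact (Subgroup.mem_inf.1 r.2).2
      obtain ⟨w, hw, hw'⟩ := h1
      rw [show (⟨(r : G), hDP (Subgroup.mem_inf.1 r.2).2⟩ : ↥(P : Subgroup G)) = w from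
        Subtype.ext hw'.symm]
      exact hw
    -- real part
    intro h0
    set rP : R →* ↥(P : Subgroup G) :=
      Subgroup.inclusion (inf_le_right.trans hDP)
    have hcomp : IsCharacter R (fun r : R => (χ : G → ℂ) (r : G)) :=
      isCharacter_restrict χ.2.isCharacter' R
    have hone : classInner (fun r : R => (χ : G → ℂ) (r : G)) (fun _ => 1) = 0 := by
      simp only [classInner, map_one, mul_one, h0, mul_zero]
    have hdec := congrArg (fun f : ↥(P : Subgroup G) → ℂ => classInner (f ∘ rP) (fun _ : R => 1))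
      (classFunction_eq_sum _ (isCharacter_classFunction hres))
    have hlhs : classInner ((fun x : ↥(P : Subgroup G) => (χ : G → ℂ) x) ∘ rP)
        (fun _ : R => 1) = 0 := hone
    rw [hlhs] at hdec
    have hterm : ∀ ζ : IrrCharacter (P : Subgroup G), ∃ m : ℕ,
        classInner ((ζ : ↥(P : Subgroup G) → ℂ) ∘ rP) (fun _ : R => 1) = m := fun ζ =>
      inner_character_nat (isCharacter_comp ζ.2.isCharacter' rP) isCharacter_one
    choose m hm using hterm
    have hexp : classInner ((∑ ζ : IrrCharacter (P : Subgroup G),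
        classInner (fun x : ↥(P : Subgroup G) => (χ : G → ℂ) x) (ζ : ↥(P : Subgroup G) → ℂ) •
          (ζ : ↥(P : Subgroup G) → ℂ)) ∘ rP) (fun _ : R => 1) =
        ((∑ ζ, c ζ * m ζ : ℕ) : ℂ) := by
      rw [show (∑ ζ : IrrCharacter (P : Subgroup G),
        classInner (fun x : ↥(P : Subgroup G) => (χ : G → ℂ) x) (ζ : ↥(P : Subgroup G) → ℂ) •
          (ζ : ↥(P : Subgroup G) → ℂ)) ∘ rP = ∑ ζ : IrrCharacter (P : Subgroup G),
          (c ζ : ℂ) • ((ζ : ↥(P : Subgroup G) → ℂ) ∘ rP) from funext fun r => by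
        simp [Finset.sum_apply, hc], inner_sum_left]
      push_cast
      exact Finset.sum_congr rfl fun ζ _ => by rw [CfsgLib.Char.inner_smul_left, hm]
    rw [hexp] at hdec
    have hz : ∑ ζ, c ζ * m ζ = 0 := by exact_mod_cast hdec.symm
    have hmη : m η = 1 := by
      have h := hm η
      rw [hlam] at h
      simp only [classInner, Function.comp_apply, map_one, mul_one] at h
      rw [Finset.sum_congr rfl fun r _ => show ((lam (rP r) : ℂˣ) : ℂ) = 1 by
        rw [show rP r = ⟨(r : G), hDP (Subgroup.mem_inf.1 r.2).2⟩ from rfl, hRker r, Units.val_one],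
        Finset.sum_const, Finset.card_univ, nsmul_eq_mul, mul_one, ← Nat.card_eq_fintype_card,
        inv_mul_cancel₀ (natCard_ne_zero R)] at h
      exact_mod_cast h.symm
    have := Finset.sum_eq_zero_iff.1 hz η (Finset.mem_univ _)
    rw [hmη, mul_one] at this
    exact hηc this

end Cfsg.Agent.S4591
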