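import Cfsg.Statements.S4602
import Cfsg.Agent.Lib.CorePSolvable

set_option autoImplicit false
set_option maxHeartbeats 400000
open Cfsg

namespace Cfsg.Agent.S4602

/-- Let G be a finite p-solvable group and q a prime different from p. Some Sylow p-subgroup of G normalizes some Sylow q-subgroup of G if and only if q does not divide the order of G/O_{p'}(G), the quotient by the largest normal subgroup of order prime to p. -/
theorem result {G : Type*} [Group G] [Finite G] (p q : ℕ) [Fact p.Prime] [Fact q.Prime] (hpq : p ≠ q) (hsolv : Cfsg.IsPSolvable p G) :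
    (∃ (P : Sylow p G) (Q : Sylow q G), (P : Subgroup G) ≤ Subgroup.normalizer ((Q : Subgroup G) : Set G)) ↔ ¬ q ∣ (Cfsg.pPrimeCore p G).index := by
  classical
  have hp := (Fact.out : p.Prime)
  have hq := (Fact.out : q.Prime)
  haveI := CfsgLib.Core.normal_pPrimeCore (G := G) p
  constructor
  · rintro ⟨P, Q, hPQ⟩ hd
    have hs := CfsgLib.Core.isPSolvable_of_surjective (QuotientGroup.mk' (Cfsg.pPrimeCore p G))
      (QuotientGroup.mk'_surjective _) hsolv
    obtain ⟨Pb, hPb⟩ : ∃ Pb : Sylow p (G ⧸ Cfsg.pPrimeCore p G),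
        (Pb : Subgroup (G ⧸ Cfsg.pPrimeCore p G))
          = (P : Subgroup G).map (QuotientGroup.mk' (Cfsg.pPrimeCore p G)) :=
      ⟨P.mapSurjective (QuotientGroup.mk'_surjective _), rfl⟩
    have hle : (Q : Subgroup G) ≤ Cfsg.pPrimeCore p G := by
      intro y hy
      haveI := CfsgLib.Core.normal_pCore (G := G ⧸ Cfsg.pPrimeCore p G) p
      obtain ⟨Qb, hQb⟩ : ∃ Qb : Subgroup (G ⧸ Cfsg.pPrimeCore p G),
          Qb = (Q : Subgroup G).map (QuotientGroup.mk' (Cfsg.pPrimeCore p G)) := ⟨_, rfl⟩
      have hcop : Disjoint (Cfsg.pCore p (G ⧸ Cfsg.pPrimeCore p G)) Qb :=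
        IsPGroup.disjoint_of_ne p q hpq _ _
          (CfsgLib.Core.isPGroup_pCore p) (hQb ▸ Q.2.map _)
      have hyb : QuotientGroup.mk' (Cfsg.pPrimeCore p G) y ∈ Qb :=
        hQb ▸ Subgroup.mem_map_of_mem _ hy
      have hc : QuotientGroup.mk' (Cfsg.pPrimeCore p G) y
          ∈ Subgroup.centralizer (Cfsg.pCore p (G ⧸ Cfsg.pPrimeCore p G) : Set _) := by
        rw [Subgroup.mem_centralizer_iff]
        intro r hr
        obtain ⟨x, hx, hxr⟩ : ∃ x ∈ (P : Subgroup G),
            QuotientGroup.mk' (Cfsg.pPrimeCore p G) x = r := by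
          have := CfsgLib.Core.pCore_le_sylow Pb hr
          rw [hPb] at this
          exact this
        have hxy : x * y * x⁻¹ ∈ (Q : Subgroup G) :=
          (Subgroup.mem_normalizer_iff.1 (hPQ hx) y).1 hy
        have h1 : r * QuotientGroup.mk' (Cfsg.pPrimeCore p G) y * r⁻¹
            * (QuotientGroup.mk' (Cfsg.pPrimeCore p G) y)⁻¹ ∈ Qb := by
          rw [← hxr, ← map_inv, ← map_inv, ← map_mul, ← map_mul, ← map_mul, hQb]
          exact Subgroup.mem_map_of_mem _ (Subgroup.mul_mem _ hxy (Subgroup.inv_mem _ hy))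
        have h2 : r * QuotientGroup.mk' (Cfsg.pPrimeCore p G) y * r⁻¹
            * (QuotientGroup.mk' (Cfsg.pPrimeCore p G) y)⁻¹
              ∈ Cfsg.pCore p (G ⧸ Cfsg.pPrimeCore p G) := by
          rw [mul_assoc, mul_assoc, ← mul_assoc (QuotientGroup.mk' (Cfsg.pPrimeCore p G) y)]
          exact Subgroup.mul_mem _ hr
            (Subgroup.Normal.conj_mem inferInstance _ (Subgroup.inv_mem _ hr) _)
        have h3 := Subgroup.disjoint_def.1 hcop h2 h1
        rw [mul_inv_eq_one, mul_inv_eq_iff_eq_mul] at h3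
        exact h3
      have h4 := CfsgLib.Core.centralizer_pCore_le_of_isPSolvable hs
        (CfsgLib.Core.pPrimeCore_quotient_pPrimeCore p) hc
      exact (QuotientGroup.eq_one_iff y).1 (Subgroup.disjoint_def.1 hcop h4 hyb)
    exact Q.not_dvd_index (hd.trans (Subgroup.index_dvd_of_le hle))
  · intro hd
    obtain ⟨Q⟩ : Nonempty (Sylow q G) := inferInstance
    have hle : (Q : Subgroup G) ≤ Cfsg.pPrimeCore p G := by
      intro y hy
      have h1 : (QuotientGroup.mk' (Cfsg.pPrimeCore p G)) y = 1 := by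
        apply orderOf_eq_one_iff.1
        obtain ⟨k, hk⟩ := (IsPGroup.iff_orderOf.1 Q.2) ⟨y, hy⟩
        rw [Subgroup.orderOf_mk] at hk
        have h2 : orderOf (QuotientGroup.mk' (Cfsg.pPrimeCore p G) y) ∣ q ^ k :=
          hk ▸ orderOf_map_dvd _ y
        have h3 : orderOf (QuotientGroup.mk' (Cfsg.pPrimeCore p G) y)
            ∣ (Cfsg.pPrimeCore p G).index := orderOf_dvd_natCard _
        exact Nat.eq_one_of_dvd_coprimes (((hq.coprime_iff_not_dvd).2 hd).pow_left k) h2 h3
      exact (QuotientGroup.eq_one_iff y).1 h1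
    have htop : Subgroup.normalizer ((Q : Subgroup G) : Set G) ⊔ Cfsg.pPrimeCore p G = ⊤ :=
      Sylow.normalizer_sup_eq_top' Q hle
    have hidx : ¬ p ∣ (Subgroup.normalizer ((Q : Subgroup G) : Set G)).index := by
      intro h
      apply CfsgLib.Core.not_dvd_card_pPrimeCore (G := G) p
      refine h.trans ?_
      have e1 := Subgroup.card_mul_index (Cfsg.pPrimeCore p G)
      have e2 := Subgroup.card_mul_index (Subgroup.normalizer ((Q : Subgroup G) : Set G))
      have e3 : (Cfsg.pPrimeCore p G).index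
          = (Cfsg.pPrimeCore p G).relIndex (Subgroup.normalizer ((Q : Subgroup G) : Set G)) := by
        rw [← Subgroup.relIndex_top_right, ← htop, Subgroup.relIndex_sup_right]
      have e4 := Subgroup.card_mul_index
        ((Cfsg.pPrimeCore p G).subgroupOf (Subgroup.normalizer ((Q : Subgroup G) : Set G)))
      rw [← Subgroup.relIndex, ← e3] at e4
      rw [← e1, ← e4, mul_right_comm] at e2
      exact Dvd.intro_left _ (Nat.eq_of_mul_eq_mul_right
        (Nat.pos_of_ne_zero Subgroup.index_ne_zero_of_finite) e2)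
    obtain ⟨S⟩ : Nonempty (Sylow p (Subgroup.normalizer ((Q : Subgroup G) : Set G))) := inferInstance
    obtain ⟨P, hP⟩ := (S.2.map (Subgroup.normalizer ((Q : Subgroup G) : Set G)).subtype).exists_le_sylow
    refine ⟨P, Q, ?_⟩
    have heq : (S : Subgroup _).map (Subgroup.normalizer ((Q : Subgroup G) : Set G)).subtype
        = (P : Subgroup G) := by
      refine Subgroup.eq_of_le_of_card_ge hP ?_
      rw [Subgroup.card_map_of_injective (Subgroup.subtype_injective _),
        Sylow.card_eq_multiplicity, Sylow.card_eq_multiplicity,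
        ← Subgroup.card_mul_index (Subgroup.normalizer ((Q : Subgroup G) : Set G)),
        Nat.factorization_mul Nat.card_pos.ne' Subgroup.index_ne_zero_of_finite, Finsupp.add_apply,
        Nat.factorization_eq_zero_of_not_dvd hidx, add_zero]
    rw [← heq]
    exact Subgroup.map_subtype_le _

end Cfsg.Agent.S4602
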