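import Cfsg.Statements.S4604
import Cfsg.Agent.Lib.CharSection2
import Cfsg.Agent.Lib.BlockRegular
import Cfsg.Agent.Lib.CharPerm

set_option autoImplicit false
open Cfsg

namespace Cfsg.Agent.S4604

/-- Let G be a finite group, p a prime and p^a the p-part of the order of G. Let x, y ∈ G and let x′, y′ be their p-regular parts: x′ has order prime to p, commutes with x·x′⁻¹, and x·x′⁻¹ has p-power order (likewise for y). Then x′ and y′ are conjugate in G if and only if for every irreducible character χ of G the algebraic integer χ(x)^(p^a) − χ(y)^(p^a) is p times an algebraic integer. -/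
theorem result {G : Type*} [Group G] [Finite G] (p : ℕ) [Fact p.Prime] (x y x' y' : G)
    (hx : (∃ k : ℕ, orderOf (x * x'⁻¹) = p ^ k) ∧ Commute (x * x'⁻¹) x' ∧ ¬ p ∣ orderOf x')
    (hy : (∃ k : ℕ, orderOf (y * y'⁻¹) = p ^ k) ∧ Commute (y * y'⁻¹) y' ∧ ¬ p ∣ orderOf y') :
    IsConj x' y' ↔ ∀ χ : Cfsg.IrrCharacter G, ∃ γ : Cfsg.AlgInt,
      (χ : G → ℂ) x ^ (p ^ (Nat.card G).factorization p) - (χ : G → ℂ) y ^ (p ^ (Nat.card G).factorization p) = (p : ℂ) * (γ : ℂ) := by
  classical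
  haveI := Fintype.ofFinite G
  have hp : p.Prime := Fact.out
  set a := (Nat.card G).factorization p with ha
  set q := p ^ a with hq
  have hfrob : ∀ (χ : Cfsg.IrrCharacter G) (g : G), ∃ γ : Cfsg.AlgInt,
      (χ : G → ℂ) g ^ q - (χ : G → ℂ) (g ^ q) = (p : ℂ) * (γ : ℂ) := by
    intro χ g
    obtain ⟨n, ρ, hρ⟩ := χ.2.isCharacter'
    obtain ⟨b, μ, -, hμ, hchar⟩ := CfsgLib.Char.exists_rep_eigenbasis ρ g
    have hint : ∀ i, IsIntegral ℤ (μ i) := fun i =>
      IsIntegral.of_pow (orderOf_pos g) (by rw [hμ i]; exact isIntegral_one)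
    let m : Fin (Module.finrank ℂ (Fin n → ℂ)) → Cfsg.AlgInt := fun i => ⟨μ i, hint i⟩
    have hs : ∀ s : Finset (Fin (Module.finrank ℂ (Fin n → ℂ))), ∃ r : Cfsg.AlgInt,
        (∑ i ∈ s, m i) ^ q - ∑ i ∈ s, m i ^ q = (p : Cfsg.AlgInt) * r := by
      intro s
      induction s using Finset.induction_on with
      | empty => exact ⟨0, by simp [hq, hp.ne_zero]⟩
      | insert i s hi ih =>
        obtain ⟨r, hr⟩ := ih
        obtain ⟨r', hr'⟩ := exists_add_pow_prime_pow_eq hp (m i) (∑ j ∈ s, m j) a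
        rw [Finset.sum_insert hi, Finset.sum_insert hi, hr']
        exact ⟨r + m i * (∑ j ∈ s, m j) * r', by rw [hq] at hr; linear_combination hr⟩
    obtain ⟨r, hr⟩ := hs Finset.univ
    refine ⟨r, ?_⟩
    have h1 := congrArg (fun z : Cfsg.AlgInt => (z : ℂ)) hr
    push_cast at h1
    rw [← hρ, ← h1, hchar q]
    congr 2
    simpa using hchar 1
  have hpow : ∀ u u' : G, (∃ k : ℕ, orderOf (u * u'⁻¹) = p ^ k) → Commute (u * u'⁻¹) u' →
      u ^ q = u' ^ q := by
    intro u u' ⟨k, hk⟩ hc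
    have h1 : (u * u'⁻¹) ^ q = 1 := by
      rw [← orderOf_dvd_iff_pow_eq_one, hk, hq, ha]
      refine pow_dvd_pow p ((hp.pow_dvd_iff_le_factorization Nat.card_pos.ne').1 ?_)
      rw [← hk]; exact orderOf_dvd_natCard _
    conv_lhs => rw [show u = (u * u'⁻¹) * u' by group]
    rw [hc.mul_pow, h1, one_mul]
  constructor
  · intro h χ
    obtain ⟨r, hr⟩ := hfrob χ x
    obtain ⟨s, hs⟩ := hfrob χ y
    refine ⟨r - s, ?_⟩
    have hcj : IsConj (x ^ q) (y ^ q) := by
      rw [hpow x x' hx.1 hx.2.1, hpow y y' hy.1 hy.2.1]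
      exact h.pow q
    have he := CfsgLib.Char.char_eq_of_isConj (CfsgLib.Char.isCharacter_classFunction χ.2.isCharacter') hcj
    push_cast
    rw [he] at hr
    linear_combination hr - hs
  · intro h
    obtain ⟨M, hM⟩ := CfsgLib.Block.exists_isPModular hp
    have hparts : ∀ u u' : G, ((∃ k : ℕ, orderOf (u * u'⁻¹) = p ^ k) ∧ Commute (u * u'⁻¹) u' ∧ ¬ p ∣ orderOf u') →
        Cfsg.IsPPart p u (u * u'⁻¹) := fun u u' hu => ⟨u', by group, hu.2.1, hu.1, hu.2.2⟩
    have h2 := (CfsgLib.Char.pRegular_conj_iff hM (hparts x x' hx) (hparts y y' hy)).2 fun χ => ?_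
    · rwa [show (x * x'⁻¹)⁻¹ * x = x' by group, show (y * y'⁻¹)⁻¹ * y = y' by group] at h2
    · obtain ⟨γ, hγ⟩ := h χ
      let u : Cfsg.AlgInt := ⟨(χ : G → ℂ) x, CfsgLib.Char.isCharacter_isIntegral χ.2.isCharacter' x⟩
      let v : Cfsg.AlgInt := ⟨(χ : G → ℂ) y, CfsgLib.Char.isCharacter_isIntegral χ.2.isCharacter' y⟩
      obtain ⟨r, hr⟩ := exists_add_pow_prime_pow_eq hp (u - v) v a
      rw [sub_add_cancel] at hr
      have hγ' : u ^ q - v ^ q = (p : Cfsg.AlgInt) * γ := Subtype.ext (by push_cast; exact hγ)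
      haveI := hM.2.1
      have hmem : (u - v) ^ q ∈ M := by
        have : (u - v) ^ q = (p : Cfsg.AlgInt) * (γ - (u - v) * v * r) := by
          linear_combination hγ' - hr
        rw [this]
        exact M.mul_mem_right _ hM.2.2
      have hM1 : u - v ∈ M := hM.2.1.isPrime.mem_of_pow_mem q hmem
      exact ⟨u - v, 1, hM1, fun h1 => hM.2.1.ne_top ((Ideal.eq_top_iff_one M).2 h1), by simp [u, v]⟩

end Cfsg.Agent.S4604
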