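import Cfsg.Statements.S4607
import Cfsg.Agent.Lib.BlockModSimple
import Cfsg.Agent.Lib.BlockSpaceDim
import Cfsg.Agent.Lib.BlockDefect2
import Cfsg.Agent.Lib.BlockCenterTwo

set_option autoImplicit false
set_option maxHeartbeats 1000000
open Cfsg CfsgLib.Block CfsgLib.Char

namespace Cfsg.Agent.S4607

universe u

open Classical in
/-- A block with two characters has dimension twice a square. -/
theorem sqSum_eq_two_mul_sq {G : Type u} [Group G] [Fintype G] {p : ℕ} [Fact p.Prime]
    {M : Ideal AlgInt} (hM : IsPModular p M) {B : Set (IrrCharacter G)} (hB : IsPBlock M B)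
    {D : Subgroup G} (hD : IsDefectGroup p M B D) (hD1 : 1 < Nat.card D)
    {a b : IrrCharacter G} (hmem : ∀ χ, χ ∈ B ↔ χ = a ∨ χ = b)
    (h0 : blockHeight p B (a : G → ℂ) = 0) :
    ∃ n : ℕ, ∑ᶠ χ ∈ B, charDegree (χ : G → ℂ) ^ 2 = 2 * n ^ 2 := by
  letI : Field (ResField M) := @Ideal.Quotient.field _ _ M hM.2.1
  haveI := isAlgClosed_resField hM
  obtain ⟨e, he⟩ : ∃ e, e = gFn hM B := ⟨_, rfl⟩
  have hee : gconv e e = e := by rw [he]; exact gFn_mul_self hB
  have hW : ∀ f, f ∈ blockSpace hM B ↔ gconv e f = f := fun f => by rw [he]; exact mem_blockSpace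
  have hec : ∀ a, gconv e a = gconv a e := fun a => by rw [he]; exact gconv_gFn_comm hM B a
  have heW : e ∈ blockSpace hM B := (hW e).2 hee
  have haddl : ∀ x y z : G → ResField M, gconv (x + y) z = gconv x z + gconv y z := fun x y z => by
    funext g; simp [gconv, add_mul, Finset.sum_add_distrib]
  have haddr : ∀ x y z : G → ResField M, gconv x (y + z) = gconv x y + gconv x z := fun x y z => by
    funext g; simp [gconv, mul_add, Finset.sum_add_distrib]
  have hsmull : ∀ (c : ResField M) (x y : G → ResField M), gconv (c • x) y = c • gconv x y :=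
    fun c x y => by funext g; simp [gconv, Finset.mul_sum, mul_assoc]
  have hsmulr : ∀ (c : ResField M) (x y : G → ResField M), gconv x (c • y) = c • gconv x y :=
    fun c x y => by funext g; simp [gconv, Finset.mul_sum, mul_left_comm]
  have hsym : ∀ x y : G → ResField M, gconv x y 1 = gconv y x 1 := fun x y => by
    simp only [gconv]
    refine Fintype.sum_equiv (Equiv.inv G) _ _ fun g => ?_
    simp [mul_comm]
  obtain ⟨δ, hδ⟩ : ∃ δ : G → G → ResField M, δ = fun x g => if g = x then 1 else 0 := ⟨_, rfl⟩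
  have hδr : ∀ (w : G → ResField M) (x : G), gconv w (δ x) 1 = w x⁻¹ := fun w x => by
    simp only [gconv, hδ, mul_one]
    rw [Finset.sum_eq_single x⁻¹]
    · simp
    · intro g _ hg; rw [if_neg (fun h => hg (inv_eq_iff_eq_inv.1 h)), mul_zero]
    · exact fun h => absurd (Finset.mem_univ _) h
  have hδm : ∀ x y, gconv (δ x) (δ y) = δ (x * y) := fun x y => by
    funext g
    simp only [gconv, hδ]
    rw [Finset.sum_eq_single x]
    · simp [inv_mul_eq_iff_eq_mul]
    · intro z _ hz; simp [hz]
    · exact fun h => absurd (Finset.mem_univ _) h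
  let W := blockSpace hM B
  have hclosed : ∀ w : W, ∀ x, gconv (w : G → ResField M) x ∈ W := fun w x => by
    rw [hW, ← gconv_assoc, (hW _).1 w.2]
  let A : Subalgebra (ResField M) (Module.End (ResField M) W) :=
    { carrier := {F | ∀ (w : W) (x : G → ResField M),
        (F ⟨gconv (w : G → ResField M) x, hclosed w x⟩ : G → ResField M)
          = gconv (F w : G → ResField M) x}
      mul_mem' := fun {F F'} hF hF' w x => by
        show (F (F' _) : G → ResField M) = gconv (F (F' w) : G → ResField M) x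
        rw [← hF (F' w) x]
        exact congrArg (fun v => (F v : G → ResField M)) (Subtype.ext (hF' w x))
      one_mem' := fun w x => rfl
      add_mem' := fun {F F'} hF hF' w x => by
        show (F _ : G → ResField M) + (F' _ : G → ResField M) = _
        rw [hF w x, hF' w x, ← haddl]; rfl
      zero_mem' := fun w x => (zero_gconv x).symm
      algebraMap_mem' := fun c w x => by
        show c • gconv (w : G → ResField M) x = gconv (c • (w : G → ResField M)) x
        rw [hsmull] }
  letI : Ring A := Algebra.semiringToRing (ResField M)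
  let E₀ : W := ⟨e, heW⟩
  let evl : A →ₗ[ResField M] W :=
    { toFun := fun F => (F : Module.End (ResField M) W) E₀
      map_add' := fun _ _ => rfl
      map_smul' := fun _ _ => rfl }
  have hFe : ∀ (F : A) (w : W), ((F : Module.End (ResField M) W) w : G → ResField M)
      = gconv (evl F : G → ResField M) (w : G → ResField M) := fun F w => by
    have h := F.2 E₀ (w : G → ResField M)
    have e1 : (⟨gconv (E₀ : G → ResField M) w, hclosed E₀ w⟩ : W) = w :=
      Subtype.ext ((hW _).1 w.2)
    rw [e1] at h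
    exact h
  have hevinj : Function.Injective evl := fun F F' h => Subtype.ext (LinearMap.ext fun w =>
    Subtype.ext (by rw [hFe, hFe, h]))
  have hLmem : ∀ w x : G → ResField M, gconv e w = w → gconv w x ∈ W := fun w x h => by
    rw [hW, ← gconv_assoc, h]
  let L : W → A := fun w =>
    ⟨{ toFun := fun x => ⟨gconv (w : G → ResField M) x, hclosed w x⟩
       map_add' := fun x y => Subtype.ext (haddr _ _ _)
       map_smul' := fun c x => Subtype.ext (hsmulr c _ _) },
     fun x y => (gconv_assoc _ _ _).symm⟩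
  have hevL : ∀ w : W, evl (L w) = w := fun w => Subtype.ext (by
    show gconv (w : G → ResField M) e = w
    rw [← hec, (hW _).1 w.2])
  have hevsurj : Function.Surjective evl := fun w => ⟨L w, hevL w⟩
  haveI : FiniteDimensional (ResField M) A := Module.Finite.of_injective evl hevinj
  have hevmul : ∀ F F' : A, (evl (F * F') : G → ResField M)
      = gconv (evl F : G → ResField M) (evl F' : G → ResField M) := fun F F' => hFe F (evl F')
  let τ : A →ₗ[ResField M] ResField M :=
    { toFun := fun F => (evl F : G → ResField M) 1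
      map_add' := fun F F' => by rw [map_add]; rfl
      map_smul' := fun c F => by rw [map_smul]; rfl }
  have hτ : ∀ F F', τ (F * F') = τ (F' * F) := fun F F' => by
    show (evl (F * F') : G → ResField M) 1 = (evl (F' * F) : G → ResField M) 1
    rw [hevmul, hevmul, hsym]
  have hnd : ∀ F, (∀ F', τ (F * F') = 0) → F = 0 := by
    intro F hF
    apply hevinj
    rw [map_zero]
    apply Subtype.ext
    funext g
    have h := hF (L ⟨gconv e (δ g⁻¹), hLmem e _ hee⟩)
    change (evl _ : G → ResField M) 1 = 0 at h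
    rw [hevmul, hevL] at h
    change gconv _ (gconv e (δ g⁻¹)) 1 = 0 at h
    rw [← gconv_assoc, ← hec, (hW _).1 (evl F).2, hδr, inv_inv] at h
    exact h
  -- central elements of the block span at most a plane
  obtain ⟨E, hE⟩ : ∃ E : Matrix G G (locRing hM),
      E = fun g h => ⟨coef ((cl hM h * bIdem hM hB : intRing (G := G) hM) : IrrCharacter G → ℂ) g,
        (cl hM h * bIdem hM hB).2 g⟩ := ⟨_, rfl⟩
  have hrange : ∀ z : G → ResField M, (∀ g x, z (x * g * x⁻¹) = z g) → gconv e z = z →
      z ∈ LinearMap.range (E.map (res hM)).mulVecLin := by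
    intro z hcl hz
    obtain ⟨c, hc⟩ : ∃ c : G → ResField M,
        c = fun h => if Quotient.out (ConjClasses.mk h) = h then z h else 0 := ⟨_, rfl⟩
    have hcred : ∀ h, cred hM (cl hM h) = fun x => if IsConj h x then 1 else 0 := fun h => by
      funext x
      have e1 : coef ((cl hM h : intRing (G := G) hM) : IrrCharacter G → ℂ) x = classInd h x := by
        rw [coef_cl]
      by_cases hx : IsConj h x
      · rw [if_pos hx]
        exact (congrArg (res hM) (Subtype.ext (e1.trans (if_pos hx)))).trans (map_one _)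
      · rw [if_neg hx]
        exact (congrArg (res hM) (Subtype.ext (e1.trans (if_neg hx)))).trans (map_zero _)
    have hsum : z = ∑ h, c h • cred hM (cl hM h) := by
      funext x
      simp only [Finset.sum_apply, Pi.smul_apply, smul_eq_mul, hcred]
      rw [Finset.sum_eq_single (Quotient.out (ConjClasses.mk x))]
      · have hco : IsConj (Quotient.out (ConjClasses.mk x)) x :=
          ConjClasses.mk_eq_mk_iff_isConj.1 (Quotient.out_eq _)
        have hmk : ConjClasses.mk (Quotient.out (ConjClasses.mk x)) = ConjClasses.mk x :=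
          Quotient.out_eq _
        rw [if_pos hco, mul_one, hc]
        simp only [hmk, if_true]
        obtain ⟨y, hy⟩ := isConj_iff.1 hco
        conv_lhs => rw [← hy, hcl]
      · intro h _ hne
        by_cases hco : IsConj h x
        · rw [hc]
          simp only
          rw [if_neg, zero_mul]
          intro hh
          rw [ConjClasses.mk_eq_mk_iff_isConj.2 hco] at hh
          exact hne hh.symm
        · rw [if_neg hco, mul_zero]
      · exact fun h => absurd (Finset.mem_univ _) h
    refine ⟨c, ?_⟩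
    have hz' : z = ∑ h, c h • gconv (cred hM (cl hM h)) e := by
      conv_lhs => rw [← hz, hec, hsum, sum_gconv]
      simp only [hsmull]
    rw [Matrix.mulVecLin_apply]
    funext g
    conv_rhs => rw [hz']
    simp only [Matrix.mulVec, dotProduct, Matrix.map_apply, Finset.sum_apply, Pi.smul_apply,
      smul_eq_mul, he, gFn_block hM hB, ← cred_mul_eq_gconv]
    refine Finset.sum_congr rfl fun h _ => ?_
    rw [mul_comm, hE]
    rfl
  have hrank : Module.finrank (ResField M) (LinearMap.range (E.map (res hM)).mulVecLin) ≤ 2 := by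
    refine (finrank_range_map_le (res hM) (res_surjective hM) (locRing hM).subtype
      Subtype.val_injective E).trans ?_
    obtain ⟨δ', hδ'⟩ : ∃ δ' : IrrCharacter G → G → ℂ,
        δ' = fun χ => coef (indVal ({χ} : Set (IrrCharacter G))) := ⟨_, rfl⟩
    refine le_trans (Submodule.finrank_mono
      (t := Submodule.span ℂ ({δ' a, δ' b} : Set (G → ℂ))) ?_) ?_
    · rintro _ ⟨c, rfl⟩
      have key : ∀ h, (fun g => ((E g h : locRing hM) : ℂ))
          ∈ Submodule.span ℂ ({δ' a, δ' b} : Set (G → ℂ)) := by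
        intro h
        obtain ⟨v, hv⟩ : ∃ v : IrrCharacter G → ℂ,
            v = ((cl hM h * bIdem hM hB : intRing (G := G) hM) : IrrCharacter G → ℂ) := ⟨_, rfl⟩
        have hsupp : ∀ χ, χ ∉ B → v χ = 0 := fun χ hχ => by
          rw [hv]
          show _ * indVal B χ = 0
          rw [indVal, if_neg hχ, mul_zero]
        refine Submodule.mem_span_pair.2 ⟨if a = b then 0 else v a, v b, ?_⟩
        funext g
        rw [hE]
        show _ * δ' a g + v b * δ' b g = coef _ g
        rw [← hv, hδ']
        simp only [coef, Finset.mul_sum, ← Finset.sum_add_distrib]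
        refine Finset.sum_congr rfl fun χ _ => ?_
        by_cases hχa : χ = a
        · subst hχa
          by_cases hab : χ = b
          · subst hab; simp [indVal]; ring
          · simp [indVal, hab]; ring
        · by_cases hχb : χ = b
          · subst hχb
            simp [indVal, hχa, Ne.symm hχa]; ring
          · rw [hsupp χ (fun h => ((hmem χ).1 h).elim hχa hχb)]
            simp [indVal, hχa, hχb]
      have hmv : (E.map (locRing hM).subtype).mulVecLin c
          = ∑ h, c h • fun g => ((E g h : locRing hM) : ℂ) := by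
        funext g
        simp [Matrix.mulVecLin_apply, Matrix.mulVec, dotProduct, Finset.sum_apply, mul_comm]
      rw [hmv]
      exact Submodule.sum_mem _ fun h _ => Submodule.smul_mem _ _ (key h)
    · refine (finrank_span_le_card _).trans ?_
      rw [Set.toFinset_insert, Set.toFinset_singleton]
      exact Finset.card_le_two
  have hdim : ∀ f : Fin 3 → (A →ₗ[ResField M] ResField M),
      (∀ i F F', f i (F * F') = f i (F' * F)) → ∃ c : Fin 3 → ResField M, c ≠ 0 ∧ ∑ i, c i • f i = 0 := by
    intro f hf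
    let P : (G → ResField M) → A := fun x => L ⟨gconv e x, hLmem e _ hee⟩
    have hP : ∀ x y, P (gconv x y) = P x * P y := fun x y => hevinj (Subtype.ext (by
      rw [hevmul, hevL, hevL, hevL]
      show gconv e (gconv x y) = gconv (gconv e x) (gconv e y)
      rw [← gconv_assoc, ← gconv_assoc (gconv e x), gconv_assoc e x e, ← hec, ← gconv_assoc e e, hee]))
    have hev : ∀ F : A, P (evl F : G → ResField M) = F := fun F => hevinj (Subtype.ext (by
      rw [hevL]; exact (hW _).1 (evl F).2))
    have hsumP : ∀ x, P x = ∑ g, x g • P (δ g) := fun x => by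
      apply hevinj
      apply Subtype.ext
      simp only [map_sum, map_smul, P, hevL]
      rw [AddSubmonoidClass.coe_finsetSum]
      simp only [SetLike.val_smul, ← hsmulr]
      rw [← gconv_sum]
      congr 1
      funext y
      simp [hδ, Finset.sum_apply]
    obtain ⟨z, hz⟩ : ∃ z : Fin 3 → G → ResField M, z = fun i g => f i (P (δ g⁻¹)) := ⟨_, rfl⟩
    have hfx : ∀ i x, f i (P x) = gconv x (z i) 1 := fun i x => by
      rw [hsumP, map_sum]
      simp only [map_smul, smul_eq_mul, gconv, hz, mul_one, inv_inv]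
    have hzcl : ∀ i g y, z i (y * g * y⁻¹) = z i g := fun i g y => by
      rw [hz]
      show f i (P (δ (y * g * y⁻¹)⁻¹)) = f i (P (δ g⁻¹))
      rw [show (y * g * y⁻¹)⁻¹ = y * (g⁻¹ * y⁻¹) by group, ← hδm, hP, hf, ← hP, hδm,
        inv_mul_cancel_right]
    have hzW : ∀ i, gconv e (z i) = z i := fun i => by
      funext g
      calc gconv e (z i) g = gconv (gconv e (z i)) (δ g⁻¹) 1 := by rw [hδr, inv_inv]
        _ = gconv (gconv e (δ g⁻¹)) (z i) 1 := by
            rw [hsym, ← gconv_assoc, ← hec]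
        _ = f i (P (gconv e (δ g⁻¹))) := (hfx i _).symm
        _ = z i g := by
            rw [hz]
            refine congrArg (f i) (hevinj (Subtype.ext ?_))
            rw [hevL, hevL]
            show gconv e (gconv e (δ g⁻¹)) = gconv e (δ g⁻¹)
            rw [← gconv_assoc, hee]
    have hli : ¬ LinearIndependent (ResField M) z := by
      intro h
      have h' : LinearIndependent (ResField M)
          (fun i => (⟨z i, hrange _ (hzcl i) (hzW i)⟩ :
            LinearMap.range (E.map (res hM)).mulVecLin)) :=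
        LinearIndependent.of_comp (LinearMap.range (E.map (res hM)).mulVecLin).subtype h
      have := h'.fintype_card_le_finrank.trans hrank
      rw [Fintype.card_fin] at this
      omega
    obtain ⟨c, hc, i, hi⟩ := Fintype.not_linearIndependent_iff.1 hli
    refine ⟨c, fun h => hi (congrFun h i), LinearMap.ext fun F => ?_⟩
    rw [← hev F]
    simp only [LinearMap.coe_sum, Finset.sum_apply, LinearMap.smul_apply, smul_eq_mul,
      LinearMap.zero_apply, hfx]
    have h1 : gconv (evl F : G → ResField M) (∑ j, c j • z j) 1 = 0 := by rw [hc, gconv_zero]; rfl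
    rw [gconv_sum, Finset.sum_apply] at h1
    rw [← h1]
    exact Finset.sum_congr rfl fun j _ => by rw [hsmulr]; rfl
  -- a nilpotent central element
  have haB : a ∈ B := (hmem a).2 (Or.inl rfl)
  obtain ⟨y, hy, S, hS⟩ := hD
  obtain ⟨x, hx1, hxD⟩ : ∃ x, x ≠ 1 ∧ x ∈ D := by
    haveI := Finite.one_lt_card_iff_nontrivial.1 hD1
    obtain ⟨x, hx⟩ := exists_ne (1 : D)
    exact ⟨x, fun h => hx (Subtype.ext h), x.2⟩
  have hxy : Commute x y := by
    rw [hS, Subgroup.mem_map] at hxD
    obtain ⟨w, -, rfl⟩ := hxD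
    exact Subgroup.mem_centralizer_singleton_iff.1 w.2
  have hxp : ∃ j, orderOf x = p ^ j := by
    rw [hS, Subgroup.mem_map] at hxD
    obtain ⟨w, hw, rfl⟩ := hxD
    obtain ⟨j, hj⟩ := IsPGroup.iff_orderOf.1 S.isPGroup' ⟨w, hw⟩
    exact ⟨j, by rw [← hj, ← Subgroup.orderOf_coe]; exact Subgroup.orderOf_coe w⟩
  have hy' : ¬ p ∣ orderOf y := fun h => hy.2.1 (by
    rw [blockCoeff_eq_coef, coef_indVal_singular hM hB h, ← Nat.cast_zero]
    exact (memLocalIdeal_natCast_iff hM 0).2 (dvd_zero p))
  have hsing : p ∣ orderOf (x * y) := by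
    obtain ⟨j, hj⟩ := hxp
    have hp := (Fact.out : p.Prime)
    have hco : (orderOf x).Coprime (orderOf y) := by
      rw [hj]; exact ((hp.coprime_iff_not_dvd).2 hy').pow_left j
    rw [hxy.orderOf_mul_eq_mul_orderOf_of_coprime hco, hj]
    rcases j with _ | j
    · exact absurd (orderOf_eq_one_iff.1 (hj.trans (pow_zero p))) hx1
    · exact Dvd.dvd.mul_right (dvd_pow_self p (Nat.succ_ne_zero j)) _
  have hv1int : (fun χ => if χ = a then (Nat.card G : ℂ) / (a : G → ℂ) 1 else 0)
      ∈ intRing (G := G) hM := by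
    intro g
    have : coef (fun χ => if χ = a then (Nat.card G : ℂ) / (a : G → ℂ) 1 else 0) g
        = (starRingEnd ℂ) ((a : G → ℂ) g) := by
      rw [coef, Finset.sum_eq_single a]
      · rw [if_pos rfl]
        field_simp [natCard_ne_zero G, irr_one_ne_zero a]
      · intro χ _ hχ; rw [if_neg hχ]; ring
      · exact fun h => absurd (Finset.mem_univ _) h
    rw [this, ← isCharacter_inv_eq_conj a.2.isCharacter']
    exact irr_mem hM a _
  obtain ⟨v1, hv1⟩ : ∃ v1 : intRing (G := G) hM, v1 = ⟨_, hv1int⟩ := ⟨_, rfl⟩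
  obtain ⟨u, hu⟩ : ∃ u : intRing (G := G) hM,
      u = v1 - cst hM (evO hM a v1) * bIdem hM hB := ⟨_, rfl⟩
  have huB : bIdem hM hB * u = u := by
    apply Subtype.ext
    funext χ
    show indVal B χ * (u : IrrCharacter G → ℂ) χ = (u : IrrCharacter G → ℂ) χ
    by_cases hχ : χ ∈ B
    · rw [indVal, if_pos hχ, one_mul]
    · rw [indVal, if_neg hχ, zero_mul, hu, hv1]
      show (0 : ℂ) = (if χ = a then _ else 0) - _ * indVal B χ
      rw [if_neg (fun h => hχ ((hmem χ).2 (Or.inl h))), indVal, if_neg hχ, mul_zero, sub_zero]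
  have hev0 : ∀ χ, ev hM χ u = 0 := by
    intro χ
    by_cases hχ : χ ∈ B
    · rw [(sameBlock_iff_ev hM _ _).1 (sameBlock_of_mem hM hB hχ haB) u, hu, map_sub, map_mul,
        ev_cst, ev_bIdem, if_pos haB, mul_one]
      exact sub_self _
    · rw [← huB, map_mul, ev_bIdem, if_neg hχ, zero_mul]
  have hcu : gconv e (cred hM u) = cred hM u := by
    rw [he, gFn_block hM hB, ← cred_mul_eq_gconv, huB]
  let zA : A := L ⟨cred hM u, (hW _).2 hcu⟩
  have hznil : IsNilpotent zA := by
    have hN : ∀ j, zA ^ (j + 1) = L ⟨cred hM (u ^ (j + 1)), (hW _).2 (by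
        rw [he, gFn_block hM hB, ← cred_mul_eq_gconv, pow_succ', ← mul_assoc, huB])⟩ := by
      intro j
      induction j with
      | zero => rw [pow_one]; exact congrArg L (Subtype.ext (by simp only [zero_add, pow_one]))
      | succ j ih =>
        apply hevinj
        apply Subtype.ext
        rw [pow_succ, hevmul, ih, hevL, hevL, hevL]
        show gconv (cred hM (u ^ (j + 1))) (cred hM u) = cred hM (u ^ (j + 1 + 1))
        rw [← cred_mul_eq_gconv, ← pow_succ]
    haveI : Nonempty (IrrCharacter G) := ⟨a⟩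
    obtain ⟨N, hN'⟩ : ∃ N, Fintype.card (IrrCharacter G) = N + 1 :=
      ⟨_, (Nat.succ_pred_eq_of_pos Fintype.card_pos).symm⟩
    refine ⟨N + 1, ?_⟩
    rw [hN N]
    apply hevinj
    rw [hevL, map_zero]
    apply Subtype.ext
    show cred hM (u ^ (N + 1)) = 0
    rw [← hN']
    exact funext fun g => mem_redIdeal.1 (pow_mem_redIdeal hM u hev0) g
  have hzc : ∀ F : A, zA * F = F * zA := fun F => by
    apply hevinj
    apply Subtype.ext
    rw [hevmul, hevmul, hevL]
    funext g
    show ∑ w, cred hM u w * (evl F : G → ResField M) (w⁻¹ * g)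
      = ∑ w, (evl F : G → ResField M) w * cred hM u (w⁻¹ * g)
    refine Fintype.sum_equiv ((Equiv.inv G).trans (Equiv.mulRight g)) _ _ fun w => ?_
    simp only [Equiv.trans_apply, Equiv.inv_apply, Equiv.coe_mulRight, mul_inv_rev, inv_inv]
    rw [mul_comm]
    congr 1
    have h := cred_classFunction hM u w g⁻¹
    rw [inv_inv] at h
    rw [mul_assoc] at h ⊢
    exact h.symm
  have hz0 : zA ≠ 0 := by
    intro h
    have h1 : cred hM u (x * y)⁻¹ = 0 := by
      have h2 := congrArg (fun F => (evl F : G → ResField M) (x * y)⁻¹) h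
      simpa [zA, hevL] using h2
    have hne := height_zero_apply_ne_zero hM hB hy haB h0 hxy hxp
    apply hne
    have e1 : coef (u : IrrCharacter G → ℂ) (x * y)⁻¹ = (a : G → ℂ) (x * y) := by
      have hsub : (u : IrrCharacter G → ℂ)
          = (v1 : IrrCharacter G → ℂ) - ((evO hM a v1 : locRing hM) : ℂ) • indVal B := by
        rw [hu]; rfl
      have hsm : ∀ (r : ℂ) (v : IrrCharacter G → ℂ) (g : G), coef (r • v) g = r * coef v g :=
        fun r v g => by simp [coef, Finset.mul_sum, mul_assoc, mul_left_comm]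
      rw [hsub, coef_sub, Pi.sub_apply, hsm,
        coef_indVal_singular hM hB (by rwa [orderOf_inv]), mul_zero, sub_zero, hv1]
      show coef (fun χ => if χ = a then (Nat.card G : ℂ) / (a : G → ℂ) 1 else 0) (x * y)⁻¹ = _
      rw [coef, Finset.sum_eq_single a]
      · rw [if_pos rfl, isCharacter_inv_eq_conj a.2.isCharacter', Complex.conj_conj]
        field_simp [natCard_ne_zero G, irr_one_ne_zero a]
      · intro χ _ hχ; rw [if_neg hχ]; ring
      · exact fun h => absurd (Finset.mem_univ _) h
    rw [memLocalIdeal_iff_exists hM]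
    exact ⟨irr_mem hM a _, (congrArg (res hM) (Subtype.ext e1.symm)).trans h1⟩
  obtain ⟨n, hn⟩ := finrank_eq_two_mul_sq τ hτ hnd hdim zA hzc hz0 hznil
  refine ⟨n, ?_⟩
  rw [← finrank_blockSpace_eq hM hB, ← hn]
  exact (LinearEquiv.ofBijective evl ⟨hevinj, hevsurj⟩).finrank_eq.symm


/-- Let G be a finite group, p a prime, M a maximal ideal of the algebraic integers containing p, and B a p-block of G with defect group D. Then B contains exactly two irreducible characters if and only if D has order 2. -/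
theorem result {G : Type*} [Group G] [Finite G] (p : ℕ) [Fact p.Prime] (M : Ideal Cfsg.AlgInt) (hM : Cfsg.IsPModular p M) (B : Set (Cfsg.IrrCharacter G)) (hB : Cfsg.IsPBlock M B) (D : Subgroup G) (hD : Cfsg.IsDefectGroup p M B D) : Nat.card B = 2 ↔ Nat.card D = 2 := by
  classical
  haveI : Fintype G := Fintype.ofFinite G
  have hp := (Fact.out : p.Prime)
  have hcardD := card_defectGroup hM hB hD
  constructor
  · intro h2
    have hd : blockDefect p B ≠ 0 := fun h => by
      have h1 := ((defect_zero_iff hM hB).1.1 h).1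
      omega
    obtain ⟨a, haB, ha0⟩ := exists_height_zero hM hB
    obtain ⟨a', b', hab', hset⟩ := Set.ncard_eq_two.1 (by rwa [← Nat.card_coe_set_eq] : B.ncard = 2)
    obtain ⟨b, hab, hmem⟩ : ∃ b, a ≠ b ∧ ∀ χ, χ ∈ B ↔ χ = a ∨ χ = b := by
      have hm : ∀ χ, χ ∈ B ↔ χ = a' ∨ χ = b' := fun χ => by rw [hset]; simp
      rcases (hm a).1 haB with h | h
      · exact ⟨b', h ▸ hab', fun χ => by rw [hm, h]⟩
      · exact ⟨a', h ▸ hab'.symm, fun χ => by rw [hm, h, or_comm]⟩
    have hbB : b ∈ B := (hmem b).2 (Or.inr rfl)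
    have hrk : Cfsg.blockRank p B = 1 := by
      have h1 := blockRank_pos hM hB
      have h2' := blockRank_le_card (p := p) B
      have h3 : Cfsg.blockRank p B ≠ 2 := fun h =>
        hd (((defect_zero_iff hM hB).2).2 (by rw [h2, h]))
      omega
    have hfil : Finset.univ.filter (· ∈ B) = {a, b} := by
      ext χ; simp [hmem]
    -- the restrictions to regular elements are proportional to the degrees
    have hspan : ∀ χ ∈ B, regPart p (χ : G → ℂ)
        = ((χ : G → ℂ) 1 / (a : G → ℂ) 1) • regPart p (a : G → ℂ) := by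
      intro χ hχ
      let V : Submodule ℂ (G → ℂ) :=
        Submodule.span ℂ ((fun χ : Cfsg.IrrCharacter G => Cfsg.pRegularPart p (χ : G → ℂ)) '' B)
      have hmemV : ∀ χ ∈ B, regPart p (χ : G → ℂ) ∈ V := fun χ hχ =>
        Submodule.subset_span ⟨χ, hχ, pRegularPart_eq _⟩
      have hne : (⟨regPart p (a : G → ℂ), hmemV a haB⟩ : V) ≠ 0 := fun h => by
        have := congrArg (fun v : V => (v : G → ℂ) 1) h
        simp [regPart, hp.ne_one, irr_one_ne_zero a] at this
      obtain ⟨c, hc⟩ := (finrank_eq_one_iff_of_nonzero' _ hne).1 (show Module.finrank ℂ V = 1 from hrk)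
        ⟨_, hmemV χ hχ⟩
      have hc' : c • regPart p (a : G → ℂ) = regPart p (χ : G → ℂ) := congrArg Subtype.val hc
      have h1 := congrFun hc' 1
      simp only [Pi.smul_apply, smul_eq_mul, regPart, orderOf_one, Nat.dvd_one, hp.ne_one,
        not_false_eq_true, if_true, if_false] at h1
      rw [← h1, mul_div_assoc, div_self (irr_one_ne_zero a), mul_one, hc']
    obtain ⟨A₁, hA₁⟩ : ∃ A₁ : ℕ, A₁ = Cfsg.charDegree (a : G → ℂ) := ⟨_, rfl⟩
    obtain ⟨B₁, hB₁⟩ : ∃ B₁ : ℕ, B₁ = Cfsg.charDegree (b : G → ℂ) := ⟨_, rfl⟩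
    have ea : (a : G → ℂ) 1 = A₁ := by rw [hA₁, charDegree_cast a.2.isCharacter']
    have eb : (b : G → ℂ) 1 = B₁ := by rw [hB₁, charDegree_cast b.2.isCharacter']
    obtain ⟨c, hc⟩ : ∃ c, c = Cfsg.classInner (regPart p (a : G → ℂ)) (a : G → ℂ) := ⟨_, rfl⟩
    have hI : ∀ χ ∈ B, ∀ η ∈ B, Cfsg.classInner (regPart p (χ : G → ℂ)) (η : G → ℂ)
        = (χ : G → ℂ) 1 / (a : G → ℂ) 1 * ((η : G → ℂ) 1 / (a : G → ℂ) 1 * c) := by
      intro χ hχ η hη
      rw [hspan χ hχ, CfsgLib.Char.inner_smul_left]
      congr 1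
      have h3 : Cfsg.classInner (regPart p (a : G → ℂ)) (η : G → ℂ)
          = Cfsg.classInner (regPart p (a : G → ℂ)) (regPart p (η : G → ℂ)) :=
        (regPart_inner_self a η).symm
      rw [h3, hspan η hη, CfsgLib.Char.inner_smul_right, regPart_inner_self, ← hc, map_div₀,
        irr_conj_one, irr_conj_one]
    have hA0 : (A₁ : ℂ) ≠ 0 := ea ▸ irr_one_ne_zero a
    have hT : ((A₁ : ℂ) ^ 2 + (B₁ : ℂ) ^ 2) ≠ 0 := by
      rw [← Nat.cast_pow, ← Nat.cast_pow, ← Nat.cast_add, Nat.cast_ne_zero]
      have := charDegree_pos a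
      rw [← hA₁] at this
      positivity
    have hcval : c = (A₁ : ℂ) ^ 2 / ((A₁ : ℂ) ^ 2 + (B₁ : ℂ) ^ 2) := by
      have h := congrFun (regPart_eq_sum_block hM hB haB) 1
      rw [Finset.sum_apply, ← Finset.sum_subset (Finset.subset_univ ({a, b} : Finset _))
        (fun χ _ hχ => by
          rw [← hfil, Finset.mem_filter] at hχ
          simp [indVal, show χ ∉ B from fun h => hχ ⟨Finset.mem_univ _, h⟩])] at h
      rw [Finset.sum_pair hab] at h
      simp only [Pi.smul_apply, smul_eq_mul, indVal, haB, hbB, if_true, one_mul, hI a haB a haB,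
        hI a haB b hbB, regPart, orderOf_one, Nat.dvd_one, hp.ne_one, not_false_eq_true, if_false,
        ea, eb, div_self hA0] at h
      rw [eq_div_iff hT]
      field_simp at h
      linear_combination -h
    have hIv : ∀ χ ∈ B, ∀ η ∈ B, Cfsg.classInner (regPart p (χ : G → ℂ)) (η : G → ℂ)
        = (χ : G → ℂ) 1 * (η : G → ℂ) 1 / ((A₁ : ℂ) ^ 2 + (B₁ : ℂ) ^ 2) := by
      intro χ hχ η hη
      rw [hI χ hχ η hη, hcval, ea]
      field_simp
    -- reduce the degrees
    obtain ⟨g, hgd⟩ : ∃ g, g = Nat.gcd A₁ B₁ := ⟨_, rfl⟩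
    have hgpos : 0 < g := hgd ▸ Nat.gcd_pos_of_pos_left _ (hA₁ ▸ charDegree_pos a)
    obtain ⟨m₁, hm₁⟩ : g ∣ A₁ := hgd ▸ Nat.gcd_dvd_left _ _
    obtain ⟨m₂, hm₂⟩ : g ∣ B₁ := hgd ▸ Nat.gcd_dvd_right _ _
    have hcop : m₁.Coprime m₂ := by
      have h := hgd
      rw [hm₁, hm₂, Nat.gcd_mul_left] at h
      exact (Nat.eq_of_mul_eq_mul_left hgpos (by rw [mul_one]; exact h.symm) : Nat.gcd m₁ m₂ = 1)
    obtain ⟨n, hn⟩ := sqSum_eq_two_mul_sq hM hB hD
      (hcardD ▸ Nat.one_lt_pow hd hp.one_lt) hmem ha0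
    have hsq : ∑ᶠ χ ∈ B, Cfsg.charDegree (χ : G → ℂ) ^ 2 = g ^ 2 * (m₁ ^ 2 + m₂ ^ 2) := by
      rw [height_finsum_eq, hfil, Finset.sum_pair hab, ← hA₁, ← hB₁, hm₁, hm₂]; ring
    rw [hsq] at hn
    -- the reduced norm divides the order of the defect group
    have hle : ∀ χ ∈ B, (Nat.card G).factorization p
        ≤ Cfsg.blockDefect p B + (Cfsg.charDegree (χ : G → ℂ)).factorization p := by
      intro χ hχ
      have h1 := defect_add_min hM hB
      have h2' : blockMin p B ≤ (Cfsg.charDegree (χ : G → ℂ)).factorization p :=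
        Nat.sInf_le ⟨χ, hχ, rfl⟩
      omega
    have hdiv : ∀ χ ∈ B, ∀ η ∈ B, ∀ u v : ℕ, Cfsg.charDegree (χ : G → ℂ) = g * u →
        Cfsg.charDegree (η : G → ℂ) = g * v → m₁ ^ 2 + m₂ ^ 2 ∣ p ^ Cfsg.blockDefect p B * (u * v) := by
      intro χ hχ η hη u v hu hv
      obtain ⟨k, hk⟩ := exists_int_regSum hp χ (isCharacter_conj η.2.isCharacter') (hle χ hχ)
      have h : Cfsg.classInner (regPart p (χ : G → ℂ)) (η : G → ℂ)
          = (∑ x ∈ Finset.univ.filter (fun x : G => ¬ p ∣ orderOf x),
            (χ : G → ℂ) x * (starRingEnd ℂ) ((η : G → ℂ) x)) / (Nat.card G : ℂ) := by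
        rw [classInner_regPart, div_eq_inv_mul]
      rw [← h, hIv χ hχ η hη, ← charDegree_cast χ.2.isCharacter', ← charDegree_cast η.2.isCharacter',
        hu, hv, hm₁, hm₂] at hk
      have hS0 : ((m₁ : ℂ) ^ 2 + (m₂ : ℂ) ^ 2) ≠ 0 := by
        intro h0
        apply hT
        rw [hm₁, hm₂]; push_cast; linear_combination (g : ℂ) ^ 2 * h0
      have hg0 : (g : ℂ) ≠ 0 := Nat.cast_ne_zero.2 hgpos.ne'
      have hk' : ((p ^ Cfsg.blockDefect p B * (u * v) : ℕ) : ℤ) = k * ((m₁ ^ 2 + m₂ ^ 2 : ℕ) : ℤ) := by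
        have hk2 : ((p ^ Cfsg.blockDefect p B * (u * v) : ℕ) : ℂ)
            = (k : ℂ) * ((m₁ ^ 2 + m₂ ^ 2 : ℕ) : ℂ) := by
          push_cast at hk ⊢
          field_simp at hk
          first
            | linear_combination hk
            | (apply mul_left_cancel₀ (pow_ne_zero 2 hg0); linear_combination hk)
        exact_mod_cast hk2
      exact Int.natCast_dvd_natCast.1 ⟨k, by rw [hk']; ring⟩
    have h11 := hdiv a haB a haB m₁ m₁ (hA₁ ▸ hm₁) (hA₁ ▸ hm₁)
    have hcS : (m₁ ^ 2 + m₂ ^ 2).Coprime (m₁ * m₁) := by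
      rw [← sq, Nat.coprime_self_add_left]
      exact hcop.symm.pow 2 2
    obtain ⟨j, -, hj⟩ := (Nat.dvd_prime_pow hp).1 (hcS.dvd_of_dvd_mul_right h11)
    have hm₁0 : m₁ ≠ 0 := fun h => by
      rw [h, mul_zero] at hm₁; exact hA0 (by rw [hm₁, Nat.cast_zero])
    have hm₂0 : m₂ ≠ 0 := fun h => by
      rw [h, mul_zero] at hm₂
      exact irr_one_ne_zero b (by rw [eb, hm₂, Nat.cast_zero])
    have hj0 : j ≠ 0 := by
      intro h
      rw [h, pow_zero] at hj
      have : 1 ≤ m₁ ^ 2 := Nat.one_le_pow _ _ (Nat.pos_of_ne_zero hm₁0)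
      have : 1 ≤ m₂ ^ 2 := Nat.one_le_pow _ _ (Nat.pos_of_ne_zero hm₂0)
      omega
    have hn0 : n ≠ 0 := by
      intro h
      rw [h, zero_pow two_ne_zero, mul_zero, hj] at hn
      rcases mul_eq_zero.1 hn with h' | h'
      · exact hgpos.ne' (pow_eq_zero_iff two_ne_zero |>.1 h')
      · exact pow_ne_zero j hp.ne_zero h'
    have hp2 : p = 2 := by
      by_contra hp2
      rw [hj] at hn
      have h := congrArg (fun m => m.factorization 2) hn
      simp only [Nat.factorization_mul (pow_ne_zero 2 hgpos.ne') (pow_ne_zero j hp.ne_zero),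
        Nat.factorization_mul two_ne_zero (pow_ne_zero 2 hn0), Finsupp.add_apply,
        Nat.factorization_pow, Finsupp.smul_apply, smul_eq_mul, Nat.prime_two.factorization_self,
        hp.factorization, Finsupp.single_apply, if_neg hp2, mul_zero, add_zero] at h
      omega
    subst hp2
    have hodd : Odd m₁ ∧ Odd m₂ := by
      have hev : Even (m₁ ^ 2 + m₂ ^ 2) := by
        rw [hj]; exact (Nat.even_pow).2 ⟨even_two, hj0⟩
      rw [Nat.even_add, Nat.even_pow' two_ne_zero, Nat.even_pow' two_ne_zero] at hev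
      have : ¬ Even m₁ := fun h => by
        have h' := hev.1 h
        exact (Nat.prime_two.not_dvd_one) (hcop ▸ Nat.dvd_gcd h.two_dvd h'.two_dvd)
      exact ⟨Nat.not_even_iff_odd.1 this, Nat.not_even_iff_odd.1 fun h => this (hev.2 h)⟩
    have hS2 : m₁ ^ 2 + m₂ ^ 2 = 2 := by
      obtain ⟨⟨s, hs⟩, ⟨s', hs'⟩⟩ := hodd
      rcases j with _ | _ | j
      · exact absurd rfl hj0
      · rw [hj]; norm_num
      · exfalso
        have : 4 * (s ^ 2 + s + s' ^ 2 + s') + 2 = 4 * 2 ^ j := by
          rw [hs, hs'] at hj; ring_nf; ring_nf at hj; omega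
        omega
    have hm12 : m₁ = 1 ∧ m₂ = 1 := by
      have e1 : 1 ≤ m₁ ^ 2 := Nat.one_le_pow _ _ (Nat.pos_of_ne_zero hm₁0)
      have e2 : 1 ≤ m₂ ^ 2 := Nat.one_le_pow _ _ (Nat.pos_of_ne_zero hm₂0)
      have e3 : m₁ ^ 2 = 1 := by omega
      have e4 : m₂ ^ 2 = 1 := by omega
      exact ⟨(pow_eq_one_iff.1 e3).resolve_right two_ne_zero, (pow_eq_one_iff.1 e4).resolve_right two_ne_zero⟩
    -- a height zero character pins down the defect
    have hd1 : Cfsg.blockDefect 2 B = 1 := by
      have hne := (height_zero_iff_ev_regElt hM hB haB haB).1 ha0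
      have hsc : Cfsg.classInner (scaledReg 2 (a : G → ℂ)) (a : G → ℂ)
          = ((2 : ℂ) ^ (Nat.card G).factorization 2) / 2 := by
        rw [scaledReg_eq, CfsgLib.Char.inner_smul_left, hIv a haB a haB, ea, hm₁, hm₂, hm12.1,
          hm12.2]
        have hg0 : (g : ℂ) ≠ 0 := Nat.cast_ne_zero.2 hgpos.ne'
        push_cast
        field_simp
        ring
      have hapos : (Nat.card G).factorization 2 ≠ 0 := by
        have := defect_add_min hM hB
        omega
      obtain ⟨r, hr⟩ : ∃ r, (Nat.card G).factorization 2 = r + 1 :=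
        ⟨_, (Nat.succ_pred_eq_of_pos (Nat.pos_of_ne_zero hapos)).symm⟩
      have hn' : Cfsg.classInner (scaledReg 2 (a : G → ℂ)) (a : G → ℂ) = ((2 ^ r : ℤ) : ℂ) := by
        rw [hsc, hr, pow_succ]; push_cast; field_simp
      have h := ((regRatio_ne_iff hM a a hn').1 hne).2
      have h2r : padicValInt 2 ((2 : ℤ) ^ r) = r := by
        simp [padicValInt, Int.natAbs_pow]
      rw [h2r] at h
      have hh : (Cfsg.charDegree (a : G → ℂ)).factorization 2 = blockMin 2 B := by
        have h1 : blockMin 2 B ≤ (Cfsg.charDegree (a : G → ℂ)).factorization 2 :=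
          Nat.sInf_le ⟨a, haB, rfl⟩
        have h2' : (Cfsg.charDegree (a : G → ℂ)).factorization 2 - blockMin 2 B = 0 := ha0
        omega
      have := defect_add_min hM hB
      omega
    rw [hcardD, hd1, pow_one]
  · intro hD2
    have hpd : p ^ Cfsg.blockDefect p B = 2 := hcardD ▸ hD2
    have hd : Cfsg.blockDefect p B ≠ 0 := fun h => by rw [h, pow_zero] at hpd; omega
    have hle := card_block_le hM hB
    rw [mul_comm, pow_mul, hpd] at hle
    have h1 : Nat.card B ≠ 1 := fun h => by
      have h2' := blockRank_le_card (p := p) B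
      have h3 := blockRank_pos hM hB
      exact hd ((defect_zero_iff hM hB).1.2 ⟨h, by omega⟩)
    have h0 : Nat.card B ≠ 0 := by
      haveI : Nonempty B := (isPBlock_nonempty hM hB).to_subtype
      exact Nat.card_pos.ne'
    rw [show 2 ^ 2 / 4 + 1 = 2 from rfl] at hle
    omega

end Cfsg.Agent.S4607
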