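import Cfsg.Statements.S4611
import Cfsg.Agent.Lib.BlockPrincipalType
import Cfsg.Agent.Lib.BlockInflate
import Cfsg.Agent.Lib.BlockCodegree
import Cfsg.Agent.Lib.BlockCoverUnique
import Cfsg.Agent.Lib.LocalSolvable
-- import your own Cfsg.Agent.* helpers here

set_option autoImplicit false
open Cfsg

namespace Cfsg.Agent.S4611

/-- Let G be a finite solvable group and π a nonempty set of primes, each dividing the order of G; fix for each p in π a maximal ideal M p of the algebraic integers containing p. Then the only irreducible character lying in the principal p-block for every p in π is the principal character if and only if G is generated by the subgroups O_{p'}(G), p in π (the largest normal subgroups of order prime to p). -/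
theorem result {G : Type*} [Group G] [Finite G] [Group.IsSolvable G] (π : Set ℕ) (hπ : ∀ p ∈ π, p.Prime ∧ p ∣ Nat.card G) (hne : π.Nonempty) (M : ℕ → Ideal Cfsg.AlgInt) (hM : ∀ p ∈ π, Cfsg.IsPModular p (M p)) :
    (∀ χ : Cfsg.IrrCharacter G, (∀ p ∈ π, χ ∈ Cfsg.principalBlock (M p) G) → (χ : G → ℂ) = fun _ => 1) ↔
      ⨆ p ∈ π, Cfsg.pPrimeCore p G = ⊤ := by
  classical
  have : Fintype G := Fintype.ofFinite G
  set U := ⨆ p ∈ π, Cfsg.pPrimeCore p G with hU
  constructor
  · intro hall
    by_contra htop
    haveI hUn : U.Normal := by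
      rw [Subgroup.normal_iff_map_conj_eq]
      intro g
      simp only [hU, Subgroup.map_iSup]
      refine iSup_congr fun p => iSup_congr fun _ => ?_
      exact Subgroup.normal_iff_map_conj_eq.1 (CfsgLib.Core.normal_pPrimeCore (G := G) p) g
    haveI : Nontrivial (G ⧸ U) := QuotientGroup.nontrivial_iff.2 htop
    haveI : Fintype (G ⧸ U) := Fintype.ofFinite _
    obtain ⟨q, hq, hqd⟩ :=
      Nat.exists_prime_and_dvd (n := Nat.card (G ⧸ U)) Finite.one_lt_card.ne'
    obtain ⟨χ0, hne, -⟩ := CfsgLib.Block.exists_ne_triv_not_dvd (G := G ⧸ U) hq hqd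
    refine hne (CfsgLib.Block.inflate_injective U (Subtype.ext
      (((hall (CfsgLib.Block.inflate U χ0)) fun p hp => ?_).trans rfl)))
    haveI := Fact.mk (hπ p hp).1
    haveI := CfsgLib.Core.normal_pPrimeCore (G := G) p
    haveI : Fintype (pPrimeCore p G) := Fintype.ofFinite _
    have hsolv : IsPSolvable p G :=
      CfsgLib.LocalFF.isPSolvable_of_solvable (Nat.card G) rfl inferInstance
    obtain ⟨B, hB, hmem, -, -⟩ := CfsgLib.Block.pSolvable_core_block (hM p hp)
      (θ := CfsgLib.Block.trivIrr (pPrimeCore p G)) hsolv rfl (fun g => rfl)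
    have hover : ∀ χ : IrrCharacter G,
        (∀ n ∈ pPrimeCore p G, (χ : G → ℂ) n = (χ : G → ℂ) 1) → χ ∈ B := by
      intro χ hker
      rw [hmem, CfsgLib.Block.Over]
      simp only [classInner, CfsgLib.Block.trivIrr, map_one, mul_one,
        fun n : pPrimeCore p G => hker n n.2, Finset.sum_const, Finset.card_univ, nsmul_eq_mul,
        ← Nat.card_eq_fintype_card]
      rw [inv_mul_cancel_left₀ (CfsgLib.Char.natCard_ne_zero (pPrimeCore p G))]
      exact CfsgLib.Block.irr_one_ne_zero χ
    have hBeq : B = principalBlock (M p) G :=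
      CfsgLib.Block.isPBlock_eq_blockOf (hM p hp) hB
        (hover (CfsgLib.Block.trivIrr G) fun _ _ => rfl)
    rw [← hBeq]
    refine hover _ fun n hn => CfsgLib.Block.inflate_ker U χ0 ?_
    exact (le_iSup₂ (f := fun p (_ : p ∈ π) => pPrimeCore p G) p hp : pPrimeCore p G ≤ U) hn
  · intro htop χ hχ
    have hle : U ≤ CfsgLib.Char.charKer χ.2.isCharacter' := by
      refine iSup₂_le fun p hp n hn => ?_
      haveI := Fact.mk (hπ p hp).1
      haveI := CfsgLib.Core.normal_pPrimeCore (G := G) p
      exact CfsgLib.Block.apply_eq_of_principal (hM p hp)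
        (CfsgLib.Core.not_dvd_card_pPrimeCore p) (hχ p hp) hn
    have h1 : ∀ x, (χ : G → ℂ) x = (χ : G → ℂ) 1 := fun x =>
      CfsgLib.Char.mem_charKer.1 (hle (htop ▸ Subgroup.mem_top x))
    have hd : charDegree (χ : G → ℂ) = 1 := by
      have h := CfsgLib.Char.irr_inner_self χ.2
      simp only [classInner, h1, CfsgLib.Block.irr_conj_one, Finset.sum_const, Finset.card_univ,
        nsmul_eq_mul, ← Nat.card_eq_fintype_card] at h
      rw [inv_mul_cancel_left₀ (CfsgLib.Char.natCard_ne_zero G),
        ← CfsgLib.Block.charDegree_cast χ.2.isCharacter', ← Nat.cast_mul, Nat.cast_eq_one] at h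
      exact Nat.eq_one_of_mul_eq_one_right h
    funext x
    rw [h1 x, ← CfsgLib.Block.charDegree_cast χ.2.isCharacter', hd, Nat.cast_one]

end Cfsg.Agent.S4611
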