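import Cfsg.Statements.S4620
import Cfsg.Agent.Lib.CoreBasic

set_option autoImplicit false
open scoped Pointwise
open Cfsg

namespace Cfsg.Agent.S4620

/-- A group with TI Sylow subgroup and trivial p-core has no two disjoint normal subgroups of order divisible by p. -/
theorem no_disjoint {X : Type*} [Group X] [Finite X] (p : ℕ) [Fact p.Prime]
    (hOp : Cfsg.pCore p X = ⊥) (P : Sylow p X)
    (hTI : ∀ g : X, g ∉ Subgroup.normalizer ((P : Subgroup X) : Set X) →
      (P : Subgroup X) ⊓ (MulAut.conj g • (P : Subgroup X)) = ⊥)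
    (A B : Subgroup X) (hA : A.Normal) (hB : B.Normal) (hpA : p ∣ Nat.card A)
    (hpB : p ∣ Nat.card B) (hAB : A ⊓ B = ⊥) : False := by
  classical
  have hpt : ∀ (C : Subgroup X), C.Normal → p ∣ Nat.card C →
      ∃ a ∈ C, a ∈ (P : Subgroup X) ∧ a ≠ 1 := by
    intro C hC hpC
    obtain ⟨c, hc⟩ := exists_prime_orderOf_dvd_card' (G := C) p hpC
    have hord : orderOf (c : X) = p := by rw [Subgroup.orderOf_coe, hc]
    have hpg : IsPGroup p (Subgroup.zpowers (c : X)) :=
      IsPGroup.of_card (n := 1) (by rw [Nat.card_zpowers, hord, pow_one])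
    obtain ⟨Q, hQ⟩ := hpg.exists_le_sylow
    obtain ⟨g, hg⟩ := MulAction.exists_smul_eq X Q P
    refine ⟨g * (c : X) * g⁻¹, hC.conj_mem _ c.2 g, ?_, ?_⟩
    · rw [← hg]
      change g * (c : X) * g⁻¹ ∈ MulAut.conj g • (Q : Subgroup X)
      exact Subgroup.mem_pointwise_smul_iff_inv_smul_mem.mpr
        (by simpa [MulAut.smul_def, MulAut.conj_inv_apply, mul_assoc] using hQ (Subgroup.mem_zpowers _))
    · intro h1
      have hc1 : (c : X) = 1 := conj_eq_one_iff.mp h1
      rw [hc1, orderOf_one] at hord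
      exact (Fact.out : p.Prime).ne_one hord.symm
  obtain ⟨a, haA, haP, ha1⟩ := hpt A hA hpA
  have hBN : B ≤ Subgroup.normalizer ((P : Subgroup X) : Set X) := by
    intro b hb
    by_contra hbn
    have h := hTI b hbn
    have hcomm : b * a = a * b :=
      Subgroup.commute_of_normal_of_disjoint B A hB hA
        (disjoint_iff.mpr (by rw [inf_comm]; exact hAB)) b a hb haA
    have hmem : a ∈ (P : Subgroup X) ⊓ (MulAut.conj b • (P : Subgroup X)) := by
      refine ⟨haP, Subgroup.mem_pointwise_smul_iff_inv_smul_mem.mpr ?_⟩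
      have : (MulAut.conj b)⁻¹ • a = a := by
        simp [MulAut.smul_def, MulAut.conj_inv_apply, mul_assoc, hcomm.symm]
      rw [this]; exact haP
    rw [h, Subgroup.mem_bot] at hmem
    exact ha1 hmem
  have hn : ((P : Subgroup X) ⊓ B).Normal := by
    constructor
    intro n hn g
    have hb : g * n * g⁻¹ ∈ B := hB.conj_mem n hn.2 g
    refine ⟨?_, hb⟩
    obtain ⟨k, hk⟩ := P.isPGroup' ⟨n, hn.1⟩
    have hk' : n ^ p ^ k = 1 := by simpa using congrArg Subtype.val hk
    have hpow : (g * n * g⁻¹) ^ p ^ k = 1 := by rw [conj_pow, hk']; simp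
    obtain ⟨i, -, hi⟩ := (Nat.dvd_prime_pow Fact.out).mp (orderOf_dvd_of_pow_eq_one hpow)
    have hQ : IsPGroup p (Subgroup.zpowers (g * n * g⁻¹)) :=
      IsPGroup.of_card (n := i) (by rw [Nat.card_zpowers, hi])
    have hle : Subgroup.zpowers (g * n * g⁻¹) ⊓ Subgroup.normalizer ((P : Subgroup X) : Set X) =
        Subgroup.zpowers (g * n * g⁻¹) ⊓ (P : Subgroup X) := hQ.inf_normalizer_sylow P
    have hmem : g * n * g⁻¹ ∈
        Subgroup.zpowers (g * n * g⁻¹) ⊓ Subgroup.normalizer ((P : Subgroup X) : Set X) :=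
      ⟨Subgroup.mem_zpowers _, hBN hb⟩
    rw [hle] at hmem
    exact hmem.2
  have hpg : IsPGroup p ((P : Subgroup X) ⊓ B : Subgroup X) := P.isPGroup'.to_le inf_le_left
  have hbot : (P : Subgroup X) ⊓ B = ⊥ := le_bot_iff.mp (hOp ▸ CfsgLib.Core.le_pCore hn hpg)
  obtain ⟨b, hbB, hbP, hb1⟩ := hpt B hB hpB
  exact hb1 (Subgroup.mem_bot.mp (hbot ▸ (⟨hbP, hbB⟩ : b ∈ (P : Subgroup X) ⊓ B)))

theorem dvd_of_normal {X : Type*} [Group X] [Finite X] (p : ℕ) [hp : Fact p.Prime]
    (hOp' : Cfsg.pPrimeCore p X = ⊥) (C : Subgroup X) (hC : C.Normal) (hC1 : C ≠ ⊥) :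
    p ∣ Nat.card C := by
  by_contra h
  exact hC1 (le_bot_iff.mp
    (hOp' ▸ CfsgLib.Core.le_pPrimeCore hC ((hp.out.coprime_iff_not_dvd.mpr h).symm)))

/-- Let H be a finite group with no nontrivial normal p-subgroup and no nontrivial normal subgroup of order prime to p, whose Sylow p-subgroup P is nontrivial and a trivial-intersection set (P meets its conjugates by elements outside N_H(P) trivially). Then H has a unique minimal normal subgroup N; N is non-abelian simple with trivial centralizer in H (so H embeds in Aut(N)), and a Sylow p-subgroup of N is again a nontrivial trivial-intersection set in N. -/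
theorem result {H : Type*} [Group H] [Finite H] (p : ℕ) [Fact p.Prime] (hOp : Cfsg.pCore p H = ⊥) (hOp' : Cfsg.pPrimeCore p H = ⊥) (P : Sylow p H) (hP1 : (P : Subgroup H) ≠ ⊥)
    (hTI : ∀ g : H, g ∉ Subgroup.normalizer ((P : Subgroup H) : Set H) → (P : Subgroup H) ⊓ (MulAut.conj g • (P : Subgroup H)) = ⊥) :
    ∃ N : Subgroup H, N.Normal ∧ N ≠ ⊥ ∧ (∀ K : Subgroup H, K.Normal → K ≠ ⊥ → N ≤ K) ∧
      IsSimpleGroup N ∧ ¬ IsMulCommutative N ∧ Subgroup.centralizer (N : Set H) = ⊥ ∧
      ∀ Q : Sylow p N, (Q : Subgroup N) ≠ ⊥ ∧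
        ∀ n : N, n ∉ Subgroup.normalizer ((Q : Subgroup N) : Set N) → (Q : Subgroup N) ⊓ (MulAut.conj n • (Q : Subgroup N)) = ⊥ := by
  classical
  have hne : Nontrivial H := by
    by_contra h
    rw [not_nontrivial_iff_subsingleton] at h
    exact hP1 (Subsingleton.elim _ _)
  obtain ⟨N, ⟨hN, hN1⟩, hmin⟩ := (wellFounded_lt (α := Subgroup H)).has_min
    {K : Subgroup H | K.Normal ∧ K ≠ ⊥} ⟨⊤, ⟨inferInstance, top_ne_bot⟩⟩
  have hmin' : ∀ K : Subgroup H, K.Normal → K ≠ ⊥ → K ≤ N → K = N := fun K hK hK1 hle => by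
    by_contra hne'
    exact hmin K ⟨hK, hK1⟩ (lt_of_le_of_ne hle hne')
  have huniq : ∀ K : Subgroup H, K.Normal → K ≠ ⊥ → N ≤ K := by
    intro K hK hK1
    by_cases hd : N ⊓ K = ⊥
    · exact absurd hd fun hd => no_disjoint p hOp P hTI N K hN hK (dvd_of_normal p hOp' N hN hN1)
        (dvd_of_normal p hOp' K hK hK1) hd
    · have := hmin' (N ⊓ K) (Subgroup.normal_inf_normal N K) hd inf_le_left
      exact le_trans this.ge inf_le_right
  have hpN := dvd_of_normal p hOp' N hN hN1
  have hOpN : Cfsg.pCore p N = ⊥ := by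
    refine (Subgroup.map_eq_bot_iff_of_injective _ N.subtype_injective).mp ?_
    exact le_bot_iff.mp (hOp ▸ CfsgLib.Core.pCore_map_subtype_le (p := p) hN)
  have hOpN' : Cfsg.pPrimeCore p N = ⊥ := by
    refine (Subgroup.map_eq_bot_iff_of_injective _ N.subtype_injective).mp ?_
    exact le_bot_iff.mp (hOp' ▸ CfsgLib.Core.pPrimeCore_map_subtype_le (p := p) hN)
  have hna : ¬ IsMulCommutative N := by
    intro hc
    obtain ⟨Q⟩ : Nonempty (Sylow p N) := inferInstance
    have hQn : (Q : Subgroup N).Normal := ⟨fun n hn g => by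
      rwa [hc.is_comm.comm g n, mul_inv_cancel_right]⟩
    have hle := CfsgLib.Core.le_pCore hQn Q.isPGroup'
    rw [hOpN, le_bot_iff] at hle
    exact Q.ne_bot_of_dvd_card hpN hle
  have hsyl : ∀ Q : Sylow p N, (Q : Subgroup N) ≠ ⊥ ∧
        ∀ n : N, n ∉ Subgroup.normalizer ((Q : Subgroup N) : Set N) →
          (Q : Subgroup N) ⊓ (MulAut.conj n • (Q : Subgroup N)) = ⊥ := by
    intro Q
    refine ⟨Q.ne_bot_of_dvd_card hpN, fun n hn => ?_⟩
    obtain ⟨R, hR⟩ := Q.exists_comap_subtype_eq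
    obtain ⟨g, hg⟩ := MulAction.exists_smul_eq H P R
    by_contra hne'
    obtain ⟨x, hx, hx1⟩ := (Subgroup.ne_bot_iff_exists_ne_one).mp hne' |>.elim
      (fun x hx => (⟨(x : N), x.2, fun h => hx (Subtype.ext h)⟩ :
        ∃ x : N, x ∈ (Q : Subgroup N) ⊓ (MulAut.conj n • (Q : Subgroup N)) ∧ x ≠ 1))
    have hxR : (x : H) ∈ (R : Subgroup H) := by
      have := hx.1; rw [← hR] at this; exact this
    have hxR' : (n : H)⁻¹ * (x : H) * (n : H) ∈ (R : Subgroup H) := by
      have h2 := Subgroup.mem_pointwise_smul_iff_inv_smul_mem.mp hx.2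
      rw [← hR] at h2
      simpa [MulAut.smul_def, MulAut.conj_inv_apply, mul_assoc, Subgroup.mem_subgroupOf] using h2
    have hmemR : ∀ y : H, y ∈ (R : Subgroup H) → g⁻¹ * y * g ∈ (P : Subgroup H) := by
      intro y hy
      rw [← hg] at hy
      have h2 := Subgroup.mem_pointwise_smul_iff_inv_smul_mem.mp
        (show y ∈ MulAut.conj g • (P : Subgroup H) from hy)
      simpa [MulAut.smul_def, MulAut.conj_inv_apply, mul_assoc] using h2
    have hm : g⁻¹ * (n : H) * g ∈ Subgroup.normalizer ((P : Subgroup H) : Set H) := by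
      by_contra hm
      have h0 := hTI _ hm
      have hmem : g⁻¹ * (x : H) * g ∈
          (P : Subgroup H) ⊓ (MulAut.conj (g⁻¹ * (n : H) * g) • (P : Subgroup H)) := by
        refine ⟨hmemR _ hxR, Subgroup.mem_pointwise_smul_iff_inv_smul_mem.mpr ?_⟩
        have e : (MulAut.conj (g⁻¹ * (n : H) * g))⁻¹ • (g⁻¹ * (x : H) * g) =
            g⁻¹ * ((n : H)⁻¹ * (x : H) * (n : H)) * g := by
          simp [MulAut.smul_def, MulAut.conj_inv_apply, mul_assoc]
        rw [e]; exact hmemR _ hxR'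
      rw [h0, Subgroup.mem_bot] at hmem
      apply hx1
      ext
      have h3 := congrArg (fun z => g * z * g⁻¹) hmem
      simpa [mul_assoc] using h3
    have hnR : (n : H) ∈ Subgroup.normalizer ((R : Subgroup H) : Set H) := by
      have hRP : ∀ y : H, y ∈ (R : Subgroup H) ↔ g⁻¹ * y * g ∈ (P : Subgroup H) := by
        intro y
        rw [← hg]
        change y ∈ MulAut.conj g • (P : Subgroup H) ↔ _
        rw [Subgroup.mem_pointwise_smul_iff_inv_smul_mem]
        simp [MulAut.smul_def, MulAut.conj_inv_apply, mul_assoc]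
      rw [Subgroup.mem_normalizer_iff]
      intro y
      rw [hRP, hRP, Subgroup.mem_normalizer_iff.mp hm (g⁻¹ * y * g)]
      exact Iff.of_eq (congrArg (fun z => z ∈ (P : Subgroup H)) (by group))
    apply hn
    rw [Subgroup.mem_normalizer_iff]
    intro y
    rw [← hR]
    exact Subgroup.mem_normalizer_iff.mp hnR (y : H)
  have hsimple : IsSimpleGroup N := by
    haveI : Nontrivial N := Subgroup.nontrivial_iff_ne_bot N |>.mpr hN1
    refine ⟨fun L hL => ?_⟩
    by_cases hL1 : L = ⊥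
    · exact Or.inl hL1
    right
    obtain ⟨Q⟩ : Nonempty (Sylow p N) := inferInstance
    obtain ⟨M, ⟨hM, hM1, hML⟩, hMmin⟩ := (wellFounded_lt (α := Subgroup N)).has_min
      {K : Subgroup N | K.Normal ∧ K ≠ ⊥ ∧ K ≤ L} ⟨L, ⟨hL, hL1, le_rfl⟩⟩
    by_contra hLtop
    have hMH : ¬ (M.map N.subtype).Normal := by
      intro hn'
      have h1 : M.map N.subtype ≠ ⊥ := fun h =>
        hM1 ((Subgroup.map_eq_bot_iff_of_injective _ N.subtype_injective).mp h)
      have h2 := hmin' _ hn' h1 (Subgroup.map_subtype_le M)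
      apply hLtop
      rw [eq_top_iff]
      intro x _
      have hx : (x : H) ∈ M.map N.subtype := by rw [h2]; exact x.2
      obtain ⟨y, hy, hy'⟩ := hx
      exact hML (N.subtype_injective hy' ▸ hy)
    obtain ⟨g, hg⟩ : ∃ g : H, ∃ m : N, m ∈ M ∧
        (⟨g * m * g⁻¹, hN.conj_mem m m.2 g⟩ : N) ∉ M := by
      by_contra h
      push Not at h
      apply hMH
      constructor
      rintro x ⟨y, hy, rfl⟩ g
      exact ⟨_, h g y hy, rfl⟩
    obtain ⟨m, hm, hgm⟩ := hg
    haveI := hN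
    let φ : N ≃* N := MulAut.conjNormal g
    have hM' : (M.map φ.toMonoidHom).Normal := hM.map _ φ.surjective
    have hpM := dvd_of_normal p hOpN' M hM hM1
    have hpM' : p ∣ Nat.card (M.map φ.toMonoidHom) := by
      rwa [Subgroup.card_map_of_injective (f := φ.toMonoidHom) φ.injective]
    refine no_disjoint p hOpN Q (hsyl Q).2 M _ hM hM' hpM hpM' ?_
    by_contra hne'
    have hinf : M ⊓ M.map φ.toMonoidHom = M := by
      by_contra h3
      exact hMmin _ ⟨Subgroup.normal_inf_normal _ _, hne', le_trans inf_le_left hML⟩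
        (lt_of_le_of_ne inf_le_left h3)
    have heq : M = M.map φ.toMonoidHom := CfsgLib.Core.eq_of_le_of_card_le (inf_eq_left.mp hinf)
      (by rw [Subgroup.card_map_of_injective (f := φ.toMonoidHom) φ.injective])
    apply hgm
    rw [heq]
    exact ⟨m, hm, Subtype.ext (by simp [φ, MulAut.conjNormal_apply])⟩
  refine ⟨N, hN, hN1, huniq, hsimple, hna, ?_, hsyl⟩
  by_contra hC
  haveI := hN
  have hle := huniq (Subgroup.centralizer (N : Set H)) inferInstance hC
  exact hna ⟨⟨fun a b => Subtype.ext ((Subgroup.mem_centralizer_iff.mp (hle b.2)) a a.2)⟩⟩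

end Cfsg.Agent.S4620
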