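import Cfsg.Statements.S4623
import Mathlib.GroupTheory.Sylow
import Mathlib.GroupTheory.Perm.Cycle.Type
import Mathlib.GroupTheory.SpecificGroups.Alternating
import Mathlib.GroupTheory.Abelianization.Defs
import Cfsg.Agent.Lib.CorePGroup

set_option autoImplicit false
set_option maxHeartbeats 400000
open Cfsg

namespace Cfsg.Agent.S4623

open Equiv Equiv.Perm Subgroup

variable {n : ℕ} {p : ℕ} [hp : Fact p.Prime]

/-- `σ` moves only points of `s` -/
def Supp (σ : Perm (Fin n)) (s : Finset (Fin n)) : Prop := ∀ x, x ∉ s → σ x = x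

theorem Supp.mem {σ : Perm (Fin n)} {s : Finset (Fin n)} (h : Supp σ s) {x : Fin n} (hx : x ∈ s) : σ x ∈ s := by
  by_contra hc
  exact hc (by rw [σ.injective (h _ hc)]; exact hx)

/-- the restriction of a permutation to an invariant set -/
noncomputable def restr (σ : Perm (Fin n)) (B : Finset (Fin n)) : Perm (Fin n) :=
  if h : ∀ x, σ x ∈ B ↔ x ∈ B then Perm.ofSubtype (σ.subtypePerm h) else 1

theorem restr_apply {σ : Perm (Fin n)} {B : Finset (Fin n)} (h : ∀ x, σ x ∈ B ↔ x ∈ B) (x : Fin n) :
    restr σ B x = if x ∈ B then σ x else x := by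
  rw [restr, dif_pos h]
  split_ifs with hx
  · rw [Perm.ofSubtype_apply_of_mem _ hx]; rfl
  · rw [Perm.ofSubtype_apply_of_not_mem _ hx]

/-- maximal among the `p`-subgroups moving only points of `s` -/
def MaxOn (p : ℕ) (P : Subgroup (Perm (Fin n))) (s : Finset (Fin n)) : Prop :=
  IsPGroup p P ∧ (∀ g ∈ P, Supp g s) ∧
    ∀ X : Subgroup (Perm (Fin n)), IsPGroup p X → (∀ g ∈ X, Supp g s) → P ≤ X → X ≤ P

/-- a generating set of elements of order dividing `p` with commuting odd members -/
def Good (p : ℕ) (P : Subgroup (Perm (Fin n))) : Prop :=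
  ∃ T : Set (Perm (Fin n)), closure T = P ∧ (∀ t ∈ T, t ^ p = 1) ∧
    ∀ t ∈ T, ∀ u ∈ T, sign t ≠ 1 → sign u ≠ 1 → t * u = u * t

theorem supp_sup {P Q : Subgroup (Perm (Fin n))} {s : Finset (Fin n)} (hP : ∀ g ∈ P, Supp g s) (hQ : ∀ g ∈ Q, Supp g s) :
    ∀ g ∈ P ⊔ Q, Supp g s := by
  let S : Subgroup (Perm (Fin n)) :=
    { carrier := {g | Supp g s}
      one_mem' := fun x _ => rfl
      mul_mem' := fun {a b} ha hb x hx => by rw [Perm.mul_apply, hb x hx, ha x hx]
      inv_mem' := fun {a} ha x hx => by rw [Perm.inv_eq_iff_eq]; exact (ha x hx).symm }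
  exact (sup_le (c := S) hP hQ)

theorem good_of_maxOn : ∀ (k : ℕ) (s : Finset (Fin n)), s.card ≤ k → ∀ P : Subgroup (Perm (Fin n)), MaxOn p P s → Good p P := by
  classical
  intro k
  induction k with
  | zero =>
    rintro s hs P ⟨-, hsupp, -⟩
    refine ⟨∅, ?_, by simp, by simp⟩
    rw [Subgroup.closure_empty, eq_comm, eq_bot_iff]
    intro g hg
    rw [mem_bot]
    ext x
    rw [hsupp g hg x (by rw [Finset.card_eq_zero.1 (Nat.le_zero.1 hs)]; simp)]
    rfl
  | succ k ih =>
    intro s hs P hmax
    obtain ⟨hP, hsupp, hmx⟩ := hmax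
    by_cases hP1 : P = ⊥
    · exact ⟨∅, by rw [Subgroup.closure_empty, hP1], by simp, by simp⟩
    by_cases htr : ∀ a ∈ s, ∀ b ∈ s, ∃ g ∈ P, g a = b
    swap
    · -- intransitive
      push Not at htr
      obtain ⟨a, ha, b, hb, hab⟩ := htr
      let B : Finset (Fin n) := s.filter fun c => ∃ g ∈ P, g a = c
      let C : Finset (Fin n) := s \ B
      have hBi : ∀ g ∈ P, ∀ x, g x ∈ B ↔ x ∈ B := by
        intro g hg x
        simp only [B, Finset.mem_filter]
        constructor
        · rintro ⟨-, h, hh, e⟩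
          have hx : (g⁻¹ * h) a = x := by rw [Perm.mul_apply, e]; simp
          exact ⟨hx ▸ (hsupp _ (P.mul_mem (P.inv_mem hg) hh)).mem ha, _, P.mul_mem (P.inv_mem hg) hh, hx⟩
        · rintro ⟨hxs, h, hh, e⟩
          exact ⟨(hsupp g hg).mem hxs, g * h, P.mul_mem hg hh, by rw [Perm.mul_apply, e]⟩
      have hCi : ∀ g ∈ P, ∀ x, g x ∈ C ↔ x ∈ C := by
        intro g hg x
        simp only [C, Finset.mem_sdiff, hBi g hg x]
        refine and_congr ⟨fun h => ?_, fun h => (hsupp g hg).mem h⟩ Iff.rfl
        by_contra hx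
        exact hx (hsupp g hg x hx ▸ h)
      have hcardB : B.card ≤ k := by
        have hlt : B.card < s.card := Finset.card_lt_card (Finset.ssubset_iff_subset_ne.2 ⟨Finset.filter_subset _ _, fun e => by
          have : b ∈ B := e ▸ hb
          obtain ⟨-, g, hg, hgb⟩ := Finset.mem_filter.1 this
          exact hab g hg hgb⟩)
        omega
      have hcardC : C.card ≤ k := by
        have hlt : C.card < s.card := Finset.card_lt_card (Finset.ssubset_iff_subset_ne.2 ⟨Finset.sdiff_subset, fun e => by
          have h1 : a ∈ B := Finset.mem_filter.2 ⟨ha, 1, P.one_mem, rfl⟩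
          have h2 : a ∈ C := e ▸ ha
          exact (Finset.mem_sdiff.1 h2).2 h1⟩)
        omega
      let ρ : ∀ (D : Finset (Fin n)), (∀ g ∈ P, ∀ x, g x ∈ D ↔ x ∈ D) → (P →* Perm (Fin n)) := fun D hD =>
        MonoidHom.mk' (fun g => restr (g : Perm (Fin n)) D) (fun g h => by
          ext x
          rw [Perm.mul_apply, restr_apply (hD _ h.2), restr_apply (hD _ g.2), restr_apply (hD _ (g * h).2)]
          by_cases hx : x ∈ D
          · simp [hx, (hD _ h.2 x).2 hx]
          · simp [hx])
      let PB := (ρ B hBi).range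
      let PC := (ρ C hCi).range
      have hsB : ∀ g ∈ PB, Supp g B := by
        rintro _ ⟨g, rfl⟩ x hx
        show restr _ _ x = x
        rw [restr_apply (hBi _ g.2), if_neg hx]
      have hsC : ∀ g ∈ PC, Supp g C := by
        rintro _ ⟨g, rfl⟩ x hx
        show restr _ _ x = x
        rw [restr_apply (hCi _ g.2), if_neg hx]
      have hcomm : ∀ σ τ : Perm (Fin n), Supp σ B → Supp τ C → σ * τ = τ * σ := by
        intro σ τ h1 h2
        refine (Perm.Disjoint.commute fun x => ?_).eq
        by_cases hx : x ∈ B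
        · exact Or.inr (h2 x fun h => (Finset.mem_sdiff.1 h).2 hx)
        · exact Or.inl (h1 x hx)
      have hdec : ∀ g : P, (g : Perm (Fin n)) = ρ B hBi g * ρ C hCi g := by
        intro g
        ext x
        show (((g : Perm (Fin n)) x : Fin n) : ℕ) = (((restr (g : Perm (Fin n)) B * restr (g : Perm (Fin n)) C) x : Fin n) : ℕ)
        rw [Perm.mul_apply, restr_apply (hCi _ g.2), restr_apply (hBi _ g.2)]
        by_cases hx : x ∈ C
        · have h1 : (g : Perm (Fin n)) x ∉ B := (Finset.mem_sdiff.1 ((hCi _ g.2 x).2 hx)).2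
          simp [hx, h1]
        · by_cases hxB : x ∈ B
          · simp [hx, hxB]
          · have hxs : x ∉ s := fun h => hx (Finset.mem_sdiff.2 ⟨h, hxB⟩)
            simp [hx, hxB, hsupp _ g.2 x hxs]
      have hjoin : ∀ X Y : Subgroup (Perm (Fin n)), IsPGroup p X → IsPGroup p Y → (∀ g ∈ X, Supp g B) → (∀ g ∈ Y, Supp g C) →
          PB ≤ X → PC ≤ Y → X ⊔ Y ≤ P := by
        intro X Y hX hY hsX hsY hBX hCY
        refine hmx _ ?_ (supp_sup (fun g hg x hx => hsX g hg x fun h => hx (Finset.mem_filter.1 h).1)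
          (fun g hg x hx => hsY g hg x fun h => hx (Finset.mem_sdiff.1 h).1)) ?_
        · refine hX.to_sup_of_normal_right' hY ?_
          intro σ hσ
          rw [Subgroup.mem_normalizer_iff]
          intro τ
          have e : ∀ τ ∈ Y, σ * τ * σ⁻¹ = τ := fun τ hτ => by rw [hcomm σ τ (hsX σ hσ) (hsY τ hτ), mul_inv_cancel_right]
          refine ⟨fun hτ => by rw [e τ hτ]; exact hτ, fun hτ => ?_⟩
          have h2 := e _ hτ
          have h3 : σ * τ * σ⁻¹ = τ := mul_left_cancel (mul_right_cancel h2)
          exact h3 ▸ hτ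
        · intro g hg
          rw [show g = _ from hdec ⟨g, hg⟩]
          exact (X ⊔ Y).mul_mem (mem_sup_left (hBX ⟨⟨g, hg⟩, rfl⟩)) (mem_sup_right (hCY ⟨⟨g, hg⟩, rfl⟩))
      have hpB : IsPGroup p PB := hP.of_surjective (ρ B hBi).rangeRestrict (ρ B hBi).rangeRestrict_surjective
      have hpC : IsPGroup p PC := hP.of_surjective (ρ C hCi).rangeRestrict (ρ C hCi).rangeRestrict_surjective
      have hfix : ∀ (D : Finset (Fin n)) (hD : ∀ g ∈ P, ∀ x, g x ∈ D ↔ x ∈ D) (g : Perm (Fin n)) (hg : g ∈ P),
          Supp g D → ρ D hD ⟨g, hg⟩ = g := fun D hD g hg hsg => by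
        ext x
        show ((restr g D) x : ℕ) = (g x : ℕ)
        rw [restr_apply (hD g hg)]
        split_ifs with hx
        · rfl
        · rw [hsg x hx]
      have hmB : MaxOn p PB B := ⟨hpB, hsB, fun X hX hsX hle g hg =>
        ⟨⟨g, hjoin X PC hX hpC hsX hsC hle le_rfl (mem_sup_left hg)⟩, hfix B hBi g _ (hsX g hg)⟩⟩
      have hmC : MaxOn p PC C := ⟨hpC, hsC, fun X hX hsX hle g hg =>
        ⟨⟨g, hjoin PB X hpB hX hsB hsX le_rfl hle (mem_sup_right hg)⟩, hfix C hCi g _ (hsX g hg)⟩⟩
      obtain ⟨T, hT, hTp, hTc⟩ := ih B hcardB PB hmB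
      obtain ⟨U, hU, hUp, hUc⟩ := ih C hcardC PC hmC
      refine ⟨T ∪ U, ?_, fun t ht => ht.elim (hTp t) (hUp t), ?_⟩
      · rw [Subgroup.closure_union, hT, hU]
        refine le_antisymm (hjoin PB PC hpB hpC hsB hsC le_rfl le_rfl) fun g hg => ?_
        rw [show g = _ from hdec ⟨g, hg⟩]
        exact (PB ⊔ PC).mul_mem (mem_sup_left ⟨_, rfl⟩) (mem_sup_right ⟨_, rfl⟩)
      · rintro t (ht | ht) u (hu | hu) h1 h2
        · exact hTc t ht u hu h1 h2
        · exact hcomm t u (hsB t (hT ▸ subset_closure ht)) (hsC u (hU ▸ subset_closure hu))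
        · exact (hcomm u t (hsB u (hT ▸ subset_closure hu)) (hsC t (hU ▸ subset_closure ht))).symm
        · exact hUc t ht u hu h1 h2
    -- transitive
    obtain ⟨g₀, hg₀, hg₀1⟩ := P.ne_bot_iff_exists_ne_one.1 hP1 |> fun ⟨x, hx⟩ => (⟨x.1, x.2, fun h => hx (Subtype.ext h)⟩ : ∃ g ∈ P, g ≠ 1)
    obtain ⟨a, ha, hga⟩ : ∃ a ∈ s, g₀ a ≠ a := by
      by_contra hc
      push Not at hc
      apply hg₀1
      ext x
      by_cases hx : x ∈ s
      · rw [hc x hx]; rfl
      · rw [hsupp g₀ hg₀ x hx]; rfl
    let St : Subgroup P :=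
      { carrier := {g | (g : Perm (Fin n)) a = a}
        one_mem' := rfl
        mul_mem' := fun {g h} hg hh => show ((g * h : P) : Perm (Fin n)) a = a by rw [Subgroup.coe_mul, Perm.mul_apply]; exact (congrArg _ hh).trans hg
        inv_mem' := fun {g} hg => show ((g⁻¹ : P) : Perm (Fin n)) a = a by rw [Subgroup.coe_inv, Perm.inv_eq_iff_eq]; exact hg.symm }
    have hSt : St ≠ ⊤ := fun h => hga (show (⟨g₀, hg₀⟩ : P) ∈ St by rw [h]; trivial)
    obtain ⟨M, hM, hle⟩ := (eq_top_or_exists_le_coatom St).resolve_left hSt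
    obtain ⟨hMn, hMi⟩ := CfsgLib.Core.index_of_coatom_pgroup hP hM
    haveI := hMn
    let B : Finset (Fin n) := s.filter fun c => ∃ m ∈ M, (m : Perm (Fin n)) a = c
    have haB : a ∈ B := Finset.mem_filter.2 ⟨ha, 1, M.one_mem, rfl⟩
    have hBM : ∀ g : P, ∀ b ∈ B, (g : Perm (Fin n)) b ∈ B → g ∈ M := by
      intro g b hb hgb
      obtain ⟨-, m, hm, rfl⟩ := Finset.mem_filter.1 hb
      obtain ⟨-, m', hm', e⟩ := Finset.mem_filter.1 hgb
      have h1 : m'⁻¹ * g * m ∈ M := hle (show ((m'⁻¹ * g * m : P) : Perm (Fin n)) a = a by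
        simp only [Subgroup.coe_mul, Subgroup.coe_inv, Perm.mul_apply]
        rw [Perm.inv_eq_iff_eq]; exact e.symm)
      have := M.mul_mem (M.mul_mem hm' h1) (M.inv_mem hm)
      simpa [mul_assoc] using this
    have hMB : ∀ m ∈ M, ∀ x, ((m : P) : Perm (Fin n)) x ∈ B ↔ x ∈ B := by
      have aux : ∀ m ∈ M, ∀ x ∈ B, ((m : P) : Perm (Fin n)) x ∈ B := by
        intro m hm x hx
        obtain ⟨hxs, m', hm', rfl⟩ := Finset.mem_filter.1 hx
        exact Finset.mem_filter.2 ⟨(hsupp _ m.2).mem hxs, m * m', M.mul_mem hm hm', by rw [Subgroup.coe_mul, Perm.mul_apply]⟩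
      intro m hm x
      refine ⟨fun h => ?_, aux m hm x⟩
      have := aux m⁻¹ (M.inv_mem hm) _ h
      simpa using this
    let ρ : M →* Perm (Fin n) := MonoidHom.mk' (fun m => restr ((m : P) : Perm (Fin n)) B) (fun g h => by
      ext x
      rw [Perm.mul_apply, restr_apply (hMB _ h.2), restr_apply (hMB _ g.2), restr_apply (hMB _ (g * h).2)]
      by_cases hx : x ∈ B
      · simp [hx, (hMB _ h.2 x).2 hx]
      · simp [hx])
    let M0 := ρ.range
    have hρ : ∀ (m : M) x, ρ m x = if x ∈ B then ((m : P) : Perm (Fin n)) x else x := fun m x => restr_apply (hMB _ m.2) x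
    have hs0 : ∀ g ∈ M0, Supp g B := by
      rintro _ ⟨m, rfl⟩ x hx
      rw [hρ, if_neg hx]
    have hp0 : IsPGroup p M0 := (hP.to_subgroup M).of_surjective ρ.rangeRestrict ρ.rangeRestrict_surjective
    -- every larger group on the block lies in `P`
    have hbig : ∀ X : Subgroup (Perm (Fin n)), IsPGroup p X → (∀ g ∈ X, Supp g B) → M0 ≤ X → X ≤ P := by
      intro X hX hsX hle0
      let W : Subgroup (Perm (Fin n)) :=
        { carrier := {σ | Supp σ s ∧ ∀ g : P, ∃ ξ ∈ X, ∀ b ∈ B, σ ((g : Perm (Fin n)) b) = (g : Perm (Fin n)) (ξ b)}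
          one_mem' := ⟨fun x _ => rfl, fun g => ⟨1, X.one_mem, fun b _ => rfl⟩⟩
          mul_mem' := fun {σ τ} hσ hτ => ⟨fun x hx => by rw [Perm.mul_apply, hτ.1 x hx, hσ.1 x hx], fun g => by
            obtain ⟨ξ, hξ, h1⟩ := hσ.2 g
            obtain ⟨η, hη, h2⟩ := hτ.2 g
            exact ⟨ξ * η, X.mul_mem hξ hη, fun b hb => by rw [Perm.mul_apply, h2 b hb, h1 _ ((hsX η hη).mem hb)]; rfl⟩⟩
          inv_mem' := fun {σ} hσ => ⟨fun x hx => by rw [Perm.inv_eq_iff_eq]; exact (hσ.1 x hx).symm, fun g => by
            obtain ⟨ξ, hξ, h1⟩ := hσ.2 g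
            exact ⟨ξ⁻¹, X.inv_mem hξ, fun b hb => by
              rw [Perm.inv_eq_iff_eq, h1 _ ((hsX _ (X.inv_mem hξ)).mem hb)]
              simp⟩⟩ }
      have hWp : IsPGroup p W := by
        obtain ⟨e, he⟩ := IsPGroup.iff_card.1 hX
        intro σ
        refine ⟨e, Subtype.ext (Equiv.ext fun x => ?_)⟩
        rw [Subgroup.coe_pow]
        by_cases hx : x ∈ s
        · obtain ⟨g, hg, rfl⟩ := htr a ha x hx
          obtain ⟨ξ, hξ, h1⟩ := σ.2.2 ⟨g, hg⟩
          have hj : ∀ j : ℕ, ∀ b ∈ B, ((σ : Perm (Fin n)) ^ j) (g b) = g ((ξ ^ j) b) := by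
            intro j
            induction j with
            | zero => intro b _; rfl
            | succ j ihj =>
              intro b hb
              rw [pow_succ', Perm.mul_apply, ihj b hb, h1 _ ((hsX _ (X.pow_mem hξ j)).mem hb), pow_succ', Perm.mul_apply]
          have h2 : ξ ^ p ^ e = 1 := by
            rw [← he]; exact congrArg Subtype.val (pow_card_eq_one' (x := (⟨ξ, hξ⟩ : X)))
          rw [hj _ a haB, h2]
          rfl
        · have : Supp ((σ : Perm (Fin n)) ^ p ^ e) s := (W.pow_mem σ.2 _).1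
          exact this x hx
      have hWn : P ≤ normalizer (W : Set (Perm (Fin n))) := by
        have aux : ∀ h ∈ P, ∀ σ ∈ W, h * σ * h⁻¹ ∈ W := by
          intro h hh σ hσ
          refine ⟨fun x hx => ?_, fun g => ?_⟩
          · rw [Perm.mul_apply, Perm.mul_apply, hsupp _ (P.inv_mem hh) x hx, hσ.1 x hx, hsupp h hh x hx]
          · obtain ⟨ξ, hξ, h1⟩ := hσ.2 (⟨h, hh⟩⁻¹ * g)
            refine ⟨ξ, hξ, fun b hb => ?_⟩
            have := h1 b hb
            simp only [Subgroup.coe_mul, Subgroup.coe_inv, Perm.mul_apply] at this ⊢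
            rw [this]; simp
        intro h hh
        rw [mem_normalizer_iff]
        intro σ
        refine ⟨aux h hh σ, fun hσ => ?_⟩
        have := aux h⁻¹ (P.inv_mem hh) _ hσ
        simpa [mul_assoc] using this
      have hW : W ⊔ P ≤ P := hmx _ (hWp.to_sup_of_normal_left' hP hWn) (supp_sup (fun g hg => hg.1) hsupp) le_sup_right
      intro ξ hξ
      refine hW (mem_sup_left ⟨fun x hx => hsX ξ hξ x fun h => hx (Finset.mem_filter.1 h).1, fun g => ?_⟩)
      by_cases hg : g ∈ M
      · have hρg : ρ ⟨g, hg⟩ ∈ X := hle0 ⟨_, rfl⟩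
        refine ⟨(ρ ⟨g, hg⟩)⁻¹ * ξ * ρ ⟨g, hg⟩, X.mul_mem (X.mul_mem (X.inv_mem hρg) hξ) hρg, fun b hb => ?_⟩
        rw [Perm.mul_apply, Perm.mul_apply, hρ _ b, if_pos hb]
        have hc : ((g : Perm (Fin n)) b) ∈ B := (hMB g hg b).2 hb
        have hd : ξ ((g : Perm (Fin n)) b) ∈ B := (hsX ξ hξ).mem hc
        have hi := (hsX _ (X.inv_mem hρg)).mem hd
        have h3 := hρ ⟨g, hg⟩ ((ρ ⟨g, hg⟩)⁻¹ (ξ ((g : Perm (Fin n)) b)))
        rw [if_pos hi] at h3
        rw [← h3]
        simp
      · refine ⟨1, X.one_mem, fun b hb => ?_⟩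
        rw [Perm.one_apply]
        exact hsX ξ hξ _ fun h => hg (hBM g b hb h)
    have hM0P : M0 ≤ P := hbig M0 hp0 hs0 le_rfl
    have hmax0 : MaxOn p M0 B := ⟨hp0, hs0, fun X hX hsX hle0 ξ hξ => by
      have hξP := hbig X hX hsX hle0 hξ
      have hm : (⟨ξ, hξP⟩ : P) ∈ M := hBM _ a haB ((hsX ξ hξ).mem haB)
      refine ⟨⟨_, hm⟩, Equiv.ext fun x => ?_⟩
      rw [hρ]
      split_ifs with hx
      · rfl
      · exact (hsX ξ hξ x hx).symm⟩
    -- an element of order `p` outside `M`
    have hMne : M ≠ ⊤ := hM.1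
    obtain ⟨x₀, -, hx₀⟩ := SetLike.exists_of_lt (lt_top_iff_ne_top.2 hMne)
    have hxp : x₀ ^ p ∈ M := hMi ▸ M.pow_index_mem x₀
    let z : Perm (Fin n) := (ρ ⟨x₀ ^ p, hxp⟩)⁻¹
    have hzM0 : z ∈ M0 := M0.inv_mem ⟨_, rfl⟩
    let yv : Perm (Fin n) := (x₀ : Perm (Fin n)) * z
    let y : P := ⟨yv, P.mul_mem x₀.2 (hM0P hzM0)⟩
    have hzM : (⟨z, hM0P hzM0⟩ : P) ∈ M := hBM _ a haB ((hs0 z hzM0).mem haB)
    have hyM : y ∉ M := by
      intro h
      apply hx₀
      have e : y = x₀ * ⟨z, hM0P hzM0⟩ := rfl
      rw [e] at h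
      exact (M.mul_mem_cancel_right hzM).1 h
    have hpow : ∀ i : ℕ, y ^ i ∈ M → p ∣ i := by
      intro i hi
      by_contra hd
      apply hyM
      have hy1 : (QuotientGroup.mk' M y) ^ i = 1 := by rw [← map_pow]; exact (QuotientGroup.eq_one_iff _).2 hi
      have hy2 : (QuotientGroup.mk' M y) ^ p = 1 := by rw [← map_pow]; exact (QuotientGroup.eq_one_iff _).2 (hMi ▸ M.pow_index_mem y)
      have hcop : Nat.gcd i p = 1 := ((hp.out.coprime_iff_not_dvd).2 hd).symm
      have := pow_gcd_eq_one.2 ⟨hy1, hy2⟩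
      rw [hcop, pow_one] at this
      exact (QuotientGroup.eq_one_iff _).1 this
    have hyB : ∀ b ∈ B, (yv ^ p) b = b := by
      intro b hb
      have hxnot : ∀ i : ℕ, 0 < i → i < p → ∀ c ∈ B, ((x₀ : Perm (Fin n)) ^ i) c ∉ B := by
        intro i hi0 hip c hc h
        have h1 : x₀ ^ i ∈ M := hBM (x₀ ^ i) c hc (by rwa [Subgroup.coe_pow])
        apply hx₀
        have hy1 : (QuotientGroup.mk' M x₀) ^ i = 1 := by rw [← map_pow]; exact (QuotientGroup.eq_one_iff _).2 h1
        have hy2 : (QuotientGroup.mk' M x₀) ^ p = 1 := by rw [← map_pow]; exact (QuotientGroup.eq_one_iff _).2 hxp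
        have hcop : Nat.gcd i p = 1 := ((hp.out.coprime_iff_not_dvd).2 fun hd => absurd (Nat.le_of_dvd hi0 hd) (by omega)).symm
        have := pow_gcd_eq_one.2 ⟨hy1, hy2⟩
        rw [hcop, pow_one] at this
        exact (QuotientGroup.eq_one_iff _).1 this
      have hzb : z b ∈ B := (hs0 z hzM0).mem hb
      have hj : ∀ j : ℕ, j < p → (yv ^ (j + 1)) b = ((x₀ : Perm (Fin n)) ^ (j + 1)) (z b) := by
        intro j
        induction j with
        | zero => intro _; simp [yv]
        | succ j ihj =>
          intro hj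
          rw [pow_succ' yv (j + 1), Perm.mul_apply, ihj (by omega), pow_succ' (x₀ : Perm (Fin n)) (j + 1), Perm.mul_apply]
          show (x₀ : Perm (Fin n)) (z _) = _
          rw [hs0 z hzM0 _ (hxnot (j + 1) (by omega) hj _ hzb)]
          rfl
      have h := hj (p - 1) (by have := hp.out.pos; omega)
      rw [Nat.sub_add_cancel hp.out.pos] at h
      rw [h]
      have h3 := hρ ⟨x₀ ^ p, hxp⟩ (z b)
      rw [if_pos hzb, Subgroup.coe_pow] at h3
      rw [← h3]
      simp [z]
    have hcover : ∀ c ∈ s, ∃ i : ℕ, i < p ∧ ∃ b ∈ B, ((yv ^ i) b = c) := by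
      intro c hc
      obtain ⟨g, hg, rfl⟩ := htr a ha c hc
      have hgen : Subgroup.zpowers (QuotientGroup.mk' M y) = ⊤ := by
        haveI : Fact p.Prime := hp
        exact zpowers_eq_top_of_prime_card (p := p) (by rw [← hMi]; rfl) (fun h => hyM ((QuotientGroup.eq_one_iff _).1 h))
      obtain ⟨i, hi⟩ := (mem_zpowers_iff).1 (hgen ▸ Subgroup.mem_top (QuotientGroup.mk' M ⟨g, hg⟩))
      have hord : orderOf (QuotientGroup.mk' M y) = p :=
        orderOf_eq_prime (by rw [← map_pow]; exact (QuotientGroup.eq_one_iff _).2 (hMi ▸ M.pow_index_mem y)) (fun h => hyM ((QuotientGroup.eq_one_iff _).1 h))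
      obtain ⟨i', hi'p, hi'⟩ : ∃ i' : ℕ, i' < p ∧ (QuotientGroup.mk' M y) ^ i' = QuotientGroup.mk' M ⟨g, hg⟩ := by
        refine ⟨(i % (p : ℤ)).toNat, ?_, ?_⟩
        · have h0 : (0 : ℤ) < p := by exact_mod_cast hp.out.pos
          have := Int.emod_lt_of_pos i h0
          have := Int.emod_nonneg i h0.ne'
          omega
        · rw [← zpow_natCast, Int.toNat_of_nonneg (Int.emod_nonneg i (by exact_mod_cast hp.out.ne_zero))]
          conv_lhs => rw [← hord]
          rw [zpow_mod_orderOf, hi]
      rw [← map_pow] at hi'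
      have hm := QuotientGroup.eq.1 hi'
      refine ⟨i', hi'p, (((y ^ i')⁻¹ * ⟨g, hg⟩ : P) : Perm (Fin n)) a, (hMB _ hm a).2 haB, ?_⟩
      simp [y]
    have hyp : yv ^ p = 1 := by
      refine Equiv.ext fun c => ?_
      by_cases hc : c ∈ s
      · obtain ⟨i, -, b, hb, rfl⟩ := hcover c hc
        rw [← Perm.mul_apply, ← pow_add, add_comm, pow_add, Perm.mul_apply, hyB b hb]
        rfl
      · exact (hsupp _ (P.pow_mem y.2 p)) c hc
    -- generation
    have hcardlt : B.card ≤ k := by
      have hlt : B.card < s.card := Finset.card_lt_card (Finset.ssubset_iff_subset_ne.2 ⟨Finset.filter_subset _ _, fun e => by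
        have h1 : yv a ∈ B := e.symm ▸ (hsupp _ y.2).mem ha
        exact hyM (hBM y a haB h1)⟩)
      omega
    obtain ⟨T, hT, hTp, hTc⟩ := ih B hcardlt M0 hmax0
    refine ⟨insert yv T, ?_, ?_, ?_⟩
    · refine le_antisymm ((closure_le _).2 (Set.insert_subset y.2 fun t ht => hM0P (hT ▸ subset_closure ht))) fun g hg => ?_
      let H := closure (insert yv T)
      have hyH : yv ∈ H := subset_closure (Set.mem_insert _ _)
      have hM0H : M0 ≤ H := hT ▸ closure_mono (Set.subset_insert _ _)
      -- elements of `M`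
      have hMH : ∀ m ∈ M, ((m : P) : Perm (Fin n)) ∈ H := by
        intro m hm
        have hstep : ∀ j : ℕ, j ≤ p → ∃ h ∈ H, h ∈ P ∧ (∀ i < j, ∀ b ∈ B, h ((yv ^ i) b) = (m : Perm (Fin n)) ((yv ^ i) b)) ∧
            ∀ c, (∀ i < j, ∀ b ∈ B, (yv ^ i) b ≠ c) → h c = c := by
          intro j
          induction j with
          | zero => exact fun _ => ⟨1, H.one_mem, P.one_mem, fun i hi => absurd hi (by omega), fun c _ => rfl⟩
          | succ j ihj =>
            intro hjp
            obtain ⟨h, hhH, hhP, h1, h2⟩ := ihj (by omega)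
            have hmj : (y ^ j)⁻¹ * m * y ^ j ∈ M := by
              have := hMn.conj_mem m hm (y ^ j)⁻¹
              simpa using this
            let r := yv ^ j * ρ ⟨_, hmj⟩ * (yv ^ j)⁻¹
            have hr1 : ∀ b ∈ B, r ((yv ^ j) b) = (m : Perm (Fin n)) ((yv ^ j) b) := by
              intro b hb
              simp only [r, Perm.mul_apply, Perm.coe_inv, Equiv.symm_apply_apply]
              rw [hρ, if_pos hb]
              simp [y]
            have hr2 : ∀ c, (∀ b ∈ B, (yv ^ j) b ≠ c) → r c = c := by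
              intro c hc
              simp only [r, Perm.mul_apply]
              rw [hρ, if_neg (fun hB => hc _ hB (by simp))]
              simp
            have hdis : ∀ i < j, ∀ b ∈ B, ∀ b' ∈ B, (yv ^ j) b' ≠ (yv ^ i) b := by
              intro i hi b hb b' hb' e
              have h3 : ((y ^ (j - i) : P) : Perm (Fin n)) b' = b := by
                apply (yv ^ i).injective
                rw [Subgroup.coe_pow]
                show (yv ^ i) ((yv ^ (j - i)) b') = _
                rw [← Perm.mul_apply, ← pow_add, show i + (j - i) = j by omega, e]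
              have h4 := Nat.le_of_dvd (by omega) (hpow (j - i) (hBM _ b' hb' (by rw [h3]; exact hb)))
              omega
            refine ⟨r * h, H.mul_mem (H.mul_mem (H.mul_mem (H.pow_mem hyH j) (hM0H ⟨_, rfl⟩)) (H.inv_mem (H.pow_mem hyH j))) hhH,
              P.mul_mem (P.mul_mem (P.mul_mem (P.pow_mem y.2 j) (hM0P ⟨_, rfl⟩)) (P.inv_mem (P.pow_mem y.2 j))) hhP, ?_, ?_⟩
            · intro i hi b hb
              rcases Nat.lt_succ_iff_lt_or_eq.1 hi with h5 | h5
              · rw [Perm.mul_apply, h1 i h5 b hb]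
                refine hr2 _ fun b' hb' e => ?_
                have hmi : (y ^ i)⁻¹ * m * y ^ i ∈ M := by
                  have := hMn.conj_mem m hm (y ^ i)⁻¹
                  simpa using this
                have h6 : (m : Perm (Fin n)) ((yv ^ i) b) = (yv ^ i) ((((y ^ i)⁻¹ * m * y ^ i : P) : Perm (Fin n)) b) := by simp [y]
                exact hdis i h5 _ ((hMB _ hmi b).2 hb) b' hb' (e.trans h6)
              · subst h5
                rw [Perm.mul_apply, h2 _ (fun i' hi' b' hb' e => hdis i' hi' b' hb' b hb e.symm)]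
                exact hr1 b hb
            · intro c hc
              rw [Perm.mul_apply, h2 c (fun i hi => hc i (by omega))]
              exact hr2 c (hc j (by omega))
        obtain ⟨h, hhH, -, h1, h2⟩ := hstep p le_rfl
        have he : h = (m : Perm (Fin n)) := by
          refine Equiv.ext fun c => ?_
          by_cases hc : c ∈ s
          · obtain ⟨i, hi, b, hb, rfl⟩ := hcover c hc
            exact h1 i hi b hb
          · rw [h2 c fun i _ b hb e => hc (e ▸ (hsupp _ (P.pow_mem y.2 i)).mem (Finset.mem_filter.1 hb).1)]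
            exact (hsupp _ m.2 c hc).symm
        exact he ▸ hhH
      obtain ⟨i, -, b, hb, hib⟩ := hcover (g a) ((hsupp g hg).mem ha)
      have hm : (y ^ i)⁻¹ * (⟨g, hg⟩ : P) ∈ M := by
        refine hBM _ a haB ?_
        have : (((y ^ i)⁻¹ * (⟨g, hg⟩ : P) : P) : Perm (Fin n)) a = b := by
          simp [y]; rw [← hib]; simp
        rw [this]; exact hb
      have h := H.mul_mem (H.pow_mem hyH i) (hMH _ hm)
      have e : yv ^ i * ((((y ^ i)⁻¹ * (⟨g, hg⟩ : P) : P)) : Perm (Fin n)) = g := by simp [y]
      rwa [e] at h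
    · rintro t (rfl | ht)
      · exact hyp
      · exact hTp t ht
    · by_cases h2 : sign yv = 1
      · rintro t (rfl | ht) u (rfl | hu) h3 h4
        · rfl
        · exact absurd h2 h3
        · exact absurd h2 h4
        · exact hTc t ht u hu h3 h4
      · -- the block is then a single point
        have hB1 : B = {a} := by
          have hp2 : p = 2 := by
            by_contra hp2
            apply h2
            obtain ⟨j, hj⟩ := hp.out.odd_of_ne_two hp2
            have hsg : sign yv ^ p = 1 := by rw [← map_pow, hyp, map_one]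
            rwa [hj, pow_succ, pow_mul, Int.units_sq, one_pow, one_mul] at hsg
          subst hp2
          refine Finset.eq_singleton_iff_unique_mem.2 ⟨haB, fun b hb => ?_⟩
          by_contra hne
          apply h2
          have hsup : yv.support = s := by
            ext c
            rw [Perm.mem_support]
            refine ⟨fun h => by_contra fun hc => h (hsupp _ y.2 c hc), fun hc h => ?_⟩
            obtain ⟨i, -, b', hb', rfl⟩ := hcover c hc
            have h7 : yv b' = b' := (yv ^ i).injective (by rw [← Perm.mul_apply, ← pow_succ, pow_succ', Perm.mul_apply, h])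
            exact hyM (hBM y b' hb' (by rw [show ((y : P) : Perm (Fin n)) b' = b' from h7]; exact hb'))
          have hcard : s.card = 2 * B.card := by
            have e : s = B ∪ B.image yv := by
              ext c
              rw [Finset.mem_union, Finset.mem_image]
              constructor
              · intro hc
                obtain ⟨i, hi, b', hb', rfl⟩ := hcover c hc
                interval_cases i
                · left; simpa using hb'
                · right; exact ⟨b', hb', by simp⟩
              · rintro (h | ⟨b', hb', rfl⟩)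
                · exact (Finset.mem_filter.1 h).1
                · exact (hsupp _ y.2).mem (Finset.mem_filter.1 hb').1
            rw [e, Finset.card_union_of_disjoint, Finset.card_image_of_injective _ yv.injective]
            · ring
            · rw [Finset.disjoint_left]
              intro c hc h'
              obtain ⟨b', hb', rfl⟩ := Finset.mem_image.1 h'
              exact hyM (hBM y b' hb' hc)
          have hBeven : 2 ∣ B.card := by
            letI : MulAction M (Fin n) :=
              { smul := fun m x => ((m : P) : Perm (Fin n)) x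
                one_smul := fun _ => rfl
                mul_smul := fun _ _ _ => rfl }
            obtain ⟨j, hj⟩ := (hP.to_subgroup M).card_orbit (a : Fin n)
            have hBc : Nat.card (MulAction.orbit M a) = B.card := by
              rw [← Nat.card_eq_finsetCard B]
              refine Nat.card_congr (Equiv.subtypeEquivRight fun c => ?_)
              constructor
              · rintro ⟨m, rfl⟩; exact Finset.mem_filter.2 ⟨(hsupp _ (m : P).2).mem ha, m, m.2, rfl⟩
              · intro hc; obtain ⟨-, m, hm, e⟩ := Finset.mem_filter.1 hc; exact ⟨⟨m, hm⟩, e⟩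
            rw [← hBc, hj]
            refine dvd_pow_self 2 fun h0 => ?_
            rw [h0, pow_zero, hBc] at hj
            obtain ⟨w, hw⟩ := Finset.card_eq_one.1 hj
            rw [hw, Finset.mem_singleton] at haB hb
            exact hne (hb.trans haB.symm)
          have hct : ∀ c ∈ yv.cycleType, c = 2 := fun c hc => by
            have h8 := (Perm.dvd_of_mem_cycleType hc).trans (orderOf_dvd_of_pow_eq_one hyp)
            have := Perm.two_le_of_mem_cycleType hc
            have := Nat.le_of_dvd (by norm_num) h8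
            omega
          have hrep := Multiset.eq_replicate_card.2 hct
          have hsum := Perm.sum_cycleType yv
          rw [hsup, hrep, Multiset.sum_replicate, smul_eq_mul] at hsum
          rw [Perm.sign_of_cycleType, hrep, Multiset.sum_replicate, Multiset.card_replicate, smul_eq_mul]
          obtain ⟨q, hq⟩ := hBeven
          rw [show Multiset.card yv.cycleType = 2 * q by omega, show 2 * q * 2 + 2 * q = 2 * (3 * q) by ring, pow_mul]
          simp
        have hT1 : ∀ t ∈ T, t = 1 := fun t ht => by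
          refine Equiv.ext fun c => ?_
          have hst := hs0 t (hT ▸ subset_closure ht)
          by_cases hc : c ∈ B
          · have := hst.mem hc
            rw [hB1, Finset.mem_singleton] at this hc
            rw [this, hc]; rfl
          · exact hst c hc
        rintro t (rfl | ht) u (rfl | hu) h3 h4
        · rfl
        · rw [hT1 u hu, mul_one, one_mul]
        · rw [hT1 t ht, mul_one, one_mul]
        · exact hTc t ht u hu h3 h4

/-- For every prime p and every n, a Sylow p-subgroup P of the symmetric group on n letters has P/P' elementary abelian (the p-th power of every element of P lies in the derived subgroup of P), and the same holds for a Sylow p-subgroup of the alternating group on n letters. -/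
theorem result (p : ℕ) [Fact p.Prime] (n : ℕ) (P : Sylow p (Equiv.Perm (Fin n))) (Q : Sylow p (alternatingGroup (Fin n))) :
    (∀ x : (P : Subgroup (Equiv.Perm (Fin n))), x ^ p ∈ commutator (P : Subgroup (Equiv.Perm (Fin n)))) ∧
    (∀ x : (Q : Subgroup (alternatingGroup (Fin n))), x ^ p ∈ commutator (Q : Subgroup (alternatingGroup (Fin n)))) := by
  classical
  have hgood : ∀ P : Sylow p (Perm (Fin n)), Good p (P : Subgroup (Perm (Fin n))) := fun P =>
    good_of_maxOn n Finset.univ (by simp) _ ⟨P.isPGroup', fun g _ x hx => absurd (Finset.mem_univ x) hx,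
      fun X hX _ hle => (P.is_maximal' hX hle).le⟩
  have hab : ∀ {G : Type} [Group G] (H : Subgroup G) (T : Set G), closure T = H → (∀ t ∈ T, t ^ p = 1) →
      ∀ x : H, x ^ p ∈ commutator H := by
    intro G _ H T hT hTp x
    let φ : H →* Abelianization H := (powMonoidHom p : Abelianization H →* Abelianization H).comp Abelianization.of
    have hφ : (x : G) ∈ φ.ker.map H.subtype := by
      have hle : H ≤ φ.ker.map H.subtype := by
        conv_lhs => rw [← hT]
        rw [closure_le]
        intro t ht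
        have htH : t ∈ H := hT ▸ subset_closure ht
        refine ⟨⟨t, htH⟩, ?_, rfl⟩
        show (Abelianization.of (⟨t, htH⟩ : H)) ^ p = 1
        rw [← map_pow, show (⟨t, htH⟩ : H) ^ p = 1 from Subtype.ext (hTp t ht), map_one]
      exact hle x.2
    obtain ⟨u, hu, hu2⟩ := hφ
    rw [show u = x from Subtype.ext hu2] at hu
    change (Abelianization.of x) ^ p = 1 at hu
    rw [← map_pow] at hu
    exact (QuotientGroup.eq_one_iff _).1 hu
  refine ⟨fun x => ?_, fun x => ?_⟩
  · obtain ⟨T, hT, hTp, -⟩ := hgood P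
    exact hab _ T hT hTp x
  · let A := alternatingGroup (Fin n)
    obtain ⟨R, hR⟩ := (Q.isPGroup'.map A.subtype).exists_le_sylow
    obtain ⟨T, hT, hTp, hTc⟩ := hgood R
    have hRA : ∀ g : A, (g : Perm (Fin n)) ∈ (R : Subgroup (Perm (Fin n))) → g ∈ (Q : Subgroup A) := by
      have h1 : IsPGroup p ((R : Subgroup (Perm (Fin n))).comap A.subtype) := R.isPGroup'.comap_of_injective _ Subtype.val_injective
      have h2 := Q.is_maximal' h1 (fun g hg => hR ⟨g, hg, rfl⟩)
      intro g hg
      exact h2.le hg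
    let ev : Perm (Fin n) → Prop := fun g => sign g = 1
    by_cases hall : ∀ t ∈ T, sign t = 1
    · have hsub : ∀ t ∈ T, t ∈ A := fun t ht => mem_alternatingGroup.2 (hall t ht)
      refine hab _ {g : A | (g : Perm (Fin n)) ∈ T} (le_antisymm ((closure_le _).2 fun g hg => hRA g (hT ▸ subset_closure hg)) fun g hg => ?_)
        (fun g hg => Subtype.ext (hTp _ hg)) x
      have h : (g : Perm (Fin n)) ∈ (closure {g : A | (g : Perm (Fin n)) ∈ T}).map A.subtype := by
        rw [MonoidHom.map_closure]
        have e : (A.subtype '' {g : A | (g : Perm (Fin n)) ∈ T}) = T := Set.ext fun t => ⟨fun ⟨u, hu, e⟩ => e ▸ hu, fun ht => ⟨⟨t, hsub t ht⟩, ht, rfl⟩⟩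
        rw [e, hT]; exact hR ⟨g, hg, rfl⟩
      obtain ⟨u, hu, e⟩ := h
      rwa [show u = g from Subtype.ext e] at hu
    · push Not at hall
      obtain ⟨d, hd, hd1⟩ := hall
      have hd2 : p = 2 := by
        by_contra hp2
        apply hd1
        obtain ⟨j, hj⟩ := (Fact.out : p.Prime).odd_of_ne_two hp2
        have hsg : sign d ^ p = 1 := by rw [← map_pow, hTp d hd, map_one]
        rwa [hj, pow_succ, pow_mul, Int.units_sq, one_pow, one_mul] at hsg
      subst hd2
      have hdd : d * d = 1 := by rw [← pow_two]; exact hTp d hd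
      have hodd : ∀ t : Perm (Fin n), sign t ≠ 1 → sign t = -1 := fun t h => (Int.units_eq_one_or (sign t)).resolve_left h
      let T' : Set A := {g : A | ((g : Perm (Fin n)) ∈ T) ∨ (d * (g : Perm (Fin n)) * d ∈ T ∧ sign (d * (g : Perm (Fin n)) * d) = 1) ∨
        ∃ t ∈ T, sign t ≠ 1 ∧ (g : Perm (Fin n)) = t * d}
      have hT'R : ∀ g ∈ T', (g : Perm (Fin n)) ∈ (R : Subgroup (Perm (Fin n))) := by
        have hTR : ∀ t ∈ T, t ∈ (R : Subgroup (Perm (Fin n))) := fun t ht => hT ▸ subset_closure ht
        rintro g (h | ⟨h, -⟩ | ⟨t, ht, -, h⟩)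
        · exact hTR _ h
        · have := (R : Subgroup (Perm (Fin n))).mul_mem ((R : Subgroup (Perm (Fin n))).mul_mem (hTR d hd) (hTR _ h)) (hTR d hd)
          rwa [show d * (d * (g : Perm (Fin n)) * d) * d = d * d * g * (d * d) by group, hdd, one_mul, mul_one] at this
        · rw [h]; exact (R : Subgroup (Perm (Fin n))).mul_mem (hTR t ht) (hTR d hd)
      have hT'2 : ∀ g ∈ T', g ^ 2 = 1 := by
        rintro g (h | ⟨h, -⟩ | ⟨t, ht, ht1, h⟩) <;> refine Subtype.ext ?_ <;> rw [Subgroup.coe_pow]
        · exact hTp _ h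
        · have h2 := hTp _ h
          rw [pow_two] at h2 ⊢
          calc (g : Perm (Fin n)) * g = d * d * g * (d * d) * g * (d * d) := by rw [hdd]; simp
            _ = d * ((d * g * d) * (d * g * d)) * d := by simp only [mul_assoc]
            _ = 1 := by rw [h2, mul_one, hdd]
        · have ht2 : t * t = 1 := by rw [← pow_two]; exact hTp t ht
          rw [h, pow_two]
          calc t * d * (t * d) = t * (d * t) * d := by simp only [mul_assoc]
            _ = t * (t * d) * d := by rw [hTc d hd t ht hd1 ht1]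
            _ = (t * t) * (d * d) := by simp only [mul_assoc]
            _ = 1 := by rw [ht2, hdd, one_mul]
      refine hab _ T' (le_antisymm ((closure_le _).2 fun g hg => hRA g (hT'R g hg)) fun g hg => ?_) hT'2 x
      -- the two cosets
      let C := (closure T').map A.subtype
      have hCd : ∀ c ∈ C, d * c * d ∈ C := by
        have hle : C ≤ C.comap (MulAut.conj d).toMonoidHom := by
          rw [Subgroup.map_le_iff_le_comap, closure_le]
          intro u hu
          show d * (u : Perm (Fin n)) * d⁻¹ ∈ C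
          rw [inv_eq_of_mul_eq_one_right hdd]
          have hmem : d * (u : Perm (Fin n)) * d ∈ A := by
            rw [mem_alternatingGroup, map_mul, map_mul, mem_alternatingGroup.1 u.2, mul_one, ← map_mul, hdd, map_one]
          refine ⟨⟨_, hmem⟩, subset_closure ?_, rfl⟩
          rcases hu with h | ⟨h, -⟩ | ⟨t, ht, ht1, h⟩
          · refine Or.inr (Or.inl ?_)
            show d * (d * (u : Perm (Fin n)) * d) * d ∈ T ∧ _
            rw [show d * (d * (u : Perm (Fin n)) * d) * d = d * d * u * (d * d) by simp only [mul_assoc], hdd, one_mul, mul_one]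
            exact ⟨h, mem_alternatingGroup.1 u.2⟩
          · exact Or.inl h
          · refine Or.inr (Or.inr ⟨t, ht, ht1, ?_⟩)
            show d * (u : Perm (Fin n)) * d = _
            rw [h, ← mul_assoc, hTc d hd t ht hd1 ht1, mul_assoc (t * d), hdd, mul_one]
        intro c hc
        have := hle hc
        change d * c * d⁻¹ ∈ C at this
        rwa [inv_eq_of_mul_eq_one_right hdd] at this
      let D : Subgroup (Perm (Fin n)) :=
        { carrier := {g | g ∈ C ∨ g * d ∈ C}
          one_mem' := Or.inl C.one_mem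
          mul_mem' := fun {a b} ha hb => by
            rcases ha with ha | ha <;> rcases hb with hb | hb
            · exact Or.inl (C.mul_mem ha hb)
            · exact Or.inr (by rw [mul_assoc]; exact C.mul_mem ha hb)
            · refine Or.inr ?_
              have := C.mul_mem ha (hCd b hb)
              rwa [show a * d * (d * b * d) = a * (d * d) * b * d by simp only [mul_assoc], hdd, mul_one] at this
            · refine Or.inl ?_
              have := C.mul_mem ha (hCd _ hb)
              rwa [show a * d * (d * (b * d) * d) = a * (d * d) * b * (d * d) by simp only [mul_assoc], hdd, mul_one, mul_one] at this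
          inv_mem' := fun {a} ha => by
            rcases ha with ha | ha
            · exact Or.inl (C.inv_mem ha)
            · refine Or.inr ?_
              have := hCd _ (C.inv_mem ha)
              rwa [mul_inv_rev, inv_eq_of_mul_eq_one_right hdd, ← mul_assoc, hdd, one_mul] at this }
      have hTD : T ⊆ D := by
        intro t ht
        by_cases h1 : sign t = 1
        · exact Or.inl ⟨⟨t, mem_alternatingGroup.2 h1⟩, subset_closure (Or.inl ht), rfl⟩
        · refine Or.inr ⟨⟨t * d, ?_⟩, subset_closure (Or.inr (Or.inr ⟨t, ht, h1, rfl⟩)), rfl⟩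
          rw [mem_alternatingGroup, map_mul, hodd t h1, hodd d hd1]; simp
      have hgD : (g : Perm (Fin n)) ∈ D := (closure_le D).2 hTD (hT ▸ hR ⟨g, hg, rfl⟩)
      rcases hgD with ⟨u, hu, e⟩ | ⟨u, hu, e⟩
      · rwa [show u = g from Subtype.ext e] at hu
      · exfalso
        have h1 := mem_alternatingGroup.1 u.2
        rw [show (u : Perm (Fin n)) = (g : Perm (Fin n)) * d from e, map_mul, mem_alternatingGroup.1 g.2, one_mul] at h1
        exact hd1 h1


end Cfsg.Agent.S4623
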