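import Cfsg.Statements.S4742
import Cfsg.Agent.Lib.BlockShortFacts
import Cfsg.Agent.Lib.BlockPrincipal
import Cfsg.Agent.Lib.BlockRegular

set_option autoImplicit false
open Cfsg

namespace Cfsg.Agent.S4742

/-- Let p ≠ q be primes dividing the order of the finite group G, and suppose the centralizer of every non-identity p-element of G has order prime to q. Then either G has an irreducible character of p-defect zero, or for every non-identity q-element z of G there are conjugates g, h of z such that g h⁻¹ is a non-identity p-element. -/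
theorem result {G : Type*} [Group G] [Finite G] (p q : ℕ) [Fact p.Prime] [Fact q.Prime] (hppq : p ≠ q) (hpG : p ∣ Nat.card G) (hqG : q ∣ Nat.card G) (hC : ∀ g : G, g ≠ 1 → (∃ k : ℕ, orderOf g = p ^ k) → ¬ q ∣ Nat.card ↥(Subgroup.centralizer ({g} : Set G))) : (∃ χ : Cfsg.IrrCharacter G, (Cfsg.charDegree (χ : G → ℂ)).factorization p = (Nat.card G).factorization p) ∨ ∀ z : G, z ≠ 1 → (∃ k : ℕ, orderOf z = q ^ k) → ∃ g h : G, IsConj z g ∧ IsConj z h ∧ g * h⁻¹ ≠ 1 ∧ ∃ k : ℕ, orderOf (g * h⁻¹) = p ^ k := by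
  classical
  haveI := Fintype.ofFinite G
  have hp : p.Prime := Fact.out
  by_contra hcon
  push Not at hcon
  obtain ⟨hdz, z, hz1, ⟨k, hk⟩, hno⟩ := hcon
  obtain ⟨M, hM⟩ := CfsgLib.Block.exists_isPModular hp
  have hC' : ¬ p ∣ Nat.card ↥(Subgroup.centralizer ({z} : Set G)) := by
    intro h
    obtain ⟨x, hx⟩ := exists_prime_orderOf_dvd_card' p h
    have hx1 : (x : G) ≠ 1 := fun e => hp.ne_one (by rw [← hx, ← Subgroup.orderOf_coe, e, orderOf_one])
    refine hC (x : G) hx1 ⟨1, by rw [Subgroup.orderOf_coe, hx, pow_one]⟩ ?_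
    have hzC : z ∈ Subgroup.centralizer ({(x : G)} : Set G) :=
      Subgroup.mem_centralizer_singleton_iff.2 (Subgroup.mem_centralizer_singleton_iff.1 x.2).symm
    have hq : q ∣ orderOf z := by
      rw [hk]
      refine dvd_pow_self q fun h0 => hz1 ?_
      rw [h0, pow_zero, orderOf_eq_one_iff] at hk
      exact hk
    refine hq.trans ?_
    rw [← Subgroup.orderOf_mk z hzC]
    exact orderOf_dvd_natCard _
  set F : G → ℂ := fun x => ∑ χ : IrrCharacter G,
    (χ : G → ℂ) z * (starRingEnd ℂ) ((χ : G → ℂ) z) / (χ : G → ℂ) 1 * (starRingEnd ℂ) ((χ : G → ℂ) x) with hF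
  have hvan : ∀ x : G, x ≠ 1 → (∃ k, orderOf x = p ^ k) → F x = 0 := by
    intro x hx1 hxp
    have h0 : ∑ s : G × G, ∑ χ : IrrCharacter G,
        (χ : G → ℂ) (s.1 * z * s.1⁻¹ * (s.2 * z⁻¹ * s.2⁻¹)) * (starRingEnd ℂ) ((χ : G → ℂ) x) = 0 := by
      refine Finset.sum_eq_zero fun s _ => CfsgLib.Char.column_orth_not_conj fun hc => ?_
      obtain ⟨c, hc'⟩ := isConj_iff.1 hc
      obtain ⟨j, hj⟩ := hxp
      have ho : orderOf (s.1 * z * s.1⁻¹ * (s.2 * z⁻¹ * s.2⁻¹)) = p ^ j := by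
        rw [← hj, ← hc']
        exact (MulAut.conj c).orderOf_eq _ |>.symm
      have hne : s.1 * z * s.1⁻¹ * (s.2 * z⁻¹ * s.2⁻¹) ≠ 1 := by
        intro e
        rw [e] at hc'
        exact hx1 (by rw [← hc']; group)
      have hinv : (s.2 * z * s.2⁻¹)⁻¹ = s.2 * z⁻¹ * s.2⁻¹ := by group
      exact hno (s.1 * z * s.1⁻¹) (s.2 * z * s.2⁻¹) (isConj_iff.2 ⟨s.1, rfl⟩) (isConj_iff.2 ⟨s.2, rfl⟩)
        (by rw [hinv]; exact hne) j (by rw [hinv]; exact ho)
    rw [Finset.sum_comm] at h0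
    have hinvc : ∀ χ : IrrCharacter G, (χ : G → ℂ) z⁻¹ = (starRingEnd ℂ) ((χ : G → ℂ) z) :=
      fun χ => CfsgLib.Char.isCharacter_inv_eq_conj χ.2.isCharacter' z
    simp only [← Finset.sum_mul, CfsgLib.Block.sum_conj_prod, hinvc] at h0
    have h2 : (Nat.card G : ℂ) ^ 2 * F x = 0 := by
      rw [← h0, hF, Finset.mul_sum]
      exact Finset.sum_congr rfl fun χ _ => by ring
    exact (mul_eq_zero.1 h2).resolve_left (pow_ne_zero 2 (CfsgLib.Char.natCard_ne_zero G))
  obtain ⟨P⟩ : Nonempty (Sylow p G) := inferInstance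
  haveI := Fintype.ofFinite ↥(P : Subgroup G)
  choose m hm using fun χ : IrrCharacter G => CfsgLib.Char.inner_character_nat
    (CfsgLib.Char.isCharacter_restrict (CfsgLib.Char.isCharacter_conj χ.2.isCharacter') (P : Subgroup G))
    (CfsgLib.Block.trivIrr ↥(P : Subgroup G)).2.isCharacter'
  have hsum : ∑ y : ↥(P : Subgroup G), F (y : G) = F 1 := by
    rw [Finset.sum_eq_single (1 : ↥(P : Subgroup G))]
    · rfl
    · intro y _ hy
      obtain ⟨j, hj⟩ := (IsPGroup.iff_orderOf.1 P.2) y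
      exact hvan y (fun e => hy (Subtype.ext e)) ⟨j, by rw [Subgroup.orderOf_coe]; exact hj⟩
    · exact fun h => absurd (Finset.mem_univ _) h
  set iz := (Subgroup.centralizer ({z} : Set G)).index with hiz
  have hP0 := CfsgLib.Char.natCard_ne_zero ↥(P : Subgroup G)
  have hmain : ((P : Subgroup G).index : ℂ) = ∑ χ : IrrCharacter G,
      ((iz : ℂ) / (charDegree (χ : G → ℂ) : ℂ)) * ((χ : G → ℂ) z * (starRingEnd ℂ) ((χ : G → ℂ) z)) * (m χ : ℂ) := by
    have hF1 : F 1 = (Nat.card ↥(Subgroup.centralizer ({z} : Set G)) : ℂ) := by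
      rw [hF, ← CfsgLib.Char.column_orth_conj (IsConj.refl z)]
      refine Finset.sum_congr rfl fun χ _ => ?_
      rw [CfsgLib.Block.irr_conj_one]
      field_simp [CfsgLib.Block.irr_one_ne_zero χ]
    have hexp : ∑ y : ↥(P : Subgroup G), F (y : G) = (Nat.card ↥(P : Subgroup G) : ℂ) * ∑ χ : IrrCharacter G,
        (χ : G → ℂ) z * (starRingEnd ℂ) ((χ : G → ℂ) z) / (χ : G → ℂ) 1 * (m χ : ℂ) := by
      simp only [hF]
      rw [Finset.sum_comm, Finset.mul_sum]
      refine Finset.sum_congr rfl fun χ _ => ?_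
      rw [← hm χ, classInner, ← Finset.mul_sum]
      simp only [CfsgLib.Block.trivIrr, map_one, mul_one]
      field_simp
    rw [hsum, hF1] at hexp
    refine mul_left_cancel₀ hP0 ?_
    rw [← Nat.cast_mul, Subgroup.card_mul_index, ← (Subgroup.centralizer ({z} : Set G)).card_mul_index,
      Nat.cast_mul, ← hiz, hexp, mul_assoc, Finset.sum_mul]
    congr 1
    refine Finset.sum_congr rfl fun χ _ => ?_
    rw [CfsgLib.Block.charDegree_cast χ.2.isCharacter']
    ring
  have hizp : p ^ (Nat.card G).factorization p ∣ iz := by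
    have h := (Subgroup.centralizer ({z} : Set G)).card_mul_index
    refine (((hp.coprime_iff_not_dvd).2 hC').pow_left _).dvd_of_dvd_mul_left ?_
    rw [hiz, h]
    exact Nat.ordProj_dvd _ _
  have hterm : ∀ χ : IrrCharacter G, ∃ h : ((iz : ℂ) / (charDegree (χ : G → ℂ) : ℂ)) *
      ((χ : G → ℂ) z * (starRingEnd ℂ) ((χ : G → ℂ) z)) * (m χ : ℂ) ∈ CfsgLib.Block.locRing hM,
      CfsgLib.Block.res hM ⟨_, h⟩ = 0 := by
    intro χ
    have hv : (charDegree (χ : G → ℂ)).factorization p + 1 ≤ (Nat.card G).factorization p := by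
      have h1 := (Nat.factorization_le_iff_dvd (CfsgLib.Block.charDegree_pos χ).ne' Nat.card_pos.ne').2
        (CfsgLib.Block.charDegree_dvd_card χ) p
      have h2 := hdz χ
      omega
    obtain ⟨i, hi⟩ := (pow_dvd_pow p hv).trans hizp
    rw [pow_succ', mul_assoc] at hi
    have hmem := CfsgLib.Block.natCast_div_mem hM (n := p ^ (charDegree (χ : G → ℂ)).factorization p * i)
      (CfsgLib.Block.charDegree_pos χ).ne' (dvd_mul_right _ _)
    have hz' := mul_mem (CfsgLib.Block.irr_mem hM χ z)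
      (CfsgLib.Block.isIntegral_mem hM (CfsgLib.Char.isCharacter_isIntegral (CfsgLib.Char.isCharacter_conj χ.2.isCharacter') z))
    have hpm : (p : ℂ) ∈ CfsgLib.Block.locRing hM := natCast_mem _ p
    have hrest := mul_mem (mul_mem hmem hz') (natCast_mem (CfsgLib.Block.locRing hM) (m χ))
    have heq : ((iz : ℂ) / (charDegree (χ : G → ℂ) : ℂ)) * ((χ : G → ℂ) z * (starRingEnd ℂ) ((χ : G → ℂ) z)) * (m χ : ℂ) =
        (p : ℂ) * (((p ^ (charDegree (χ : G → ℂ)).factorization p * i : ℕ) : ℂ) / (charDegree (χ : G → ℂ) : ℂ) *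
          ((χ : G → ℂ) z * (starRingEnd ℂ) ((χ : G → ℂ) z)) * (m χ : ℂ)) := by
      rw [hi]; push_cast; ring
    refine ⟨by rw [heq]; exact mul_mem hpm hrest, ?_⟩
    rw [show (⟨_, _⟩ : CfsgLib.Block.locRing hM) = (p : CfsgLib.Block.locRing hM) * ⟨_, hrest⟩ from Subtype.ext (by
        rw [Subring.coe_mul]; exact heq), map_mul,
      (CfsgLib.Block.res_natCast_eq_zero_iff hM p).2 dvd_rfl, zero_mul]
  choose hmemχ hres using hterm
  have hzero : CfsgLib.Block.res hM (((P : Subgroup G).index : ℕ) : CfsgLib.Block.locRing hM) = 0 := by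
    rw [show ((((P : Subgroup G).index : ℕ)) : CfsgLib.Block.locRing hM) = ∑ χ : IrrCharacter G, (⟨_, hmemχ χ⟩ : CfsgLib.Block.locRing hM) from
      Subtype.ext (by push_cast; exact hmain), map_sum]
    exact Finset.sum_eq_zero fun χ _ => hres χ
  exact P.not_dvd_index ((CfsgLib.Block.res_natCast_eq_zero_iff hM _).1 hzero)

end Cfsg.Agent.S4742
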