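import Cfsg.Statements.S4743
import Cfsg.Agent.Lib.CorePSolvable
import Cfsg.Agent.Lib.CoreCoprime
import Cfsg.Agent.Lib.CoreFpfComplement
import Cfsg.Agent.Lib.BlockItoMichler
import Cfsg.Agent.Lib.BlockInflate
import Cfsg.Agent.Lib.BlockPrincipal
import Cfsg.Agent.Lib.CharPerm
import Cfsg.Agent.Lib.BlockDefect
import Cfsg.Agent.Lib.BlockRegular

set_option autoImplicit false
set_option maxHeartbeats 400000
open Cfsg CfsgLib.Block CfsgLib.Char

namespace Cfsg.Agent.S4743

universe u

/-- A character above one with small inertia group has full degree at the prime. -/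
theorem exists_full {G : Type u} [Group G] [Finite G] {q : ℕ} [Fact q.Prime] (N : Subgroup G)
    [N.Normal] (θ : Cfsg.IrrCharacter N) (hno : ∀ g ∈ inertia (θ : N → ℂ), orderOf g ≠ q) :
    ∃ χ : Cfsg.IrrCharacter G, (Cfsg.charDegree (χ : G → ℂ)).factorization q = (Nat.card G).factorization q := by
  classical
  haveI := Fintype.ofFinite G
  have hT : ¬ q ∣ Nat.card (inertia (θ : N → ℂ)) := fun h => by
    obtain ⟨g, hg⟩ := exists_prime_orderOf_dvd_card' q h
    exact hno g g.2 (by rw [Subgroup.orderOf_coe]; exact hg)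
  obtain ⟨χ, hχ, hcon⟩ := exists_irr_over (H := N) θ.2
  obtain ⟨e, he⟩ := inner_character_nat (isCharacter_restrict
    (show IsIrrCharacter G χ from hχ).isCharacter' N) θ.2.isCharacter'
  have hd := clifford_degree hχ θ.2 hcon
  rw [he, ← charDegree_cast θ.2.isCharacter',
    ← charDegree_cast (show IsIrrCharacter G χ from hχ).isCharacter'] at hd
  have hd' : Cfsg.charDegree χ = e * (inertia (θ : N → ℂ)).index * Cfsg.charDegree (θ : N → ℂ) := by
    exact_mod_cast hd
  refine ⟨⟨χ, hχ⟩, le_antisymm (factorization_charDegree_le (Fact.out : q.Prime) ⟨χ, hχ⟩) ?_⟩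
  show (Nat.card G).factorization q ≤ (Cfsg.charDegree χ).factorization q
  have hdvd : (inertia (θ : N → ℂ)).index ∣ Cfsg.charDegree χ := ⟨e * Cfsg.charDegree (θ : N → ℂ), by rw [hd']; ring⟩
  have hne : Cfsg.charDegree χ ≠ 0 := (charDegree_pos (⟨χ, hχ⟩ : Cfsg.IrrCharacter G)).ne'
  refine le_trans (le_of_eq ?_) ((Nat.factorization_le_iff_dvd Subgroup.index_ne_zero_of_finite hne).2 hdvd q)
  rw [← Subgroup.card_mul_index (inertia (θ : N → ℂ)), Nat.factorization_mul Nat.card_pos.ne'
    Subgroup.index_ne_zero_of_finite, Finsupp.add_apply, Nat.factorization_eq_zero_of_not_dvd hT, zero_add]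

theorem main {G : Type u} [Group G] [Finite G] (p q : ℕ) [Fact p.Prime] [Fact q.Prime] (hne : p ≠ q)
    (hpG : p ∣ Nat.card G) (hqG : q ∣ Nat.card G)
    (hno : ∀ x y : G, orderOf x = p → orderOf y = q → x * y ≠ y * x) (hs : Cfsg.IsPSolvable p G) :
    (∃ χ : Cfsg.IrrCharacter G, (Cfsg.charDegree (χ : G → ℂ)).factorization p = (Nat.card G).factorization p) ∨
    (∃ χ : Cfsg.IrrCharacter G, (Cfsg.charDegree (χ : G → ℂ)).factorization q = (Nat.card G).factorization q) := by
  classical
  have hp := (Fact.out : p.Prime)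
  have hq := (Fact.out : q.Prime)
  obtain ⟨K, hK⟩ : ∃ K, K = Cfsg.pPrimeCore p G := ⟨_, rfl⟩
  haveI hKn : K.Normal := hK ▸ CfsgLib.Core.normal_pPrimeCore p
  have hKp : ¬ p ∣ Nat.card K := hK ▸ CfsgLib.Core.not_dvd_card_pPrimeCore p
  let π := QuotientGroup.mk' K
  have hsQ : Cfsg.IsPSolvable p (G ⧸ K) :=
    CfsgLib.Core.isPSolvable_of_surjective π (QuotientGroup.mk'_surjective K) hs
  have hcore : Cfsg.pPrimeCore p (G ⧸ K) = ⊥ := by
    subst hK; exact CfsgLib.Core.pPrimeCore_quotient_pPrimeCore p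
  have hpQ : p ∣ Nat.card (G ⧸ K) := by
    have h := Subgroup.card_mul_index K
    rw [Subgroup.index_eq_card] at h
    rw [← h] at hpG
    exact (hp.dvd_mul.1 hpG).resolve_left hKp
  haveI : Nontrivial (G ⧸ K) := Finite.one_lt_card_iff_nontrivial.1
    (lt_of_lt_of_le hp.one_lt (Nat.le_of_dvd Nat.card_pos hpQ))
  haveI := CfsgLib.Core.normal_pCore (G := G ⧸ K) p
  have hR : Cfsg.pCore p (G ⧸ K) ≠ ⊥ := by
    intro h0
    have h := CfsgLib.Core.centralizer_pCore_le_of_isPSolvable hsQ hcore
    rw [h0] at h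
    refine top_ne_bot (α := Subgroup (G ⧸ K)) (le_bot_iff.1 (le_trans (fun x _ => ?_) h))
    exact Subgroup.mem_centralizer_iff.2 fun y hy => by
      rw [SetLike.mem_coe, Subgroup.mem_bot] at hy; subst hy; rw [one_mul, mul_one]
  haveI : Nontrivial (Cfsg.pCore p (G ⧸ K)) := (Subgroup.nontrivial_iff_ne_bot _).2 hR
  obtain ⟨A, hA⟩ : ∃ A : Subgroup (G ⧸ K),
      A = (Subgroup.center (Cfsg.pCore p (G ⧸ K))).map (Cfsg.pCore p (G ⧸ K)).subtype := ⟨_, rfl⟩
  haveI hAn : A.Normal := hA ▸ inferInstance
  have hAle : A ≤ Cfsg.pCore p (G ⧸ K) := hA ▸ Subgroup.map_subtype_le _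
  have hAp : IsPGroup p A := (CfsgLib.Core.isPGroup_pCore p).to_le hAle
  have hAc : ∀ a ∈ A, ∀ b ∈ A, a * b = b * a := by
    intro a ha b hb
    rw [hA, Subgroup.mem_map] at ha
    obtain ⟨a, ha, rfl⟩ := ha
    exact (congrArg Subtype.val (Subgroup.mem_center_iff.1 ha ⟨b, hAle hb⟩)).symm
  have hA0 : A ≠ ⊥ := by
    rw [hA, Ne, Subgroup.map_eq_bot_iff_of_injective _ (Subgroup.subtype_injective _)]
    haveI := (CfsgLib.Core.isPGroup_pCore (G := G ⧸ K) p).center_nontrivial
    exact (Subgroup.nontrivial_iff_ne_bot _).1 this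
  -- elements of order pq do not exist in the quotient either
  have hnoQ : ∀ x y : G ⧸ K, orderOf x = p → orderOf y = q → x * y ≠ y * x := by
    intro x y hx hy hc
    obtain ⟨z, hz⟩ := QuotientGroup.mk'_surjective K (x * y)
    have ho : orderOf (x * y) = p * q := by
      rw [(show Commute x y from hc).orderOf_mul_eq_mul_orderOf_of_coprime
        (by rw [hx, hy]; exact (Nat.coprime_primes hp hq).2 hne), hx, hy]
    have hd : p * q ∣ orderOf z := ho ▸ hz ▸ orderOf_map_dvd π z
    obtain ⟨t, ht⟩ := hd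
    have ht0 : t ≠ 0 := fun h => (orderOf_pos z).ne' (by rw [ht, h, mul_zero])
    have e1 : orderOf (z ^ t) = p * q := by
      rw [orderOf_pow_of_dvd ht0 ⟨p * q, by rw [ht, mul_comm]⟩, ht,
        Nat.mul_div_cancel _ (Nat.pos_of_ne_zero ht0)]
    refine hno ((z ^ t) ^ q) ((z ^ t) ^ p) ?_ ?_ ((Commute.refl (z ^ t)).pow_pow q p).eq
    · rw [orderOf_pow_of_dvd hq.ne_zero (e1 ▸ dvd_mul_left q p), e1, Nat.mul_div_cancel _ hq.pos]
    · rw [orderOf_pow_of_dvd hp.ne_zero (e1 ▸ dvd_mul_right p q), e1, Nat.mul_div_cancel_left _ hp.pos]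
  by_cases hqK : q ∣ Nat.card K
  · left
    -- commuting elements of order p generate the same subgroup
    have hrank : ∀ x y : G ⧸ K, orderOf x = p → orderOf y = p → x * y = y * x → y ∈ Subgroup.zpowers x := by
      intro x y hx hy hc
      by_contra hyx
      have hEp : IsPGroup p (Subgroup.zpowers x ⊔ Subgroup.zpowers y : Subgroup (G ⧸ K)) :=
        IsPGroup.to_sup_of_normal_right' (IsPGroup.of_card (n := 1) (by rw [Nat.card_zpowers, hx, pow_one]))
          (IsPGroup.of_card (n := 1) (by rw [Nat.card_zpowers, hy, pow_one]))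
          (Subgroup.zpowers_le.2 (Subgroup.mem_normalizer_iff.2 (fun w => by
            have hcw : ∀ w ∈ Subgroup.zpowers y, x * w * x⁻¹ = w := fun w hw => by
              obtain ⟨i, rfl⟩ := Subgroup.mem_zpowers_iff.1 hw
              rw [((show Commute x y from hc).zpow_right i).eq, mul_inv_cancel_right]
            constructor
            · intro hw; rw [hcw w hw]; exact hw
            · intro hw
              have h2 : x * w * x⁻¹ = w := mul_left_cancel (mul_right_cancel (hcw _ hw))
              rwa [h2] at hw)))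
      obtain ⟨S, hS⟩ := hEp.exists_le_sylow
      obtain ⟨P₀⟩ : Nonempty (Sylow p G) := inferInstance
      obtain ⟨g, hg⟩ := MulAction.exists_smul_eq (G ⧸ K) (P₀.mapSurjective (QuotientGroup.mk'_surjective K)) S
      obtain ⟨g, rfl⟩ := QuotientGroup.mk'_surjective K g
      have hmem : ∀ w ∈ (S : Subgroup (G ⧸ K)), ∃ v ∈ ((g • P₀ : Sylow p G) : Subgroup G), π v = w := by
        intro w hw
        rw [← hg, Sylow.coe_subgroup_smul] at hw
        obtain ⟨_, ⟨v, hv, rfl⟩, rfl⟩ := hw
        refine ⟨g * v * g⁻¹, ?_, by simp [π]⟩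
        rw [Sylow.coe_subgroup_smul]
        exact ⟨v, hv, rfl⟩
      have hinj : ∀ v ∈ ((g • P₀ : Sylow p G) : Subgroup G), π v = 1 → v = 1 := by
        intro v hv h1
        have hdj : Disjoint ((g • P₀ : Sylow p G) : Subgroup G) K := by
          rw [disjoint_iff]
          apply Subgroup.inf_eq_bot_of_coprime
          obtain ⟨k, hk⟩ := IsPGroup.iff_card.1 (g • P₀).2
          rw [hk]
          exact ((hp.coprime_iff_not_dvd).2 hKp).pow_left k
        exact Subgroup.disjoint_def.1 hdj hv ((QuotientGroup.eq_one_iff v).1 h1)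
      obtain ⟨a, ha, hax⟩ := hmem x (hS (Subgroup.mem_sup_left (Subgroup.mem_zpowers x)))
      obtain ⟨b, hb, hby⟩ := hmem y (hS (Subgroup.mem_sup_right (Subgroup.mem_zpowers y)))
      have hab : a * b = b * a := by
        have := hinj (a * b * (b * a)⁻¹) (mul_mem (mul_mem ha hb) (inv_mem (mul_mem hb ha)))
          (by simp only [map_mul, map_inv, hax, hby, hc, mul_inv_cancel])
        exact mul_inv_eq_one.1 this
      have hord : ∀ v ∈ ((g • P₀ : Sylow p G) : Subgroup G), π v ^ p = 1 → v ^ p = 1 := fun v hv h1 =>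
        hinj _ (pow_mem hv p) (by rw [map_pow]; exact h1)
      have ha' : a ^ p = 1 := hord a ha (by rw [hax, ← hx, pow_orderOf_eq_one])
      have hb' : b ^ p = 1 := hord b hb (by rw [hby, ← hy, pow_orderOf_eq_one])
      obtain ⟨E, hE⟩ : ∃ E : Subgroup G, E = Subgroup.closure {a, b} := ⟨_, rfl⟩
      have hEle : E ≤ ((g • P₀ : Sylow p G) : Subgroup G) := by
        rw [hE, Subgroup.closure_le]; rintro w (rfl | rfl) <;> assumption
      have hEc : IsMulCommutative E := by
        refine hE ▸ Subgroup.isMulCommutative_closure ?_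
        rintro s (rfl | rfl) t (rfl | rfl)
        · rfl
        · exact hab
        · exact hab.symm
        · rfl
      have hEexp : ∀ e : E, e ^ p = 1 := by
        rintro ⟨e, he⟩
        apply Subtype.ext
        show e ^ p = 1
        rw [hE] at he
        induction he using Subgroup.closure_induction with
        | mem w hw => rcases hw with rfl | rfl <;> assumption
        | one => exact one_pow p
        | mul u v hu hv iu iv =>
          have hc : Commute u v := congrArg Subtype.val (hEc.is_comm.comm ⟨u, hE ▸ hu⟩ ⟨v, hE ▸ hv⟩)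
          rw [hc.mul_pow, iu, iv, one_mul]
        | inv u _ iu => rw [inv_pow, iu, inv_one]
      have hcop : (Nat.card E).Coprime (Nat.card K) := by
        obtain ⟨k, hk⟩ := IsPGroup.iff_card.1 ((g • P₀).2.to_le hEle)
        rw [hk]; exact ((hp.coprime_iff_not_dvd).2 hKp).pow_left k
      haveI : Group.IsNilpotent E := ((g • P₀).2.to_le hEle).isNilpotent
      obtain ⟨Q₀, hQ₀⟩ := CfsgLib.Core.exists_invariant_sylow (A := E) (K := K) q
        (fun w _ => Subgroup.mem_normalizer_iff.2 fun v => ⟨fun hv => hKn.conj_mem v hv w,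
          fun hv => by simpa [mul_assoc] using hKn.conj_mem _ hv w⁻¹⟩) hcop (Or.inl inferInstance)
      have hQ0 : (Q₀ : Subgroup K).map K.subtype ≠ ⊥ := by
        rw [Ne, Subgroup.map_eq_bot_iff_of_injective _ (Subgroup.subtype_injective _)]
        exact Q₀.ne_bot_of_dvd_card hqK
      have hfree : ∀ e ∈ E, e ≠ 1 → ∀ v ∈ (Q₀ : Subgroup K).map K.subtype, e * v = v * e → v = 1 := by
        intro e he he1 v hv hcomm
        by_contra hv1
        have hop : orderOf e = p := orderOf_eq_prime (congrArg Subtype.val (hEexp ⟨e, he⟩)) he1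
        obtain ⟨w, hw, rfl⟩ := hv
        obtain ⟨k, hk⟩ := IsPGroup.iff_orderOf.1 Q₀.2 ⟨w, hw⟩
        rw [Subgroup.orderOf_mk, ← Subgroup.orderOf_coe] at hk
        rcases k with _ | k
        · exact hv1 (orderOf_eq_one_iff.1 (show orderOf (w : G) = 1 by rw [hk, pow_zero]))
        refine hno e ((K.subtype w) ^ q ^ k) hop ?_ ((show Commute e (K.subtype w) from hcomm).pow_right _).eq
        show orderOf ((w : G) ^ q ^ k) = q
        rw [orderOf_pow_of_dvd (pow_ne_zero _ hq.ne_zero) (hk ▸ pow_dvd_pow q k.le_succ), hk,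
          pow_succ, Nat.mul_div_cancel_left _ (pow_pos hq.pos k)]
      have hbE : b ∉ Subgroup.zpowers a := fun h => hyx (by
        obtain ⟨i, hi⟩ := Subgroup.mem_zpowers_iff.1 h
        exact Subgroup.mem_zpowers_iff.2 ⟨i, by rw [← hax, ← map_zpow, hi, hby]⟩)
      have haE : a ∈ E := hE ▸ Subgroup.subset_closure (Or.inl rfl)
      have hbE' : b ∈ E := hE ▸ Subgroup.subset_closure (Or.inr rfl)
      rcases CfsgLib.Core.cyclic_or_quaternion_of_fpf ((g • P₀).2.to_le hEle) hQ₀ hQ0 hfree with hcy | ⟨-, n, ⟨ψ⟩⟩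
      · obtain ⟨c, hc'⟩ := hcy.exists_generator
        have hcard : Nat.card E ∣ p := by
          rw [← orderOf_eq_card_of_forall_mem_zpowers hc']
          exact orderOf_dvd_of_pow_eq_one (hEexp c)
        have hle : Subgroup.zpowers a ≤ E := Subgroup.zpowers_le.2 haE
        have : Subgroup.zpowers a = E := Subgroup.eq_of_le_of_card_ge hle (by
          rw [Nat.card_zpowers, orderOf_eq_prime ha' (fun h => by
            rw [h, map_one] at hax; rw [← hax, orderOf_one] at hx; exact hp.one_lt.ne hx)]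
          exact Nat.le_of_dvd hp.pos hcard)
        exact hbE (this ▸ hbE')
      · have h4 := QuaternionGroup.orderOf_xa (n := 2 ^ n) (0 : ZMod (2 * 2 ^ n))
        rw [← orderOf_injective ψ.symm.toMonoidHom ψ.symm.injective] at h4
        have := orderOf_dvd_of_pow_eq_one (hEexp (ψ.symm (QuaternionGroup.xa 0)))
        rw [show orderOf (ψ.symm (QuaternionGroup.xa 0)) = 4 from h4] at this
        rcases (Nat.dvd_prime hp).1 this with h | h
        · norm_num at h
        · exact absurd (h ▸ hp) (by norm_num)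
    obtain ⟨zb, hzA, hz⟩ : ∃ zb ∈ A, orderOf zb = p := by
      haveI : Nontrivial A := (Subgroup.nontrivial_iff_ne_bot _).2 hA0
      obtain ⟨k, hk, hk'⟩ := hAp.nontrivial_iff_card.1 inferInstance
      obtain ⟨w, hw⟩ := exists_prime_orderOf_dvd_card' (G := A) p (hk' ▸ dvd_pow_self p hk.ne')
      exact ⟨w, w.2, by rw [Subgroup.orderOf_coe]; exact hw⟩
    have hall : ∀ w : G ⧸ K, orderOf w = p → w ∈ Subgroup.zpowers zb := by
      intro w hw
      have hconj : w * zb * w⁻¹ ∈ Subgroup.zpowers zb :=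
        hrank zb _ hz (by rw [← MulAut.conj_apply, MulEquiv.orderOf_eq]; exact hz)
          (hAc zb hzA _ (hAn.conj_mem zb hzA w))
      obtain ⟨j, hj⟩ := (Submonoid.mem_powers_iff _ _).1 (mem_powers_iff_mem_zpowers.2 hconj)
      refine hrank zb w hz hw ?_
      have hiter : ∀ m : ℕ, w ^ m * zb * (w ^ m)⁻¹ = zb ^ (j ^ m) := by
        intro m
        induction m with
        | zero => simp
        | succ m ih =>
          rw [pow_succ', show w * w ^ m * zb * (w * w ^ m)⁻¹ = w * (w ^ m * zb * (w ^ m)⁻¹) * w⁻¹ by group,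
            ih, ← MulAut.conj_apply, map_pow, MulAut.conj_apply, ← hj, ← pow_mul, pow_succ']
      have h1 := hiter p
      rw [← hw, pow_orderOf_eq_one, one_mul, inv_one, mul_one, hw] at h1
      have h2 : ((j : ZMod p)) ^ p = 1 := by
        rw [← Nat.cast_pow, ← Nat.cast_one, ZMod.natCast_eq_natCast_iff, ← hz, ← pow_eq_pow_iff_modEq,
          pow_one, hz]
        exact h1.symm
      rw [ZMod.pow_card] at h2
      have h3 : zb ^ j = zb := by
        conv_rhs => rw [← pow_one zb]
        rw [pow_eq_pow_iff_modEq, hz, ← ZMod.natCast_eq_natCast_iff, h2, Nat.cast_one]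
      rw [← hj] at hconj
      have h4 : w * zb * w⁻¹ = zb := hj.symm.trans h3
      exact ((mul_inv_eq_iff_eq_mul.1 h4)).symm
    obtain ⟨z, hzπ⟩ := QuotientGroup.mk'_surjective K zb
    obtain ⟨z', hz', hz'π⟩ : ∃ z' : G, orderOf z' = p ∧ π z' ∈ Subgroup.zpowers zb := by
      have hd : p ∣ orderOf z := hz ▸ hzπ ▸ orderOf_map_dvd π z
      obtain ⟨t, ht⟩ := hd
      have ht0 : t ≠ 0 := fun h => (orderOf_pos z).ne' (by rw [ht, h, mul_zero])
      refine ⟨z ^ t, ?_, ?_⟩
      · rw [orderOf_pow_of_dvd ht0 ⟨p, by rw [ht, mul_comm]⟩, ht, Nat.mul_div_cancel _ (Nat.pos_of_ne_zero ht0)]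
      · rw [map_pow, hzπ]; exact pow_mem (Subgroup.mem_zpowers zb) t
    haveI : Fintype K := Fintype.ofFinite _
    obtain ⟨θ, hθ⟩ : ∃ θ : Cfsg.IrrCharacter K, z' ∉ inertia (θ : K → ℂ) := by
      by_contra hall'
      push Not at hall'
      have hc := centralizes_of_fix_irr K hKp ⟨1, by rw [hz', pow_one]⟩ hall'
      obtain ⟨y, hy⟩ := exists_prime_orderOf_dvd_card' (G := K) q hqK
      exact hno z' y hz' (by rw [Subgroup.orderOf_coe]; exact hy) (hc y y.2)
    refine exists_full K θ fun g hg hgp => hθ ?_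
    have hgK : g ∉ K := fun h => hKp (by
      rw [← hgp, ← Subgroup.orderOf_mk g h]; exact orderOf_dvd_natCard _)
    have hgo : orderOf (π g) = p := by
      refine ((Nat.dvd_prime hp).1 (hgp ▸ orderOf_map_dvd π g)).resolve_left fun h => hgK ?_
      exact (QuotientGroup.eq_one_iff g).1 (orderOf_eq_one_iff.1 h)
    have hz'1 : π z' ∈ Subgroup.zpowers (π g) := by
      have h := hall _ hgo
      have heq : Subgroup.zpowers (π g) = Subgroup.zpowers zb :=
        Subgroup.eq_of_le_of_card_ge (Subgroup.zpowers_le.2 h) (by rw [Nat.card_zpowers, Nat.card_zpowers, hz, hgo])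
      rw [heq]; exact hz'π
    obtain ⟨i, hi⟩ := Subgroup.mem_zpowers_iff.1 hz'1
    rw [← map_zpow] at hi
    obtain ⟨k, hk, hk'⟩ := (QuotientGroup.mk'_eq_mk' K).1 hi
    rw [← hk']
    exact mul_mem (zpow_mem hg i) (le_inertia (isCharacter_classFunction θ.2.isCharacter') hk)
  · right
    have hqQ : (Nat.card (G ⧸ K)).factorization q = (Nat.card G).factorization q := by
      have h := Subgroup.card_mul_index K
      rw [Subgroup.index_eq_card] at h
      rw [← h, Nat.factorization_mul Nat.card_pos.ne' Nat.card_pos.ne', Finsupp.add_apply,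
        Nat.factorization_eq_zero_of_not_dvd hqK, zero_add]
    haveI : Fintype (G ⧸ K) := Fintype.ofFinite _
    haveI : Fintype A := Fintype.ofFinite _
    haveI : Nontrivial A := (Subgroup.nontrivial_iff_ne_bot _).2 hA0
    obtain ⟨lam, hlam⟩ : ∃ lam : Cfsg.IrrCharacter A, lam ≠ trivIrr A := by
      haveI : Finite (ConjClasses A) := Finite.of_surjective _ ConjClasses.mk_surjective
      haveI : Nontrivial (ConjClasses A) := by
        obtain ⟨a, ha⟩ := exists_ne (1 : A)
        exact ⟨ConjClasses.mk a, ConjClasses.mk 1, fun h => ha (isConj_one_left.1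
          (ConjClasses.mk_eq_mk_iff_isConj.1 h))⟩
      haveI : Nontrivial (Cfsg.IrrCharacter A) := Finite.one_lt_card_iff_nontrivial.1 (by
        rw [card_irrCharacter]; exact Finite.one_lt_card)
      exact exists_ne _
    have hsmall : ∀ g ∈ inertia (lam : A → ℂ), orderOf g ≠ q := by
      intro g hg hgq
      apply hlam
      let σ : MulAut A := MulAut.conjNormal g
      let τ : ConjClasses A → ConjClasses A := ConjClasses.map σ.toMonoidHom
      let σI : Cfsg.IrrCharacter A → Cfsg.IrrCharacter A := fun ψ =>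
        ⟨(ψ : A → ℂ) ∘ σ.symm, isIrrCharacter_comp_equiv ψ.2 σ.symm⟩
      have hτ : Function.Surjective τ := by
        intro C
        obtain ⟨n, rfl⟩ := C.exists_rep
        exact ⟨ConjClasses.mk (σ.symm n), congrArg ConjClasses.mk (σ.apply_symm_apply n)⟩
      have hcard := brauer_permutation (G := A) σI τ hτ (fun ψ a a' ha => by
        have : IsConj a' (σ a) := ConjClasses.mk_eq_mk_iff_isConj.1 ha
        show (ψ : A → ℂ) (σ.symm a') = (ψ : A → ℂ) a
        rw [show a' = σ a from by
          obtain ⟨c, hc⟩ := isConj_iff.1 this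
          rw [← hc]
          apply Subtype.ext
          push_cast
          rw [hAc _ c.2 _ a'.2, mul_inv_cancel_right], MulEquiv.symm_apply_apply])
      haveI : Subsingleton {C : ConjClasses A // τ C = C} := by
        refine ⟨fun C D => Subtype.ext ?_⟩
        have h1 : ∀ C : {C : ConjClasses A // τ C = C}, C.1 = ConjClasses.mk 1 := by
          rintro ⟨C, hC⟩
          obtain ⟨a, rfl⟩ := C.exists_rep
          obtain ⟨c, hc⟩ := isConj_iff.1 (ConjClasses.mk_eq_mk_iff_isConj.1 hC)
          have hfix : σ a = a := by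
            refine Eq.trans ?_ hc
            apply Subtype.ext
            push_cast
            rw [hAc _ c.2 _ ((MulEquiv.toMonoidHom σ) a).2, mul_inv_cancel_right]
            rfl
          show ConjClasses.mk a = ConjClasses.mk 1
          by_contra hne'
          have ha1 : (a : G ⧸ K) ≠ 1 := fun h => hne' (congrArg ConjClasses.mk (Subtype.ext h))
          obtain ⟨k, hk⟩ := IsPGroup.iff_orderOf.1 hAp a
          rw [← Subgroup.orderOf_coe] at hk
          rcases k with _ | k
          · exact ha1 (orderOf_eq_one_iff.1 (by rw [hk, pow_zero]))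
          refine hnoQ ((a : G ⧸ K) ^ p ^ k) g ?_ hgq ?_
          · rw [orderOf_pow_of_dvd (pow_ne_zero _ hp.ne_zero) (hk ▸ pow_dvd_pow p k.le_succ), hk,
              pow_succ, Nat.mul_div_cancel_left _ (pow_pos hp.pos k)]
          · have h2 := congrArg (fun w : A => (w : G ⧸ K)) hfix
            simp only [σ, MulAut.conjNormal_apply] at h2
            exact ((show Commute g (a : G ⧸ K) from mul_inv_eq_iff_eq_mul.1 h2).pow_right _).eq.symm
        rw [h1 C, h1 D]
      have hle : Nat.card {ψ : Cfsg.IrrCharacter A // σI ψ = ψ} ≤ 1 := by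
        rw [hcard]; exact Finite.card_le_one_iff_subsingleton.2 inferInstance
      haveI := Finite.card_le_one_iff_subsingleton.1 hle
      have hfix' : σI lam = lam := by
        apply Subtype.ext
        funext a
        show (lam : A → ℂ) (σ.symm a) = (lam : A → ℂ) a
        have h1 := congrFun (CfsgLib.Char.mem_inertia.1 (inv_mem hg)) a
        rw [← h1]
        simp [σ, conjFn_eq_comp, MulAut.conjNormal_symm_apply]
      have := Subsingleton.elim (α := {ψ : Cfsg.IrrCharacter A // σI ψ = ψ}) ⟨lam, hfix'⟩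
        ⟨trivIrr A, Subtype.ext rfl⟩
      exact congrArg Subtype.val this
    obtain ⟨χ, hχ⟩ := exists_full (q := q) A lam hsmall
    refine ⟨inflate K χ, ?_⟩
    have hdeg : Cfsg.charDegree (inflate K χ : G → ℂ) = Cfsg.charDegree (χ : G ⧸ K → ℂ) := by
      haveI : Fintype G := Fintype.ofFinite G
      simp [Cfsg.charDegree, inflate_apply]
    rw [hdeg, hχ]; exact hqQ


/-- Let p ≠ q be primes dividing the order of the finite group G, suppose the centralizer of every non-identity p-element has order prime to q, and suppose G is p-solvable or q-solvable. Then G has an irreducible character of p-defect zero or an irreducible character of q-defect zero. -/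
theorem result {G : Type*} [Group G] [Finite G] (p q : ℕ) [Fact p.Prime] [Fact q.Prime] (hppq : p ≠ q) (hpG : p ∣ Nat.card G) (hqG : q ∣ Nat.card G) (hC : ∀ g : G, g ≠ 1 → (∃ k : ℕ, orderOf g = p ^ k) → ¬ q ∣ Nat.card ↥(Subgroup.centralizer ({g} : Set G))) (hsolv : Cfsg.IsPSolvable p G ∨ Cfsg.IsPSolvable q G) : (∃ χ : Cfsg.IrrCharacter G, (Cfsg.charDegree (χ : G → ℂ)).factorization p = (Nat.card G).factorization p) ∨ (∃ χ : Cfsg.IrrCharacter G, (Cfsg.charDegree (χ : G → ℂ)).factorization q = (Nat.card G).factorization q) := by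
  have hno : ∀ x y : G, orderOf x = p → orderOf y = q → x * y ≠ y * x := by
    intro x y hx hy hc
    have hx1 : x ≠ 1 := fun h => (Fact.out : p.Prime).one_lt.ne (by rw [← hx, h, orderOf_one])
    refine hC x hx1 ⟨1, by rw [hx, pow_one]⟩ ?_
    have h := orderOf_dvd_natCard (⟨y, Subgroup.mem_centralizer_singleton_iff.2 hc.symm⟩ :
      ↥(Subgroup.centralizer ({x} : Set G)))
    rwa [Subgroup.orderOf_mk, hy] at h
  rcases hsolv with h | h
  · exact main p q hppq hpG hqG hno h
  · exact (main q p hppq.symm hqG hpG (fun x y hx hy hc => hno y x hy hx hc.symm) h).symm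

end Cfsg.Agent.S4743
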