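import Cfsg.Statements.S4744
import Cfsg.Agent.Lib.BlockInvProduct
import Mathlib.GroupTheory.Sylow
import Mathlib.GroupTheory.FixedPointFree

set_option autoImplicit false
open Cfsg
open scoped Pointwise

namespace Cfsg.Agent.S4744

/-- Let p be an odd prime and G a finite group of even order divisible by p in which the centralizer of every non-identity p-element has odd order. Then either G has an irreducible character of p-defect zero, or the normalizer of every Sylow p-subgroup P of G has even order and P is abelian. -/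
theorem result {G : Type*} [Group G] [Finite G] (p : ℕ) [Fact p.Prime] (hp2 : p ≠ 2) (hpG : p ∣ Nat.card G) (h2G : 2 ∣ Nat.card G) (hC : ∀ g : G, g ≠ 1 → (∃ k : ℕ, orderOf g = p ^ k) → Odd (Nat.card ↥(Subgroup.centralizer ({g} : Set G)))) : (∃ χ : Cfsg.IrrCharacter G, (Cfsg.charDegree (χ : G → ℂ)).factorization p = (Nat.card G).factorization p) ∨ ∀ P : Sylow p G, Even (Nat.card ↥(Subgroup.normalizer ((P : Subgroup G) : Set G))) ∧ IsMulCommutative ↥(P : Subgroup G) := by
  classical
  haveI := Fintype.ofFinite G
  have hp : p.Prime := Fact.out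
  -- an involution centralizes no non-identity element of p-power order
  have hfree : ∀ t z : G, orderOf t = 2 → (∃ k : ℕ, orderOf z = p ^ k) → t * z = z * t → z = 1 := by
    intro t z ht hz hc
    by_contra hne
    have h := hC z hne hz
    have hd : orderOf (⟨t, Subgroup.mem_centralizer_singleton_iff.2 hc⟩ : Subgroup.centralizer ({z} : Set G)) ∣
        Nat.card (Subgroup.centralizer ({z} : Set G)) := orderOf_dvd_natCard _
    rw [Subgroup.orderOf_mk, ht] at hd
    exact Nat.not_even_iff_odd.2 h (even_iff_two_dvd.2 hd)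
  haveI : Fact (Nat.Prime 2) := ⟨Nat.prime_two⟩
  obtain ⟨x, hx⟩ := exists_prime_orderOf_dvd_card' 2 h2G
  obtain ⟨P₀⟩ : Nonempty (Sylow p G) := inferInstance
  have ha : (Nat.card (Subgroup.centralizer ({x} : Set G))).factorization p = 0 := by
    refine Nat.factorization_eq_zero_of_not_dvd fun hd => ?_
    obtain ⟨y, hy⟩ := exists_prime_orderOf_dvd_card' p hd
    have hy' : orderOf (y : G) = p := by rw [Subgroup.orderOf_coe]; exact hy
    have h1 := hfree x y hx ⟨1, by rw [hy', pow_one]⟩ (Subgroup.mem_centralizer_singleton_iff.1 y.2).symm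
    rw [h1, orderOf_one] at hy'
    exact hp.one_lt.ne hy'
  by_cases hinv : ∀ g : G, IsConj x g → ∀ z ∈ (P₀ : Subgroup G), z ≠ 1 → g * z * g⁻¹ ≠ z⁻¹
  · obtain ⟨χ, hχ⟩ := CfsgLib.Block.exists_pow_dvd_degree_of_no_inverted hp
      (by rw [← pow_two, ← hx, pow_orderOf_eq_one]) (P₀ : Subgroup G) P₀.card_eq_multiplicity hinv ha
    refine Or.inl ⟨χ, le_antisymm ?_ ?_⟩
    · exact (Nat.factorization_le_iff_dvd (CfsgLib.Block.charDegree_pos χ).ne' Nat.card_pos.ne').2 (CfsgLib.Block.charDegree_dvd_card χ) p
    · exact (hp.pow_dvd_iff_le_factorization (CfsgLib.Block.charDegree_pos χ).ne').1 (by simpa using hχ)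
  · right
    push Not at hinv
    obtain ⟨t, hxt, z, hzP, hz1, htz⟩ := hinv
    have ht : orderOf t = 2 := by
      obtain ⟨c, hc⟩ := isConj_iff.1 hxt
      rw [← hc, ← hx]; exact (MulAut.conj c).orderOf_eq x
    have htt : t * t = 1 := by rw [← pow_two, ← ht, pow_orderOf_eq_one]
    have hti : t⁻¹ = t := inv_eq_of_mul_eq_one_right htt
    -- `t` inverts a Sylow subgroup of the centralizer of an inverted element
    have key : ∀ w : G, w ≠ 1 → (∃ k : ℕ, orderOf w = p ^ k) → t * w * t = w⁻¹ →
        ∃ R : Subgroup G, R ≤ Subgroup.centralizer ({w} : Set G) ∧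
          Nat.card R = p ^ (Nat.card (Subgroup.centralizer ({w} : Set G))).factorization p ∧
          t ∈ Subgroup.normalizer (R : Set G) ∧ (∀ r ∈ R, t * r * t = r⁻¹) ∧ ∀ r ∈ R, ∀ r' ∈ R, r * r' = r' * r := by
      intro w hw1 hw2 hw
      set C := Subgroup.centralizer ({w} : Set G) with hCdef
      have hmem : ∀ g ∈ C, t * g * t ∈ C := by
        intro g hg
        rw [hCdef, Subgroup.mem_centralizer_singleton_iff] at hg ⊢
        have hwt : t * w⁻¹ * t = w := by
          rw [← hw]; simp only [← mul_assoc, htt, one_mul]; rw [mul_assoc, htt, mul_one]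
        have hg' : Commute g w⁻¹ := Commute.inv_right hg
        conv_lhs => rw [← hwt]
        conv_rhs => rw [← hwt]
        calc t * g * t * (t * w⁻¹ * t) = t * g * (t * t) * w⁻¹ * t := by simp only [mul_assoc]
          _ = t * (g * w⁻¹) * t := by rw [htt, mul_one]; simp only [mul_assoc]
          _ = t * (w⁻¹ * g) * t := by rw [hg'.eq]
          _ = t * w⁻¹ * (t * t) * g * t := by rw [htt, mul_one]; simp only [mul_assoc]
          _ = t * w⁻¹ * t * (t * g * t) := by simp only [mul_assoc]
      have hodd : Odd (Nat.card (Sylow p C)) := by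
        obtain ⟨S⟩ : Nonempty (Sylow p C) := inferInstance
        exact (hC w hw1 hw2).of_dvd_nat (S.card_dvd_index.trans ((S : Subgroup C).index_dvd_card))
      let φ : MulAut C :=
        { toFun := fun g => ⟨t * g * t, hmem g g.2⟩
          invFun := fun g => ⟨t * g * t, hmem g g.2⟩
          left_inv := fun g => Subtype.ext (by
            show t * (t * g * t) * t = g
            simp only [← mul_assoc, htt, one_mul]; rw [mul_assoc, htt, mul_one])
          right_inv := fun g => Subtype.ext (by
            show t * (t * g * t) * t = g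
            simp only [← mul_assoc, htt, one_mul]; rw [mul_assoc, htt, mul_one])
          map_mul' := fun a b => Subtype.ext (by
            show t * ((a : G) * b) * t = t * a * t * (t * b * t)
            rw [show t * a * t * (t * b * t) = t * a * (t * t) * b * t by simp only [mul_assoc], htt, mul_one]
            simp only [mul_assoc]) }
      have hφφ : φ * φ = 1 := MulEquiv.ext fun g => φ.left_inv g
      obtain ⟨S, hS⟩ : ∃ S : Sylow p C, φ • S = S := by
        have hinvol : Function.Involutive (fun S : Sylow p C => φ • S) := fun S => by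
          show φ • φ • S = S
          rw [smul_smul, hφφ, one_smul]
        haveI := Fintype.ofFinite (Sylow p C)
        by_contra hno
        push Not at hno
        have h2 : Even (Fintype.card (Sylow p C)) := by
          have := Equiv.Perm.two_dvd_card_support (σ := hinvol.toPerm) (Equiv.ext fun S => by
            simp [pow_two, Equiv.Perm.mul_apply, hinvol S])
          rw [Finset.eq_univ_of_forall (s := hinvol.toPerm.support) fun S => Equiv.Perm.mem_support.2 (hno S), Finset.card_univ] at this
          exact even_iff_two_dvd.2 this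
        rw [Nat.card_eq_fintype_card] at hodd
        exact Nat.not_even_iff_odd.2 hodd h2
      set R := (S : Subgroup C).map C.subtype with hR
      have hstab : ∀ g : C, g ∈ (S : Subgroup C) → φ g ∈ (S : Subgroup C) := by
        intro g hg
        have h : φ • g ∈ φ • (S : Subgroup C) := Subgroup.smul_mem_pointwise_smul g φ _ hg
        rw [← Sylow.pointwise_smul_def, hS] at h
        exact h
      have hRstab : ∀ r ∈ R, t * r * t ∈ R := by
        rintro r ⟨g, hg, rfl⟩
        exact ⟨φ g, hstab g hg, rfl⟩
      let f : R →* R :=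
        { toFun := fun r => ⟨t * r * t, hRstab r r.2⟩
          map_one' := Subtype.ext (by show t * 1 * t = 1; rw [mul_one, htt])
          map_mul' := fun a b => Subtype.ext (by
            show t * ((a : G) * b) * t = t * a * t * (t * b * t)
            rw [show t * a * t * (t * b * t) = t * a * (t * t) * b * t by simp only [mul_assoc], htt, mul_one]
            simp only [mul_assoc]) }
      have hff : MonoidHom.FixedPointFree f := by
        intro r hr
        have hr' : t * (r : G) * t = r := congrArg Subtype.val hr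
        refine Subtype.ext (hfree t r ht ?_ ?_)
        · obtain ⟨g, hg, hgr⟩ := r.2
          obtain ⟨k, hk⟩ := IsPGroup.iff_orderOf.1 S.isPGroup' ⟨g, hg⟩
          refine ⟨k, ?_⟩
          rw [← hgr, Subgroup.coe_subtype, ← hk, Subgroup.orderOf_mk, Subgroup.orderOf_coe]
        · conv_rhs => rw [← hr', mul_assoc, htt, mul_one]
      have hfi : Function.Involutive f := fun r => Subtype.ext (by
        show t * (t * r * t) * t = r
        simp only [← mul_assoc, htt, one_mul]; rw [mul_assoc, htt, mul_one])
      have hinvR : ∀ r ∈ R, t * r * t = r⁻¹ := fun r hr =>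
        congrArg Subtype.val (congrFun (MonoidHom.FixedPointFree.coe_eq_inv_of_involutive hff hfi) ⟨r, hr⟩)
      refine ⟨R, Subgroup.map_subtype_le _, ?_, ?_, hinvR, fun r hr r' hr' =>
        congrArg Subtype.val (MonoidHom.FixedPointFree.commute_all_of_involutive hff hfi ⟨r, hr⟩ ⟨r', hr'⟩).eq⟩
      · rw [hR, Subgroup.card_map_of_injective C.subtype_injective, S.card_eq_multiplicity]
      · rw [Subgroup.mem_normalizer_iff]
        intro r
        refine ⟨fun h => by rw [hti]; exact hRstab r h, fun h => ?_⟩
        rw [hti] at h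
        have h' := hRstab _ h
        simp only [← mul_assoc, htt, one_mul] at h'
        rwa [mul_assoc, htt, mul_one] at h'
    have hpw : ∀ y : G, ∀ Q : Subgroup G, IsPGroup p Q → y ∈ Q → ∃ k : ℕ, orderOf y = p ^ k := by
      intro y Q hQ hy
      obtain ⟨k, hk⟩ := IsPGroup.iff_orderOf.1 hQ ⟨y, hy⟩
      exact ⟨k, by rw [← hk, Subgroup.orderOf_mk]⟩
    obtain ⟨R, hRC, hRcard, -, hRinv, -⟩ := key z hz1 (hpw z _ P₀.isPGroup' hzP) (by rw [← htz, hti])
    have hRp : IsPGroup p R := IsPGroup.of_card hRcard
    obtain ⟨Q, hRQ⟩ := hRp.exists_le_sylow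
    have hzR : z ∈ R := by
      set C := Subgroup.centralizer ({z} : Set G)
      have hzC : z ∈ C := Subgroup.mem_centralizer_singleton_iff.2 rfl
      have hSy : ∀ m : C, m ∈ Subgroup.center C → (∃ k : ℕ, orderOf m = p ^ k) → ∀ T : Sylow p C, m ∈ (T : Subgroup C) := by
        intro m hm hmp T
        haveI : (Subgroup.zpowers m).Normal := ⟨fun n hn g => by
          have hn' : n ∈ Subgroup.center C := (Subgroup.zpowers_le.2 hm) hn
          rwa [Subgroup.mem_center_iff.1 hn' g, mul_inv_cancel_right]⟩
        obtain ⟨k, hk⟩ := hmp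
        exact (IsPGroup.of_card (by rw [Nat.card_zpowers]; exact hk)).le_sylow_of_normal T (Subgroup.mem_zpowers m)
      have hRT : ∃ T : Sylow p C, (T : Subgroup C) = R.subgroupOf C :=
        ⟨Sylow.ofCard (R.subgroupOf C) (by
          rw [Nat.card_congr (Subgroup.subgroupOfEquivOfLe hRC).toEquiv, hRcard]), rfl⟩
      obtain ⟨T, hT⟩ := hRT
      have := hSy ⟨z, hzC⟩ (Subgroup.mem_center_iff.2 fun g => Subtype.ext (Subgroup.mem_centralizer_singleton_iff.1 g.2))
        (by obtain ⟨k, hk⟩ := hpw z _ P₀.isPGroup' hzP; exact ⟨k, by rw [Subgroup.orderOf_mk]; exact hk⟩) T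
      rw [hT] at this
      exact this
    haveI : Nontrivial (Q : Subgroup G) :=
      ⟨⟨⟨z, hRQ hzR⟩, 1, fun e => hz1 (congrArg Subtype.val e)⟩⟩
    obtain ⟨w, hw⟩ := (nontrivial_iff_exists_ne (1 : Subgroup.center (Q : Subgroup G))).1 Q.isPGroup'.center_nontrivial
    have hw1 : ((w : (Q : Subgroup G)) : G) ≠ 1 := fun e => hw (Subtype.ext (Subtype.ext e))
    set w' : G := ((w : (Q : Subgroup G)) : G) with hw'
    have hwQ : ∀ g ∈ (Q : Subgroup G), g * w' = w' * g := fun g hg =>
      congrArg Subtype.val (Subgroup.mem_center_iff.1 w.2 ⟨g, hg⟩)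
    have hwR : w' ∈ R := by
      have hwC : w' ∈ Subgroup.centralizer ({z} : Set G) := Subgroup.mem_centralizer_singleton_iff.2 (hwQ z (hRQ hzR)).symm
      have hle : R ≤ (Q : Subgroup G) ⊓ Subgroup.centralizer ({z} : Set G) := le_inf hRQ hRC
      have heq : R = (Q : Subgroup G) ⊓ Subgroup.centralizer ({z} : Set G) := by
        refine Subgroup.eq_of_le_of_card_ge hle ?_
        obtain ⟨j, hj⟩ := IsPGroup.iff_card.1 (Q.isPGroup'.to_le (inf_le_left : (Q : Subgroup G) ⊓ Subgroup.centralizer ({z} : Set G) ≤ Q))
        have hd := Subgroup.card_dvd_of_le (inf_le_right : (Q : Subgroup G) ⊓ Subgroup.centralizer ({z} : Set G) ≤ Subgroup.centralizer ({z} : Set G))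
        rw [hj] at hd ⊢
        rw [hRcard]
        exact Nat.pow_le_pow_right hp.pos ((hp.pow_dvd_iff_le_factorization Nat.card_pos.ne').1 hd)
      rw [heq]; exact ⟨(w : (Q : Subgroup G)).2, hwC⟩
    obtain ⟨R', -, hR'card, htN, -, hcomm⟩ := key w' hw1 (hpw w' _ Q.isPGroup' (w : (Q : Subgroup G)).2) (hRinv w' hwR)
    have hfull : (Nat.card G).factorization p = (Nat.card (Subgroup.centralizer ({w'} : Set G))).factorization p := by
      refine le_antisymm ((hp.pow_dvd_iff_le_factorization Nat.card_pos.ne').1 ?_)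
        ((Nat.factorization_le_iff_dvd Nat.card_pos.ne' Nat.card_pos.ne').2 (Subgroup.card_subgroup_dvd_card _) p)
      rw [← Q.card_eq_multiplicity]
      exact Subgroup.card_dvd_of_le fun g hg => Subgroup.mem_centralizer_singleton_iff.2 (hwQ g hg)
    intro P
    obtain ⟨g, hg⟩ := MulAction.exists_smul_eq G (Sylow.ofCard R' (hR'card.trans (by rw [hfull]))) P
    have hPeq : (P : Subgroup G) = R'.map (MulAut.conj g).toMonoidHom := by
      rw [← hg]; rfl
    constructor
    · have hmem : g * t * g⁻¹ ∈ Subgroup.normalizer ((P : Subgroup G) : Set G) := by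
        rw [hPeq]
        exact Subgroup.le_normalizer_map (f := (MulAut.conj g).toMonoidHom) ⟨t, htN, rfl⟩
      have h := orderOf_dvd_natCard (⟨g * t * g⁻¹, hmem⟩ : Subgroup.normalizer ((P : Subgroup G) : Set G))
      rw [Subgroup.orderOf_mk, show g * t * g⁻¹ = MulAut.conj g t from rfl, (MulAut.conj g).orderOf_eq, ht] at h
      exact even_iff_two_dvd.2 h
    · refine ⟨⟨fun a b => Subtype.ext ?_⟩⟩
      obtain ⟨a, ha'⟩ := a
      obtain ⟨b, hb'⟩ := b
      rw [hPeq] at ha' hb'
      obtain ⟨a₀, ha₀, rfl⟩ := ha'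
      obtain ⟨b₀, hb₀, rfl⟩ := hb'
      show (MulAut.conj g).toMonoidHom a₀ * (MulAut.conj g).toMonoidHom b₀ = _
      rw [← map_mul, hcomm a₀ ha₀ b₀ hb₀, map_mul]
      rfl

end Cfsg.Agent.S4744
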