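import Cfsg.Statements.S4746
import Cfsg.Agent.Lib.BlockShortFacts

set_option autoImplicit false
set_option maxHeartbeats 400000
open Cfsg CfsgLib.Block CfsgLib.Char

namespace Cfsg.Agent.S4746

/-- Let p be an odd prime and G a finite group of even order divisible by p in which the centralizer of every non-identity p-element has odd order. Then G has an irreducible character of p-defect zero or an irreducible character of even degree. -/
theorem result {G : Type*} [Group G] [Finite G] (p : ℕ) [Fact p.Prime] (hp2 : p ≠ 2) (hpG : p ∣ Nat.card G) (h2G : 2 ∣ Nat.card G) (hC : ∀ g : G, g ≠ 1 → (∃ k : ℕ, orderOf g = p ^ k) → Odd (Nat.card ↥(Subgroup.centralizer ({g} : Set G)))) : (∃ χ : Cfsg.IrrCharacter G, (Cfsg.charDegree (χ : G → ℂ)).factorization p = (Nat.card G).factorization p) ∨ ∃ χ : Cfsg.IrrCharacter G, Even (Cfsg.charDegree (χ : G → ℂ)) := by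
  classical
  haveI : Fintype G := Fintype.ofFinite G
  have hp := (Fact.out : p.Prime)
  by_contra hcon
  push Not at hcon
  obtain ⟨hdef, hodd⟩ := hcon
  -- no nontrivial p-element is conjugate to its inverse
  have hnr : ∀ x : G, x ≠ 1 → (∃ k : ℕ, orderOf x = p ^ k) → ¬ IsConj x x⁻¹ := by
    intro x hx hxp hreal
    have hC := hC x hx hxp
    have hint : ∀ χ : Cfsg.IrrCharacter G, IsIntegral ℤ ((χ : G → ℂ) x) :=
      fun χ => isCharacter_isIntegral χ.2.isCharacter' x
    have hsq : ∀ s : Finset (Cfsg.IrrCharacter G), ∃ u : ℂ, IsIntegral ℤ u ∧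
        (∑ χ ∈ s, (χ : G → ℂ) x) ^ 2 = ∑ χ ∈ s, (χ : G → ℂ) x ^ 2 + 2 * u := by
      intro s
      induction s using Finset.induction_on with
      | empty => exact ⟨0, isIntegral_zero, by simp⟩
      | insert a s ha ih =>
        obtain ⟨u, hu, he⟩ := ih
        refine ⟨u + (a : G → ℂ) x * ∑ χ ∈ s, (χ : G → ℂ) x,
          hu.add ((hint a).mul (IsIntegral.sum _ fun χ _ => hint χ)), ?_⟩
        rw [Finset.sum_insert ha, Finset.sum_insert ha, add_sq, he]; ring
    obtain ⟨u, hu, hu2⟩ := hsq Finset.univ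
    have hcard : ∑ χ : Cfsg.IrrCharacter G, (χ : G → ℂ) x ^ 2
        = (Nat.card ↥(Subgroup.centralizer ({x} : Set G)) : ℂ) := by
      rw [← column_orth_conj (IsConj.refl x)]
      refine Finset.sum_congr rfl fun χ _ => ?_
      rw [← isCharacter_inv_eq_conj χ.2.isCharacter', classFun_isConj (irr_classFunction χ) hreal,
        sq]
    have hdeg : ∀ χ : Cfsg.IrrCharacter G, ∃ r : ℕ, (χ : G → ℂ) 1 = (2 * r + 1 : ℕ) := by
      intro χ
      obtain ⟨r, hr⟩ := Nat.not_even_iff_odd.1 (hodd χ)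
      exact ⟨r, by rw [← hr, charDegree_cast χ.2.isCharacter']⟩
    choose r hr using hdeg
    have hs : ∑ χ : Cfsg.IrrCharacter G, (χ : G → ℂ) x
        = -2 * ∑ χ : Cfsg.IrrCharacter G, (r χ : ℂ) * (χ : G → ℂ) x := by
      have h := sum_degree_mul x
      rw [if_neg hx] at h
      simp only [hr] at h
      push_cast at h
      simp only [add_mul, one_mul, Finset.sum_add_distrib, mul_assoc, ← Finset.mul_sum] at h
      linear_combination h
    obtain ⟨w, hw, hs⟩ : ∃ w : ℂ, IsIntegral ℤ w ∧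
        ∑ χ : Cfsg.IrrCharacter G, (χ : G → ℂ) x = 2 * w :=
      ⟨-∑ χ : Cfsg.IrrCharacter G, (r χ : ℂ) * (χ : G → ℂ) x,
        (IsIntegral.sum _ fun χ _ =>
          (map_natCast (algebraMap ℤ ℂ) (r χ) ▸ isIntegral_algebraMap).mul (hint χ)).neg,
        by rw [hs]; ring⟩
    rw [hs, hcard] at hu2
    obtain ⟨m, hm⟩ := hC
    rw [hm] at hu2
    push_cast at hu2
    have hhalf : (1 : ℂ) / 2 = 2 * w ^ 2 - u - (m : ℂ) := by linear_combination -hu2 / 2
    have hI : IsIntegral ℤ (((1 / 2 : ℚ)) : ℂ) := by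
      push_cast
      rw [hhalf]
      refine (((map_natCast (algebraMap ℤ ℂ) 2 ▸ isIntegral_algebraMap : IsIntegral ℤ ((2 : ℕ) : ℂ)).mul
        (hw.pow 2)).sub hu).sub (map_natCast (algebraMap ℤ ℂ) m ▸ isIntegral_algebraMap)
    obtain ⟨k, hk⟩ := int_of_isIntegral_rat (1 / 2) hI
    have : (2 * k : ℤ) = 1 := by exact_mod_cast (show (2 * k : ℚ) = 1 by rw [hk]; norm_num)
    omega
  obtain ⟨t, ht⟩ := exists_prime_orderOf_dvd_card' 2 h2G
  have ht1 : t ≠ 1 := fun h => by rw [h, orderOf_one] at ht; omega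
  have htt : t * t = 1 := by rw [← sq, ← ht, pow_orderOf_eq_one]
  have hpC : ¬ p ∣ Nat.card ↥(Subgroup.centralizer ({t} : Set G)) := by
    intro h
    obtain ⟨x, hx⟩ := exists_prime_orderOf_dvd_card' p h
    have hx' : orderOf (x : G) = p := by rw [Subgroup.orderOf_coe, hx]
    have hx1 : (x : G) ≠ 1 := fun h => by rw [h, orderOf_one] at hx'; exact hp.one_lt.ne hx'
    have hev := hC x hx1 ⟨1, by rw [hx', pow_one]⟩
    have hmem : t ∈ Subgroup.centralizer ({(x : G)} : Set G) :=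
      Subgroup.mem_centralizer_singleton_iff.2 (Subgroup.mem_centralizer_singleton_iff.1 x.2).symm
    have h2 : 2 ∣ Nat.card ↥(Subgroup.centralizer ({(x : G)} : Set G)) := by
      rw [← ht, ← Subgroup.orderOf_mk _ hmem]; exact orderOf_dvd_natCard _
    exact (Nat.not_even_iff_odd.2 hev) (even_iff_two_dvd.2 h2)
  obtain ⟨S⟩ : Nonempty (Sylow p G) := inferInstance
  haveI : Fintype (S : Subgroup G) := Fintype.ofFinite _
  have hconjsq : ∀ a : G, (a * t * a⁻¹) * (a * t * a⁻¹) = 1 := fun a => by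
    rw [show a * t * a⁻¹ * (a * t * a⁻¹) = a * (t * t) * a⁻¹ by group, htt]; group
  -- class multiplication into the Sylow subgroup
  have hs : ∀ s : (S : Subgroup G),
      ∑ χ : Cfsg.IrrCharacter G, (χ : G → ℂ) t ^ 2 * (starRingEnd ℂ) ((χ : G → ℂ) s) / (χ : G → ℂ) 1
        = if (s : G) = 1 then (Nat.card ↥(Subgroup.centralizer ({t} : Set G)) : ℂ) else 0 := by
    intro s
    apply mul_left_cancel₀ (pow_ne_zero 2 (natCard_ne_zero G))
    have h : ∑ χ : Cfsg.IrrCharacter G, ∑ q : G × G,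
        (χ : G → ℂ) (q.1 * t * q.1⁻¹ * (q.2 * t * q.2⁻¹)) * (starRingEnd ℂ) ((χ : G → ℂ) s)
        = (Nat.card G : ℂ) ^ 2 * ∑ χ : Cfsg.IrrCharacter G,
          (χ : G → ℂ) t ^ 2 * (starRingEnd ℂ) ((χ : G → ℂ) s) / (χ : G → ℂ) 1 := by
      rw [Finset.mul_sum]
      refine Finset.sum_congr rfl fun χ _ => ?_
      rw [← Finset.sum_mul, sum_conj_prod]; ring
    rw [← h, Finset.sum_comm]
    simp only [sum_irr_mul_conj]
    split_ifs with h1
    · rw [h1]
      have e : ∀ q : G × G, classDelta (1 : G) (q.1 * t * q.1⁻¹ * (q.2 * t * q.2⁻¹))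
          = if q.2⁻¹ * q.1 ∈ Subgroup.centralizer ({t} : Set G) then (Nat.card G : ℂ) else 0 := by
        intro q
        have hiff : q.1 * t * q.1⁻¹ * (q.2 * t * q.2⁻¹) = 1
            ↔ q.2⁻¹ * q.1 ∈ Subgroup.centralizer ({t} : Set G) := by
          rw [Subgroup.mem_centralizer_singleton_iff, mul_eq_one_iff_eq_inv,
            inv_eq_of_mul_eq_one_right (hconjsq q.2)]
          constructor
          · intro h
            calc q.2⁻¹ * q.1 * t = q.2⁻¹ * (q.1 * t * q.1⁻¹) * q.1 := by group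
              _ = t * (q.2⁻¹ * q.1) := by rw [h]; group
          · intro h
            calc q.1 * t * q.1⁻¹ = q.2 * (q.2⁻¹ * q.1 * t) * q.1⁻¹ := by group
              _ = q.2 * t * q.2⁻¹ := by rw [h]; group
        split_ifs with h2
        · rw [hiff.2 h2, classDelta_of_isConj (IsConj.refl 1)]
          have htop : Subgroup.centralizer ({(1 : G)} : Set G) = ⊤ :=
            eq_top_iff.2 fun z _ => Subgroup.mem_centralizer_singleton_iff.2 (by simp)
          rw [htop, Subgroup.card_top]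
        · exact classDelta_of_not_isConj fun h => h2 (hiff.1 (isConj_one_right.1 h))
      simp only [e]
      rw [Fintype.sum_prod_type_right]
      have e2 : ∀ b : G, (∑ a : G, if b⁻¹ * a ∈ Subgroup.centralizer ({t} : Set G) then
          (Nat.card G : ℂ) else 0)
          = (Nat.card ↥(Subgroup.centralizer ({t} : Set G)) : ℂ) * (Nat.card G : ℂ) := fun b => by
        refine (Fintype.sum_equiv (Equiv.mulLeft b⁻¹) _ (fun a =>
            if a ∈ Subgroup.centralizer ({t} : Set G) then (Nat.card G : ℂ) else 0) (fun a => rfl)).trans ?_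
        rw [← Finset.sum_filter, Finset.sum_const, nsmul_eq_mul, Nat.card_eq_fintype_card
            (α := ↥(Subgroup.centralizer ({t} : Set G))), Fintype.card_subtype]
      simp only [e2]
      rw [Finset.sum_const, Finset.card_univ, nsmul_eq_mul, ← Nat.card_eq_fintype_card]
      ring
    · rw [mul_zero]
      refine Finset.sum_eq_zero fun q _ => classDelta_of_not_isConj fun h => ?_
      obtain ⟨j, hj⟩ := IsPGroup.iff_orderOf.1 S.isPGroup' s
      refine hnr s h1 ⟨j, by rw [Subgroup.orderOf_coe, hj]⟩ (h.trans ?_)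
      obtain ⟨y, hy, z, hz, e1⟩ : ∃ y, y * y = 1 ∧ ∃ z, z * z = 1 ∧
          q.1 * t * q.1⁻¹ * (q.2 * t * q.2⁻¹) = y * z := ⟨_, hconjsq q.1, _, hconjsq q.2, rfl⟩
      rw [e1] at h ⊢
      have h2 : IsConj (y * z) (y * z)⁻¹ := isConj_iff.2 ⟨y, by
        rw [mul_inv_rev, inv_eq_of_mul_eq_one_right hy, inv_eq_of_mul_eq_one_right hz, ← mul_assoc y y,
          hy, one_mul]⟩
      refine h2.trans ?_
      obtain ⟨g, hg⟩ := isConj_iff.1 h
      exact (isConj_iff.2 ⟨g, by rw [← hg]; group⟩ : IsConj ((s : G))⁻¹ (y * z)⁻¹).symm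
  have hm : ∀ χ : Cfsg.IrrCharacter G, ∃ m : ℕ,
      ∑ s : (S : Subgroup G), (starRingEnd ℂ) ((χ : G → ℂ) s) = (Nat.card (S : Subgroup G) : ℂ) * m := by
    intro χ
    obtain ⟨m, hm⟩ := inner_character_nat (isCharacter_one (G := (S : Subgroup G)))
      (isCharacter_restrict χ.2.isCharacter' (S : Subgroup G))
    refine ⟨m, ?_⟩
    rw [← hm, Cfsg.classInner, ← mul_assoc, mul_inv_cancel₀ (natCard_ne_zero _), one_mul]
    simp
  choose m hm using hm
  have hsum : (Nat.card (S : Subgroup G) : ℂ) * ∑ χ : Cfsg.IrrCharacter G,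
      (m χ : ℂ) * (χ : G → ℂ) t ^ 2 / (χ : G → ℂ) 1
      = (Nat.card ↥(Subgroup.centralizer ({t} : Set G)) : ℂ) := by
    calc _ = ∑ χ : Cfsg.IrrCharacter G, ∑ s : (S : Subgroup G),
          (χ : G → ℂ) t ^ 2 * (starRingEnd ℂ) ((χ : G → ℂ) s) / (χ : G → ℂ) 1 := by
          rw [Finset.mul_sum]
          refine Finset.sum_congr rfl fun χ _ => ?_
          rw [← Finset.sum_div, ← Finset.mul_sum, hm]; ring
      _ = _ := by
          rw [Finset.sum_comm, Finset.sum_congr rfl (fun s _ => hs s),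
            Finset.sum_eq_single (1 : (S : Subgroup G))]
          · exact if_pos rfl
          · exact fun s _ h => if_neg (fun e => h (Subtype.ext e))
          · exact fun h => absurd (Finset.mem_univ _) h
  have hdvd : ∀ χ : Cfsg.IrrCharacter G, ∃ l : ℕ,
      Nat.card G = Cfsg.charDegree (χ : G → ℂ) * (p * l) := by
    intro χ
    obtain ⟨l, hl⟩ := charDegree_dvd_card χ
    have hpl : p ∣ l := by
      by_contra hn
      refine hdef χ ?_
      rw [hl, Nat.factorization_mul (charDegree_pos χ).ne' (fun h0 => hn (by rw [h0]; exact dvd_zero p)),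
        Finsupp.add_apply, Nat.factorization_eq_zero_of_not_dvd hn, add_zero]
    obtain ⟨l', rfl⟩ := hpl
    exact ⟨l', hl⟩
  choose l hl using hdvd
  have hI : IsIntegral ℤ (∑ χ : Cfsg.IrrCharacter G, (m χ : ℂ) * (χ : G → ℂ) t ^ 2 * (l χ : ℂ)) :=
    IsIntegral.sum _ fun χ _ =>
      (((map_natCast (algebraMap ℤ ℂ) (m χ) ▸ isIntegral_algebraMap).mul
        ((isCharacter_isIntegral χ.2.isCharacter' t).pow 2)).mul
        (map_natCast (algebraMap ℤ ℂ) (l χ) ▸ isIntegral_algebraMap))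
  have hpS : ((p * Nat.card (S : Subgroup G) : ℕ) : ℂ) ≠ 0 :=
    Nat.cast_ne_zero.2 (Nat.mul_ne_zero hp.ne_zero Nat.card_pos.ne')
  have hq : ∑ χ : Cfsg.IrrCharacter G, (m χ : ℂ) * (χ : G → ℂ) t ^ 2 * (l χ : ℂ)
      = ((Nat.card ↥(Subgroup.centralizer ({t} : Set G)) * Nat.card G : ℕ) : ℂ)
        / ((p * Nat.card (S : Subgroup G) : ℕ) : ℂ) := by
    rw [eq_div_iff hpS, Nat.cast_mul, Nat.cast_mul, ← hsum, Finset.sum_mul, Finset.mul_sum,
      Finset.sum_mul]
    refine Finset.sum_congr rfl fun χ _ => ?_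
    have h1 := irr_one_ne_zero χ
    rw [hl χ, Nat.cast_mul, Nat.cast_mul, charDegree_cast χ.2.isCharacter']
    field_simp
  rw [hq] at hI
  have hd := natCast_dvd_of_isIntegral_div (Nat.mul_pos hp.pos Nat.card_pos) hI
  rw [← Subgroup.card_mul_index (S : Subgroup G), ← mul_assoc,
    mul_comm (Nat.card ↥(Subgroup.centralizer ({t} : Set G))), mul_assoc,
    mul_comm p] at hd
  have := Nat.dvd_of_mul_dvd_mul_left Nat.card_pos hd
  exact (hp.dvd_mul.1 this).elim hpC S.not_dvd_index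

end Cfsg.Agent.S4746
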