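import Cfsg.Statements.S4748
import Cfsg.Agent.Lib.BlockTIFixed
import Cfsg.Agent.Lib.LocalFFModel
import Cfsg.Agent.Lib.CharLinear
import Cfsg.Agent.Lib.BlockRegular
import Mathlib.GroupTheory.Sylow
import Mathlib.RepresentationTheory.Basic

set_option autoImplicit false
open scoped Pointwise
open Cfsg
open scoped Pointwise

namespace Cfsg.Agent.S4748

/-- Let G be a finite p-solvable group whose Sylow p-subgroup P meets each conjugate g P g⁻¹ with g outside N_G(P) trivially, and let χ be a faithful character of G (χ g = χ 1 only for g = 1) whose degree d satisfies d² ≤ |P|. Then P is normal in G. -/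
theorem result {G : Type*} [Group G] [Finite G] (p : ℕ) [Fact p.Prime] (hsolv : Cfsg.IsPSolvable p G) (P : Sylow p G) (hTI : ∀ g : G, g ∉ Subgroup.normalizer ((P : Subgroup G) : Set G) → (P : Subgroup G) ⊓ (MulAut.conj g • (P : Subgroup G)) = ⊥) (χ : G → ℂ) (hχ : Cfsg.IsCharacter G χ) (hfaith : ∀ g : G, χ g = χ 1 → g = 1) (hdeg : Cfsg.charDegree χ ^ 2 ≤ Nat.card ↥(P : Subgroup G)) : (P : Subgroup G).Normal := by
  classical
  haveI := Fintype.ofFinite G
  by_contra hnn
  obtain ⟨g₀, hg₀⟩ : ∃ g : G, g ∉ Subgroup.normalizer ((P : Subgroup G) : Set G) := by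
    by_contra h
    push Not at h
    exact hnn (Subgroup.normalizer_eq_top_iff.1 (eq_top_iff.2 fun x _ => h x))
  have hcore : Cfsg.pCore p G = ⊥ := by
    rw [eq_bot_iff, ← hTI g₀ hg₀]
    refine le_inf (CfsgLib.Core.pCore_le_sylow P) ?_
    intro x hx
    rw [Subgroup.mem_pointwise_smul_iff_inv_smul_mem, MulAut.smul_def, ← map_inv, MulAut.conj_apply, inv_inv]
    have h := (inferInstance : (Cfsg.pCore p G).Normal).conj_mem x hx g₀⁻¹
    rw [inv_inv] at h
    exact CfsgLib.Core.pCore_le_sylow P h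
  have hP1 : (P : Subgroup G) ≠ ⊥ := fun e => hnn (by rw [e]; infer_instance)
  haveI : Nontrivial (P : Subgroup G) := (Subgroup.nontrivial_iff_ne_bot _).2 hP1
  obtain ⟨z, hz⟩ := (nontrivial_iff_exists_ne (1 : Subgroup.center (P : Subgroup G))).1 P.isPGroup'.center_nontrivial
  set z' : G := ((z : (P : Subgroup G)) : G) with hz'
  have hz1 : z' ≠ 1 := fun e => hz (Subtype.ext (Subtype.ext e))
  have hzP : ∀ a ∈ (P : Subgroup G), a * z' = z' * a := fun a ha =>
    congrArg Subtype.val (Subgroup.mem_center_iff.1 z.2 ⟨a, ha⟩)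
  set K := Cfsg.pPrimeCore p G with hK
  set G₀ := (P : Subgroup G) ⊔ K with hG₀
  have hPG₀ : (P : Subgroup G) ≤ G₀ := le_sup_left
  obtain ⟨d, ρ, hρ⟩ := id hχ
  have hd : Cfsg.charDegree χ = d := by
    have h := CfsgLib.Block.charDegree_cast hχ
    have h' := congrFun hρ 1
    rw [Representation.char_one, Module.finrank_fin_fun] at h'
    rw [← h'] at h
    exact_mod_cast h
  have hd0 : 0 < d := by
    rcases Nat.eq_zero_or_pos d with rfl | h
    · refine absurd ?_ hz1
      refine hfaith z' ?_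
      rw [← hρ]
      simp only [Representation.character]
      rw [Subsingleton.elim (ρ z') (ρ 1)]
    · exact h
  -- conjugation on the endomorphisms
  let σ : Representation ℂ G₀ (Module.End ℂ (Fin d → ℂ)) := Representation.linHom (ρ.comp G₀.subtype) (ρ.comp G₀.subtype)
  have hσ : ∀ (g : G₀) (T : Module.End ℂ (Fin d → ℂ)), σ g T = ρ (g : G) * T * ρ (g : G)⁻¹ := fun g T => rfl
  have hTI' : ∀ g : G₀, g ∉ (Subgroup.normalizer ((P : Subgroup G) : Set G)).subgroupOf G₀ →
      ∀ x ∈ (P : Subgroup G).subgroupOf G₀, g⁻¹ * x * g ∈ (Subgroup.normalizer ((P : Subgroup G) : Set G)).subgroupOf G₀ → x = 1 := by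
    intro g hg x hx hxg
    refine Subtype.ext ?_
    have hxP : ((g : G)⁻¹ * x * g) ∈ (P : Subgroup G) := by
      obtain ⟨k, hk⟩ := IsPGroup.iff_orderOf.1 P.isPGroup' ⟨(x : G), Subgroup.mem_subgroupOf.1 hx⟩
      rw [Subgroup.orderOf_mk] at hk
      have hcard : IsPGroup p (Subgroup.zpowers ((g : G)⁻¹ * x * g)) := IsPGroup.of_card (n := k) (by
        rw [Nat.card_zpowers, show (g : G)⁻¹ * x * g = MulAut.conj (g : G)⁻¹ (x : G) by simp, (MulAut.conj (g : G)⁻¹).orderOf_eq, hk])
      exact (le_of_eq (hcard.inf_normalizer_sylow P) ⟨Subgroup.mem_zpowers _, hxg⟩).2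
    have h : (x : G) ∈ (P : Subgroup G) ⊓ MulAut.conj (g : G) • (P : Subgroup G) :=
      ⟨hx, Subgroup.mem_pointwise_smul_iff_inv_smul_mem.2 (by
        rw [MulAut.smul_def, ← map_inv, MulAut.conj_apply, inv_inv]
        exact hxP)⟩
    rw [hTI g hg, Subgroup.mem_bot] at h
    exact h
  have hPK : ∀ b ∈ (P : Subgroup G), b ∈ K → b = 1 := by
    intro b hb hbK
    obtain ⟨k, hk⟩ := IsPGroup.iff_orderOf.1 P.isPGroup' ⟨b, hb⟩
    rw [Subgroup.orderOf_mk] at hk
    have h1 : ¬ p ∣ orderOf b := fun h =>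
      CfsgLib.Core.not_dvd_card_pPrimeCore p (h.trans (by rw [← Subgroup.orderOf_mk (H := K) b hbK]; exact orderOf_dvd_natCard _))
    rcases k with _ | k
    · rw [pow_zero] at hk; exact orderOf_eq_one_iff.1 hk
    · exact absurd (by rw [hk]; exact dvd_pow_self p k.succ_ne_zero) h1
  have hcomm : ∀ n ∈ (Subgroup.normalizer ((P : Subgroup G) : Set G)).subgroupOf G₀, σ n (ρ z') = ρ z' := by
    intro n hn
    have hn' : (n : G) ∈ G₀ := n.2
    haveI : K.Normal := inferInstanceAs (Cfsg.pPrimeCore p G).Normal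
    obtain ⟨a, ha, b, hb, hab⟩ := Subgroup.mem_sup_of_normal_right.1 hn'
    have hbN : b ∈ Subgroup.normalizer ((P : Subgroup G) : Set G) := by
      have : b = a⁻¹ * (n : G) := by rw [← hab, inv_mul_cancel_left]
      rw [this]
      exact Subgroup.mul_mem _ (Subgroup.inv_mem _ (Subgroup.le_normalizer ha)) hn
    have hbz : b * z' = z' * b := by
      have h1 : b * z' * b⁻¹ * z'⁻¹ ∈ (P : Subgroup G) :=
        (P : Subgroup G).mul_mem ((Subgroup.mem_normalizer_iff.1 hbN z').1 (z : (P : Subgroup G)).2) ((P : Subgroup G).inv_mem (z : (P : Subgroup G)).2)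
      have h2 : b * z' * b⁻¹ * z'⁻¹ ∈ K := by
        rw [show b * z' * b⁻¹ * z'⁻¹ = b * (z' * b⁻¹ * z'⁻¹) by group]
        exact K.mul_mem hb ((inferInstance : K.Normal).conj_mem _ (K.inv_mem hb) z')
      have h := hPK _ h1 h2
      rwa [mul_inv_eq_one, mul_inv_eq_iff_eq_mul] at h
    have hnz : (n : G) * z' * (n : G)⁻¹ = z' := by
      rw [← hab]
      calc a * b * z' * (a * b)⁻¹ = a * (b * z') * b⁻¹ * a⁻¹ := by group
        _ = a * z' * a⁻¹ := by rw [hbz]; group
        _ = z' := by rw [hzP a ha]; group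
    rw [hσ, ← map_mul, ← map_mul, hnz]
  have hdim : Module.finrank ℂ (Module.End ℂ (Fin d → ℂ)) ≤ Nat.card ((P : Subgroup G).subgroupOf G₀) := by
    rw [Module.finrank_linearMap, Module.finrank_fin_fun, Nat.card_congr (Subgroup.subgroupOfEquivOfLe hPG₀).toEquiv, ← pow_two, ← hd]
    exact hdeg
  have hone : ∃ v : Module.End ℂ (Fin d → ℂ), v ≠ 0 ∧ ∀ g, σ g v = v := by
    haveI : Nonempty (Fin d) := ⟨⟨0, hd0⟩⟩
    refine ⟨1, one_ne_zero, fun g => ?_⟩
    rw [hσ, mul_one, ← map_mul, mul_inv_cancel, map_one]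
  have hall := CfsgLib.Block.fixed_of_TI_of_finrank_le ((P : Subgroup G).subgroupOf G₀)
    (P.isPGroup'.comap_of_injective G₀.subtype G₀.subtype_injective) _ hTI'
    (fun x hx => Subgroup.le_normalizer hx) σ hdim hone (ρ z') hcomm
  refine hz1 (hPK z' (z : (P : Subgroup G)).2 (CfsgLib.LocalFF.centralizer_pPrimeCore_le hsolv hcore ?_))
  rw [Subgroup.mem_centralizer_iff]
  intro k hk
  have h := hall ⟨k, Subgroup.mem_sup_right hk⟩
  rw [hσ, ← map_mul, ← map_mul] at h
  have h' : χ ((k * z' * k⁻¹) * z'⁻¹) = χ 1 := by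
    rw [← hρ]
    simp only [Representation.character, map_mul]
    simp only [map_mul] at h
    rw [h, ← map_mul, mul_inv_cancel]
  have h'' := hfaith _ h'
  rw [mul_inv_eq_one, mul_inv_eq_iff_eq_mul] at h''
  exact h''

end Cfsg.Agent.S4748
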