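import Cfsg.Statements.S4750
import Cfsg.Agent.Lib.BlockTIFixed
import Cfsg.Agent.Lib.CharBasic
import Cfsg.Agent.Lib.BlockRegular
import Mathlib.RepresentationTheory.Character
import Mathlib.GroupTheory.Sylow

set_option autoImplicit false
open scoped Pointwise
open Cfsg
open scoped Pointwise

namespace Cfsg.Agent.S4750

/-- Let P be a Sylow p-subgroup of the finite group G that meets each conjugate g P g⁻¹ with g outside N_G(P) trivially, χ a character of G with χ(1)² ≤ |P|, and H a subgroup of G containing N_G(P). Then the inner product of χ with itself over G equals the inner product over H of the restriction of χ to H. -/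
theorem result {G : Type*} [Group G] [Fintype G] [DecidableEq G] (p : ℕ) [Fact p.Prime] (P : Sylow p G) (hTI : ∀ g : G, g ∉ Subgroup.normalizer ((P : Subgroup G) : Set G) → (P : Subgroup G) ⊓ (MulAut.conj g • (P : Subgroup G)) = ⊥) (χ : G → ℂ) (hχ : Cfsg.IsCharacter G χ) (hdeg : Cfsg.charDegree χ ^ 2 ≤ Nat.card ↥(P : Subgroup G)) (H : Subgroup G) [Fintype ↥H] (hH : Subgroup.normalizer ((P : Subgroup G) : Set G) ≤ H) : Cfsg.classInner χ χ = Cfsg.classInner (fun h : ↥H => χ h) (fun h : ↥H => χ h) := by
  classical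
  set N := Subgroup.normalizer ((P : Subgroup G) : Set G) with hN
  -- the representation affording `χ * conj χ`
  obtain ⟨n, ρ, hρ⟩ := CfsgLib.Char.isCharacter_mul hχ (CfsgLib.Char.isCharacter_conj hχ)
  haveI : Invertible (Nat.card G : ℂ) := CfsgLib.Char.invertibleNatCard G
  haveI : Invertible (Nat.card H : ℂ) := CfsgLib.Char.invertibleNatCard H
  have hG : classInner χ χ = (Module.finrank ℂ ρ.invariants : ℂ) := by
    rw [← Representation.card_inv_mul_sum_char_eq_finrank, classInner]
    simp only [hρ, Pi.mul_apply]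
  have hHr : classInner (fun h : H => χ h) (fun h : H => χ h) = (Module.finrank ℂ (Representation.invariants (ρ.comp H.subtype)) : ℂ) := by
    rw [← Representation.card_inv_mul_sum_char_eq_finrank]
    show _ = (Nat.card H : ℂ)⁻¹ * ∑ h : H, Representation.character ρ (h : G)
    simp only [classInner, hρ, Pi.mul_apply]
  suffices hle : Representation.invariants (ρ.comp H.subtype) ≤ ρ.invariants by
    rw [hG, hHr, le_antisymm hle (fun v hv h => hv h)]
  -- the sum over the group
  let T : Module.End ℂ (Fin n → ℂ) := ∑ g : G, ρ g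
  have hT : ∀ v, T v = ∑ g : G, ρ g v := fun v => LinearMap.sum_apply _ _ _
  have hρT : ∀ g v, ρ g (T v) = T v := fun g v => by
    rw [hT, map_sum]
    exact Fintype.sum_equiv (Equiv.mulLeft g) _ _ fun x => by rw [Equiv.coe_mulLeft, map_mul]; rfl
  have hTρ : ∀ g v, T (ρ g v) = T v := fun g v => by
    rw [hT, hT]
    exact Fintype.sum_equiv (Equiv.mulRight g) _ _ fun x => by rw [Equiv.coe_mulRight, map_mul]; rfl
  intro w hw
  by_contra hwG
  set w' := w - (Nat.card G : ℂ)⁻¹ • T w with hw'
  have hfix : ∀ m ∈ N, ρ m w' = w' := fun m hm => by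
    rw [hw', map_sub, map_smul, hρT]
    congr 1
    exact hw ⟨m, hH (hN ▸ hm)⟩
  have hw'0 : w' ≠ 0 := fun e => hwG fun g => by
    rw [sub_eq_zero.1 e, map_smul, hρT]
  have hkill : T w' = 0 := by
    have hTT : T (T w) = (Nat.card G : ℂ) • T w := by
      rw [hT, Finset.sum_congr rfl fun g _ => hρT g w, Finset.sum_const, Finset.card_univ, ← Nat.card_eq_fintype_card,
        Nat.cast_smul_eq_nsmul]
    rw [hw', map_sub, map_smul, hTT, inv_smul_smul₀ (CfsgLib.Char.natCard_ne_zero G), sub_self]
  have hTI' : ∀ g : G, g ∉ N → ∀ x ∈ (P : Subgroup G), g⁻¹ * x * g ∈ N → x = 1 := by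
    intro g hg x hx hxg
    have hxP : g⁻¹ * x * g ∈ (P : Subgroup G) := by
      obtain ⟨k, hk⟩ := IsPGroup.iff_orderOf.1 P.isPGroup' ⟨x, hx⟩
      rw [Subgroup.orderOf_mk] at hk
      have hcard : IsPGroup p (Subgroup.zpowers (g⁻¹ * x * g)) := IsPGroup.of_card (n := k) (by
        rw [Nat.card_zpowers, show g⁻¹ * x * g = MulAut.conj g⁻¹ x by simp, (MulAut.conj g⁻¹).orderOf_eq, hk])
      have h := hcard.inf_normalizer_sylow P
      have hm : g⁻¹ * x * g ∈ Subgroup.zpowers (g⁻¹ * x * g) ⊓ N := ⟨Subgroup.mem_zpowers _, hxg⟩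
      exact (le_of_eq h hm).2
    have h : x ∈ (P : Subgroup G) ⊓ MulAut.conj g • (P : Subgroup G) :=
      ⟨hx, Subgroup.mem_pointwise_smul_iff_inv_smul_mem.2 (by
        rw [MulAut.smul_def, ← map_inv, MulAut.conj_apply, inv_inv]
        exact hxP)⟩
    rw [hTI g hg, Subgroup.mem_bot] at h
    exact h
  obtain ⟨g, hli⟩ := CfsgLib.Block.exists_independent_translates (P : Subgroup G) P.isPGroup' N hTI'
    Subgroup.le_normalizer ρ w' hw'0 hfix (by rw [← hT]; exact hkill)
  have hmem : ∀ x : (P : Subgroup G), ρ ((x : G) * g) w' ∈ LinearMap.ker T := fun x => by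
    rw [LinearMap.mem_ker, hTρ, hkill]
  let u : ↥(P : Subgroup G) → LinearMap.ker T := fun x => ⟨ρ ((x : G) * g) w', hmem x⟩
  have hu : LinearIndependent ℂ u := LinearIndependent.of_comp (LinearMap.ker T).subtype hli
  have h1 := hu.fintype_card_le_finrank
  -- the trivial constituent
  have hχ0 : T ≠ 0 := by
    intro e
    have h0 : (Nat.card G : ℂ) * classInner χ χ = 0 := by
      have h : LinearMap.trace ℂ (Fin n → ℂ) T = ∑ g : G, ρ.character g := map_sum _ _ _
      rw [e, map_zero] at h
      simp only [hρ, Pi.mul_apply] at h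
      rw [classInner, ← mul_assoc, mul_inv_cancel₀ (CfsgLib.Char.natCard_ne_zero G), one_mul]
      exact h.symm
    have hχz : χ = 0 := CfsgLib.Char.inner_self_eq_zero.1 ((mul_eq_zero.1 h0).resolve_left (CfsgLib.Char.natCard_ne_zero G))
    have hn : (n : ℂ) = 0 := by
      have h := congrFun hρ 1
      simp only [hχz, Representation.char_one, Module.finrank_fin_fun, Pi.mul_apply] at h
      simpa using h
    have hn0 : n = 0 := by exact_mod_cast hn
    subst hn0
    exact hw'0 (Subsingleton.elim _ _)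
  have h2 : Module.finrank ℂ (LinearMap.ker T) < n := by
    refine lt_of_lt_of_eq (Submodule.finrank_lt fun e => hχ0 ?_) (Module.finrank_fin_fun ℂ)
    exact LinearMap.ker_eq_top.1 e
  have h3 : n = charDegree χ ^ 2 := by
    have h := congrFun hρ 1
    rw [Representation.char_one, Module.finrank_fin_fun] at h
    have h' : (n : ℂ) = ((charDegree χ ^ 2 : ℕ) : ℂ) := by
      rw [Nat.cast_pow, CfsgLib.Block.charDegree_cast hχ]
      simp only [Pi.mul_apply, ← CfsgLib.Block.charDegree_cast hχ, map_natCast] at h ⊢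
      rw [h]; ring
    exact_mod_cast h'
  rw [← Nat.card_eq_fintype_card] at h1
  omega

end Cfsg.Agent.S4750
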