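import Cfsg.Statements.S4754
import Cfsg.Agent.Lib.BlockZeroCount

set_option autoImplicit false
open Cfsg
open CfsgLib.Block CfsgLib.Char
open scoped Classical


namespace Cfsg.Agent.S4754

/-- For elements x, y of a finite group G, the conjugacy class of x y equals the set of all products of a conjugate of x with a conjugate of y if and only if χ(1) χ(a x a⁻¹ b y b⁻¹) = χ(x) χ(y) for all a, b ∈ G and every irreducible character χ. -/
theorem result {G : Type*} [Group G] [Finite G] (x y : G) : (∀ z : G, IsConj (x * y) z ↔ ∃ a b : G, z = a * x * a⁻¹ * (b * y * b⁻¹)) ↔ ∀ (a b : G) (χ : Cfsg.IrrCharacter G), (χ : G → ℂ) 1 * (χ : G → ℂ) (a * x * a⁻¹ * (b * y * b⁻¹)) = (χ : G → ℂ) x * (χ : G → ℂ) y := by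
  constructor
  · intro h a b χ
    have hmem : ∀ a b : G, (χ : G → ℂ) (a * x * a⁻¹ * (b * y * b⁻¹)) = (χ : G → ℂ) (x * y) := by
      intro a b
      exact ((isConj_iff_irr_eq _ _).1 ((h _).2 ⟨a, b, rfl⟩) χ).symm
    rw [hmem]
    exact (mul_apply_of_const χ.2 x y hmem).symm
  · intro h z
    constructor
    · intro hz
      obtain ⟨w, hw⟩ := isConj_iff.mp hz
      exact ⟨w, w, by rw [← hw]; group⟩
    · rintro ⟨a, b, rfl⟩
      refine (isConj_iff_irr_eq _ _).2 fun χ => ?_
      have hd1 : (χ : G → ℂ) 1 ≠ 0 := by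
        obtain ⟨d, hd, he⟩ := exists_degree_pos χ.2
        rw [he]
        exact_mod_cast hd.ne'
      refine mul_left_cancel₀ hd1 ?_
      have h1 := h 1 1 χ
      simp only [one_mul, inv_one, mul_one] at h1
      rw [h1, h a b χ]

end Cfsg.Agent.S4754
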