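import Cfsg.Statements.S4755
import Cfsg.Agent.Lib.BlockShortFacts
-- import your own Cfsg.Agent.* helpers here

set_option autoImplicit false
open Cfsg

namespace Cfsg.Agent.S4755

/-- Let x, y be non-identity elements of the finite group G such that χ(x' y') = χ(x') χ(y') for all conjugates x' of x, y' of y and every irreducible character χ. Then the conjugacy class of x y is the set of all products of a conjugate of x with a conjugate of y; every irreducible character of degree greater than 1 vanishes at x y; and the conjugacy class of x y is the coset of the commutator subgroup containing x y. -/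
theorem result {G : Type*} [Group G] [Finite G] (x y : G) (hx : x ≠ 1) (hy : y ≠ 1) (h : ∀ (a b : G) (χ : Cfsg.IrrCharacter G), (χ : G → ℂ) (a * x * a⁻¹ * (b * y * b⁻¹)) = (χ : G → ℂ) (a * x * a⁻¹) * (χ : G → ℂ) (b * y * b⁻¹)) : (∀ z : G, IsConj (x * y) z ↔ ∃ a b : G, z = a * x * a⁻¹ * (b * y * b⁻¹)) ∧ (∀ χ : Cfsg.IrrCharacter G, (χ : G → ℂ) 1 ≠ 1 → (χ : G → ℂ) (x * y) = 0) ∧ (∀ z : G, IsConj (x * y) z ↔ (x * y)⁻¹ * z ∈ commutator G) := by
  classical
  have : Fintype G := Fintype.ofFinite G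
  have hcl : ∀ (χ : IrrCharacter G) (a w : G), (χ : G → ℂ) (a * w * a⁻¹) = (χ : G → ℂ) w :=
    fun χ a w => CfsgLib.Char.isCharacter_classFunction χ.2.isCharacter' w a
  have hprod : ∀ (χ : IrrCharacter G) (a b : G),
      (χ : G → ℂ) (a * x * a⁻¹ * (b * y * b⁻¹)) = (χ : G → ℂ) x * (χ : G → ℂ) y := fun χ a b => by
    rw [h a b χ, hcl, hcl]
  have hxy : ∀ χ : IrrCharacter G, (χ : G → ℂ) (x * y) = (χ : G → ℂ) x * (χ : G → ℂ) y :=
    fun χ => by simpa using hprod χ 1 1
  have hvan : ∀ χ : IrrCharacter G, (χ : G → ℂ) 1 ≠ 1 → (χ : G → ℂ) (x * y) = 0 := by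
    intro χ hd
    rw [hxy]
    by_contra hne
    have hs := CfsgLib.Block.sum_conj_prod χ x y
    simp only [hprod, Finset.sum_const, Finset.card_univ, ← Nat.card_eq_fintype_card,
      Nat.card_prod, nsmul_eq_mul, Nat.cast_mul] at hs
    rw [eq_div_iff (CfsgLib.Block.irr_one_ne_zero χ)] at hs
    apply hd
    have hn := CfsgLib.Char.natCard_ne_zero G
    refine mul_left_cancel₀ (mul_ne_zero (mul_ne_zero hn hn) hne) ?_
    linear_combination hs
  have h1 : ∀ z : G, IsConj (x * y) z ↔ ∃ a b : G, z = a * x * a⁻¹ * (b * y * b⁻¹) := by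
    intro z
    constructor
    · intro hz
      obtain ⟨c, rfl⟩ := isConj_iff.1 hz
      exact ⟨c, c, by group⟩
    · rintro ⟨a, b, rfl⟩
      exact (CfsgLib.Char.isConj_iff_irr_eq _ _).2 fun χ => by rw [hprod, hxy]
  refine ⟨h1, hvan, fun z => ⟨fun hz => ?_, fun hz => ?_⟩⟩
  · obtain ⟨c, rfl⟩ := isConj_iff.1 hz
    rw [show (x * y)⁻¹ * (c * (x * y) * c⁻¹) = (x * y)⁻¹ * c * ((x * y)⁻¹)⁻¹ * c⁻¹ by group]
    exact Subgroup.commutator_mem_commutator (Subgroup.mem_top _) (Subgroup.mem_top _)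
  · by_contra hc
    have h0 := CfsgLib.Char.column_orth_not_conj hc
    have hsum : ∑ χ : IrrCharacter G, (χ : G → ℂ) (x * y) * (starRingEnd ℂ) ((χ : G → ℂ) z) =
        ∑ χ : IrrCharacter G, (χ : G → ℂ) (x * y) * (starRingEnd ℂ) ((χ : G → ℂ) (x * y)) := by
      refine Finset.sum_congr rfl fun χ _ => ?_
      by_cases hd : (χ : G → ℂ) 1 = 1
      · obtain ⟨f, hf⟩ := CfsgLib.Char.exists_hom_of_degree_one χ.2.isCharacter' hd
        have hk : f ((x * y)⁻¹ * z) = 1 := Abelianization.commutator_subset_ker f hz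
        rw [map_mul, map_inv, inv_mul_eq_one] at hk
        rw [hf]
        simp only
        rw [hk]
      · rw [hvan χ hd, zero_mul, zero_mul]
    rw [hsum, CfsgLib.Char.column_orth_conj (IsConj.refl _)] at h0
    exact CfsgLib.Char.natCard_ne_zero (Subgroup.centralizer ({x * y} : Set G)) h0

end Cfsg.Agent.S4755
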