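import Cfsg.Statements.S4757
import Cfsg.Agent.Lib.CharLinear
import Cfsg.Agent.Lib.CharDegree
import Cfsg.Agent.Lib.CoreBasic

set_option autoImplicit false
open Cfsg

namespace Cfsg.Agent.S4757

open CfsgLib.Char
open scoped ComplexConjugate commutatorElement

theorem lin_mul {G : Type*} [Group G] [Fintype G] {ξ : G → ℂ} (hξ : IsIrrCharacter G ξ)
    (μ : G →* ℂˣ) : IsIrrCharacter G (fun g => ξ g * (μ g : ℂ)) := by
  refine isIrr_of_inner_self_one (isCharacter_mul hξ.isCharacter' (isIrrCharacter_hom μ).isCharacter') ?_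
  have h1 : ∀ g, (μ g : ℂ) * conj (μ g : ℂ) = 1 := fun g => by
    rw [Complex.mul_conj', Complex.norm_eq_one_of_pow_eq_one (n := orderOf g) (by
      rw [← Units.val_pow_eq_pow_val, ← map_pow, pow_orderOf_eq_one, map_one, Units.val_one])
      (orderOf_pos g).ne']
    simp
  rw [← irr_inner_self hξ]
  simp only [classInner]
  congr 1
  refine Finset.sum_congr rfl fun g _ => ?_
  rw [map_mul, mul_mul_mul_comm, h1, mul_one]

/-- Let u ≠ 1 be an element of the finite group G and c a complex number such that every non-principal irreducible character χ satisfies χ(1) − χ(u) = c or χ(u) = 0. Then the following are equivalent: (a) u has order 2, G is generated by u together with O(G), the largest normal subgroup of G of odd order, and the centralizer of u is {1, u}; (b) G is not perfect; (c) c = 2. -/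
theorem result {G : Type*} [Group G] [Finite G] (u : G) (hu : u ≠ 1) (c : ℂ) (hyp : ∀ χ : Cfsg.IrrCharacter G, (χ : G → ℂ) ≠ (fun _ => (1 : ℂ)) → ((χ : G → ℂ) 1 - (χ : G → ℂ) u = c ∨ (χ : G → ℂ) u = 0)) : ((orderOf u = 2 ∧ Subgroup.zpowers u ⊔ Cfsg.oddCore G = ⊤ ∧ Subgroup.centralizer ({u} : Set G) = Subgroup.zpowers u) ↔ commutator G ≠ ⊤) ∧ (commutator G ≠ ⊤ ↔ c = 2) := by
  classical
  haveI := Fintype.ofFinite G
  have hdeg : ∀ χ : IrrCharacter G, ∃ d : ℕ, (χ : G → ℂ) 1 = d ∧ 1 ≤ d := by
    intro χ
    obtain ⟨n, ρ, hρ, he⟩ := χ.2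
    haveI := hρ
    refine ⟨n, by rw [← he, ρ.char_one]; simp, ?_⟩
    by_contra hn
    have hn0 : n = 0 := by omega
    subst hn0
    have h1 := irr_inner_self χ.2
    have h0 : (χ : G → ℂ) = 0 := by
      rw [← he]; funext g
      change LinearMap.trace ℂ _ (ρ g) = 0
      rw [Subsingleton.elim (ρ g) 0, map_zero]
    rw [h0, CfsgLib.Char.inner_zero_left] at h1
    exact zero_ne_one h1
  have hsum : ∑ χ : IrrCharacter G, (χ : G → ℂ) 1 * (χ : G → ℂ) u = 0 := by
    rw [sum_degree_mul u, if_neg hu]
  let triv : IrrCharacter G := ⟨fun g => ((1 : G →* ℂˣ) g : ℂ), isIrrCharacter_hom 1⟩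
  have htriv : ∀ χ : IrrCharacter G, (χ : G → ℂ) = (fun _ => (1 : ℂ)) ↔ χ = triv := by
    intro χ
    constructor
    · intro h; exact Subtype.ext (h.trans (funext fun g => by simp [triv]))
    · rintro rfl; funext g; simp [triv]
  have hlin : ∀ μ : G →* ℂˣ, μ ≠ 1 → (μ u : ℂ) = 1 - c := by
    intro μ hμ
    have h := hyp ⟨_, isIrrCharacter_hom μ⟩ (fun h => hμ (MonoidHom.ext fun g => Units.ext (by
      simpa using congrFun h g)))
    rcases h with h | h
    · simp only [map_one, Units.val_one] at h
      linear_combination -h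
    · exact absurd h (Units.ne_zero _)
  have hc0 : c ≠ 0 := by
    intro hc
    subst hc
    have hterm : ∀ χ : IrrCharacter G, ∃ m : ℕ, (χ : G → ℂ) 1 * (χ : G → ℂ) u = m ∧
        (χ = triv → 1 ≤ m) := by
      intro χ
      obtain ⟨d, hd, hd1⟩ := hdeg χ
      by_cases h : χ = triv
      · subst h; exact ⟨1, by simp [triv], fun _ => le_rfl⟩
      · rcases hyp χ (mt (htriv χ).mp h) with hx | hx
        · exact ⟨d * d, by rw [← sub_eq_zero.mp hx, hd]; push_cast; ring, fun h' => absurd h' h⟩
        · exact ⟨0, by rw [hx]; simp, fun h' => absurd h' h⟩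
    choose m hm hm1 using hterm
    rw [Finset.sum_congr rfl fun χ _ => hm χ, ← Nat.cast_sum, Nat.cast_eq_zero,
      Finset.sum_eq_zero_iff] at hsum
    have := hm1 triv rfl
    have := hsum triv (Finset.mem_univ _)
    omega
  have hQc : commutator G ≠ ⊤ → c = 2 ∧ (orderOf u = 2 ∧ Subgroup.zpowers u ⊔ Cfsg.oddCore G = ⊤ ∧
      Subgroup.centralizer ({u} : Set G) = Subgroup.zpowers u) := by
    intro hG
    have hidx : 1 < (commutator G).index := by
      rcases Nat.lt_or_ge 1 (commutator G).index with h | h
      · exact h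
      · exfalso
        apply hG
        rw [← Subgroup.index_eq_one]
        have := (commutator G).index_ne_zero_of_finite
        omega
    rw [← card_linear_chars, ← Nat.card_congr linCharEquiv] at hidx
    haveI : Finite (G →* ℂˣ) := Nat.finite_of_card_ne_zero (by omega)
    haveI : Nontrivial (G →* ℂˣ) := Finite.one_lt_card_iff_nontrivial.mp hidx
    obtain ⟨l, hl⟩ := exists_ne (1 : G →* ℂˣ)
    have hω : (l u : ℂ) ≠ 1 := fun h => hc0 (by have := hlin l hl; rw [h] at this; linear_combination this)
    have hll : l * l = 1 := by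
      by_contra h
      apply hω
      have h1 := hlin (l * l) h
      rw [MonoidHom.mul_apply, Units.val_mul, ← hlin l hl] at h1
      exact mul_left_cancel₀ (Units.ne_zero (l u)) (by rw [h1, mul_one])
    have huniq : ∀ μ : G →* ℂˣ, μ = 1 ∨ μ = l := by
      intro μ
      by_contra h
      push Not at h
      apply hω
      have h1 : l * μ ≠ 1 := fun h1 => h.2 (mul_left_cancel (h1.trans hll.symm))
      have h2 := hlin (l * μ) h1
      rw [MonoidHom.mul_apply, Units.val_mul, hlin μ h.1, ← hlin l hl] at h2
      exact mul_left_cancel₀ (Units.ne_zero (l u)) (by rw [h2, mul_one])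
    have hlu : (l u : ℂ) = -1 := by
      have h : (l u : ℂ) * (l u : ℂ) = 1 := by
        rw [← Units.val_mul, ← MonoidHom.mul_apply, hll]; simp
      rcases mul_self_eq_one_iff.mp h with h | h
      · exact absurd h hω
      · exact h
    have hc : c = 2 := by have := hlin l hl; rw [hlu] at this; linear_combination this
    refine ⟨hc, ?_⟩
    subst hc
    have hnl : ∀ χ : IrrCharacter G, (χ : G → ℂ) 1 ≠ 1 → (χ : G → ℂ) u = 0 := by
      intro χ h1
      by_contra h0
      have hne : χ ≠ triv := fun h => h1 (by rw [h]; simp [triv])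
      have e1 := (hyp χ (mt (htriv χ).mp hne)).resolve_right h0
      let ψ : IrrCharacter G := ⟨_, lin_mul χ.2 l⟩
      have hψne : ψ ≠ triv := fun h => h1 (by
        have := congrFun (congrArg Subtype.val h) 1
        simpa [ψ, triv] using this)
      have hψu : (ψ : G → ℂ) u = -(χ : G → ℂ) u := by simp [ψ, hlu]
      have e2 := (hyp ψ (mt (htriv ψ).mp hψne)).resolve_right (by rw [hψu]; simpa using h0)
      rw [hψu] at e2
      have hψ1 : (ψ : G → ℂ) 1 = (χ : G → ℂ) 1 := by simp [ψ]
      rw [hψ1] at e2
      exact h0 (by linear_combination (e2 - e1) / 2)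
    have hcard : Nat.card (Subgroup.centralizer ({u} : Set G)) = 2 := by
      have h := column_orth_conj (IsConj.refl u)
      have hterm : ∀ χ : IrrCharacter G, (χ : G → ℂ) u * conj ((χ : G → ℂ) u) =
          if (χ : G → ℂ) 1 = 1 then 1 else 0 := by
        intro χ
        split_ifs with h1
        · obtain ⟨f, hf⟩ := exists_hom_of_degree_one χ.2.isCharacter' h1
          rw [hf]
          rcases huniq f with rfl | rfl
          · simp
          · simp [hlu]
        · simp [hnl χ h1]
      rw [Finset.sum_congr rfl fun χ _ => hterm χ, Finset.sum_boole, Nat.cast_inj] at h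
      rw [← h, ← Fintype.card_subtype, ← Nat.card_eq_fintype_card, ← Nat.card_congr linCharEquiv]
      rw [Nat.card_eq_two_iff' (1 : G →* ℂˣ)]
      exact ⟨l, hl, fun μ hμ => (huniq μ).resolve_left hμ⟩
    have huC : u ∈ Subgroup.centralizer ({u} : Set G) := Subgroup.mem_centralizer_singleton_iff.mpr rfl
    have ho : orderOf u = 2 := by
      have h1 : orderOf u ∣ 2 := by
        rw [← hcard, ← Subgroup.orderOf_mk u huC]; exact orderOf_dvd_natCard _
      rcases (Nat.dvd_prime Nat.prime_two).mp h1 with h | h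
      · exact absurd (orderOf_eq_one_iff.mp h) hu
      · exact h
    have hCu : Subgroup.centralizer ({u} : Set G) = Subgroup.zpowers u :=
      (CfsgLib.Core.eq_of_le_of_card_le (Subgroup.zpowers_le.mpr huC)
        (by rw [Nat.card_zpowers, ho, hcard])).symm
    refine ⟨ho, ?_, hCu⟩
    have hK : (commutator G).index = 2 := by
      rw [← card_linear_chars, ← Nat.card_congr linCharEquiv, Nat.card_eq_two_iff' (1 : G →* ℂˣ)]
      exact ⟨l, hl, fun μ hμ => (huniq μ).resolve_left hμ⟩
    have huK : u ∉ commutator G := by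
      intro h
      have : l u = 1 := MonoidHom.mem_ker.mp (Abelianization.commutator_subset_ker l h)
      exact hω (by rw [this]; simp)
    have hKodd : Odd (Nat.card (commutator G)) := by
      rw [← Nat.not_even_iff_odd]
      intro hev
      have hinj : ∀ a : commutator G, u * (a : G) * u⁻¹ = a → a = 1 := by
        intro a ha
        have hm : (a : G) ∈ Subgroup.centralizer ({u} : Set G) :=
          Subgroup.mem_centralizer_singleton_iff.mpr (mul_inv_eq_iff_eq_mul.mp ha).symm
        rw [hCu, Subgroup.mem_zpowers_iff] at hm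
        obtain ⟨k, hk⟩ := hm
        rw [← zpow_mod_orderOf, ho] at hk
        rcases Int.emod_two_eq k with h | h <;> simp [h] at hk
        · exact Subtype.ext hk.symm
        · exact absurd (hk ▸ a.2) huK
      let φ : Equiv.Perm (commutator G) := (MulAut.conjNormal u).toEquiv
      have hφ : φ ^ 2 ^ 1 = 1 := by
        ext a
        have : u * u = 1 := by rw [← sq, ← ho, pow_orderOf_eq_one]
        have hi : u⁻¹ = u := inv_eq_of_mul_eq_one_left this
        simp [φ, sq, MulAut.conjNormal_apply, hi, mul_assoc, this]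
        rw [← mul_assoc, this, one_mul]
      have hsupp := Equiv.Perm.exists_fixed_point_of_prime' (p := 2) (n := 1) (a := (1 : commutator G))
        (by rw [← Nat.card_eq_fintype_card]; exact even_iff_two_dvd.mp hev) hφ (by simp [φ])
      obtain ⟨b, hb, hb1⟩ := hsupp
      exact hb1 (hinj b (by simpa [φ, MulAut.conjNormal_apply] using congrArg Subtype.val hb))
    have hle : commutator G ≤ Cfsg.oddCore G :=
      le_sSup ⟨inferInstance, Nat.coprime_two_right.mpr hKodd⟩
    rw [eq_top_iff]
    intro g _
    by_cases hg : g ∈ commutator G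
    · exact Subgroup.mem_sup_right (hle hg)
    · have h2 : g * u ∈ commutator G := (Subgroup.mul_mem_iff_of_index_two hK).mpr (by tauto)
      have : g = (g * u) * u⁻¹ := by group
      rw [this]
      exact mul_mem (Subgroup.mem_sup_right (hle h2))
        (inv_mem (Subgroup.mem_sup_left (Subgroup.mem_zpowers u)))
  refine ⟨⟨?_, fun h => (hQc h).2⟩, ⟨fun h => (hQc h).1, ?_⟩⟩
  · rintro ⟨ho, hsup, -⟩ htop
    haveI hOn : (Cfsg.oddCore G).Normal := CfsgLib.Core.normal_pPrimeCore 2
    have hrep : ∀ a : G, ∃ i : ℤ, (QuotientGroup.mk a : G ⧸ Cfsg.oddCore G) = (QuotientGroup.mk u) ^ i := by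
      intro a
      have ha : a ∈ Subgroup.zpowers u ⊔ Cfsg.oddCore G := hsup ▸ Subgroup.mem_top a
      obtain ⟨y, hy, n, hn, rfl⟩ := Subgroup.mem_sup_of_normal_right.mp ha
      obtain ⟨i, rfl⟩ := hy
      exact ⟨i, by rw [QuotientGroup.mk_mul, (QuotientGroup.eq_one_iff n).mpr hn, mul_one, QuotientGroup.mk_zpow]⟩
    have hc : commutator G ≤ Cfsg.oddCore G := by
      rw [commutator_def, Subgroup.commutator_le]
      intro a _ b _
      obtain ⟨i, hi⟩ := hrep a
      obtain ⟨j, hj⟩ := hrep b
      rw [← QuotientGroup.eq_one_iff]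
      change QuotientGroup.mk' (Cfsg.oddCore G) ⁅a, b⁆ = 1
      rw [map_commutatorElement, commutatorElement_eq_one_iff_commute]
      change Commute (QuotientGroup.mk a : G ⧸ Cfsg.oddCore G) (QuotientGroup.mk b)
      rw [hi, hj]
      exact Commute.zpow_zpow_self _ i j
    rw [htop, top_le_iff] at hc
    have hodd := CfsgLib.Core.odd_card_pPrimeCore_two (G := G)
    change Odd (Nat.card (Cfsg.oddCore G)) at hodd
    rw [hc, Subgroup.card_top] at hodd
    exact Nat.not_even_iff_odd.mpr hodd (even_iff_two_dvd.mpr (ho ▸ orderOf_dvd_natCard u))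
  · intro hc htop
    subst hc
    have hone : ∀ χ : IrrCharacter G, (χ : G → ℂ) 1 = 1 → χ = triv := by
      intro χ h1
      obtain ⟨f, hf⟩ := exists_hom_of_degree_one χ.2.isCharacter' h1
      refine Subtype.ext ?_
      rw [hf]
      funext g
      have : g ∈ f.ker := Abelianization.commutator_subset_ker f (htop ▸ Subgroup.mem_top g)
      simp [triv, MonoidHom.mem_ker.mp this]
    have hterm : ∀ χ : IrrCharacter G, ∃ m : ℕ, (χ : G → ℂ) 1 * (χ : G → ℂ) u = m ∧
        (χ = triv → 1 ≤ m) := by
      intro χ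
      obtain ⟨d, hd, hd1⟩ := hdeg χ
      by_cases h : χ = triv
      · subst h; exact ⟨1, by simp [triv], fun _ => le_rfl⟩
      · have hd2 : 2 ≤ d := by
          by_contra hlt
          have : d = 1 := by omega
          exact h (hone χ (by rw [hd, this]; simp))
        rcases hyp χ (mt (htriv χ).mp h) with hx | hx
        · refine ⟨d * (d - 2), ?_, fun h' => absurd h' h⟩
          rw [Nat.cast_mul, Nat.cast_sub hd2, ← hd, Nat.cast_ofNat]
          linear_combination -((χ : G → ℂ) 1) * hx
        · exact ⟨0, by rw [hx]; simp, fun h' => absurd h' h⟩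
    choose m hm hm1 using hterm
    rw [Finset.sum_congr rfl fun χ _ => hm χ, ← Nat.cast_sum, Nat.cast_eq_zero,
      Finset.sum_eq_zero_iff] at hsum
    have := hm1 triv rfl
    have := hsum triv (Finset.mem_univ _)
    omega

end Cfsg.Agent.S4757
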