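import Cfsg.Statements.S4762
import Cfsg.Agent.Lib.CoreThompsonFpf
import Cfsg.Agent.Lib.CharCN3
import Cfsg.Agent.Lib.CharPowDeg
import Cfsg.Agent.Lib.CorePGroup
import Cfsg.Agent.Lib.TransferApps
import Cfsg.Agent.Lib.CharDegree
import Cfsg.Agent.Lib.BlockInflate
import Cfsg.Agent.Lib.BlockPrincipal
import Cfsg.Agent.Lib.BlockRegular

set_option autoImplicit false
open Cfsg

namespace Cfsg.Agent.S4762

/-- Let p be a prime and G a finite nilpotent group. Then G has exactly one irreducible complex character of degree divisible by p if and only if p = 2 and G is an extraspecial 2-group. -/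
theorem result {G : Type*} [Group G] [Finite G] [Group.IsNilpotent G] (p : ℕ) [Fact p.Prime] : Nat.card {χ : Cfsg.IrrCharacter G // p ∣ Cfsg.charDegree (χ : G → ℂ)} = 1 ↔ (p = 2 ∧ Cfsg.IsExtraspecial 2 G) := by
  classical
  haveI := Fintype.ofFinite G
  have hp : p.Prime := Fact.out
  constructor
  · intro h1
    obtain ⟨hsub, hne⟩ := Nat.card_eq_one_iff_unique.1 h1
    obtain ⟨χ₀⟩ := id hne
    obtain ⟨P, N, hN, hc⟩ := CfsgLib.Core.hasNormalPComplement_of_isNilpotent (G := G) (p := p)
    have hPn : (P : Subgroup G).Normal := Sylow.normal_of_normalizerCondition Group.normalizerCondition_of_isNilpotent P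
    have hcoN : ¬ p ∣ Nat.card ↥N := by
      intro hd'
      have h := hc.card_mul
      rw [← (P : Subgroup G).index_mul_card] at h
      rw [Nat.eq_of_mul_eq_mul_right Nat.card_pos h] at hd'
      exact P.not_dvd_index hd'
    haveI := Fintype.ofFinite (G ⧸ N)
    have hQ : IsPGroup p (G ⧸ N) := by
      refine IsPGroup.of_card (n := (Nat.card G).factorization p) ?_
      rw [← Subgroup.index_eq_card, hc.symm.index_eq_card, P.card_eq_multiplicity]
    -- the quotient by the complement is not abelian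
    obtain ⟨ξ, hξ⟩ : ∃ ξ : IrrCharacter (G ⧸ N), (ξ : G ⧸ N → ℂ) 1 ≠ 1 := by
      by_contra hall
      push Not at hall
      have hcomm := CfsgLib.Char.comm_of_linear hall
      have hPab : ∀ a b : ↥(P : Subgroup G), a * b = b * a := by
        intro a b
        apply Subtype.ext
        have h2 : ((a : G) * b) * ((b : G) * a)⁻¹ ∈ N := by
          rw [← QuotientGroup.eq_one_iff, QuotientGroup.mk_mul, QuotientGroup.mk_inv, QuotientGroup.mk_mul,
            QuotientGroup.mk_mul, hcomm (QuotientGroup.mk (a : G)) (QuotientGroup.mk (b : G)), mul_inv_cancel]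
        have h3 : ((a : G) * b) * ((b : G) * a)⁻¹ ∈ (P : Subgroup G) :=
          mul_mem (mul_mem a.2 b.2) (inv_mem (mul_mem b.2 a.2))
        have h4 := Subgroup.mem_inf.2 ⟨h2, h3⟩
        rw [hc.disjoint.eq_bot, Subgroup.mem_bot, mul_inv_eq_one] at h4
        exact h4
      haveI := Fintype.ofFinite ↥(P : Subgroup G)
      obtain ⟨θ, hθ, hcon⟩ := CfsgLib.Char.exists_irr_under (H := (P : Subgroup G)) χ₀.1.2
      obtain ⟨k, hk, hkd⟩ := CfsgLib.Char.degree_ratio χ₀.1.2 hθ hcon
      rw [CfsgLib.Char.irr_degree_one_of_comm hPab hθ, mul_one,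
        ← CfsgLib.Block.charDegree_cast χ₀.1.2.isCharacter', Nat.cast_inj] at hk
      exact P.not_dvd_index ((hk ▸ χ₀.2).trans hkd)
    have hξp : p ∣ charDegree (CfsgLib.Block.inflate N ξ : G → ℂ) := by
      have hd : charDegree (CfsgLib.Block.inflate N ξ : G → ℂ) = charDegree (ξ : G ⧸ N → ℂ) := by
        have h2 : (charDegree (CfsgLib.Block.inflate N ξ : G → ℂ) : ℂ) = (charDegree (ξ : G ⧸ N → ℂ) : ℂ) := by
          rw [CfsgLib.Block.charDegree_cast (CfsgLib.Block.inflate N ξ).2.isCharacter', CfsgLib.Block.charDegree_cast ξ.2.isCharacter',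
            CfsgLib.Block.inflate_apply, QuotientGroup.mk_one]
        exact_mod_cast h2
      obtain ⟨j, hj⟩ := IsPGroup.iff_card.1 hQ
      obtain ⟨i, -, hi⟩ := (Nat.dvd_prime_pow hp).1 (hj ▸ CfsgLib.Block.charDegree_dvd_card ξ)
      rw [hd, hi]
      rcases Nat.eq_zero_or_pos i with rfl | hi0
      · exact absurd (by rw [← CfsgLib.Block.charDegree_cast ξ.2.isCharacter', hi, pow_zero, Nat.cast_one]) hξ
      · exact dvd_pow_self p hi0.ne'
    have hχinf : χ₀.1 = CfsgLib.Block.inflate N ξ :=
      congrArg Subtype.val (Subsingleton.elim χ₀ ⟨_, hξp⟩)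
    -- multiplication by linear characters fixes `χ₀`
    have hlam : ∀ (f : G →* ℂˣ) (g : G), (f g : ℂ) * (χ₀.1 : G → ℂ) g = (χ₀.1 : G → ℂ) g := by
      intro f g
      have hi : IsIrrCharacter G (fun g => (f g : ℂ) * (χ₀.1 : G → ℂ) g) := by
        refine CfsgLib.Char.isIrr_of_inner_self_one (CfsgLib.Char.isCharacter_mul (CfsgLib.Char.isCharacter_hom f) χ₀.1.2.isCharacter') ?_
        rw [← CfsgLib.Char.irr_inner_self χ₀.1.2]
        simp only [classInner]
        congr 1
        refine Finset.sum_congr rfl fun x _ => ?_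
        have hu : (f x : ℂ) * (starRingEnd ℂ) (f x : ℂ) = 1 := by
          have hpow : (f x : ℂ) ^ orderOf x = 1 := by
            rw [← Units.val_pow_eq_pow_val, ← map_pow, pow_orderOf_eq_one, map_one, Units.val_one]
          rw [Complex.mul_conj', Complex.norm_eq_one_of_pow_eq_one hpow (orderOf_pos x).ne']; simp
        rw [map_mul]
        linear_combination ((χ₀.1 : G → ℂ) x * (starRingEnd ℂ) ((χ₀.1 : G → ℂ) x)) * hu
      have hd : p ∣ charDegree (fun g => (f g : ℂ) * (χ₀.1 : G → ℂ) g) := by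
        have h2 : (charDegree (fun g => (f g : ℂ) * (χ₀.1 : G → ℂ) g) : ℂ) = (charDegree (χ₀.1 : G → ℂ) : ℂ) := by
          rw [CfsgLib.Block.charDegree_cast hi.isCharacter', CfsgLib.Block.charDegree_cast χ₀.1.2.isCharacter',
            map_one, Units.val_one, one_mul]
        rw [Nat.cast_inj.1 h2]
        exact χ₀.2
      exact congrFun (congrArg (fun z : {χ : IrrCharacter G // p ∣ charDegree (χ : G → ℂ)} => (z.1 : G → ℂ))
        (Subsingleton.elim (⟨⟨_, hi⟩, hd⟩ : {χ : IrrCharacter G // p ∣ charDegree (χ : G → ℂ)}) χ₀)) g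
    -- the complement is trivial
    have hNbot : N = ⊥ := by
      haveI := Fintype.ofFinite ↥N
      have hN1 : ∀ θ : IrrCharacter ↥N, (θ : ↥N → ℂ) 1 = 1 → (θ : ↥N → ℂ) = fun _ => 1 := by
        intro θ hθ
        obtain ⟨f, hf⟩ := CfsgLib.Char.exists_hom_of_degree_one θ.2.isCharacter' hθ
        -- extend along the projection onto `N`
        have hcomm : ∀ a ∈ N, ∀ b ∈ (P : Subgroup G), a * b = b * a := by
          intro a ha b hb
          refine CfsgLib.CN.commute_of_coprime_orderOf a b ?_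
          obtain ⟨j, hj⟩ := (IsPGroup.iff_orderOf.1 P.2) ⟨b, hb⟩
          rw [Subgroup.orderOf_mk] at hj
          rw [hj]
          refine Nat.Coprime.pow_right j ((hp.coprime_iff_not_dvd.2 fun hd => hcoN (hd.trans ?_)).symm)
          rw [← Subgroup.orderOf_mk a ha]; exact orderOf_dvd_natCard _
        let e : ↥N × ↥(P : Subgroup G) ≃ G := Equiv.ofBijective (fun x => (x.1 : G) * x.2) hc
        let π : ↥N × ↥(P : Subgroup G) →* G :=
          { toFun := e
            map_one' := by show ((1 : ↥N) : G) * ((1 : ↥(P : Subgroup G)) : G) = 1; simp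
            map_mul' := fun x y => by
              show ((x.1 * y.1 : ↥N) : G) * ((x.2 * y.2 : ↥(P : Subgroup G)) : G) = (x.1 : G) * x.2 * ((y.1 : G) * y.2)
              rw [Subgroup.coe_mul, Subgroup.coe_mul, mul_assoc, ← mul_assoc (y.1 : G), hcomm _ y.1.2 _ x.2.2]
              simp only [mul_assoc] }
        let eqv : ↥N × ↥(P : Subgroup G) ≃* G := MulEquiv.ofBijective π e.bijective
        let F : G →* ℂˣ := (f.comp (MonoidHom.fst ↥N ↥(P : Subgroup G))).comp eqv.symm.toMonoidHom
        funext n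
        have h2 := hlam F (n : G)
        have h3 : (χ₀.1 : G → ℂ) (n : G) = (χ₀.1 : G → ℂ) 1 := by
          rw [hχinf]; exact CfsgLib.Block.inflate_ker N ξ n.2
        have h4 : eqv.symm (n : G) = (n, 1) := by
          rw [MulEquiv.symm_apply_eq]; show (n : G) = (n : G) * ((1 : ↥(P : Subgroup G)) : G); simp
        rw [h3, mul_eq_right₀ (CfsgLib.Block.irr_one_ne_zero _)] at h2
        rw [hf]
        simpa [F, h4] using h2
      by_contra hne
      haveI : Nontrivial ↥N := (Subgroup.nontrivial_iff_ne_bot N).2 hne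
      haveI : Group.IsNilpotent ↥N := inferInstance
      have hlt : commutator ↥N ≠ ⊤ := (IsSolvable.commutator_lt_top_of_nontrivial ↥N).ne
      have hcard := CfsgLib.Char.card_linear_chars (G := ↥N)
      have hone : Nat.card {χ : IrrCharacter ↥N // (χ : ↥N → ℂ) 1 = 1} = 1 :=
        Nat.card_eq_one_iff_unique.2 ⟨⟨fun a b => Subtype.ext (Subtype.ext ((hN1 a.1 a.2).trans (hN1 b.1 b.2).symm))⟩,
          ⟨⟨CfsgLib.Block.trivIrr ↥N, rfl⟩⟩⟩
      rw [hone] at hcard
      exact hlt (Subgroup.index_eq_one.1 hcard.symm)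
    have hG : IsPGroup p G := by
      refine IsPGroup.of_card (n := (Nat.card G).factorization p) ?_
      have h := hc.card_mul
      rw [hNbot, Subgroup.card_bot, one_mul, P.card_eq_multiplicity] at h
      exact h.symm
    obtain ⟨a, ha⟩ := IsPGroup.iff_card.1 hG
    -- every character other than `χ₀` is linear
    have hother : ∀ χ : IrrCharacter G, χ ≠ χ₀.1 → (χ : G → ℂ) 1 = 1 := by
      intro χ hχ
      obtain ⟨i, -, hi⟩ := (Nat.dvd_prime_pow hp).1 (ha ▸ CfsgLib.Block.charDegree_dvd_card χ)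
      rcases Nat.eq_zero_or_pos i with rfl | hi0
      · rw [← CfsgLib.Block.charDegree_cast χ.2.isCharacter', hi, pow_zero, Nat.cast_one]
      · exact absurd (congrArg Subtype.val (Subsingleton.elim
          (⟨χ, hi ▸ dvd_pow_self p hi0.ne'⟩ : {χ : IrrCharacter G // p ∣ charDegree (χ : G → ℂ)}) χ₀)) hχ
    obtain ⟨d, hd0, hd⟩ : ∃ d, 0 < d ∧ charDegree (χ₀.1 : G → ℂ) = p ^ d := by
      obtain ⟨i, -, hi⟩ := (Nat.dvd_prime_pow hp).1 (ha ▸ CfsgLib.Block.charDegree_dvd_card χ₀.1)
      refine ⟨i, Nat.pos_of_ne_zero fun h0 => ?_, hi⟩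
      have := χ₀.2
      rw [hi, h0, pow_zero] at this
      exact hp.not_dvd_one this
    set C := commutator G with hC
    have hcount : Nat.card G = C.index + p ^ (2 * d) := by
      have hfilt : Nat.card {χ : IrrCharacter G // (χ : G → ℂ) 1 = 1} + 1 = Nat.card (IrrCharacter G) := by
        rw [Nat.card_eq_fintype_card, Nat.card_eq_fintype_card, Fintype.card_subtype, ← Finset.card_univ,
          ← Finset.card_erase_add_one (Finset.mem_univ χ₀.1)]
        congr 2
        ext χ
        simp only [Finset.mem_filter, Finset.mem_univ, true_and, Finset.mem_erase, and_true]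
        refine ⟨fun h e => ?_, hother χ⟩
        rw [e, ← CfsgLib.Block.charDegree_cast χ₀.1.2.isCharacter', hd] at h
        exact absurd (Nat.cast_eq_one.1 h) (Nat.one_lt_pow hd0.ne' hp.one_lt).ne'
      have h2 := CfsgLib.Char.sum_degree_sq (G := G)
      rw [← Finset.add_sum_erase _ _ (Finset.mem_univ χ₀.1),
        Finset.sum_congr rfl (fun (χ : IrrCharacter G) (hχ : χ ∈ Finset.univ.erase χ₀.1) => show (χ : G → ℂ) 1 ^ 2 = 1 by rw [hother χ (Finset.ne_of_mem_erase hχ), one_pow]),
        Finset.sum_const, nsmul_one, Finset.card_erase_of_mem (Finset.mem_univ _), Finset.card_univ,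
        ← Nat.card_eq_fintype_card, ← hfilt, Nat.add_sub_cancel, CfsgLib.Char.card_linear_chars,
        ← CfsgLib.Block.charDegree_cast χ₀.1.2.isCharacter', hd, ← hC] at h2
      rw [pow_mul', add_comm]
      exact_mod_cast h2.symm
    obtain ⟨i, -, hi⟩ := (Nat.dvd_prime_pow hp).1 (ha ▸ C.card_subgroup_dvd_card)
    obtain ⟨l, -, hl⟩ := (Nat.dvd_prime_pow hp).1 (ha ▸ C.index_dvd_card)
    have heq : p ^ l * p ^ i = p ^ l + p ^ (2 * d) := by rw [← hl, ← hi, C.index_mul_card]; exact hcount
    have hl2 : l ≤ 2 * d := by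
      have : p ^ l ∣ p ^ (2 * d) := (Nat.dvd_add_right dvd_rfl).1 ⟨p ^ i, heq.symm⟩
      exact (Nat.pow_dvd_pow_iff_le_right hp.one_lt).1 this
    have hpi : p ^ i = 1 + p ^ (2 * d - l) := by
      refine Nat.eq_of_mul_eq_mul_left (pow_pos hp.pos l) ?_
      rw [heq, mul_add, mul_one, ← pow_add, Nat.add_sub_cancel' hl2]
    have hi1 : 0 < i := Nat.pos_of_ne_zero fun h => by
      rw [h, pow_zero] at hpi
      have := pow_pos hp.pos (2 * d - l); omega
    have hdl : 2 * d - l = 0 := by
      by_contra h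
      have h5 : p ∣ 1 + p ^ (2 * d - l) := hpi ▸ dvd_pow_self p hi1.ne'
      exact hp.not_dvd_one ((Nat.dvd_add_left (dvd_pow_self p h)).1 h5)
    rw [hdl, pow_zero] at hpi
    have hp2 : p = 2 := by
      have h5 : p ∣ 2 := ⟨p ^ (i - 1), by rw [← pow_succ', Nat.sub_add_cancel hi1, hpi]; norm_num⟩
      exact (Nat.prime_dvd_prime_iff_eq hp Nat.prime_two).1 h5
    have hCcard : Nat.card ↥C = 2 := hi.trans hpi
    subst hp2
    -- the commutator subgroup is the centre
    have hvan : ∀ g : G, g ∉ C → (χ₀.1 : G → ℂ) g = 0 := by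
      intro g hg
      obtain ⟨f, hf⟩ : ∃ f : G →* ℂˣ, f g ≠ 1 := by
        have hne : (Abelianization.of g : Abelianization G) ≠ 1 := fun e => hg (by
          rw [hC, ← Abelianization.ker_of G, MonoidHom.mem_ker]; exact e)
        obtain ⟨ψ, hψ⟩ := CommGroup.exists_apply_ne_one_of_hasEnoughRootsOfUnity (Abelianization G) ℂ hne
        exact ⟨ψ.comp Abelianization.of, hψ⟩
      by_contra h0
      refine hf (Units.ext ?_)
      have := hlam f g
      rwa [mul_eq_right₀ h0] at this
    have hcen : Subgroup.center G = C := by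
      refine le_antisymm (fun z hz => ?_) (fun c hcC => ?_)
      · by_contra hzC
        obtain ⟨ω, hω, hmul⟩ := CfsgLib.Block.irr_central_mul χ₀.1 hz
        have h0 := hvan z hzC
        rw [← mul_one z, hmul 1] at h0
        rcases mul_eq_zero.1 h0 with e | e
        · rw [e, zero_pow (orderOf_pos z).ne'] at hω; exact zero_ne_one hω
        · exact CfsgLib.Block.irr_one_ne_zero _ e
      · rw [Subgroup.mem_center_iff]
        intro g
        by_cases h1 : c = 1
        · rw [h1, mul_one, one_mul]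
        have hmem : g * c * g⁻¹ ∈ C := (inferInstance : (commutator G).Normal).conj_mem c hcC g
        have hne : (⟨g * c * g⁻¹, hmem⟩ : ↥C) ≠ 1 := fun e => h1 (conj_eq_one_iff.1 (congrArg Subtype.val e))
        have hne' : (⟨c, hcC⟩ : ↥C) ≠ 1 := fun e => h1 (congrArg Subtype.val e)
        obtain ⟨y, -, hy⟩ := (Nat.card_eq_two_iff' (1 : ↥C)).1 hCcard
        have h6 := congrArg Subtype.val ((hy _ hne).trans (hy _ hne').symm)
        exact mul_inv_eq_iff_eq_mul.1 h6
    refine ⟨rfl, ⟨hG, ?_, hcen.symm ▸ hC.symm⟩, by rw [hcen, hCcard]⟩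
    refine le_antisymm ?_ (hcen.symm ▸ CfsgLib.Core.pgroup_commutator_le_frattini hG)
    refine CfsgLib.Core.frattini_le_of_elementary (p := 2) (hcen.symm ▸ le_rfl) fun x => ?_
    rw [Subgroup.mem_center_iff]
    intro y
    set c := y * x * y⁻¹ * x⁻¹ with hcdef
    have hcC : c ∈ C := Subgroup.commutator_mem_commutator (Subgroup.mem_top y) (Subgroup.mem_top x)
    have hcc : ∀ w, w * c = c * w := Subgroup.mem_center_iff.1 (hcen.symm ▸ hcC)
    have hc2 : c ^ 2 = 1 := by
      have h7 := pow_card_eq_one' (x := (⟨c, hcC⟩ : ↥C))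
      rw [hCcard] at h7
      exact congrArg Subtype.val h7
    have hyx : y * x * y⁻¹ = c * x := by rw [hcdef]; group
    rw [← mul_inv_eq_iff_eq_mul, ← conj_pow, hyx, (show Commute c x from (hcc x).symm).mul_pow, hc2, one_mul]
  · rintro ⟨rfl, hE⟩
    obtain ⟨n, hn1, hcard⟩ := CfsgLib.Transfer.extraspecial_card hE
    obtain ⟨hdeg, hcnt⟩ := CfsgLib.Char.extraspecial_degrees hE hcard
    rw [show (1 : ℕ) = 2 - 1 from rfl, ← hcnt]
    refine Nat.card_congr (Equiv.subtypeEquivRight fun χ => ?_)
    rw [← CfsgLib.Block.charDegree_cast χ.2.isCharacter']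
    constructor
    · intro h2
      rcases hdeg χ with h | h
      · rw [← CfsgLib.Block.charDegree_cast χ.2.isCharacter', Nat.cast_eq_one] at h
        rw [h] at h2
        exact absurd h2 (by norm_num)
      · rw [← CfsgLib.Block.charDegree_cast χ.2.isCharacter'] at h
        exact h
    · intro h
      rw [show charDegree (χ : G → ℂ) = 2 ^ n by exact_mod_cast h]
      exact dvd_pow_self 2 (by omega)

end Cfsg.Agent.S4762
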