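import Cfsg.Statements.S4763
import Cfsg.Agent.Lib.BlockGlauberman
import Cfsg.Agent.Lib.BlockCoprimeExt
import Cfsg.Agent.Lib.BlockRegular
import Cfsg.Agent.Lib.CharPerm
import Cfsg.Agent.Lib.CharLinear

set_option autoImplicit false
open Cfsg

namespace Cfsg.Agent.S4763

open CfsgLib.Char CfsgLib.Block CfsgLib.Glauberman
open scoped Classical ComplexConjugate

variable {G : Type*} [Group G] [Finite G]

theorem carrier_card (g : G) :
    Nat.card (ConjClasses.mk g).carrier = (Subgroup.centralizer ({g} : Set G)).index := by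
  rw [← ConjAct.orbit_eq_carrier_conjClasses, Nat.card_coe_set_eq, ← MulAction.index_stabilizer,
    ConjAct.stabilizer_eq_centralizer]
  rfl

variable {p : ℕ} [Fact p.Prime]

/-- A nonlinear character of the quotient and a nontrivial character of the kernel give two
characters of degree divisible by `p`. -/
theorem quot_comm (hnil : ¬ Group.IsNilpotent G) (N : Subgroup G) [N.Normal]
    (hN : (Nat.card N).Coprime p) (hidx : ∃ k : ℕ, N.index = p ^ k)
    (hone : Nat.card {χ : IrrCharacter G // p ∣ charDegree (χ : G → ℂ)} = 1) (a b : G ⧸ N) :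
    a * b = b * a := by
  haveI := Fintype.ofFinite G
  haveI := Fintype.ofFinite N
  obtain ⟨k, hk⟩ := hidx
  refine comm_of_linear (fun χ => ?_) a b
  by_contra hne
  have hsub := (Nat.card_eq_one_iff_unique.mp hone).1
  have hχ1 : charDegree (χ : G ⧸ N → ℂ) ∣ p ^ k := by
    rw [← hk, Subgroup.index_eq_card]; exact charDegree_dvd_card χ
  obtain ⟨j, -, hj⟩ := (Nat.dvd_prime_pow Fact.out).1 hχ1
  have hj0 : j ≠ 0 := fun e => hne (by
    rw [← charDegree_cast χ.2.isCharacter', hj, e, pow_zero, Nat.cast_one])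
  have hpχ : p ∣ charDegree (χ : G ⧸ N → ℂ) := hj ▸ dvd_pow_self p hj0
  let β : IrrCharacter G := ⟨(χ : G ⧸ N → ℂ) ∘ QuotientGroup.mk' N,
    isIrrCharacter_comp_surjective χ.2 _ (QuotientGroup.mk'_surjective N)⟩
  have hβd : charDegree (β : G → ℂ) = charDegree (χ : G ⧸ N → ℂ) := rfl
  have hβN : ∀ n : N, (β : G → ℂ) n = (β : G → ℂ) 1 := fun n => by
    show (χ : G ⧸ N → ℂ) (QuotientGroup.mk (n : G)) = (χ : G ⧸ N → ℂ) (QuotientGroup.mk 1)
    rw [(QuotientGroup.eq_one_iff (n : G)).2 n.2, QuotientGroup.mk_one]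
  have hNne : N ≠ ⊥ := fun e => hnil (by
    have hG : IsPGroup p G := IsPGroup.of_card (n := k) (by rw [← hk, e, Subgroup.index_bot])
    exact hG.isNilpotent)
  obtain ⟨θ, hθ⟩ : ∃ θ : IrrCharacter N, (θ : N → ℂ) ≠ fun _ => 1 := by
    haveI : Nontrivial N := (Subgroup.nontrivial_iff_ne_bot N).mpr hNne
    by_contra hall
    push_neg at hall
    obtain ⟨n, hn⟩ := exists_ne (1 : N)
    exact hn (isConj_one_left.mp ((isConj_iff_irr_eq n 1).mpr fun θ => by rw [hall θ]))
  have hθ0 : classInner (θ : N → ℂ) (fun _ => (1 : ℂ)) = 0 := by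
    have h := irr_classInner θ ⟨fun _ => (1 : ℂ), isIrrCharacter_one⟩
    rw [if_neg (fun e => hθ (congrArg Subtype.val e))] at h
    exact h
  suffices ∃ ψ : IrrCharacter G, p ∣ charDegree (ψ : G → ℂ) ∧
      classInner (fun n : N => (ψ : G → ℂ) n) (θ : N → ℂ) ≠ 0 by
    obtain ⟨ψ, hψp, hψθ⟩ := this
    have e : ψ = β := congrArg Subtype.val (hsub.elim ⟨ψ, hψp⟩ ⟨β, hβd ▸ hpχ⟩)
    apply hψθ
    rw [e, show (fun n : N => (β : G → ℂ) n) = (β : G → ℂ) 1 • (fun _ : N => (1 : ℂ)) from
      funext fun n => by rw [hβN]; simp, CfsgLib.Char.inner_smul_left, ← CfsgLib.Char.inner_conj_symm, hθ0, map_zero,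
      mul_zero]
  by_cases hinv : InvNormal N (θ : N → ℂ)
  · have hc : (Nat.card N).Coprime N.index := hk ▸ Nat.Coprime.pow_right k hN
    have hco : Nat.Coprime N.index (detOrder (θ : N → ℂ) * charDegree (θ : N → ℂ)) :=
      Nat.Coprime.mul_right (hc.symm.coprime_dvd_right (detOrder_dvd_card θ.2.isCharacter'))
        (hc.symm.coprime_dvd_right (charDegree_dvd_card θ))
    obtain ⟨E, ⟨hE, hEr, -⟩, -⟩ := canonical_extension N θ.2 hinv
      (charDegree_cast θ.2.isCharacter').symm hco
    have hEi : IsIrrCharacter N (fun n : N => E n) := by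
      rw [show (fun n : N => E n) = (θ : N → ℂ) from funext hEr]; exact θ.2
    have hβinv : ∀ (n : N) (g : G), (β : G → ℂ) ((n : G) * g) = (β : G → ℂ) g := fun n g => by
      show (χ : G ⧸ N → ℂ) (QuotientGroup.mk ((n : G) * g)) = _
      rw [QuotientGroup.mk_mul, (QuotientGroup.eq_one_iff (n : G)).2 n.2, one_mul]; rfl
    have hp : IsIrrCharacter G ((β : G → ℂ) * E) := isIrr_of_inner_self_one
      (isCharacter_mul β.2.isCharacter' hE.isCharacter')
      ((inner_mul_ext N hE hEi hβinv hβinv).trans (irr_inner_self β.2))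
    refine ⟨⟨_, hp⟩, ?_, ?_⟩
    · have h : charDegree ((β : G → ℂ) * E) = charDegree (β : G → ℂ) * charDegree E := by
        have h2 : (charDegree ((β : G → ℂ) * E) : ℂ) =
            (charDegree (β : G → ℂ) * charDegree E : ℕ) := by
          rw [Nat.cast_mul, charDegree_cast hp.isCharacter', charDegree_cast β.2.isCharacter',
            charDegree_cast hE.isCharacter']
          rfl
        exact_mod_cast h2
      show p ∣ charDegree ((β : G → ℂ) * E)
      rw [h, hβd]
      exact dvd_mul_of_dvd_left hpχ _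
    · show classInner (fun n : N => (β : G → ℂ) n * E n) (θ : N → ℂ) ≠ 0
      rw [show (fun n : N => (β : G → ℂ) n * E n) = (β : G → ℂ) 1 • (θ : N → ℂ) from
        funext fun n => by rw [hβN, hEr]; rfl, CfsgLib.Char.inner_smul_left, irr_inner_self θ.2, mul_one]
      exact irr_one_ne_zero β
  · obtain ⟨ψ, hψ, hcon⟩ := exists_irr_over (G := G) θ.2
    refine ⟨⟨ψ, hψ⟩, ?_, hcon⟩
    obtain ⟨m, hm⟩ := inner_character_nat
      (CfsgLib.Char.isCharacter_restrict hψ.isCharacter' N) θ.2.isCharacter'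
    have hd := clifford_degree hψ θ.2 hcon
    rw [hm, ← charDegree_cast hψ.isCharacter', ← charDegree_cast θ.2.isCharacter'] at hd
    have hd' : charDegree ψ = m * (inertia (θ : N → ℂ)).index * charDegree (θ : N → ℂ) := by
      exact_mod_cast hd
    have hi' : (inertia (θ : N → ℂ)).index ∣ p ^ k := hk ▸
      Subgroup.index_dvd_of_le (le_inertia (isCharacter_classFunction θ.2.isCharacter'))
    obtain ⟨i, -, hi⟩ := (Nat.dvd_prime_pow Fact.out).1 hi'
    have hi0 : i ≠ 0 := fun e => hinv fun g n => by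
      have htop : inertia (θ : N → ℂ) = ⊤ := Subgroup.index_eq_one.1 (by rw [hi, e, pow_zero])
      exact congrFun (mem_inertia.1 (htop ▸ Subgroup.mem_top g : g ∈ inertia (θ : N → ℂ))) n
    show p ∣ charDegree ψ
    rw [hd', hi]
    exact dvd_mul_of_dvd_left (dvd_mul_of_dvd_right (dvd_pow_self p hi0) m) _


/-- Let p be a prime and G a finite group that is not nilpotent and has a normal p-complement (a normal subgroup of order prime to p and index a power of p). If G has exactly one irreducible complex character of degree divisible by p, then G has exactly one conjugacy class whose size is divisible by p. -/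
theorem result {G : Type*} [Group G] [Finite G] (p : ℕ) [Fact p.Prime] (hnil : ¬ Group.IsNilpotent G) (N : Subgroup G) [N.Normal] (hN : (Nat.card N).Coprime p) (hidx : ∃ k : ℕ, N.index = p ^ k) (hone : Nat.card {χ : Cfsg.IrrCharacter G // p ∣ Cfsg.charDegree (χ : G → ℂ)} = 1) : Nat.card {C : ConjClasses G // p ∣ Nat.card C.carrier} = 1 := by
  haveI := Fintype.ofFinite G
  haveI := Fintype.ofFinite N
  have hp : p.Prime := Fact.out
  have hcomm := quot_comm hnil N hN hidx hone
  obtain ⟨k, hk⟩ := hidx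
  have hcop : (Nat.card N).Coprime N.index := hk ▸ Nat.Coprime.pow_right k hN
  have hNp : ¬ p ∣ Nat.card N := fun h => hp.coprime_iff_not_dvd.1 hN.symm h
  let P : Sylow p G := default
  have hPcard : Nat.card P = p ^ k := by
    rw [P.card_eq_multiplicity, ← N.card_mul_index, hk,
      Nat.factorization_mul Nat.card_pos.ne' (pow_ne_zero _ hp.ne_zero)]
    rw [Finsupp.add_apply, Nat.factorization_eq_zero_of_not_dvd hNp, hp.factorization_pow,
      Finsupp.single_eq_same, zero_add]
  have hcompl : Subgroup.IsComplement' N (P : Subgroup G) :=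
    Subgroup.isComplement'_of_coprime (by rw [hPcard, ← hk, N.card_mul_index])
      (by rw [hPcard]; exact Nat.Coprime.pow_right k hN)
  have hdec : ∀ g : G, ∃ n ∈ N, ∃ y ∈ (P : Subgroup G), g = n * y := fun g => by
    obtain ⟨⟨n, y⟩, h⟩ := hcompl.2 g
    exact ⟨n, n.2, y, y.2, h.symm⟩
  have hPcomm : ∀ x ∈ (P : Subgroup G), ∀ y ∈ (P : Subgroup G), x * y = y * x := by
    intro x hx y hy
    have h1 : x * y * (y * x)⁻¹ ∈ N := by
      rw [← QuotientGroup.eq_one_iff, QuotientGroup.mk_mul, QuotientGroup.mk_inv,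
        QuotientGroup.mk_mul, QuotientGroup.mk_mul, hcomm (QuotientGroup.mk x), mul_inv_cancel]
    have h2 : x * y * (y * x)⁻¹ ∈ N ⊓ (P : Subgroup G) :=
      Subgroup.mem_inf.2 ⟨h1, Subgroup.mul_mem _ (Subgroup.mul_mem _ hx hy)
        (Subgroup.inv_mem _ (Subgroup.mul_mem _ hy hx))⟩
    rw [hcompl.disjoint.eq_bot, Subgroup.mem_bot, mul_inv_eq_one] at h2
    exact h2
  let φ : ↥(P : Subgroup G) →* MulAut N := MulAut.conjNormal.comp (P : Subgroup G).subtype
  have hφ : ∀ (s : (P : Subgroup G)) (n : N), ((φ s n : N) : G) = s * n * (s : G)⁻¹ :=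
    fun s n => MulAut.conjNormal_apply (s : G) n
  obtain ⟨M, hM⟩ := exists_isPModular hp
  have hinv : ∀ θ : IrrCharacter N, InvNormal N (θ : N → ℂ) ↔ Inv φ (θ : N → ℂ) := by
    intro θ
    refine ⟨fun h s n => ?_, fun h g n => ?_⟩
    · rw [show φ s n = ⟨(s : G) * n * (s : G)⁻¹, Subgroup.Normal.conj_mem inferInstance _ n.2 _⟩
        from Subtype.ext (hφ s n)]
      exact h s n
    · obtain ⟨m, hm, y, hy, rfl⟩ := hdec g
      refine Eq.trans ?_ (h ⟨y, hy⟩ n)
      refine Eq.trans ?_ ((isCharacter_classFunction θ.2.isCharacter') (φ ⟨y, hy⟩ n) ⟨m, hm⟩)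
      refine congrArg (θ : N → ℂ) (Subtype.ext ?_)
      simp only [Subgroup.coe_mul, InvMemClass.coe_inv, hφ]
      group
  have hlin : Nat.card (G ⧸ N →* ℂˣ) = p ^ k := by
    letI : CommGroup (G ⧸ N) := { mul_comm := hcomm }
    rw [CommGroup.card_monoidHom_of_hasEnoughRootsOfUnity, ← hk, Subgroup.index_eq_card]
  have hirr : Nat.card {χ : IrrCharacter G // ¬ p ∣ charDegree (χ : G → ℂ)} =
      Nat.card (ConjClasses (fix φ)) * p ^ k := by
    rw [← card_irrCharacter, ← card_invariant P.2 hNp hM,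
      ← Nat.card_congr (Equiv.subtypeEquivRight hinv), ← hlin, ← card_coprime_degree N hcop]
    refine Nat.card_congr (Equiv.subtypeEquivRight fun χ => ?_)
    rcases Nat.eq_zero_or_pos k with rfl | hk0
    · have h1 : N.index = 1 := by rw [hk, pow_zero]
      simp only [h1, Nat.coprime_one_right_iff, iff_true]
      intro h
      refine hNp ?_
      rw [Subgroup.index_eq_one.1 h1, Subgroup.card_top]
      exact h.trans (charDegree_dvd_card χ)
    · rw [hk, Nat.coprime_pow_right_iff hk0, Nat.coprime_comm, hp.coprime_iff_not_dvd]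
  have hcen : ∀ (c : fix φ) (y : (P : Subgroup G)),
      (P : Subgroup G) ≤ Subgroup.centralizer ({((c : N) : G) * y} : Set G) := by
    intro c y z hz
    have hzc : z * ((c : N) : G) * z⁻¹ = ((c : N) : G) := by
      have h := congrArg Subtype.val (mem_fix.1 c.2 ⟨z, hz⟩)
      rwa [hφ] at h
    rw [Subgroup.mem_centralizer_singleton_iff]
    calc z * (((c : N) : G) * y) = z * ((c : N) : G) * z⁻¹ * (z * y) := by group
      _ = ((c : N) : G) * y * z := by rw [hzc, hPcomm z hz y y.2]; group
  have hcy : ∀ (c : fix φ) (y : (P : Subgroup G)), Commute ((c : N) : G) y := by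
    intro c y
    have h := Subgroup.mem_centralizer_singleton_iff.1 (hcen c 1 y.2)
    rw [Subgroup.coe_one, mul_one] at h
    exact h.symm
  have hcd : ∀ (c : fix φ) (y : (P : Subgroup G)),
      ¬ p ∣ Nat.card (ConjClasses.mk (((c : N) : G) * y)).carrier := fun c y h => by
    rw [carrier_card] at h
    exact P.not_dvd_index (h.trans (Subgroup.index_dvd_of_le (hcen c y)))
  obtain ⟨m, hm1, hm0⟩ : ∃ m, m ≡ 1 [MOD Nat.card N] ∧ m ≡ 0 [MOD p ^ k] :=
    ⟨_, (Nat.chineseRemainder (hk ▸ hcop) 1 0).2⟩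
  have hpow : ∀ (c : fix φ) (y : (P : Subgroup G)),
      (((c : N) : G) * y) ^ m = ((c : N) : G) := by
    intro c y
    have h1 : ((c : N) : G) ^ m = ((c : N) : G) := by
      conv_rhs => rw [← pow_one ((c : N) : G)]
      exact pow_eq_pow_iff_modEq.2 (hm1.of_dvd (Subgroup.orderOf_dvd_natCard N (c : N).2))
    have h2 : (y : G) ^ m = 1 := by
      rw [← pow_zero (y : G)]
      exact pow_eq_pow_iff_modEq.2 (hm0.of_dvd (hPcard ▸ Subgroup.orderOf_dvd_natCard _ y.2))
    rw [(hcy c y).mul_pow, h1, h2, mul_one]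
  let f : ConjClasses (fix φ) × (P : Subgroup G) →
      {C : ConjClasses G // ¬ p ∣ Nat.card C.carrier} := fun x =>
    ⟨ConjClasses.mk (((x.1.out : fix φ) : N) * (x.2 : G)), hcd _ _⟩
  have hf : Function.Bijective f := by
    constructor
    · rintro ⟨C, y⟩ ⟨C', y'⟩ h
      have h' : IsConj (((C.out : fix φ) : N) * (y : G)) (((C'.out : fix φ) : N) * (y' : G)) :=
        ConjClasses.mk_eq_mk_iff_isConj.1 (congrArg Subtype.val h)
      obtain ⟨g, hg⟩ := isConj_iff.1 h'
      have hy : y = y' := by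
        have h1 := congrArg (QuotientGroup.mk' N) hg
        simp only [map_mul, map_inv, QuotientGroup.mk'_apply] at h1
        rw [(QuotientGroup.eq_one_iff _).2 (C.out : N).2,
          (QuotientGroup.eq_one_iff _).2 (C'.out : N).2, one_mul, one_mul,
          hcomm (QuotientGroup.mk g), mul_assoc, mul_inv_cancel, mul_one, QuotientGroup.eq] at h1
        have h2 : (y : G)⁻¹ * y' ∈ N ⊓ (P : Subgroup G) :=
          Subgroup.mem_inf.2 ⟨h1, Subgroup.mul_mem _ (Subgroup.inv_mem _ y.2) y'.2⟩
        rw [hcompl.disjoint.eq_bot, Subgroup.mem_bot, inv_mul_eq_one] at h2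
        exact Subtype.ext h2
      subst hy
      have h3 : g * ((C.out : N) : G) * g⁻¹ = ((C'.out : N) : G) := by
        rw [← hpow C.out y, ← hpow C'.out y, ← hg, conj_pow]
      obtain ⟨n, hn, z, hz, rfl⟩ := hdec g
      have hzc : z * ((C.out : N) : G) * z⁻¹ = ((C.out : N) : G) := by
        have e := congrArg Subtype.val (mem_fix.1 C.out.2 ⟨z, hz⟩)
        rwa [hφ] at e
      have h4 : IsConj (C.out : N) (C'.out : N) := isConj_iff.2 ⟨⟨n, hn⟩, Subtype.ext (by
        rw [← h3]
        show n * ((C.out : N) : G) * n⁻¹ = _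
        conv_lhs => rw [← hzc]
        group)⟩
      have h5 := ConjClasses.mk_eq_mk_iff_isConj.2 (isConj_fix P.2 hNp h4)
      rw [show C = C' from ((Quotient.out_eq C).symm.trans h5).trans (Quotient.out_eq C')]
    · rintro ⟨C, hC⟩
      obtain ⟨g, rfl⟩ := ConjClasses.mk_surjective C
      rw [carrier_card] at hC
      obtain ⟨Q, hQ⟩ : ∃ Q : Sylow p G, (Q : Subgroup G) ≤ Subgroup.centralizer ({g} : Set G) := by
        let R : Sylow p (Subgroup.centralizer ({g} : Set G)) := default
        refine ⟨Sylow.ofCard ((R : Subgroup _).map (Subgroup.centralizer ({g} : Set G)).subtype) ?_,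
          ?_⟩
        · rw [Subgroup.card_map_of_injective (Subgroup.subtype_injective _),
            R.card_eq_multiplicity, ← (Subgroup.centralizer ({g} : Set G)).card_mul_index,
            Nat.factorization_mul Nat.card_pos.ne' Subgroup.index_ne_zero_of_finite]
          rw [Finsupp.add_apply, Nat.factorization_eq_zero_of_not_dvd hC, add_zero]
        · rw [Sylow.coe_ofCard]
          exact Subgroup.map_subtype_le _
      obtain ⟨x, hx⟩ := MulAction.exists_smul_eq G P Q
      have hxc : ∀ z ∈ (P : Subgroup G), z * (x⁻¹ * g * x) = x⁻¹ * g * x * z := by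
        intro z hz
        have hzQ : x * z * x⁻¹ ∈ (Q : Subgroup G) := by
          rw [← hx, Sylow.coe_subgroup_smul]
          exact Subgroup.smul_mem_pointwise_smul z (MulAut.conj x) _ hz
        have h := Subgroup.mem_centralizer_singleton_iff.1 (hQ hzQ)
        calc z * (x⁻¹ * g * x) = x⁻¹ * (x * z * x⁻¹ * g) * x := by group
          _ = x⁻¹ * g * x * z := by rw [h]; group
      obtain ⟨n, hn, y, hy, he⟩ := hdec (x⁻¹ * g * x)
      have hfix : (⟨n, hn⟩ : N) ∈ fix φ := mem_fix.2 fun s => Subtype.ext (by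
        rw [hφ]
        have h := hxc s s.2
        rw [he, mul_assoc n, ← hPcomm s s.2 y hy, ← mul_assoc, ← mul_assoc] at h
        have h' := mul_right_cancel h
        show (s : G) * n * (s : G)⁻¹ = n
        rw [h', mul_inv_cancel_right])
      refine ⟨(ConjClasses.mk ⟨_, hfix⟩, ⟨y, hy⟩), Subtype.ext ?_⟩
      show ConjClasses.mk _ = ConjClasses.mk g
      rw [ConjClasses.mk_eq_mk_iff_isConj]
      obtain ⟨d, hd⟩ := isConj_iff.1
        (isConj_out (⟨_, hfix⟩ : fix φ) : IsConj _ (⟨_, hfix⟩ : fix φ))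
      have hd' := congrArg (fun w : fix φ => ((w : N) : G)) hd
      simp only [Subgroup.coe_mul, InvMemClass.coe_inv] at hd'
      refine IsConj.trans (isConj_iff.2 ⟨(((d : fix φ) : N) : G), rfl⟩) (isConj_iff.2 ⟨x, ?_⟩)
      rw [show ∀ a c : G, a * (c * y) * a⁻¹ = (a * c * a⁻¹) * (a * y * a⁻¹) from
          fun a c => by group, hd', (hcy d ⟨y, hy⟩).eq, mul_inv_cancel_right, ← he]
      group
  have hcls : Nat.card {C : ConjClasses G // ¬ p ∣ Nat.card C.carrier} =
      Nat.card (ConjClasses (fix φ)) * p ^ k := by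
    rw [← Nat.card_eq_of_bijective f hf, Nat.card_prod, hPcard]
  haveI : Finite (ConjClasses G) := Finite.of_surjective _ ConjClasses.mk_surjective
  have e1 := Nat.card_congr (Equiv.sumCompl fun χ : IrrCharacter G => p ∣ charDegree (χ : G → ℂ))
  have e2 := Nat.card_congr (Equiv.sumCompl fun C : ConjClasses G => p ∣ Nat.card C.carrier)
  rw [Nat.card_sum] at e1 e2
  rw [hone, hirr, card_irrCharacter] at e1
  rw [hcls] at e2
  omega

end Cfsg.Agent.S4763
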