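import Cfsg.Statements.S4765
import Cfsg.Agent.S2299
import Cfsg.Agent.S2300
import Cfsg.Agent.Lib.LieSLTwoCuspidal
import Cfsg.Agent.Lib.CharLinear
import Cfsg.Agent.Lib.BlockRegular

set_option autoImplicit false
open Cfsg

namespace Cfsg.Agent.S4765

/-- Let F be a finite field of characteristic p with at least 4 elements. Then PSL(2,F) has exactly one irreducible complex character of degree divisible by p, and its degree is the order of F. -/
theorem result (p : ℕ) [Fact p.Prime] (F : Type*) [Field F] [Fintype F] [CharP F p] (hF : 4 ≤ Fintype.card F) : Nat.card {χ : Cfsg.IrrCharacter (Matrix.ProjectiveSpecialLinearGroup (Fin 2) F) // p ∣ Cfsg.charDegree (χ : Matrix.ProjectiveSpecialLinearGroup (Fin 2) F → ℂ)} = 1 ∧ ∀ χ : Cfsg.IrrCharacter (Matrix.ProjectiveSpecialLinearGroup (Fin 2) F), p ∣ Cfsg.charDegree (χ : Matrix.ProjectiveSpecialLinearGroup (Fin 2) F → ℂ) → Cfsg.charDegree (χ : Matrix.ProjectiveSpecialLinearGroup (Fin 2) F → ℂ) = Fintype.card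 F := by
  classical
  have hp : p.Prime := Fact.out
  obtain ⟨n, hp', hn⟩ := FiniteField.card F p
  set q := Fintype.card F with hq
  have hpq : p ∣ q := hn ▸ dvd_pow_self p n.ne_zero
  have hdata : (∀ χ : Matrix.SpecialLinearGroup (Fin 2) F → ℂ,
      Cfsg.IsIrrCharacter (Matrix.SpecialLinearGroup (Fin 2) F) χ → ∀ d : ℕ, χ 1 = d → p ∣ d → d = q) ∧
      Nat.card {χ : Cfsg.IrrCharacter (Matrix.SpecialLinearGroup (Fin 2) F) //
        (χ : Matrix.SpecialLinearGroup (Fin 2) F → ℂ) 1 = (q : ℂ)} = 1 := by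
    have hsub : ∀ d : ℕ, p ∣ d → d + 1 ≠ q ∧ d ≠ q + 1 := fun d hd => by
      constructor <;> intro e
      · exact hp.not_dvd_one ((Nat.dvd_add_right hd).1 (e ▸ hpq))
      · exact hp.not_dvd_one ((Nat.dvd_add_right hpq).1 (e ▸ hd))
    rcases Nat.even_or_odd q with he | ho
    · haveI : CharP F 2 := by
        have : p = 2 := by
          have h2 : 2 ∣ p ^ (n : ℕ) := hn ▸ he.two_dvd
          exact ((Nat.prime_dvd_prime_iff_eq Nat.prime_two hp).1
            (Nat.prime_two.dvd_of_dvd_pow h2)).symm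
        exact this ▸ inferInstance
      obtain ⟨hall, hcnt⟩ := Cfsg.Agent.S2300.result (F := F)
      refine ⟨fun χ hχ d hd hpd => ?_, (hcnt hF).2.1⟩
      have := hsub d hpd
      rcases hall χ hχ with h | h | h | h <;> rw [hd] at h
      · exact absurd ((Nat.cast_eq_one.1 h) ▸ hpd) hp.not_dvd_one
      · have : ((d + 1 : ℕ) : ℂ) = (q : ℂ) := by push_cast; rw [h]; ring
        have := Nat.cast_inj.1 this; omega
      · exact_mod_cast h
      · have : (d : ℂ) = ((q + 1 : ℕ) : ℂ) := by push_cast; exact h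
        have := Nat.cast_inj.1 this; omega
    · obtain ⟨hall, hcnt⟩ := Cfsg.Agent.S2299.result ho
      refine ⟨fun χ hχ d hd hpd => ?_, (hcnt (by obtain ⟨k, hk⟩ := ho; omega)).2.1⟩
      have h1 := hsub d hpd
      have h2 := hsub (2 * d) (hpd.mul_left 2)
      obtain ⟨k, hk⟩ := ho
      rcases hall χ hχ with h | h | h | h | h | h <;> rw [hd] at h
      · exact absurd ((Nat.cast_eq_one.1 h) ▸ hpd) hp.not_dvd_one
      · exact_mod_cast h
      · have : (d : ℂ) = ((q + 1 : ℕ) : ℂ) := by push_cast; exact h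
        have := Nat.cast_inj.1 this; omega
      · have : ((d + 1 : ℕ) : ℂ) = (q : ℂ) := by push_cast; rw [h]; ring
        have := Nat.cast_inj.1 this; omega
      · have := Nat.cast_inj.1 h; omega
      · have := Nat.cast_inj.1 h; omega
  let f := QuotientGroup.mk' (Subgroup.center (Matrix.SpecialLinearGroup (Fin 2) F))
  have hf : Function.Surjective f := QuotientGroup.mk'_surjective _
  let up : Cfsg.IrrCharacter (Matrix.ProjectiveSpecialLinearGroup (Fin 2) F) →
      Cfsg.IrrCharacter (Matrix.SpecialLinearGroup (Fin 2) F) := fun χ =>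
    ⟨(χ : Matrix.ProjectiveSpecialLinearGroup (Fin 2) F → ℂ) ∘ f,
      CfsgLib.Char.isIrrCharacter_comp_surjective χ.2 f hf⟩
  have key : ∀ χ : Cfsg.IrrCharacter (Matrix.ProjectiveSpecialLinearGroup (Fin 2) F),
      p ∣ Cfsg.charDegree (χ : Matrix.ProjectiveSpecialLinearGroup (Fin 2) F → ℂ) →
      Cfsg.charDegree (χ : Matrix.ProjectiveSpecialLinearGroup (Fin 2) F → ℂ) = q :=
    fun χ h => hdata.1 _ (up χ).2 _
      (CfsgLib.Block.charDegree_cast χ.2.isCharacter').symm h
  refine ⟨?_, key⟩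
  -- the Steinberg character is trivial on the centre
  have hker : ∀ k ∈ f.ker, (CfsgLib.Lie.SLTwoTable.st (F := F)) k =
      CfsgLib.Lie.SLTwoTable.st (F := F) 1 := by
    intro k hk
    rw [QuotientGroup.ker_mk', Matrix.SpecialLinearGroup.mem_center_iff] at hk
    obtain ⟨r, hr, hrk⟩ := hk
    rw [Fintype.card_fin, sq, mul_self_eq_one_iff] at hr
    rcases hr with rfl | rfl
    · rw [show k = 1 from Subtype.ext (by rw [← hrk]; simp)]
    · rw [show k = -1 from Subtype.ext (by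
        rw [Matrix.SpecialLinearGroup.coe_neg, Matrix.SpecialLinearGroup.coe_one, ← hrk, map_neg, map_one]), CfsgLib.Lie.SLTwoCusp.st_neg]
  obtain ⟨s, -, hs, hsi⟩ := CfsgLib.Char.exists_deflate
    (CfsgLib.Lie.SLTwoTable.isIrr_st (F := F)).isCharacter' f hf hker
  have hs' := hsi (CfsgLib.Lie.SLTwoTable.isIrr_st (F := F))
  have hs1 : Cfsg.charDegree s = q := by
    have h : (Cfsg.charDegree s : ℂ) = (q : ℂ) := by
      rw [CfsgLib.Block.charDegree_cast hs'.isCharacter', ← map_one f]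
      exact (congrFun hs 1).trans CfsgLib.Lie.SLTwoTable.st_one
    exact_mod_cast h
  haveI : Subsingleton {χ : Cfsg.IrrCharacter (Matrix.SpecialLinearGroup (Fin 2) F) //
      (χ : Matrix.SpecialLinearGroup (Fin 2) F → ℂ) 1 = (q : ℂ)} :=
    (Nat.card_eq_one_iff_unique.1 hdata.2).1
  rw [Nat.card_eq_one_iff_unique]
  refine ⟨⟨fun a b => Subtype.ext (Subtype.ext (funext fun g => ?_))⟩, ⟨⟨⟨s, hs'⟩, hs1 ▸ hpq⟩⟩⟩
  obtain ⟨x, rfl⟩ := hf g
  have hd : ∀ c : {χ : Cfsg.IrrCharacter (Matrix.ProjectiveSpecialLinearGroup (Fin 2) F) //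
      p ∣ Cfsg.charDegree (χ : Matrix.ProjectiveSpecialLinearGroup (Fin 2) F → ℂ)},
      (up c.1 : Matrix.SpecialLinearGroup (Fin 2) F → ℂ) 1 = (q : ℂ) := fun c => by
    rw [← key c.1 c.2, CfsgLib.Block.charDegree_cast c.1.2.isCharacter']
    show (c.1 : Matrix.ProjectiveSpecialLinearGroup (Fin 2) F → ℂ) (f 1) = _
    rw [map_one]
  have e := Subsingleton.elim (⟨up a.1, hd a⟩ : {χ : Cfsg.IrrCharacter _ //
    (χ : Matrix.SpecialLinearGroup (Fin 2) F → ℂ) 1 = (q : ℂ)}) ⟨up b.1, hd b⟩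
  exact congrFun (congrArg (fun c => ((c.1 : Cfsg.IrrCharacter _) :
    Matrix.SpecialLinearGroup (Fin 2) F → ℂ)) e) x

end Cfsg.Agent.S4765
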