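import Cfsg.Statements.S4784
import Cfsg.Agent.Lib.CharIndicator
import Cfsg.Agent.Lib.CharPerm
import Cfsg.Agent.Lib.CharInd
import Cfsg.Agent.Lib.CharMisc
import Cfsg.Agent.Lib.BlockInflate
import Cfsg.Agent.Lib.BlockPrincipal

set_option autoImplicit false
open Cfsg

namespace Cfsg.Agent.S4784

/-- Let H be a subgroup of the finite group G and consider the permutation character of G on the cosets of H (the function induced from the principal character of H). Then exactly one irreducible constituent of it is real-valued with Frobenius–Schur indicator +1 (namely the principal character) if and only if the normal core of H has odd index in G. -/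
theorem result {G : Type*} [Group G] [Fintype G] (H : Subgroup G) : Nat.card {χ : Cfsg.IrrCharacter G // Cfsg.classInner (Cfsg.indFun H (fun _ : H => (1 : ℂ))) (χ : G → ℂ) ≠ 0 ∧ (∀ g : G, (starRingEnd ℂ) ((χ : G → ℂ) g) = (χ : G → ℂ) g) ∧ (Nat.card G : ℂ)⁻¹ * ∑ g : G, (χ : G → ℂ) (g * g) = 1} = 1 ↔ Odd H.normalCore.index := by
  classical
  set π := Cfsg.indFun H (fun _ : H => (1 : ℂ)) with hπ
  haveI : Fintype H := Fintype.ofFinite H
  have h1H : IsCharacter H (fun _ : H => (1 : ℂ)) := (CfsgLib.Block.trivIrr H).2.isCharacter'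
  have hπc : IsCharacter G π := CfsgLib.Char.isCharacter_indFun h1H
  have htriv : classInner π ((CfsgLib.Block.trivIrr G : IrrCharacter G) : G → ℂ) = 1 := by
    rw [hπ, CfsgLib.Char.frobenius _ _ (CfsgLib.Char.isCharacter_classFunction (CfsgLib.Block.trivIrr G).2.isCharacter')]
    exact CfsgLib.Char.irr_inner_self (CfsgLib.Block.trivIrr H).2
  have hν1 : (Nat.card G : ℂ)⁻¹ * ∑ g : G, ((CfsgLib.Block.trivIrr G : IrrCharacter G) : G → ℂ) (g * g) = 1 := by
    simp only [CfsgLib.Block.trivIrr, Finset.sum_const, Finset.card_univ, nsmul_eq_mul, mul_one]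
    rw [← Nat.card_eq_fintype_card, inv_mul_cancel₀ (CfsgLib.Char.natCard_ne_zero G)]
  have hq : ∀ g : G, (starRingEnd ℂ) (((CfsgLib.Block.trivIrr G : IrrCharacter G) : G → ℂ) g) =
      ((CfsgLib.Block.trivIrr G : IrrCharacter G) : G → ℂ) g := fun g => by simp [CfsgLib.Block.trivIrr]
  constructor
  · intro hcard
    have huniq : ∀ χ : IrrCharacter G, classInner π (χ : G → ℂ) ≠ 0 →
        CfsgLib.Char.sqIndicator (χ : G → ℂ) = 1 → χ = CfsgLib.Block.trivIrr G := by
      intro χ hm hν
      have hreal : ∀ g : G, (starRingEnd ℂ) ((χ : G → ℂ) g) = (χ : G → ℂ) g := by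
        intro g
        rw [← CfsgLib.Char.eq_conj_of_im]
        by_contra hne
        have := (CfsgLib.Char.sqIndicator_trichotomy χ.2).2.2 ⟨g, hne⟩
        rw [hν] at this
        exact one_ne_zero this
      haveI := (Nat.card_eq_one_iff_unique.1 hcard).1
      exact congrArg Subtype.val (Subsingleton.elim
        (⟨χ, hm, hreal, hν⟩ : {χ : IrrCharacter G // classInner π (χ : G → ℂ) ≠ 0 ∧ (∀ g : G, (starRingEnd ℂ) ((χ : G → ℂ) g) = (χ : G → ℂ) g) ∧ (Nat.card G : ℂ)⁻¹ * ∑ g : G, (χ : G → ℂ) (g * g) = 1})
        ⟨CfsgLib.Block.trivIrr G, by rw [htriv]; exact one_ne_zero, hq, hν1⟩)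
    -- the indicator sum of the permutation character
    have hsum : (Nat.card G : ℂ)⁻¹ * ∑ g : G, π (g * g) =
        ∑ χ : IrrCharacter G, classInner π (χ : G → ℂ) * CfsgLib.Char.sqIndicator (χ : G → ℂ) := by
      conv_lhs => rw [CfsgLib.Char.classFunction_eq_sum π (CfsgLib.Char.isCharacter_classFunction hπc)]
      simp only [Finset.sum_apply, Pi.smul_apply, smul_eq_mul, CfsgLib.Char.sqIndicator]
      rw [Finset.sum_comm, Finset.mul_sum]
      refine Finset.sum_congr rfl fun χ _ => ?_
      rw [← Finset.mul_sum]; ring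
    set A := Finset.univ.filter (fun g : G => g * g ∈ H) with hA
    have hval : (Nat.card G : ℂ)⁻¹ * ∑ g : G, π (g * g) = (A.card : ℂ) / (Nat.card H : ℂ) := by
      have hin : ∀ x : G, ∑ g : G, extendByZero H (fun _ : H => (1 : ℂ)) (x⁻¹ * (g * g) * x) = (A.card : ℂ) := by
        intro x
        rw [Finset.sum_equiv (MulAut.conj x⁻¹).toEquiv (t := Finset.univ)
          (g := fun g => extendByZero H (fun _ : H => (1 : ℂ)) (g * g)) (by simp)
          (fun g _ => by simp [MulAut.conj_apply]; congr 1; group)]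
        rw [hA, Finset.card_filter, Nat.cast_sum]
        refine Finset.sum_congr rfl fun g _ => ?_
        by_cases hg : g * g ∈ H
        · rw [CfsgLib.Char.extendByZero_mem _ hg, if_pos hg, Nat.cast_one]
        · rw [CfsgLib.Char.extendByZero_not_mem _ hg, if_neg hg, Nat.cast_zero]
      simp only [hπ, CfsgLib.Char.indFun_apply]
      rw [← Finset.mul_sum, Finset.sum_comm, Finset.sum_congr rfl fun x _ => hin x, Finset.sum_const,
        Finset.card_univ, nsmul_eq_mul, ← Nat.card_eq_fintype_card]
      field_simp [CfsgLib.Char.natCard_ne_zero G, CfsgLib.Char.natCard_ne_zero H]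
    have hle : (A.card : ℂ).re ≤ (Nat.card H : ℂ).re := by
      have hterm : ∀ χ : IrrCharacter G, (classInner π (χ : G → ℂ) * CfsgLib.Char.sqIndicator (χ : G → ℂ)).re ≤
          if χ = CfsgLib.Block.trivIrr G then 1 else 0 := by
        intro χ
        by_cases hχ : χ = CfsgLib.Block.trivIrr G
        · subst hχ
          rw [htriv, CfsgLib.Char.sqIndicator, hν1, if_pos rfl]; simp
        · rw [if_neg hχ]
          obtain ⟨m, hm⟩ := CfsgLib.Char.inner_character_nat hπc χ.2.isCharacter'
          rcases (CfsgLib.Char.sqIndicator_trichotomy χ.2).1 with h | h | h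
          · rw [h]; simp
          · by_cases h0 : classInner π (χ : G → ℂ) = 0
            · rw [h0]; simp
            · exact absurd (huniq χ h0 h) hχ
          · rw [h, hm]; simp
      have h := congrArg Complex.re (hsum.symm.trans hval)
      rw [Complex.re_sum] at h
      have h2 := Finset.sum_le_sum (s := Finset.univ) fun χ _ => hterm χ
      rw [h, Finset.sum_ite_eq', if_pos (Finset.mem_univ _), Complex.div_natCast_re, div_le_one (by exact_mod_cast Nat.card_pos)] at h2
      simpa using h2
    have hsub : (Finset.univ.filter (fun g : G => g ∈ H)) = A := by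
      refine Finset.eq_of_subset_of_card_le (fun g hg => ?_) ?_
      · simp only [Finset.mem_filter, Finset.mem_univ, true_and, hA] at hg ⊢
        exact H.mul_mem hg hg
      · have : A.card ≤ Nat.card H := by exact_mod_cast (by simpa using hle : (A.card : ℝ) ≤ (Nat.card H : ℝ))
        have h2 : (Finset.univ.filter (fun g : G => g ∈ H)).card = Nat.card H := by
          rw [Nat.card_eq_fintype_card, ← Fintype.card_subtype]
        omega
    have hroot : ∀ g : G, g * g ∈ H → g ∈ H := fun g hg => by
      have : g ∈ A := by simp [hA, hg]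
      rw [← hsub] at this
      simpa using this
    have htwo : ∀ (k : ℕ) (g : G), g ^ 2 ^ k = 1 → g ∈ H := by
      intro k
      induction k with
      | zero => intro g hg; rw [pow_zero, pow_one] at hg; rw [hg]; exact H.one_mem
      | succ k ih => intro g hg; exact hroot g (ih _ (by rw [← pow_two, ← pow_mul, ← pow_succ']; exact hg))
    haveI : Fact (Nat.Prime 2) := ⟨Nat.prime_two⟩
    obtain ⟨P⟩ : Nonempty (Sylow 2 G) := inferInstance
    have hPle : (P : Subgroup G) ≤ H.normalCore := by
      intro u hu b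
      obtain ⟨k, hk⟩ := P.2 ⟨u, hu⟩
      have hk' : u ^ 2 ^ k = 1 := congrArg Subtype.val hk
      exact htwo k _ (by rw [conj_pow, hk']; simp)
    rw [Nat.odd_iff, ← Nat.two_dvd_ne_zero]
    exact fun h => P.not_dvd_index (h.trans (Subgroup.index_dvd_of_le hPle))
  · intro hodd
    have hker : ∀ k ∈ H.normalCore, π k = π 1 := by
      intro k hk
      simp only [hπ, CfsgLib.Char.indFun_apply]
      congr 1
      refine Finset.sum_congr rfl fun x _ => ?_
      have h1 : x⁻¹ * k * x ∈ H := by simpa using hk x⁻¹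
      have h2 : x⁻¹ * 1 * x ∈ H := by simp
      rw [CfsgLib.Char.extendByZero_mem _ h1, CfsgLib.Char.extendByZero_mem _ h2]
    refine Nat.card_eq_one_iff_unique.2 ⟨⟨fun a b => ?_⟩,
      ⟨⟨CfsgLib.Block.trivIrr G, by rw [htriv]; exact one_ne_zero, hq, hν1⟩⟩⟩
    suffices h : ∀ χ : IrrCharacter G, classInner π (χ : G → ℂ) ≠ 0 →
        (∀ g : G, (starRingEnd ℂ) ((χ : G → ℂ) g) = (χ : G → ℂ) g) → χ = CfsgLib.Block.trivIrr G from
      Subtype.ext ((h a.1 a.2.1 a.2.2.1).trans (h b.1 b.2.1 b.2.2.1).symm)
    intro χ hm hreal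
    obtain ⟨η, hη⟩ := CfsgLib.Block.exists_inflate_of_ker (N := H.normalCore) (ψ := χ)
      (fun n hn => CfsgLib.Char.constituent_ker hπc χ.2 hm (hker n hn))
    have h1 := CfsgLib.Char.real_irr_odd (G := G ⧸ H.normalCore) hodd η (fun q => by
      induction q using QuotientGroup.induction_on with
      | _ g =>
        rw [CfsgLib.Char.eq_conj_of_im]
        have := hreal g
        rw [← hη, CfsgLib.Block.inflate_apply] at this
        exact this)
    refine Subtype.ext (funext fun g => ?_)
    rw [← hη, CfsgLib.Block.inflate_apply, h1]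
    rfl

end Cfsg.Agent.S4784
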