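import Cfsg.Statements.S4796
import Cfsg.Agent.Lib.BlockCodegree
-- import your own Cfsg.Agent.* helpers here

set_option autoImplicit false
open Cfsg
open scoped Pointwise

namespace Cfsg.Agent.S4796

/-- Let G be a finite group with a faithful irreducible complex character χ whose codegree #G / χ(1) is a prime p (for a faithful character the kernel is trivial, so the codegree is #G / χ(1)). Then either G is cyclic of order p, or G is a Frobenius group whose Frobenius kernel has order p: some proper non-trivial subgroup H satisfies H ∩ gHg⁻¹ = 1 for every element g outside H, and the set of elements lying in no conjugate of H, together with the identity, has exactly p elements. -/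
theorem result {G : Type*} [Group G] [Finite G] (χ : Cfsg.IrrCharacter G) (hfaith : ∀ g : G, (χ : G → ℂ) g = (χ : G → ℂ) 1 → g = 1) (p : ℕ) (hp : p.Prime) (hcod : Nat.card G = p * Cfsg.charDegree (χ : G → ℂ)) : (IsCyclic G ∧ Nat.card G = p) ∨ ∃ H : Subgroup G, Cfsg.IsFrobeniusComplement H ∧ Nat.card ↥(Cfsg.frobeniusKernel H) = p := by
  have : Fintype G := Fintype.ofFinite G
  haveI := Fact.mk hp
  obtain ⟨P, hPn, hP, hC⟩ := CfsgLib.Block.codeg_prime_structure χ hfaith hcod
  haveI := hPn
  by_cases hd : charDegree (χ : G → ℂ) = 1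
  · rw [hd, mul_one] at hcod
    exact Or.inl ⟨isCyclic_of_prime_card hcod, hcod⟩
  right
  have hidx : (P : Subgroup G).index = charDegree (χ : G → ℂ) := by
    have h := Subgroup.index_mul_card (P : Subgroup G)
    rw [hP, hcod, mul_comm p] at h
    exact Nat.eq_of_mul_eq_mul_right hp.pos h
  obtain ⟨H, hH⟩ := Subgroup.exists_right_complement'_of_coprime P.card_coprime_index
  have hdisj : ∀ x : G, x ∈ (P : Subgroup G) → x ∈ H → x = 1 := fun x hx hx' =>
    (Subgroup.disjoint_def.1 hH.disjoint) hx hx'
  have hHcard : Nat.card H = charDegree (χ : G → ℂ) := by rw [← hidx, hH.symm.index_eq_card]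
  have hHidx : H.index = p := by rw [hH.index_eq_card]; exact hP
  have hmemconj : ∀ (g x : G), x ∈ MulAut.conj g • H ↔ g⁻¹ * x * g ∈ H := by
    intro g x
    rw [Subgroup.mem_pointwise_smul_iff_inv_smul_mem]
    simp [MulAut.smul_def, mul_assoc]
  have hTI : ∀ g : G, g ∉ H → ∀ h ∈ H, g * h * g⁻¹ ∈ H → h = 1 := by
    intro g hg h hh hgh
    obtain ⟨⟨⟨u, hu⟩, ⟨k, hk⟩⟩, rfl, -⟩ := Subgroup.isComplement'_def.1 hH |>.existsUnique g
    simp only at hgh hg
    have hu1 : u ≠ 1 := fun h1 => hg (by rw [h1, one_mul]; exact hk)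
    have hh' : k * h * k⁻¹ ∈ H := mul_mem (mul_mem hk hh) (inv_mem hk)
    have hcu : u * (k * h * k⁻¹) * u⁻¹ * (k * h * k⁻¹)⁻¹ = 1 := by
      refine hdisj _ ?_ ?_
      · have h2 : (k * h * k⁻¹) * u⁻¹ * (k * h * k⁻¹)⁻¹ ∈ (P : Subgroup G) :=
          hPn.conj_mem _ (inv_mem hu) _
        simpa [mul_assoc] using mul_mem hu h2
      · refine mul_mem ?_ (inv_mem hh')
        rw [show u * (k * h * k⁻¹) * u⁻¹ = u * k * h * (u * k)⁻¹ by group]
        exact hgh
    rw [mul_inv_eq_one, mul_inv_eq_iff_eq_mul] at hcu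
    have hPz : Subgroup.zpowers u = (P : Subgroup G) := by
      refine Subgroup.eq_of_le_of_card_ge (Subgroup.zpowers_le.2 hu) (le_of_eq ?_)
      rw [hP, Nat.card_zpowers]
      rcases (Nat.dvd_prime hp).1 (hP ▸ Subgroup.orderOf_dvd_natCard _ hu) with h1 | h1
      · exact absurd (orderOf_eq_one_iff.1 h1) hu1
      · exact h1.symm
    have hmem : k * h * k⁻¹ ∈ Subgroup.centralizer ((P : Subgroup G) : Set G) := by
      rw [Subgroup.mem_centralizer_iff]
      intro w hw
      rw [← hPz] at hw
      obtain ⟨i, rfl⟩ := hw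
      exact ((show Commute u (k * h * k⁻¹) from hcu).zpow_left i).eq
    rw [hC] at hmem
    simpa using hdisj _ hmem hh'
  refine ⟨H, ⟨?_, ?_, ?_⟩, ?_⟩
  · intro h
    exact hd (by rw [← hHcard, h, Subgroup.card_bot])
  · intro h
    exact hp.one_lt.ne' (by rw [← hHidx, h, Subgroup.index_top])
  · intro g hg
    rw [eq_bot_iff]
    intro x hx
    obtain ⟨hx1, hx2⟩ := Subgroup.mem_inf.1 hx
    rw [hmemconj] at hx2
    have h1 := hTI g hg _ hx2 (by simpa [mul_assoc] using hx1)
    rw [Subgroup.mem_bot]
    have h3 := congrArg (fun y => g * y * g⁻¹) h1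
    simpa [mul_assoc] using h3
  · obtain ⟨K, -, -, -, hK, hKmem⟩ := CfsgLib.Char.exists_frobenius_kernel H hTI
    have heq : frobeniusKernel H = (K : Set G) := by
      ext x
      rw [SetLike.mem_coe, hKmem]
      constructor
      · rintro (rfl | hx) g hg
        · simp
        · exact absurd ((hmemconj g x).2 hg) (hx g)
      · intro hx
        by_cases hx1 : x = 1
        · exact Or.inl hx1
        · refine Or.inr fun g hg => hx1 ?_
          have h2 := congrArg (fun y => g * y * g⁻¹) (hx g ((hmemconj g x).1 hg))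
          simpa [mul_assoc] using h2
    rw [heq, SetLike.coe_sort_coe, hK, hHidx]

end Cfsg.Agent.S4796
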