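import Cfsg.Statements.S4797
import Cfsg.Agent.Lib.BlockCodegree
import Cfsg.Agent.Lib.BlockInflate
-- import your own Cfsg.Agent.* helpers here

set_option autoImplicit false
open Cfsg

namespace Cfsg.Agent.S4797

open scoped commutatorElement in
/-- The codegree of an irreducible complex character χ of a finite group G is [G : ker χ] / χ(1), where ker χ is the set of elements at which χ takes the value χ(1). A non-trivial finite group is perfect if and only if no irreducible complex character of it has prime codegree. -/
theorem result {G : Type*} [Group G] [Finite G] [Nontrivial G] : commutator G = ⊤ ↔ ∀ χ : Cfsg.IrrCharacter G, ¬ ((Nat.card G / (Nat.card {g : G // (χ : G → ℂ) g = (χ : G → ℂ) 1} * Cfsg.charDegree (χ : G → ℂ)))).Prime := by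
  have : Fintype G := Fintype.ofFinite G
  constructor
  · intro hperf χ hp
    have hp' : (CfsgLib.Block.codeg χ).Prime := hp
    haveI := Fact.mk hp'
    set K := CfsgLib.Char.charKer χ.2.isCharacter'
    obtain ⟨χ', -, hd, hfaith⟩ := CfsgLib.Block.exists_deflate_faithful χ
    have : Fintype (G ⧸ K) := Fintype.ofFinite _
    have hcard := (CfsgLib.Block.codeg_spec χ).1
    rw [← hd] at hcard
    obtain ⟨P, hPn, hP, hC⟩ := CfsgLib.Block.codeg_prime_structure χ' hfaith
      (p := CfsgLib.Block.codeg χ) hcard
    haveI := hPn
    have hle := CfsgLib.Block.commutator_le_selfcent P hP hC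
    have htop : commutator (G ⧸ K) = ⊤ := by
      have h := congrArg (Subgroup.map (QuotientGroup.mk' K)) hperf
      rw [commutator_def, Subgroup.map_commutator, ← MonoidHom.range_eq_map,
        MonoidHom.range_eq_top.2 (QuotientGroup.mk'_surjective K), ← commutator_def] at h
      exact h
    rw [htop, top_le_iff] at hle
    haveI : IsCyclic (G ⧸ K) := by
      have h1 : Nat.card (G ⧸ K) = CfsgLib.Block.codeg χ := by
        have h2 : Nat.card ↥(P : Subgroup (G ⧸ K)) = Nat.card (G ⧸ K) := by
          rw [hle, Subgroup.card_top]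
        rw [← h2]
        exact hP
      exact isCyclic_of_prime_card h1
    have hbot : commutator (G ⧸ K) = ⊥ := by
      rw [eq_bot_iff, commutator_def, Subgroup.commutator_le]
      intro a _ b _
      rw [Subgroup.mem_bot, commutatorElement_eq_one_iff_commute]
      exact Std.Commutative.comm a b
    rw [hbot] at htop
    have h1 : Nat.card (G ⧸ K) = 1 := by
      rw [← Subgroup.card_top, ← htop, Subgroup.card_bot]
    rw [h1] at hcard
    exact hp'.one_lt.ne' (Nat.eq_one_of_mul_eq_one_right hcard.symm)
  · intro hall
    by_contra hperf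
    obtain ⟨M, hM, hle⟩ := (eq_top_or_exists_le_coatom (commutator G)).resolve_left hperf
    haveI hMn : M.Normal := Subgroup.Normal.of_commutator_le G hle
    have hab : ∀ a b : G ⧸ M, a * b = b * a := by
      intro a b
      obtain ⟨x, rfl⟩ := QuotientGroup.mk_surjective a
      obtain ⟨y, rfl⟩ := QuotientGroup.mk_surjective b
      rw [← QuotientGroup.mk_mul, ← QuotientGroup.mk_mul, QuotientGroup.eq]
      refine hle ?_
      rw [show (x * y)⁻¹ * (y * x) = (⁅y⁻¹, x⁻¹⁆ : G) by simp [commutatorElement_def, mul_assoc]]
      exact Subgroup.commutator_mem_commutator (Subgroup.mem_top _) (Subgroup.mem_top _)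
    haveI : IsSimpleGroup (G ⧸ M) := by
      haveI : Nontrivial (G ⧸ M) := QuotientGroup.nontrivial_iff.2 hM.1
      refine ⟨fun H hH => ?_⟩
      have hcomap : M ≤ H.comap (QuotientGroup.mk' M) := fun m hm => by
        rw [Subgroup.mem_comap, QuotientGroup.mk'_apply, (QuotientGroup.eq_one_iff m).2 hm]
        exact one_mem _
      have hs := QuotientGroup.mk'_surjective M
      rcases hM.le_iff.1 hcomap with h | h
      · right
        rw [← Subgroup.map_comap_eq_self_of_surjective hs H, h,
          Subgroup.map_top_of_surjective _ hs]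
      · left
        rw [← Subgroup.map_comap_eq_self_of_surjective hs H, h, QuotientGroup.map_mk'_self]
    letI : CommGroup (G ⧸ M) := { (inferInstance : Group (G ⧸ M)) with mul_comm := hab }
    have hp : (Nat.card (G ⧸ M)).Prime := IsSimpleGroup.prime_card
    have : Fintype (G ⧸ M) := Fintype.ofFinite _
    obtain ⟨χ0, hne, -⟩ := CfsgLib.Block.exists_ne_triv_not_dvd (G := G ⧸ M) hp dvd_rfl
    set χ := CfsgLib.Block.inflate M χ0
    refine hall χ ?_
    have hd1 : (χ : G → ℂ) 1 = 1 := CfsgLib.Char.irr_degree_one_of_comm hab χ0.2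
    have hd : charDegree (χ : G → ℂ) = 1 := by
      have h := CfsgLib.Block.charDegree_cast χ.2.isCharacter'
      rw [hd1] at h
      exact_mod_cast h
    have hK : CfsgLib.Char.charKer χ.2.isCharacter' = M := by
      refine le_antisymm ?_ fun m hm => CfsgLib.Block.inflate_ker M χ0 hm
      by_contra hnle
      have htop : CfsgLib.Char.charKer χ.2.isCharacter' = ⊤ :=
        hM.2 _ (lt_of_le_of_ne (fun m hm => CfsgLib.Block.inflate_ker M χ0 hm)
          fun h => hnle h.ge)
      refine hne (Subtype.ext (funext fun q => ?_))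
      obtain ⟨g, rfl⟩ := QuotientGroup.mk_surjective q
      show (χ : G → ℂ) g = 1
      have hg : g ∈ CfsgLib.Char.charKer χ.2.isCharacter' := by rw [htop]; exact Subgroup.mem_top g
      rw [(CfsgLib.Char.mem_charKer.1 hg : (χ : G → ℂ) g = (χ : G → ℂ) 1), hd1]
    show Nat.Prime (Nat.card G / (_ * _))
    rw [CfsgLib.Block.card_kerSet, hd, hK, mul_one,
      Subgroup.card_eq_card_quotient_mul_card_subgroup M, Nat.mul_div_cancel _ Nat.card_pos]
    exact hp

end Cfsg.Agent.S4797
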