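import Cfsg.Statements.S4798
import Cfsg.Agent.Lib.BlockCodegree
-- import your own Cfsg.Agent.* helpers here

set_option autoImplicit false
open Cfsg

namespace Cfsg.Agent.S4798

/-- Let p be a prime and χ a faithful irreducible complex character of the finite group G (χ(g) = χ(1) only for g = 1), so that its codegree is #G / χ(1). Then #G / χ(1) is a power of p if and only if χ is induced from a character of a Sylow p-subgroup of G. -/
theorem result {G : Type*} [Group G] [Fintype G] (p : ℕ) [Fact p.Prime] (χ : Cfsg.IrrCharacter G) (hfaith : ∀ g : G, (χ : G → ℂ) g = (χ : G → ℂ) 1 → g = 1) : (∃ k : ℕ, Nat.card G = p ^ k * Cfsg.charDegree (χ : G → ℂ)) ↔ ∃ (P : Sylow p G) (θ : ↥(P : Subgroup G) → ℂ), Cfsg.IsCharacter ↥(P : Subgroup G) θ ∧ (χ : G → ℂ) = Cfsg.indFun (P : Subgroup G) θ := by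
  classical
  have hp : p.Prime := Fact.out
  have hχc := χ.2.isCharacter'
  have hG0 : Nat.card G ≠ 0 := Nat.card_pos.ne'
  -- a constituent of the restriction of small degree induces to χ
  have key : ∀ (P : Sylow p G) (ψ : IrrCharacter (P : Subgroup G)),
      classInner (fun h : (P : Subgroup G) => (χ : G → ℂ) h)
        (ψ : ↥(P : Subgroup G) → ℂ) ≠ 0 →
      (P : Subgroup G).index * charDegree (ψ : ↥(P : Subgroup G) → ℂ) ≤ charDegree (χ : G → ℂ) →
      (χ : G → ℂ) = indFun (P : Subgroup G) (ψ : ↥(P : Subgroup G) → ℂ) ∧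
      charDegree (χ : G → ℂ) =
        (P : Subgroup G).index * charDegree (ψ : ↥(P : Subgroup G) → ℂ) := by
    intro P ψ hne hle
    have hind := CfsgLib.Char.isCharacter_indFun (G := G) ψ.2.isCharacter'
    have hd : charDegree (indFun (P : Subgroup G) (ψ : ↥(P : Subgroup G) → ℂ)) =
        (P : Subgroup G).index * charDegree (ψ : ↥(P : Subgroup G) → ℂ) := by
      have h := CfsgLib.Block.charDegree_cast hind
      rw [CfsgLib.Char.indFun_one_apply, ← CfsgLib.Block.charDegree_cast ψ.2.isCharacter',
        ← Nat.cast_mul] at h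
      exact_mod_cast h
    have h := CfsgLib.Block.eq_of_inner_ne_zero_of_degree_le hind χ (by
      rw [CfsgLib.Char.frobenius _ _ (CfsgLib.Char.isCharacter_classFunction hχc),
        ← CfsgLib.Char.inner_conj_symm]
      exact fun h => hne ((map_eq_zero _).1 h)) (hd ▸ hle)
    refine ⟨h.symm, ?_⟩
    rw [← hd, h]
  constructor
  · rintro ⟨k, hk⟩
    obtain ⟨P⟩ := (inferInstance : Nonempty (Sylow p G))
    set a := (Nat.card G).factorization p with ha
    have hP : Nat.card (P : Subgroup G) = p ^ a := Sylow.card_eq_multiplicity P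
    have hka : k ≤ a :=
      (hp.pow_dvd_iff_le_factorization hG0).1 ⟨_, hk⟩
    have hdeg : charDegree (χ : G → ℂ) = (P : Subgroup G).index * p ^ (a - k) := by
      have h := Subgroup.index_mul_card (P : Subgroup G)
      rw [hP, hk, ← Nat.add_sub_cancel' hka, pow_add, mul_left_comm] at h
      exact (Nat.eq_of_mul_eq_mul_left (pow_pos hp.pos k) h).symm
    have hres := CfsgLib.Char.isCharacter_restrict hχc (P : Subgroup G)
    choose c hc using fun ψ : IrrCharacter (P : Subgroup G) =>
      CfsgLib.Char.inner_character_nat hres ψ.2.isCharacter'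
    have h1 := congrFun (CfsgLib.Char.classFunction_eq_sum _
      (CfsgLib.Char.isCharacter_classFunction hres)) 1
    simp only [Finset.sum_apply, Pi.smul_apply, smul_eq_mul, hc, Subgroup.coe_one,
      ← CfsgLib.Block.charDegree_cast hχc,
      ← CfsgLib.Block.charDegree_cast (IsIrrCharacter.isCharacter' (Subtype.prop _))] at h1
    have h2 : charDegree (χ : G → ℂ) =
        ∑ ψ, c ψ * charDegree (ψ : ↥(P : Subgroup G) → ℂ) := by exact_mod_cast h1
    obtain ⟨ψ, hψc, hψd⟩ : ∃ ψ : IrrCharacter (P : Subgroup G),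
        c ψ ≠ 0 ∧ charDegree (ψ : ↥(P : Subgroup G) → ℂ) ≤ p ^ (a - k) := by
      by_contra hcon
      push Not at hcon
      have hdv : p ^ (a - k + 1) ∣ charDegree (χ : G → ℂ) := by
        rw [h2]
        refine Finset.dvd_sum fun ψ _ => ?_
        by_cases h0 : c ψ = 0
        · rw [h0, zero_mul]; exact dvd_zero _
        · obtain ⟨j, -, hj⟩ := (Nat.dvd_prime_pow hp).1
            (hP ▸ CfsgLib.Block.charDegree_dvd_card ψ)
          have h3 := hcon ψ h0
          rw [hj] at h3 ⊢
          exact dvd_mul_of_dvd_right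
            (Nat.pow_dvd_pow p ((Nat.pow_lt_pow_iff_right hp.one_lt).1 h3)) _
      rw [hdeg, pow_succ', mul_comm p] at hdv
      rw [mul_comm (P : Subgroup G).index] at hdv
      exact P.not_dvd_index ((Nat.mul_dvd_mul_iff_left (pow_pos hp.pos _)).1 hdv)
    obtain ⟨h4, -⟩ := key P ψ (by rw [hc]; exact_mod_cast hψc)
      (by rw [hdeg]; exact Nat.mul_le_mul_left _ hψd)
    exact ⟨P, _, ψ.2.isCharacter', h4⟩
  · rintro ⟨P, θ, hθ, hχ⟩
    have hres := CfsgLib.Char.isCharacter_restrict hχc (P : Subgroup G)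
    choose c hc using fun ψ : IrrCharacter (P : Subgroup G) =>
      CfsgLib.Char.inner_character_nat hθ ψ.2.isCharacter'
    have hsum := CfsgLib.Char.classFunction_eq_sum θ (CfsgLib.Char.isCharacter_classFunction hθ)
    have hinner : classInner θ (fun h : (P : Subgroup G) => (χ : G → ℂ) h) = 1 := by
      rw [← CfsgLib.Char.frobenius _ _ (CfsgLib.Char.isCharacter_classFunction hχc), ← hχ]
      exact CfsgLib.Char.irr_inner_self χ.2
    have hdθ : charDegree (χ : G → ℂ) = (P : Subgroup G).index * charDegree θ := by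
      have h := congrFun hχ 1
      rw [CfsgLib.Char.indFun_one_apply, ← CfsgLib.Block.charDegree_cast hθ,
        ← CfsgLib.Block.charDegree_cast hχc, ← Nat.cast_mul] at h
      exact_mod_cast h
    obtain ⟨ψ, hψc, hψne⟩ : ∃ ψ : IrrCharacter (P : Subgroup G), c ψ ≠ 0 ∧
        classInner (fun h : (P : Subgroup G) => (χ : G → ℂ) h)
          (ψ : ↥(P : Subgroup G) → ℂ) ≠ 0 := by
      by_contra hcon
      push Not at hcon
      apply one_ne_zero (α := ℂ)
      rw [← hinner, hsum, CfsgLib.Char.inner_sum_left]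
      refine Finset.sum_eq_zero fun ψ _ => ?_
      rw [CfsgLib.Char.inner_smul_left, hc]
      by_cases h0 : c ψ = 0
      · simp [h0]
      · rw [← CfsgLib.Char.inner_conj_symm, hcon ψ h0, map_zero, mul_zero]
    have hle : charDegree (ψ : ↥(P : Subgroup G) → ℂ) ≤ charDegree θ := by
      have h1 := congrFun hsum 1
      simp only [Finset.sum_apply, Pi.smul_apply, smul_eq_mul, hc,
        ← CfsgLib.Block.charDegree_cast hθ,
        ← CfsgLib.Block.charDegree_cast (IsIrrCharacter.isCharacter' (Subtype.prop _))] at h1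
      have h2 : charDegree θ = ∑ η, c η * charDegree (η : ↥(P : Subgroup G) → ℂ) := by
        exact_mod_cast h1
      rw [h2]
      exact (Nat.le_mul_of_pos_left _ (Nat.pos_of_ne_zero hψc)).trans
        (Finset.single_le_sum (f := fun η => c η * charDegree (η : ↥(P : Subgroup G) → ℂ))
          (fun _ _ => Nat.zero_le _) (Finset.mem_univ ψ))
    obtain ⟨-, hd⟩ := key P ψ hψne (by rw [hdθ]; exact Nat.mul_le_mul_left _ hle)
    obtain ⟨j, hj, hj'⟩ := (Nat.dvd_prime_pow hp).1
      (Sylow.card_eq_multiplicity P ▸ CfsgLib.Block.charDegree_dvd_card ψ)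
    refine ⟨(Nat.card G).factorization p - j, ?_⟩
    conv_lhs => rw [← Subgroup.index_mul_card (P : Subgroup G)]
    rw [hd, hj', show Nat.card (P : Subgroup G) = p ^ (Nat.card G).factorization p from
      Sylow.card_eq_multiplicity P, mul_left_comm, ← pow_add, Nat.sub_add_cancel hj]

end Cfsg.Agent.S4798
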