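import Cfsg.Statements.S4801
import Cfsg.Agent.Lib.BlockCodegree
-- import your own Cfsg.Agent.* helpers here

set_option autoImplicit false
open Cfsg

namespace Cfsg.Agent.S4801

/-- The codegree of an irreducible complex character χ of a finite group G is [G : ker χ] / χ(1), where ker χ is the set of elements at which χ takes the value χ(1). Let S be a finite simple group and G a finite group such that every codegree of an irreducible character of S is a codegree of an irreducible character of G. Then the order of S divides the order of G. -/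
theorem result {S : Type*} [Group S] [Finite S] (hS : IsSimpleGroup S) {G : Type*} [Group G] [Finite G] (hsub : ∀ χ : Cfsg.IrrCharacter S, ∃ ψ : Cfsg.IrrCharacter G, (Nat.card S / (Nat.card {g : S // (χ : S → ℂ) g = (χ : S → ℂ) 1} * Cfsg.charDegree (χ : S → ℂ))) = (Nat.card G / (Nat.card {g : G // (ψ : G → ℂ) g = (ψ : G → ℂ) 1} * Cfsg.charDegree (ψ : G → ℂ)))) : Nat.card S ∣ Nat.card G := by
  have : Fintype S := Fintype.ofFinite S
  have : Fintype G := Fintype.ofFinite G
  haveI := hS
  have hS0 : Nat.card S ≠ 0 := Nat.card_pos.ne'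
  refine (Nat.factorization_le_iff_dvd hS0 Nat.card_pos.ne').1 fun p => ?_
  by_cases hp : p.Prime
  swap
  · rw [Nat.factorization_eq_zero_of_not_prime _ hp]
    exact Nat.zero_le _
  by_cases hpS : p ∣ Nat.card S
  swap
  · rw [Nat.factorization_eq_zero_of_not_dvd hpS]
    exact Nat.zero_le _
  obtain ⟨χ, hne, hpd⟩ := CfsgLib.Block.exists_ne_triv_not_dvd hp hpS
  obtain ⟨ψ, hψ⟩ := hsub χ
  -- the kernel is trivial
  have hK : CfsgLib.Char.charKer χ.2.isCharacter' = ⊥ := by
    refine (Subgroup.Normal.eq_bot_or_eq_top inferInstance).resolve_right fun htop => hne ?_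
    refine Subtype.ext (funext fun g => ?_)
    have hg : (χ : S → ℂ) g = (χ : S → ℂ) 1 :=
      CfsgLib.Char.mem_charKer.1 (htop ▸ Subgroup.mem_top g)
    rw [hg]
    show _ = (1 : ℂ)
    have hd : charDegree (χ : S → ℂ) = 1 := by
      have h1 : ∀ x, (χ : S → ℂ) x = (χ : S → ℂ) 1 := fun x =>
        CfsgLib.Char.mem_charKer.1 (htop ▸ Subgroup.mem_top x)
      have h := CfsgLib.Char.irr_inner_self χ.2
      simp only [classInner, h1, CfsgLib.Block.irr_conj_one, Finset.sum_const, Finset.card_univ,
        nsmul_eq_mul, ← Nat.card_eq_fintype_card] at h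
      rw [inv_mul_cancel_left₀ (CfsgLib.Char.natCard_ne_zero S),
        ← CfsgLib.Block.charDegree_cast χ.2.isCharacter', ← Nat.cast_mul, Nat.cast_eq_one] at h
      exact Nat.eq_one_of_mul_eq_one_right h
    rw [← CfsgLib.Block.charDegree_cast χ.2.isCharacter', hd, Nat.cast_one]
  have h1 := (CfsgLib.Block.codeg_spec χ).1
  rw [hK, Nat.card_congr (QuotientGroup.quotientBot (G := S)).toEquiv] at h1
  have h2 : CfsgLib.Block.codeg χ ∣ Nat.card G := by
    show _ / _ ∣ _
    rw [hψ]
    exact CfsgLib.Block.codeg_dvd_card ψ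
  have hc0 : CfsgLib.Block.codeg χ ≠ 0 := fun h => hS0 (by rw [h1, h, zero_mul])
  refine le_trans (le_of_eq ?_) (((Nat.factorization_le_iff_dvd hc0 Nat.card_pos.ne').2 h2) p)
  rw [h1, Nat.factorization_mul hc0 (CfsgLib.Block.charDegree_pos χ).ne', Finsupp.add_apply,
    Nat.factorization_eq_zero_of_not_dvd hpd, add_zero]

end Cfsg.Agent.S4801
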