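import Cfsg.Statements.S4802
import Cfsg.Agent.Lib.BlockShortFacts
-- import your own Cfsg.Agent.* helpers here

set_option autoImplicit false
open Cfsg

namespace Cfsg.Agent.S4802

/-- Let N < M be normal subgroups of the finite group G and g ∈ M ∖ N. Then the conjugacy class of g is exactly M ∖ N if and only if every irreducible complex character of G whose kernel contains N takes the same value at all elements of M ∖ N, and every irreducible complex character of G whose kernel does not contain N vanishes at g. -/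
theorem result {G : Type*} [Group G] [Finite G] (N M : Subgroup G) [N.Normal] [M.Normal] (hNM : N < M) (g : G) (hgM : g ∈ M) (hgN : g ∉ N) : {h : G | IsConj g h} = (M : Set G) \ (N : Set G) ↔ ((∀ χ : Cfsg.IrrCharacter G, (∀ x ∈ N, (χ : G → ℂ) x = (χ : G → ℂ) 1) → ∀ x ∈ M, x ∉ N → ∀ y ∈ M, y ∉ N → (χ : G → ℂ) x = (χ : G → ℂ) y) ∧ (∀ χ : Cfsg.IrrCharacter G, (∃ x ∈ N, (χ : G → ℂ) x ≠ (χ : G → ℂ) 1) → (χ : G → ℂ) g = 0)) := by
  classical
  have : Fintype G := Fintype.ofFinite G
  constructor
  · intro hset
    have hconj : ∀ x ∈ M, x ∉ N → IsConj g x := fun x hx hxN =>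
      show x ∈ {h : G | IsConj g h} by rw [hset]; exact ⟨hx, hxN⟩
    refine ⟨fun χ _ x hx hxN y hy hyN => ?_, fun χ hker => ?_⟩
    · exact (CfsgLib.Char.isConj_iff_irr_eq x y).1 ((hconj x hx hxN).symm.trans (hconj y hy hyN)) χ
    · obtain ⟨n, hn, hne⟩ := hker
      obtain ⟨d, ρ, hρi, hρ⟩ := χ.2
      haveI := hρi
      set A : Module.End ℂ (Fin d → ℂ) := ∑ a : N, ρ (a : G)
      have hA : ∀ x : G, A * ρ x = ρ x * A := by
        intro x
        simp only [A, Finset.sum_mul, Finset.mul_sum, ← map_mul]
        refine Fintype.sum_equiv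
          (MulAut.conjNormal x⁻¹ : N ≃* N).toEquiv _ _ fun a => ?_
        rw [MulEquiv.toEquiv_eq_coe, EquivLike.coe_coe, MulAut.conjNormal_apply]
        simp [mul_assoc]
      obtain ⟨s, hs⟩ := CfsgLib.Char.schur_scalar (ρ := ρ) A hA
      have hs0 : s = 0 := by
        by_contra hs0
        apply hne
        have h1 : ρ n * A = A := by
          simp only [A, Finset.mul_sum, ← map_mul]
          exact Fintype.sum_equiv (Equiv.mulLeft (⟨n, hn⟩ : N)) _ _ fun a => by simp
        rw [hs, mul_smul_comm, mul_one] at h1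
        rw [← hρ]
        show LinearMap.trace ℂ _ (ρ n) = LinearMap.trace ℂ _ (ρ 1)
        rw [map_one, smul_right_injective _ hs0 h1]
      have h2 : LinearMap.trace ℂ _ (ρ g * A) = (Nat.card N : ℂ) * (χ : G → ℂ) g := by
        simp only [A, Finset.mul_sum, map_sum, ← map_mul]
        rw [Finset.sum_congr rfl fun a _ => (?_ : _ = (χ : G → ℂ) g), Finset.sum_const,
          Finset.card_univ, nsmul_eq_mul, ← Nat.card_eq_fintype_card]
        show ρ.character (g * (a : G)) = _
        rw [hρ]
        refine ((CfsgLib.Char.isConj_iff_irr_eq g (g * a)).1 (hconj _ ?_ ?_) χ).symm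
        · exact mul_mem hgM (hNM.le a.2)
        · exact fun h => hgN ((Subgroup.mul_mem_cancel_right N a.2).1 h)
      rw [hs, hs0, zero_smul, mul_zero, map_zero] at h2
      exact (mul_eq_zero.1 h2.symm).resolve_left (CfsgLib.Char.natCard_ne_zero N)
  · rintro ⟨hconst, hvan⟩
    ext y
    constructor
    · rintro (hy : IsConj g y)
      obtain ⟨c, rfl⟩ := isConj_iff.1 hy
      refine ⟨Subgroup.Normal.conj_mem inferInstance _ hgM c, fun h => hgN ?_⟩
      have h1 := Subgroup.Normal.conj_mem (inferInstanceAs N.Normal) _ h c⁻¹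
      simpa [mul_assoc] using h1
    · rintro ⟨hy, hyN⟩
      show IsConj g y
      by_contra hc
      have h0 := CfsgLib.Char.column_orth_not_conj hc
      refine CfsgLib.Char.natCard_ne_zero (Subgroup.centralizer ({g} : Set G)) ?_
      rw [← CfsgLib.Char.column_orth_conj (IsConj.refl g), ← h0]
      refine Finset.sum_congr rfl fun χ _ => ?_
      by_cases hN : ∀ x ∈ N, (χ : G → ℂ) x = (χ : G → ℂ) 1
      · rw [hconst χ hN g hgM hgN y hy hyN]
      · push Not at hN
        rw [hvan χ hN, zero_mul, zero_mul]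

end Cfsg.Agent.S4802
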