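import Cfsg.Statements.S4814
import Cfsg.Agent.Lib.BlockShortFacts
-- import your own Cfsg.Agent.* helpers here

set_option autoImplicit false
open Cfsg

namespace Cfsg.Agent.S4814

/-- Let G be a finite group such that the sum, over the irreducible complex characters χ of G, of 1/χ(1)² is less than 2. Then every element of G is a product of two commutators. -/
theorem result {G : Type*} [Group G] [Finite G]
    (h : ∑ᶠ χ : Cfsg.IrrCharacter G, 1 / ‖(χ : G → ℂ) 1‖ ^ 2 < (2 : ℝ)) (g : G) :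
    ∃ a b c d : G, (a * b * a⁻¹ * b⁻¹) * (c * d * c⁻¹ * d⁻¹) = g := by
  classical
  have : Fintype G := Fintype.ofFinite G
  by_contra hcon
  push Not at hcon
  set n : ℂ := (Nat.card G : ℂ) with hn
  have hcount := CfsgLib.Char.count_eq_sum
    (fun q : (G × G) × (G × G) =>
      (q.1.1 * q.1.2 * q.1.1⁻¹ * q.1.2⁻¹) * (q.2.1 * q.2.2 * q.2.1⁻¹ * q.2.2⁻¹))
    (fun c x => by
      refine Nat.card_congr (Equiv.subtypeEquiv (Equiv.prodCongr
        (Equiv.prodCongr (MulAut.conj x⁻¹).toEquiv (MulAut.conj x⁻¹).toEquiv)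
        (Equiv.prodCongr (MulAut.conj x⁻¹).toEquiv (MulAut.conj x⁻¹).toEquiv)) fun q => ?_)
      obtain ⟨⟨a, b⟩, ⟨e, f⟩⟩ := q
      simp only [Equiv.prodCongr_apply, Prod.map_apply, MulEquiv.toEquiv_eq_coe, EquivLike.coe_coe,
        MulAut.conj_apply]
      constructor
      · intro h
        rw [show c = x⁻¹ * (a * b * a⁻¹ * b⁻¹ * (e * f * e⁻¹ * f⁻¹)) * x by rw [h]; group]
        group
      · intro h
        rw [← h]
        group) g
  have he : IsEmpty {q : (G × G) × (G × G) //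
      (q.1.1 * q.1.2 * q.1.1⁻¹ * q.1.2⁻¹) * (q.2.1 * q.2.2 * q.2.1⁻¹ * q.2.2⁻¹) = g} :=
    ⟨fun q => hcon _ _ _ _ q.2⟩
  rw [Nat.card_of_isEmpty, Nat.cast_zero] at hcount
  simp only [CfsgLib.Block.sum_two_commutators, map_div₀, map_pow, Complex.conj_natCast,
    CfsgLib.Block.irr_conj_one] at hcount
  have hn0 : n ≠ 0 := CfsgLib.Char.natCard_ne_zero G
  have hz : (0 : ℂ) = ∑ χ : IrrCharacter G, (χ : G → ℂ) g / (χ : G → ℂ) 1 ^ 3 := by
    refine mul_left_cancel₀ (pow_ne_zero 3 hn0) ?_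
    rw [mul_zero, hcount, Finset.mul_sum]
    refine Finset.sum_congr rfl fun χ _ => ?_
    have := CfsgLib.Block.irr_one_ne_zero χ
    field_simp
    simp only [n]
    ring
  rw [finsum_eq_sum_of_fintype] at h
  set τ := CfsgLib.Block.trivIrr G
  rw [← Finset.add_sum_erase _ _ (Finset.mem_univ τ)] at h hz
  have hτ : ∀ x : G, (τ : G → ℂ) x = 1 := fun x => rfl
  rw [hτ, norm_one, one_pow, div_one] at h
  rw [hτ, hτ, one_pow, div_one] at hz
  have hb : ‖∑ χ ∈ Finset.univ.erase τ, (χ : G → ℂ) g / (χ : G → ℂ) 1 ^ 3‖ < 1 := by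
    refine lt_of_le_of_lt ((norm_sum_le _ _).trans (Finset.sum_le_sum fun χ _ => ?_))
      (show ∑ χ ∈ Finset.univ.erase τ, 1 / ‖(χ : G → ℂ) 1‖ ^ 2 < 1 by linarith)
    have hd : 0 < ‖(χ : G → ℂ) 1‖ := norm_pos_iff.2 (CfsgLib.Block.irr_one_ne_zero χ)
    have hle : ‖(χ : G → ℂ) g‖ ≤ ‖(χ : G → ℂ) 1‖ := by
      obtain ⟨d, ρ, -, hρ⟩ := χ.2
      rw [← hρ, Representation.char_one, Complex.norm_natCast]
      exact CfsgLib.Char.norm_rep_char_le ρ g
    rw [norm_div, norm_pow, div_le_div_iff₀ (pow_pos hd 3) (pow_pos hd 2)]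
    nlinarith [pow_pos hd 2]
  rw [show ∑ χ ∈ Finset.univ.erase τ, (χ : G → ℂ) g / (χ : G → ℂ) 1 ^ 3 = -1 by
    linear_combination -hz, norm_neg, norm_one] at hb
  exact lt_irrefl _ hb

end Cfsg.Agent.S4814
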