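import Cfsg.Statements.S4825
import Cfsg.Agent.Lib.BlockSection
import Cfsg.Agent.Lib.BlockShortFacts
import Cfsg.Agent.Lib.BlockPPart
import Cfsg.Agent.Lib.CharNormal
import Cfsg.Agent.Lib.BlockRegular

set_option autoImplicit false
set_option maxHeartbeats 600000
open Cfsg CfsgLib.Block CfsgLib.Char

namespace Cfsg.Agent.S4825

theorem sq_two : ∀ a : ZMod 2, a ≠ 0 → a * a = 1 := by decide

theorem sq_three : ∀ a : ZMod 3, a ≠ 0 → a * a = 1 := by decide

/-- Let p be a prime, G a finite group with Sylow p-subgroup P, M a maximal ideal of the algebraic integers containing p, and B a p-block of G with defect group P. Let N be a normal subgroup of G not containing P and θ an irreducible character of N. Then the number of irreducible characters in B of degree prime to p lying over θ (having θ as a constituent on restriction to N) is either 0 or at least 2, and when p ≤ 3 it is divisible by p. -/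
theorem result {G : Type*} [Group G] [Fintype G] (p : ℕ) [Fact p.Prime] (P : Sylow p G) (M : Ideal Cfsg.AlgInt) (hM : Cfsg.IsPModular p M) (B : Set (Cfsg.IrrCharacter G)) (hB : Cfsg.IsPBlock M B) (hBP : Cfsg.IsDefectGroup p M B P) (N : Subgroup G) [N.Normal] [Fintype N] (hPN : ¬ (P : Subgroup G) ≤ N) (θ : Cfsg.IrrCharacter N) :
    (Nat.card {χ : Cfsg.IrrCharacter G // χ ∈ B ∧ ¬ p ∣ Cfsg.charDegree (χ : G → ℂ) ∧ Cfsg.classInner (fun n : N => (χ : G → ℂ) n) (θ : N → ℂ) ≠ 0} = 0 ∨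
      2 ≤ Nat.card {χ : Cfsg.IrrCharacter G // χ ∈ B ∧ ¬ p ∣ Cfsg.charDegree (χ : G → ℂ) ∧ Cfsg.classInner (fun n : N => (χ : G → ℂ) n) (θ : N → ℂ) ≠ 0}) ∧
    (p ≤ 3 → p ∣ Nat.card {χ : Cfsg.IrrCharacter G // χ ∈ B ∧ ¬ p ∣ Cfsg.charDegree (χ : G → ℂ) ∧ Cfsg.classInner (fun n : N => (χ : G → ℂ) n) (θ : N → ℂ) ≠ 0}) := by
  classical
  have hp := (Fact.out : p.Prime)
  obtain ⟨x, hxP, hxN⟩ := SetLike.not_le_iff_exists.1 hPN
  have hxp : ∃ k, orderOf x = p ^ k := by
    obtain ⟨k, hk⟩ := IsPGroup.iff_orderOf.1 P.2 ⟨x, hxP⟩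
    exact ⟨k, by rw [← hk, Subgroup.orderOf_mk]⟩
  choose m hm using fun χ : Cfsg.IrrCharacter G =>
    inner_character_nat (isCharacter_restrict χ.2.isCharacter' N) θ.2.isCharacter'
  -- the block part of the induced character vanishes at x
  have hzero : ∑ χ : Cfsg.IrrCharacter G, indVal B χ * (m χ : ℂ) * (χ : G → ℂ) x = 0 := by
    have hn : ∀ n : N, ∑ χ : Cfsg.IrrCharacter G, indVal B χ * (χ : G → ℂ) x * (χ : G → ℂ) n = 0 := by
      intro n
      obtain ⟨u, hu⟩ := exists_isPPart (G := G) (p := p) hp ((n : G)⁻¹)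
      obtain ⟨w, huw, hcomm, hup, hwr⟩ := hu
      have humem : u ∈ N := by
        have h1 : u ∈ Subgroup.zpowers ((n : G)⁻¹) :=
          isPPart_mem_zpowers (p := p) hp ⟨w, huw, hcomm, hup, hwr⟩
        exact (Subgroup.zpowers_le.2 (N.inv_mem n.2)) h1
      have hne : ¬ IsConj u x := fun h => by
        obtain ⟨c, hc⟩ := isConj_iff.1 h
        exact hxN (hc ▸ Subgroup.Normal.conj_mem inferInstance u humem c)
      have h := block_sum_eq_zero hB hxp hup (show ¬ p ∣ orderOf (1 : G) by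
        rw [orderOf_one, Nat.dvd_one]; exact hp.ne_one) hwr (Commute.one_right x) hcomm hne hM
      rw [huw, mul_one] at h
      rw [← h]
      exact Finset.sum_congr rfl fun χ _ => by
        rw [isCharacter_inv_eq_conj χ.2.isCharacter', Complex.conj_conj]
    calc ∑ χ : Cfsg.IrrCharacter G, indVal B χ * (m χ : ℂ) * (χ : G → ℂ) x
        = (Nat.card N : ℂ)⁻¹ * ∑ n : N, (starRingEnd ℂ) ((θ : N → ℂ) n)
            * ∑ χ : Cfsg.IrrCharacter G, indVal B χ * (χ : G → ℂ) x * (χ : G → ℂ) n := by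
          simp only [← hm, Cfsg.classInner, Finset.mul_sum, Finset.sum_mul]
          rw [Finset.sum_comm]
          exact Finset.sum_congr rfl fun n _ => Finset.sum_congr rfl fun χ _ => by ring
      _ = 0 := by simp [hn]
  have hmnat : ∑ χ ∈ Finset.univ.filter (fun χ : Cfsg.IrrCharacter G => χ ∈ B),
      ((m χ * Cfsg.charDegree (χ : G → ℂ) : ℕ) : ZMod p) = 0 := by
    rw [← Nat.cast_sum, ZMod.natCast_eq_zero_iff, ← res_natCast_eq_zero_iff hM]
    obtain ⟨z, hz⟩ : ∃ z : locRing hM, z = ∑ χ ∈ Finset.univ.filter (fun χ : Cfsg.IrrCharacter G => χ ∈ B),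
        (m χ : locRing hM) * ⟨(χ : G → ℂ) x, irr_mem hM χ x⟩ := ⟨_, rfl⟩
    have hz0 : z = 0 := by
      apply Subtype.ext
      rw [hz]
      push_cast
      rw [← hzero, Finset.sum_filter]
      exact Finset.sum_congr rfl fun χ _ => by
        by_cases h : χ ∈ B <;> simp [indVal, h]
    have hzr : res hM z = res hM ((∑ χ ∈ Finset.univ.filter (fun χ : Cfsg.IrrCharacter G => χ ∈ B),
        m χ * Cfsg.charDegree (χ : G → ℂ) : ℕ) : locRing hM) := by
      rw [hz]
      push_cast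
      simp only [map_sum, map_mul, res_apply_pElement hM _ hxp]
      refine Finset.sum_congr rfl fun χ _ => congrArg (fun t => res hM (m χ) * res hM t) (Subtype.ext ?_)
      push_cast
      rw [charDegree_cast χ.2.isCharacter']
    rw [← hzr, hz0, map_zero]
  obtain ⟨S, hS⟩ : ∃ S : Finset (Cfsg.IrrCharacter G), S = Finset.univ.filter (fun χ : Cfsg.IrrCharacter G =>
      χ ∈ B ∧ ¬ p ∣ Cfsg.charDegree (χ : G → ℂ) ∧
        Cfsg.classInner (fun n : N => (χ : G → ℂ) n) (θ : N → ℂ) ≠ 0) := ⟨_, rfl⟩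
  have hcard : Nat.card {χ : Cfsg.IrrCharacter G // χ ∈ B ∧ ¬ p ∣ Cfsg.charDegree (χ : G → ℂ) ∧
      Cfsg.classInner (fun n : N => (χ : G → ℂ) n) (θ : N → ℂ) ≠ 0} = S.card := by
    rw [hS, Nat.card_eq_fintype_card, Fintype.card_subtype]
  have hsumS : ∑ χ ∈ S, ((m χ * Cfsg.charDegree (χ : G → ℂ) : ℕ) : ZMod p) = 0 := by
    rw [← hmnat, hS]
    refine Finset.sum_subset (fun χ hχ => Finset.mem_filter.2 ⟨Finset.mem_univ _,
      (Finset.mem_filter.1 hχ).2.1⟩) fun χ hχ hnot => ?_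
    have hχB := (Finset.mem_filter.1 hχ).2
    rw [ZMod.natCast_eq_zero_iff]
    by_cases h0 : m χ = 0
    · rw [h0, zero_mul]; exact dvd_zero p
    · refine Dvd.dvd.mul_left ?_ _
      by_contra hd
      exact hnot (Finset.mem_filter.2 ⟨Finset.mem_univ _, hχB, hd, by
        rw [hm χ]; exact Nat.cast_ne_zero.2 h0⟩)
  obtain ⟨t, ht⟩ : ∃ t : ℕ, t = (inertia (θ : N → ℂ)).index * Cfsg.charDegree (θ : N → ℂ) := ⟨_, rfl⟩
  have hdeg : ∀ χ ∈ S, Cfsg.charDegree (χ : G → ℂ) = m χ * t ∧ ¬ p ∣ m χ * t := by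
    intro χ hχ
    rw [hS, Finset.mem_filter] at hχ
    have h := clifford_degree χ.2 θ.2 hχ.2.2.2
    rw [hm χ, ← charDegree_cast θ.2.isCharacter', ← charDegree_cast χ.2.isCharacter'] at h
    have h' : Cfsg.charDegree (χ : G → ℂ) = m χ * t := by
      rw [ht, ← mul_assoc]; exact_mod_cast h
    exact ⟨h', h' ▸ hχ.2.2.1⟩
  rw [hcard]
  refine ⟨?_, fun hp3 => ?_⟩
  · by_contra h
    rw [not_or, not_le] at h
    have h1 : S.card = 1 := by omega
    obtain ⟨χ, hχ⟩ := Finset.card_eq_one.1 h1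
    have hd := hdeg χ (hχ ▸ Finset.mem_singleton_self χ)
    rw [hχ, Finset.sum_singleton, hd.1, ZMod.natCast_eq_zero_iff] at hsumS
    rcases hp.dvd_mul.1 hsumS with h' | h'
    · exact hd.2 (h'.mul_right t)
    · exact hd.2 h'
  · rcases S.eq_empty_or_nonempty with h0 | ⟨χ₀, hχ₀⟩
    · rw [h0, Finset.card_empty]; exact dvd_zero p
    have hterm : ∀ χ ∈ S, ((m χ * Cfsg.charDegree (χ : G → ℂ) : ℕ) : ZMod p) = (t : ZMod p) := by
      intro χ hχ
      obtain ⟨h1, h2⟩ := hdeg χ hχ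
      have hm0 : (m χ : ZMod p) ≠ 0 := fun h => h2 (((ZMod.natCast_eq_zero_iff _ _).1 h).mul_right t)
      have hsq : (m χ : ZMod p) * (m χ : ZMod p) = 1 := by
        have h2p := hp.two_le
        interval_cases p
        · exact sq_two _ hm0
        · exact sq_three _ hm0
      rw [h1, Nat.cast_mul, Nat.cast_mul, ← mul_assoc, hsq, one_mul]
    rw [Finset.sum_congr rfl hterm, Finset.sum_const, nsmul_eq_mul] at hsumS
    have ht0 : (t : ZMod p) ≠ 0 := fun h => (hdeg χ₀ hχ₀).2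
      (((ZMod.natCast_eq_zero_iff _ _).1 h).mul_left (m χ₀))
    exact (ZMod.natCast_eq_zero_iff _ _).1 ((mul_eq_zero.1 hsumS).resolve_right ht0)

end Cfsg.Agent.S4825
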