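import Cfsg.Statements.S4835
import Cfsg.Agent.Lib.BlockTwoClass

set_option autoImplicit false
open Cfsg

namespace Cfsg.Agent.S4835

/-- Let G be a finite group of order greater than 2 with an irreducible character χ that is nonzero on exactly two conjugacy classes. Then G has a unique minimal normal subgroup N; N is an elementary abelian p-group for some prime p; χ is nonzero exactly at the elements of N; and any two nonidentity elements of N are conjugate in G. -/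
theorem result {G : Type*} [Group G] [Finite G] (hG : 2 < Nat.card G) (χ : Cfsg.IrrCharacter G) (hχ : Nat.card {C : ConjClasses G // ∃ g ∈ C.carrier, (χ : G → ℂ) g ≠ 0} = 2) :
    ∃ N : Subgroup G, N.Normal ∧ N ≠ ⊥ ∧ (∀ K : Subgroup G, K.Normal → K ≠ ⊥ → N ≤ K) ∧
      (∃ p : ℕ, p.Prime ∧ Cfsg.IsElementaryAbelian p N) ∧
      (∀ g : G, (χ : G → ℂ) g ≠ 0 ↔ g ∈ N) ∧
      (∀ x ∈ N, ∀ y ∈ N, x ≠ 1 → y ≠ 1 → ∃ g : G, g * x * g⁻¹ = y) := by
  obtain ⟨N, hn, hne, hiff, hker, hconj, hf⟩ := CfsgLib.Block.two_class_structure hG χ hχ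
  have hle : ∀ K : Subgroup G, K.Normal → K ≠ ⊥ → N ≤ K :=
    fun K hK hK1 => CfsgLib.Block.two_class_le hker hf K hK hK1
  refine ⟨N, hn, hne, hle, ?_, hiff, fun x hx y hy hx1 hy1 => isConj_iff.1 (hconj x hx y hy hx1 hy1)⟩
  have hnt : Nontrivial N := (Subgroup.nontrivial_iff_ne_bot N).2 hne
  obtain ⟨p, hp, hpd⟩ := Nat.exists_prime_and_dvd (n := Nat.card N) Finite.one_lt_card.ne'
  have := Fact.mk hp
  obtain ⟨a, ha⟩ := exists_prime_orderOf_dvd_card' p hpd
  have ha1 : a ≠ 1 := fun h => hp.one_lt.ne' (by rw [← ha, h, orderOf_one])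
  have hord : ∀ b ∈ N, b ≠ 1 → b ^ p = 1 := by
    intro b hb hb1
    obtain ⟨c, hc⟩ := isConj_iff.1 (hconj (a : G) a.2 b hb (by simpa using ha1) hb1)
    have hap : (a : G) ^ p = 1 := by
      rw [← orderOf_dvd_iff_pow_eq_one, Subgroup.orderOf_coe, ha]
    rw [← hc, conj_pow, hap]
    simp
  have hall : ∀ b ∈ N, b ^ p = 1 := fun b hb => by
    by_cases h : b = 1
    · rw [h, one_pow]
    · exact hord b hb h
  have hP : IsPGroup p N := fun b => ⟨1, by rw [pow_one]; exact Subtype.ext (hall b b.2)⟩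
  have hZ : Nontrivial (Subgroup.center N) := hP.center_nontrivial
  obtain ⟨z, hz1⟩ := exists_ne (1 : Subgroup.center N)
  have hcen : ∀ u ∈ N, ∀ v ∈ N, u * v = v * u := by
    intro u hu v hv
    by_cases h : u = 1
    · simp [h]
    have hzN : ((z : N) : G) ≠ 1 := fun e => hz1 (Subtype.ext (Subtype.ext e))
    obtain ⟨c, hc⟩ := isConj_iff.1 (hconj _ (z : N).2 u hu hzN h)
    have hv' : c⁻¹ * v * c ∈ N := by simpa using hn.conj_mem v hv c⁻¹
    have hz : (c⁻¹ * v * c) * ((z : N) : G) = ((z : N) : G) * (c⁻¹ * v * c) :=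
      congrArg Subtype.val (Subgroup.mem_center_iff.1 z.2 ⟨_, hv'⟩)
    rw [← hc]
    calc c * ((z : N) : G) * c⁻¹ * v = c * (((z : N) : G) * (c⁻¹ * v * c)) * c⁻¹ := by group
      _ = c * ((c⁻¹ * v * c) * ((z : N) : G)) * c⁻¹ := by rw [hz]
      _ = v * (c * ((z : N) : G) * c⁻¹) := by group
  exact ⟨p, hp, ⟨⟨fun u v => Subtype.ext (hcen u u.2 v v.2)⟩⟩, hall⟩

end Cfsg.Agent.S4835
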