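import Cfsg.Statements.S4843
import Cfsg.Agent.Lib.CoreFitting
import Cfsg.Agent.Lib.CharGalois
import Cfsg.Agent.Lib.BlockRegular

set_option autoImplicit false
set_option maxHeartbeats 400000
open Cfsg CfsgLib.Block CfsgLib.Char
open scoped commutatorElement IsMulCommutative

namespace Cfsg.Agent.S4843

/-- Let G be a finite group with a faithful irreducible character χ (taking the value χ(1) only at the identity) and let k be prime to the order of G, so that g ↦ χ(g^k) is a Galois conjugate of χ. If the pointwise product g ↦ χ(g)·χ(g^k) is again an irreducible character, then the Fitting subgroup of G equals its centre. -/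
theorem result {G : Type*} [Group G] [Finite G] (χ : Cfsg.IrrCharacter G) (hfaith : ∀ g : G, (χ : G → ℂ) g = (χ : G → ℂ) 1 → g = 1) (k : ℕ) (hk : Nat.Coprime k (Nat.card G)) (hirr : Cfsg.IsIrrCharacter G (fun g => (χ : G → ℂ) g * (χ : G → ℂ) (g ^ k))) : Cfsg.fittingSubgroup G = Subgroup.center G := by
  classical
  haveI : Fintype G := Fintype.ofFinite G
  obtain ⟨n, ρ, hρ, hρc⟩ := χ.2
  haveI := hρ
  obtain ⟨n', σ, -, hσc⟩ := powTwist_irr hk χ.2
  obtain ⟨τ, hτ⟩ : ∃ τ, τ = Representation.tprod ρ σ := ⟨_, rfl⟩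
  have hτc : τ.character = fun g => (χ : G → ℂ) g * (χ : G → ℂ) (g ^ k) := by
    rw [hτ, Representation.char_tensor, hρc, hσc]; rfl
  -- operators commuting with the product representation are scalars
  have hschur : ∀ T : Module.End ℂ (TensorProduct ℂ (Fin n → ℂ) (Fin n' → ℂ)),
      (∀ g, T * τ g = τ g * T) → ∃ c : ℂ, T = c • 1 := by
    intro T hT
    have h1 : Module.finrank ℂ (Representation.IntertwiningMap τ τ) = 1 := by
      have h := inner_rep_char τ τ
      rw [hτc, irr_inner_self hirr] at h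
      exact_mod_cast h.symm
    let I1 : Representation.IntertwiningMap τ τ :=
      { toLinearMap := LinearMap.id, isIntertwining' := fun g => by ext v; rfl }
    let IT : Representation.IntertwiningMap τ τ :=
      { toLinearMap := T, isIntertwining' := fun g => hT g }
    have h0 : I1 ≠ 0 := by
      intro h
      have e : (LinearMap.id : TensorProduct ℂ (Fin n → ℂ) (Fin n' → ℂ) →ₗ[ℂ] _) = 0 :=
        congrArg Representation.IntertwiningMap.toLinearMap h
      have e0 := congrArg (LinearMap.trace ℂ (TensorProduct ℂ (Fin n → ℂ) (Fin n' → ℂ))) e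
      rw [map_zero, ← Module.End.one_eq_id, ← map_one τ] at e0
      have e1 : τ.character 1 = 0 := e0
      rw [hτc] at e1
      simp only [one_pow] at e1
      exact mul_ne_zero (irr_apply_one_ne_zero χ.2) (irr_apply_one_ne_zero χ.2) e1
    obtain ⟨c, hc⟩ := (finrank_eq_one_iff_of_nonzero' I1 h0).1 h1 IT
    exact ⟨c, (congrArg Representation.IntertwiningMap.toLinearMap hc).symm⟩
  have hinv : ∀ g, (χ : G → ℂ) g⁻¹ = (starRingEnd ℂ) ((χ : G → ℂ) g) :=
    isCharacter_inv_eq_conj χ.2.isCharacter'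
  haveI : NeZero (Nat.card G) := ⟨Nat.card_pos.ne'⟩
  obtain ⟨m, hm⟩ : ∃ m : ℕ, ∀ x : G, (x ^ m) ^ k = x⁻¹ := by
    refine ⟨(-((ZMod.unitOfCoprime k hk)⁻¹ : (ZMod (Nat.card G))ˣ) : ZMod (Nat.card G)).val,
      fun x => ?_⟩
    have h : Nat.card G ∣ (-((ZMod.unitOfCoprime k hk)⁻¹ : (ZMod (Nat.card G))ˣ) :
        ZMod (Nat.card G)).val * k + 1 := by
      rw [← ZMod.natCast_eq_zero_iff, Nat.cast_add, Nat.cast_mul, ZMod.natCast_zmod_val,
        neg_mul, Nat.cast_one, ← ZMod.coe_unitOfCoprime k hk, Units.inv_mul, neg_add_cancel]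
    rw [← pow_mul, eq_inv_iff_mul_eq_one, ← pow_succ]
    exact orderOf_dvd_iff_pow_eq_one.1 ((orderOf_dvd_natCard x).trans h)
  obtain ⟨E, hE⟩ : ∃ E : G → G → Module.End ℂ (TensorProduct ℂ (Fin n → ℂ) (Fin n' → ℂ)),
      ∀ a b, E a b = TensorProduct.map (ρ a) (σ b) := ⟨_, fun _ _ => rfl⟩
  have hEm : ∀ a b c d, E a b * E c d = E (a * c) (b * d) := fun a b c d => by
    simp only [hE, Module.End.mul_eq_comp, ← TensorProduct.map_comp, map_mul]
  have hEt : ∀ a b, LinearMap.trace ℂ _ (E a b) = (χ : G → ℂ) a * (χ : G → ℂ) (b ^ k) :=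
    fun a b => by
      rw [hE, LinearMap.trace_tensorProduct']
      exact congrArg₂ (· * ·) (congrFun hρc a) (congrFun hσc b)
  have hEg : ∀ g, τ g = E g g := fun g => by rw [hE, hτ]; rfl
  -- sums over invariant sets commute with the group
  have hcomm : ∀ (N : Subgroup G) [N.Normal], ∀ g,
      (∑ a : N, E a ((a : G) ^ m)) * τ g = τ g * ∑ a : N, E a ((a : G) ^ m) := by
    intro N _ g
    rw [hEg, Finset.sum_mul, Finset.mul_sum]
    refine (Fintype.sum_equiv (MulAut.conjNormal g : MulAut N).toEquiv _ _ fun a => ?_).symm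
    rw [hEm, hEm, MulEquiv.toEquiv_eq_coe, EquivLike.coe_coe, MulAut.conjNormal_apply,
      conj_pow]
    congr 1 <;> group
  -- Step 1: abelian normal subgroups are central
  have hab : ∀ (A : Subgroup G) [A.Normal], (∀ x ∈ A, ∀ y ∈ A, x * y = y * x) →
      A ≤ Subgroup.center G := by
    intro A _ hA b hb
    obtain ⟨J, hJ⟩ : ∃ J, J = ∑ a : A, E a ((a : G) ^ m) := ⟨_, rfl⟩
    obtain ⟨c, hc⟩ := hschur J fun g => hJ ▸ hcomm A g
    have hJb : E b (b ^ m) * J = J := by
      rw [hJ, Finset.mul_sum]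
      refine Fintype.sum_equiv (Equiv.mulLeft (⟨b, hb⟩ : A)) _ _ fun a => ?_
      rw [hEm, ← (show Commute b (a : G) from hA b hb a a.2).mul_pow]
      rfl
    have hsq : ∀ a : G, LinearMap.trace ℂ _ (E a (a ^ m))
        = ((‖(χ : G → ℂ) a‖ ^ 2 : ℝ) : ℂ) := fun a => by
      rw [hEt, hm, hinv, Complex.mul_conj, Complex.sq_norm]
    have hc0 : c ≠ 0 := by
      intro h
      rw [h, zero_smul] at hc
      have h2 := congrArg (LinearMap.trace ℂ _) (hJ ▸ hc)
      simp only [map_sum, hsq, map_zero] at h2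
      norm_cast at h2
      have h3 := (Finset.sum_eq_zero_iff_of_nonneg fun a _ => sq_nonneg _).1 h2 1
        (Finset.mem_univ _)
      exact irr_apply_one_ne_zero χ.2 (norm_eq_zero.1 (pow_eq_zero_iff two_ne_zero |>.1 h3))
    rw [hc, mul_smul_comm, mul_one] at hJb
    have h1 : E b (b ^ m) = 1 := smul_right_injective _ hc0 hJb
    have h11 : E 1 1 = 1 := by rw [← hEg, map_one]
    have h2 := hsq b
    have h3 := hsq 1
    rw [one_pow, h11] at h3
    rw [h1, h3] at h2
    norm_cast at h2
    rw [← hρc] at h2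
    have h4 : ‖ρ.character b‖ = Module.finrank ℂ (Fin n → ℂ) := by
      rw [← (sq_eq_sq₀ (norm_nonneg _) (norm_nonneg _)).1 h2, Representation.char_one,
        Complex.norm_natCast]
    obtain ⟨ω, hω⟩ := (norm_rep_char_eq_iff ρ b).1 h4
    rw [Subgroup.mem_center_iff]
    intro g
    have hρb : ρ (g * b * g⁻¹ * b⁻¹) = LinearMap.id := by
      have e : ρ g * ρ b = ρ b * ρ g := by
        rw [hω, ← Module.End.one_eq_id]; simp
      rw [← Module.End.one_eq_id]
      calc ρ (g * b * g⁻¹ * b⁻¹) = ρ g * ρ b * ρ g⁻¹ * ρ b⁻¹ := by simp only [map_mul]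
        _ = ρ b * (ρ g * ρ g⁻¹) * ρ b⁻¹ := by rw [e, mul_assoc (ρ b) (ρ g)]
        _ = 1 := by rw [← map_mul, mul_inv_cancel, map_one, mul_one, ← map_mul, mul_inv_cancel,
          map_one]
    have h5 := hfaith (g * b * g⁻¹ * b⁻¹) (by
      rw [← hρc, (rep_char_eq_finrank_iff ρ _).2 hρb, Representation.char_one])
    rw [mul_inv_eq_one, mul_inv_eq_iff_eq_mul] at h5
    exact h5
  have hFn : (Cfsg.fittingSubgroup G).Normal := by
    haveI := CfsgLib.Core.characteristic_fittingSubgroup (G := G)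
    infer_instance
  have hZF : Subgroup.center G ≤ Cfsg.fittingSubgroup G :=
    CfsgLib.Core.le_fittingSubgroup inferInstance
      (CommGroup.isNilpotent (G := ↥(Subgroup.center G)))
  refine le_antisymm ?_ hZF
  obtain ⟨F, hF⟩ : ∃ F, F = Cfsg.fittingSubgroup G := ⟨_, rfl⟩
  rw [← hF] at hFn hZF ⊢
  haveI := hFn
  obtain ⟨c, hc⟩ := (Subgroup.isNilpotent_iff_lowerCentralSeries F).1
    (hF ▸ CfsgLib.Core.isNilpotent_fittingSubgroup)
  -- Step 2: the derived group of F is central
  have hLn : ∀ j, (F.lowerCentralSeries j).Normal := by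
    intro j
    induction j with
    | zero => exact hFn
    | succ j ih => haveI := ih; rw [Subgroup.lowerCentralSeries_succ]; infer_instance
  have hLle : ∀ j, F.lowerCentralSeries j ≤ F := by
    intro j
    induction j with
    | zero => exact le_rfl
    | succ j ih => exact (Subgroup.commutator_mono ih le_rfl).trans (Subgroup.commutator_le_self F)
  have hLanti : ∀ j, F.lowerCentralSeries (j + 2) ≤ F.lowerCentralSeries (j + 1) := by
    intro j
    induction j with
    | zero =>
      exact Subgroup.commutator_mono (hLle 1) le_rfl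
    | succ j ih => exact Subgroup.commutator_mono ih le_rfl
  have hF1 : F.lowerCentralSeries 1 ≤ Subgroup.center G := by
    suffices h : ∀ i, ∀ j, 1 ≤ j → c ≤ j + i → F.lowerCentralSeries j ≤ Subgroup.center G from
      h c 1 le_rfl (Nat.le_add_left _ _)
    intro i
    induction i with
    | zero =>
      intro j h1 hj
      obtain ⟨d, rfl⟩ : ∃ d, j = c + d := ⟨j - c, by omega⟩
      suffices h : F.lowerCentralSeries (c + d) = ⊥ by rw [h]; exact bot_le
      clear hj h1
      induction d with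
      | zero => exact hc
      | succ d ih =>
        rw [← add_assoc, Subgroup.lowerCentralSeries_succ, ih,
          Subgroup.commutator_bot_left]
    | succ i ih =>
      intro j hj hji
      have hnext : F.lowerCentralSeries (j + 1) ≤ Subgroup.center G :=
        ih (j + 1) (by omega) (by omega)
      haveI := hLn j
      refine hab _ fun x hx => ?_
      have hxy : ∀ y ∈ F, ⁅x, y⁆ ∈ Subgroup.center G := fun y hy => hnext (by
        rw [Subgroup.lowerCentralSeries_succ]; exact Subgroup.commutator_mem_commutator hx hy)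
      -- commutation with x is a homomorphism into the centre on F
      let φ : F →* Subgroup.center G :=
        { toFun := fun y => ⟨⁅x, (y : G)⁆, hxy y y.2⟩
          map_one' := Subtype.ext (by simp)
          map_mul' := fun y z => Subtype.ext (by
            have hz := Subgroup.mem_center_iff.1 (hxy z z.2) (y : G)
            show ⁅x, (y : G) * z⁆ = ⁅x, (y : G)⁆ * ⁅x, (z : G)⁆
            simp only [commutatorElement_def] at hz ⊢
            calc x * ((y : G) * z) * x⁻¹ * ((y : G) * z)⁻¹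
                = (x * y * x⁻¹) * ((x * z * x⁻¹ * (z : G)⁻¹) * (y : G)⁻¹) := by group
              _ = (x * y * x⁻¹) * ((y : G)⁻¹ * (x * z * x⁻¹ * (z : G)⁻¹)) := by
                  congr 1
                  rw [eq_comm, inv_mul_eq_iff_eq_mul, ← mul_assoc, hz, mul_inv_cancel_right]
              _ = _ := by group) }
      have hker : ∀ z ∈ ⁅F, F⁆, ∃ hz : z ∈ F, φ ⟨z, hz⟩ = 1 := by
        intro z hz
        have : ⁅F, F⁆ ≤ φ.ker.map F.subtype := by
          rw [Subgroup.commutator_le]
          intro a ha b hb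
          refine ⟨⁅(⟨a, ha⟩ : F), ⟨b, hb⟩⁆, ?_, rfl⟩
          rw [SetLike.mem_coe, MonoidHom.mem_ker, map_commutatorElement,
            commutatorElement_eq_one_iff_mul_comm]
          exact Subtype.ext (Subgroup.mem_center_iff.1 (φ ⟨b, hb⟩).2 _)
        obtain ⟨w, hw, rfl⟩ := this hz
        exact ⟨w.2, hw⟩
      intro y hy
      have hy1 : y ∈ ⁅F, F⁆ := by
        have hle : ∀ l, 1 ≤ l → F.lowerCentralSeries l ≤ F.lowerCentralSeries 1 := by
          intro l hl
          induction l, hl using Nat.le_induction with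
          | base => exact le_rfl
          | succ l hl ih =>
            obtain ⟨l', rfl⟩ : ∃ l', l = l' + 1 := ⟨l - 1, by omega⟩
            exact (hLanti l').trans ih
        exact hle j hj hy
      obtain ⟨hyF, hy2⟩ := hker y hy1
      exact commutatorElement_eq_one_iff_mul_comm.1 (congrArg Subtype.val hy2)
  -- Step 3: F is central
  intro w hw
  by_contra hwZ
  have hvan : ∀ x ∈ F, x ∉ Subgroup.center G → (χ : G → ℂ) x = 0 := by
    intro x hx hxZ
    have hnc : (⟨x, hx⟩ : F) ∉ Subgroup.center F := fun h =>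
      hxZ (hab ((Subgroup.center F).map F.subtype) (by
        rintro _ ⟨a, ha, rfl⟩ _ ⟨b, hb, rfl⟩
        exact congrArg Subtype.val ((Subgroup.mem_center_iff.1 hb a))) ⟨_, h, rfl⟩)
    rw [Subgroup.mem_center_iff] at hnc
    push Not at hnc
    obtain ⟨y, hy⟩ := hnc
    have hz : ⁅(y : G), x⁆ ∈ Subgroup.center G := hF1 (by
      rw [show F.lowerCentralSeries 1 = ⁅F, F⁆ from rfl]
      exact Subgroup.commutator_mem_commutator y.2 hx)
    have hz1 : ⁅(y : G), x⁆ ≠ 1 := fun h =>
      hy (Subtype.ext (commutatorElement_eq_one_iff_mul_comm.1 h))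
    obtain ⟨ω, -, hω⟩ := irr_central_mul χ hz
    have hω1 : ω ≠ 1 := fun h => hz1 (hfaith _ (by
      have := hω 1; rwa [mul_one, h, one_mul] at this))
    have h : (χ : G → ℂ) x = ω * (χ : G → ℂ) x := by
      rw [← hω x, commutatorElement_def, inv_mul_cancel_right]
      exact (classFun_isConj (irr_classFunction χ) (isConj_iff.2 ⟨(y : G), rfl⟩)).symm
    by_contra hx0
    exact hω1 ((mul_eq_right₀ hx0).1 h.symm)
  obtain ⟨J, hJ⟩ : ∃ J, J = ∑ x : F, E x ((x : G) ^ m) := ⟨_, rfl⟩
  obtain ⟨c', hc'⟩ := hschur J fun g => hJ ▸ hcomm F g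
  have ht := congrArg (fun T => LinearMap.trace ℂ _ (T * E w⁻¹ (w ^ m)⁻¹)) (hJ ▸ hc')
  simp only [Finset.sum_mul, map_sum, smul_mul_assoc, one_mul, map_smul, smul_eq_mul, hEm, hEt]
    at ht
  rw [hvan w⁻¹ (inv_mem hw) (fun h => hwZ (by simpa using inv_mem h)), zero_mul, mul_zero] at ht
  have hterm : ∀ x : F, (χ : G → ℂ) ((x : G) * w⁻¹) * (χ : G → ℂ) (((x : G) ^ m * (w ^ m)⁻¹) ^ k)
      = ((‖(χ : G → ℂ) ((x : G) * w⁻¹)‖ ^ 2 : ℝ) : ℂ) := by
    intro x
    by_cases hz : (x : G) * w⁻¹ ∈ Subgroup.center G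
    · have hcom : Commute ((x : G) * w⁻¹) w := (Subgroup.mem_center_iff.1 hz w).symm
      have e : (x : G) ^ m * (w ^ m)⁻¹ = ((x : G) * w⁻¹) ^ m := by
        rw [← eq_mul_inv_iff_mul_eq.2 ((hcom.mul_pow m).symm.trans (by rw [inv_mul_cancel_right]))]
      rw [e, hm, hinv, Complex.mul_conj, Complex.sq_norm]
    · rw [hvan _ (mul_mem x.2 (inv_mem hw)) hz]; simp
  simp only [hterm] at ht
  norm_cast at ht
  have h3 := (Finset.sum_eq_zero_iff_of_nonneg fun a _ => sq_nonneg _).1 ht ⟨w, hw⟩
    (Finset.mem_univ _)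
  simp only [mul_inv_cancel] at h3
  exact irr_apply_one_ne_zero χ.2 (norm_eq_zero.1 (pow_eq_zero_iff two_ne_zero |>.1 h3))

end Cfsg.Agent.S4843
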