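import Cfsg.Statements.S4870
import Cfsg.Agent.Lib.CharLinear
import Cfsg.Agent.Lib.CharNormal
import Cfsg.Agent.Lib.CharGallagher
import Cfsg.Agent.Lib.BlockCodegree

set_option autoImplicit false
open Cfsg
open scoped commutatorElement

namespace Cfsg.Agent.S4870

/-- Let G be a finite group with a non-abelian minimal normal subgroup N, and let φ be an irreducible complex character of N with stabilizer I in G (the elements g with φ(g n g⁻¹) = φ(n) for all n ∈ N) such that φ extends to an irreducible character of I. Put d = φ(1)·[G : I]. Then the number of linear characters of G is at most [G : I] times the number of irreducible characters of G of degree d. -/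
theorem result {G : Type*} [Group G] [Finite G] (N : Subgroup G) (hN : N.Normal) (hN1 : N ≠ ⊥) (hmin : ∀ M : Subgroup G, M.Normal → M ≤ N → M = ⊥ ∨ M = N) (hna : ¬ IsMulCommutative ↥N) (φ : Cfsg.IrrCharacter ↥N) (I : Subgroup G) (hI : ∀ g : G, g ∈ I ↔ ∀ n n' : ↥N, (n' : G) = g * (n : G) * g⁻¹ → (φ : ↥N → ℂ) n' = (φ : ↥N → ℂ) n) (hNI : N ≤ I) (hext : ∃ ψ : Cfsg.IrrCharacter ↥I, ∀ n : ↥N, (ψ : ↥I → ℂ) (Subgroup.inclusion hNI n) = (φ : ↥N → ℂ) n) : Nat.card {χ : Cfsg.IrrCharacter G // Cfsg.charDegree (χ : G → ℂ) = 1} ≤ I.index * Nat.card {χ : Cfsg.IrrCharacter G // Cfsg.charDegree (χ : G → ℂ) = Cfsg.charDegree (φ : ↥N → ℂ) * I.index} := by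
  classical
  haveI := Fintype.ofFinite G
  haveI := Fintype.ofFinite ↥N
  haveI := Fintype.ofFinite ↥I
  haveI := hN
  obtain ⟨ψ, hψ⟩ := hext
  have hNG : N ≤ commutator G := by
    rcases hmin ⁅N, N⁆ inferInstance (Subgroup.commutator_le_left N N) with h | h
    · exfalso
      refine hna ⟨⟨fun a b => Subtype.ext ?_⟩⟩
      have h2 := Subgroup.commutator_mem_commutator (H₁ := N) (H₂ := N) a.2 b.2
      rw [h, Subgroup.mem_bot, commutatorElement_eq_one_iff_mul_comm] at h2
      exact h2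
    · calc N = ⁅N, N⁆ := h.symm
        _ ≤ ⁅(⊤ : Subgroup G), ⊤⁆ := Subgroup.commutator_mono le_top le_top
  have hfN : ∀ (f : G →* ℂˣ) (n : G), n ∈ N → f n = 1 := fun f n hn =>
    MonoidHom.mem_ker.1 (Abelianization.commutator_subset_ker f (hNG hn))
  have hinert : CfsgLib.Char.inertia (φ : ↥N → ℂ) = I := by
    ext g
    rw [CfsgLib.Char.mem_inertia, hI]
    constructor
    · intro h n n' hn'
      conv_rhs => rw [← h]
      rw [CfsgLib.Char.conjFn_eq_comp, Function.comp_apply]
      refine congrArg _ (Subtype.ext ?_)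
      rw [MulAut.conjNormal_apply, hn']
    · intro h
      funext n
      rw [CfsgLib.Char.conjFn_eq_comp, Function.comp_apply]
      exact h n _ (MulAut.conjNormal_apply g n)
  let incl : ↥N →* ↥I := Subgroup.inclusion hNI
  -- the products with linear characters
  have hprodI : ∀ f : G →* ℂˣ, IsIrrCharacter ↥I (fun i : ↥I => (f (i : G) : ℂ) * (ψ : ↥I → ℂ) i) := by
    intro f
    refine CfsgLib.Char.isIrr_of_inner_self_one (CfsgLib.Char.isCharacter_mul (CfsgLib.Char.isCharacter_hom (f.comp I.subtype)) ψ.2.isCharacter') ?_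
    rw [← CfsgLib.Char.irr_inner_self ψ.2]
    simp only [classInner]
    congr 1
    refine Finset.sum_congr rfl fun x _ => ?_
    have hu : (f (x : G) : ℂ) * (starRingEnd ℂ) (f (x : G) : ℂ) = 1 := by
      have hpow : (f (x : G) : ℂ) ^ orderOf (x : G) = 1 := by
        rw [← Units.val_pow_eq_pow_val, ← map_pow, pow_orderOf_eq_one, map_one, Units.val_one]
      rw [Complex.mul_conj', Complex.norm_eq_one_of_pow_eq_one hpow (orderOf_pos _).ne']; simp
    rw [map_mul]
    linear_combination ((ψ : ↥I → ℂ) x * (starRingEnd ℂ) ((ψ : ↥I → ℂ) x)) * hu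
  let P : (G →* ℂˣ) → IrrCharacter ↥I := fun f => ⟨_, hprodI f⟩
  have hPN : ∀ f n, (P f : ↥I → ℂ) (incl n) = (φ : ↥N → ℂ) n := fun f n => by
    show (f ((incl n : ↥I) : G) : ℂ) * (ψ : ↥I → ℂ) (incl n) = _
    rw [hψ, show ((incl n : ↥I) : G) = (n : G) from rfl, hfN f n n.2, Units.val_one, one_mul]
  have hdI : ∀ f, (P f : ↥I → ℂ) 1 = (φ : ↥N → ℂ) 1 := fun f => by
    rw [← hPN f 1, map_one]
  -- induction is irreducible
  have hkey : ∀ f, ∃ χ : IrrCharacter G, (χ : G → ℂ) = indFun I (P f : ↥I → ℂ) ∧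
      charDegree (χ : G → ℂ) = charDegree (φ : ↥N → ℂ) * I.index ∧
      classInner (fun n : ↥N => (χ : G → ℂ) n) (φ : ↥N → ℂ) = 1 ∧
      classInner (fun i : ↥I => (χ : G → ℂ) i) (P f : ↥I → ℂ) ≠ 0 := by
    intro f
    have hind := CfsgLib.Char.isCharacter_indFun (G := G) (P f).2.isCharacter'
    have h10 : indFun I (P f : ↥I → ℂ) ≠ 0 := fun h => by
      have h1 := congrFun h 1
      rw [CfsgLib.Char.indFun_one_apply, hdI, Pi.zero_apply] at h1
      rcases mul_eq_zero.1 h1 with e | e
      · exact Subgroup.index_ne_zero_of_finite (by exact_mod_cast e)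
      · exact CfsgLib.Block.irr_one_ne_zero φ e
    obtain ⟨χ, hχ, hne⟩ := CfsgLib.Char.exists_constituent hind h10
    have hne' : classInner (fun i : ↥I => χ i) (P f : ↥I → ℂ) ≠ 0 := by
      rw [CfsgLib.Char.frobenius _ _ (CfsgLib.Char.isCharacter_classFunction hχ.isCharacter'),
        CfsgLib.Char.inner_comm_of_isCharacter (P f).2.isCharacter' (CfsgLib.Char.isCharacter_restrict hχ.isCharacter' I)] at hne
      exact hne
    have hover : classInner (fun n : ↥N => χ n) (φ : ↥N → ℂ) ≠ 0 := by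
      have hres : IsCharacter ↥I (fun i : ↥I => χ i) := CfsgLib.Char.isCharacter_restrict hχ.isCharacter' I
      have hex := CfsgLib.Char.classFunction_eq_sum _ (CfsgLib.Char.isCharacter_classFunction hres)
      have hN' : (fun n : ↥N => χ n) = ∑ ξ : IrrCharacter ↥I, classInner (fun i : ↥I => χ i) (ξ : ↥I → ℂ) • (fun n : ↥N => (ξ : ↥I → ℂ) (incl n)) := by
        funext n
        have h := congrFun hex (incl n)
        simp only [Finset.sum_apply, Pi.smul_apply] at h ⊢
        exact h
      rw [hN', CfsgLib.Char.inner_sum_left]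
      simp only [CfsgLib.Char.inner_smul_left]
      have hnat : ∀ ξ : IrrCharacter ↥I, ∃ k : ℕ, classInner (fun i : ↥I => χ i) (ξ : ↥I → ℂ) *
          classInner (fun n : ↥N => (ξ : ↥I → ℂ) (incl n)) (φ : ↥N → ℂ) = k := fun ξ => by
        obtain ⟨a, ha⟩ := CfsgLib.Char.inner_character_nat hres ξ.2.isCharacter'
        obtain ⟨b, hb⟩ := CfsgLib.Char.inner_character_nat (χ := fun n : ↥N => (ξ : ↥I → ℂ) (incl n))
          (CfsgLib.Char.isCharacter_comp ξ.2.isCharacter' incl) φ.2.isCharacter'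
        exact ⟨a * b, by rw [ha, hb, Nat.cast_mul]⟩
      choose k hk using hnat
      simp only [hk]
      rw [← Nat.cast_sum, Nat.cast_ne_zero]
      intro h0
      have h1 := (Finset.sum_eq_zero_iff.1 h0) (P f) (Finset.mem_univ _)
      have h2 := hk (P f)
      rw [h1, Nat.cast_zero, funext (hPN f), CfsgLib.Char.irr_inner_self φ.2, mul_one] at h2
      exact hne' h2
    have hcd := CfsgLib.Char.clifford_degree hχ φ.2 hover
    rw [hinert] at hcd
    obtain ⟨e, he⟩ := CfsgLib.Char.inner_character_nat (CfsgLib.Char.isCharacter_restrict hχ.isCharacter' N) φ.2.isCharacter'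
    rw [he, ← CfsgLib.Block.charDegree_cast hχ.isCharacter', ← CfsgLib.Block.charDegree_cast φ.2.isCharacter'] at hcd
    have hcd' : charDegree χ = e * I.index * charDegree (φ : ↥N → ℂ) := by exact_mod_cast hcd
    have hdind : charDegree (indFun I (P f : ↥I → ℂ)) = I.index * charDegree (φ : ↥N → ℂ) := by
      have h1 : (charDegree (indFun I (P f : ↥I → ℂ)) : ℂ) = ((I.index * charDegree (φ : ↥N → ℂ) : ℕ) : ℂ) := by
        rw [CfsgLib.Block.charDegree_cast hind, CfsgLib.Char.indFun_one_apply, hdI, Nat.cast_mul,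
          CfsgLib.Block.charDegree_cast φ.2.isCharacter']
      exact_mod_cast h1
    have he1 : 1 ≤ e := Nat.one_le_iff_ne_zero.2 fun h => hover (by rw [he, h, Nat.cast_zero])
    have heq := CfsgLib.Block.eq_of_inner_ne_zero_of_degree_le hind ⟨χ, hχ⟩ hne
      (by rw [hdind]; show _ ≤ charDegree χ; rw [hcd', mul_assoc]; exact Nat.le_mul_of_pos_left _ he1)
    have heq' : χ = indFun I (P f : ↥I → ℂ) := heq.symm
    have he' : e = 1 := by
      rw [heq', hdind, mul_assoc] at hcd'
      exact (Nat.mul_eq_right (Nat.mul_pos (Nat.pos_of_ne_zero Subgroup.index_ne_zero_of_finite)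
        (CfsgLib.Block.charDegree_pos φ)).ne').1 hcd'.symm
    refine ⟨⟨χ, hχ⟩, heq', ?_, ?_, hne'⟩
    · show charDegree χ = _
      rw [heq', hdind, mul_comm]
    · show classInner (fun n : ↥N => χ n) (φ : ↥N → ℂ) = 1
      rw [he, he', Nat.cast_one]
  choose C hC hCd hC1 hC2 using hkey
  haveI : Finite (G →* ℂˣ) := Finite.of_equiv _ CfsgLib.Char.linCharEquiv.symm
  haveI := Fintype.ofFinite (G →* ℂˣ)
  -- equal images agree on `I`
  have hsame : ∀ f f', C f = C f' → ∀ i : ↥I, f (i : G) = f' (i : G) := by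
    intro f f' h
    have hP : P f = P f' := by
      by_contra hne
      have hres : IsCharacter ↥I (fun i : ↥I => (C f : G → ℂ) i) := CfsgLib.Char.isCharacter_restrict (C f).2.isCharacter' I
      have hex := CfsgLib.Char.classFunction_eq_sum _ (CfsgLib.Char.isCharacter_classFunction hres)
      have hN' : (fun n : ↥N => (C f : G → ℂ) n) = ∑ ξ : IrrCharacter ↥I, classInner (fun i : ↥I => (C f : G → ℂ) i) (ξ : ↥I → ℂ) • (fun n : ↥N => (ξ : ↥I → ℂ) (incl n)) := by
        funext n
        have h := congrFun hex (incl n)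
        simp only [Finset.sum_apply, Pi.smul_apply] at h ⊢
        exact h
      have hnat : ∀ ξ : IrrCharacter ↥I, ∃ k : ℕ, classInner (fun i : ↥I => (C f : G → ℂ) i) (ξ : ↥I → ℂ) *
          classInner (fun n : ↥N => (ξ : ↥I → ℂ) (incl n)) (φ : ↥N → ℂ) = k := fun ξ => by
        obtain ⟨a, ha⟩ := CfsgLib.Char.inner_character_nat hres ξ.2.isCharacter'
        obtain ⟨b, hb⟩ := CfsgLib.Char.inner_character_nat (χ := fun n : ↥N => (ξ : ↥I → ℂ) (incl n))
          (CfsgLib.Char.isCharacter_comp ξ.2.isCharacter' incl) φ.2.isCharacter'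
        exact ⟨a * b, by rw [ha, hb, Nat.cast_mul]⟩
      choose k hk using hnat
      have hsum := hC1 f
      rw [hN', CfsgLib.Char.inner_sum_left] at hsum
      simp only [CfsgLib.Char.inner_smul_left, hk] at hsum
      rw [← Nat.cast_sum, Nat.cast_eq_one] at hsum
      have hpos : ∀ f'' : G →* ℂˣ, classInner (fun i : ↥I => (C f : G → ℂ) i) (P f'' : ↥I → ℂ) ≠ 0 → k (P f'') ≠ 0 := by
        intro f'' hh h0
        have h2 := hk (P f'')
        rw [h0, Nat.cast_zero, funext (hPN f''), CfsgLib.Char.irr_inner_self φ.2, mul_one] at h2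
        exact hh h2
      have h2 : k (P f) + k (P f') ≤ 1 := by
        rw [← hsum, ← Finset.sum_pair hne]
        exact Finset.sum_le_univ_sum_of_nonneg fun _ => Nat.zero_le _
      have := hpos f (hC2 f)
      have := hpos f' (h ▸ hC2 f')
      omega
    intro i
    haveI : (N.subgroupOf I).Normal := inferInstance
    haveI := Fintype.ofFinite ↥(N.subgroupOf I)
    let e := Subgroup.subgroupOfEquivOfLe hNI
    have hψN : IsIrrCharacter ↥(N.subgroupOf I) (fun m : ↥(N.subgroupOf I) => (ψ : ↥I → ℂ) m) := by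
      have h1 := CfsgLib.Char.isIrrCharacter_comp_equiv φ.2 e
      have h2 : (fun m : ↥(N.subgroupOf I) => (ψ : ↥I → ℂ) m) = (φ : ↥N → ℂ) ∘ e := by
        funext m
        show _ = (φ : ↥N → ℂ) (e m)
        rw [← hψ]
        rfl
      rw [h2]; exact h1
    obtain ⟨m, hm⟩ : ∃ m : ↥(N.subgroupOf I), (ψ : ↥I → ℂ) ((m : ↥I) * i) ≠ 0 := by
      by_contra hall
      push Not at hall
      have h1 := congrFun (CfsgLib.Char.cosetAvg_self (N.subgroupOf I) ψ.2 hψN) i
      rw [CfsgLib.Char.cosetAvg_eq] at h1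
      simp [hall] at h1
    have h2 : (f (((m : ↥I) * i : ↥I) : G) : ℂ) * (ψ : ↥I → ℂ) ((m : ↥I) * i) =
        (f' (((m : ↥I) * i : ↥I) : G) : ℂ) * (ψ : ↥I → ℂ) ((m : ↥I) * i) :=
      congrFun (congrArg (fun x : IrrCharacter ↥I => (x : ↥I → ℂ)) hP) _
    have h3 := mul_right_cancel₀ hm h2
    rw [Subgroup.coe_mul, map_mul, map_mul, hfN f _ (Subgroup.mem_subgroupOf.1 m.2), hfN f' _ (Subgroup.mem_subgroupOf.1 m.2),
      one_mul, one_mul] at h3
    exact Units.ext h3
  -- the homomorphisms trivial on `I`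
  set J := I ⊔ commutator G with hJ
  haveI hJn : J.Normal := Subgroup.Normal.of_commutator_le G le_sup_right
  haveI : Finite (G ⧸ J →* ℂˣ) := Finite.of_equiv _ CfsgLib.Char.linCharEquiv.symm
  have hhoms : Nat.card {f : G →* ℂˣ // ∀ i : ↥I, f (i : G) = 1} ≤ I.index := by
    refine le_trans (Nat.card_le_card_of_injective
      (fun f => (QuotientGroup.lift J f.1 (sup_le (fun x hx => MonoidHom.mem_ker.2 (f.2 ⟨x, hx⟩))
        (Abelianization.commutator_subset_ker f.1)) : G ⧸ J →* ℂˣ)) ?_) ?_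
    · intro f f' h
      exact Subtype.ext (MonoidHom.ext fun g => DFunLike.congr_fun h (QuotientGroup.mk g))
    · rw [Nat.card_congr CfsgLib.Char.linCharEquiv, CfsgLib.Char.card_linear_chars]
      refine le_trans (Nat.le_of_dvd Nat.card_pos (Subgroup.index_dvd_card _)) ?_
      rw [← Subgroup.index_eq_card]
      exact Nat.le_of_dvd (Nat.pos_of_ne_zero Subgroup.index_ne_zero_of_finite) (Subgroup.index_dvd_of_le le_sup_left)
  have hlin : Nat.card {χ : IrrCharacter G // charDegree (χ : G → ℂ) = 1} = Nat.card (G →* ℂˣ) := by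
    rw [Nat.card_congr CfsgLib.Char.linCharEquiv]
    refine Nat.card_congr (Equiv.subtypeEquivRight fun χ => ?_)
    rw [← CfsgLib.Block.charDegree_cast χ.2.isCharacter', Nat.cast_eq_one]
  rw [hlin, Nat.card_eq_fintype_card, ← Finset.card_univ]
  have hmax := Finset.card_le_mul_card_image (f := C) (Finset.univ : Finset (G →* ℂˣ)) I.index (fun χ hχ => by
    obtain ⟨f₀, -, rfl⟩ := Finset.mem_image.1 hχ
    refine le_trans ?_ hhoms
    rw [← Fintype.card_coe, ← Nat.card_eq_fintype_card]
    refine Nat.card_le_card_of_injective (fun f => ⟨f.1 * f₀⁻¹, fun i => ?_⟩) (fun a b h => Subtype.ext ?_)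
    · rw [MonoidHom.mul_apply, MonoidHom.inv_apply, hsame f.1 f₀ (Finset.mem_filter.1 f.2).2 i, mul_inv_cancel]
    · refine MonoidHom.ext fun g => ?_
      exact mul_right_cancel (DFunLike.congr_fun (congrArg Subtype.val h) g))
  refine hmax.trans (Nat.mul_le_mul_left _ ?_)
  rw [Nat.card_eq_fintype_card, Fintype.card_subtype]
  refine Finset.card_le_card fun χ hχ => ?_
  obtain ⟨f, -, rfl⟩ := Finset.mem_image.1 hχ
  exact Finset.mem_filter.2 ⟨Finset.mem_univ _, hCd f⟩

end Cfsg.Agent.S4870
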