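import Cfsg.Statements.S4871
import Cfsg.Agent.Lib.CharClifford
import Cfsg.Agent.Lib.CharLinear
import Cfsg.Agent.Lib.CharSquareCount
import Cfsg.Agent.Lib.BlockRegular
import Mathlib.GroupTheory.PGroup
import Mathlib.GroupTheory.FiniteAbelian.Duality

set_option autoImplicit false
set_option maxHeartbeats 400000
open Cfsg

namespace Cfsg.Agent.S4871

universe w

open CfsgLib.Char CfsgLib.Block
open scoped ComplexConjugate Classical commutatorElement

theorem card_hom_trivial_le {G : Type w} [Group G] [Finite G] (K : Subgroup G) :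
    Nat.card {φ : G →* ℂˣ // ∀ k ∈ K, φ k = 1} ≤ K.index := by
  let R := commutator G ⊔ K
  haveI : R.Normal := ⟨fun r hr g => by
    have e : g * r * g⁻¹ = ⁅g, r⁆ * r := by simp [commutatorElement_def]
    rw [e]
    exact R.mul_mem (Subgroup.mem_sup_left (Subgroup.commutator_mem_commutator (Subgroup.mem_top g) (Subgroup.mem_top r))) hr⟩
  letI : CommGroup (G ⧸ R) :=
    { (inferInstance : Group (G ⧸ R)) with
      mul_comm := fun a b => by
        obtain ⟨a, rfl⟩ := QuotientGroup.mk'_surjective R a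
        obtain ⟨b, rfl⟩ := QuotientGroup.mk'_surjective R b
        rw [← commutatorElement_eq_one_iff_mul_comm, ← map_commutatorElement]
        exact (QuotientGroup.eq_one_iff _).2 (Subgroup.mem_sup_left
          (Subgroup.commutator_mem_commutator (Subgroup.mem_top a) (Subgroup.mem_top b))) }
  haveI : NeZero (Monoid.exponent (G ⧸ R)) := ⟨Monoid.exponent_ne_zero_of_finite⟩
  have hR : ∀ φ : {φ : G →* ℂˣ // ∀ k ∈ K, φ k = 1}, R ≤ φ.1.ker := by
    intro φ
    refine sup_le ?_ (fun k hk => φ.2 k hk)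
    rw [commutator_def, Subgroup.commutator_le]
    intro a _ b _
    rw [MonoidHom.mem_ker, map_commutatorElement, commutatorElement_eq_one_iff_mul_comm]
    exact mul_comm _ _
  have e : Nat.card ((G ⧸ R) →* ℂˣ) = R.index := CommGroup.card_monoidHom_of_hasEnoughRootsOfUnity (G ⧸ R) ℂ
  haveI : Finite ((G ⧸ R) →* ℂˣ) := Nat.finite_of_card_ne_zero (by rw [e]; exact Subgroup.index_ne_zero_of_finite)
  calc _ ≤ Nat.card ((G ⧸ R) →* ℂˣ) :=
        Nat.card_le_card_of_injective (fun φ => QuotientGroup.lift R φ.1 (hR φ)) (fun φ ψ h => Subtype.ext (MonoidHom.ext fun g => by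
          have := DFunLike.congr_fun h (g : G ⧸ R)
          simpa using this))
    _ = R.index := e
    _ ≤ K.index := Nat.le_of_dvd (Nat.pos_of_ne_zero Subgroup.index_ne_zero_of_finite) (Subgroup.index_dvd_of_le le_sup_right)

theorem sum_hom_eq_zero {G : Type w} [Group G] [Fintype G] (f : G →* ℂˣ) (hf : f ≠ 1) :
    ∑ g, (f g : ℂ) = 0 :=
  sum_hom_units_eq_zero ((Units.coeHom ℂ).comp f) (fun h => hf (MonoidHom.ext fun g => Units.ext (DFunLike.congr_fun h g)))

/-- Let G be a finite group that is the semidirect product of a normal elementary abelian subgroup N of odd order by a non-trivial 2-subgroup P, with N the unique minimal normal subgroup of G. Consider the strongly real irreducible complex characters of G (Frobenius–Schur indicator +1) whose degree is 1 or even. Then their average degree is at least 4/3: four times their number is at most three times the sum of their degrees. -/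
theorem result {G : Type*} [Group G] [Finite G] (N P : Subgroup G) (hN : N.Normal) (q : ℕ) [Fact q.Prime] (hq : q ≠ 2) (hNel : Cfsg.IsElementaryAbelian q N) (hP : IsPGroup 2 ↥P) (hP1 : P ≠ ⊥) (hdisj : N ⊓ P = ⊥) (hprod : N ⊔ P = ⊤) (hmin : N ≠ ⊥ ∧ ∀ M : Subgroup G, M.Normal → M ≠ ⊥ → N ≤ M) : 4 * Nat.card {χ : Cfsg.IrrCharacter G // (Cfsg.charDegree (χ : G → ℂ) = 1 ∨ 2 ∣ Cfsg.charDegree (χ : G → ℂ)) ∧ (Nat.card G : ℂ)⁻¹ * ∑ᶠ g : G, (χ : G → ℂ) (g * g) = 1} ≤ 3 * (∑ᶠ χ : {χ : Cfsg.IrrCharacter G // (Cfsg.charDegree (χ : G → ℂ) = 1 ∨ 2 ∣ Cfsg.charDegree (χ : G → ℂ)) ∧ (Nat.card G : ℂ)⁻¹ * ∑ᶠ g : G, (χ : G → ℂ) (g * g) = 1}, Cfsg.charDegree (χ.1 : G → ℂ)) := by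
  classical
  haveI := Fintype.ofFinite G
  haveI : N.Normal := hN
  obtain ⟨hNc', hNq⟩ := hNel
  have hNc : ∀ a ∈ N, ∀ b ∈ N, a * b = b * a := fun a ha b hb =>
    congrArg Subtype.val (hNc'.is_comm.comm (⟨a, ha⟩ : N) ⟨b, hb⟩)
  have hqo : Odd q := (Fact.out : q.Prime).odd_of_ne_two hq
  have hNone : ∀ a ∈ N, a * a = 1 → a = 1 := by
    intro a ha h
    obtain ⟨j, hj⟩ := hqo
    have h1 := hNq a ha
    rwa [hj, pow_succ, pow_mul, pow_two, h, one_pow, one_mul] at h1
  -- decomposition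
  have hex : ∀ g : G, ∃ s : P, g * (s : G)⁻¹ ∈ N := by
    intro g
    have hg : g ∈ ((N ⊔ P : Subgroup G) : Set G) := by rw [hprod]; trivial
    rw [Subgroup.normal_mul] at hg
    obtain ⟨a, ha, s, hs, rfl⟩ := hg
    exact ⟨⟨s, hs⟩, by simpa using ha⟩
  choose π hπ using hex
  have huniq : ∀ (g : G) (s : P), g * (s : G)⁻¹ ∈ N → π g = s := by
    intro g s h
    have h1 : (π g : G) * (s : G)⁻¹ ∈ N ⊓ P := by
      refine ⟨?_, P.mul_mem (π g).2 (P.inv_mem s.2)⟩
      have := N.mul_mem (N.inv_mem (hπ g)) h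
      simpa [mul_assoc] using this
    rw [hdisj, Subgroup.mem_bot, mul_inv_eq_one] at h1
    exact Subtype.ext h1
  have hπmul : ∀ a b, π (a * b) = π a * π b := by
    intro a b
    refine huniq _ _ ?_
    have e : a * b * ((π a * π b : P) : G)⁻¹ = (a * (π a : G)⁻¹) * ((π a : G) * (b * (π b : G)⁻¹) * (π a : G)⁻¹) := by
      push_cast; group
    rw [e]
    exact N.mul_mem (hπ a) (hN.conj_mem _ (hπ b) _)
  let πh : G →* P := MonoidHom.mk' π hπmul
  have hπn : ∀ n ∈ N, π n = 1 := fun n hn => huniq _ _ (by simpa using hn)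
  have hπs : ∀ s : P, π (s : G) = s := fun s => huniq _ _ (by simp)
  -- the central involution
  haveI : Fact (Nat.Prime 2) := ⟨Nat.prime_two⟩
  haveI : Nontrivial P := (Subgroup.nontrivial_iff_ne_bot P).2 hP1
  haveI := hP.center_nontrivial
  obtain ⟨z₀, hz₀⟩ : ∃ z : Subgroup.center P, orderOf z = 2 := by
    refine exists_prime_orderOf_dvd_card' 2 ?_
    obtain ⟨i, hi⟩ := IsPGroup.iff_card.1 (hP.to_subgroup (Subgroup.center P))
    rw [hi]
    refine dvd_pow_self 2 fun h => ?_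
    have := Finite.one_lt_card (α := Subgroup.center P)
    rw [hi, h, pow_zero] at this
    exact lt_irrefl 1 this
  let z : P := z₀.1
  have hzc : ∀ s : P, (s : G) * (z : G) = (z : G) * (s : G) := fun s =>
    congrArg Subtype.val (Subgroup.mem_center_iff.1 z₀.2 s)
  have hz2 : (z : G) * (z : G) = 1 := by
    have h := pow_orderOf_eq_one z₀
    rw [hz₀, pow_two] at h
    exact congrArg (fun x : Subgroup.center P => ((x : P) : G)) h
  have hz1 : (z : G) ≠ 1 := fun h => by
    have : z₀ = 1 := Subtype.ext (Subtype.ext h)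
    rw [this, orderOf_one] at hz₀
    omega
  have hzinv : (z : G)⁻¹ = (z : G) := inv_eq_of_mul_eq_one_right hz2
  -- the involution inverts the minimal normal subgroup
  let C : Subgroup G :=
    { carrier := {n | n ∈ N ∧ n * (z : G) = (z : G) * n}
      one_mem' := ⟨N.one_mem, by simp⟩
      mul_mem' := fun {a b} ha hb => ⟨N.mul_mem ha.1 hb.1, by
        rw [mul_assoc, hb.2, ← mul_assoc, ha.2, mul_assoc]⟩
      inv_mem' := fun {a} ha => ⟨N.inv_mem ha.1, (show Commute a (z : G) from ha.2).inv_left.eq⟩ }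
  haveI : C.Normal := ⟨fun c hc g => by
    obtain ⟨a, hga⟩ : ∃ a ∈ N, g = a * (π g : G) := ⟨_, hπ g, by group⟩
    have h1 : (π g : G) * c * (π g : G)⁻¹ ∈ N := hN.conj_mem _ hc.1 _
    have h2 : g * c * g⁻¹ = (π g : G) * c * (π g : G)⁻¹ := by
      obtain ⟨ha, hga⟩ := hga
      rw [hga]
      rw [show π (a * (π g : G)) = π g by rw [hπmul, hπn a ha, hπs, one_mul]]
      calc a * (π g : G) * c * (a * (π g : G))⁻¹ = a * ((π g : G) * c * (π g : G)⁻¹) * a⁻¹ := by group
        _ = (π g : G) * c * (π g : G)⁻¹ := by rw [hNc a ha _ h1, mul_inv_cancel_right]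
    rw [h2]
    refine ⟨h1, ?_⟩
    have c1 : Commute (π g : G) (z : G) := hzc (π g)
    exact ((c1.mul_left hc.2).mul_left c1.inv_left).eq⟩
  have hC : C = ⊥ := by
    by_contra hne
    have hle := hmin.2 C inferInstance hne
    have hzN : ∀ n ∈ N, n * (z : G) = (z : G) * n := fun n hn => (hle hn).2
    haveI hzn : (Subgroup.zpowers (z : G)).Normal := ⟨fun c hc g => by
      obtain ⟨j, rfl⟩ := hc
      have h3 : Commute g (z : G) := by
        have h4 : g = g * (π g : G)⁻¹ * (π g : G) := by group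
        rw [h4]
        exact (show Commute (g * (π g : G)⁻¹) (z : G) from hzN _ (hπ g)).mul_left (hzc (π g))
      exact ⟨j, by show (z : G) ^ j = g * (z : G) ^ j * g⁻¹; rw [(h3.zpow_right j).eq, mul_inv_cancel_right]⟩⟩
    have h5 := hmin.2 _ hzn (by rw [Ne, Subgroup.zpowers_eq_bot]; exact hz1)
    apply hmin.1
    rw [eq_bot_iff, ← hdisj]
    exact le_inf le_rfl (h5.trans (Subgroup.zpowers_le.2 z.2))
  have hzi : ∀ n ∈ N, (z : G) * n * (z : G)⁻¹ = n⁻¹ := by
    intro n hn
    have hc : (z : G) * n * (z : G)⁻¹ ∈ N := hN.conj_mem n hn _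
    have h : n * ((z : G) * n * (z : G)⁻¹) ∈ C := ⟨N.mul_mem hn hc, by
      conv_rhs => rw [hNc n hn _ hc]
      rw [hzinv]
      simp only [mul_assoc, hz2, mul_one]
      simp only [← mul_assoc, hz2, one_mul]⟩
    rw [hC, Subgroup.mem_bot] at h
    exact eq_inv_of_mul_eq_one_right h
  -- a nontrivial linear character of N
  obtain ⟨n₀, hn₀, hn₀1⟩ := (Subgroup.ne_bot_iff_exists_ne_one.1 hmin.1 |> fun ⟨x, hx⟩ => ⟨x.1, x.2, fun h => hx (Subtype.ext h)⟩ : ∃ x ∈ N, x ≠ 1)
  obtain ⟨l₀, hl₀⟩ : ∃ l : N →* ℂˣ, l ⟨n₀, hn₀⟩ ≠ 1 := by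
    letI : CommGroup N := { (inferInstance : Group N) with mul_comm := fun a b => Subtype.ext (hNc _ a.2 _ b.2) }
    haveI : NeZero (Monoid.exponent N) := ⟨Monoid.exponent_ne_zero_of_finite⟩
    exact CommGroup.exists_apply_ne_one_of_hasEnoughRootsOfUnity N ℂ (fun h => hn₀1 (congrArg Subtype.val h))
  let lam : G → ℂˣ := fun g => l₀ ⟨g * (π g : G)⁻¹, hπ g⟩
  have hlamn : ∀ (a : G) (ha : a ∈ N), lam a = l₀ ⟨a, ha⟩ := fun a ha =>
    congrArg l₀ (Subtype.ext (by show a * (π a : G)⁻¹ = a; rw [hπn a ha]; simp))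
  have hlamm : ∀ a ∈ N, ∀ b ∈ N, lam (a * b) = lam a * lam b := fun a ha b hb => by
    rw [hlamn a ha, hlamn b hb, hlamn _ (N.mul_mem ha hb), ← map_mul]; rfl
  let T : Subgroup P :=
    { carrier := {s | ∀ a ∈ N, lam ((s : G) * a * (s : G)⁻¹) = lam a}
      one_mem' := fun a _ => by simp
      mul_mem' := fun {s t} hs ht a ha => by
        rw [show ((s * t : P) : G) * a * ((s * t : P) : G)⁻¹ = (s : G) * ((t : G) * a * (t : G)⁻¹) * (s : G)⁻¹ by push_cast; group]
        rw [hs _ (hN.conj_mem a ha _), ht a ha]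
      inv_mem' := fun {s} hs a ha => by
        have h := hs _ (hN.conj_mem a ha (s : G)⁻¹)
        rw [show (s : G) * ((s : G)⁻¹ * a * (s : G)⁻¹⁻¹) * (s : G)⁻¹ = a by group] at h
        rw [Subgroup.coe_inv]
        exact h.symm }
  let K : Subgroup G := T.comap πh
  have hNK : N ≤ K := fun a ha => by show π a ∈ T; rw [hπn a ha]; exact T.one_mem
  have hzT : z ∉ T := by
    intro h
    have h1 := h n₀ hn₀
    rw [hzi n₀ hn₀, hlamn _ (N.inv_mem hn₀), hlamn _ hn₀] at h1
    have h2 : l₀ ⟨n₀, hn₀⟩ * l₀ ⟨n₀, hn₀⟩ = 1 := by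
      nth_rewrite 1 [← h1]
      rw [← map_mul]
      rw [show (⟨n₀⁻¹, N.inv_mem hn₀⟩ : N) * ⟨n₀, hn₀⟩ = 1 from Subtype.ext (inv_mul_cancel n₀), map_one]
    apply hl₀
    obtain ⟨j, hj⟩ := hqo
    have h3 : l₀ ⟨n₀, hn₀⟩ ^ q = 1 := by
      rw [← map_pow, show (⟨n₀, hn₀⟩ : N) ^ q = 1 from Subtype.ext (hNq n₀ hn₀), map_one]
    rwa [hj, pow_succ, pow_mul, pow_two, h2, one_pow, one_mul] at h3
  have hπsur : Function.Surjective πh := fun s => ⟨s, hπs s⟩
  have hKidx : K.index = T.index := T.index_comap_of_surjective hπsur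
  obtain ⟨n, hn⟩ : ∃ n, K.index = n := ⟨_, rfl⟩
  have hn2 : 2 ∣ n := by
    obtain ⟨i, hi⟩ := IsPGroup.iff_card.1 hP
    obtain ⟨j, -, hj⟩ := (Nat.dvd_prime_pow Nat.prime_two).1 (hi ▸ T.index_dvd_card)
    rw [← hn, hKidx, hj]
    refine dvd_pow_self 2 fun h => hzT ?_
    rw [h, pow_zero, Subgroup.index_eq_one] at hj
    rw [hj]; trivial
  have hn0 : n ≠ 0 := hn ▸ Subgroup.index_ne_zero_of_finite
  have hn2' : 2 ≤ n := Nat.le_of_dvd (Nat.pos_of_ne_zero hn0) hn2
  -- the induced characters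
  let A := {μ : T →* ℂˣ // ∀ t, μ t * μ t = 1}
  let lk : A → (K →* ℂˣ) := fun μ => MonoidHom.mk' (fun k => lam (k : G) * μ.1 ⟨π k, k.2⟩) (fun a b => by
    have h1 : lam ((a * b : K) : G) = lam (a : G) * lam (b : G) := by
      have e : ((a : G) * b) * (π ((a : G) * b) : G)⁻¹ =
          ((a : G) * (π a : G)⁻¹) * ((π a : G) * ((b : G) * (π b : G)⁻¹) * (π a : G)⁻¹) := by
        rw [hπmul]; push_cast; group
      show l₀ ⟨_, _⟩ = l₀ ⟨_, _⟩ * l₀ ⟨_, _⟩
      have h2 := (a.2 : π (a : G) ∈ T) _ (hπ (b : G))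
      rw [hlamn _ (hN.conj_mem _ (hπ (b : G)) _), hlamn _ (hπ (b : G))] at h2
      rw [← h2, ← map_mul]
      exact congrArg l₀ (Subtype.ext e)
    have h3 : (⟨π ((a * b : K) : G), (a * b).2⟩ : T) = (⟨π a, a.2⟩ : T) * ⟨π b, b.2⟩ := Subtype.ext (hπmul _ _)
    show lam _ * μ.1 _ = lam _ * μ.1 _ * (lam _ * μ.1 _)
    rw [h1, h3, map_mul, mul_mul_mul_comm])
  let θ : N → ℂ := fun a => (l₀ a : ℂ)
  have hθ : IsIrrCharacter N θ := isIrrCharacter_hom l₀
  have hin : K = inertia θ := by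
    ext g
    have key : ∀ a : N, θ ⟨g * (a : G) * g⁻¹, hN.conj_mem _ a.2 g⟩ = (lam ((π g : G) * (a : G) * (π g : G)⁻¹) : ℂ) := by
      intro a
      have h1 : g * (a : G) * g⁻¹ = (π g : G) * (a : G) * (π g : G)⁻¹ := by
        have h2 : (π g : G) * (a : G) * (π g : G)⁻¹ ∈ N := hN.conj_mem _ a.2 _
        calc g * (a : G) * g⁻¹ = (g * (π g : G)⁻¹) * ((π g : G) * (a : G) * (π g : G)⁻¹) * (g * (π g : G)⁻¹)⁻¹ := by group
          _ = _ := by rw [hNc _ (hπ g) _ h2, mul_inv_cancel_right]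
      rw [hlamn _ (hN.conj_mem _ a.2 _)]
      show (l₀ _ : ℂ) = _
      exact congrArg (fun x => ((l₀ x : ℂˣ) : ℂ)) (Subtype.ext h1)
    constructor
    · intro hg
      show conjFn g θ = θ
      funext a
      show θ _ = θ a
      rw [key]
      exact congrArg Units.val (((hg : π g ∈ T) _ a.2).trans (hlamn _ a.2))
    · intro hg a ha
      have h := congrFun (show conjFn g θ = θ from hg) ⟨a, ha⟩
      apply Units.ext
      exact ((key ⟨a, ha⟩).symm.trans h).trans (congrArg Units.val (hlamn a ha)).symm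
  haveI := Fintype.ofFinite K
  haveI := Fintype.ofFinite N
  let ψ : A → (K → ℂ) := fun μ k => (lk μ k : ℂ)
  have hψres : ∀ μ, (fun a : N => ψ μ ⟨(a : G), hNK a.2⟩) = θ := by
    intro μ
    funext a
    show ((lam (a : G) * μ.1 ⟨π (a : G), _⟩ : ℂˣ) : ℂ) = (l₀ a : ℂ)
    rw [show (⟨π (a : G), hNK a.2⟩ : T) = 1 from Subtype.ext (hπn _ a.2), map_one, mul_one, hlamn _ a.2]
  have hcon : ∀ μ, classInner (fun a : N => ψ μ ⟨(a : G), hNK a.2⟩) θ ≠ 0 := fun μ => by
    rw [hψres, irr_inner_self hθ]; exact one_ne_zero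
  have hψirr : ∀ μ, IsIrrCharacter K (ψ μ) := fun μ => isIrrCharacter_hom (lk μ)
  have hcl := fun μ => clifford_induced hθ K hin hNK (hψirr μ) (hcon μ)
  let X : A → IrrCharacter G := fun μ => ⟨indFun K (ψ μ), (hcl μ).1⟩
  have hXinj : Function.Injective X := by
    intro μ ν h
    have h1 := (hcl ν).2.2 (ψ μ) (hψirr μ) (hcon μ) (congrArg Subtype.val h)
    refine Subtype.ext (MonoidHom.ext fun t => Units.ext ?_)
    have h2 := congrFun h1 ⟨((t : P) : G), by show π _ ∈ T; rw [hπs]; exact t.2⟩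
    have h3 : lam ((t : P) : G) = 1 := by
      show l₀ _ = 1
      rw [← map_one l₀]
      exact congrArg l₀ (Subtype.ext (by show _ * _ = (1 : G); rw [hπs]; simp))
    have h4 : (⟨π ((t : P) : G), by rw [hπs]; exact t.2⟩ : T) = t := Subtype.ext (hπs _)
    have h5 : ((lam ((t : P) : G) * μ.1 ⟨π ((t : P) : G), by rw [hπs]; exact t.2⟩ : ℂˣ) : ℂ) =
        ((lam ((t : P) : G) * ν.1 ⟨π ((t : P) : G), by rw [hπs]; exact t.2⟩ : ℂˣ) : ℂ) := h2
    rwa [h3, one_mul, one_mul, h4] at h5
  have hXdeg : ∀ μ, charDegree (X μ : G → ℂ) = n := by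
    intro μ
    have h : (X μ : G → ℂ) 1 = (n : ℂ) := by
      show indFun K (ψ μ) 1 = _
      rw [indFun_one_apply, hn, show ψ μ 1 = 1 by simp [ψ], mul_one]
    exact_mod_cast (charDegree_cast (X μ).2.isCharacter').trans h
  have hXind : ∀ μ, (Nat.card G : ℂ)⁻¹ * ∑ᶠ g : G, (X μ : G → ℂ) (g * g) = 1 := by
    intro μ
    rw [finsum_eq_sum_of_fintype]
    let E := extendByZero K (ψ μ)
    have h1 : ∑ g : G, (X μ : G → ℂ) (g * g) = (Nat.card K : ℂ)⁻¹ * ((Nat.card G : ℂ) * ∑ g : G, E (g * g)) := by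
      show ∑ g : G, indFun K (ψ μ) (g * g) = _
      simp only [indFun_apply, ← Finset.mul_sum]
      rw [Finset.sum_comm]
      congr 1
      rw [Nat.card_eq_fintype_card, ← nsmul_eq_mul, ← Finset.card_univ, ← Finset.sum_const]
      refine Finset.sum_congr rfl fun x _ => ?_
      refine Fintype.sum_equiv (MulAut.conj x⁻¹).toEquiv _ _ fun g => ?_
      show E _ = E _
      congr 1
      simp [MulAut.conj_apply, mul_assoc]
    let e : N × P ≃ G :=
      { toFun := fun x => (x.1 : G) * (x.2 : G)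
        invFun := fun g => (⟨g * (π g : G)⁻¹, hπ g⟩, π g)
        left_inv := fun x => by
          have : π ((x.1 : G) * (x.2 : G)) = x.2 := by rw [hπmul, hπn _ x.1.2, hπs, one_mul]
          ext <;> simp [this]
        right_inv := fun g => by simp }
    have h2 : ∀ s : P, ∑ a : N, E (((a : G) * (s : G)) * ((a : G) * (s : G))) =
        if s * z ∈ T then (Nat.card N : ℂ) else 0 := by
      intro s
      have e1 : ∀ a : N, ((a : G) * (s : G)) * ((a : G) * (s : G)) =
          ((a : G) * ((s : G) * (a : G) * (s : G)⁻¹)) * ((s * s : P) : G) := fun a => by push_cast; group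
      have e3 : ∀ a : N, π (((a : G) * (s : G)) * ((a : G) * (s : G))) = s * s := fun a => by
        simp only [hπmul, hπn _ a.2, hπs, one_mul]
      by_cases hs : s * s ∈ T
      · let f : N →* ℂˣ := MonoidHom.mk' (fun a => lam ((a : G) * ((s : G) * (a : G) * (s : G)⁻¹))) (fun a b => by
          have ha := hN.conj_mem _ a.2 (s : G)
          have hb := hN.conj_mem _ b.2 (s : G)
          rw [hlamm _ a.2 _ ha, hlamm _ b.2 _ hb, hlamm _ (a * b).2 _ (hN.conj_mem _ (a * b).2 _), Subgroup.coe_mul,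
            hlamm _ a.2 _ b.2,
            show (s : G) * ((a : G) * (b : G)) * (s : G)⁻¹ = ((s : G) * (a : G) * (s : G)⁻¹) * ((s : G) * (b : G) * (s : G)⁻¹) by group,
            hlamm _ ha _ hb, mul_mul_mul_comm])
        have e4 : ∀ a : N, E (((a : G) * (s : G)) * ((a : G) * (s : G))) = (f a : ℂ) * (μ.1 ⟨s * s, hs⟩ : ℂ) := by
          intro a
          show extendByZero K (ψ μ) _ = _
          rw [extendByZero_mem _ (show _ ∈ K by show π _ ∈ T; rw [e3]; exact hs)]
          show ((lam _ * μ.1 _ : ℂˣ) : ℂ) = _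
          rw [Units.val_mul]
          congr 2
          · show l₀ _ = lam _
            rw [hlamn _ (N.mul_mem a.2 (hN.conj_mem _ a.2 _))]
            exact congrArg l₀ (Subtype.ext (by
              show ((a : G) * (s : G)) * ((a : G) * (s : G)) * _ = _
              rw [e3 a, e1 a, mul_inv_cancel_right]))
          · exact congrArg μ.1 (Subtype.ext (e3 a))
        rw [Finset.sum_congr rfl fun a _ => e4 a, ← Finset.sum_mul]
        have e5 : f = 1 ↔ s * z ∈ T := by
          have e6 : ∀ a ∈ N, lam (((s * z : P) : G) * a * ((s * z : P) : G)⁻¹) = (lam ((s : G) * a * (s : G)⁻¹))⁻¹ := by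
            intro a ha
            have h7 : ((s * z : P) : G) * a * ((s * z : P) : G)⁻¹ = (s : G) * a⁻¹ * (s : G)⁻¹ := by
              rw [← hzi a ha]; push_cast; group
            rw [h7]
            refine eq_inv_of_mul_eq_one_left ?_
            rw [← hlamm _ (hN.conj_mem _ (N.inv_mem ha) _) _ (hN.conj_mem _ ha _),
              show (s : G) * a⁻¹ * (s : G)⁻¹ * ((s : G) * a * (s : G)⁻¹) = 1 by group, hlamn 1 N.one_mem]
            exact map_one l₀
          constructor
          · intro hf a ha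
            have h8 := DFunLike.congr_fun hf ⟨a, ha⟩
            change lam (a * ((s : G) * a * (s : G)⁻¹)) = 1 at h8
            rw [hlamm _ ha _ (hN.conj_mem _ ha _)] at h8
            rw [e6 a ha]
            exact (eq_inv_of_mul_eq_one_left h8).symm
          · intro hsz
            refine MonoidHom.ext fun a => ?_
            show lam ((a : G) * ((s : G) * (a : G) * (s : G)⁻¹)) = 1
            rw [hlamm _ a.2 _ (hN.conj_mem _ a.2 _)]
            have h8 := hsz _ a.2
            rw [e6 _ a.2] at h8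
            rw [← h8, inv_mul_cancel]
        by_cases hsz : s * z ∈ T
        · rw [if_pos hsz, e5.2 hsz]
          have h9 : (⟨s * s, hs⟩ : T) = ⟨s * z, hsz⟩ * ⟨s * z, hsz⟩ := Subtype.ext (Subtype.ext (by
            push_cast
            rw [mul_assoc, ← mul_assoc (z : G), ← hzc s, mul_assoc, hz2, mul_one]))
          rw [h9, map_mul, μ.2]
          simp [Nat.card_eq_fintype_card]
        · rw [if_neg hsz, sum_hom_eq_zero f (fun h => hsz (e5.1 h)), zero_mul]
      · rw [if_neg]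
        · refine Finset.sum_eq_zero fun a _ => extendByZero_not_mem _ ?_
          show ¬ π _ ∈ T
          rw [e3]; exact hs
        · intro hsz
          apply hs
          have h10 : s * s = (s * z) * (s * z) := Subtype.ext (by
            push_cast
            rw [mul_assoc (s : G) (z : G), ← mul_assoc (z : G), ← hzc s, mul_assoc (s : G) (z : G), hz2, mul_one])
          rw [h10]; exact T.mul_mem hsz hsz
    have h3 : ∑ g : G, E (g * g) = (Nat.card T : ℂ) * (Nat.card N : ℂ) := by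
      rw [← Equiv.sum_comp e, Fintype.sum_prod_type, Finset.sum_comm]
      show ∑ s : P, ∑ a : N, E (((a : G) * (s : G)) * ((a : G) * (s : G))) = _
      rw [Finset.sum_congr rfl fun s _ => h2 s, ← Finset.sum_filter, Finset.sum_const, nsmul_eq_mul]
      congr 2
      rw [Nat.card_eq_fintype_card, Fintype.card_subtype]
      refine Finset.card_equiv (Equiv.mulRight z) fun s => by simp
    have h4 : Nat.card K = Nat.card T * Nat.card N := by
      let ek : K ≃ N × T :=
        { toFun := fun k => (⟨(k : G) * (π (k : G) : G)⁻¹, hπ _⟩, ⟨π (k : G), k.2⟩)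
          invFun := fun x => ⟨(x.1 : G) * ((x.2 : P) : G), by
            show π _ ∈ T; rw [hπmul, hπn _ x.1.2, hπs, one_mul]; exact x.2.2⟩
          left_inv := fun k => Subtype.ext (by simp)
          right_inv := fun x => by
            have : π ((x.1 : G) * ((x.2 : P) : G)) = (x.2 : P) := by rw [hπmul, hπn _ x.1.2, hπs, one_mul]
            ext <;> simp [this] }
      rw [Nat.card_congr ek, Nat.card_prod, mul_comm]
    rw [h1, h3, h4, Nat.cast_mul]
    have c1 : (Nat.card G : ℂ) ≠ 0 := Nat.cast_ne_zero.2 Nat.card_pos.ne'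
    have c2 : (Nat.card T : ℂ) ≠ 0 := Nat.cast_ne_zero.2 Nat.card_pos.ne'
    have c3 : (Nat.card N : ℂ) ≠ 0 := Nat.cast_ne_zero.2 Nat.card_pos.ne'
    field_simp
  -- linear real characters
  let B := {φ : G →* ℂˣ // ∀ g, φ g * φ g = 1}
  haveI : Finite (G →* ℂˣ) := Finite.of_injective (linCharEquiv (G := G)) (Equiv.injective _)
  haveI : Finite (T →* ℂˣ) := Finite.of_injective (linCharEquiv (G := T)) (Equiv.injective _)
  haveI : Fintype A := Fintype.ofFinite A
  haveI : Fintype B := Fintype.ofFinite B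
  have hBN : ∀ φ : B, ∀ a ∈ N, φ.1 a = 1 := by
    intro φ a ha
    obtain ⟨j, hj⟩ := hqo
    have h1 : φ.1 a ^ q = 1 := by rw [← map_pow, hNq a ha, map_one]
    rwa [hj, pow_succ, pow_mul, pow_two, φ.2, one_pow, one_mul] at h1
  let res : B → A := fun φ => ⟨φ.1.comp ((P.subtype).comp T.subtype), fun t => φ.2 _⟩
  have hB : Fintype.card B ≤ n * Fintype.card A := by
    have hh := Finset.card_le_mul_card_image (f := res) (s := Finset.univ) n (fun a ha => ?_)
    · exact le_trans hh (Nat.mul_le_mul_left n (Finset.card_le_univ _))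
    · obtain ⟨φ₀, -, rfl⟩ := Finset.mem_image.1 ha
      rw [← Fintype.card_subtype, ← Nat.card_eq_fintype_card, ← hn]
      haveI : Finite {φ : G →* ℂˣ // ∀ k ∈ K, φ k = 1} := Subtype.finite
      refine le_trans (Nat.card_le_card_of_injective (fun φ => (⟨φ.1.1 * φ₀.1, fun k hk => ?_⟩ : {φ : G →* ℂˣ // ∀ k ∈ K, φ k = 1})) ?_) (card_hom_trivial_le K)
      · have h1 := DFunLike.congr_fun (congrArg Subtype.val φ.2) (⟨π k, hk⟩ : T)
        have h2 : k = k * (π k : G)⁻¹ * (π k : G) := by group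
        change φ.1.1 (π k : G) = φ₀.1 (π k : G) at h1
        show φ.1.1 k * φ₀.1 k = 1
        rw [h2, map_mul φ.1.1, map_mul φ₀.1, hBN φ.1 _ (hπ k), hBN φ₀ _ (hπ k), one_mul, one_mul, h1, φ₀.2]
      · intro φ ψ' h
        exact Subtype.ext (Subtype.ext (mul_right_cancel (congrArg Subtype.val h)))
  let S : Finset (IrrCharacter G) := Finset.univ.filter fun χ =>
    (charDegree (χ : G → ℂ) = 1 ∨ 2 ∣ charDegree (χ : G → ℂ)) ∧ (Nat.card G : ℂ)⁻¹ * ∑ᶠ g : G, (χ : G → ℂ) (g * g) = 1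
  rw [finsum_eq_sum_of_fintype, Nat.card_eq_fintype_card, Fintype.card_subtype,
    ← Finset.sum_subtype S (fun χ => by simp [S]) (fun χ : IrrCharacter G => charDegree (χ : G → ℂ))]
  show 4 * S.card ≤ 3 * _
  have hX : Finset.univ.image X ⊆ S.filter (fun χ : IrrCharacter G => ¬ charDegree (χ : G → ℂ) = 1) := by
    intro χ hχ
    obtain ⟨μ, -, rfl⟩ := Finset.mem_image.1 hχ
    simp only [S, Finset.mem_filter, Finset.mem_univ, true_and]
    exact ⟨⟨Or.inr (by rw [hXdeg]; exact hn2), hXind μ⟩, by rw [hXdeg]; omega⟩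
  have hL : (S.filter fun χ : IrrCharacter G => charDegree (χ : G → ℂ) = 1).card ≤ Fintype.card B := by
    rw [← Finset.card_univ]
    refine Finset.card_le_card_of_surjOn (fun φ : B => (⟨fun g => (φ.1 g : ℂ), isIrrCharacter_hom φ.1⟩ : IrrCharacter G)) ?_
    intro χ hχ
    rw [Finset.mem_coe, Finset.mem_filter] at hχ
    obtain ⟨hχS, h1⟩ := hχ
    have hd1 : (χ : G → ℂ) 1 = 1 := by rw [← charDegree_cast χ.2.isCharacter', h1, Nat.cast_one]
    obtain ⟨f, hf⟩ := exists_hom_of_degree_one χ.2.isCharacter' hd1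
    have hsq := (Finset.mem_filter.1 hχS).2.2
    rw [finsum_eq_sum_of_fintype, hf] at hsq
    have hff : f * f = 1 := by
      by_contra hne
      have h := sum_hom_eq_zero (f * f) hne
      have h' : ∑ g : G, (f (g * g) : ℂ) = 0 := by rw [← h]; exact Finset.sum_congr rfl fun g _ => by simp
      rw [h', mul_zero] at hsq
      exact zero_ne_one hsq
    exact ⟨⟨f, fun g => DFunLike.congr_fun hff g⟩, Finset.mem_univ _, Subtype.ext hf.symm⟩
  have hsum := Finset.sum_filter_add_sum_filter_not S (fun χ : IrrCharacter G => charDegree (χ : G → ℂ) = 1) (fun χ : IrrCharacter G => charDegree (χ : G → ℂ))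
  have hcnt := Finset.card_filter_add_card_filter_not (s := S) (fun χ : IrrCharacter G => charDegree (χ : G → ℂ) = 1)
  have h1 : ∑ χ ∈ S.filter (fun χ : IrrCharacter G => charDegree (χ : G → ℂ) = 1), charDegree (χ : G → ℂ) = (S.filter fun χ : IrrCharacter G => charDegree (χ : G → ℂ) = 1).card := by
    rw [Finset.card_eq_sum_ones]
    exact Finset.sum_congr rfl fun χ hχ => (Finset.mem_filter.1 hχ).2
  have hge : ∀ χ ∈ S.filter (fun χ : IrrCharacter G => ¬ charDegree (χ : G → ℂ) = 1), 2 ≤ charDegree (χ : G → ℂ) := by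
    intro χ hχ
    obtain ⟨hS, hne⟩ := Finset.mem_filter.1 hχ
    have := charDegree_pos χ
    omega
  let E' := (S.filter fun χ : IrrCharacter G => ¬ charDegree (χ : G → ℂ) = 1) \ Finset.univ.image X
  have h2 : 2 * E'.card ≤ ∑ χ ∈ E', charDegree (χ : G → ℂ) := by
    rw [mul_comm, ← smul_eq_mul, ← Finset.sum_const]
    exact Finset.sum_le_sum fun χ hχ => hge χ (Finset.mem_sdiff.1 hχ).1
  have h3 := Finset.sum_sdiff hX (f := fun χ : IrrCharacter G => charDegree (χ : G → ℂ))
  have h4 : ∑ χ ∈ Finset.univ.image X, charDegree (χ : G → ℂ) = n * Fintype.card A := by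
    rw [Finset.sum_image hXinj.injOn]
    simp [hXdeg, mul_comm]
  have h5 := Finset.card_sdiff_add_card_eq_card hX
  rw [Finset.card_image_of_injective _ hXinj, Finset.card_univ] at h5
  have h6 : 2 * Fintype.card A ≤ n * Fintype.card A := Nat.mul_le_mul_right _ hn2'
  simp only [E'] at h2
  omega


end Cfsg.Agent.S4871
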