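import Cfsg.Statements.S4872
import Cfsg.Agent.Lib.CharDegree
import Cfsg.Agent.Lib.CharIndicator
import Cfsg.Agent.Lib.CharPerm
import Cfsg.Agent.Lib.CharGalois
import Cfsg.Agent.Lib.BlockRegular
import Mathlib.LinearAlgebra.Trace
import Mathlib.GroupTheory.Sylow

set_option autoImplicit false
set_option maxHeartbeats 400000
open Cfsg

namespace Cfsg.Agent.S4872

universe w

open CfsgLib.Char CfsgLib.Block
open scoped ComplexConjugate Classical Matrix

/-- fixed spaces of a subgroup in a symplectic representation have even dimension -/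
theorem even_fixed {G : Type w} [Group G] [Fintype G] (P : Subgroup G) {χ : G → ℂ} (hχ : IsIrrCharacter G χ)
    (hν : sqIndicator χ = -1) {a : ℕ} (ha : (Nat.card P : ℂ)⁻¹ * ∑ s : P, χ s = a) : Even a := by
  obtain ⟨n, ρ, hρ, rfl⟩ := id hχ
  haveI := hρ
  obtain ⟨r, r₁, r₂, hsum, hν', -, halt⟩ := sqIndicator_parts ρ
  have hr2 : r₂ ≠ 0 := by
    intro h
    rw [hν', h, Nat.cast_zero, sub_zero] at hν
    have : ((r₁ + 1 : ℕ) : ℂ) = 0 := by push_cast; rw [hν]; ring
    exact Nat.succ_ne_zero r₁ (Nat.cast_eq_zero.1 this)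
  obtain ⟨M, hM0, hMt, hMg⟩ := halt hr2
  have hA : ∀ g : G, LinearMap.toMatrix' (ρ g) * M = M * (LinearMap.toMatrix' (ρ g⁻¹))ᵀ := fun g => by
    conv_rhs => rw [← hMg g]
    rw [mul_assoc, ← Matrix.transpose_mul, ← LinearMap.toMatrix'_comp,
      ← Module.End.mul_eq_comp, ← map_mul, inv_mul_cancel, map_one, Module.End.one_eq_id,
      LinearMap.toMatrix'_id, Matrix.transpose_one, mul_one]
  have hu : IsUnit M := by
    have hstab : ∀ g : G, ∀ v ∈ LinearMap.range M.mulVecLin, ρ g v ∈ LinearMap.range M.mulVecLin := by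
      rintro g _ ⟨w, rfl⟩
      refine ⟨((LinearMap.toMatrix' (ρ g⁻¹))ᵀ).mulVec w, ?_⟩
      rw [Matrix.mulVecLin_apply, Matrix.mulVecLin_apply, Matrix.mulVec_mulVec, ← hA g,
        ← Matrix.mulVec_mulVec, LinearMap.toMatrix'_mulVec]
    rcases subrep_eq_bot_or_eq_top ρ _ hstab with h | h
    · rw [LinearMap.range_eq_bot] at h
      exact absurd (Matrix.toLin'.injective (h.trans (map_zero _).symm)) hM0
    · exact Matrix.mulVec_surjective_iff_isUnit.mp fun v => by
        obtain ⟨w, hw⟩ := h.ge (Submodule.mem_top (x := v))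
        exact ⟨w, hw⟩
  let A : G → Matrix (Fin n) (Fin n) ℂ := fun g => LinearMap.toMatrix' (ρ g)
  have hAmul : ∀ g h, A (g * h) = A g * A h := fun g h => by
    show LinearMap.toMatrix' (ρ (g * h)) = _
    rw [map_mul, Module.End.mul_eq_comp, LinearMap.toMatrix'_comp]
  let E : Matrix (Fin n) (Fin n) ℂ := (Nat.card P : ℂ)⁻¹ • ∑ s : P, A (s : G)
  have hP0 : (Nat.card P : ℂ) ≠ 0 := Nat.cast_ne_zero.2 Nat.card_pos.ne'
  have hEE : E * E = E := by
    have h1 : ∀ s : P, A (s : G) * ∑ t : P, A (t : G) = ∑ t : P, A (t : G) := fun s => by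
      rw [Finset.mul_sum]
      exact Fintype.sum_equiv (Equiv.mulLeft s) _ _ fun t => (hAmul s t).symm
    show ((Nat.card P : ℂ)⁻¹ • _) * ((Nat.card P : ℂ)⁻¹ • _) = _
    rw [smul_mul_smul_comm, Finset.sum_mul, Finset.sum_congr rfl fun s _ => h1 s, Finset.sum_const,
      Finset.card_univ, ← Nat.card_eq_fintype_card, ← Nat.cast_smul_eq_nsmul ℂ, smul_smul]
    congr 1
    field_simp
  have hEM : E * M = M * Eᵀ := by
    show ((Nat.card P : ℂ)⁻¹ • _) * M = M * ((Nat.card P : ℂ)⁻¹ • _)ᵀ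
    rw [Matrix.transpose_smul, Matrix.smul_mul, Matrix.mul_smul, Finset.sum_mul, Matrix.transpose_sum, Finset.mul_sum]
    congr 1
    exact Fintype.sum_equiv (Equiv.inv P) _ _ fun s => hA (s : G)
  have htrace : E.trace = (a : ℂ) := by
    rw [← ha, Matrix.trace_smul, Matrix.trace_sum, smul_eq_mul]
    congr 1
    refine Finset.sum_congr rfl fun s _ => ?_
    show (LinearMap.toMatrix' (ρ (s : G))).trace = LinearMap.trace ℂ _ (ρ (s : G))
    rw [LinearMap.trace_eq_matrix_trace ℂ (Pi.basisFun ℂ (Fin n)), LinearMap.toMatrix_eq_toMatrix']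
  let f : (Fin n → ℂ) →ₗ[ℂ] (Fin n → ℂ) := Matrix.toLin' Eᵀ
  obtain ⟨d, hd⟩ : ∃ d, Module.finrank ℂ (LinearMap.range f) = d := ⟨_, rfl⟩
  let b := (Module.finBasis ℂ (LinearMap.range f)).reindex (finCongr hd)
  let K : Matrix (Fin n) (Fin d) ℂ := LinearMap.toMatrix' ((LinearMap.range f).subtype.comp b.equivFun.symm.toLinearMap)
  let L : Matrix (Fin d) (Fin n) ℂ := LinearMap.toMatrix' (b.equivFun.toLinearMap.comp f.rangeRestrict)
  have hKL : K * L = Eᵀ := by
    rw [← LinearMap.toMatrix'_comp, ← LinearMap.toMatrix'_toLin' Eᵀ]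
    congr 1
    refine LinearMap.ext fun v => ?_
    show ((b.equivFun.symm (b.equivFun (f.rangeRestrict v)) : LinearMap.range f) : Fin n → ℂ) = f v
    rw [LinearEquiv.symm_apply_apply]
    rfl
  have hLK : L * K = 1 := by
    rw [← LinearMap.toMatrix'_comp, ← LinearMap.toMatrix'_id]
    congr 1
    refine LinearMap.ext fun v => ?_
    simp only [LinearMap.comp_apply, LinearMap.id_apply, LinearEquiv.coe_coe]
    obtain ⟨⟨x, y, hy⟩, rfl⟩ : ∃ w, b.equivFun w = v := ⟨b.equivFun.symm v, LinearEquiv.apply_symm_apply _ _⟩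
    congr 1
    rw [LinearEquiv.symm_apply_apply]
    apply Subtype.ext
    show f x = x
    rw [← hy]
    show Matrix.toLin' Eᵀ (Matrix.toLin' Eᵀ y) = Matrix.toLin' Eᵀ y
    rw [← LinearMap.comp_apply, ← Matrix.toLin'_mul, ← Matrix.transpose_mul, hEE]
  have hda : d = a := by
    have h1 : (K * L).trace = (L * K).trace := Matrix.trace_mul_comm K L
    rw [hKL, hLK, Matrix.trace_transpose, htrace, Matrix.trace_one, Fintype.card_fin] at h1
    exact_mod_cast h1.symm
  have hinv : (Kᵀ * M * K) * (L * M⁻¹ * Lᵀ) = 1 := by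
    have hMd : IsUnit M.det := (Matrix.isUnit_iff_isUnit_det M).1 hu
    calc (Kᵀ * M * K) * (L * M⁻¹ * Lᵀ) = Kᵀ * (M * (K * L)) * M⁻¹ * Lᵀ := by simp only [Matrix.mul_assoc]
      _ = Kᵀ * E * (M * M⁻¹) * Lᵀ := by rw [hKL, ← hEM]; simp only [Matrix.mul_assoc]
      _ = Kᵀ * E * Lᵀ := by rw [Matrix.mul_nonsing_inv _ hMd, Matrix.mul_one]
      _ = (L * Eᵀ * K)ᵀ := by simp only [Matrix.transpose_mul, Matrix.transpose_transpose, Matrix.mul_assoc]
      _ = 1 := by
        rw [← hKL, ← Matrix.mul_assoc L K L, hLK, Matrix.one_mul, hLK, Matrix.transpose_one]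
  rw [← hda, ← Nat.not_odd_iff_even]
  intro hodd
  have hS : (Kᵀ * M * K)ᵀ = -(Kᵀ * M * K) := by
    simp only [Matrix.transpose_mul, Matrix.transpose_transpose, hMt, Matrix.neg_mul, Matrix.mul_neg, Matrix.mul_assoc]
  have h1 : (Kᵀ * M * K).det = -(Kᵀ * M * K).det := by
    conv_lhs => rw [← Matrix.det_transpose, hS, Matrix.det_neg, Fintype.card_fin, hodd.neg_one_pow, neg_one_mul]
  have h2 : (Kᵀ * M * K).det = 0 := by linear_combination (1 / 2 : ℂ) * h1
  have h3 := congrArg Matrix.det hinv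
  rw [Matrix.det_mul, h2, zero_mul, Matrix.det_one] at h3
  exact zero_ne_one h3

/-- Let N be a normal subgroup of the finite group G with G/N a 2-group, and let φ be an irreducible complex character of N of 2-defect zero (the 2-part of #N divides φ(1)) whose complex conjugate is G-conjugate to φ. Then some irreducible character of G with Frobenius–Schur indicator +1 contains φ with multiplicity exactly one on restriction to N. -/
theorem result {G : Type*} [Group G] [Finite G] (N : Subgroup G) [N.Normal] (h2 : IsPGroup 2 (G ⧸ N)) (φ : Cfsg.IrrCharacter ↥N) (hdef : 2 ^ (Nat.card ↥N).factorization 2 ∣ Cfsg.charDegree (φ : ↥N → ℂ)) (hconj : ∃ g : G, ∀ n n' : ↥N, (n' : G) = g * (n : G) * g⁻¹ → (φ : ↥N → ℂ) n' = (starRingEnd ℂ) ((φ : ↥N → ℂ) n)) : ∃ χ : Cfsg.IrrCharacter G, (Nat.card G : ℂ)⁻¹ * ∑ᶠ g : G, (χ : G → ℂ) (g * g) = 1 ∧ (Nat.card ↥N : ℂ)⁻¹ * ∑ᶠ n : ↥N, (χ : G → ℂ) n * (starRingEnd ℂ) ((φ : ↥N → ℂ) n) = 1 := by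
  classical
  haveI := Fintype.ofFinite G
  haveI := Fintype.ofFinite N
  haveI : Fact (Nat.Prime 2) := ⟨Nat.prime_two⟩
  obtain ⟨P⟩ : Nonempty (Sylow 2 G) := inferInstance
  obtain ⟨k, hk⟩ := IsPGroup.iff_card.1 h2
  have hidx : N.index = 2 ^ k := hk
  let one : ↥(P : Subgroup G) → ℂ := fun _ => 1
  have hone : IsCharacter (P : Subgroup G) one := isCharacter_one
  choose a ha using fun χ : IrrCharacter G => inner_character_nat (isCharacter_restrict χ.2.isCharacter' (P : Subgroup G)) hone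
  choose m hm using fun χ : IrrCharacter G => inner_character_nat (isCharacter_restrict χ.2.isCharacter' N) φ.2.isCharacter'
  have haS : ∀ χ : IrrCharacter G, (Nat.card (P : Subgroup G) : ℂ)⁻¹ * ∑ s : (P : Subgroup G), (χ : G → ℂ) s = a χ := fun χ => by
    rw [← ha χ]; simp [classInner, one]
  -- the degree of `φ`
  have hv : ∀ x : N, 2 ∣ orderOf x → (φ : N → ℂ) x = 0 := by
    intro x hx
    obtain ⟨n, ρ, hρ, he⟩ := φ.2
    haveI := hρ
    rw [← he]
    refine vanish_of_defect_zero ρ Nat.prime_two (Nat.ordProj_dvd _ 2) (Nat.pow_succ_factorization_not_dvd Nat.card_pos.ne' Nat.prime_two) ?_ hx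
    have hn : charDegree (φ : N → ℂ) = Module.finrank ℂ (Fin n → ℂ) := by
      have h1 := charDegree_cast φ.2.isCharacter'
      conv_rhs at h1 => rw [← he, ρ.char_one]
      exact_mod_cast h1
    rw [← hn]; exact hdef
  obtain ⟨d, hd⟩ := hdef
  have hdodd : ¬ 2 ∣ d := by
    intro h
    have h1 := charDegree_dvd_card φ
    rw [hd] at h1
    refine Nat.pow_succ_factorization_not_dvd (Nat.card_pos (α := N)).ne' Nat.prime_two (dvd_trans ?_ h1)
    rw [pow_succ]; exact Nat.mul_dvd_mul_left _ h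
  have hcardP : Nat.card (P : Subgroup G) = N.index * 2 ^ (Nat.card N).factorization 2 := by
    rw [P.card_eq_multiplicity, ← N.card_mul_index, hidx,
      Nat.factorization_mul Nat.card_pos.ne' (pow_ne_zero _ two_ne_zero), Finsupp.add_apply,
      Nat.prime_two.factorization_pow, Finsupp.single_eq_same, pow_add, mul_comm]
  -- the weighted number of constituents
  have hsum : (((∑ χ : IrrCharacter G, a χ * m χ : ℕ)) : ℂ) = (d : ℂ) := by
    let π : G → ℂ := indFun (P : Subgroup G) one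
    have hdec : π = ∑ χ : IrrCharacter G, (a χ : ℂ) • (χ : G → ℂ) := by
      have h := classFunction_eq_sum π (indFun_classFunction one)
      rw [h]
      refine Finset.sum_congr rfl fun χ _ => ?_
      congr 1
      rw [frobenius one _ (irr_classFunction χ), ← CfsgLib.Char.inner_conj_symm, ha χ, Complex.conj_natCast]
    have h1 : classInner (fun n : N => π n) (φ : N → ℂ) = ∑ χ : IrrCharacter G, (a χ : ℂ) * (m χ : ℂ) := by
      simp only [classInner, hdec, Finset.sum_apply, Pi.smul_apply, smul_eq_mul, Finset.sum_mul]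
      rw [Finset.sum_comm, Finset.mul_sum]
      refine Finset.sum_congr rfl fun χ _ => ?_
      rw [← hm χ, classInner, Finset.mul_sum, Finset.mul_sum, Finset.mul_sum]
      exact Finset.sum_congr rfl fun n _ => by ring
    push_cast
    rw [← h1]
    have h2 : ∀ x : G, ∑ n : N, extendByZero (P : Subgroup G) one (x⁻¹ * (n : G) * x) * conj ((φ : N → ℂ) n) = (charDegree (φ : N → ℂ) : ℂ) := by
      intro x
      rw [Finset.sum_eq_single (1 : N)]
      · rw [OneMemClass.coe_one, mul_one, inv_mul_cancel, extendByZero_mem _ (one_mem _), one_mul,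
          ← charDegree_cast φ.2.isCharacter', Complex.conj_natCast]
      · intro n _ hn
        by_cases h : x⁻¹ * (n : G) * x ∈ (P : Subgroup G)
        · rw [hv n, map_zero, mul_zero]
          obtain ⟨j, hj⟩ := IsPGroup.iff_orderOf.1 P.isPGroup' ⟨_, h⟩
          rw [Subgroup.orderOf_mk, show x⁻¹ * (n : G) * x = x⁻¹ * (n : G) * x⁻¹⁻¹ by group, orderOf_conj_eq, Subgroup.orderOf_coe] at hj
          rw [hj]
          refine dvd_pow_self 2 fun h0 => hn ?_
          rw [h0, pow_zero, orderOf_eq_one_iff] at hj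
          exact hj
        · rw [extendByZero_not_mem _ h, zero_mul]
      · intro h; exact absurd (Finset.mem_univ _) h
    simp only [classInner, π, indFun_apply, mul_assoc, Finset.sum_mul]
    rw [← Finset.mul_sum, Finset.sum_comm]
    have h3 : ∀ x : G, ∑ n : N, extendByZero (P : Subgroup G) one (x⁻¹ * ((n : G) * x)) * conj ((φ : N → ℂ) n) = (charDegree (φ : N → ℂ) : ℂ) := fun x => by
      simpa only [mul_assoc] using h2 x
    rw [Finset.sum_congr rfl fun x _ => h3 x, Finset.sum_const, Finset.card_univ, nsmul_eq_mul, ← Nat.card_eq_fintype_card,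
      hcardP, ← N.card_mul_index, hd]
    have c1 : (Nat.card N : ℂ) ≠ 0 := Nat.cast_ne_zero.2 Nat.card_pos.ne'
    have c2 : (N.index : ℂ) ≠ 0 := Nat.cast_ne_zero.2 Subgroup.index_ne_zero_of_finite
    push_cast
    field_simp
  have hodd : ¬ 2 ∣ ∑ χ : IrrCharacter G, a χ * m χ := by
    rw [Nat.cast_inj.1 hsum]; exact hdodd
  -- complex conjugation
  obtain ⟨g₀, hg₀⟩ := hconj
  have hbar : ∀ χ : IrrCharacter G, a (irrConj χ) * m (irrConj χ) = a χ * m χ := by
    intro χ
    have e : ∀ x, (irrConj χ : G → ℂ) x = conj ((χ : G → ℂ) x) := fun x => rfl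
    have h1 : a (irrConj χ) = a χ := by
      have h := haS (irrConj χ)
      simp only [e] at h
      have h' := congrArg conj (haS χ)
      rw [map_mul, map_inv₀, Complex.conj_natCast, map_sum, Complex.conj_natCast, h] at h'
      exact_mod_cast h'
    have h2 : m (irrConj χ) = m χ := by
      have h := hm (irrConj χ)
      simp only [classInner, e] at h
      have h' := congrArg conj (hm χ)
      simp only [classInner, map_mul, map_inv₀, Complex.conj_natCast, map_sum, Complex.conj_conj] at h'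
      have hmid : ∑ n : N, conj ((χ : G → ℂ) n) * (φ : N → ℂ) n = ∑ n : N, conj ((χ : G → ℂ) n) * conj ((φ : N → ℂ) n) := by
        symm
        refine Fintype.sum_equiv (MulAut.conjNormal g₀ : MulAut N).toEquiv _ _ fun n => ?_
        show _ = conj ((χ : G → ℂ) ((MulAut.conjNormal g₀ n : N) : G)) * (φ : N → ℂ) (MulAut.conjNormal g₀ n)
        rw [hg₀ n _ (MulAut.conjNormal_apply g₀ n), MulAut.conjNormal_apply, irr_classFunction χ (n : G) g₀]
      rw [hmid, h] at h'
      exact_mod_cast h'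
    rw [h1, h2]
  have hinv : ∀ χ : IrrCharacter G, irrConj (irrConj χ) = χ := fun χ => Subtype.ext (funext fun x => Complex.conj_conj _)
  obtain ⟨χ, hχr, hχo⟩ : ∃ χ : IrrCharacter G, irrConj χ = χ ∧ ¬ 2 ∣ a χ * m χ := by
    by_contra hno
    push Not at hno
    apply hodd
    rw [← ZMod.natCast_eq_zero_iff_even.trans even_iff_two_dvd]
    push_cast
    refine Finset.sum_ninvolution irrConj (fun χ => ?_) (fun χ hne => ?_) (fun χ => Finset.mem_univ _) hinv
    · have : ((a (irrConj χ) * m (irrConj χ) : ℕ) : ZMod 2) = ((a χ * m χ : ℕ) : ZMod 2) := by rw [hbar]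
      push_cast at this
      rw [this]
      exact CharTwo.add_self_eq_zero _
    · intro h
      apply hne
      have := (ZMod.natCast_eq_zero_iff_even (n := a χ * m χ)).2 (even_iff_two_dvd.2 (hno χ h))
      exact_mod_cast this
  have hao : ¬ 2 ∣ a χ := fun h => hχo (dvd_mul_of_dvd_left h _)
  have hmo : ¬ 2 ∣ m χ := fun h => hχo (dvd_mul_of_dvd_right h _)
  have hreal := (irrConj_eq_self_iff χ).1 hχr
  have hν : sqIndicator (χ : G → ℂ) = 1 := by
    obtain ⟨h1, h2⟩ := sqIndicator_trichotomy χ.2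
    rcases h1 with h | h | h
    · obtain ⟨s, hs⟩ := h2.1 h
      exact absurd (hreal s) hs
    · exact h
    · exact absurd (even_fixed (P : Subgroup G) χ.2 h (haS χ)).two_dvd hao
  have hm1 : m χ = 1 := by
    have hcon : classInner (fun n : N => (χ : G → ℂ) n) (φ : N → ℂ) ≠ 0 := by
      rw [hm χ, Nat.cast_ne_zero]
      intro h; exact hmo (h ▸ dvd_zero 2)
    obtain ⟨j, hj, hjd⟩ := degree_ratio χ.2 φ.2 hcon
    haveI := Fintype.ofFinite (inertia (φ : N → ℂ))
    have hcd := clifford_degree χ.2 φ.2 hcon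
    rw [hm χ, hj] at hcd
    have hφ1 : (φ : N → ℂ) 1 ≠ 0 := irr_one_ne_zero φ
    have hje := mul_right_cancel₀ hφ1 hcd
    have hje' : j = m χ * (inertia (φ : N → ℂ)).index := by exact_mod_cast hje
    obtain ⟨i, -, hi⟩ := (Nat.dvd_prime_pow Nat.prime_two).1 (hidx ▸ (Dvd.intro _ hje'.symm).trans hjd)
    rcases i.eq_zero_or_pos with h0 | h0
    · rw [hi, h0, pow_zero]
    · exact absurd (hi ▸ dvd_pow_self 2 h0.ne') hmo
  refine ⟨χ, ?_, ?_⟩
  · rw [finsum_eq_sum_of_fintype]; exact hν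
  · rw [finsum_eq_sum_of_fintype]
    have h := hm χ
    rw [hm1, Nat.cast_one] at h
    exact h


end Cfsg.Agent.S4872
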