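import Cfsg.Statements.S4888
import Cfsg.Agent.Lib.BlockPrinInduce
import Cfsg.Agent.Lib.CoreTransfer
import Cfsg.Agent.Lib.CorePGroup
import Cfsg.Agent.Lib.CharLinear
import Cfsg.Agent.Lib.CharDegree

set_option autoImplicit false
open Cfsg
open CfsgLib.Block CfsgLib.Char

namespace Cfsg.Agent.S4888

/-- Let G be a finite group, p a prime and M a maximal ideal of the algebraic integers containing p. Then all height-zero irreducible characters of the principal p-block of G (equivalently, all its characters of degree prime to p) have the same degree if and only if G has a normal p-complement. -/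
theorem result {G : Type*} [Group G] [Finite G] (p : ℕ) [Fact p.Prime] (M : Ideal Cfsg.AlgInt) (hM : Cfsg.IsPModular p M) : (∃ d : ℕ, ∀ χ : Cfsg.IrrCharacter G, χ ∈ (Cfsg.principalBlock M G) → Cfsg.blockHeight p (Cfsg.principalBlock M G) (χ : G → ℂ) = 0 → Cfsg.charDegree (χ : G → ℂ) = d) ↔ Cfsg.HasNormalPComplement p G := by
  classical
  haveI := Fintype.ofFinite G
  constructor
  · rintro ⟨d, hd⟩
    have hlin : ∀ χ ∈ principalBlock M G, ¬ p ∣ charDegree (χ : G → ℂ) → (χ : G → ℂ) 1 = 1 := by
      intro χ hχ hp'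
      have h1 := hd _ (trivIrr_mem_principal hM)
        ((blockHeight_principal_eq_zero_iff hM _).2 not_dvd_degree_triv)
      have h2 := hd χ hχ ((blockHeight_principal_eq_zero_iff hM χ).2 hp')
      rw [← charDegree_cast χ.2.isCharacter', h2, ← h1,
        charDegree_cast (trivIrr G).2.isCharacter']
      rfl
    obtain ⟨P⟩ : Nonempty (Sylow p G) := inferInstance
    haveI := Fintype.ofFinite ↥(P : Subgroup G)
    have hPG : ∀ x : ↥(P : Subgroup G), (x : G) ∈ commutator G →
        x ∈ commutator ↥(P : Subgroup G) := by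
      intro x hx
      by_contra hn
      have hne : Abelianization.of x ≠ 1 := fun e => hn ((QuotientGroup.eq_one_iff x).1 e)
      haveI : NeZero (Monoid.exponent (Abelianization ↥(P : Subgroup G))) :=
        ⟨Monoid.exponent_ne_zero_of_finite⟩
      obtain ⟨φ, hφ⟩ := CommGroup.exists_apply_ne_one_of_hasEnoughRootsOfUnity
        (Abelianization ↥(P : Subgroup G)) ℂ hne
      set μ : ↥(P : Subgroup G) →* ℂˣ := φ.comp Abelianization.of with hμ
      let ξ : IrrCharacter ↥(P : Subgroup G) := ⟨_, isIrrCharacter_hom μ⟩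
      have hξ1 : ¬ p ∣ charDegree (ξ : ↥(P : Subgroup G) → ℂ) := by
        have : charDegree (ξ : ↥(P : Subgroup G) → ℂ) = 1 := by
          show ⌊((μ 1 : ℂˣ) : ℂ).re⌋₊ = 1
          simp
        rw [this]
        exact (Fact.out : p.Prime).not_dvd_one
      obtain ⟨χ, hχB, hχp, hin⟩ := exists_over_sylow_linear hM P ξ hξ1
      obtain ⟨f, hf⟩ := exists_hom_of_degree_one χ.2.isCharacter' (hlin χ hχB hχp)
      have heq : f.comp (P : Subgroup G).subtype = μ := by
        by_contra hne'
        refine hin ?_
        rw [hf]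
        refine irr_inner_ne (isIrrCharacter_hom (f.comp (P : Subgroup G).subtype)) ξ.2
          fun e => hne' (MonoidHom.ext fun y => Units.ext ?_)
        exact congrFun e y
      have h3 : f (x : G) = 1 := MonoidHom.mem_ker.1 (Abelianization.commutator_subset_ker f hx)
      refine hφ ?_
      have := congrFun (congrArg DFunLike.coe heq) x
      simp only [hμ, MonoidHom.comp_apply, Subgroup.coe_subtype, h3] at this
      exact this.symm
    -- the normal subgroup with `p`-group abelian quotient
    set m := Nat.card (Abelianization G) / p ^ (Nat.card (Abelianization G)).factorization p with hm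
    let N : Subgroup G := (powMonoidHom m : Abelianization G →* Abelianization G).ker.comap
      Abelianization.of
    have hpm : ¬ p ∣ m := Nat.not_dvd_ordCompl (Fact.out : p.Prime) Nat.card_pos.ne'
    have hNP : N ⊓ (P : Subgroup G) ≤ (frattini ↥(P : Subgroup G)).map (P : Subgroup G).subtype := by
      rintro x ⟨hxN, hxP⟩
      refine ⟨⟨x, hxP⟩, CfsgLib.Core.pgroup_commutator_le_frattini P.isPGroup' (hPG ⟨x, hxP⟩ ?_), rfl⟩
      have h1 : (Abelianization.of x) ^ m = 1 := hxN
      obtain ⟨j, hj⟩ := P.isPGroup' ⟨x, hxP⟩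
      have h2 : (Abelianization.of x) ^ (p ^ j) = 1 := by
        rw [← map_pow, show x ^ p ^ j = 1 from congrArg Subtype.val hj, map_one]
      have h3 := Nat.eq_one_of_dvd_coprimes
        (Nat.Coprime.pow_left j ((Fact.out : p.Prime).coprime_iff_not_dvd.2 hpm))
        (orderOf_dvd_of_pow_eq_one h2) (orderOf_dvd_of_pow_eq_one h1)
      exact (QuotientGroup.eq_one_iff x).1 (orderOf_eq_one_iff.1 h3)
    obtain ⟨K, hKn, hKcop, k, hk⟩ :=
      CfsgLib.Core.hasNormalPComplement_iff.1 (CfsgLib.Core.tate P hNP)
    haveI := hKn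
    have hmemK : ∀ a : N, ¬ p ∣ orderOf a → a ∈ K := by
      intro a ha
      rw [← QuotientGroup.eq_one_iff (N := K), ← orderOf_eq_one_iff]
      refine Nat.eq_one_of_dvd_coprimes
        (Nat.Coprime.pow_left k ((Fact.out : p.Prime).coprime_iff_not_dvd.2 ha)) ?_
        (orderOf_map_dvd (QuotientGroup.mk' K) a)
      rw [← hk, Subgroup.index_eq_card]
      exact orderOf_dvd_natCard _
    have hKord : ∀ a : N, a ∈ K → ¬ p ∣ orderOf a := fun a ha hd =>
      ((Fact.out : p.Prime).coprime_iff_not_dvd.1 hKcop.symm)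
        (hd.trans (Subgroup.orderOf_dvd_natCard K ha))
    refine CfsgLib.Core.hasNormalPComplement_iff.2 ⟨K.map N.subtype, ⟨fun a ha g => ?_⟩, ?_, ?_⟩
    · obtain ⟨⟨a, haN⟩, haK, rfl⟩ := ha
      refine ⟨⟨g * a * g⁻¹, (inferInstance : N.Normal).conj_mem a haN g⟩, hmemK _ ?_, rfl⟩
      rw [Subgroup.orderOf_mk, show g * a * g⁻¹ = (MulAut.conj g) a from rfl, MulEquiv.orderOf_eq,
        ← Subgroup.orderOf_mk a haN]
      exact hKord _ haK
    · rwa [Subgroup.card_map_of_injective N.subtype_injective]
    · have hN : ∃ l, N.index = p ^ l := by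
        have hdvd : N.index ∣ p ^ (Nat.card (Abelianization G)).factorization p := by
          have e1 : N.index = (powMonoidHom m : Abelianization G →* Abelianization G).ker.index :=
            Subgroup.index_comap_of_surjective _ (QuotientGroup.mk'_surjective _)
          rw [e1, Subgroup.index_ker]
          have e2 := Subgroup.card_mul_index (powMonoidHom m : Abelianization G →* Abelianization G).range
          have hR : IsPGroup p (powMonoidHom m : Abelianization G →* Abelianization G).range := by
            rintro ⟨_, y, rfl⟩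
            refine ⟨(Nat.card (Abelianization G)).factorization p, Subtype.ext ?_⟩
            show (y ^ m) ^ p ^ _ = 1
            rw [← pow_mul, mul_comm, hm, Nat.ordProj_mul_ordCompl_eq_self, pow_card_eq_one']
          obtain ⟨i, hi⟩ := hR.exists_card_eq
          rw [hi] at e2 ⊢
          exact pow_dvd_pow p (((Fact.out : p.Prime).pow_dvd_iff_le_factorization
            Nat.card_pos.ne').1 ⟨_, e2.symm⟩)
        obtain ⟨l, -, hl⟩ := (Nat.dvd_prime_pow (Fact.out : p.Prime)).1 hdvd
        exact ⟨l, hl⟩
      obtain ⟨l, hl⟩ := hN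
      exact ⟨k + l, by rw [Subgroup.index_map_subtype, hk, hl, pow_add]⟩
  · intro hc
    obtain ⟨K, hKn, hKcop, k, hk⟩ := CfsgLib.Core.hasNormalPComplement_iff.1 hc
    haveI := hKn
    haveI := Fintype.ofFinite ↥K
    refine ⟨1, fun χ hχ hht => ?_⟩
    have hpd := (blockHeight_principal_eq_zero_iff hM χ).1 hht
    obtain ⟨θ, hθ⟩ := exists_over (N := K) χ
    have hθB := mem_principal_of_over hM hχ hθ
    have hone : θ = trivIrr ↥K := by
      have hd0 : blockDefect p (principalBlock M ↥K) = 0 := by
        have : (Nat.card ↥K).factorization p = 0 := Nat.factorization_eq_zero_of_not_dvd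
          ((Fact.out : p.Prime).coprime_iff_not_dvd.1 hKcop.symm)
        rw [blockDefect, this, Nat.zero_sub]
      have h1 := ((defect_zero_iff hM (isPBlock_principal M)).1.1 hd0).1
      haveI : Subsingleton (principalBlock M ↥K) := (Nat.card_eq_one_iff_unique.1 h1).1
      exact congrArg Subtype.val (Subsingleton.elim (⟨θ, hθB⟩ : principalBlock M ↥K)
        ⟨trivIrr ↥K, trivIrr_mem_principal hM⟩)
    subst hone
    obtain ⟨n, hn⟩ := inner_character_nat (isCharacter_restrict χ.2.isCharacter' K)
      (trivIrr ↥K).2.isCharacter'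
    have horb : conjOrbit (G := G) ((trivIrr ↥K : IrrCharacter ↥K) : ↥K → ℂ) =
        {((trivIrr ↥K : IrrCharacter ↥K) : ↥K → ℂ)} := by
      refine Finset.eq_singleton_iff_unique_mem.2 ⟨self_mem_conjOrbit _, fun φ hφ => ?_⟩
      obtain ⟨g, rfl⟩ := mem_conjOrbit.1 hφ
      rfl
    have hcl := clifford χ.2 (trivIrr ↥K).2 hθ
    rw [horb, Finset.sum_singleton, hn] at hcl
    have hdi := mult_dvd_index χ.2 (trivIrr ↥K).2 (fun g n => rfl) n hcl
    have h1 : (χ : G → ℂ) 1 = (n : ℂ) := by
      have := congrFun hcl 1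
      simpa [trivIrr] using this
    have he : charDegree (χ : G → ℂ) = n := by simp [charDegree, h1]
    rw [he] at hpd ⊢
    rw [hk] at hdi
    obtain ⟨i, -, hi⟩ := (Nat.dvd_prime_pow (Fact.out : p.Prime)).1 hdi
    rcases i with _ | i
    · simpa using hi
    · exact absurd (hi ▸ dvd_pow_self p (Nat.succ_ne_zero i)) hpd

end Cfsg.Agent.S4888
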