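import Cfsg.Statements.S4911
import Cfsg.Agent.Lib.BlockGlaubermanSub
import Cfsg.Agent.Lib.CharIndicator
import Mathlib.GroupTheory.Nilpotent
import Cfsg.Agent.Lib.BlockTwoReal

set_option autoImplicit false
open Cfsg

namespace Cfsg.Agent.S4911

/-- Let P and K be subgroups of a finite group with P a p-group normalizing K and K of order prime to p. Then the number of P-invariant real-valued irreducible complex characters of K equals the number of conjugacy classes of K that are real (closed under inversion) and P-invariant. Moreover, if every real-valued irreducible character of K is P-invariant, then every real element of K (one conjugate in K to its inverse) is conjugate in K to an element centralized by P. -/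
theorem result {G : Type*} [Group G] [Finite G] (p : ℕ) [Fact p.Prime] (P K : Subgroup G) (hP : IsPGroup p ↥P) (hK : ¬ p ∣ Nat.card ↥K) (hPK : P ≤ Subgroup.normalizer (K : Set G)) : Nat.card {θ : Cfsg.IrrCharacter ↥K // (∀ k : ↥K, ((θ : ↥K → ℂ) k).im = 0) ∧ (∀ x ∈ P, ∀ k k' : ↥K, (k' : G) = x * (k : G) * x⁻¹ → (θ : ↥K → ℂ) k' = (θ : ↥K → ℂ) k)} = Nat.card {c : ConjClasses ↥K // (∀ k : ↥K, ConjClasses.mk k = c → IsConj k k⁻¹) ∧ ∀ k : ↥K, ConjClasses.mk k = c → ∀ x ∈ P, ∀ k' : ↥K, (k' : G) = x * (k : G) * x⁻¹ → ConjClasses.mk k' = c} ∧ ((∀ θ : Cfsg.IrrCharacter ↥K, (∀ k : ↥K, ((θ : ↥K → ℂ) k).im = 0) → (∀ x ∈ P, ∀ k k' : ↥K, (k' : G) = x * (k : G) * x⁻¹ → (θ : ↥K → ℂ) k' = (θ : ↥K → ℂ) k)) → ∀ k : ↥K, IsConj k k⁻¹ → ∃ k' : ↥K, IsConj k k' ∧ ∀ x ∈ P, x * (k' : G) * x⁻¹ = (k' : G)) := by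
  classical
  haveI := Fintype.ofFinite G
  haveI := Fintype.ofFinite K
  obtain ⟨M, hM⟩ := CfsgLib.Block.exists_isPModular (Fact.out : p.Prime)
  have hnorm : ∀ s ∈ P, ∀ g ∈ K, s * g * s⁻¹ ∈ K := fun s hs g hg =>
    (Subgroup.mem_normalizer_iff.1 (hPK hs) g).1 hg
  set φ := CfsgLib.Glauberman.conjOn K P hnorm with hφdef
  haveI : Group.IsNilpotent P := hP.isNilpotent
  haveI : Group.IsSolvable P := inferInstance
  have hcop : (Nat.card K).Coprime (Nat.card P) := by
    obtain ⟨n, hn⟩ := IsPGroup.iff_card.1 hP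
    rw [hn]; exact (((Fact.out : p.Prime).coprime_iff_not_dvd).2 hK).symm.pow_right n
  have hgood := CfsgLib.Glauberman.good φ inferInstance hcop
  -- real characters and real classes of a finite group
  have hRC : ∀ (H : Type _) [Group H] [Fintype H], (Nat.card {θ : IrrCharacter H // ∀ h : H, ((θ : H → ℂ) h).im = 0}) =
      Nat.card {c : ConjClasses H // ∀ h : H, ConjClasses.mk h = c → IsConj h h⁻¹} := by
    intro H _ _
    exact CfsgLib.Char.card_real_irr
  -- correspondences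
  have hcorr : ∀ β, CfsgLib.Char.irrConj (CfsgLib.Glauberman.corr hP hK hM (φ := φ) β) =
      CfsgLib.Glauberman.corr hP hK hM (CfsgLib.Char.irrConj β) := by
    intro β
    set χ := CfsgLib.Glauberman.corr hP hK hM (φ := φ) β
    have hinv : CfsgLib.Glauberman.Inv φ (χ : K → ℂ) := CfsgLib.Glauberman.corr_inv hP hK hM β
    refine (CfsgLib.Glauberman.not_dvd_mult_iff hP hK hM (fun s g => ?_) _).1 ?_
    · show (starRingEnd ℂ) ((χ : K → ℂ) (φ s g)) = _
      rw [hinv s g]; rfl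
    · have h := (CfsgLib.Glauberman.not_dvd_mult_iff hP hK hM hinv β).2 rfl
      have e : CfsgLib.Glauberman.mult (CfsgLib.Char.irrConj χ) (CfsgLib.Char.irrConj β) = CfsgLib.Glauberman.mult χ β := by
        have h' := CfsgLib.Glauberman.mult_spec (CfsgLib.Char.irrConj χ) (CfsgLib.Char.irrConj β)
        have h'' := congrArg (starRingEnd ℂ) (CfsgLib.Glauberman.mult_spec χ β)
        rw [map_natCast] at h''
        have e' : classInner (fun c : CfsgLib.Glauberman.fix φ => (CfsgLib.Char.irrConj χ : K → ℂ) c) (CfsgLib.Char.irrConj β : CfsgLib.Glauberman.fix φ → ℂ) =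
            (starRingEnd ℂ) (classInner (fun c : CfsgLib.Glauberman.fix φ => (χ : K → ℂ) c) (β : CfsgLib.Glauberman.fix φ → ℂ)) := by
          simp only [classInner, map_mul, map_sum, map_inv₀, map_natCast]
          rfl
        rw [e', h''] at h'
        exact_mod_cast h'.symm
      rw [e]; exact h
  set C' := CfsgLib.Glauberman.fix φ with hC'
  have hinvΓ : ∀ f : K → ℂ, CfsgLib.Glauberman.Inv φ f ↔ ∀ x ∈ P, ∀ k k' : K, (k' : G) = x * (k : G) * x⁻¹ → f k' = f k :=
    fun f => CfsgLib.Glauberman.inv_conjOn_iff K P hnorm f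
  have hA : Nat.card {θ : IrrCharacter K // (∀ k : K, ((θ : K → ℂ) k).im = 0) ∧ CfsgLib.Glauberman.Inv φ (θ : K → ℂ)} =
      Nat.card {β : IrrCharacter C' // ∀ c, ((β : C' → ℂ) c).im = 0} := by
    refine (Nat.card_eq_of_bijective (fun β : {β : IrrCharacter C' // ∀ c, ((β : C' → ℂ) c).im = 0} =>
      (⟨CfsgLib.Glauberman.corr hP hK hM β.1, (CfsgLib.Char.irrConj_eq_self_iff _).1 (by rw [hcorr, (CfsgLib.Char.irrConj_eq_self_iff _).2 β.2]),
        CfsgLib.Glauberman.corr_inv hP hK hM β.1⟩ :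
        {θ : IrrCharacter K // (∀ k : K, ((θ : K → ℂ) k).im = 0) ∧ CfsgLib.Glauberman.Inv φ (θ : K → ℂ)}))
      ⟨fun a b h => Subtype.ext (CfsgLib.Glauberman.corr_injective hP hK hM (congrArg Subtype.val h)), fun θ => ?_⟩).symm
    obtain ⟨β, hβ⟩ := CfsgLib.Glauberman.corr_surjective hP hK hM θ.2.2
    refine ⟨⟨β, (CfsgLib.Char.irrConj_eq_self_iff _).1 (CfsgLib.Glauberman.corr_injective hP hK hM ?_)⟩, Subtype.ext hβ⟩
    rw [← hcorr, hβ]
    exact (CfsgLib.Char.irrConj_eq_self_iff _).2 θ.2.1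
  let inCl : ConjClasses K → Prop := fun c => ∀ k : K, ConjClasses.mk k = c → ∀ x ∈ P, ∀ k' : K, (k' : G) = x * (k : G) * x⁻¹ → ConjClasses.mk k' = c
  have hB : Nat.card {c : ConjClasses K // (∀ k : K, ConjClasses.mk k = c → IsConj k k⁻¹) ∧ inCl c} =
      Nat.card {c : ConjClasses C' // ∀ k : C', ConjClasses.mk k = c → IsConj k k⁻¹} := by
    refine (Nat.card_eq_of_bijective (fun c : {c : ConjClasses C' // ∀ k : C', ConjClasses.mk k = c → IsConj k k⁻¹} =>
      (⟨ConjClasses.map C'.subtype c.1, ?_, ?_⟩ : {c : ConjClasses K // (∀ k : K, ConjClasses.mk k = c → IsConj k k⁻¹) ∧ inCl c}))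
      ⟨fun a b hab => ?_, fun c => ?_⟩).symm
    · obtain ⟨c, hc'⟩ := c
      obtain ⟨c₀, rfl⟩ := ConjClasses.mk_surjective c
      intro k hk
      have h1 : IsConj k (c₀ : K) := ConjClasses.mk_eq_mk_iff_isConj.1 hk
      have h2 : IsConj (c₀ : K) (c₀ : K)⁻¹ := by simpa using C'.subtype.map_isConj (hc' _ rfl)
      obtain ⟨d, hd⟩ := isConj_iff.1 h1
      exact (h1.trans h2).trans (isConj_iff.2 ⟨d⁻¹, by rw [← hd]; group⟩)
    · obtain ⟨c, hc'⟩ := c
      obtain ⟨c₀, rfl⟩ := ConjClasses.mk_surjective c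
      intro k hk x hx k' hk'
      have hφ' : φ ⟨x, hx⟩ k = k' := Subtype.ext (by rw [hφdef, CfsgLib.Glauberman.conjOn_coe]; exact hk'.symm)
      have h1 := (φ ⟨x, hx⟩).toMonoidHom.map_isConj (ConjClasses.mk_eq_mk_iff_isConj.1 hk)
      show ConjClasses.mk k' = ConjClasses.mk (c₀ : K)
      rw [ConjClasses.mk_eq_mk_iff_isConj, ← hφ']
      simpa [show φ ⟨x, hx⟩ (c₀ : K) = (c₀ : K) from c₀.2 _] using h1
    · obtain ⟨a, ha⟩ := a
      obtain ⟨b, hb⟩ := b
      obtain ⟨a₀, rfl⟩ := ConjClasses.mk_surjective a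
      obtain ⟨b₀, rfl⟩ := ConjClasses.mk_surjective b
      exact Subtype.ext (ConjClasses.mk_eq_mk_iff_isConj.2
        (hgood.conjInj a₀ b₀ (ConjClasses.mk_eq_mk_iff_isConj.1 (congrArg Subtype.val hab))))
    · obtain ⟨c, hcr, hci⟩ := c
      obtain ⟨g, rfl⟩ := ConjClasses.mk_surjective c
      obtain ⟨c₀, hc₀⟩ := hgood.conjSurj g fun s => (ConjClasses.mk_eq_mk_iff_isConj.1
        (hci g rfl s s.2 (φ s g) (CfsgLib.Glauberman.conjOn_coe K P hnorm s g))).symm
      refine ⟨⟨ConjClasses.mk c₀, fun k hk => ?_⟩, Subtype.ext (ConjClasses.mk_eq_mk_iff_isConj.2 hc₀.symm)⟩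
      refine hgood.conjInj k k⁻¹ ?_
      have h1 : IsConj g (k : K) := hc₀.trans (by simpa using C'.subtype.map_isConj (ConjClasses.mk_eq_mk_iff_isConj.1 hk).symm)
      have h2 := hcr (k : K) (ConjClasses.mk_eq_mk_iff_isConj.2 h1.symm)
      simpa using h2
  haveI := Fintype.ofFinite C'
  have hmain : Nat.card {θ : IrrCharacter K // (∀ k : K, ((θ : K → ℂ) k).im = 0) ∧ CfsgLib.Glauberman.Inv φ (θ : K → ℂ)} =
      Nat.card {c : ConjClasses K // (∀ k : K, ConjClasses.mk k = c → IsConj k k⁻¹) ∧ inCl c} := by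
    rw [hA, hB]; exact hRC C'
  refine ⟨?_, fun hall k hk => ?_⟩
  · rw [← hmain]
    exact Nat.card_congr (Equiv.subtypeEquivRight fun θ => and_congr_right fun _ => (hinvΓ _).symm)
  · have e1 : Nat.card {θ : IrrCharacter K // (∀ k : K, ((θ : K → ℂ) k).im = 0) ∧ CfsgLib.Glauberman.Inv φ (θ : K → ℂ)} =
        Nat.card {θ : IrrCharacter K // ∀ k : K, ((θ : K → ℂ) k).im = 0} :=
      Nat.card_congr (Equiv.subtypeEquivRight fun θ => ⟨fun h => h.1, fun h => ⟨h, (hinvΓ _).2 (hall θ h)⟩⟩)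
    rw [hmain, hRC K] at e1
    have hin : inCl (ConjClasses.mk k) := by
      have hr : ∀ k' : K, ConjClasses.mk k' = ConjClasses.mk k → IsConj k' k'⁻¹ := fun k' hk' => by
        have h1 := ConjClasses.mk_eq_mk_iff_isConj.1 hk'
        obtain ⟨d, hd⟩ := isConj_iff.1 h1
        exact (h1.trans hk).trans (isConj_iff.2 ⟨d⁻¹, by rw [← hd]; group⟩)
      have hbij := ((Fintype.bijective_iff_injective_and_card
        (fun c : {c : ConjClasses K // (∀ k : K, ConjClasses.mk k = c → IsConj k k⁻¹) ∧ inCl c} =>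
          (⟨c.1, c.2.1⟩ : {c : ConjClasses K // ∀ k : K, ConjClasses.mk k = c → IsConj k k⁻¹}))).2
        ⟨fun a b h => Subtype.ext (congrArg (fun x => x.1) h), by rw [← Nat.card_eq_fintype_card, ← Nat.card_eq_fintype_card]; exact e1⟩).2
        ⟨ConjClasses.mk k, hr⟩
      obtain ⟨c, hc⟩ := hbij
      have : c.1 = ConjClasses.mk k := congrArg Subtype.val hc
      exact this ▸ c.2.2
    obtain ⟨c₀, hc₀⟩ := hgood.conjSurj k fun s => (ConjClasses.mk_eq_mk_iff_isConj.1
      (hin k rfl s s.2 (φ s k) (CfsgLib.Glauberman.conjOn_coe K P hnorm s k))).symm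
    exact ⟨(c₀ : K), hc₀, fun x hx => congrArg Subtype.val (c₀.2 ⟨x, hx⟩)⟩

end Cfsg.Agent.S4911
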