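import Cfsg.Statements.S4912
import Cfsg.Agent.Lib.CharLinear
import Cfsg.Agent.Lib.CharNormal
import Cfsg.Agent.Lib.CharGallagher
import Cfsg.Agent.Lib.CharIndicator
import Cfsg.Agent.Lib.BlockCodegree

set_option autoImplicit false
set_option maxHeartbeats 400000
open Cfsg
open scoped commutatorElement

namespace Cfsg.Agent.S4912

universe w

open scoped ComplexConjugate

/-- the indicator of a character induced from the stabiliser of a real character -/
theorem indicator_indFun {G : Type w} [Group G] [Fintype G] (N I : Subgroup G) [hN : N.Normal] [Fintype N] [Fintype I]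
    (hNI : N ≤ I) (φ : N → ℂ) (hφ : IsIrrCharacter N φ) (hreal : ∀ n, (φ n).im = 0)
    (hstab : ∀ g : G, g ∉ I → ¬ ∀ n n' : N, (n' : G) = g * (n : G) * g⁻¹ → φ n' = φ n)
    (θ : I → ℂ) (hθ : IsCharacter I θ) (hθN : ∀ n : N, θ (Subgroup.inclusion hNI n) = φ n)
    (hν : (Nat.card I : ℂ)⁻¹ * ∑ i : I, θ (i * i) = 1) :
    (Nat.card G : ℂ)⁻¹ * ∑ g : G, indFun I θ (g * g) = 1 := by
  classical
  obtain ⟨d, σ, hσ⟩ := hθ
  obtain ⟨d', π, hπ, hπe⟩ := id hφ
  let E := extendByZero I θ
  have h1 : ∑ g : G, indFun I θ (g * g) = (Nat.card I : ℂ)⁻¹ * ((Nat.card G : ℂ) * ∑ g : G, E (g * g)) := by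
    simp only [CfsgLib.Char.indFun_apply, ← Finset.mul_sum]
    rw [Finset.sum_comm]
    congr 1
    rw [Nat.card_eq_fintype_card, ← nsmul_eq_mul, ← Finset.card_univ, ← Finset.sum_const]
    refine Finset.sum_congr rfl fun x _ => ?_
    refine Fintype.sum_equiv (MulAut.conj x⁻¹).toEquiv _ _ fun g => ?_
    show E _ = E _
    congr 1
    simp [MulAut.conj_apply, mul_assoc]
  let A : G → Matrix (Fin d) (Fin d) ℂ := fun x => if h : x ∈ I then LinearMap.toMatrix' (σ ⟨x, h⟩) else 0
  have hA1 : ∀ {a b : G}, a ∈ I → b ∈ I → A (a * b) = A a * A b := by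
    intro a b ha hb
    simp only [A, dif_pos ha, dif_pos hb, dif_pos (I.mul_mem ha hb)]
    rw [← LinearMap.toMatrix'_comp, ← Module.End.mul_eq_comp, ← map_mul]
    rfl
  have hA0 : A 1 = 1 := by
    simp only [A, dif_pos I.one_mem]
    rw [show (⟨1, I.one_mem⟩ : I) = 1 from rfl, map_one, Module.End.one_eq_id, LinearMap.toMatrix'_id]
  have hEA : ∀ {x : G}, x ∈ I → E x = (A x).trace := by
    intro x hx
    show extendByZero I θ x = _
    rw [CfsgLib.Char.extendByZero_mem _ hx, ← hσ]
    simp only [A, dif_pos hx]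
    rw [← LinearMap.toMatrix_eq_toMatrix', ← LinearMap.trace_eq_matrix_trace ℂ (Pi.basisFun ℂ (Fin d))]
    rfl
  have hzero : ∀ g : G, g ∉ I → ∑ n : N, E ((g * (n : G)) * (g * (n : G))) = 0 := by
    intro g hg
    have hmem : ∀ n : N, (g * (n : G)) * (g * (n : G)) = g * g * ((g⁻¹ * (n : G) * g) * (n : G)) := fun n => by group
    have hc : ∀ n : N, g⁻¹ * (n : G) * g ∈ I := fun n => hNI (by simpa using hN.conj_mem _ n.2 g⁻¹)
    by_cases hgg : g * g ∈ I
    swap
    · refine Finset.sum_eq_zero fun n _ => CfsgLib.Char.extendByZero_not_mem _ fun h => hgg ?_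
      rw [hmem] at h
      exact (Subgroup.mul_mem_cancel_right I (I.mul_mem (hc n) (hNI n.2))).1 h
    -- two representations of `N`
    let ρB : Representation ℂ N (Fin d → ℂ) :=
      { toFun := fun n => Matrix.toLin' (A (g⁻¹ * (n : G) * g))
        map_one' := by simp [hA0]; rfl
        map_mul' := fun a b => by
          rw [Subgroup.coe_mul, show g⁻¹ * ((a : G) * (b : G)) * g = (g⁻¹ * a * g) * (g⁻¹ * b * g) by group,
            hA1 (hc a) (hc b), Matrix.toLin'_mul]; rfl }
    let ρA : Representation ℂ N (Fin d → ℂ) :=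
      { toFun := fun n => Matrix.toLin' (A ((n : G))⁻¹).transpose
        map_one' := by simp [hA0]; rfl
        map_mul' := fun a b => by
          rw [Subgroup.coe_mul, mul_inv_rev, hA1 (I.inv_mem (hNI b.2)) (I.inv_mem (hNI a.2)), Matrix.transpose_mul,
            Matrix.toLin'_mul]; rfl }
    have hcA : ρA.character = φ := by
      funext n
      show LinearMap.trace ℂ _ (Matrix.toLin' (A ((n : G))⁻¹).transpose) = _
      rw [Matrix.trace_toLin'_eq, Matrix.trace_transpose, ← hEA (I.inv_mem (hNI n.2))]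
      show extendByZero I θ _ = _
      rw [CfsgLib.Char.extendByZero_mem _ (I.inv_mem (hNI n.2))]
      have h := hθN n⁻¹
      rw [show (⟨((n : G))⁻¹, I.inv_mem (hNI n.2)⟩ : I) = Subgroup.inclusion hNI n⁻¹ from rfl, h, ← hπe,
        CfsgLib.Char.char_inv_eq_conj, CfsgLib.Char.eq_conj_of_im.1 (hπe ▸ hreal n)]
    have hcB : ρB.character = fun n : N => φ ⟨g⁻¹ * (n : G) * g, by simpa using hN.conj_mem _ n.2 g⁻¹⟩ := by
      funext n
      show LinearMap.trace ℂ _ (Matrix.toLin' (A (g⁻¹ * (n : G) * g))) = _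
      rw [Matrix.trace_toLin'_eq, ← hEA (hc n)]
      show extendByZero I θ _ = _
      rw [CfsgLib.Char.extendByZero_mem _ (hc n), ← hθN]
      rfl
    have hBirr : IsIrrCharacter N ρB.character := by
      have h : ρB.character = φ ∘ (MulAut.conjNormal g⁻¹ : MulAut N) := by
        rw [hcB]; funext n
        refine congrArg φ (Subtype.ext ?_)
        rw [MulAut.conjNormal_apply]
        simp only [inv_inv]
      rw [h]
      exact CfsgLib.Char.isIrrCharacter_comp_equiv hφ _
    have hfin : Module.finrank ℂ (Representation.IntertwiningMap ρA ρB) = 0 := by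
      have h := CfsgLib.Char.inner_rep_char ρB ρA
      rw [CfsgLib.Char.irr_inner_ne hBirr (hcA ▸ hφ) ?_] at h
      · exact_mod_cast h.symm
      · intro he
        rw [hcA, hcB] at he
        apply hstab g hg
        intro n n' hn
        rw [← congrFun he n']
        refine congrArg φ (Subtype.ext ?_)
        show g⁻¹ * (n' : G) * g = (n : G)
        rw [hn]; group
    haveI : Subsingleton (Representation.IntertwiningMap ρA ρB) := Module.finrank_zero_iff.1 hfin
    have hY : ∀ X : Matrix (Fin d) (Fin d) ℂ, ∑ n : N, A (g⁻¹ * (n : G) * g) * X * (A (n : G)).transpose = 0 := by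
      intro X
      generalize hY' : ∑ n : N, A (g⁻¹ * (n : G) * g) * X * (A (n : G)).transpose = Y
      have hcomm : ∀ m : N, A (g⁻¹ * (m : G) * g) * Y = Y * (A ((m : G))⁻¹).transpose := by
        intro m
        rw [← hY', Finset.mul_sum, Finset.sum_mul]
        refine Fintype.sum_equiv (Equiv.mulLeft m) _ _ fun n => ?_
        rw [Equiv.coe_mulLeft, Subgroup.coe_mul,
          show g⁻¹ * ((m : G) * (n : G)) * g = (g⁻¹ * m * g) * (g⁻¹ * n * g) by group, hA1 (hc m) (hc n),
          hA1 (hNI m.2) (hNI n.2), Matrix.transpose_mul]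
        simp only [Matrix.mul_assoc]
        rw [← Matrix.transpose_mul (A ((m : G))⁻¹), ← hA1 (I.inv_mem (hNI m.2)) (hNI m.2), inv_mul_cancel, hA0,
          Matrix.transpose_one, Matrix.mul_one]
      have hF : (⟨Matrix.toLin' Y, fun m => by
          show Matrix.toLin' Y ∘ₗ Matrix.toLin' (A ((m : G))⁻¹).transpose = Matrix.toLin' (A (g⁻¹ * (m : G) * g)) ∘ₗ Matrix.toLin' Y
          rw [← Matrix.toLin'_mul, ← Matrix.toLin'_mul, hcomm]⟩ : Representation.IntertwiningMap ρA ρB) = 0 :=
        Subsingleton.elim _ _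
      apply Matrix.toLin'.injective
      rw [map_zero]
      exact congrArg Representation.IntertwiningMap.toLinearMap hF
    have hentry : ∀ i j k l : Fin d, ∑ n : N, A (g⁻¹ * (n : G) * g) i j * A (n : G) k l = 0 := by
      intro i j k l
      have h := congrFun (congrFun (hY (Matrix.single j l 1)) i) k
      rw [Matrix.sum_apply, Matrix.zero_apply] at h
      rw [← h]
      refine Finset.sum_congr rfl fun n _ => ?_
      simp [Matrix.mul_apply, Matrix.single, Finset.sum_ite_eq', ite_and]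
    calc ∑ n : N, E ((g * (n : G)) * (g * (n : G)))
        = ∑ n : N, (A (g * g) * (A (g⁻¹ * (n : G) * g) * A (n : G))).trace := by
          refine Finset.sum_congr rfl fun n _ => ?_
          rw [hmem, hEA (I.mul_mem hgg (I.mul_mem (hc n) (hNI n.2))), hA1 hgg (I.mul_mem (hc n) (hNI n.2)), hA1 (hc n) (hNI n.2)]
      _ = ∑ i, ∑ j, ∑ k, A (g * g) i j * ∑ n : N, A (g⁻¹ * (n : G) * g) j k * A (n : G) k i := by
          simp only [Matrix.trace, Matrix.diag, Matrix.mul_apply, Finset.mul_sum]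
          rw [Finset.sum_comm]
          refine Finset.sum_congr rfl fun i _ => ?_
          rw [Finset.sum_comm]
          refine Finset.sum_congr rfl fun j _ => ?_
          rw [Finset.sum_comm]
      _ = 0 := by simp [hentry]
  have h2 : ∑ g : G, E (g * g) = ∑ i : I, θ (i * i) := by
    have hout : ∑ g ∈ Finset.univ.filter (fun g : G => g ∉ I), E (g * g) = 0 := by
      have hN0 : (Fintype.card N : ℂ) ≠ 0 := Nat.cast_ne_zero.2 Fintype.card_ne_zero
      refine (mul_eq_zero.1 (?_ : (Fintype.card N : ℂ) * _ = 0)).resolve_left hN0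
      rw [← nsmul_eq_mul, ← Finset.card_univ, ← Finset.sum_const]
      have h3 : ∀ n : N, ∑ g ∈ Finset.univ.filter (fun g : G => g ∉ I), E (g * g) =
          ∑ g ∈ Finset.univ.filter (fun g : G => g ∉ I), E ((g * (n : G)) * (g * (n : G))) := by
        intro n
        symm
        refine Finset.sum_equiv (Equiv.mulRight (n : G)) (fun g => ?_) (fun g _ => rfl)
        simp [Subgroup.mul_mem_cancel_right I (hNI n.2)]
      rw [Finset.sum_congr rfl fun n _ => h3 n, Finset.sum_comm]
      exact Finset.sum_eq_zero fun g hg => hzero g (Finset.mem_filter.1 hg).2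
    rw [← Finset.sum_filter_add_sum_filter_not Finset.univ (fun g : G => g ∈ I), hout, add_zero,
      Finset.sum_subtype (p := fun g => g ∈ I) _ (by simp)]
    exact Finset.sum_congr rfl fun i _ => CfsgLib.Char.extendByZero_mem θ (I.mul_mem i.2 i.2)
  rw [h1, h2, mul_left_comm, ← mul_assoc (Nat.card G : ℂ)⁻¹, inv_mul_cancel₀ (Nat.cast_ne_zero.2 Nat.card_pos.ne'), one_mul, hν]

/-- Let G be a finite group with a non-abelian minimal normal subgroup N, and let φ be an irreducible complex character of N with stabilizer I in G such that φ extends to an irreducible character of I with Frobenius–Schur indicator +1. Put d = φ(1)·[G : I]. Then the number of linear characters of G with Frobenius–Schur indicator +1 is at most [G : I] times the number of irreducible characters of G of degree d with Frobenius–Schur indicator +1. -/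
theorem result {G : Type*} [Group G] [Finite G] (N : Subgroup G) (hN : N.Normal) (hN1 : N ≠ ⊥) (hmin : ∀ M : Subgroup G, M.Normal → M ≤ N → M = ⊥ ∨ M = N) (hna : ¬ IsMulCommutative ↥N) (φ : Cfsg.IrrCharacter ↥N) (I : Subgroup G) (hI : ∀ g : G, g ∈ I ↔ ∀ n n' : ↥N, (n' : G) = g * (n : G) * g⁻¹ → (φ : ↥N → ℂ) n' = (φ : ↥N → ℂ) n) (hNI : N ≤ I) (hext : ∃ ψ : Cfsg.IrrCharacter ↥I, (Nat.card ↥I : ℂ)⁻¹ * ∑ᶠ g : ↥I, (ψ : ↥I → ℂ) (g * g) = 1 ∧ ∀ n : ↥N, (ψ : ↥I → ℂ) (Subgroup.inclusion hNI n) = (φ : ↥N → ℂ) n) : Nat.card {χ : Cfsg.IrrCharacter G // Cfsg.charDegree (χ : G → ℂ) = 1 ∧ (Nat.card G : ℂ)⁻¹ * ∑ᶠ g : G, (χ : G → ℂ) (g * g) = 1} ≤ I.index * Nat.card {χ : Cfsg.IrrCharacter G // Cfsg.charDegree (χ : G → ℂ) = Cfsg.charDegree (φ : ↥N → ℂ) * I.index ∧ (Nat.card G : ℂ)⁻¹ * ∑ᶠ g : G, (χ : G → ℂ) (g * g) = 1} := by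
  classical
  haveI := Fintype.ofFinite G
  haveI := Fintype.ofFinite ↥N
  haveI := Fintype.ofFinite ↥I
  haveI := hN
  obtain ⟨ψ, hψν, hψ⟩ := hext
  rw [finsum_eq_sum_of_fintype] at hψν
  have hNG : N ≤ commutator G := by
    rcases hmin ⁅N, N⁆ inferInstance (Subgroup.commutator_le_left N N) with h | h
    · exfalso
      refine hna ⟨⟨fun a b => Subtype.ext ?_⟩⟩
      have h2 := Subgroup.commutator_mem_commutator (H₁ := N) (H₂ := N) a.2 b.2
      rw [h, Subgroup.mem_bot, commutatorElement_eq_one_iff_mul_comm] at h2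
      exact h2
    · calc N = ⁅N, N⁆ := h.symm
        _ ≤ ⁅(⊤ : Subgroup G), ⊤⁆ := Subgroup.commutator_mono le_top le_top
  have hfN : ∀ (f : G →* ℂˣ) (n : G), n ∈ N → f n = 1 := fun f n hn =>
    MonoidHom.mem_ker.1 (Abelianization.commutator_subset_ker f (hNG hn))
  have hinert : CfsgLib.Char.inertia (φ : ↥N → ℂ) = I := by
    ext g
    rw [CfsgLib.Char.mem_inertia, hI]
    constructor
    · intro h n n' hn'
      conv_rhs => rw [← h]
      rw [CfsgLib.Char.conjFn_eq_comp, Function.comp_apply]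
      refine congrArg _ (Subtype.ext ?_)
      rw [MulAut.conjNormal_apply, hn']
    · intro h
      funext n
      rw [CfsgLib.Char.conjFn_eq_comp, Function.comp_apply]
      exact h n _ (MulAut.conjNormal_apply g n)
  let incl : ↥N →* ↥I := Subgroup.inclusion hNI
  -- the products with linear characters
  have hprodI : ∀ f : G →* ℂˣ, IsIrrCharacter ↥I (fun i : ↥I => (f (i : G) : ℂ) * (ψ : ↥I → ℂ) i) := by
    intro f
    refine CfsgLib.Char.isIrr_of_inner_self_one (CfsgLib.Char.isCharacter_mul (CfsgLib.Char.isCharacter_hom (f.comp I.subtype)) ψ.2.isCharacter') ?_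
    rw [← CfsgLib.Char.irr_inner_self ψ.2]
    simp only [classInner]
    congr 1
    refine Finset.sum_congr rfl fun x _ => ?_
    have hu : (f (x : G) : ℂ) * (starRingEnd ℂ) (f (x : G) : ℂ) = 1 := by
      have hpow : (f (x : G) : ℂ) ^ orderOf (x : G) = 1 := by
        rw [← Units.val_pow_eq_pow_val, ← map_pow, pow_orderOf_eq_one, map_one, Units.val_one]
      rw [Complex.mul_conj', Complex.norm_eq_one_of_pow_eq_one hpow (orderOf_pos _).ne']; simp
    rw [map_mul]
    linear_combination ((ψ : ↥I → ℂ) x * (starRingEnd ℂ) ((ψ : ↥I → ℂ) x)) * hu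
  let P : (G →* ℂˣ) → IrrCharacter ↥I := fun f => ⟨_, hprodI f⟩
  have hPN : ∀ f n, (P f : ↥I → ℂ) (incl n) = (φ : ↥N → ℂ) n := fun f n => by
    show (f ((incl n : ↥I) : G) : ℂ) * (ψ : ↥I → ℂ) (incl n) = _
    rw [hψ, show ((incl n : ↥I) : G) = (n : G) from rfl, hfN f n n.2, Units.val_one, one_mul]
  have hdI : ∀ f, (P f : ↥I → ℂ) 1 = (φ : ↥N → ℂ) 1 := fun f => by
    rw [← hPN f 1, map_one]
  -- induction is irreducible
  have hkey : ∀ f, ∃ χ : IrrCharacter G, (χ : G → ℂ) = indFun I (P f : ↥I → ℂ) ∧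
      charDegree (χ : G → ℂ) = charDegree (φ : ↥N → ℂ) * I.index ∧
      classInner (fun n : ↥N => (χ : G → ℂ) n) (φ : ↥N → ℂ) = 1 ∧
      classInner (fun i : ↥I => (χ : G → ℂ) i) (P f : ↥I → ℂ) ≠ 0 := by
    intro f
    have hind := CfsgLib.Char.isCharacter_indFun (G := G) (P f).2.isCharacter'
    have h10 : indFun I (P f : ↥I → ℂ) ≠ 0 := fun h => by
      have h1 := congrFun h 1
      rw [CfsgLib.Char.indFun_one_apply, hdI, Pi.zero_apply] at h1
      rcases mul_eq_zero.1 h1 with e | e
      · exact Subgroup.index_ne_zero_of_finite (by exact_mod_cast e)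
      · exact CfsgLib.Block.irr_one_ne_zero φ e
    obtain ⟨χ, hχ, hne⟩ := CfsgLib.Char.exists_constituent hind h10
    have hne' : classInner (fun i : ↥I => χ i) (P f : ↥I → ℂ) ≠ 0 := by
      rw [CfsgLib.Char.frobenius _ _ (CfsgLib.Char.isCharacter_classFunction hχ.isCharacter'),
        CfsgLib.Char.inner_comm_of_isCharacter (P f).2.isCharacter' (CfsgLib.Char.isCharacter_restrict hχ.isCharacter' I)] at hne
      exact hne
    have hover : classInner (fun n : ↥N => χ n) (φ : ↥N → ℂ) ≠ 0 := by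
      have hres : IsCharacter ↥I (fun i : ↥I => χ i) := CfsgLib.Char.isCharacter_restrict hχ.isCharacter' I
      have hex := CfsgLib.Char.classFunction_eq_sum _ (CfsgLib.Char.isCharacter_classFunction hres)
      have hN' : (fun n : ↥N => χ n) = ∑ ξ : IrrCharacter ↥I, classInner (fun i : ↥I => χ i) (ξ : ↥I → ℂ) • (fun n : ↥N => (ξ : ↥I → ℂ) (incl n)) := by
        funext n
        have h := congrFun hex (incl n)
        simp only [Finset.sum_apply, Pi.smul_apply] at h ⊢
        exact h
      rw [hN', CfsgLib.Char.inner_sum_left]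
      simp only [CfsgLib.Char.inner_smul_left]
      have hnat : ∀ ξ : IrrCharacter ↥I, ∃ k : ℕ, classInner (fun i : ↥I => χ i) (ξ : ↥I → ℂ) *
          classInner (fun n : ↥N => (ξ : ↥I → ℂ) (incl n)) (φ : ↥N → ℂ) = k := fun ξ => by
        obtain ⟨a, ha⟩ := CfsgLib.Char.inner_character_nat hres ξ.2.isCharacter'
        obtain ⟨b, hb⟩ := CfsgLib.Char.inner_character_nat (χ := fun n : ↥N => (ξ : ↥I → ℂ) (incl n))
          (CfsgLib.Char.isCharacter_comp ξ.2.isCharacter' incl) φ.2.isCharacter'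
        exact ⟨a * b, by rw [ha, hb, Nat.cast_mul]⟩
      choose k hk using hnat
      simp only [hk]
      rw [← Nat.cast_sum, Nat.cast_ne_zero]
      intro h0
      have h1 := (Finset.sum_eq_zero_iff.1 h0) (P f) (Finset.mem_univ _)
      have h2 := hk (P f)
      rw [h1, Nat.cast_zero, funext (hPN f), CfsgLib.Char.irr_inner_self φ.2, mul_one] at h2
      exact hne' h2
    have hcd := CfsgLib.Char.clifford_degree hχ φ.2 hover
    rw [hinert] at hcd
    obtain ⟨e, he⟩ := CfsgLib.Char.inner_character_nat (CfsgLib.Char.isCharacter_restrict hχ.isCharacter' N) φ.2.isCharacter'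
    rw [he, ← CfsgLib.Block.charDegree_cast hχ.isCharacter', ← CfsgLib.Block.charDegree_cast φ.2.isCharacter'] at hcd
    have hcd' : charDegree χ = e * I.index * charDegree (φ : ↥N → ℂ) := by exact_mod_cast hcd
    have hdind : charDegree (indFun I (P f : ↥I → ℂ)) = I.index * charDegree (φ : ↥N → ℂ) := by
      have h1 : (charDegree (indFun I (P f : ↥I → ℂ)) : ℂ) = ((I.index * charDegree (φ : ↥N → ℂ) : ℕ) : ℂ) := by
        rw [CfsgLib.Block.charDegree_cast hind, CfsgLib.Char.indFun_one_apply, hdI, Nat.cast_mul,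
          CfsgLib.Block.charDegree_cast φ.2.isCharacter']
      exact_mod_cast h1
    have he1 : 1 ≤ e := Nat.one_le_iff_ne_zero.2 fun h => hover (by rw [he, h, Nat.cast_zero])
    have heq := CfsgLib.Block.eq_of_inner_ne_zero_of_degree_le hind ⟨χ, hχ⟩ hne
      (by rw [hdind]; show _ ≤ charDegree χ; rw [hcd', mul_assoc]; exact Nat.le_mul_of_pos_left _ he1)
    have heq' : χ = indFun I (P f : ↥I → ℂ) := heq.symm
    have he' : e = 1 := by
      rw [heq', hdind, mul_assoc] at hcd'
      exact (Nat.mul_eq_right (Nat.mul_pos (Nat.pos_of_ne_zero Subgroup.index_ne_zero_of_finite)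
        (CfsgLib.Block.charDegree_pos φ)).ne').1 hcd'.symm
    refine ⟨⟨χ, hχ⟩, heq', ?_, ?_, hne'⟩
    · show charDegree χ = _
      rw [heq', hdind, mul_comm]
    · show classInner (fun n : ↥N => χ n) (φ : ↥N → ℂ) = 1
      rw [he, he', Nat.cast_one]
  choose C hC hCd hC1 hC2 using hkey
  haveI : Finite (G →* ℂˣ) := Finite.of_equiv _ CfsgLib.Char.linCharEquiv.symm
  haveI := Fintype.ofFinite (G →* ℂˣ)
  -- equal images agree on `I`
  have hsame : ∀ f f', C f = C f' → ∀ i : ↥I, f (i : G) = f' (i : G) := by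
    intro f f' h
    have hP : P f = P f' := by
      by_contra hne
      have hres : IsCharacter ↥I (fun i : ↥I => (C f : G → ℂ) i) := CfsgLib.Char.isCharacter_restrict (C f).2.isCharacter' I
      have hex := CfsgLib.Char.classFunction_eq_sum _ (CfsgLib.Char.isCharacter_classFunction hres)
      have hN' : (fun n : ↥N => (C f : G → ℂ) n) = ∑ ξ : IrrCharacter ↥I, classInner (fun i : ↥I => (C f : G → ℂ) i) (ξ : ↥I → ℂ) • (fun n : ↥N => (ξ : ↥I → ℂ) (incl n)) := by
        funext n
        have h := congrFun hex (incl n)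
        simp only [Finset.sum_apply, Pi.smul_apply] at h ⊢
        exact h
      have hnat : ∀ ξ : IrrCharacter ↥I, ∃ k : ℕ, classInner (fun i : ↥I => (C f : G → ℂ) i) (ξ : ↥I → ℂ) *
          classInner (fun n : ↥N => (ξ : ↥I → ℂ) (incl n)) (φ : ↥N → ℂ) = k := fun ξ => by
        obtain ⟨a, ha⟩ := CfsgLib.Char.inner_character_nat hres ξ.2.isCharacter'
        obtain ⟨b, hb⟩ := CfsgLib.Char.inner_character_nat (χ := fun n : ↥N => (ξ : ↥I → ℂ) (incl n))
          (CfsgLib.Char.isCharacter_comp ξ.2.isCharacter' incl) φ.2.isCharacter'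
        exact ⟨a * b, by rw [ha, hb, Nat.cast_mul]⟩
      choose k hk using hnat
      have hsum := hC1 f
      rw [hN', CfsgLib.Char.inner_sum_left] at hsum
      simp only [CfsgLib.Char.inner_smul_left, hk] at hsum
      rw [← Nat.cast_sum, Nat.cast_eq_one] at hsum
      have hpos : ∀ f'' : G →* ℂˣ, classInner (fun i : ↥I => (C f : G → ℂ) i) (P f'' : ↥I → ℂ) ≠ 0 → k (P f'') ≠ 0 := by
        intro f'' hh h0
        have h2 := hk (P f'')
        rw [h0, Nat.cast_zero, funext (hPN f''), CfsgLib.Char.irr_inner_self φ.2, mul_one] at h2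
        exact hh h2
      have h2 : k (P f) + k (P f') ≤ 1 := by
        rw [← hsum, ← Finset.sum_pair hne]
        exact Finset.sum_le_univ_sum_of_nonneg fun _ => Nat.zero_le _
      have := hpos f (hC2 f)
      have := hpos f' (h ▸ hC2 f')
      omega
    intro i
    haveI : (N.subgroupOf I).Normal := inferInstance
    haveI := Fintype.ofFinite ↥(N.subgroupOf I)
    let e := Subgroup.subgroupOfEquivOfLe hNI
    have hψN : IsIrrCharacter ↥(N.subgroupOf I) (fun m : ↥(N.subgroupOf I) => (ψ : ↥I → ℂ) m) := by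
      have h1 := CfsgLib.Char.isIrrCharacter_comp_equiv φ.2 e
      have h2 : (fun m : ↥(N.subgroupOf I) => (ψ : ↥I → ℂ) m) = (φ : ↥N → ℂ) ∘ e := by
        funext m
        show _ = (φ : ↥N → ℂ) (e m)
        rw [← hψ]
        rfl
      rw [h2]; exact h1
    obtain ⟨m, hm⟩ : ∃ m : ↥(N.subgroupOf I), (ψ : ↥I → ℂ) ((m : ↥I) * i) ≠ 0 := by
      by_contra hall
      push Not at hall
      have h1 := congrFun (CfsgLib.Char.cosetAvg_self (N.subgroupOf I) ψ.2 hψN) i
      rw [CfsgLib.Char.cosetAvg_eq] at h1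
      simp [hall] at h1
    have h2 : (f (((m : ↥I) * i : ↥I) : G) : ℂ) * (ψ : ↥I → ℂ) ((m : ↥I) * i) =
        (f' (((m : ↥I) * i : ↥I) : G) : ℂ) * (ψ : ↥I → ℂ) ((m : ↥I) * i) :=
      congrFun (congrArg (fun x : IrrCharacter ↥I => (x : ↥I → ℂ)) hP) _
    have h3 := mul_right_cancel₀ hm h2
    rw [Subgroup.coe_mul, map_mul, map_mul, hfN f _ (Subgroup.mem_subgroupOf.1 m.2), hfN f' _ (Subgroup.mem_subgroupOf.1 m.2),
      one_mul, one_mul] at h3
    exact Units.ext h3
  -- the homomorphisms trivial on `I`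
  set J := I ⊔ commutator G with hJ
  haveI hJn : J.Normal := Subgroup.Normal.of_commutator_le G le_sup_right
  haveI : Finite (G ⧸ J →* ℂˣ) := Finite.of_equiv _ CfsgLib.Char.linCharEquiv.symm
  have hhoms : Nat.card {f : G →* ℂˣ // ∀ i : ↥I, f (i : G) = 1} ≤ I.index := by
    refine le_trans (Nat.card_le_card_of_injective
      (fun f => (QuotientGroup.lift J f.1 (sup_le (fun x hx => MonoidHom.mem_ker.2 (f.2 ⟨x, hx⟩))
        (Abelianization.commutator_subset_ker f.1)) : G ⧸ J →* ℂˣ)) ?_) ?_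
    · intro f f' h
      exact Subtype.ext (MonoidHom.ext fun g => DFunLike.congr_fun h (QuotientGroup.mk g))
    · rw [Nat.card_congr CfsgLib.Char.linCharEquiv, CfsgLib.Char.card_linear_chars]
      refine le_trans (Nat.le_of_dvd Nat.card_pos (Subgroup.index_dvd_card _)) ?_
      rw [← Subgroup.index_eq_card]
      exact Nat.le_of_dvd (Nat.pos_of_ne_zero Subgroup.index_ne_zero_of_finite) (Subgroup.index_dvd_of_le le_sup_left)
  have hlin : Nat.card {χ : IrrCharacter G // charDegree (χ : G → ℂ) = 1 ∧ (Nat.card G : ℂ)⁻¹ * ∑ᶠ g : G, (χ : G → ℂ) (g * g) = 1}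
      ≤ (Finset.univ.filter fun f : G →* ℂˣ => ∀ g, f g * f g = 1).card := by
    rw [Nat.card_eq_fintype_card, Fintype.card_subtype]
    refine Finset.card_le_card_of_surjOn (fun f : G →* ℂˣ => (⟨fun g => (f g : ℂ), CfsgLib.Char.isIrrCharacter_hom f⟩ : IrrCharacter G)) ?_
    intro χ hχ
    obtain ⟨-, h1, hsq⟩ := Finset.mem_filter.1 hχ
    have hd1 : (χ : G → ℂ) 1 = 1 := by rw [← CfsgLib.Block.charDegree_cast χ.2.isCharacter', h1, Nat.cast_one]
    obtain ⟨f, hf⟩ := CfsgLib.Char.exists_hom_of_degree_one χ.2.isCharacter' hd1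
    rw [finsum_eq_sum_of_fintype, hf] at hsq
    have hff : f * f = 1 := by
      by_contra hne
      have h := sum_hom_units_eq_zero ((Units.coeHom ℂ).comp (f * f)) (fun e => hne (MonoidHom.ext fun g => Units.ext (DFunLike.congr_fun e g)))
      have h' : ∑ g : G, (f (g * g) : ℂ) = 0 := by rw [← h]; exact Finset.sum_congr rfl fun g _ => by simp
      rw [h', mul_zero] at hsq
      exact zero_ne_one hsq
    exact ⟨f, Finset.mem_filter.2 ⟨Finset.mem_univ _, fun g => DFunLike.congr_fun hff g⟩, Subtype.ext hf.symm⟩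
  refine hlin.trans ?_
  have hmax := Finset.card_le_mul_card_image (f := C) (Finset.univ.filter fun f : G →* ℂˣ => ∀ g, f g * f g = 1) I.index (fun χ hχ => by
    obtain ⟨f₀, -, rfl⟩ := Finset.mem_image.1 hχ
    refine le_trans ?_ hhoms
    rw [← Fintype.card_coe, ← Nat.card_eq_fintype_card]
    refine Nat.card_le_card_of_injective (fun f => ⟨f.1 * f₀⁻¹, fun i => ?_⟩) (fun a b h => Subtype.ext ?_)
    · rw [MonoidHom.mul_apply, MonoidHom.inv_apply, hsame f.1 f₀ (Finset.mem_filter.1 f.2).2 i, mul_inv_cancel]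
    · refine MonoidHom.ext fun g => ?_
      exact mul_right_cancel (DFunLike.congr_fun (congrArg Subtype.val h) g))
  refine hmax.trans (Nat.mul_le_mul_left _ ?_)
  rw [Nat.card_eq_fintype_card, Fintype.card_subtype]
  refine Finset.card_le_card fun χ hχ => ?_
  obtain ⟨f, hf, rfl⟩ := Finset.mem_image.1 hχ
  refine Finset.mem_filter.2 ⟨Finset.mem_univ _, hCd f, ?_⟩
  have hf2 := (Finset.mem_filter.1 hf).2
  rw [finsum_eq_sum_of_fintype, hC f]
  refine indicator_indFun N I hNI (φ : ↥N → ℂ) φ.2 ?_ (fun g hg hall => hg ((hI g).2 fun n n' h => ?_)) _ (P f).2.isCharacter' (fun n => hPN f n) ?_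
  · intro n
    have hr : ((ψ : ↥I → ℂ) (incl n)).im = 0 := by
      by_contra hne
      have h0 := (CfsgLib.Char.sqIndicator_trichotomy ψ.2).2.2 ⟨_, hne⟩
      rw [CfsgLib.Char.sqIndicator, hψν] at h0
      exact one_ne_zero h0
    rw [← hψ n]; exact hr
  · exact hall n n' h
  · rw [← hψν]
    congr 1
    refine Finset.sum_congr rfl fun i _ => ?_
    show (f ((i * i : ↥I) : G) : ℂ) * _ = _
    rw [Subgroup.coe_mul, map_mul, hf2, Units.val_one, one_mul]


end Cfsg.Agent.S4912
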