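import Cfsg.Statements.S4914
import Cfsg.Agent.Lib.BlockRelGlauberman
import Cfsg.Agent.Lib.BlockGlaubermanSub

set_option autoImplicit false
open Cfsg
open CfsgLib.Glauberman CfsgLib.Char CfsgLib.Block

namespace Cfsg.Agent.S4914

/-- Let P and K be subgroups of a finite group G with P a p-group normalizing K, and suppose K has a normal Sylow p-subgroup Q. Let C be the subgroup of those k ∈ K whose commutator with every element of P lies in Q (so that C/Q is the fixed-point subgroup of P on K/Q). Then there is a bijection f from the P-invariant irreducible complex characters of K onto the P-invariant irreducible complex characters of C such that, for every P-invariant irreducible character χ of K, the multiplicity of f(χ) in the restriction of χ to C is a natural number congruent to 1 or to −1 modulo p, every other P-invariant irreducible character of C occurs in that restriction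 with multiplicity divisible by p, and the degrees of χ and f(χ) are congruent modulo p up to sign. -/
theorem result {G : Type*} [Group G] [Finite G] (p : ℕ) [Fact p.Prime] (P K Q C : Subgroup G) (hP : IsPGroup p ↥P) (hPK : P ≤ Subgroup.normalizer (K : Set G)) (hQK : Q ≤ K) (hQn : ∀ k ∈ K, ∀ q ∈ Q, k * q * k⁻¹ ∈ Q) (hQp : ∃ a : ℕ, Nat.card ↥Q = p ^ a) (hQsyl : ¬ p ∣ Q.relIndex K) (hCK : C ≤ K) (hC : ∀ k : G, k ∈ C ↔ (k ∈ K ∧ ∀ x ∈ P, x * k * x⁻¹ * k⁻¹ ∈ Q)) : ∃ f : {χ : Cfsg.IrrCharacter ↥K // (∀ x ∈ P, ∀ k k' : ↥K, (k' : G) = x * (k : G) * x⁻¹ → (χ : ↥K → ℂ) k' = (χ : ↥K → ℂ) k)} → {ξ : Cfsg.IrrCharacter ↥C // (∀ x ∈ P, ∀ k k' : ↥C, (k' : G) = x * (k : G) * x⁻¹ → (ξ : ↥C → ℂ) k' = (ξ : ↥C → ℂ) k)}, Function.Bijective f ∧ ∀ χ, (∀ ξ : {ξ : Cfsg.IrrCharacter ↥C // (∀ x ∈ P, ∀ k k' : ↥C, (k' : G) = x * (k : G) * x⁻¹ → (ξ : ↥C → ℂ) k' = (ξ : ↥C → ℂ) k)}, ∃ m : ℕ, (Nat.card ↥C : ℂ)⁻¹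 * ∑ᶠ c : ↥C, (χ.1 : ↥K → ℂ) (Subgroup.inclusion hCK c) * (starRingEnd ℂ) ((ξ.1 : ↥C → ℂ) c) = (m : ℂ) ∧ (ξ = f χ → ((m : ZMod p) = 1 ∨ (m : ZMod p) = -1)) ∧ (ξ ≠ f χ → p ∣ m)) ∧ ((Cfsg.charDegree ((f χ).1 : ↥C → ℂ) : ZMod p) = (Cfsg.charDegree (χ.1 : ↥K → ℂ) : ZMod p) ∨ (Cfsg.charDegree ((f χ).1 : ↥C → ℂ) : ZMod p) = -(Cfsg.charDegree (χ.1 : ↥K → ℂ) : ZMod p)) := by
  classical
  haveI := Fintype.ofFinite G
  haveI := Fintype.ofFinite ↥K
  haveI := Fintype.ofFinite ↥C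
  let Q' : Subgroup ↥K := Q.subgroupOf K
  haveI hQ'n : Q'.Normal := ⟨fun q hq k => Subgroup.mem_subgroupOf.2 (by
    simpa using hQn k k.2 q (Subgroup.mem_subgroupOf.1 hq))⟩
  have hnorm : ∀ x ∈ P, ∀ k ∈ K, x * k * x⁻¹ ∈ K := fun x hx k hk =>
    (Subgroup.mem_normalizer_iff.1 (hPK hx) k).1 hk
  let φ := conjOn K P hnorm
  obtain ⟨a, ha⟩ := hQp
  have hQp' : IsPGroup p Q' :=
    (IsPGroup.of_card ha).of_equiv (Subgroup.subgroupOfEquivOfLe hQK).symm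
  have hidx : ¬ p ∣ Q'.index := hQsyl
  -- a normal Sylow subgroup is invariant
  have hQi : ∀ s, ∀ q ∈ Q', φ s q ∈ Q' := by
    intro s q hq
    obtain ⟨j, hj⟩ := hQp' ⟨q, hq⟩
    have hj' : q ^ p ^ j = 1 := congrArg Subtype.val hj
    rw [← QuotientGroup.eq_one_iff, ← orderOf_eq_one_iff]
    have h1 : orderOf (QuotientGroup.mk (φ s q) : ↥K ⧸ Q') ∣ p ^ j := orderOf_dvd_of_pow_eq_one (by
      rw [← QuotientGroup.mk_pow, ← map_pow, hj', map_one, QuotientGroup.mk_one])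
    have h2 : orderOf (QuotientGroup.mk (φ s q) : ↥K ⧸ Q') ∣ Q'.index := orderOf_dvd_natCard _
    exact Nat.eq_one_of_dvd_coprimes
      (Nat.Coprime.pow_left _ ((Fact.out : p.Prime).coprime_iff_not_dvd.2 hidx)) h1 h2
  have hmemC : ∀ k : ↥K, k ∈ relC φ Q' ↔ (k : G) ∈ C := by
    intro k
    rw [mem_relC, hC]
    constructor
    · exact fun h => ⟨k.2, fun x hx => Subgroup.mem_subgroupOf.1 (h ⟨x, hx⟩)⟩
    · exact fun h s => Subgroup.mem_subgroupOf.2 (h.2 s s.2)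
  let e : ↥(relC φ Q') ≃* ↥C :=
    { toFun := fun c => ⟨((c : ↥K) : G), (hmemC c).1 c.2⟩
      invFun := fun c => ⟨⟨c, hCK c.2⟩, (hmemC _).2 c.2⟩
      left_inv := fun c => rfl
      right_inv := fun c => rfl
      map_mul' := fun a b => rfl }
  obtain ⟨f, hf, hprop⟩ := relative_glauberman hQi hP hQp' hidx
  let α : {χ : Cfsg.IrrCharacter ↥K // (∀ x ∈ P, ∀ k k' : ↥K, (k' : G) = x * (k : G) * x⁻¹ → (χ : ↥K → ℂ) k' = (χ : ↥K → ℂ) k)} ≃
      {χ : Cfsg.IrrCharacter ↥K // ∀ s k, (χ : ↥K → ℂ) (φ s k) = (χ : ↥K → ℂ) k} :=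
    Equiv.subtypeEquivRight fun χ => by
      constructor
      · exact fun h s k => h s s.2 k (φ s k) rfl
      · intro h x hx k k' e'
        rw [show k' = φ ⟨x, hx⟩ k from Subtype.ext e']
        exact h ⟨x, hx⟩ k
  let τ : {ξ : Cfsg.IrrCharacter ↥(relC φ Q') // ∀ s, ∀ c c' : ↥(relC φ Q'), (c' : ↥K) = φ s (c : ↥K) →
      (ξ : ↥(relC φ Q') → ℂ) c' = (ξ : ↥(relC φ Q') → ℂ) c} ≃
      {ξ : Cfsg.IrrCharacter ↥C // (∀ x ∈ P, ∀ k k' : ↥C, (k' : G) = x * (k : G) * x⁻¹ → (ξ : ↥C → ℂ) k' = (ξ : ↥C → ℂ) k)} :=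
    { toFun := fun ξ => ⟨⟨(ξ.1 : ↥(relC φ Q') → ℂ) ∘ e.symm, isIrrCharacter_comp_equiv ξ.1.2 e.symm⟩,
        fun x hx k k' e' => ξ.2 ⟨x, hx⟩ (e.symm k) (e.symm k') (Subtype.ext e')⟩
      invFun := fun ξ => ⟨⟨(ξ.1 : ↥C → ℂ) ∘ e, isIrrCharacter_comp_equiv ξ.1.2 e⟩,
        fun s c c' e' => ξ.2 s s.2 (e c) (e c') (congrArg Subtype.val e')⟩
      left_inv := fun ξ => Subtype.ext (Subtype.ext (funext fun c => congrArg _ (e.symm_apply_apply c)))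
      right_inv := fun ξ => Subtype.ext (Subtype.ext (funext fun c => congrArg _ (e.apply_symm_apply c))) }
  refine ⟨fun χ => τ (f (α χ)), τ.bijective.comp (hf.comp α.bijective), fun χ => ⟨fun ξ => ?_, ?_⟩⟩
  · obtain ⟨m, hm, h1, h0⟩ := (hprop (α χ)).1 (τ.symm ξ)
    refine ⟨m, ?_, fun h => h1 (by rw [h, Equiv.symm_apply_apply]),
      fun h => h0 fun h' => h (by show ξ = τ (f (α χ)); rw [← h', Equiv.apply_symm_apply])⟩
    rw [← hm, finsum_eq_sum_of_fintype]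
    show classInner (fun c : ↥C => (χ.1 : ↥K → ℂ) (Subgroup.inclusion hCK c)) (ξ.1 : ↥C → ℂ) = _
    rw [← inner_comp_equiv e]
    rfl
  · have hd : charDegree ((τ (f (α χ))).1 : ↥C → ℂ) = charDegree ((f (α χ)).1 : ↥(relC φ Q') → ℂ) := by
      show charDegree (((f (α χ)).1 : ↥(relC φ Q') → ℂ) ∘ e.symm) = _
      simp only [charDegree, Function.comp, map_one]
    rw [hd]
    exact (hprop (α χ)).2

end Cfsg.Agent.S4914
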