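import Cfsg.Statements.S4916
import Cfsg.Agent.Lib.BlockPrincipal
import Cfsg.Agent.Lib.BlockPrinColumn
import Cfsg.Agent.Lib.BlockCoverUnique
import Cfsg.Agent.Lib.BlockShortFacts
-- import your own Cfsg.Agent.* helpers here

set_option autoImplicit false
open Cfsg
open scoped Classical

namespace Cfsg.Agent.S4916

/-- Let G be a finite group, p a prime and M a maximal ideal of the algebraic integers containing p. Then the principal character is the only irreducible character of degree prime to p in the principal p-block of G if and only if p does not divide the order of G. -/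
theorem result {G : Type*} [Group G] [Finite G] (p : ℕ) [Fact p.Prime] (M : Ideal Cfsg.AlgInt) (hM : Cfsg.IsPModular p M) : (∀ χ : Cfsg.IrrCharacter G, χ ∈ Cfsg.principalBlock M G → ¬ p ∣ Cfsg.charDegree (χ : G → ℂ) → (χ : G → ℂ) = fun _ => (1 : ℂ)) ↔ ¬ p ∣ Nat.card G := by
  have : Fintype G := Fintype.ofFinite G
  have hp : p.Prime := Fact.out
  constructor
  · intro hall hdvd
    obtain ⟨x, hx⟩ := exists_prime_orderOf_dvd_card' p hdvd
    have hx1 : ¬ IsConj x 1 := fun h => by
      rw [isConj_one_left] at h
      rw [h, orderOf_one] at hx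
      exact hp.one_lt.ne hx
    have hxi : ∃ k, orderOf x⁻¹ = p ^ k := ⟨1, by rw [orderOf_inv, hx, pow_one]⟩
    have hsum := CfsgLib.Block.block_sum_pElement_eq_zero hM
      (CfsgLib.Block.isPBlock_principal (G := G) M) (u := x) (v := 1) ⟨1, by rw [hx, pow_one]⟩
      ⟨0, by simp⟩ hx1
    let B := principalBlock M G
    let f : IrrCharacter G → CfsgLib.Block.locRing hM := fun χ =>
      if χ ∈ B then ⟨(χ : G → ℂ) 1, CfsgLib.Block.irr_mem hM χ 1⟩ *
        ⟨(χ : G → ℂ) x⁻¹, CfsgLib.Block.irr_mem hM χ x⁻¹⟩ else 0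
    have hf : ∑ χ, f χ = 0 := Subtype.ext (by
      rw [AddSubmonoidClass.coe_finsetSum]
      refine Eq.trans (Finset.sum_congr rfl fun χ _ => ?_) hsum
      simp only [f, CfsgLib.Block.indVal, B, CfsgLib.Char.isCharacter_inv_eq_conj χ.2.isCharacter' x]
      split_ifs <;> simp)
    have h := congrArg (CfsgLib.Block.res hM) hf
    rw [map_sum, map_zero, Finset.sum_eq_single (CfsgLib.Block.trivIrr G)] at h
    · have h1 : f (CfsgLib.Block.trivIrr G) = 1 := by
        simp only [f, B, if_pos (CfsgLib.Block.trivIrr_mem_principal hM)]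
        exact Subtype.ext (mul_one (1 : ℂ))
      rw [h1, map_one] at h
      refine hp.not_dvd_one ((CfsgLib.Block.res_natCast_eq_zero_iff hM 1).1 ?_)
      rw [Nat.cast_one, map_one]
      exact h
    · intro χ _ hne
      by_cases hχ : χ ∈ B
      swap
      · simp [f, hχ]
      have hd : p ∣ charDegree (χ : G → ℂ) := by
        by_contra hd
        exact hne (Subtype.ext (hall χ hχ hd))
      have h0 : (⟨(χ : G → ℂ) 1, CfsgLib.Block.irr_mem hM χ 1⟩ : CfsgLib.Block.locRing hM) =
          (charDegree (χ : G → ℂ) : CfsgLib.Block.locRing hM) :=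
        Subtype.ext (by simp [CfsgLib.Block.charDegree_cast χ.2.isCharacter'])
      simp only [f, if_pos hχ, map_mul, h0,
        (CfsgLib.Block.res_natCast_eq_zero_iff hM _).2 hd, zero_mul]
    · intro h
      exact absurd (Finset.mem_univ _) h
  · intro hnd χ hχ _
    have h := CfsgLib.Block.eq_singleton_of_coprime hM hnd
      (CfsgLib.Block.isPBlock_principal (G := G) M) (CfsgLib.Block.trivIrr_mem_principal hM)
    rw [h, Set.mem_singleton_iff] at hχ
    rw [hχ]
    rfl

end Cfsg.Agent.S4916
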