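import Cfsg.Statements.S4930
import Cfsg.Agent.Lib.BlockNormalizerExtension

set_option autoImplicit false
open Cfsg

namespace Cfsg.Agent.S4930

/-- Let G be a finite group, P a Sylow 2-subgroup of G with normalizer N, and P′ the commutator subgroup of P. Then the sum of the squares of the degrees of the irreducible complex characters of G of odd degree is at least the index of P′ in N (the order of N divided by the order of P′), and equality holds if and only if N has a normal complement in G: a normal subgroup K of G with K ∩ N = 1 and KN = G. -/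
theorem result {G : Type*} [Group G] [Finite G] (P : Sylow 2 G) :
    Nat.card (Subgroup.normalizer ((P : Subgroup G) : Set G)) ≤ Nat.card (commutator ↥P) * (∑ᶠ χ : {χ : Cfsg.IrrCharacter G // ¬ 2 ∣ Cfsg.charDegree (χ : G → ℂ)}, Cfsg.charDegree (χ.1 : G → ℂ) ^ 2) ∧
    (Nat.card (Subgroup.normalizer ((P : Subgroup G) : Set G)) = Nat.card (commutator ↥P) * (∑ᶠ χ : {χ : Cfsg.IrrCharacter G // ¬ 2 ∣ Cfsg.charDegree (χ : G → ℂ)}, Cfsg.charDegree (χ.1 : G → ℂ) ^ 2) ↔
      ∃ K : Subgroup G, K.Normal ∧ K ⊓ Subgroup.normalizer ((P : Subgroup G) : Set G) = ⊥ ∧ K ⊔ Subgroup.normalizer ((P : Subgroup G) : Set G) = ⊤) := by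
  classical
  haveI := Fintype.ofFinite G
  haveI : Fact (Nat.Prime 2) := ⟨Nat.prime_two⟩
  set N := Subgroup.normalizer ((P : Subgroup G) : Set G) with hN
  haveI : Fintype N := Fintype.ofFinite _
  let Q : Subgroup N := (commutator ((P : Subgroup G).subgroupOf N)).map ((P : Subgroup G).subgroupOf N).subtype
  have hQn : Q.Normal := by
    show ((commutator ((P : Subgroup G).subgroupOf N)).map ((P : Subgroup G).subgroupOf N).subtype).Normal
    rw [commutator_def, Subgroup.map_commutator, ← MonoidHom.range_eq_map, Subgroup.range_subtype]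
    infer_instance
  have hQcard : Nat.card Q = Nat.card (commutator ↥P) := by
    rw [Subgroup.card_map_of_injective (Subgroup.subtype_injective _)]
    let e := Subgroup.subgroupOfEquivOfLe (Subgroup.le_normalizer : (P : Subgroup G) ≤ N)
    have he : (commutator ((P : Subgroup G).subgroupOf N)).map e.toMonoidHom = commutator ↥P := by
      rw [commutator_def, commutator_def, Subgroup.map_commutator, Subgroup.map_top_of_surjective e.toMonoidHom e.surjective]
    rw [← he, Subgroup.card_map_of_injective e.injective]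
  -- the characters of the normalizer of odd degree
  let A := Finset.univ.filter (fun ψ : IrrCharacter N => ¬ 2 ∣ charDegree (ψ : N → ℂ))
  let B := Finset.univ.filter (fun χ : IrrCharacter G => ¬ 2 ∣ charDegree (χ : G → ℂ))
  have hB : (∑ᶠ χ : {χ : IrrCharacter G // ¬ 2 ∣ charDegree (χ : G → ℂ)}, charDegree (χ.1 : G → ℂ) ^ 2) =
      ∑ χ ∈ B, charDegree (χ : G → ℂ) ^ 2 := by
    rw [finsum_eq_sum_of_fintype]
    exact (Finset.sum_subtype B (fun x => by simp [B]) (fun χ : IrrCharacter G => charDegree (χ : G → ℂ) ^ 2)).symm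
  have hA : Nat.card N = Nat.card (commutator ↥P) * ∑ ψ ∈ A, charDegree (ψ : N → ℂ) ^ 2 := by
    haveI : Fintype (N ⧸ Q) := Fintype.ofFinite _
    rw [← hQcard, Subgroup.card_eq_card_quotient_mul_card_subgroup Q, mul_comm]
    congr 1
    let e := CfsgLib.Char.inflateEquiv (QuotientGroup.mk' Q) (QuotientGroup.mk'_surjective Q)
    have hdeg : ∀ ξ : IrrCharacter (N ⧸ Q), ((e ξ).1 : N → ℂ) 1 = (ξ : N ⧸ Q → ℂ) 1 := fun ξ => by
      show (ξ : N ⧸ Q → ℂ) (QuotientGroup.mk' Q 1) = _
      rw [map_one]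
    have h := CfsgLib.Char.sum_degree_sq (G := N ⧸ Q)
    have h2 : ∑ ξ : IrrCharacter (N ⧸ Q), (ξ : N ⧸ Q → ℂ) 1 ^ 2 = ((∑ ψ ∈ A, charDegree (ψ : N → ℂ) ^ 2 : ℕ) : ℂ) := by
      rw [Nat.cast_sum]
      refine Finset.sum_bij (fun ξ _ => (e ξ).1) (fun ξ _ => ?_) (fun a _ b _ h => e.injective (Subtype.ext h)) (fun ψ hψ => ?_) (fun ξ _ => ?_)
      · refine Finset.mem_filter.2 ⟨Finset.mem_univ _, (CfsgLib.Block.not_dvd_degree_iff_sylowIn P _).2 fun x hx => (e ξ).2 x ?_⟩
        rw [QuotientGroup.ker_mk']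
        exact (CfsgLib.Block.mem_commutator_sylowIn P x).1 hx
      · refine ⟨e.symm ⟨ψ, fun k hk => ?_⟩, Finset.mem_univ _, by rw [Equiv.apply_symm_apply]⟩
        rw [QuotientGroup.ker_mk'] at hk
        exact (CfsgLib.Block.not_dvd_degree_iff_sylowIn P ψ).1 (Finset.mem_filter.1 hψ).2 k ((CfsgLib.Block.mem_commutator_sylowIn P k).2 hk)
      · rw [← hdeg, Nat.cast_pow, CfsgLib.Block.charDegree_cast (e ξ).1.2.isCharacter']
    rw [h2] at h
    exact_mod_cast h.symm
  -- every odd character of the normalizer lies below an odd character of the group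
  have hidx : ¬ 2 ∣ N.index := fun h => P.not_dvd_index (h.trans (Subgroup.index_dvd_of_le Subgroup.le_normalizer))
  have hpick : ∀ ψ : IrrCharacter N, ∃ χ : IrrCharacter G, ψ ∈ A →
      χ ∈ B ∧ classInner (fun x : N => (χ : G → ℂ) x) (ψ : N → ℂ) ≠ 0 := by
    intro ψ
    by_cases hψ : ψ ∈ A
    · have hI : IsCharacter G (indFun N (ψ : N → ℂ)) := CfsgLib.Char.isCharacter_indFun ψ.2.isCharacter'
      by_contra hno
      push Not at hno
      choose c hc using fun χ : IrrCharacter G => CfsgLib.Char.inner_character_nat hI χ.2.isCharacter'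
      have hdec := congrFun (CfsgLib.Char.classFunction_eq_sum _ (CfsgLib.Char.isCharacter_classFunction hI)) 1
      simp only [Finset.sum_apply, Pi.smul_apply, smul_eq_mul, hc, CfsgLib.Char.indFun_one_apply,
        ← CfsgLib.Block.charDegree_cast (IsIrrCharacter.isCharacter' (Subtype.property _)),
        ← CfsgLib.Block.charDegree_cast ψ.2.isCharacter'] at hdec
      have hdec' : N.index * charDegree (ψ : N → ℂ) = ∑ χ : IrrCharacter G, c χ * charDegree (χ : G → ℂ) := by exact_mod_cast hdec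
      have h2 : 2 ∣ N.index * charDegree (ψ : N → ℂ) := by
        rw [hdec']
        refine Finset.dvd_sum fun χ _ => ?_
        by_cases hχ : χ ∈ B
        · have h0 := (hno χ).2 hχ
          have h1 := CfsgLib.Char.frobenius (ψ : N → ℂ) (χ : G → ℂ) (CfsgLib.Block.irr_classFunction χ)
          rw [hc, CfsgLib.Char.inner_comm_of_isCharacter ψ.2.isCharacter' (CfsgLib.Char.isCharacter_restrict χ.2.isCharacter' N), h0] at h1
          rw [Nat.cast_eq_zero.1 h1, zero_mul]; exact dvd_zero _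
        · exact Dvd.dvd.mul_left (not_not.1 fun h => hχ (Finset.mem_filter.2 ⟨Finset.mem_univ _, h⟩)) _
      exact (Nat.prime_two.dvd_mul.1 h2).elim hidx (Finset.mem_filter.1 hψ).2
    · exact ⟨CfsgLib.Block.trivIrr G, fun h => absurd h hψ⟩
  choose f hf using hpick
  -- degrees in a fibre
  have hfib : ∀ χ ∈ B, (∑ ψ ∈ A.filter (fun ψ => f ψ = χ), charDegree (ψ : N → ℂ)) ≤ charDegree (χ : G → ℂ) := by
    intro χ _
    have hR := CfsgLib.Char.isCharacter_restrict χ.2.isCharacter' N
    choose c hc using fun ψ : IrrCharacter N => CfsgLib.Char.inner_character_nat hR ψ.2.isCharacter'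
    have hdec := congrFun (CfsgLib.Char.classFunction_eq_sum _ (CfsgLib.Char.isCharacter_classFunction hR)) 1
    simp only [Finset.sum_apply, Pi.smul_apply, smul_eq_mul, hc, Subgroup.coe_one,
      ← CfsgLib.Block.charDegree_cast (IsIrrCharacter.isCharacter' (Subtype.property _))] at hdec
    have hdec' : charDegree (χ : G → ℂ) = ∑ ψ : IrrCharacter N, c ψ * charDegree (ψ : N → ℂ) := by exact_mod_cast hdec
    rw [hdec']
    refine (Finset.sum_le_sum fun ψ hψ => ?_).trans (Finset.sum_le_sum_of_subset (Finset.subset_univ _))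
    obtain ⟨hψA, hψf⟩ := Finset.mem_filter.1 hψ
    have h0 := (hf ψ hψA).2
    rw [hψf, hc] at h0
    exact Nat.le_mul_of_pos_left _ (Nat.pos_of_ne_zero fun e => h0 (by rw [e, Nat.cast_zero]))
  have hsplit : ∑ ψ ∈ A, charDegree (ψ : N → ℂ) ^ 2 = ∑ χ ∈ B, ∑ ψ ∈ A.filter (fun ψ => f ψ = χ), charDegree (ψ : N → ℂ) ^ 2 :=
    (Finset.sum_fiberwise_of_maps_to (fun ψ hψ => (hf ψ hψ).1) _).symm
  have hbd : ∀ χ ∈ B, ∑ ψ ∈ A.filter (fun ψ => f ψ = χ), charDegree (ψ : N → ℂ) ^ 2 ≤ charDegree (χ : G → ℂ) ^ 2 := fun χ hχ =>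
    (Finset.sum_sq_le_sq_sum_of_nonneg fun _ _ => Nat.zero_le _).trans (Nat.pow_le_pow_left (hfib χ hχ) 2)
  have hle : ∑ ψ ∈ A, charDegree (ψ : N → ℂ) ^ 2 ≤ ∑ χ ∈ B, charDegree (χ : G → ℂ) ^ 2 := by
    rw [hsplit]; exact Finset.sum_le_sum hbd
  have hc0 : 0 < Nat.card (commutator ↥P) := Nat.card_pos
  rw [hB]
  refine ⟨hA.le.trans (Nat.mul_le_mul_left _ hle), fun heq => ?_, ?_⟩
  · rw [hA] at heq
    have heq' : ∑ ψ ∈ A, charDegree (ψ : N → ℂ) ^ 2 = ∑ χ ∈ B, charDegree (χ : G → ℂ) ^ 2 := Nat.eq_of_mul_eq_mul_left hc0 heq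
    have hall := (Finset.sum_eq_sum_iff_of_le hbd).1 (hsplit.symm.trans heq')
    refine Exists.imp (fun K h => ⟨h.1, h.2.2, h.2.1⟩) (CfsgLib.Block.exists_complement_of_forall_extend P fun ψ hψ => ⟨f ψ, ?_⟩)
    have hψA : ψ ∈ A := Finset.mem_filter.2 ⟨Finset.mem_univ _, hψ⟩
    obtain ⟨hχB, hin⟩ := hf ψ hψA
    set F := A.filter (fun η => f η = f ψ)
    have hmem : ψ ∈ F := Finset.mem_filter.2 ⟨hψA, rfl⟩
    have hsum : ∑ η ∈ F, charDegree (η : N → ℂ) = charDegree (f ψ : G → ℂ) := by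
      refine le_antisymm (hfib _ hχB) ?_
      by_contra hlt
      have h := (Finset.sum_sq_le_sq_sum_of_nonneg (s := F) (f := fun η : IrrCharacter N => charDegree (η : N → ℂ)) fun _ _ => Nat.zero_le _)
      rw [hall _ hχB] at h
      have h' := Nat.pow_lt_pow_left (not_le.1 hlt) (show 2 ≠ 0 by norm_num)
      omega
    have hone : ∀ η ∈ F, η = ψ := by
      intro η hη
      by_contra hne
      have hpair : ({η, ψ} : Finset (IrrCharacter N)) ⊆ F := Finset.insert_subset_iff.2 ⟨hη, Finset.singleton_subset_iff.2 hmem⟩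
      have h1 : ∑ x ∈ F, charDegree (x : N → ℂ) ^ 2 + 2 * (charDegree (η : N → ℂ) * charDegree (ψ : N → ℂ)) ≤
          (∑ x ∈ F, charDegree (x : N → ℂ)) ^ 2 := by
        rw [← Finset.sum_sdiff hpair, ← Finset.sum_sdiff hpair, Finset.sum_pair hne, Finset.sum_pair hne]
        have h2 := Finset.sum_sq_le_sq_sum_of_nonneg (s := F \ {η, ψ}) (f := fun x : IrrCharacter N => charDegree (x : N → ℂ)) fun _ _ => Nat.zero_le _
        nlinarith [h2, Nat.zero_le ((∑ x ∈ F \ {η, ψ}, charDegree (x : N → ℂ)) * (charDegree (η : N → ℂ) + charDegree (ψ : N → ℂ)))]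
      rw [hall _ hχB, hsum] at h1
      have := Nat.mul_pos (CfsgLib.Block.charDegree_pos η) (CfsgLib.Block.charDegree_pos ψ)
      omega
    have hF : F = {ψ} := Finset.eq_singleton_iff_unique_mem.2 ⟨hmem, hone⟩
    rw [hF, Finset.sum_singleton] at hsum
    intro x
    refine congrFun (CfsgLib.Char.eq_of_constituent_of_degree (CfsgLib.Char.isCharacter_restrict (f ψ).2.isCharacter' N) ψ.2 hin (le_of_eq ?_)) x
    rw [Subgroup.coe_one, ← CfsgLib.Block.charDegree_cast (f ψ).2.isCharacter', ← CfsgLib.Block.charDegree_cast ψ.2.isCharacter', hsum]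
  · rintro ⟨K, hKn, hinf, hsup⟩
    haveI := hKn
    have hKodd : ¬ 2 ∣ Nat.card K := by
      have h : Nat.card K = N.index := (Subgroup.isComplement'_of_disjoint_and_mul_eq_univ (disjoint_iff.2 hinf)
        (by rw [← Subgroup.normal_mul, hsup, Subgroup.coe_top])).index_eq_card.symm
      rw [h]; exact hidx
    have hfix : K ⊓ Subgroup.centralizer ((P : Subgroup G) : Set G) = ⊥ :=
      le_antisymm (le_trans (inf_le_inf_left K (Subgroup.centralizer_le_normalizer _)) hinf.le) bot_le
    rw [hA]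
    congr 1
    refine le_antisymm hle ?_
    -- restriction gives an injection
    have hres : ∀ χ ∈ B, ∃ ψ ∈ A, ∀ x : N, (χ : G → ℂ) x = (ψ : N → ℂ) x := by
      intro χ hχ
      have hd := (Finset.mem_filter.1 hχ).2
      have hker : ∀ k ∈ K, (χ : G → ℂ) k = (χ : G → ℂ) 1 := fun k hk =>
        CfsgLib.Block.apply_eq_one_of_fixedPointFree K (P : Subgroup G) hKodd P.isPGroup' hfix χ hd hk
      set g := (QuotientGroup.mk' K).comp N.subtype
      have hg : Function.Surjective g := fun y => by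
        obtain ⟨a, rfl⟩ := QuotientGroup.mk'_surjective K y
        have ha : a ∈ K ⊔ N := by rw [hsup]; exact Subgroup.mem_top _
        obtain ⟨k, hk, b, hb, rfl⟩ := Subgroup.mem_sup_of_normal_left.1 ha
        refine ⟨⟨b, hb⟩, ?_⟩
        show QuotientGroup.mk' K b = QuotientGroup.mk' K (k * b)
        rw [map_mul, show QuotientGroup.mk' K k = 1 from (QuotientGroup.eq_one_iff k).2 hk, one_mul]
      obtain ⟨ξ, -, hξc, hξi⟩ := CfsgLib.Char.exists_deflate χ.2.isCharacter' (QuotientGroup.mk' K)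
        (QuotientGroup.mk'_surjective K) (fun k hk => hker k (by rwa [QuotientGroup.ker_mk'] at hk))
      have hirr := CfsgLib.Char.isIrrCharacter_comp_surjective (hξi χ.2) g hg
      refine ⟨⟨_, hirr⟩, Finset.mem_filter.2 ⟨Finset.mem_univ _, ?_⟩, fun x => by rw [← hξc]; rfl⟩
      have h : (charDegree (ξ ∘ g) : ℂ) = (charDegree (χ : G → ℂ) : ℂ) := by
        rw [CfsgLib.Block.charDegree_cast hirr.isCharacter', CfsgLib.Block.charDegree_cast χ.2.isCharacter', ← hξc]
        simp [g]
      rw [show charDegree (((⟨_, hirr⟩ : IrrCharacter N)) : N → ℂ) = charDegree (χ : G → ℂ) from Nat.cast_injective h]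
      exact hd
    choose r hrA hr using hres
    rw [← Finset.sum_attach B]
    refine le_of_eq_of_le ?_ (Finset.sum_le_sum_of_subset (s := B.attach.image fun χ => r χ.1 χ.2) (fun ψ hψ => ?_))
    · rw [Finset.sum_image]
      · refine Finset.sum_congr rfl fun χ _ => ?_
        congr 1
        apply Nat.cast_injective (R := ℂ)
        rw [CfsgLib.Block.charDegree_cast χ.1.2.isCharacter', CfsgLib.Block.charDegree_cast (r χ.1 χ.2).2.isCharacter', ← hr χ.1 χ.2 1, Subgroup.coe_one]
      · intro a _ b _ hab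
        refine Subtype.ext (Subtype.ext (funext fun y => ?_))
        have hy : y ∈ K ⊔ N := by rw [hsup]; exact Subgroup.mem_top _
        obtain ⟨k, hk, x, hx, rfl⟩ := Subgroup.mem_sup_of_normal_left.1 hy
        have hdrop : ∀ χ : IrrCharacter G, χ ∈ B → (χ : G → ℂ) (k * x) = (χ : G → ℂ) x := fun χ hχ => by
          have hker := CfsgLib.Block.apply_eq_one_of_fixedPointFree K (P : Subgroup G) hKodd P.isPGroup' hfix χ (Finset.mem_filter.1 hχ).2
            (hKn.conj_mem k hk x⁻¹)
          have h := CfsgLib.Char.char_mul_of_mem_ker χ.2.isCharacter' hker x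
          rwa [inv_inv, show x * (x⁻¹ * k * x) = k * x by group] at h
        rw [hdrop a.1 a.2, hdrop b.1 b.2, hr a.1 a.2 ⟨x, hx⟩, hr b.1 b.2 ⟨x, hx⟩]
        exact congrArg (fun ψ : IrrCharacter N => (ψ : N → ℂ) ⟨x, hx⟩) hab
    · obtain ⟨χ, -, rfl⟩ := Finset.mem_image.1 hψ
      exact hrA _ _

end Cfsg.Agent.S4930
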