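import Cfsg.Statements.S4937
import Cfsg.Agent.Lib.BlockPrincipal
import Cfsg.Agent.Lib.CharEquiv

set_option autoImplicit false
set_option maxHeartbeats 400000
open Cfsg CfsgLib.Block CfsgLib.Char

namespace Cfsg.Agent.S4937

universe u

section
variable {G : Type u} [Group G] [Fintype G] {p : ℕ} [Fact p.Prime] {M : Ideal AlgInt}
variable {N : Subgroup G} [hN : N.Normal] {d : ℕ}

/-- The scalar by which a weighted sum of group elements acts. -/
noncomputable def scal (ρ : Representation ℂ G (Fin d → ℂ)) (F : G → ℕ) : ℂ :=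
  (∑ g, (F g : ℂ) * ρ.character g) / ρ.character 1

open Classical in
/-- The orbit of an element under conjugation by the normal subgroup. -/
noncomputable def orb (N : Subgroup G) (x : G) : Finset G :=
  (Finset.univ.filter (· ∈ N)).image fun n => n * x * n⁻¹

omit hN in
open Classical in
theorem mem_orb {x g : G} : g ∈ orb N x ↔ ∃ n ∈ N, n * x * n⁻¹ = g := by
  simp [orb]

omit hN in
theorem self_mem_orb (x : G) : x ∈ orb N x := mem_orb.2 ⟨1, one_mem N, by simp⟩

omit hN in
theorem orb_eq_of_mem {x g : G} (h : g ∈ orb N x) : orb N g = orb N x := by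
  obtain ⟨n, hn, rfl⟩ := mem_orb.1 h
  ext a
  simp only [mem_orb]
  refine ⟨fun ⟨m, hm, e⟩ => ⟨m * n, mul_mem hm hn, by rw [← e]; group⟩,
    fun ⟨m, hm, e⟩ => ⟨m * n⁻¹, mul_mem hm (inv_mem hn), by rw [← e]; group⟩⟩

theorem orb_coset {x g : G} (h : g ∈ orb N x) : (g : G ⧸ N) = (x : G ⧸ N) := by
  obtain ⟨n, hn, rfl⟩ := mem_orb.1 h
  rw [QuotientGroup.mk_mul, QuotientGroup.mk_mul, QuotientGroup.mk_inv,
    (QuotientGroup.eq_one_iff n).2 hn]
  simp

omit hN in
theorem orb_inv {x n g : G} (hn : n ∈ N) : n * g * n⁻¹ ∈ orb N x ↔ g ∈ orb N x := by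
  simp only [mem_orb]
  exact ⟨fun ⟨m, hm, e⟩ => ⟨n⁻¹ * m, mul_mem (inv_mem hn) hm,
      by rw [show g = n⁻¹ * (n * g * n⁻¹) * n by group, ← e]; group⟩,
    fun ⟨m, hm, e⟩ => ⟨n * m, mul_mem hn hm, by rw [← e]; group⟩⟩

open Classical in
noncomputable def ind (N : Subgroup G) (x : G) : G → ℕ := fun g => if g ∈ orb N x then 1 else 0

omit hN in
theorem ind_inv (x : G) : ∀ n ∈ N, ∀ g, ind N x (n * g * n⁻¹) = ind N x g := fun n hn g => by
  unfold ind
  classical
  exact if_congr (orb_inv hn) rfl rfl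

open Classical in
/-- The number of factorisations through two orbits. -/
noncomputable def pairs (N : Subgroup G) (x y : G) : G → ℕ := fun g =>
  ((orb N x ×ˢ orb N y).filter fun q => q.1 * q.2 = g).card

omit hN in
theorem pairs_inv (x y : G) : ∀ n ∈ N, ∀ g, pairs N x y (n * g * n⁻¹) = pairs N x y g := by
  intro n hn g
  classical
  refine Finset.card_bij' (fun q _ => (n⁻¹ * q.1 * n, n⁻¹ * q.2 * n))
    (fun q _ => (n * q.1 * n⁻¹, n * q.2 * n⁻¹)) ?_ ?_ ?_ ?_
  · intro q hq
    simp only [Finset.mem_filter, Finset.mem_product] at hq ⊢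
    have e1 := (orb_inv (x := x) (g := q.1) (inv_mem hn)).2 hq.1.1
    have e2 := (orb_inv (x := y) (g := q.2) (inv_mem hn)).2 hq.1.2
    rw [inv_inv] at e1 e2
    refine ⟨⟨e1, e2⟩, ?_⟩
    rw [show n⁻¹ * q.1 * n * (n⁻¹ * q.2 * n) = n⁻¹ * (q.1 * q.2) * n by group, hq.2]
    group
  · intro q hq
    simp only [Finset.mem_filter, Finset.mem_product] at hq ⊢
    refine ⟨⟨(orb_inv hn).2 hq.1.1, (orb_inv hn).2 hq.1.2⟩, ?_⟩
    rw [← hq.2]; group
  · intro q _; ext <;> simp [mul_assoc]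
  · intro q _; ext <;> simp [mul_assoc]

omit hN in
theorem sum_pairs (x y : G) : ∑ g, pairs N x y g = (orb N x).card * (orb N y).card := by
  classical
  rw [← Finset.card_product]
  exact (Finset.card_eq_sum_card_fiberwise fun q _ => Finset.mem_univ _).symm

theorem pairs_supp {x y g : G} (h : pairs N x y g ≠ 0) : (g : G ⧸ N) = (x * y : G) := by
  classical
  obtain ⟨q, hq⟩ := Finset.card_ne_zero.1 h |>.exists_mem
  simp only [Finset.mem_filter, Finset.mem_product] at hq
  rw [← hq.2, QuotientGroup.mk_mul, QuotientGroup.mk_mul, orb_coset hq.1.1, orb_coset hq.1.2]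

theorem card_orb_ne_zero (hM : IsPModular p M) (P : Sylow p N) {c : G}
    (hc : c ∈ Subgroup.centralizer (((P : Subgroup N).map N.subtype : Subgroup G) : Set G)) :
    ((orb N c).card : ResField M) ≠ 0 := by
  classical
  haveI := charP_resField hM
  rw [Ne, CharP.cast_eq_zero_iff (ResField M) p]
  obtain ⟨st, hst⟩ : ∃ st, st = (Subgroup.centralizer ({c} : Set G)).comap N.subtype := ⟨_, rfl⟩
  have hmem : ∀ n : N, n ∈ st ↔ (n : G) * c = c * n := fun n => by
    rw [hst, Subgroup.mem_comap, Subgroup.mem_centralizer_singleton_iff]; rfl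
  have hle : (P : Subgroup N) ≤ st := fun n hn => by
    rw [hmem]
    exact Subgroup.mem_centralizer_iff.1 hc _ ⟨n, hn, rfl⟩
  let f : N ⧸ st → {g // g ∈ orb N c} :=
    Quotient.lift (fun n : N => ⟨(n : G) * c * (n : G)⁻¹, mem_orb.2 ⟨n, n.2, rfl⟩⟩) (by
      intro a b hab
      have h := (hmem _).1 (QuotientGroup.leftRel_apply.1 hab)
      apply Subtype.ext
      show (a : G) * c * (a : G)⁻¹ = (b : G) * c * (b : G)⁻¹
      push_cast at h
      calc (a : G) * c * (a : G)⁻¹ = (a : G) * (c * ((a : G)⁻¹ * b)) * (b : G)⁻¹ := by group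
        _ = (b : G) * c * (b : G)⁻¹ := by rw [← h]; group)
  have hbij : Function.Bijective f := by
    refine ⟨?_, ?_⟩
    · rintro ⟨a⟩ ⟨b⟩ h
      have h' : (a : G) * c * (a : G)⁻¹ = (b : G) * c * (b : G)⁻¹ := congrArg Subtype.val h
      refine QuotientGroup.eq.2 ((hmem _).2 ?_)
      push_cast
      rw [eq_mul_inv_iff_mul_eq] at h'
      rw [mul_assoc, inv_mul_eq_iff_eq_mul, ← h']
      group
    · rintro ⟨g, hg⟩
      obtain ⟨n, hn, rfl⟩ := mem_orb.1 hg
      exact ⟨((⟨n, hn⟩ : N) : N ⧸ st), rfl⟩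
  have hcard : (orb N c).card = st.index := by
    rw [Subgroup.index_eq_card, Nat.card_congr (Equiv.ofBijective f hbij), Nat.card_eq_fintype_card,
      Fintype.card_coe]
  rw [hcard]
  exact fun h => P.not_dvd_index (h.trans (Subgroup.index_dvd_of_le hle))

variable (ρ : Representation ℂ G (Fin d → ℂ))

theorem scal_smul (hirr : Representation.IsIrreducible (ρ.comp N.subtype)) (F : G → ℕ)
    (hF : ∀ n ∈ N, ∀ g, F (n * g * n⁻¹) = F g) :
    ∑ g, (F g : ℂ) • ρ g = scal ρ F • (1 : Module.End ℂ (Fin d → ℂ)) := by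
  haveI := hirr
  obtain ⟨ω, hω⟩ := schur_scalar (ρ.comp N.subtype) (∑ g, (F g : ℂ) • ρ g) fun n => by
    show (∑ g, (F g : ℂ) • ρ g) * ρ n = ρ n * ∑ g, (F g : ℂ) • ρ g
    rw [Finset.sum_mul, Finset.mul_sum]
    refine (Fintype.sum_equiv (MulAut.conj (n : G)).toEquiv _ _ fun g => ?_).symm
    rw [MulEquiv.toEquiv_eq_coe, EquivLike.coe_coe, MulAut.conj_apply, hF _ n.2, smul_mul_assoc,
      mul_smul_comm, ← map_mul, ← map_mul, inv_mul_cancel_right]
  have htr := congrArg (LinearMap.trace ℂ (Fin d → ℂ)) hω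
  simp only [map_sum, map_smul, LinearMap.trace_one, smul_eq_mul] at htr
  rw [hω]
  congr 1
  rw [scal, Representation.char_one, eq_div_iff]
  · exact htr.symm
  · exact_mod_cast (finrank_pos_of_irreducible (ρ.comp N.subtype)).ne'

theorem scal_mem (hM : IsPModular p M) (hirr : Representation.IsIrreducible (ρ.comp N.subtype))
    (F : G → ℕ) (hF : ∀ n ∈ N, ∀ g, F (n * g * n⁻¹) = F g) : scal ρ F ∈ locRing hM := by
  haveI := hirr
  haveI : Nontrivial (Fin d → ℂ) := nontrivial_of_irreducible (ρ.comp N.subtype)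
  exact isIntegral_mem hM (isIntegral_scalar_of_sum ρ Finset.univ (fun g => (F g : ℂ))
    (fun g _ => map_natCast (algebraMap ℤ ℂ) (F g) ▸ isIntegral_algebraMap) _
    (scal_smul ρ hirr F hF))

theorem scal_pairs (hirr : Representation.IsIrreducible (ρ.comp N.subtype)) (x y : G) :
    scal ρ (ind N x) * scal ρ (ind N y) = scal ρ (pairs N x y) := by
  classical
  haveI := hirr
  haveI : Nontrivial (Fin d → ℂ) := nontrivial_of_irreducible (ρ.comp N.subtype)
  have h : (∑ g, (ind N x g : ℂ) • ρ g) * (∑ g, (ind N y g : ℂ) • ρ g)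
      = ∑ g, (pairs N x y g : ℂ) • ρ g := by
    have e : ∀ z, ∑ g, (ind N z g : ℂ) • ρ g = ∑ g ∈ orb N z, ρ g := fun z => by
      simp [ind, Finset.sum_ite_mem]
    rw [e, e, Finset.sum_mul_sum, ← Finset.sum_product',
      ← Finset.sum_fiberwise _ (fun q : G × G => q.1 * q.2)]
    refine Finset.sum_congr rfl fun g _ => ?_
    rw [pairs, Nat.cast_smul_eq_nsmul, ← Finset.sum_const]
    exact Finset.sum_congr rfl fun q hq => by rw [← map_mul, (Finset.mem_filter.1 hq).2]
  rw [scal_smul ρ hirr _ (ind_inv x), scal_smul ρ hirr _ (ind_inv y),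
    scal_smul ρ hirr _ (pairs_inv x y), smul_mul_smul_comm, one_mul] at h
  exact smul_left_injective ℂ (one_ne_zero : (1 : Module.End ℂ (Fin d → ℂ)) ≠ 0) h

variable [Fintype N] {θ : IrrCharacter N}

theorem res_scal_supp (hM : IsPModular p M)
    (hirr : Representation.IsIrreducible (ρ.comp N.subtype))
    (hθ : θ ∈ principalBlock M N) (hres : ∀ n : N, ρ.character n = (θ : N → ℂ) n) (F : G → ℕ)
    (hF : ∀ n ∈ N, ∀ g, F (n * g * n⁻¹) = F g) (hsupp : ∀ g, g ∉ N → F g = 0)
    (h : scal ρ F ∈ locRing hM) : res hM ⟨scal ρ F, h⟩ = ((∑ g, F g : ℕ) : ResField M) := by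
  classical
  obtain ⟨f, hf⟩ : ∃ f : N → ℂ, f = fun n : N => (F (n : G) : ℂ) := ⟨_, rfl⟩
  have hcl : IsClassFunction N f := fun a b => by
    rw [hf]; exact congrArg _ (by push_cast; exact hF _ b.2 a)
  have hint : ∀ n, f n ∈ locRing hM := fun n => by rw [hf]; exact natCast_mem _ _
  have key := (sameBlock_iff_ev hM _ _).1 (sameBlock_of_mem hM (isPBlock_principal M) hθ
    (trivIrr_mem_principal hM)) (ofFun hM f hcl hint)
  have hsum : ∀ Φ : G → ℂ, ∑ g, (F g : ℂ) * Φ g = ∑ n : N, (F n : ℂ) * Φ n := by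
    intro Φ
    rw [← Finset.sum_subset (Finset.subset_univ (Finset.univ.filter (· ∈ N))) (fun g _ hg => by
      simp only [Finset.mem_filter, Finset.mem_univ, true_and] at hg
      simp [hsupp g hg])]
    symm
    refine Finset.sum_bij (fun n _ => (n : G)) (fun n _ => by simp)
      (fun n _ m _ h => Subtype.ext h) (fun a ha => ?_) (fun n _ => rfl)
    simp only [Finset.mem_filter, Finset.mem_univ, true_and] at ha
    exact ⟨⟨a, ha⟩, Finset.mem_univ _, rfl⟩
  have e1 : om (θ : N → ℂ) f = scal ρ F := by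
    rw [om, scal, hsum, hf, ← OneMemClass.coe_one N, hres]
    simp only [hres]
  have e2 : om (trivIrr N : N → ℂ) f = ((∑ g, F g : ℕ) : ℂ) := by
    rw [om, hf]
    simp only [trivIrr, div_one, mul_one, Nat.cast_sum]
    simpa using (hsum (fun _ => 1)).symm
  calc res hM ⟨scal ρ F, h⟩ = ev hM θ (ofFun hM f hcl hint) :=
        congrArg (res hM) (Subtype.ext e1.symm)
    _ = _ := key
    _ = res hM ((∑ g, F g : ℕ) : locRing hM) := congrArg (res hM) (Subtype.ext e2)
    _ = _ := map_natCast _ _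

end

theorem exists_principal_twist {G : Type u} [Group G] [Fintype G] {p : ℕ} [Fact p.Prime]
    {M : Ideal AlgInt} (hM : IsPModular p M) {N : Subgroup G} [hN : N.Normal] [Fintype N]
    (P : Sylow p N)
    (hcov : N ⊔ Subgroup.centralizer (((P : Subgroup N).map N.subtype : Subgroup G) : Set G) = ⊤)
    {d : ℕ} (ρ : Representation ℂ G (Fin d → ℂ))
    (hirr : Representation.IsIrreducible (ρ.comp N.subtype))
    {θ : IrrCharacter N} (hθ : θ ∈ principalBlock M N)
    (hres : ∀ n : N, ρ.character n = (θ : N → ℂ) n) :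
    ∃ μ : G →* ℂˣ, (∀ n ∈ N, μ n = 1) ∧ ∀ F : G → ℕ, (∀ n ∈ N, ∀ g, F (n * g * n⁻¹) = F g) →
      ∃ h : (∑ g, (F g : ℂ) * (μ g : ℂ) * ρ.character g) / ρ.character 1 ∈ locRing hM,
        res hM ⟨_, h⟩ = ((∑ g, F g : ℕ) : ResField M) := by
  classical
  haveI : IsDomain (ResField M) := by
    haveI := hM.2.1; exact Ideal.Quotient.isDomain M
  haveI := charP_resField hM
  obtain ⟨C, hC⟩ : ∃ C, C = Subgroup.centralizer
    (((P : Subgroup N).map N.subtype : Subgroup G) : Set G) := ⟨_, rfl⟩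
  rw [← hC] at hcov
  have hsec : ∀ x : G, ∃ c ∈ C, (c : G ⧸ N) = (x : G ⧸ N) := by
    intro x
    obtain ⟨a, ha, c, hc, rfl⟩ := Subgroup.mem_sup_of_normal_left.1
      (hcov ▸ Subgroup.mem_top x : x ∈ N ⊔ C)
    exact ⟨c, hc, by rw [QuotientGroup.mk_mul, (QuotientGroup.eq_one_iff a).2 ha, one_mul]⟩
  have hn0 : ∀ c ∈ C, ((orb N c).card : ResField M) ≠ 0 :=
    fun c hc => card_orb_ne_zero hM P (hC ▸ hc)
  obtain ⟨w, hw⟩ : ∃ w : G → ResField M, ∀ x,
      w x = res hM ⟨_, scal_mem ρ hM hirr _ (ind_inv (N := N) x)⟩ := ⟨_, fun _ => rfl⟩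
  have hpair : ∀ x y, w x * w y = res hM ⟨_, scal_mem ρ hM hirr _ (pairs_inv (N := N) x y)⟩ :=
    fun x y => by
      rw [hw, hw, ← map_mul]
      exact congrArg (res hM) (Subtype.ext (scal_pairs ρ hirr x y))
  have hinvpair : ∀ x c : G, (x : G ⧸ N) = (c : G ⧸ N) →
      w x * w c⁻¹ = ((orb N x).card : ResField M) * ((orb N c⁻¹).card : ResField M) := by
    intro x c hxc
    rw [hpair, res_scal_supp ρ hM hirr hθ hres _ (pairs_inv x c⁻¹), sum_pairs, Nat.cast_mul]
    intro g hg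
    by_contra h0
    apply hg
    rw [← QuotientGroup.eq_one_iff, pairs_supp h0, QuotientGroup.mk_mul, hxc, ← QuotientGroup.mk_mul,
      mul_inv_cancel, QuotientGroup.mk_one]
  obtain ⟨cs, hcs⟩ : ∃ cs : G ⧸ N → G, ∀ q, cs q ∈ C ∧ (cs q : G ⧸ N) = q := by
    have : ∀ q : G ⧸ N, ∃ c ∈ C, (c : G ⧸ N) = q := fun q =>
      QuotientGroup.induction_on q hsec
    choose cs h1 h2 using this
    exact ⟨cs, fun q => ⟨h1 q, h2 q⟩⟩
  have hinvC : ∀ c ∈ C, c⁻¹ ∈ C := fun c hc => inv_mem hc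
  have hw0 : ∀ c ∈ C, w c ≠ 0 ∧ w c⁻¹ ≠ 0 := fun c hc => mul_ne_zero_iff.1 (by
    rw [hinvpair c c rfl]; exact mul_ne_zero (hn0 c hc) (hn0 _ (hinvC c hc)))
  -- cross relation between elements of the same coset
  have hcross : ∀ x : G, ∀ c ∈ C, (x : G ⧸ N) = (c : G ⧸ N) →
      w x * ((orb N c).card : ResField M) = ((orb N x).card : ResField M) * w c := by
    intro x c hc hxc
    apply mul_right_cancel₀ (hw0 c hc).2
    calc w x * ((orb N c).card : ResField M) * w c⁻¹
        = (w x * w c⁻¹) * ((orb N c).card : ResField M) := by ring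
      _ = ((orb N x).card : ResField M) * (w c * w c⁻¹) := by
          rw [hinvpair x c hxc, hinvpair c c rfl]; ring
      _ = _ := by ring
  -- the ratio as a function of the coset
  letI : Field (ResField M) := @Ideal.Quotient.field _ _ M hM.2.1
  obtain ⟨L, hL⟩ : ∃ L : G ⧸ N → ResField M,
      ∀ q, L q = w (cs q) / ((orb N (cs q)).card : ResField M) := ⟨_, fun _ => rfl⟩
  have hwx : ∀ x : G, w x = ((orb N x).card : ResField M) * L (x : G ⧸ N) := by
    intro x
    rw [hL, mul_div_assoc', eq_div_iff (hn0 _ (hcs _).1)]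
    exact hcross x _ (hcs _).1 (hcs _).2.symm
  have hgen : ∀ (m : G → locRing hM) (_ : ∀ a b : G, (a : G ⧸ N) = (b : G ⧸ N) → m a = m b)
      (F : G → ℕ), (∀ n ∈ N, ∀ g, F (n * g * n⁻¹) = F g) →
      ∃ h : (∑ g, (F g : ℂ) * (m g : ℂ) * ρ.character g) / ρ.character 1 ∈ locRing hM,
        res hM ⟨_, h⟩
          = ∑ g, (F g : ResField M) * res hM (m g) * L (g : G ⧸ N) := by
    intro m hm F hF
    obtain ⟨T, hT⟩ : ∃ T, T = (Finset.univ : Finset G).image (orb N) := ⟨_, rfl⟩
    have hrep : ∀ O ∈ T, ∃ x, orb N x = O := fun O hO => by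
      rw [hT, Finset.mem_image] at hO; obtain ⟨x, -, hx⟩ := hO; exact ⟨x, hx⟩
    choose rp hrp using hrep
    have hfib : ∀ x : G, Finset.univ.filter (fun g => orb N g = orb N x) = orb N x := by
      intro x; ext g
      simp only [Finset.mem_filter, Finset.mem_univ, true_and]
      exact ⟨fun h => h ▸ self_mem_orb g, orb_eq_of_mem⟩
    have hconst : ∀ x g, g ∈ orb N x → F g = F x := by
      intro x g hg
      obtain ⟨n, hn, rfl⟩ := mem_orb.1 hg
      exact hF n hn x
    have key : ∀ x, (∑ g ∈ orb N x, (F g : ℂ) * (m g : ℂ) * ρ.character g) / ρ.character 1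
        = (F x : ℂ) * (m x : ℂ) * scal ρ (ind N x) := by
      intro x
      have e : ∑ g, (ind N x g : ℂ) * ρ.character g = ∑ g ∈ orb N x, ρ.character g := by
        simp [ind, Finset.sum_ite_mem]
      rw [scal, e, ← mul_div_assoc, Finset.mul_sum]
      congr 1
      exact Finset.sum_congr rfl fun g hg => by rw [hconst x g hg, hm g x (orb_coset hg)]
    let z : Finset G → locRing hM := fun O => if h : O ∈ T then
      (F (rp O h) : locRing hM) * m (rp O h) * ⟨_, scal_mem ρ hM hirr _ (ind_inv (rp O h))⟩ else 0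
    have hz : (∑ g, (F g : ℂ) * (m g : ℂ) * ρ.character g) / ρ.character 1
        = ((∑ O ∈ T, z O : locRing hM) : ℂ) := by
      rw [← Finset.sum_fiberwise_of_maps_to (t := T) (g := orb N)
        (fun g _ => by rw [hT]; exact Finset.mem_image_of_mem _ (Finset.mem_univ g)), Finset.sum_div,
        AddSubmonoidClass.coe_finset_sum]
      refine Finset.sum_congr rfl fun O hO => ?_
      simp only [z, dif_pos hO]
      push_cast
      conv_lhs => rw [← hrp O hO, hfib]
      exact key _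
    refine ⟨hz ▸ SetLike.coe_mem _, ?_⟩
    rw [show (⟨_, hz ▸ SetLike.coe_mem _⟩ : locRing hM) = ∑ O ∈ T, z O from Subtype.ext hz, map_sum,
      ← Finset.sum_fiberwise_of_maps_to (s := (Finset.univ : Finset G)) (t := T) (g := orb N)
        (fun g _ => by rw [hT]; exact Finset.mem_image_of_mem _ (Finset.mem_univ g))]
    refine Finset.sum_congr rfl fun O hO => ?_
    simp only [z, dif_pos hO]
    rw [map_mul, map_mul, map_natCast, ← hw, hwx]
    conv_rhs => rw [← hrp O hO, hfib]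
    rw [Finset.sum_congr rfl (fun g hg => by
      rw [hconst _ g hg, hm g _ (orb_coset hg), orb_coset hg]), Finset.sum_const, nsmul_eq_mul]
    ring
  have hmul : ∀ q r, L q * L r = L (q * r) := by
    intro q r
    obtain ⟨h, he⟩ := hgen (fun _ => 1) (fun _ _ _ => rfl) (pairs N (cs q) (cs r)) (pairs_inv _ _)
    have e1 : w (cs q) * w (cs r) = res hM ⟨_, h⟩ := by
      rw [hpair]
      exact congrArg (res hM) (Subtype.ext (by simp [scal]))
    rw [he] at e1
    have e2 : ∀ g, (pairs N (cs q) (cs r) g : ResField M) * res hM 1 * L (g : G ⧸ N)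
        = (pairs N (cs q) (cs r) g : ResField M) * L (q * r) := by
      intro g
      by_cases h0 : pairs N (cs q) (cs r) g = 0
      · simp [h0]
      · rw [map_one, mul_one, pairs_supp h0, QuotientGroup.mk_mul, (hcs q).2, (hcs r).2]
    rw [Finset.sum_congr rfl (fun g _ => e2 g), ← Finset.sum_mul, ← Nat.cast_sum, sum_pairs,
      Nat.cast_mul, hwx, hwx, (hcs q).2, (hcs r).2] at e1
    apply mul_left_cancel₀ (mul_ne_zero (hn0 _ (hcs q).1) (hn0 _ (hcs r).1))
    rw [← e1]; ring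
  have hLne : ∀ q, L q ≠ 0 := fun q => by
    rw [hL]; exact div_ne_zero (hw0 _ (hcs q).1).1 (hn0 _ (hcs q).1)
  have hL1 : L 1 = 1 := mul_left_cancel₀ (hLne 1) (by rw [hmul, mul_one, mul_one])
  let Λ : G ⧸ N →* ResField M :=
    { toFun := L, map_one' := hL1, map_mul' := fun q r => (hmul q r).symm }
  -- lift to complex roots of unity of order prime to p
  have hp := (Fact.out : p.Prime)
  obtain ⟨n, hn⟩ : ∃ n, n = Nat.card (G ⧸ N) / p ^ (Nat.card (G ⧸ N)).factorization p := ⟨_, rfl⟩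
  have hnpos : 0 < n := hn ▸ Nat.ordCompl_pos p Nat.card_pos.ne'
  have hpn : ¬ p ∣ n := hn ▸ Nat.not_dvd_ordCompl hp Nat.card_pos.ne'
  have hLn : ∀ q, L q ^ n = 1 := by
    intro q
    have h : L q ^ Nat.card (G ⧸ N) = 1 := by
      show Λ q ^ _ = 1
      rw [← map_pow, pow_card_eq_one', map_one]
    rw [← Nat.ordProj_mul_ordCompl_eq_self (Nat.card (G ⧸ N)) p, ← hn, mul_comm, pow_mul] at h
    haveI : ExpChar (ResField M) p := ExpChar.prime hp
    exact iterateFrobenius_inj (ResField M) p _ (by rw [iterateFrobenius_def, iterateFrobenius_def,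
      h, one_pow])
  have hroot : ∀ z : ℂ, z ^ n = 1 → z ∈ locRing hM := fun z hz =>
    isIntegral_mem hM (IsIntegral.of_pow hnpos (hz ▸ isIntegral_one))
  have hinj : ∀ z : ℂ, ∀ hz : z ^ n = 1, res hM ⟨z, hroot z hz⟩ = 1 → z = 1 := by
    intro z hz h1
    by_contra hne
    have hs : ∑ j ∈ Finset.range n, z ^ j = 0 := by
      rw [geom_sum_eq hne, hz, sub_self, zero_div]
    have hs' : ∑ j ∈ Finset.range n, (⟨z, hroot z hz⟩ : locRing hM) ^ j = 0 :=
      Subtype.ext (by push_cast; exact hs)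
    have h2 := congrArg (res hM) hs'
    simp only [map_sum, map_pow, h1, one_pow, map_zero, Finset.sum_const, Finset.card_range,
      nsmul_eq_mul, mul_one] at h2
    exact hpn ((CharP.cast_eq_zero_iff (ResField M) p n).1 h2)
  obtain ⟨ζ, hζ⟩ : ∃ ζ : ℂ, IsPrimitiveRoot ζ n := ⟨_, Complex.isPrimitiveRoot_exp n hnpos.ne'⟩
  haveI : NeZero n := ⟨hnpos.ne'⟩
  have hζres : IsPrimitiveRoot (res hM ⟨ζ, hroot ζ hζ.pow_eq_one⟩) n := by
    refine ⟨?_, fun l hl => ?_⟩
    · rw [← map_pow]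
      exact (congrArg (res hM) (Subtype.ext (by push_cast; exact hζ.pow_eq_one))).trans (map_one _)
    · refine hζ.dvd_of_pow_eq_one l (hinj (ζ ^ l) (by
        rw [← pow_mul, mul_comm, pow_mul, hζ.pow_eq_one, one_pow]) ?_)
      rw [← hl, ← map_pow]
      exact congrArg (res hM) (Subtype.ext (by push_cast; rfl))
  have hlift : ∀ q : G ⧸ N, ∃ z : ℂ, ∃ hz : z ^ n = 1, res hM ⟨z, hroot z hz⟩ * L q = 1 := by
    intro q
    obtain ⟨i, -, hi⟩ := hζres.eq_pow_of_pow_eq_one (ξ := (L q)⁻¹) (by rw [inv_pow, hLn, inv_one])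
    refine ⟨ζ ^ i, by rw [← pow_mul, mul_comm, pow_mul, hζ.pow_eq_one, one_pow], ?_⟩
    have e : (⟨ζ ^ i, hroot _ (by rw [← pow_mul, mul_comm, pow_mul, hζ.pow_eq_one, one_pow])⟩ :
        locRing hM) = ⟨ζ, hroot ζ hζ.pow_eq_one⟩ ^ i := Subtype.ext (by push_cast; rfl)
    rw [e, map_pow, hi, inv_mul_cancel₀ (hLne q)]
  choose Z hZn hZ using hlift
  have hZ0 : ∀ q, Z q ≠ 0 := fun q h => by
    have := hZn q; rw [h, zero_pow hnpos.ne'] at this; exact zero_ne_one this
  have huniq : ∀ q (z : ℂ) (hz : z ^ n = 1), res hM ⟨z, hroot z hz⟩ * L q = 1 → z = Z q := by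
    intro q z hz h
    have hdiv : (z * (Z q)⁻¹) ^ n = 1 := by rw [mul_pow, inv_pow, hZn, hz, inv_one, one_mul]
    refine (mul_inv_eq_one₀ (hZ0 q)).1 (hinj _ hdiv ?_)
    have e : res hM ⟨z * (Z q)⁻¹, hroot _ hdiv⟩ * res hM ⟨Z q, hroot _ (hZn q)⟩
        = res hM ⟨z, hroot z hz⟩ := by
      rw [← map_mul]
      exact congrArg (res hM) (Subtype.ext (inv_mul_cancel_right₀ (hZ0 q) z))
    apply mul_right_cancel₀ (b := (1 : ResField M)) one_ne_zero
    rw [mul_one, mul_one]
    calc res hM ⟨z * (Z q)⁻¹, hroot _ hdiv⟩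
        = res hM ⟨z * (Z q)⁻¹, hroot _ hdiv⟩ * (res hM ⟨Z q, hroot _ (hZn q)⟩ * L q) := by
          rw [hZ, mul_one]
      _ = 1 := by rw [← mul_assoc, e, h]
  have hZmul : ∀ q r, Z q * Z r = Z (q * r) := by
    intro q r
    refine huniq _ _ (by rw [mul_pow, hZn, hZn, one_mul]) ?_
    calc res hM ⟨Z q * Z r, _⟩ * L (q * r)
        = (res hM ⟨Z q, hroot _ (hZn q)⟩ * res hM ⟨Z r, hroot _ (hZn r)⟩) * (L q * L r) := by
          rw [hmul, ← map_mul]
          rfl
      _ = 1 := by rw [mul_mul_mul_comm, hZ, hZ, one_mul]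
  have hZ1 : Z 1 = 1 := by
    refine (huniq 1 1 (one_pow n) ?_).symm
    rw [hL1, mul_one]
    exact map_one (res hM)
  let μ : G →* ℂˣ := MonoidHom.mk' (fun g => Units.mk0 (Z (g : G ⧸ N)) (hZ0 _))
    (fun a b => Units.ext (by
      show Z ((a * b : G) : G ⧸ N) = Z (a : G ⧸ N) * Z (b : G ⧸ N)
      rw [hZmul, QuotientGroup.mk_mul]))
  refine ⟨μ, fun a ha => Units.ext ?_, fun F hF => ?_⟩
  · show Z (a : G ⧸ N) = 1
    rw [(QuotientGroup.eq_one_iff a).2 ha, hZ1]
  · obtain ⟨h, he⟩ := hgen (fun g => ⟨Z (g : G ⧸ N), hroot _ (hZn _)⟩)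
      (fun a b hab => Subtype.ext (by show Z _ = Z _; rw [hab])) F hF
    refine ⟨h, he.trans ?_⟩
    rw [Nat.cast_sum]
    exact Finset.sum_congr rfl fun g _ => by rw [mul_assoc, hZ, mul_one]


/-- Let G be a finite group, p a prime, M a maximal ideal of the algebraic integers containing p, N a normal subgroup of G and P a Sylow p-subgroup of N such that G = N·C_G(P). Let θ be an irreducible character in the principal p-block of N that is the restriction of some irreducible character of G. Then θ is the restriction of an irreducible character χ of G lying in the principal p-block of G such that, for every subgroup J of G containing N, the restriction of χ to J is an irreducible character of J lying in the principal p-block of J. -/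
theorem result {G : Type*} [Group G] [Finite G] (p : ℕ) [Fact p.Prime] (M : Ideal Cfsg.AlgInt) (hM : Cfsg.IsPModular p M) (N : Subgroup G) [N.Normal] (P : Sylow p ↥N)
    (hcov : N ⊔ Subgroup.centralizer (((P : Subgroup ↥N).map N.subtype : Subgroup G) : Set G) = ⊤)
    (θ : Cfsg.IrrCharacter ↥N) (hθ : θ ∈ Cfsg.principalBlock M ↥N)
    (hext : ∃ ψ : Cfsg.IrrCharacter G, ∀ x : ↥N, (ψ : G → ℂ) x = (θ : ↥N → ℂ) x) :
    ∃ χ : Cfsg.IrrCharacter G, χ ∈ Cfsg.principalBlock M G ∧ (∀ x : ↥N, (χ : G → ℂ) x = (θ : ↥N → ℂ) x) ∧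
      ∀ J : Subgroup G, N ≤ J → ∃ ξ : Cfsg.IrrCharacter ↥J, ξ ∈ Cfsg.principalBlock M ↥J ∧ ∀ y : ↥J, (ξ : ↥J → ℂ) y = (χ : G → ℂ) y := by
  classical
  haveI : Fintype G := Fintype.ofFinite G
  haveI : Fintype N := Fintype.ofFinite N
  obtain ⟨ψ, hψ⟩ := hext
  obtain ⟨d, ρ, hρ, hρc⟩ := ψ.2
  have hres : ∀ n : N, ρ.character n = (θ : N → ℂ) n := fun n => by rw [hρc, hψ]
  have hirr : Representation.IsIrreducible (ρ.comp N.subtype) := by
    obtain ⟨d', σ, hσ, hσc⟩ := θ.2
    obtain ⟨e⟩ := equiv_of_char_eq _ _ _ σ (ρ.comp N.subtype) rfl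
      (hσc.trans (funext fun n => (hres n).symm))
    haveI := hσ
    exact irreducible_of_equiv σ e
  obtain ⟨μ, hμ1, hμ⟩ := exists_principal_twist hM P hcov ρ hirr hθ hres
  -- the twisted representation
  let τ : Representation ℂ G (Fin d → ℂ) :=
    { toFun := fun g => (μ g : ℂ) • ρ g
      map_one' := by simp
      map_mul' := fun a b => by
        rw [map_mul, map_mul, Units.val_mul, smul_mul_smul_comm] }
  have hτc : ∀ g, τ.character g = (μ g : ℂ) * ρ.character g := fun g => by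
    show LinearMap.trace ℂ _ ((μ g : ℂ) • ρ g) = _
    rw [map_smul, smul_eq_mul]; rfl
  have hτN : ∀ n : N, τ n = ρ n := fun n => by
    show (μ (n : G) : ℂ) • ρ (n : G) = ρ (n : G)
    rw [hμ1 _ n.2, Units.val_one, one_smul]
  haveI : Nontrivial (Fin d → ℂ) := by haveI := hirr; exact nontrivial_of_irreducible (ρ.comp N.subtype)
  have hsub : ∀ J : Subgroup G, N ≤ J → Representation.IsIrreducible (τ.comp J.subtype) := by
    intro J hNJ
    rw [isIrreducible_iff_forall]
    refine ⟨inferInstance, fun W hW => ?_⟩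
    haveI := hirr
    refine subrep_eq_bot_or_eq_top (ρ.comp N.subtype) W fun n v hv => ?_
    have := hW ⟨(n : G), hNJ n.2⟩ v hv
    simpa [hτN] using this
  have hprin : ∀ J : Subgroup G, N ≤ J → ∀ ξ : Cfsg.IrrCharacter J,
      (∀ y : J, (ξ : J → ℂ) y = τ.character y) → ξ ∈ Cfsg.principalBlock M J := by
    intro J hNJ ξ hξ
    haveI : Fintype J := Fintype.ofFinite J
    have hsame : SameBlock M (ξ : J → ℂ) (trivIrr J : J → ℂ) := by
      rw [sameBlock_iff hM]
      intro y
      obtain ⟨F, hF⟩ : ∃ F : G → ℕ, F = fun g => if h : g ∈ J then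
          (if IsConj y ⟨g, h⟩ then 1 else 0) else 0 := ⟨_, rfl⟩
      have hFinv : ∀ n ∈ N, ∀ g, F (n * g * n⁻¹) = F g := by
        intro n hn g
        rw [hF]
        by_cases hg : g ∈ J
        · have hg' : n * g * n⁻¹ ∈ J := mul_mem (mul_mem (hNJ hn) hg) (inv_mem (hNJ hn))
          simp only [dif_pos hg, dif_pos hg']
          have hc : IsConj (⟨g, hg⟩ : J) ⟨n * g * n⁻¹, hg'⟩ :=
            isConj_iff.2 ⟨⟨n, hNJ hn⟩, rfl⟩
          exact if_congr ⟨fun h => h.trans hc.symm, fun h => h.trans hc⟩ rfl rfl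
        · have hg' : n * g * n⁻¹ ∉ J := fun h => hg (by
            simpa [mul_assoc] using mul_mem (mul_mem (inv_mem (hNJ hn)) h) (hNJ hn))
          simp only [dif_neg hg, dif_neg hg']
      obtain ⟨h, he⟩ := hμ F hFinv
      have hsum : ∀ Φ : G → ℂ, ∑ g, (F g : ℂ) * Φ g = ∑ x : J, classInd y x * Φ x := by
        intro Φ
        rw [← Finset.sum_subset (Finset.subset_univ (Finset.univ.filter (· ∈ J))) (fun g _ hg => by
          simp only [Finset.mem_filter, Finset.mem_univ, true_and] at hg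
          simp [hF, hg])]
        symm
        refine Finset.sum_bij (fun n _ => (n : G)) (fun n _ => by simp)
          (fun n _ m _ h => Subtype.ext h) (fun a ha => ?_) (fun n _ => ?_)
        · simp only [Finset.mem_filter, Finset.mem_univ, true_and] at ha
          exact ⟨⟨a, ha⟩, Finset.mem_univ _, rfl⟩
        · simp [hF, classInd]
      have e1 : Cfsg.centralChar (ξ : J → ℂ) y
          = (∑ g, (F g : ℂ) * (μ g : ℂ) * ρ.character g) / ρ.character 1 := by
        rw [centralChar_eq_om, om]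
        simp only [hξ, mul_assoc, ← hτc]
        rw [hsum, OneMemClass.coe_one, hτc, map_one, Units.val_one, one_mul]
      have e2 : Cfsg.centralChar (trivIrr J : J → ℂ) y = ((∑ g, F g : ℕ) : ℂ) := by
        rw [centralChar_eq_om, om]
        simp only [trivIrr, div_one, Nat.cast_sum]
        rw [← hsum (fun _ => 1)]
        simp
      rw [ev_cl, ev_cl]
      calc res hM ⟨Cfsg.centralChar (ξ : J → ℂ) y, centralChar_mem hM ξ y⟩
          = res hM ⟨_, h⟩ := congrArg (res hM) (Subtype.ext e1)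
        _ = ((∑ g, F g : ℕ) : ResField M) := he
        _ = res hM ((∑ g, F g : ℕ) : locRing hM) := (map_natCast _ _).symm
        _ = res hM ⟨Cfsg.centralChar (trivIrr J : J → ℂ) y, centralChar_mem hM (trivIrr J) y⟩ :=
            congrArg (res hM) (Subtype.ext (e2.trans (by push_cast; rfl)).symm)
    have hB := blockOf_eq_of_mem hM (χ := trivIrr J) (ψ := ξ) (sameBlock_symm hM hsame)
    rw [principalBlock_eq, ← hB]
    exact mem_blockOf_self hM ξ
  have hT := hsub ⊤ le_top
  have hirrG : τ.IsIrreducible := by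
    rw [isIrreducible_iff_forall]
    refine ⟨inferInstance, fun W hW => ?_⟩
    haveI := hT
    exact subrep_eq_bot_or_eq_top (τ.comp (⊤ : Subgroup G).subtype) W fun n v hv => hW n v hv
  obtain ⟨χ, hχ⟩ : ∃ χ : Cfsg.IrrCharacter G, (χ : G → ℂ) = τ.character :=
    ⟨⟨_, by haveI := hirrG; exact isIrrCharacter_rep τ⟩, rfl⟩
  have hJ : ∀ J : Subgroup G, N ≤ J → ∃ ξ : Cfsg.IrrCharacter ↥J,
      ξ ∈ Cfsg.principalBlock M ↥J ∧ ∀ y : ↥J, (ξ : ↥J → ℂ) y = (χ : G → ℂ) y := by
    intro J hNJ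
    refine ⟨⟨fun y => (χ : G → ℂ) y, ?_⟩, ?_, fun y => rfl⟩
    · rw [hχ]
      haveI := hsub J hNJ
      exact isIrrCharacter_rep (τ.comp J.subtype)
    · exact hprin J hNJ _ fun y => congrFun hχ (y : G)
  refine ⟨χ, ?_, fun n => ?_, hJ⟩
  · have hsame : SameBlock M (χ : G → ℂ) (trivIrr G : G → ℂ) := by
      obtain ⟨ξ, hξ, hξy⟩ := hJ ⊤ le_top
      rw [sameBlock_iff hM]
      intro g
      have h := (sameBlock_iff hM ξ (trivIrr (⊤ : Subgroup G))).1
        (sameBlock_of_mem hM (isPBlock_principal M) hξ (trivIrr_mem_principal hM)) ⟨g, trivial⟩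
      rw [ev_cl, ev_cl] at h ⊢
      have hz : ∀ (φ : G → ℂ), Cfsg.centralChar φ g
          = Cfsg.centralChar (fun y : (⊤ : Subgroup G) => φ y) ⟨g, trivial⟩ := by
        intro φ
        simp only [Cfsg.centralChar]
        congr 2
        congr 1
        have he : Subgroup.centralizer ({(⟨g, trivial⟩ : (⊤ : Subgroup G))} : Set _)
            = (Subgroup.centralizer ({g} : Set G)).comap (⊤ : Subgroup G).subtype := by
          ext x
          rw [Subgroup.mem_comap, Subgroup.mem_centralizer_singleton_iff,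
            Subgroup.mem_centralizer_singleton_iff, Subtype.ext_iff]
          rfl
        rw [he, Subgroup.index_comap_of_surjective]
        exact fun x => ⟨⟨x, trivial⟩, rfl⟩
      have e1 : Cfsg.centralChar (χ : G → ℂ) g
          = Cfsg.centralChar (ξ : (⊤ : Subgroup G) → ℂ) ⟨g, trivial⟩ := by
        rw [hz]; exact congrArg (fun φ => Cfsg.centralChar φ _) (funext fun y => (hξy y).symm)
      calc res hM ⟨Cfsg.centralChar (χ : G → ℂ) g, centralChar_mem hM χ g⟩
          = res hM ⟨_, centralChar_mem hM ξ ⟨g, trivial⟩⟩ := congrArg (res hM) (Subtype.ext e1)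
        _ = res hM ⟨_, centralChar_mem hM (trivIrr (⊤ : Subgroup G)) ⟨g, trivial⟩⟩ := h
        _ = res hM ⟨_, centralChar_mem hM (trivIrr G) g⟩ :=
            congrArg (res hM) (Subtype.ext (hz (trivIrr G : G → ℂ)).symm)
    have hB := blockOf_eq_of_mem hM (χ := trivIrr G) (ψ := χ) (sameBlock_symm hM hsame)
    rw [principalBlock_eq, ← hB]
    exact mem_blockOf_self hM χ
  · rw [hχ, hτc, hμ1 _ n.2, Units.val_one, one_mul, hres]

end Cfsg.Agent.S4937
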