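import Cfsg.Statements.S4969
import Cfsg.Agent.Lib.BlockRegular
import Mathlib.Algebra.Order.Chebyshev

set_option autoImplicit false
open Cfsg

namespace Cfsg.Agent.S4969

/-- Let G be a finite group with k conjugacy classes, g ∈ G, and N > 0. Then the sum over the irreducible complex characters χ of G with χ(1) ≥ N of |χ(g)|/χ(1) is at most √(k · #C_G(g)) / N. -/
theorem result {G : Type*} [Group G] [Finite G] (g : G) (N : ℝ) (hN : 0 < N) :
    ∑ᶠ χ : Cfsg.IrrCharacter G, (if N ≤ ‖(χ : G → ℂ) 1‖ then ‖(χ : G → ℂ) g‖ / ‖(χ : G → ℂ) 1‖ else 0) ≤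
      Real.sqrt ((Nat.card (ConjClasses G) : ℝ) * (Nat.card ↥(Subgroup.centralizer ({g} : Set G)) : ℝ)) / N := by
  haveI := Fintype.ofFinite G
  classical
  rw [finsum_eq_sum_of_fintype]
  have h1 : ∑ χ : Cfsg.IrrCharacter G, ‖(χ : G → ℂ) g‖ ^ 2 =
      (Nat.card ↥(Subgroup.centralizer ({g} : Set G)) : ℝ) := by
    have h := CfsgLib.Char.column_orth_conj (IsConj.refl g)
    simp only [Complex.mul_conj, Complex.normSq_eq_norm_sq] at h
    exact_mod_cast h
  calc ∑ χ : Cfsg.IrrCharacter G, (if N ≤ ‖(χ : G → ℂ) 1‖ then ‖(χ : G → ℂ) g‖ / ‖(χ : G → ℂ) 1‖ else 0)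
      ≤ ∑ χ : Cfsg.IrrCharacter G, ‖(χ : G → ℂ) g‖ / N := by
        refine Finset.sum_le_sum fun χ _ => ?_
        split_ifs with h
        · exact div_le_div_of_nonneg_left (norm_nonneg _) hN h
        · positivity
    _ ≤ _ := by
        rw [← Finset.sum_div]
        refine div_le_div_of_nonneg_right (Real.le_sqrt_of_sq_le ?_) hN.le
        refine (sq_sum_le_card_mul_sum_sq (s := Finset.univ) (f := fun χ : Cfsg.IrrCharacter G => ‖(χ : G → ℂ) g‖)).trans (le_of_eq ?_)
        rw [h1, Finset.card_univ, ← Nat.card_eq_fintype_card, CfsgLib.Char.card_irrCharacter]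

end Cfsg.Agent.S4969
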