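import Cfsg.Statements.S4989
import Cfsg.Agent.Lib.BlockZeroCount

set_option autoImplicit false
open Cfsg
open CfsgLib.Block CfsgLib.Char
open scoped Classical


namespace Cfsg.Agent.S4989

/-- Let H be a subgroup of the finite group G and χ an irreducible complex character of G. Then the inner product of the restriction of χ to H with itself, (1/#H)·Σ_{h ∈ H} |χ(h)|², is at most 1 + #(Z ∖ H)/#H, where Z is the set of zeros of χ in G. -/
theorem result {G : Type*} [Group G] [Finite G] (H : Subgroup G) (χ : Cfsg.IrrCharacter G) : (Nat.card ↥H : ℝ)⁻¹ * ∑ᶠ h : ↥H, ‖(χ : G → ℂ) h‖ ^ 2 ≤ 1 + (Set.ncard ({x : G | (χ : G → ℂ) x = 0} \ (H : Set G)) : ℝ) / (Nat.card ↥H : ℝ) := by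
  haveI := Fintype.ofFinite G
  rw [finsum_eq_sum_of_fintype]
  set T : Finset G := Finset.univ.filter (fun g => g ∉ H ∧ (χ : G → ℂ) g ≠ 0) with hT
  have hle := card_le_sum_normSq χ.2.isCharacter' T (fun k hk g => by
    simp only [hT, Finset.mem_filter, Finset.mem_univ, true_and, ne_eq, coprime_mem_pow hk H,
      apply_pow_eq_zero_iff χ.2.isCharacter' hk]) fun g hg => (Finset.mem_filter.mp hg).2.2
  set A : Finset G := Finset.univ.filter (fun g => g ∈ H) with hA
  set Z : Finset G := Finset.univ.filter (fun g => g ∉ H ∧ (χ : G → ℂ) g = 0) with hZ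
  have hsH : ∑ h : ↥H, ‖(χ : G → ℂ) h‖ ^ 2 = ∑ g ∈ A, ‖(χ : G → ℂ) g‖ ^ 2 :=
    (Finset.sum_subtype (p := fun g => g ∈ H) A (fun g => by simp [hA])
      (fun g : G => ‖(χ : G → ℂ) g‖ ^ 2)).symm
  have hsplit : ∀ f : G → ℝ, ∑ g, f g = ∑ g ∈ A, f g + (∑ g ∈ Z, f g + ∑ g ∈ T, f g) := by
    intro f
    rw [← Finset.sum_filter_add_sum_filter_not Finset.univ (fun g => g ∈ H) f,
      ← Finset.sum_filter_add_sum_filter_not (Finset.univ.filter fun g => g ∉ H)
        (fun g => (χ : G → ℂ) g = 0) f, Finset.filter_filter, Finset.filter_filter]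
  have h1 := hsplit fun _ => 1
  have h2 := hsplit fun g => ‖(χ : G → ℂ) g‖ ^ 2
  rw [sum_normSq_irr χ.2] at h2
  simp only [Finset.sum_const, Finset.card_univ, nsmul_eq_mul, mul_one,
    ← Nat.card_eq_fintype_card] at h1
  have h3 : 0 ≤ ∑ g ∈ Z, ‖(χ : G → ℂ) g‖ ^ 2 := Finset.sum_nonneg fun g _ => sq_nonneg _
  have h4 : (A.card : ℝ) = (Nat.card ↥H : ℝ) := by
    rw [Nat.card_eq_fintype_card, Fintype.card_subtype]
  have h5 : ({x : G | (χ : G → ℂ) x = 0} \ (H : Set G)).ncard = Z.card := by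
    rw [← Set.ncard_coe_finset]
    congr 1
    ext g
    simp [hZ, and_comm]
  rw [h5, hsH]
  have hpos : (0 : ℝ) < (Nat.card ↥H : ℝ) := by exact_mod_cast Nat.card_pos
  rw [inv_mul_eq_div, one_add_div hpos.ne', div_le_div_iff_of_pos_right hpos]
  linarith

end Cfsg.Agent.S4989
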