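import Cfsg.Statements.S4996
import Cfsg.Agent.Lib.CharGalois
import Cfsg.Agent.Lib.CharLinear
import Cfsg.Agent.Lib.BlockInflate
import Cfsg.Agent.Lib.BlockPrincipal

set_option autoImplicit false
open Cfsg

namespace Cfsg.Agent.S4996

/-- Let N be a normal subgroup of the finite group G and χ an irreducible complex character of G. Then the restriction of χ to N is not irreducible if and only if χ vanishes on some whole coset Nx of N in G. -/
theorem result {G : Type*} [Group G] [Finite G] (N : Subgroup G) [N.Normal] (χ : Cfsg.IrrCharacter G) : ¬ Cfsg.IsIrrCharacter ↥N (fun n : ↥N => (χ : G → ℂ) n) ↔ ∃ x : G, ∀ n : ↥N, (χ : G → ℂ) ((n : G) * x) = 0 := by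
  classical
  haveI := Fintype.ofFinite G
  haveI := Fintype.ofFinite ↥N
  haveI := Fintype.ofFinite (G ⧸ N)
  set ψ : G → ℂ := (χ : G → ℂ) * fun g => (starRingEnd ℂ) ((χ : G → ℂ) g) with hψ
  have hψc : IsCharacter G ψ :=
    CfsgLib.Char.isCharacter_mul χ.2.isCharacter' (CfsgLib.Char.isCharacter_conj χ.2.isCharacter')
  have hψcl := CfsgLib.Char.isCharacter_classFunction hψc
  let fib : G ⧸ N → Finset G := fun q => Finset.univ.filter fun g : G => (QuotientGroup.mk g : G ⧸ N) = q
  let s : G ⧸ N → ℂ := fun q => (Nat.card ↥N : ℂ)⁻¹ * ∑ g ∈ fib q, ψ g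
  let r : G ⧸ N → ℝ := fun q => (Nat.card ↥N : ℝ)⁻¹ * ∑ g ∈ fib q, ‖(χ : G → ℂ) g‖ ^ 2
  have hsr : ∀ q, s q = (r q : ℂ) := fun q => by
    simp only [s, r, hψ, Pi.mul_apply, Complex.mul_conj']
    push_cast
    rfl
  -- `s` is a character of the quotient
  have hscl : IsClassFunction (G ⧸ N) s := by
    intro q c
    induction c using QuotientGroup.induction_on with
    | _ c =>
      simp only [s]
      congr 1
      refine Finset.sum_equiv (MulAut.conj c⁻¹).toEquiv (fun g => ?_) fun g _ => ?_
      · simp only [fib, Finset.mem_filter, Finset.mem_univ, true_and]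
        simp only [MulEquiv.toEquiv_eq_coe, EquivLike.coe_coe, MulAut.conj_apply, inv_inv,
          QuotientGroup.mk_mul, QuotientGroup.mk_inv]
        constructor
        · intro h; rw [h]; group
        · intro h; rw [← h]; group
      · simp only [MulEquiv.toEquiv_eq_coe, EquivLike.coe_coe, MulAut.conj_apply]
        exact (hψcl g c⁻¹).symm
  have hinner : ∀ η : IrrCharacter (G ⧸ N), classInner s (η : G ⧸ N → ℂ) =
      classInner ψ ((CfsgLib.Block.inflate N η : IrrCharacter G) : G → ℂ) := by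
    intro η
    simp only [classInner, s]
    rw [← Finset.sum_fiberwise Finset.univ (fun g : G => (QuotientGroup.mk g : G ⧸ N)), Finset.mul_sum,
      Finset.mul_sum]
    refine Finset.sum_congr rfl fun q _ => ?_
    rw [N.card_eq_card_quotient_mul_card_subgroup, Nat.cast_mul, mul_inv, mul_assoc, mul_assoc]
    congr 1
    congr 1
    rw [Finset.sum_mul]
    refine Finset.sum_congr rfl fun g hg => ?_
    simp only [fib, Finset.mem_filter, Finset.mem_univ, true_and] at hg
    rw [CfsgLib.Block.inflate_apply, hg]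
  have hsc : IsCharacter (G ⧸ N) s := CfsgLib.Char.isCharacter_iff_nat.2 ⟨hscl, fun η hη => by
    rw [hinner ⟨η, hη⟩]
    exact CfsgLib.Char.inner_character_nat hψc (CfsgLib.Block.inflate N ⟨η, hη⟩).2.isCharacter'⟩
  have hs1 : s 1 = classInner (fun n : ↥N => (χ : G → ℂ) n) (fun n : ↥N => (χ : G → ℂ) n) := by
    simp only [s, classInner, hψ]
    congr 1
    refine Finset.sum_bij' (fun g hg => (⟨g, (QuotientGroup.eq_one_iff g).1 (Finset.mem_filter.1 hg).2⟩ : ↥N))
      (fun n _ => (n : G)) (by simp) (fun n _ => by simp [fib]) (by simp) (by simp) (by simp)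
  have hres : IsCharacter ↥N (fun n : ↥N => (χ : G → ℂ) n) := CfsgLib.Char.isCharacter_restrict χ.2.isCharacter' N
  have hzero : ∀ x : G, s (QuotientGroup.mk x) = 0 ↔ ∀ n : ↥N, (χ : G → ℂ) ((n : G) * x) = 0 := by
    intro x
    rw [hsr, Complex.ofReal_eq_zero]
    simp only [r]
    rw [mul_eq_zero, or_iff_right (inv_ne_zero (by exact_mod_cast Nat.card_pos.ne')),
      Finset.sum_eq_zero_iff_of_nonneg (fun g _ => sq_nonneg _)]
    simp only [sq_eq_zero_iff, norm_eq_zero, fib, Finset.mem_filter, Finset.mem_univ, true_and]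
    constructor
    · intro h n
      refine h _ ?_
      rw [QuotientGroup.mk_mul, (QuotientGroup.eq_one_iff (n : G)).2 n.2, one_mul]
    · intro h g hg
      have hmem : g * x⁻¹ ∈ N := by
        rw [← QuotientGroup.eq_one_iff, QuotientGroup.mk_mul, QuotientGroup.mk_inv, hg, mul_inv_cancel]
      simpa using h ⟨_, hmem⟩
  rw [CfsgLib.Char.isIrrCharacter_iff, ← hs1]
  constructor
  · intro hk
    have hk1 : s 1 ≠ 1 := fun h => hk ⟨hres, h⟩
    by_contra hne
    push Not at hne
    have hs0 : ∀ q, s q ≠ 0 := fun q => by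
      induction q using QuotientGroup.induction_on with
      | _ x =>
        intro h
        obtain ⟨n, hn⟩ := hne x
        exact hn ((hzero x).1 h n)
    have hr0 : ∀ q, 0 < r q := fun q => by
      refine lt_of_le_of_ne (mul_nonneg (inv_nonneg.2 (Nat.cast_nonneg _)) (Finset.sum_nonneg fun g _ => sq_nonneg _)) fun h => hs0 q ?_
      rw [hsr, ← h]; simp
    set n := Nat.card (G ⧸ N) with hn
    have hn0 : 0 < n := Nat.card_pos
    have hζ := Complex.isPrimitiveRoot_exp n hn0.ne'
    choose Q hQ using CfsgLib.Char.hasGalPoly_char hζ hsc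
    obtain ⟨q, hq⟩ := CfsgLib.Char.rat_of_invariant hn0 hζ (∏ g, Q g) (∏ g, s g) fun k hk' => by
      rw [map_prod]
      exact Finset.prod_equiv (powCoprime hk'.symm) (fun g => by simp) fun g _ => (hQ g k hk').symm
    obtain ⟨z, hz⟩ := CfsgLib.Char.int_of_isIntegral_rat q
      (hq ▸ IsIntegral.prod _ fun g _ => CfsgLib.Char.isCharacter_isIntegral hsc g)
    have hprod : (∏ g, r g) = (z : ℝ) := by
      have h : ((∏ g, r g : ℝ) : ℂ) = ((z : ℝ) : ℂ) := by
        push_cast
        simp only [← hsr]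
        rw [hq, ← hz, Rat.cast_intCast]
      exact_mod_cast h
    have hpos : (0 : ℝ) < ∏ g, r g := Finset.prod_pos fun g _ => hr0 g
    have hge : (0 : ℝ) ≤ Real.log (∏ g, r g) := by
      refine Real.log_nonneg ?_
      rw [hprod] at hpos ⊢
      exact_mod_cast Int.add_one_le_iff.2 (by exact_mod_cast hpos : (0 : ℤ) < z)
    have hsum : ∑ g, (r g - 1) = 0 := by
      have h1 : classInner s ((CfsgLib.Block.trivIrr (G ⧸ N) : IrrCharacter (G ⧸ N)) : G ⧸ N → ℂ) = 1 := by
        rw [hinner, ← CfsgLib.Char.irr_inner_self χ.2]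
        simp only [classInner, hψ, CfsgLib.Block.inflate_apply, CfsgLib.Block.trivIrr, map_one, mul_one, Pi.mul_apply]
      simp only [classInner, CfsgLib.Block.trivIrr, map_one, mul_one, hsr] at h1
      rw [inv_mul_eq_one₀ (CfsgLib.Char.natCard_ne_zero _)] at h1
      rw [Finset.sum_sub_distrib, Finset.sum_const, Finset.card_univ, nsmul_eq_mul, mul_one, sub_eq_zero,
        ← Nat.card_eq_fintype_card]
      exact_mod_cast h1.symm
    have hlt : ∑ g, Real.log (r g) < ∑ g, (r g - 1) := by
      refine Finset.sum_lt_sum (fun g _ => Real.log_le_sub_one_of_pos (hr0 g)) ⟨1, Finset.mem_univ _, ?_⟩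
      exact Real.log_lt_sub_one_of_pos (hr0 1) fun h => hk1 (by rw [hsr, h]; simp)
    rw [← Real.log_prod fun g _ => (hr0 g).ne', hsum] at hlt
    linarith
  · rintro ⟨x, hx⟩ ⟨-, h1⟩
    obtain ⟨f, hf⟩ := CfsgLib.Char.exists_hom_of_degree_one hsc h1
    have := (hzero x).2 hx
    rw [congrFun hf] at this
    exact (f (QuotientGroup.mk x)).ne_zero this

end Cfsg.Agent.S4996
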