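import Cfsg.Statements.S5001
import Cfsg.Agent.Lib.BlockDefect2
import Cfsg.Agent.Lib.CharLinear
import Mathlib.GroupTheory.NoncommCoprod

set_option autoImplicit false
open Cfsg
open CfsgLib.Block CfsgLib.Char
open scoped ComplexConjugate Pointwise


namespace Cfsg.Agent.S5001

/-- Let p be a prime, G a finite group and B a p-block of G (relative to a maximal ideal M of the algebraic integers containing p) with defect group D. Let Z be a central p-subgroup of G contained in D and λ a linear character of Z (a homomorphism to the nonzero complex numbers). Say an irreducible character χ of G lies over λ when χ(z) = χ(1)λ(z) for all z ∈ Z. If some irreducible character in B lying over λ has height zero, then λ extends to a linear character of D. -/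
theorem result {G : Type*} [Group G] [Finite G] (p : ℕ) [Fact p.Prime] (M : Ideal Cfsg.AlgInt) (hM : Cfsg.IsPModular p M) (B : Set (Cfsg.IrrCharacter G)) (hB : Cfsg.IsPBlock M B) (D : Subgroup G) (hD : Cfsg.IsDefectGroup p M B D) (Z : Subgroup G) (hZc : Z ≤ Subgroup.center G) (hZp : IsPGroup p ↥Z) (hZD : Z ≤ D) (lam : ↥Z →* ℂˣ) (χ : Cfsg.IrrCharacter G) (hχ : χ ∈ B) (hover : (∀ z : ↥Z, (χ : G → ℂ) z = (χ : G → ℂ) 1 * (lam z : ℂ))) (h0 : Cfsg.blockHeight p B (χ : G → ℂ) = 0) : (∃ μ : ↥D →* ℂˣ, ∀ z : ↥Z, μ ⟨(z : G), hZD z.2⟩ = lam z) := by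
  haveI := Fintype.ofFinite G
  haveI := hM.2.1.isPrime
  haveI := charP_resField hM
  have hp : p.Prime := Fact.out
  obtain ⟨g, hg, hDg, hcard⟩ := (isDefectGroup_data hM hB).1 hD
  set H : Subgroup G := D ⊔ Subgroup.zpowers g with hH
  haveI := Fintype.ofFinite H
  haveI := Fintype.ofFinite D
  haveI := Fintype.ofFinite (Subgroup.zpowers g)
  have hDH : D ≤ H := le_sup_left
  have hgH : g ∈ H := Subgroup.mem_sup_right (Subgroup.mem_zpowers g)
  have hHg : H ≤ Subgroup.centralizer ({g} : Set G) := sup_le hDg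
    (Subgroup.zpowers_le.2 (Subgroup.mem_centralizer_singleton_iff.2 rfl))
  let s : H := ⟨g, hgH⟩
  have hs : s ∈ Subgroup.center H := Subgroup.mem_center_iff.2 fun h =>
    Subtype.ext (Subgroup.mem_centralizer_singleton_iff.1 (hHg h.2))
  have hχH : IsCharacter H (fun h : H => (χ : G → ℂ) h) :=
    isCharacter_restrict χ.2.isCharacter' H
  obtain ⟨θ, hθ0, hθp⟩ : ∃ θ : IrrCharacter H,
      classInner (fun h : H => (χ : G → ℂ) h) (θ : H → ℂ) ≠ 0 ∧
        ¬ p ∣ charDegree (θ : H → ℂ) := by
    by_contra hcon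
    push Not at hcon
    refine not_memLocalIdeal_apply_defectClass hM hB hg hχ h0 ?_
    choose ω hω hωm using fun θ : IrrCharacter H => irr_central_mul θ hs
    choose m hm using fun θ : IrrCharacter H => inner_character_nat hχH θ.2.isCharacter'
    have h1 := congrFun (classFunction_eq_sum _ (isCharacter_classFunction hχH)) s
    simp only [Finset.sum_apply, Pi.smul_apply, smul_eq_mul, hm] at h1
    have hωmem : ∀ θ, ω θ ∈ locRing hM := fun θ => isIntegral_mem hM
      (IsIntegral.of_pow (orderOf_pos s) (by rw [hω]; exact isIntegral_one))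
    have e : (⟨(χ : G → ℂ) g, irr_mem hM χ g⟩ : locRing hM) =
        ∑ θ : IrrCharacter H,
          ((m θ * charDegree (θ : H → ℂ) : ℕ) : locRing hM) * ⟨ω θ, hωmem θ⟩ := by
      apply Subtype.ext
      push_cast
      show (χ : G → ℂ) (s : G) = _
      rw [h1]
      refine Finset.sum_congr rfl fun θ _ => ?_
      have h2 := hωm θ 1
      rw [mul_one] at h2
      rw [h2, charDegree_cast θ.2.isCharacter']
      ring
    rw [e, map_sum]
    refine Finset.sum_eq_zero fun θ _ => ?_
    rw [map_mul, (res_natCast_eq_zero_iff hM _).2, zero_mul]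
    by_cases hm0 : m θ = 0
    · rw [hm0, zero_mul]
      exact dvd_zero p
    · exact dvd_mul_of_dvd_right (hcon θ (by rw [hm]; exact_mod_cast hm0)) _
  -- restriction of θ to D is irreducible
  let ι : D →* H := Subgroup.inclusion hDH
  have hθD : IsCharacter D (fun d => (θ : H → ℂ) (ι d)) := by
    obtain ⟨n, ρ, hρ⟩ := θ.2.isCharacter'
    exact ⟨n, ρ.comp ι, by rw [← hρ]; rfl⟩
  obtain ⟨ω, hω, hωm⟩ := irr_central_mul θ hs
  let κ : Subgroup.zpowers g →* H := Subgroup.inclusion le_sup_right
  have hκ : ∀ z : Subgroup.zpowers g, ∃ c : ℂ, ‖c‖ = 1 ∧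
      ∀ v, (θ : H → ℂ) (v * κ z) = c * (θ : H → ℂ) v := by
    intro z
    have hzc : κ z ∈ Subgroup.center H := Subgroup.mem_center_iff.2 fun h => Subtype.ext (by
      obtain ⟨k, hk⟩ := Subgroup.mem_zpowers_iff.1 z.2
      show (h : G) * (z : G) = (z : G) * h
      rw [← hk]
      exact Commute.zpow_right (Subgroup.mem_centralizer_singleton_iff.1 (hHg h.2)) k)
    obtain ⟨c, hc, hcm⟩ := irr_central_mul θ hzc
    exact ⟨c, Complex.norm_eq_one_of_pow_eq_one hc (orderOf_pos _).ne', fun v => by
      rw [← hcm, Subgroup.mem_center_iff.1 hzc v]⟩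
  have hcd : ∀ (d : D) (z : Subgroup.zpowers g), Commute (ι d) (κ z) := by
    intro d z
    obtain ⟨k, hk⟩ := Subgroup.mem_zpowers_iff.1 z.2
    apply Subtype.ext
    show (d : G) * (z : G) = (z : G) * d
    rw [← hk]
    exact Commute.zpow_right (Subgroup.mem_centralizer_singleton_iff.1 (hDg d.2)) k
  let f : D × Subgroup.zpowers g →* H := MonoidHom.noncommCoprod ι κ hcd
  have hf : Function.Surjective f := by
    intro h
    have hgn : Subgroup.zpowers g ≤ Subgroup.normalizer (D : Set G) :=
      (Subgroup.zpowers_le.2 (Subgroup.mem_centralizer_iff.2 fun d hd =>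
        Subgroup.mem_centralizer_singleton_iff.1 (hDg hd))).trans
        (Subgroup.centralizer_le_normalizer _)
    obtain ⟨d, hd, z, hz, he⟩ := Set.mem_mul.1
      (show (h : G) ∈ (D : Set G) * (Subgroup.zpowers g : Set G) by
        rw [← Subgroup.coe_mul_of_right_le_normalizer_left D _ hgn]
        exact h.2)
    exact ⟨(⟨d, hd⟩, ⟨z, hz⟩), Subtype.ext he⟩
  have hsq : ∀ x : D × Subgroup.zpowers g,
      (θ : H → ℂ) (f x) * conj ((θ : H → ℂ) (f x)) =
        (θ : H → ℂ) (ι x.1) * conj ((θ : H → ℂ) (ι x.1)) := by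
    intro x
    obtain ⟨c, hc, hcm⟩ := hκ x.2
    have hcc : c * conj c = 1 := by
      rw [Complex.mul_conj, Complex.normSq_eq_norm_sq, hc]; simp
    rw [show f x = ι x.1 * κ x.2 by simp [f, MonoidHom.noncommCoprod_apply], hcm, map_mul]
    linear_combination ((θ : H → ℂ) (ι x.1) * conj ((θ : H → ℂ) (ι x.1))) * hcc
  have hin : classInner (fun d => (θ : H → ℂ) (ι d)) (fun d => (θ : H → ℂ) (ι d)) = 1 := by
    classical
    have hfc : ∀ h : H, (Finset.univ.filter fun x => f x = h).card = Nat.card f.ker := by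
      intro h
      obtain ⟨x0, rfl⟩ := hf h
      rw [Nat.card_eq_fintype_card, Fintype.card_of_subtype (p := fun x => x ∈ f.ker)
        (Finset.univ.filter fun x => f x = 1) (fun x => by simp [MonoidHom.mem_ker])]
      exact Finset.card_bij (fun x _ => x0⁻¹ * x) (fun x hx => by simp_all)
        (fun a _ b _ h => mul_left_cancel h) (fun b hb => ⟨x0 * b, by simp_all, by simp⟩)
    have hfib : ∑ x, (θ : H → ℂ) (f x) * conj ((θ : H → ℂ) (f x)) =
        (Nat.card f.ker : ℂ) * ∑ h, (θ : H → ℂ) h * conj ((θ : H → ℂ) h) := by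
      rw [Finset.mul_sum, ← Finset.sum_fiberwise Finset.univ f]
      refine Finset.sum_congr rfl fun h _ => ?_
      rw [Finset.sum_congr rfl fun x hx => by rw [(Finset.mem_filter.1 hx).2],
        Finset.sum_const, hfc, nsmul_eq_mul]
    simp only [hsq, Fintype.sum_prod_type, Finset.sum_const, Finset.card_univ, nsmul_eq_mul]
      at hfib
    have hone := irr_inner_self θ.2
    unfold classInner at hone ⊢
    have hDne := natCard_ne_zero D
    have hHne := natCard_ne_zero H
    rw [← Finset.mul_sum] at hfib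
    have hc1 : (Nat.card (D × Subgroup.zpowers g) : ℂ) = (Nat.card f.ker : ℂ) * Nat.card H := by
      rw [← Nat.cast_mul, ← f.ker.index_mul_card, Subgroup.index_ker,
        MonoidHom.range_eq_top.2 hf, Subgroup.card_top, mul_comm]
    rw [Nat.card_prod, Nat.cast_mul, Nat.card_eq_fintype_card (α := Subgroup.zpowers g)] at hc1
    have hH2 := (inv_mul_eq_one₀ hHne).1 hone
    rw [← hH2, ← hc1] at hfib
    have hzne : (Fintype.card (Subgroup.zpowers g) : ℂ) ≠ 0 :=
      Nat.cast_ne_zero.2 Fintype.card_ne_zero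
    rw [inv_mul_eq_one₀ hDne]
    exact (mul_left_cancel₀ hzne (hfib.trans (mul_comm _ _))).symm
  have hirr := isIrr_of_inner_self_one hθD hin
  have hdeg : charDegree (fun d : D => (θ : H → ℂ) (ι d)) = charDegree (θ : H → ℂ) := by
    unfold charDegree
    simp [map_one]
  have hd1 : charDegree (θ : H → ℂ) = 1 := by
    have h1 := charDegree_dvd_card (⟨_, hirr⟩ : IrrCharacter D)
    rw [hdeg, hcard] at h1
    exact Nat.Coprime.eq_one_of_dvd (Nat.Coprime.pow_right _ (hp.coprime_iff_not_dvd.2 hθp).symm) h1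
  have hθ1 : (θ : H → ℂ) 1 = 1 := by
    rw [← charDegree_cast θ.2.isCharacter', hd1, Nat.cast_one]
  obtain ⟨μ, hμ⟩ := exists_hom_of_degree_one hθD (by simpa using hθ1)
  refine ⟨μ, fun z => ?_⟩
  set w : H := ⟨(z : G), hDH (hZD z.2)⟩ with hw
  have hwc : w ∈ Subgroup.center H := Subgroup.mem_center_iff.2 fun h =>
    Subtype.ext (Subgroup.mem_center_iff.1 (hZc z.2) h)
  obtain ⟨c, hc, hcm⟩ := irr_central_mul θ hwc
  obtain ⟨a, -, ham⟩ := irr_central_mul χ (hZc z.2)
  have hca : c = (μ ⟨(z : G), hZD z.2⟩ : ℂ) := by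
    have h2 := hcm 1
    rw [mul_one, hθ1, mul_one] at h2
    have h3 := congrFun hμ ⟨(z : G), hZD z.2⟩
    exact h2.symm.trans h3
  have hal : a = (lam z : ℂ) := by
    have h2 := ham 1
    rw [mul_one, hover z, mul_comm a] at h2
    exact (mul_left_cancel₀ (by
      rw [← charDegree_cast χ.2.isCharacter']
      exact Nat.cast_ne_zero.2 (charDegree_pos χ).ne') h2).symm
  set I := classInner (fun h : H => (χ : G → ℂ) h) (θ : H → ℂ) with hI
  have hshift : I = a * conj c * I := by
    rw [hI]
    unfold classInner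
    conv_lhs => rw [← Equiv.sum_comp (Equiv.mulLeft w)]
    simp only [Finset.mul_sum]
    refine Finset.sum_congr rfl fun h _ => ?_
    simp only [Equiv.coe_mulLeft, hcm, map_mul, Subgroup.coe_mul]
    rw [show (χ : G → ℂ) ((w : G) * h) = a * (χ : G → ℂ) h from ham h]
    ring
  have hac : a * conj c = 1 := mul_right_cancel₀ hθ0 (by rw [one_mul]; exact hshift.symm)
  have hcc : conj c * c = 1 := by
    rw [Complex.conj_mul', Complex.norm_eq_one_of_pow_eq_one hc (orderOf_pos _).ne']
    simp
  apply Units.ext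
  rw [← hca, ← hal]
  linear_combination (-c) * hac + a * hcc

end Cfsg.Agent.S5001
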