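import Cfsg.Statements.S5011
import Cfsg.Agent.Lib.BlockShortFacts
-- import your own Cfsg.Agent.* helpers here

set_option autoImplicit false
open Cfsg

namespace Cfsg.Agent.S5011

/-- Let G be a finite non-abelian simple group and ρ an irreducible complex representation of G on a space of dimension greater than one (irreducible in the sense that the only subspaces invariant under every ρ(x) are 0 and the whole space). Then for every non-identity element g of G, the centralizer of g does not act irreducibly: there is a non-zero proper subspace invariant under ρ(c) for every c commuting with g. -/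
theorem result {G : Type*} [Group G] [Finite G] [IsSimpleGroup G]
    (hG : ¬ IsMulCommutative G) {V : Type*} [AddCommGroup V] [Module ℂ V] [FiniteDimensional ℂ V]
    (ρ : Representation ℂ G V)
    (hirr : ∀ W : Submodule ℂ V, (∀ x : G, ∀ v ∈ W, ρ x v ∈ W) → W = ⊥ ∨ W = ⊤)
    (hdim : 1 < Module.finrank ℂ V) (g : G) (hg : g ≠ 1) :
    ∃ W : Submodule ℂ V, W ≠ ⊥ ∧ W ≠ ⊤ ∧ ∀ c ∈ Subgroup.centralizer ({g} : Set G), ∀ v ∈ W, ρ c v ∈ W := by
  by_contra hcon
  have key : ∀ W : Submodule ℂ V,
      (∀ c ∈ Subgroup.centralizer ({g} : Set G), ∀ v ∈ W, ρ c v ∈ W) → W ≠ ⊥ → W = ⊤ := by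
    intro W hW hne
    by_contra htop
    exact hcon ⟨W, hne, htop, hW⟩
  haveI : Nontrivial V := Module.nontrivial_of_finrank_pos (R := ℂ) (zero_lt_one.trans hdim)
  obtain ⟨μ, hμ⟩ := Module.End.exists_eigenvalue (ρ g)
  have htop : Module.End.eigenspace (ρ g) μ = ⊤ := by
    refine key _ (fun c hc v hv => ?_) hμ
    rw [Module.End.mem_eigenspace_iff] at hv ⊢
    rw [Subgroup.mem_centralizer_singleton_iff] at hc
    rw [← Module.End.mul_apply, ← map_mul, ← hc, map_mul, Module.End.mul_apply, hv, map_smul]
  have hscal : ρ g = μ • (1 : Module.End ℂ V) := LinearMap.ext fun v => by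
    have hv : v ∈ Module.End.eigenspace (ρ g) μ := htop ▸ Submodule.mem_top
    rw [Module.End.mem_eigenspace_iff] at hv
    rw [hv]
    rfl
  obtain ⟨v, hv⟩ := exists_ne (0 : V)
  rcases hirr (Submodule.span ℂ {v}) (fun x w hw => by
    obtain ⟨a, ha⟩ := CfsgLib.Block.forall_scalar_of_simple ρ hg hscal x
    rw [ha, LinearMap.smul_apply, Module.End.one_apply]
    exact Submodule.smul_mem _ _ hw) with h | h
  · exact hv (Submodule.span_singleton_eq_bot.1 h)
  · have h1 := congrArg (fun W : Submodule ℂ V => Module.finrank ℂ W) h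
    simp only [finrank_span_singleton hv, finrank_top] at h1
    omega

end Cfsg.Agent.S5011
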