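import Cfsg.Statements.S5125
import Cfsg.Agent.Lib.FusionSeries

set_option autoImplicit false
open Cfsg

namespace Cfsg.Agent.S5125

/-- Let F be a saturated fusion system over a finite p-group S and Q a subgroup strongly closed in F. If Q has a subgroup Q₁ that is normal in F, with Q/Q₁ abelian and Aut_F(Q₁) a p-group, then Q is normal in F. -/
theorem result {Ω : Type*} [Group Ω] {S : Subgroup Ω} [Finite S] (p : ℕ) [Fact p.Prime] (hS : IsPGroup p S) (F : Cfsg.FusionSystem S) (hF : F.IsSaturated p) (Q Q₁ : Subgroup Ω) (hQ : F.StronglyClosed Q) (hQ₁Q : Q₁ ≤ Q) (hQ₁ : F.IsNormal Q₁) (hab : ⁅Q, Q⁆ ≤ Q₁) (hAut : IsPGroup p ↥(F.autGroup Q₁)) : F.IsNormal Q := by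
  refine CfsgLib.Fusion.isNormal_of_le_centric_radical hS hF hQ fun P hPc hPr => ?_
  have hPS := hPc.1
  have hQ₁P : Q₁ ≤ P := CfsgLib.Fusion.isNormal_le_centric_radical hS hQ₁ hPc hPr
  have hQ₁sc := CfsgLib.Fusion.isNormal_stronglyClosed hQ₁
  have hPQ : P ≤ Subgroup.normalizer (Q : Set Ω) :=
    hPS.trans (CfsgLib.Fusion.stronglyClosed_normalized hQ)
  refine CfsgLib.Fusion.le_of_layers hS hPc hPr hQ.1 hPQ (ι := Bool)
    (fun b => cond b P Q) (fun b => cond b Q Q₁) ?_ ?_ ?_ ?_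
  · intro α hα b x hx hxA
    cases b
    · exact CfsgLib.Fusion.stronglyClosed_apply hQ
        ((CfsgLib.Fusion.mem_autGroup_iff hPS).mp hα) hx hxA
    · exact CfsgLib.Fusion.autFun_mem α hx
  · intro α hα b x hx hxA
    cases b
    · exact CfsgLib.Fusion.stronglyClosed_apply hQ₁sc
        ((CfsgLib.Fusion.mem_autGroup_iff hPS).mp hα) hx hxA
    · exact CfsgLib.Fusion.stronglyClosed_apply hQ
        ((CfsgLib.Fusion.mem_autGroup_iff hPS).mp hα) hx hxA
  · intro α hα hst
    refine CfsgLib.Fusion.pPower_of_all_powers F hPS fun j m hm hjm => ?_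
    have hαm := (CfsgLib.Fusion.mem_autGroup_iff hPS).mp (pow_mem hα j)
    obtain ⟨β, hβ, hβe⟩ := (hαm.restrict hQ₁P).exists_aut
      (CfsgLib.Fusion.img_eq_of_stronglyClosed hQ₁sc hQ₁P hαm)
    have hfix : ∀ x ∈ P, x ∈ Q₁ → CfsgLib.Fusion.autFun (α ^ j) x = x := by
      intro x hx hx1
      have h1 : β ^ m = 1 := CfsgLib.Fusion.autFun_inj fun y hy => by
        rw [CfsgLib.Fusion.autFun_pow_agree hQ₁P (α := β) (β := α ^ j)
          (fun z hz => (hβe z hz).symm) m y hy |>.symm, hjm,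
          CfsgLib.Fusion.autFun_one (hQ₁P hy), CfsgLib.Fusion.autFun_one hy]
      obtain ⟨a, ha⟩ := hAut ⟨β, hβ⟩
      have ha' : β ^ p ^ a = 1 := by simpa using congrArg Subtype.val ha
      have : β = 1 := by
        have hco : Nat.Coprime (p ^ a) m :=
          ((Fact.out : p.Prime).coprime_iff_not_dvd.mpr hm).pow_left a
        exact orderOf_eq_one_iff.mp (Nat.eq_one_of_dvd_coprimes hco
          (orderOf_dvd_of_pow_eq_one ha') (orderOf_dvd_of_pow_eq_one h1))
      rw [← hβe x hx1, this, CfsgLib.Fusion.autFun_one hx1]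
    have h1 : ∀ x ∈ P, x ∈ Q → CfsgLib.Fusion.autFun (α ^ j) x = x :=
      CfsgLib.Fusion.fixed_of_series hS hPS hm hjm
        (CfsgLib.Fusion.Stab.pow' (fun x hx hxQ => CfsgLib.Fusion.stronglyClosed_apply hQ
          ((CfsgLib.Fusion.mem_autGroup_iff hPS).mp hα) hx hxQ) (hst false) j) hfix
    refine CfsgLib.Fusion.autFun_inj fun x hx => ?_
    rw [CfsgLib.Fusion.autFun_one hx]
    exact CfsgLib.Fusion.fixed_of_series hS hPS hm hjm
      (CfsgLib.Fusion.Stab.pow' (fun x hx _ => CfsgLib.Fusion.autFun_mem α hx) (hst true) j)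
      h1 x hx hx
  · intro u hu hun b x hx hxA
    cases b
    · have h : x⁻¹ * (u * x * u⁻¹) ∈ ⁅Q, Q⁆ := by
        have := Subgroup.commutator_mem_commutator (inv_mem (show x ∈ Q from hxA)) hu
        rw [commutatorElement_def, inv_inv] at this
        simpa [mul_assoc] using this
      exact hab h
    · have h1 := mul_mem (CfsgLib.Fusion.conj_inv_mem_of_mem_normalizer (hPQ hx) hu) (inv_mem hu)
      simpa [mul_assoc] using h1

end Cfsg.Agent.S5125
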