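import Cfsg.Statements.S5126
import Cfsg.Agent.Lib.FusionSubmodel

set_option autoImplicit false
open Cfsg

namespace Cfsg.Agent.S5126

/-- In a saturated fusion system over a finite p-group S, the normalizer system of a fully normalized, centric, radical subgroup R is constrained, and in every model of that normalizer system the largest normal p-subgroup is the image of R. -/
theorem result {Ω : Type*} [Group Ω] {S : Subgroup Ω} [Finite S] (p : ℕ) [Fact p.Prime] (hS : IsPGroup p S) (F : Cfsg.FusionSystem S) (hF : F.IsSaturated p) (R : Subgroup Ω) (hRn : F.IsFullyNormalized R) (hRc : F.IsCentric R) (hRr : F.IsRadical p R) (E : Cfsg.FusionSystem (Cfsg.FusionSystem.normalizerIn S R)) (hE : F.IsNormalizerSystem R E) {G : Type*} [Group G] (ι : ↥(Cfsg.FusionSystem.normalizerIn S R) →* G) : E.IsConstrained p ∧ (E.IsModel p G ι → (Cfsg.pCore p G : Subgroup G) = (R.subgroupOf (Cfsg.FusionSystem.normalizerIn S R)).map ι) := by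
  have := CfsgLib.Fusion.finite_of_le (CfsgLib.Fusion.normalizerIn_le S R)
  refine ⟨⟨CfsgLib.Fusion.normalizerSystem_saturated hS hF hRn hE, R,
    CfsgLib.Fusion.normal_in_normalizerSystem hRn.1 hE,
    CfsgLib.Fusion.centric_in_normalizerSystem hRc hE⟩, fun hG => ?_⟩
  exact CfsgLib.Fusion.localModel_core hS hRc hRr hE hG

end Cfsg.Agent.S5126
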