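import Cfsg.Statements.S5226
import Cfsg.Agent.Lib.FusionSeries

set_option autoImplicit false
open Cfsg

namespace Cfsg.Agent.S5226

/-- Let F be a saturated fusion system over a finite p-group S and Q a subgroup of S. Then Q is normal in F (F equals the normalizer system of Q) if and only if Q is strongly closed in F and admits a central series 1 = Q₀ ≤ Q₁ ≤ ⋯ ≤ Qₙ = Q ([Qᵢ₊₁, Q] ≤ Qᵢ) all of whose proper terms are weakly closed in F. -/
theorem result {Ω : Type*} [Group Ω] {S : Subgroup Ω} [Finite S] (p : ℕ) [Fact p.Prime] (hS : IsPGroup p S) (F : Cfsg.FusionSystem S) (hF : F.IsSaturated p) (Q : Subgroup Ω) : F.IsNormal Q ↔ F.StronglyClosed Q ∧ ∃ (n : ℕ) (C : Fin (n + 1) → Subgroup Ω), C 0 = ⊥ ∧ C (Fin.last n) = Q ∧ Monotone C ∧ (∀ i : Fin n, ⁅C i.succ, Q⁆ ≤ C i.castSucc) ∧ ∀ i : Fin n, F.WeaklyClosed (C i.castSucc) := by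
  constructor
  · intro hQ
    obtain ⟨hQS, -⟩ := CfsgLib.Fusion.isNormal_iff.mp hQ
    obtain ⟨n, C, h0, hl, hm, hsc, hc⟩ := CfsgLib.Fusion.exists_series hS hQS
      (CfsgLib.Fusion.IsNormal.exists_aut hQ)
    refine ⟨CfsgLib.Fusion.isNormal_stronglyClosed hQ, n, C, h0, hl, hm,
      fun i => (Subgroup.commutator_comm _ _).le.trans (hc i), fun i => ⟨(hsc _).1, fun φ hφ => ?_⟩⟩
    rw [CfsgLib.Fusion.range_eq_img]
    exact CfsgLib.Fusion.img_eq_of_stronglyClosed (hsc _) le_rfl (CfsgLib.Fusion.map_ext hφ)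
  · rintro ⟨hQ, n, C, h0, hl, hm, hc, hw⟩
    exact CfsgLib.Fusion.isNormal_of_weaklyClosed_series hS hF hQ n C h0 hl hm hc hw

end Cfsg.Agent.S5226
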