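import Cfsg.Statements.S5301
import Cfsg.Agent.Lib.FusionSeries
import Cfsg.Agent.Lib.FusionEssential

set_option autoImplicit false
universe u
open Cfsg

namespace Cfsg.Agent.S5301

/-- Let F be a saturated fusion system over a finite p-group S. If for every subgroup P of S that is fully normalized, centric and radical in F the automorphism group that F induces on P has a normal Sylow p-subgroup, then S is normal in F. -/
theorem result {Ω : Type u} [Group Ω] {S : Subgroup Ω} [Finite S] (p : ℕ) [Fact p.Prime] (hS : IsPGroup p S)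
    (F : Cfsg.FusionSystem S) (hF : F.IsSaturated p)
    (hcl : ∀ P : Subgroup Ω, F.IsFullyNormalized P → F.IsCentric P → F.IsRadical p P →
      ∃ R : Sylow p ↥(F.autGroup P), (R : Subgroup ↥(F.autGroup P)).Normal) :
    F.IsNormal S := by
  refine CfsgLib.Fusion.isNormal_of_essential_invariant hS hF fun P hP => ?_
  rcases hP with rfl | hP
  · exact ⟨le_rfl, fun α _ => CfsgLib.Fusion.img_autFun α⟩
  exfalso
  have hr := CfsgLib.Fusion.isRadical_of_isEssential hS hF hP
  obtain ⟨R, hR⟩ := hcl P hP.2.1 hP.1 hr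
  obtain ⟨hc, -, hn, E, hE⟩ := hP
  have := CfsgLib.Fusion.finite_of_le hc.1
  have := CfsgLib.Fusion.finite_autGroup F hc.1
  have hle : (R : Subgroup (F.autGroup P)) ≤ (Cfsg.Inn P).subgroupOf (F.autGroup P) := by
    intro x hx
    have h1 : x ∈ Cfsg.pCore p (F.autGroup P) :=
      (le_sSup (show (R : Subgroup (F.autGroup P)) ∈ {N : Subgroup (F.autGroup P) |
        N.Normal ∧ IsPGroup p N} from ⟨hR, R.2⟩)) hx
    rw [Subgroup.mem_subgroupOf, ← hr.2]
    exact ⟨x, h1, rfl⟩
  have h2 := R.not_dvd_index
  rw [← Subgroup.relIndex_mul_index hle] at h2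
  exact h2 (hE.1.mul_left _)

end Cfsg.Agent.S5301
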