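import Cfsg.Statements.S5331
import Cfsg.Agent.Lib.TwoFusionRigidAbelian

set_option autoImplicit false
open Cfsg

namespace Cfsg.Agent.S5331

/-- Let S be a finite abelian 2-group that is a direct product of cyclic groups of pairwise distinct orders 2^{a_1} < 2^{a_2} < ⋯ < 2^{a_n} (all a_i ≥ 1). Then every saturated fusion system over S is the inner one: its maps are exactly the conjugations by elements of S. -/
theorem result {Ω : Type*} [Group Ω] {S : Subgroup Ω} [Finite S] (n : ℕ) (a : Fin n → ℕ) (ha : StrictMono a) (ha1 : ∀ i, 1 ≤ a i) (e : ↥S ≃* Multiplicative ((i : Fin n) → ZMod (2 ^ a i))) (F : Cfsg.FusionSystem S) (hF : F.IsSaturated 2) (P : Subgroup Ω) : F.Hom P = (Cfsg.innerFusionSystem S).Hom P := by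
  haveI : Fact (Nat.Prime 2) := ⟨Nat.prime_two⟩
  haveI : ∀ i, NeZero (2 ^ a i) := fun i => ⟨by positivity⟩
  have hS : IsPGroup 2 S := IsPGroup.of_card (n := ∑ i, a i) (by
    rw [Nat.card_congr e.toEquiv, Nat.card_congr Multiplicative.toAdd, Nat.card_pi]
    simp [Finset.prod_pow_eq_pow_sum])
  refine CfsgLib.TwoFusion.RigidAbelian.inner_of_isPGroup_mulAut hS (fun x hx y hy => ?_)
    ((CfsgLib.TwoFusion.RigidAbelian.isPGroup_mulAut_pi n a ha).of_equiv (MulAut.congr e).symm) F hF P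
  exact congrArg Subtype.val (e.injective (by rw [map_mul, map_mul, mul_comm]) : (⟨x, hx⟩ * ⟨y, hy⟩ : S) = ⟨y, hy⟩ * ⟨x, hx⟩)

end Cfsg.Agent.S5331
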