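import Cfsg.Statements.S5521
import Cfsg.Agent.Lib.SporM24Six

set_option autoImplicit false
open Cfsg

namespace Cfsg.Agent.S5521

/-- The Mathieu group M₂₄ in its natural action on the 24 coordinate positions of the binary Golay code has minimal base size exactly 7: every set of at most 6 positions is fixed pointwise by some non-identity element of M₂₄, while some set of 7 positions is fixed pointwise only by the identity. -/
theorem result :
    (∀ B : Finset Cfsg.GolayPt, B.card ≤ 6 → ∃ g ∈ Cfsg.M24, g ≠ 1 ∧ ∀ b ∈ B, g b = b) ∧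
    (∃ B : Finset Cfsg.GolayPt, B.card = 7 ∧ ∀ g ∈ Cfsg.M24, (∀ b ∈ B, g b = b) → g = 1) := by
  refine ⟨fun B hB => ?_, (Finset.range 7).image CfsgLib.Spor.bpt, by decide +kernel, fun g hg hfix => ?_⟩
  · obtain ⟨E, hBE, hE⟩ := Finset.exists_superset_card_eq (n := 6) hB (by simp)
    obtain ⟨h16, h3⟩ := CfsgLib.Spor.card_fix_set hE
    have h1 : 1 < Nat.card {g : Equiv.Perm Cfsg.GolayPt // g ∈ Cfsg.M24 ∧ ∀ p ∈ E, g p = p} := by
      by_cases h : ∃ o ∈ Cfsg.octads, E ⊆ o
      · rw [h16 h]; norm_num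
      · rw [h3 h]; norm_num
    obtain ⟨⟨a, ha⟩, ⟨b, hb⟩, hab⟩ := (Finite.one_lt_card_iff_nontrivial.1 h1).exists_pair_ne
    by_cases ea : a = 1
    · exact ⟨b, hb.1, fun eb => hab (Subtype.ext (ea.trans eb.symm)), fun p hp => hb.2 p (hBE hp)⟩
    · exact ⟨a, ha.1, ea, fun p hp => ha.2 p (hBE hp)⟩
  · exact CfsgLib.Spor.eq_one_of_fix (CfsgLib.Spor.M24_le_octAut hg) fun k hk =>
      hfix _ (Finset.mem_image.2 ⟨k, Finset.mem_range.2 hk, rfl⟩)

end Cfsg.Agent.S5521
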