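import Cfsg.Statements.S5562


set_option autoImplicit false
open Cfsg

namespace Cfsg.Agent.S5562

/-- Let G be a finite group, d an involution of G whose conjugates pairwise have products of odd order, and x any involution of G. Then the conjugacy class of d is the disjoint union, over the conjugates a of d commuting with x, of the sets of conjugates of d commuting with ax: every conjugate of d commutes with ax for exactly one conjugate a of d that commutes with x. -/
theorem result {G : Type*} [Group G] [Finite G] (d : G) (hd : orderOf d = 2)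
    (hodd : ∀ a ∈ conjugatesOf d, ∀ b ∈ conjugatesOf d, Odd (orderOf (a * b)))
    (x : G) (hx : orderOf x = 2) :
    ∀ e ∈ conjugatesOf d,
      ∃! a : G, a ∈ conjugatesOf d ∧ Commute a x ∧ Commute e (a * x) := by
  intro e he
  have sq : ∀ u ∈ conjugatesOf d, u * u = 1 := fun u hu => by
    obtain ⟨c, rfl⟩ := isConj_iff.1 (show IsConj d u from hu)
    rw [← pow_two, ← hd, conj_pow, pow_orderOf_eq_one]; group
  have cmem : ∀ g : G, ∀ u ∈ conjugatesOf d, g * u * g⁻¹ ∈ conjugatesOf d := fun g u hu =>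
    IsConj.trans (show IsConj d u from hu) (isConj_iff.2 ⟨g, rfl⟩)
  have x2 : x * x = 1 := by rw [← pow_two, ← hx]; exact pow_orderOf_eq_one x
  have iv : ∀ u ∈ conjugatesOf d, u⁻¹ = u := fun u hu => inv_eq_of_mul_eq_one_left (sq u hu)
  have xiv : x⁻¹ = x := inv_eq_of_mul_eq_one_left x2
  set e' := x * e * x with he'
  have he'D : e' ∈ conjugatesOf d := by have := cmem x e he; rwa [xiv] at this
  have cond : ∀ a ∈ conjugatesOf d, Commute a x → (Commute e (a * x) ↔ a * e' * a = e) := by
    intro a ha hax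
    have hinv : (a * x)⁻¹ = x * a := by rw [mul_inv_rev, iv a ha, xiv]
    have h1 : a * e' * a = (a * x) * e * (a * x)⁻¹ := by rw [hinv, he']; group
    rw [h1, mul_inv_eq_iff_eq_mul]
    exact ⟨fun h => h.symm.eq, fun h => h.symm⟩
  obtain ⟨n, hn⟩ := hodd e' he'D e he
  set r := e' * e with hr
  have hre : e * r * e⁻¹ = r⁻¹ := by
    rw [hr, mul_inv_rev, iv e he, iv e' he'D, mul_assoc, mul_assoc e' e e, sq e he, mul_one]
  have hrn : r ^ (n + 1) * r ^ (n + 1) = r := by
    rw [← pow_add, show n + 1 + (n + 1) = (2 * n + 1) + 1 by omega, pow_succ, ← hn, pow_orderOf_eq_one, one_mul]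
  have inv_e : ∀ i : ℕ, e * r ^ i = (r ^ i)⁻¹ * e := fun i => by
    have := conj_pow (a := e) (b := r) (i := i)
    rw [hre, inv_pow] at this
    rw [this]; group
  set c := r ^ (n + 1) with hc
  obtain ⟨c', hc'⟩ : ∃ c', c' = r ^ ((n + 1) * (n + 1)) := ⟨_, rfl⟩
  have hcc : c' * c' = c := by
    have k2 : r ^ (2 * (n + 1)) = r := by
      rw [show 2 * (n + 1) = (2*n+1) + 1 by omega, pow_succ, ← hn, pow_orderOf_eq_one, one_mul]
    rw [hc', ← pow_add, ← two_mul, ← mul_assoc, pow_mul, k2, hc]
  set a := c * e with ha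
  have haD : a ∈ conjugatesOf d := by
    have := cmem c' e he
    have hh : c' * e * c'⁻¹ = c' * c' * e := by
      rw [mul_assoc, mul_assoc]; congr 1
      have h2 := inv_e ((n + 1) * (n + 1))
      rw [← hc'] at h2
      calc e * c'⁻¹ = c' * (c'⁻¹ * e) * c'⁻¹ := by group
        _ = c' * (e * c') * c'⁻¹ := by rw [h2]
        _ = c' * e := by group
    rwa [hh, hcc] at this
  have hxr : x * r * x⁻¹ = r⁻¹ := by
    rw [hr, mul_inv_rev, iv e he, iv e' he'D, xiv, he']
    simp only [← mul_assoc]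
    rw [x2, one_mul]
  have hax : Commute a x := by
    show a * x = x * a
    have h1 : x * c * x⁻¹ = c⁻¹ := by rw [hc, ← conj_pow, hxr, inv_pow]
    have hxe : x * e * x⁻¹ = r * e := by rw [xiv, hr, mul_assoc e' e e, sq e he, mul_one]
    have h2 : x * a * x⁻¹ = a := by
      calc x * a * x⁻¹ = (x * c * x⁻¹) * (x * e * x⁻¹) := by rw [ha]; group
        _ = c⁻¹ * (c * c * e) := by rw [h1, hxe, hrn]
        _ = a := by rw [ha]; group
    conv_lhs => rw [← h2]
    group
  have hfin : a * e' * a = e := by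
    have h1 : a * e * a = e' := by
      rw [ha, mul_assoc c e e, sq e he, mul_one, ← mul_assoc, hrn, hr, mul_assoc, sq e he, mul_one]
    calc a * e' * a = (a * a) * e * (a * a) := by rw [← h1]; group
      _ = e := by rw [sq a haD, one_mul, mul_one]
  refine ⟨a, ⟨haD, hax, (cond a haD hax).2 hfin⟩, ?_⟩
  rintro b ⟨hb, hbx, hbe⟩
  have h2 := (cond b hb hbx).1 hbe
  have key : ∀ u ∈ conjugatesOf d, u * e' * u = e → (e' * u) ^ 2 = e' * e := by
    intro u hu h
    calc (e' * u) ^ 2 = e' * (u * e' * u) := by rw [pow_two]; group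
      _ = e' * e := by rw [h]
  have hsq : (e' * a) ^ 2 = (e' * b) ^ 2 := (key a haD hfin).trans (key b hb h2).symm
  obtain ⟨p, hp⟩ := hodd e' he'D a haD
  obtain ⟨q, hq⟩ := hodd e' he'D b hb
  have hpw : ∀ (u : G) (p q : ℕ), orderOf u = 2 * p + 1 → u = ((u ^ 2) ^ ((2 * q + 1) * (p + 1) - q)) := by
    intro u p q hu
    rw [← pow_mul]
    have : 2 * ((2 * q + 1) * (p + 1) - q) = (2 * q + 1) * (2 * p + 1) + 1 := by
      rw [Nat.mul_sub, show (2 * q + 1) * (p + 1) = (2 * q + 1) * p + (2 * q + 1) by ring]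
      have : (2 * q + 1) * (2 * p + 1) = 2 * ((2 * q + 1) * p) + (2 * q + 1) := by ring
      omega
    rw [this, pow_succ, mul_comm (2 * q + 1), pow_mul, ← hu, pow_orderOf_eq_one, one_pow, one_mul]
  have e1 := hpw _ p q hp
  have e2 := hpw _ q p hq
  have hexp : (2 * q + 1) * (p + 1) - q = (2 * p + 1) * (q + 1) - p := by
    have h1 : (2 * q + 1) * (p + 1) = 2 * (p * q) + (2 * q + p + 1) := by ring
    have h2 : (2 * p + 1) * (q + 1) = 2 * (p * q) + (2 * p + q + 1) := by ring
    omega
  rw [hexp, hsq, ← e2] at e1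
  exact (mul_left_cancel e1).symm

end Cfsg.Agent.S5562
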