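import Cfsg.Statements.S5595
import Cfsg.Agent.Lib.SporOrth
import Cfsg.Agent.Lib.SporSingular
import Cfsg.Agent.Lib.CorePGroup

set_option autoImplicit false
open Cfsg

namespace Cfsg.Agent.S5595

/-- Setting: `z` is an involution of the finite group `G`; for each element `x`, `Q x` denotes the largest normal 2-subgroup of the centralizer of `x`; `Q z` is extraspecial and contains its own centralizer in `G` (a large extraspecial 2-subgroup in this sense). Call the conjugates of `z` singular, and say that singular `x` is orthogonal to singular `y` when `x ∈ Q y`. Then orthogonality is symmetric: if a conjugate `x` of `z` lies in `Q z`, then `z` lies in `Q x`. -/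
theorem result {G : Type*} [Group G] [Finite G]
    (Q : G → Subgroup G)
    (hQ : ∀ x : G, Q x = (Cfsg.pCore 2 ↥(Subgroup.centralizer ({x} : Set G))).map (Subgroup.centralizer ({x} : Set G)).subtype)
    (z : G) (hz : orderOf z = 2) (hE : Cfsg.IsExtraspecial 2 ↥(Q z))
    (hC : Subgroup.centralizer ((Q z : Subgroup G) : Set G) ≤ Q z)
    (g : G) (hx : g * z * g⁻¹ ∈ Q z) : z ∈ Q (g * z * g⁻¹) := by
  haveI : Fact (Nat.Prime 2) := ⟨Nat.prime_two⟩
  have S : CfsgLib.Spor.Singular.Setup Q z := ⟨hQ, hz, hE⟩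
  have hEq : CfsgLib.Spor.Orth.Equivariant Q := fun h x y hy => by
    rw [← CfsgLib.Spor.Singular.map_conj S h x]
    exact Subgroup.mem_map_of_mem _ hy
  obtain ⟨hzQ, hzz, hzc, -, hzcentre⟩ := CfsgLib.Spor.Singular.singular_facts S (u := z) ⟨1, by group⟩
  have back : ∀ h x : G, x = h * (h⁻¹ * x * h) * h⁻¹ := fun h x => by group
  have hsing : ∀ h : G, CfsgLib.Spor.Orth.Sing Q (h * z * h⁻¹) := by
    intro h
    have hu : ∃ k : G, k * z * k⁻¹ = h * z * h⁻¹ := ⟨h, rfl⟩
    obtain ⟨m, i, c, -, ce⟩ := CfsgLib.Spor.Singular.singular_facts S hu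
    have hdown : ∀ x ∈ Q (h * z * h⁻¹), h⁻¹ * x * h ∈ Q z := fun x hx => by
      have := hEq h⁻¹ _ x hx
      rwa [inv_inv, show h⁻¹ * (h * z * h⁻¹) * h = z by group] at this
    refine ⟨m, i, fun e => ?_, c, fun x hx y hy => CfsgLib.Spor.Singular.conj_cases S hu hx hy, ce, fun x hx => ?_,
      fun x hx => ?_⟩
    · have e2 : z = 1 := by
        calc z = h⁻¹ * (h * z * h⁻¹) * h := by group
          _ = 1 := by rw [e]; group
      rw [e2, orderOf_one] at hz
      norm_num at hz
    · have ha := hdown x hx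
      set a : ↥(Q z) := ⟨_, ha⟩ with hadef
      have hsq : a ^ 2 ∈ Subgroup.center ↥(Q z) := by
        rw [← hE.1.2.1]; exact CfsgLib.Core.pgroup_pow_mem_frattini hE.1.1 a
      have h2 : ∀ y ∈ Q z, y * ((a ^ 2 : ↥(Q z)) : G) = ((a ^ 2 : ↥(Q z)) : G) * y := fun y hy =>
        congrArg Subtype.val (Subgroup.mem_center_iff.1 hsq ⟨y, hy⟩)
      have e3 : x * x = h * ((a ^ 2 : ↥(Q z)) : G) * h⁻¹ := by
        rw [pow_two, Subgroup.coe_mul]; simp only [hadef]; group
      rcases hzcentre _ (a ^ 2).2 h2 with e | e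
      · left; rw [e3, e]; group
      · right; rw [e3, e]
    · have h3 : h⁻¹ * x * h ∈ Q z := hC fun y hy => by
        have hy' : h * y * h⁻¹ ∈ Q (h * z * h⁻¹) := hEq h z y hy
        calc y * (h⁻¹ * x * h) = h⁻¹ * (h * y * h⁻¹ * x) * h := by group
          _ = h⁻¹ * (x * (h * y * h⁻¹)) * h := by rw [hx _ hy']
          _ = h⁻¹ * x * h * y := by group
      rw [back h x]; exact hEq h z _ h3
  have hz' : CfsgLib.Spor.Orth.Sing Q z := by simpa using hsing 1
  by_cases hne : g * z * g⁻¹ = z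
  · rw [hne]; exact hzQ
  refine CfsgLib.Spor.Orth.symm hEq hz' (hsing g) ?_ hx hne
  rw [← CfsgLib.Spor.Singular.map_conj S g z]
  exact Subgroup.card_map_of_injective (MulAut.conj g).injective

end Cfsg.Agent.S5595
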