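import Cfsg.Statements.S5722
import Cfsg.Agent.Lib.LengthBound

set_option autoImplicit false
open Cfsg

namespace Cfsg.Agent.S5722

/-- If a finite group G acts faithfully on a finite set with n points and r orbits, then the composition length of G is at most 4(n − r)/3. Here the composition length is expressed through chains: the conclusion bounds the length l of every chain of subgroups 1 = H₀ < H₁ < ⋯ < H_l = G in which each term is normal in the next (the longest such chains are exactly the composition series). -/
theorem result {G Ω : Type*} [Group G] [Finite G] [MulAction G Ω] [FaithfulSMul G Ω] [Fintype Ω]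
    (l : ℕ) (H : Fin (l + 1) → Subgroup G) (h0 : H 0 = ⊥) (hl : H (Fin.last l) = ⊤)
    (hchain : ∀ i : Fin l, H i.castSucc < H i.succ ∧ ((H i.castSucc).subgroupOf (H i.succ)).Normal) :
    3 * l ≤ 4 * (Fintype.card Ω - Nat.card (Quotient (MulAction.orbitRel G Ω))) := by
  have h1 := CfsgLib.Length.le_len_of_fin_chain l H h0 hl hchain
  have h2 := CfsgLib.Length.bnd_apply (CfsgLib.Length.bnd_all (Fintype.card Ω)) (X := G)
    Nat.card_eq_fintype_card
  unfold CfsgLib.Length.orbitCount at h2
  omega

end Cfsg.Agent.S5722
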