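import Cfsg.Statements.S5729
import Mathlib

set_option autoImplicit false
open Cfsg

namespace Cfsg.Agent.S5729

/-- Let a finite group G act faithfully and transitively on a set with n ≥ 3 points. Then either G is a Frobenius permutation group (Frobenius as a permutation group: transitive, some non-identity element fixes a point, and no non-identity element fixes two points) of order n(n − 1) and exactly |G|/n of its elements are derangements (fix no point), or the number of derangements is greater than |G|/n. -/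
theorem result {G Ω : Type*} [Group G] [Finite G] [MulAction G Ω] [FaithfulSMul G Ω] [Fintype Ω] (htr : MulAction.IsPretransitive G Ω) (hn : 3 ≤ Fintype.card Ω) :
    ((MulAction.IsPretransitive G Ω ∧ (∃ g : G, g ≠ 1 ∧ ∃ ω : Ω, g • ω = ω) ∧ ∀ g : G, g ≠ 1 → Nat.card (MulAction.fixedBy Ω g) ≤ 1) ∧ Nat.card G = Fintype.card Ω * (Fintype.card Ω - 1) ∧ Fintype.card Ω * Nat.card {g : G // ∀ ω : Ω, g • ω ≠ ω} = Nat.card G) ∨
    Nat.card G < Fintype.card Ω * Nat.card {g : G // ∀ ω : Ω, g • ω ≠ ω} := by
  classical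
  have := Fintype.ofFinite G
  haveI := htr
  obtain ⟨n, hnd⟩ : ∃ n, n = Fintype.card Ω := ⟨_, rfl⟩
  rw [← hnd] at hn ⊢
  obtain ⟨c, hc⟩ : ∃ c : G → ℕ, ∀ g, c g = Fintype.card (MulAction.fixedBy Ω g) :=
    ⟨fun g => Fintype.card (MulAction.fixedBy Ω g), fun g => rfl⟩
  have hΩ : Nonempty Ω := Fintype.card_pos_iff.mp (by omega)
  have h1 : ∑ g, c g = Fintype.card G := by
    simp only [hc]
    rw [MulAction.sum_card_fixedBy_eq_card_orbits_mul_card_group]
    have : Subsingleton (Quotient (MulAction.orbitRel G Ω)) := MulAction.pretransitive_iff_subsingleton_quotient G Ω |>.mp htr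
    have hne : Nonempty (Quotient (MulAction.orbitRel G Ω)) := hΩ.map (Quotient.mk _)
    rw [Fintype.card_eq_one_iff_nonempty_unique.mpr ⟨uniqueOfSubsingleton hne.some⟩, one_mul]
  have h2 : 2 * Fintype.card G ≤ ∑ g, c g * c g := by
    have e : ∀ g : G, Fintype.card (MulAction.fixedBy (Ω × Ω) g) = c g * c g := fun g => by
      rw [hc, ← Fintype.card_prod]
      exact Fintype.card_congr
        { toFun := fun x => (⟨x.1.1, congrArg Prod.fst x.2⟩, ⟨x.1.2, congrArg Prod.snd x.2⟩)
          invFun := fun x => ⟨(x.1.1, x.2.1), Prod.ext x.1.2 x.2.2⟩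
          left_inv := fun x => rfl
          right_inv := fun x => rfl }
    simp only [← e]
    rw [MulAction.sum_card_fixedBy_eq_card_orbits_mul_card_group]
    refine Nat.mul_le_mul_right _ (Fintype.one_lt_card_iff.mpr ?_)
    obtain ⟨a, b, hab⟩ := Fintype.exists_pair_of_one_lt_card (α := Ω) (by omega)
    refine ⟨Quotient.mk _ (a, a), Quotient.mk _ (a, b), fun h => ?_⟩
    obtain ⟨g, hg⟩ := Quotient.exact h
    have e1 : g • a = a := congrArg Prod.fst hg
    have e2 : g • b = a := congrArg Prod.snd hg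
    exact hab (MulAction.injective g (e1.trans e2.symm))
  have hcn : ∀ g, c g ≤ n := fun g => by rw [hc, hnd]; exact Fintype.card_subtype_le _
  have hzero : ∀ g, c g = 0 ↔ ∀ ω : Ω, g • ω ≠ ω := fun g => by
    rw [hc, Fintype.card_eq_zero_iff, isEmpty_subtype]; rfl
  have hD : Nat.card {g : G // ∀ ω : Ω, g • ω ≠ ω} = (Finset.univ.filter fun g : G => c g = 0).card := by
    rw [Nat.card_eq_fintype_card, Fintype.card_subtype]
    simp only [hzero]
  rw [hD, Nat.card_eq_fintype_card]
  obtain ⟨D, hDd⟩ : ∃ D, D = (Finset.univ.filter fun g : G => c g = 0).card := ⟨_, rfl⟩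
  rw [← hDd]
  have hterm : ∀ g, c g * c g + n ≤ (n + 1) * c g + (if c g = 0 then n else 0) := fun g => by
    split_ifs with h
    · simp [h]
    · obtain ⟨k, hk⟩ : ∃ k, n = c g + k := ⟨n - c g, by have := hcn g; omega⟩
      rw [hk, add_mul, add_mul, add_zero, one_mul]
      nlinarith [Nat.one_le_iff_ne_zero.mpr h]
  have hsum : ∑ g, (if c g = 0 then n else 0) = D * n := by
    rw [← Finset.sum_filter, Finset.sum_const, smul_eq_mul, hDd]
  have hub := Finset.sum_le_sum (s := Finset.univ) (fun g _ => hterm g)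
  rw [Finset.sum_add_distrib, Finset.sum_add_distrib, hsum, ← Finset.mul_sum, h1, Finset.sum_const, smul_eq_mul, Finset.card_univ] at hub
  rcases Nat.lt_or_ge (Fintype.card G) (n * D) with h | h
  · exact Or.inr h
  refine Or.inl ?_
  have hEq : n * D = Fintype.card G := le_antisymm h (by nlinarith)
  have heq : ∀ g, c g * c g + n = (n + 1) * c g + (if c g = 0 then n else 0) := by
    intro g
    refine le_antisymm (hterm g) ?_
    by_contra hlt
    push Not at hlt
    have hlt' := Finset.sum_lt_sum (s := Finset.univ) (fun g _ => hterm g) ⟨g, Finset.mem_univ g, hlt⟩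
    rw [Finset.sum_add_distrib, Finset.sum_add_distrib, hsum, ← Finset.mul_sum, h1, Finset.sum_const, smul_eq_mul, Finset.card_univ] at hlt'
    nlinarith
  have hone : c 1 = n := by
    rw [hc, hnd]
    exact Fintype.card_congr ⟨Subtype.val, fun x => ⟨x, one_smul G x⟩, fun x => rfl, fun x => rfl⟩
  have hle1 : ∀ g, g ≠ 1 → c g ≤ 1 := fun g hg => by
    have hne : c g ≠ n := fun he => hg (FaithfulSMul.eq_of_smul_eq_smul fun x : Ω => by
      rw [one_smul]
      have hbij : Function.Bijective (Subtype.val : MulAction.fixedBy Ω g → Ω) :=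
        (Fintype.bijective_iff_injective_and_card _).mpr ⟨Subtype.val_injective, by rw [← hc, he, hnd]⟩
      obtain ⟨y, rfl⟩ := hbij.2 x
      exact y.2)
    have := hcn g
    rcases Nat.eq_zero_or_pos (c g) with h0 | h0
    · omega
    by_contra hlt
    obtain ⟨k, hk⟩ : ∃ k, n = c g + k := ⟨n - c g, by omega⟩
    have e := heq g
    rw [if_neg (by omega), hk] at e
    nlinarith [Nat.mul_le_mul_left k (show 2 ≤ c g by omega), show 1 ≤ k by omega]
  have hsplit : ∀ g, c g + (if c g = 0 then 1 else 0) = 1 + (if g = 1 then n - 1 else 0) := fun g => by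
    by_cases hg : g = 1
    · rw [hg, hone, if_neg (by omega), if_pos rfl]; omega
    · rw [if_neg hg]
      have := hle1 g hg
      split_ifs with h0 <;> omega
  have hcount := Finset.sum_congr (s₁ := (Finset.univ : Finset G)) rfl (fun g _ => hsplit g)
  rw [Finset.sum_add_distrib, Finset.sum_add_distrib, h1, Finset.sum_ite_eq', Finset.sum_const,
    smul_eq_mul, mul_one, Finset.card_univ, Finset.sum_boole] at hcount
  simp only [Finset.mem_univ, if_true, Nat.cast_id, ← hDd] at hcount
  have hDn : D = n - 1 := by omega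
  rw [hDn] at hEq
  refine ⟨⟨htr, ?_, fun g hg => by rw [Nat.card_eq_fintype_card, ← hc]; exact hle1 g hg⟩, hEq.symm, by rw [hDn, hEq]⟩
  by_contra! hall
  have hdiv := hcount
  have : (Finset.univ.filter fun g : G => c g = 0) = Finset.univ.erase 1 := by
    ext g
    simp only [Finset.mem_filter, Finset.mem_univ, true_and, Finset.mem_erase, and_true]
    exact ⟨fun h0 h => by rw [h, hone] at h0; omega, fun h => (hzero g).mpr (hall g h)⟩
  rw [this, Finset.card_erase_of_mem (Finset.mem_univ _), Finset.card_univ, hDn] at hDd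
  have h9 : 2 * (n - 1) ≤ n * (n - 1) - 1 + 0 := by
    obtain ⟨k, rfl⟩ : ∃ k, n = k + 3 := ⟨n - 3, by omega⟩
    have : 2 * (k + 3 - 1) + 1 ≤ (k + 3) * (k + 3 - 1) := by
      rw [show k + 3 - 1 = k + 2 by omega]; nlinarith
    omega
  omega

end Cfsg.Agent.S5729
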