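import Cfsg.Statements.S5730
import Cfsg.Agent.Lib.DerangeTwoMain

set_option autoImplicit false
open Cfsg

namespace Cfsg.Agent.S5730

open CfsgLib.DerangeTwo in
attribute [local instance] _root_.Classical.propDecidable

/-- Let a finite group G act faithfully and transitively on a set with n ≥ 7 points. Then either G is a Frobenius permutation group (Frobenius as a permutation group: transitive, some non-identity element fixes a point, and no non-identity element fixes two points) of order n(n − 1)/a with a ∈ {1, 2}, in which case exactly a|G|/n of its elements are derangements, or the number of derangements is at least 2|G|/n. (Equality does occur: PSL₃(2) acting on the 7 points of the Fano plane has exactly 2|G|/7 derangements.) -/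
theorem result {G Ω : Type*} [Group G] [Finite G] [MulAction G Ω] [FaithfulSMul G Ω] [Fintype Ω] (htr : MulAction.IsPretransitive G Ω) (hn : 7 ≤ Fintype.card Ω) :
    (∃ a : ℕ, (a = 1 ∨ a = 2) ∧ (MulAction.IsPretransitive G Ω ∧ (∃ g : G, g ≠ 1 ∧ ∃ ω : Ω, g • ω = ω) ∧ ∀ g : G, g ≠ 1 → Nat.card (MulAction.fixedBy Ω g) ≤ 1) ∧ a * Nat.card G = Fintype.card Ω * (Fintype.card Ω - 1) ∧ Fintype.card Ω * Nat.card {g : G // ∀ ω : Ω, g • ω ≠ ω} = a * Nat.card G) ∨
    2 * Nat.card G ≤ Fintype.card Ω * Nat.card {g : G // ∀ ω : Ω, g • ω ≠ ω} := by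
  haveI := Fintype.ofFinite G
  haveI := htr
  obtain ⟨a, b, hab⟩ := Fintype.one_lt_card_iff.1 (show 1 < Fintype.card Ω by omega)
  obtain ⟨r, hr, hrdef⟩ := CfsgLib.DerangeTwo.sum_nf_sq (G := G) a
  have hform := CfsgLib.DerangeTwo.derangement_formula a r hr
  have hd : Nat.card {g : G // ∀ ω : Ω, g • ω ≠ ω} =
      (Finset.univ.filter fun g : G => CfsgLib.DerangeTwo.nf Ω g = 0).card := by
    rw [Nat.card_eq_fintype_card, Fintype.card_subtype]
    congr 1
    ext g
    simp [CfsgLib.DerangeTwo.nf, CfsgLib.DerangeTwo.fix, Finset.filter_eq_empty_iff]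
  set d := (Finset.univ.filter fun g : G => CfsgLib.DerangeTwo.nf Ω g = 0).card
  have hwt : ∀ g : G, 0 ≤ (CfsgLib.DerangeTwo.nf Ω g : ℚ) * ((CfsgLib.DerangeTwo.nf Ω g : ℚ) - 1) *
      CfsgLib.DerangeTwo.wt Ω g := by
    intro g
    rcases Nat.eq_zero_or_pos (CfsgLib.DerangeTwo.nf Ω g) with h | h
    · simp [h]
    · have h1 : (1 : ℚ) ≤ (CfsgLib.DerangeTwo.nf Ω g : ℚ) := by exact_mod_cast h
      have h2 : (0 : ℚ) ≤ CfsgLib.DerangeTwo.wt Ω g :=
        div_nonneg (sub_nonneg.2 (Nat.cast_le.2 (CfsgLib.DerangeTwo.nf_le g))) (Nat.cast_nonneg _)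
      have h3 : (0 : ℚ) ≤ (CfsgLib.DerangeTwo.nf Ω g : ℚ) - 1 := by linarith
      positivity
  have hr2 : 2 ≤ r := by
    rw [hrdef]
    haveI : Fintype (Quotient (MulAction.orbitRel (MulAction.stabilizer G a) Ω)) := Fintype.ofFinite _
    rw [Nat.card_eq_fintype_card]
    refine Fintype.one_lt_card_iff.2 ⟨Quotient.mk _ a, Quotient.mk _ b, fun e => ?_⟩
    obtain ⟨g, hg⟩ := Quotient.exact e
    have hg' : (g : G) • b = a := hg
    exact hab (smul_left_cancel (g : G) (g.2.trans hg'.symm))
  rw [Nat.card_eq_fintype_card (α := G), hd]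
  by_cases h3 : 3 ≤ r
  · refine Or.inr ?_
    have hS := Finset.sum_nonneg (s := (Finset.univ : Finset G)) fun g _ => hwt g
    have h3' : (3 : ℚ) ≤ r := by exact_mod_cast h3
    have hG0 : (0 : ℚ) ≤ (Fintype.card G : ℚ) := Nat.cast_nonneg _
    have : ((2 * Fintype.card G : ℕ) : ℚ) ≤ ((Fintype.card Ω * d : ℕ) : ℚ) := by
      push_cast
      rw [hform]
      nlinarith
    exact_mod_cast this
  have hr' : r = 2 := by omega
  have h2t : ∀ {x y u v : Ω}, x ≠ y → u ≠ v → ∃ g : G, g • x = u ∧ g • y = v :=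
    fun hxy huv => CfsgLib.DerangeTwo.two_trans_of_rank a (by rw [← hrdef]; omega) hxy huv
  have hG : Fintype.card G =
      Fintype.card Ω * (Fintype.card Ω - 1) * (CfsgLib.DerangeTwo.st2 G a b).card := by
    have h1 := CfsgLib.DerangeTwo.sum_pairs h2t (fun _ => (1 : ℚ)) (fun _ _ => rfl) hab
    simp only [mul_one, Finset.sum_const, nsmul_eq_mul, mul_sub, Finset.sum_sub_distrib] at h1
    rw [hr, CfsgLib.DerangeTwo.sum_nf a, hr'] at h1
    have h2 : ((Fintype.card G : ℕ) : ℚ) = ((Fintype.card Ω * (Fintype.card Ω - 1) *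
        (CfsgLib.DerangeTwo.st2 G a b).card : ℕ) : ℚ) := by
      rw [Nat.cast_mul, Nat.cast_mul, Nat.cast_sub (by omega)]
      push_cast at h1 ⊢
      linarith
    exact_mod_cast h2
  have hsum := CfsgLib.DerangeTwo.sum_pairs h2t (CfsgLib.DerangeTwo.wt Ω)
    (fun x g => by simp [CfsgLib.DerangeTwo.wt, CfsgLib.DerangeTwo.nf_conj]) hab
  rw [hsum, hr'] at hform
  rcases Nat.lt_or_ge 1 (CfsgLib.DerangeTwo.st2 G a b).card with hh | hh
  · refine Or.inr ?_
    have hT := CfsgLib.DerangeTwo.derange_main h2t hn hab hh hG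
    have hn1 : (0 : ℚ) ≤ (Fintype.card Ω : ℚ) * ((Fintype.card Ω : ℚ) - 1) := by
      have : (1 : ℚ) ≤ (Fintype.card Ω : ℚ) := by exact_mod_cast (show 1 ≤ Fintype.card Ω by omega)
      nlinarith
    have hG' : (Fintype.card G : ℚ) = (Fintype.card Ω : ℚ) * ((Fintype.card Ω : ℚ) - 1) *
        ((CfsgLib.DerangeTwo.st2 G a b).card : ℚ) := by
      rw [hG, Nat.cast_mul, Nat.cast_mul, Nat.cast_sub (by omega)]
      push_cast; ring
    have : ((2 * Fintype.card G : ℕ) : ℚ) ≤ ((Fintype.card Ω * d : ℕ) : ℚ) := by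
      push_cast
      rw [hform]
      push_cast
      nlinarith [mul_le_mul_of_nonneg_left hT hn1]
    exact_mod_cast this
  · -- sharply two-transitive
    have h1mem : (1 : G) ∈ CfsgLib.DerangeTwo.st2 G a b :=
      CfsgLib.DerangeTwo.mem_st2.2 ⟨one_smul _ _, one_smul _ _⟩
    have hst : CfsgLib.DerangeTwo.st2 G a b = {1} :=
      (Finset.eq_of_subset_of_card_le (Finset.singleton_subset_iff.2 h1mem) (by simpa using hh)).symm
    rw [hst, Finset.card_singleton, mul_one] at hG
    refine Or.inl ⟨1, Or.inl rfl, ⟨htr, ?_, fun g hg => ?_⟩, by rw [one_mul, hG], ?_⟩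
    · have h1 : 1 < Nat.card (MulAction.stabilizer G a) := by
        have h := (MulAction.stabilizer G a).card_mul_index
        rw [MulAction.index_stabilizer_of_transitive, Nat.card_eq_fintype_card (α := Ω),
          Nat.card_eq_fintype_card (α := G), hG] at h
        by_contra h1
        have h0 : 0 < Nat.card (MulAction.stabilizer G a) := Nat.card_pos
        have e : Nat.card (MulAction.stabilizer G a) = 1 := by omega
        rw [e, one_mul] at h
        have := (Nat.mul_left_cancel (show 0 < Fintype.card Ω by omega)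
          (show Fintype.card Ω * 1 = Fintype.card Ω * (Fintype.card Ω - 1) by omega))
        omega
      haveI := Finite.one_lt_card_iff_nontrivial.1 h1
      obtain ⟨g, hg⟩ := exists_ne (1 : MulAction.stabilizer G a)
      exact ⟨g, fun e => hg (Subtype.ext e), a, g.2⟩
    · rw [Nat.card_eq_fintype_card, Fintype.card_subtype]
      refine Finset.card_le_one.2 fun x hx y hy => ?_
      simp only [Finset.mem_filter, Finset.mem_univ, true_and, MulAction.mem_fixedBy] at hx hy
      by_contra hxy
      have hc := CfsgLib.DerangeTwo.card_st2_eq h2t hxy hab (G := G)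
      rw [hst, Finset.card_singleton] at hc
      have hs : ({1, g} : Finset G) ⊆ CfsgLib.DerangeTwo.st2 G x y := by
        intro z hz
        simp only [Finset.mem_insert, Finset.mem_singleton] at hz
        rcases hz with rfl | rfl
        · exact CfsgLib.DerangeTwo.mem_st2.2 ⟨one_smul _ _, one_smul _ _⟩
        · exact CfsgLib.DerangeTwo.mem_st2.2 ⟨hx, hy⟩
      have := Finset.card_le_card hs
      rw [Finset.card_pair (Ne.symm hg)] at this
      omega
    · rw [hst, Finset.sum_singleton, CfsgLib.DerangeTwo.wt_one, mul_zero, add_zero] at hform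
      rw [one_mul]
      have : ((Fintype.card Ω * d : ℕ) : ℚ) = ((Fintype.card G : ℕ) : ℚ) := by
        push_cast at hform ⊢
        linarith
      exact_mod_cast this

end Cfsg.Agent.S5730
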