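import Cfsg.Statements.S5738
import Mathlib

set_option autoImplicit false
open Cfsg

namespace Cfsg.Agent.S5738

/-- Let F ⊆ K be finite fields with |F| = q and [K : F] = n ≥ 2, so |K| = q^n. Regard K as an n-dimensional F-vector space; the multiplications by non-zero elements of K form a cyclic subgroup of GL_F(K) of order q^n − 1 acting regularly on the non-zero vectors (a Singer group). Its normaliser in GL_F(K) has order n·(q^n − 1). -/
theorem result {F K : Type*} [Field F] [Fintype F] [Field K] [Fintype K] [Algebra F K] (n : ℕ) (hn : 2 ≤ n) (hdim : Module.finrank F K = n) :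
    Nat.card (Subgroup.normalizer (((Units.map ((Algebra.lmul F K : K →ₐ[F] Module.End F K) : K →* Module.End F K)).range : Subgroup (Module.End F K)ˣ) : Set (Module.End F K)ˣ)) = n * (Fintype.card K - 1) := by
  classical
  haveI : Finite K := inferInstance
  haveI : Module.Finite F K := Module.Finite.of_finite
  set L : Kˣ →* (Module.End F K)ˣ := Units.map ((Algebra.lmul F K : K →ₐ[F] Module.End F K) : K →* Module.End F K) with hL
  set N := Subgroup.normalizer (L.range : Set (Module.End F K)ˣ) with hN
  have hLv : ∀ (u : Kˣ) (x : K), (L u : Module.End F K) x = (u : K) * x := fun u x => rfl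
  let G : (K ≃ₐ[F] K) → (Module.End F K)ˣ := fun σ => LinearMap.GeneralLinearGroup.ofLinearEquiv σ.toLinearEquiv
  have hGv : ∀ (σ : K ≃ₐ[F] K) (x : K), (G σ : Module.End F K) x = σ x := fun σ x => rfl
  have hmem : ∀ (u : Kˣ) (σ : K ≃ₐ[F] K), L u * G σ ∈ N := by
    intro u σ
    refine N.mul_mem (Subgroup.le_normalizer ⟨u, rfl⟩) ?_
    rw [hN, Subgroup.mem_normalizer_iff]
    have hcomm : ∀ v : Kˣ, G σ * L v = L (Units.map (σ : K →* K) v) * G σ := fun v =>
      Units.ext (LinearMap.ext fun x => by
        show (G σ : Module.End F K) ((L v : Module.End F K) x) = (L _ : Module.End F K) ((G σ : Module.End F K) x)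
        rw [hLv, hGv, hLv, hGv, map_mul]; rfl)
    intro h
    constructor
    · rintro ⟨v, rfl⟩
      exact ⟨_, (mul_inv_eq_iff_eq_mul.mpr (hcomm v)).symm⟩
    · rintro ⟨v, hv⟩
      refine ⟨Units.map (σ.symm : K →* K) v, ?_⟩
      have h1 : L v * G σ = G σ * L (Units.map (σ.symm : K →* K) v) := by
        rw [hcomm]
        congr 2
        exact Units.ext (σ.apply_symm_apply _).symm
      rw [hv, inv_mul_cancel_right] at h1
      exact (mul_left_cancel h1).symm
  let f : Kˣ × (K ≃ₐ[F] K) → N := fun p => ⟨L p.1 * G p.2, hmem p.1 p.2⟩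
  have hfv : ∀ p x, ((f p : (Module.End F K)ˣ) : Module.End F K) x = (p.1 : K) * p.2 x := fun p x => rfl
  have hinj : Function.Injective f := by
    rintro ⟨u, σ⟩ ⟨v, τ⟩ h
    have h' : ∀ x, (u : K) * σ x = (v : K) * τ x := fun x => by
      rw [← hfv ⟨u, σ⟩, ← hfv ⟨v, τ⟩, h]
    have huv : (u : K) = v := by simpa using h' 1
    refine Prod.ext (Units.ext huv) (AlgEquiv.ext fun x => ?_)
    have := h' x
    rw [← huv] at this
    exact mul_left_cancel₀ u.ne_zero this
  have hsurj : Function.Surjective f := by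
    rintro ⟨g, hg⟩
    rw [hN, Subgroup.mem_normalizer_iff] at hg
    have hg1 : (g : Module.End F K) 1 ≠ 0 := fun h => by
      have hi : ((g⁻¹ : (Module.End F K)ˣ) : Module.End F K) ((g : Module.End F K) 1) = 1 := by
        rw [← Module.End.mul_apply, ← Units.val_mul, inv_mul_cancel]; rfl
      rw [h, map_zero] at hi
      exact zero_ne_one hi
    set u := Units.mk0 _ hg1 with hu
    let φ : K →ₗ[F] K := (((L u)⁻¹ * g : (Module.End F K)ˣ) : Module.End F K)
    have hφ : ∀ x, φ x = (u⁻¹ : Kˣ) * (g : Module.End F K) x := fun x => by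
      show (((L u)⁻¹ : (Module.End F K)ˣ) : Module.End F K) ((g : Module.End F K) x) = _
      rw [← map_inv, hLv]
    have hmul : ∀ x y, φ (x * y) = φ x * φ y := by
      intro x y
      by_cases hx : x = 0
      · simp [hx]
      obtain ⟨v, hv⟩ := (hg (L (Units.mk0 x hx))).mp ⟨_, rfl⟩
      have h1 : ∀ z, (v : K) * (g : Module.End F K) z = (g : Module.End F K) (x * z) := fun z => by
        have h := LinearMap.congr_fun (congrArg Units.val (mul_inv_eq_iff_eq_mul.mp hv.symm).symm) z
        exact h
      rw [hφ, hφ, hφ, ← h1 y, show (g : Module.End F K) x = (v : K) * (g : Module.End F K) 1 by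
        rw [h1 1, mul_one]]
      have : ((u⁻¹ : Kˣ) : K) * (g : Module.End F K) 1 = 1 := by
        rw [show (g : Module.End F K) 1 = (u : K) from rfl, Units.inv_mul]
      linear_combination (-((v : K) * ((u⁻¹ : Kˣ) : K) * (g : Module.End F K) y)) * this
    have hone : φ 1 = 1 := by
      rw [hφ, show (g : Module.End F K) 1 = (u : K) from rfl, Units.inv_mul]
    let σ : K →ₐ[F] K := AlgHom.ofLinearMap φ hone hmul
    let σe : K ≃ₐ[F] K := AlgEquiv.ofBijective σ (Finite.injective_iff_bijective.mp σ.toRingHom.injective)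
    refine ⟨(u, σe), Subtype.ext (Units.ext (LinearMap.ext fun x => ?_))⟩
    rw [hfv]
    show (u : K) * φ x = _
    rw [hφ, Units.mul_inv_cancel_left]
  rw [← Nat.card_eq_of_bijective f ⟨hinj, hsurj⟩, Nat.card_prod, Nat.card_units,
    IsGalois.card_aut_eq_finrank, hdim, Nat.card_eq_fintype_card, mul_comm]

end Cfsg.Agent.S5738
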