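import Cfsg.Statements.S5739


set_option autoImplicit false
open Cfsg

namespace Cfsg.Agent.S5739

/-- Let F ⊆ K be finite fields with |F| = q and [K : F] = n ≥ 2, and let M ≤ GL_F(K) be the Singer group of multiplications by non-zero elements of K. If g ∈ GL_F(K) does not normalise M, then the order of M ∩ gMg⁻¹ divides q^r − 1 for some proper divisor r of n. In particular, when n is prime, that order divides q − 1. -/
theorem result {F K : Type*} [Field F] [Fintype F] [Field K] [Fintype K] [Algebra F K] (n : ℕ) (hn : 2 ≤ n) (hdim : Module.finrank F K = n)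
    (g : (Module.End F K)ˣ) (hg : ((Units.map ((Algebra.lmul F K : K →ₐ[F] Module.End F K) : K →* Module.End F K)).range).map (MulAut.conj g).toMonoidHom ≠ (Units.map ((Algebra.lmul F K : K →ₐ[F] Module.End F K) : K →* Module.End F K)).range) :
    ∃ r : ℕ, 1 ≤ r ∧ r ∣ n ∧ r < n ∧ Nat.card ↥(((Units.map ((Algebra.lmul F K : K →ₐ[F] Module.End F K) : K →* Module.End F K)).range).map (MulAut.conj g).toMonoidHom ⊓ (Units.map ((Algebra.lmul F K : K →ₐ[F] Module.End F K) : K →* Module.End F K)).range) ∣ Fintype.card F ^ r - 1 := by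
  set ι : Kˣ →* (Module.End F K)ˣ := Units.map ((Algebra.lmul F K : K →ₐ[F] Module.End F K) : K →* Module.End F K) with hι
  set M := ι.range with hMdef
  set gg : Module.End F K := (g : Module.End F K) with hgg
  have hginj : Function.Injective gg := fun a b h => by
    have := congrArg (g⁻¹).1 h
    rwa [← Module.End.mul_apply, ← Module.End.mul_apply, Units.inv_mul, Module.End.one_apply, Module.End.one_apply] at this
  have hz : ∀ z, gg ((g⁻¹).1 z) = z := fun z => by rw [hgg, ← Module.End.mul_apply, Units.mul_inv, Module.End.one_apply]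
  let E : IntermediateField F K :=
    { carrier := {x | ∃ y : K, ∀ z, x * gg z = gg (y * z)}
      mul_mem' := by
        rintro a b ⟨y, hy⟩ ⟨y', hy'⟩
        exact ⟨y * y', fun z => by rw [mul_assoc, hy', hy, ← mul_assoc]⟩
      one_mem' := ⟨1, fun z => by rw [one_mul, one_mul]⟩
      add_mem' := by
        rintro a b ⟨y, hy⟩ ⟨y', hy'⟩
        exact ⟨y + y', fun z => by rw [add_mul, hy, hy', add_mul, map_add]⟩
      zero_mem' := ⟨0, fun z => by rw [zero_mul, zero_mul, map_zero]⟩
      algebraMap_mem' := fun c => ⟨algebraMap F K c, fun z => by rw [← Algebra.smul_def, ← Algebra.smul_def, map_smul]⟩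
      inv_mem' := by
        rintro x ⟨y, hy⟩
        rcases eq_or_ne x 0 with rfl | hx
        · exact ⟨0, fun z => by rw [inv_zero, zero_mul, zero_mul, map_zero]⟩
        have hy0 : y ≠ 0 := by
          rintro rfl
          have h := hy ((g⁻¹).1 1)
          rw [hz, mul_one, zero_mul, map_zero] at h
          exact hx h
        refine ⟨y⁻¹, fun z => ?_⟩
        have h := hy (y⁻¹ * z)
        rw [← mul_assoc, mul_inv_cancel₀ hy0, one_mul] at h
        rw [← h, ← mul_assoc, inv_mul_cancel₀ hx, one_mul] }
  have hmem : ∀ u : Kˣ, ι u ∈ M.map (MulAut.conj g).toMonoidHom ↔ (u : K) ∈ E := by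
    intro u
    constructor
    · rintro ⟨_, ⟨v, rfl⟩, hv⟩
      refine ⟨v, fun z => ?_⟩
      have h := congrArg (fun w : (Module.End F K)ˣ => w.1 (gg z)) hv
      simp only [MulEquiv.coe_toMonoidHom, MulAut.conj_apply, Units.val_mul, Module.End.mul_apply] at h
      rw [hgg, ← Module.End.mul_apply (g⁻¹).1, Units.inv_mul, Module.End.one_apply] at h
      simpa [hι] using h.symm
    · rintro ⟨y, hy⟩
      have hy0 : y ≠ 0 := by
        rintro rfl
        have h := hy ((g⁻¹).1 1)
        rw [hz, mul_one, zero_mul, map_zero] at h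
        exact u.ne_zero h
      refine ⟨ι (Units.mk0 y hy0), ⟨_, rfl⟩, ?_⟩
      rw [MulEquiv.coe_toMonoidHom, MulAut.conj_apply, mul_inv_eq_iff_eq_mul]
      refine Units.ext (LinearMap.ext fun z => ?_)
      simpa [hι] using (hy z).symm
  have hinj : Function.Injective ι := fun a b h => Units.ext (by
    have := congrArg (fun w : (Module.End F K)ˣ => w.1 1) h
    simpa [hι] using this)
  haveI : Finite (Module.End F K) := Finite.of_injective (fun f : Module.End F K => (f : K → K)) DFunLike.coe_injective
  have hne : E ≠ ⊤ := by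
    intro htop
    apply hg
    refine (Subgroup.eq_of_le_of_card_ge ?_ (le_of_eq (Nat.card_congr (M.equivMapOfInjective _ (MulAut.conj g).injective).toEquiv).symm)).symm
    rintro _ ⟨u, rfl⟩
    exact (hmem u).2 (htop ▸ IntermediateField.mem_top)
  refine ⟨Module.finrank F E, Module.finrank_pos, hdim ▸ ⟨Module.finrank E K, (Module.finrank_mul_finrank F E K).symm⟩, ?_, ?_⟩
  · rw [← hdim]
    refine lt_of_le_of_ne (E.toSubalgebra.toSubmodule.finrank_le) fun h => hne ?_
    exact IntermediateField.eq_of_le_of_finrank_eq le_top (by rw [h, IntermediateField.finrank_top'])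
  · let e : ↥(M.map (MulAut.conj g).toMonoidHom ⊓ M) ≃ Eˣ :=
      (Equiv.ofBijective (fun u : Eˣ => (⟨ι (Units.map (algebraMap E K).toMonoidHom u),
        (hmem _).2 (SetLike.coe_mem (u : E)), ⟨_, rfl⟩⟩ : ↥(M.map (MulAut.conj g).toMonoidHom ⊓ M)))
        ⟨fun a b h => Units.ext (Subtype.ext (congrArg Units.val (hinj (congrArg Subtype.val h)))),
          fun ⟨w, h1, ⟨u, hu⟩⟩ => by
            subst hu
            have hu' : (u : K) ∈ E := (hmem u).1 h1
            exact ⟨Units.mk0 ⟨u, hu'⟩ (fun h => u.ne_zero (congrArg Subtype.val h)), Subtype.ext (congrArg ι (Units.ext rfl))⟩⟩).symm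
    rw [Nat.card_congr e, Nat.card_units, Module.natCard_eq_pow_finrank (K := F) (V := E), Nat.card_eq_fintype_card]

end Cfsg.Agent.S5739
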