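import Cfsg.Statements.S5747


set_option autoImplicit false
open Cfsg

namespace Cfsg.Agent.S5747

variable {G Ω : Type*} [Group G] [MulAction G Ω]

/-- A base. -/
def IsB (G : Type*) [Group G] [MulAction G Ω] {t : ℕ} (f : Fin t → Ω) : Prop :=
  ∀ g : G, (∀ i : Fin t, g • f i = f i) → g = 1

/-- Every point is moved by the stabiliser of the previous ones. -/
def IsIrr (G : Type*) [Group G] [MulAction G Ω] {t : ℕ} (f : Fin t → Ω) : Prop :=
  ∀ i : Fin t, ∃ g : G, (∀ j : Fin t, j < i → g • f j = f j) ∧ g • f i ≠ f i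

theorem base_comp {t : ℕ} {f : Fin t → Ω} (σ : Equiv.Perm (Fin t)) (h : IsB G f) : IsB G (f ∘ σ) :=
  fun g hg => h g fun i => by
    have := hg (σ.symm i)
    simpa using this

theorem irr_injective {t : ℕ} {f : Fin t → Ω} (h : IsIrr G f) : Function.Injective f := by
  intro a b hab
  by_contra hne
  rcases lt_or_gt_of_ne hne with hlt | hlt
  · obtain ⟨g, h1, h2⟩ := h b
    exact h2 (hab ▸ h1 a hlt)
  · obtain ⟨g, h1, h2⟩ := h a
    exact h2 (hab.symm ▸ h1 b hlt)

theorem exists_smaller : ∀ (n : ℕ) (f : Fin n → Ω), IsB G f →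
    ∃ (m : ℕ) (g : Fin m → Ω), m ≤ n ∧ IsB G g ∧ IsIrr G g
  | 0, f, h => ⟨0, f, le_rfl, h, fun i => i.elim0⟩
  | n + 1, f, h => by
    classical
    by_cases hi : IsIrr G f
    · exact ⟨n + 1, f, le_rfl, h, hi⟩
    simp only [IsIrr, not_forall, not_exists, not_and, not_not] at hi
    obtain ⟨i, hi⟩ := hi
    obtain ⟨m, g, hm, hg⟩ := exists_smaller n (f ∘ i.succAbove) fun x hx => h x fun j => by
      have hj : ∀ j, j ≠ i → x • f j = f j := fun j hji => by
        obtain ⟨k, rfl⟩ := Fin.exists_succAbove_eq hji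
        exact hx k
      rcases eq_or_ne j i with rfl | hji
      · exact hi x fun k hk => hj k (ne_of_lt hk)
      · exact hj j hji
    exact ⟨m, g, hm.trans n.le_succ, hg⟩

/-- Exchange. -/
theorem exchange (hperm : ∀ (t : ℕ) (f : Fin t → Ω) (σ : Equiv.Perm (Fin t)), IsB G f → IsIrr G f → IsIrr G (f ∘ σ))
    {n : ℕ} {f : Fin (n + 1) → Ω} (hb : IsB G f) (hi : IsIrr G f) {c : Ω} {h : G}
    (hfix : ∀ j : Fin n, h • f j.castSucc = f j.castSucc) (hc : h • c ≠ c) :
    IsB G (Fin.snoc (f ∘ Fin.castSucc) c : Fin (n + 1) → Ω) ∧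
      IsIrr G (Fin.snoc (f ∘ Fin.castSucc) c : Fin (n + 1) → Ω) := by
  set e : Fin (n + 1) → Ω := Fin.snoc (f ∘ Fin.castSucc) c with he
  have ee : ∀ j : Fin n, e j.castSucc = f j.castSucc := fun j => by simp [he]
  have el : e (Fin.last n) = c := by simp [he]
  have hie : IsIrr G e := by
    intro i
    induction i using Fin.lastCases with
    | last =>
      refine ⟨h, fun j hj => ?_, by rw [el]; exact hc⟩
      obtain ⟨k, rfl⟩ := Fin.exists_castSucc_eq.2 (ne_of_lt hj)
      rw [ee]; exact hfix k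
    | cast i =>
      obtain ⟨g, h1, h2⟩ := hi i.castSucc
      refine ⟨g, fun j hj => ?_, by rw [ee]; exact h2⟩
      obtain ⟨k, rfl⟩ := Fin.exists_castSucc_eq.2 (ne_of_lt (hj.trans (Fin.castSucc_lt_last i)))
      rw [ee]; exact h1 _ hj
  refine ⟨?_, hie⟩
  by_contra hne
  simp only [IsB, not_forall] at hne
  obtain ⟨x, hx, hx1⟩ := hne
  set b := f (Fin.last n) with hbdef
  set d : Fin (n + 2) → Ω := Fin.snoc e b with hd
  have dd : ∀ j : Fin (n + 1), d j.castSucc = e j := fun j => by simp [hd]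
  have dl : d (Fin.last (n + 1)) = b := by simp [hd]
  have hbd : IsB G d := fun g hg => hb g fun j => by
    induction j using Fin.lastCases with
    | last => have := hg (Fin.last (n + 1)); rwa [dl] at this
    | cast j => have := hg j.castSucc.castSucc; rwa [dd, ee] at this
  have hid : IsIrr G d := by
    intro i
    induction i using Fin.lastCases with
    | last =>
      refine ⟨x, fun j hj => ?_, ?_⟩
      · obtain ⟨k, rfl⟩ := Fin.exists_castSucc_eq.2 (ne_of_lt hj)
        rw [dd]; exact hx k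
      · rw [dl]
        intro e'
        refine hx1 (hb x fun j => ?_)
        induction j using Fin.lastCases with
        | last => exact e'
        | cast j => rw [← ee]; exact hx _
    | cast i =>
      obtain ⟨g, h1, h2⟩ := hie i
      refine ⟨g, fun j hj => ?_, by rw [dd]; exact h2⟩
      obtain ⟨k, rfl⟩ := Fin.exists_castSucc_eq.2 (ne_of_lt (hj.trans (Fin.castSucc_lt_last i)))
      rw [dd]; exact h1 _ (Fin.castSucc_lt_castSucc_iff.1 hj)
  obtain ⟨g, h1, h2⟩ := hperm _ d (Equiv.swap (Fin.last n).castSucc (Fin.last (n + 1))) hbd hid (Fin.last (n + 1))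
  have hg1 : g = 1 := hb g fun j => by
    induction j using Fin.lastCases with
    | last =>
      have := h1 (Fin.last n).castSucc (Fin.castSucc_lt_last _)
      simpa [dl] using this
    | cast j =>
      have hne1 : j.castSucc.castSucc ≠ (Fin.last n).castSucc :=
        fun e' => (Fin.castSucc_lt_last j).ne (Fin.castSucc_injective _ e')
      have := h1 j.castSucc.castSucc (Fin.castSucc_lt_last _)
      rw [Function.comp_apply, Equiv.swap_apply_of_ne_of_ne hne1 (Fin.castSucc_lt_last _).ne, dd, ee] at this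
      exact this
  exact h2 (by rw [hg1, one_smul])

theorem le_of_exchange [Finite G] [Fintype Ω]
    (hperm : ∀ (t : ℕ) (f : Fin t → Ω) (σ : Equiv.Perm (Fin t)), IsB G f → IsIrr G f → IsIrr G (f ∘ σ))
    {t' : ℕ} {f' : Fin t' → Ω} (hb' : IsB G f') :
    ∀ (k t : ℕ) (f : Fin t → Ω), IsB G f → IsIrr G f →
      Set.ncard {i : Fin t | f i ∉ Set.range f'} = k → t ≤ t' := by
  intro k
  induction k using Nat.strong_induction_on with
  | _ k ih => ?_
  intro t f hb hi hk
  by_cases hall : ∀ i, f i ∈ Set.range f'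
  · choose φ hφ using hall
    have hinj : Function.Injective φ := fun a b h => irr_injective hi (by rw [← hφ a, ← hφ b, h])
    simpa using Fintype.card_le_of_injective φ hinj
  push Not at hall
  obtain ⟨i0, hi0⟩ := hall
  rcases t with _ | n
  · exact Nat.zero_le _
  set σ := Equiv.swap i0 (Fin.last n) with hσ
  obtain ⟨g, hg1, hg2⟩ := hperm _ f σ hb hi (Fin.last n)
  have hgne : g ≠ 1 := fun e => hg2 (by rw [e, one_smul])
  obtain ⟨j, hj⟩ : ∃ j, g • f' j ≠ f' j := by
    by_contra! h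
    exact hgne (hb' g h)
  obtain ⟨hb2, hi2⟩ := exchange hperm (base_comp σ hb) (hperm _ f σ hb hi) (c := f' j) (h := g)
    (fun l => hg1 _ (Fin.castSucc_lt_last l)) hj
  refine ih _ ?_ (n + 1) _ hb2 hi2 rfl
  rw [← hk]
  refine lt_of_lt_of_le (Nat.lt_succ_self _) ?_
  rw [Nat.succ_eq_add_one, ← Set.ncard_insert_of_notMem (a := Fin.last n) (by simp) (Set.toFinite _)]
  rw [← Set.ncard_image_of_injective _ σ.injective]
  refine Set.ncard_le_ncard ?_ (Set.toFinite _)
  rintro _ ⟨l, hl, rfl⟩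
  rcases hl with rfl | hl
  · show f (σ (Fin.last n)) ∉ Set.range f'
    simpa [σ] using hi0
  · induction l using Fin.lastCases with
    | last => simp at hl; exact absurd rfl (hl j)
    | cast l => simpa using hl

/-- Let a finite group G act on a finite set Ω. An irredundant base is a sequence of points ω₁, …, ω_t whose pointwise stabiliser is trivial and in which each ω_i is moved by some element fixing ω₁, …, ω_{i−1}. Then all irredundant bases have the same length if and only if every reordering of an irredundant base is again an irredundant base. -/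
theorem result {G Ω : Type*} [Group G] [Finite G] [MulAction G Ω] [Fintype Ω] :
    (∀ (t t' : ℕ) (f : Fin t → Ω) (f' : Fin t' → Ω), ((∀ g : G, (∀ i : Fin t, g • f i = f i) → g = 1) ∧ ∀ i : Fin t, ∃ g : G, (∀ j : Fin t, j < i → g • f j = f j) ∧ g • f i ≠ f i) → ((∀ g : G, (∀ i : Fin t', g • f' i = f' i) → g = 1) ∧ ∀ i : Fin t', ∃ g : G, (∀ j : Fin t', j < i → g • f' j = f' j) ∧ g • f' i ≠ f' i) → t = t') ↔
    (∀ (t : ℕ) (f : Fin t → Ω) (σ : Equiv.Perm (Fin t)), ((∀ g : G, (∀ i : Fin t, g • f i = f i) → g = 1) ∧ ∀ i : Fin t, ∃ g : G, (∀ j : Fin t, j < i → g • f j = f j) ∧ g • f i ≠ f i) → ((∀ g : G, (∀ i : Fin t, g • (f ∘ σ) i = (f ∘ σ) i) → g = 1) ∧ ∀ i : Fin t, ∃ g : G, (∀ j : Fin t, j < i → g • (f ∘ σ) j = (f ∘ σ) j) ∧ g • (f ∘ σ) i ≠ (f ∘ σ) i)) := by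
  constructor
  · intro hlen t f σ hf
    refine ⟨base_comp σ hf.1, ?_⟩
    by_contra hne
    obtain ⟨i, hi⟩ : ∃ i : Fin t, ∀ g : G, (∀ j, j < i → g • (f ∘ σ) j = (f ∘ σ) j) → g • (f ∘ σ) i = (f ∘ σ) i := by
      by_contra! h
      exact hne fun i => h i
    rcases t with _ | n
    · exact i.elim0
    obtain ⟨m, g, hm, hgb, hgi⟩ := exists_smaller n ((f ∘ σ) ∘ i.succAbove) fun x hx => base_comp σ hf.1 x fun j => by
      have hj : ∀ j, j ≠ i → x • (f ∘ σ) j = (f ∘ σ) j := fun j hji => by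
        obtain ⟨k, rfl⟩ := Fin.exists_succAbove_eq hji
        exact hx k
      rcases eq_or_ne j i with rfl | hji
      · exact hi x fun k hk => hj k (ne_of_lt hk)
      · exact hj j hji
    have := hlen _ _ f g hf ⟨hgb, hgi⟩
    omega
  · intro hperm t t' f f' hf hf'
    have hp : ∀ (t : ℕ) (f : Fin t → Ω) (σ : Equiv.Perm (Fin t)), IsB G f → IsIrr G f → IsIrr G (f ∘ σ) :=
      fun t f σ h1 h2 => (hperm t f σ ⟨h1, h2⟩).2
    exact le_antisymm (le_of_exchange hp hf'.1 _ t f hf.1 hf.2 rfl) (le_of_exchange hp hf.1 _ t' f' hf'.1 hf'.2 rfl)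

end Cfsg.Agent.S5747
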