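import Cfsg.Statements.S5748
import Cfsg.Agent.Lib.ClassicalCTGroup
import Cfsg.Agent.Lib.ClassicalCTGroupPSL

set_option autoImplicit false
open Cfsg

namespace Cfsg.Agent.S5748

attribute [local instance] _root_.Classical.propDecidable

open scoped MatrixGroups

theorem toPGL_bijective {F : Type} [Field F] [Fintype F] {f : ℕ} (hf : 1 ≤ f) (hF : Fintype.card F = 2 ^ f) :
    Function.Bijective (Matrix.ProjectiveSpecialLinearGroup.toPGL (n := Fin 2) (R := F)) := by
  refine ⟨Matrix.ProjectiveSpecialLinearGroup.toPGL_injective, fun x => ?_⟩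
  obtain ⟨g, rfl⟩ := QuotientGroup.mk_surjective x
  have hchar : ringChar F = 2 := by
    haveI := CfsgLib.CTGroup.charTwo hf hF
    exact (CharP.eq F (ringChar.charP F) inferInstance)
  obtain ⟨c, hc⟩ := FiniteField.isSquare_of_char_two hchar (Matrix.det (g : Matrix (Fin 2) (Fin 2) F))
  have hdet : Matrix.det (g : Matrix (Fin 2) (Fin 2) F) ≠ 0 := (Matrix.GeneralLinearGroup.det g).ne_zero
  have hc0 : c ≠ 0 := fun h => hdet (by rw [hc, h, mul_zero])
  let s : Matrix.SpecialLinearGroup (Fin 2) F :=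
    ⟨c⁻¹ • (g : Matrix (Fin 2) (Fin 2) F), by
      rw [Matrix.det_smul, hc, Fintype.card_fin]; field_simp⟩
  refine ⟨(s : Matrix.ProjectiveSpecialLinearGroup (Fin 2) F), ?_⟩
  rw [Matrix.ProjectiveSpecialLinearGroup.toPGL_mk]
  refine QuotientGroup.eq.2 (Subgroup.mem_center_iff.2 fun y => ?_)
  have key : ((Matrix.SpecialLinearGroup.toGL s)⁻¹ * g : GL (Fin 2) F) =
      Matrix.GeneralLinearGroup.scalar (Fin 2) (Units.mk0 c hc0) := by
    rw [inv_mul_eq_iff_eq_mul]
    apply Units.ext
    show (g : Matrix (Fin 2) (Fin 2) F) = (c⁻¹ • (g : Matrix (Fin 2) (Fin 2) F)) * Matrix.scalar (Fin 2) c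
    ext i j
    simp only [Matrix.scalar_apply, Matrix.mul_diagonal, Matrix.smul_apply, smul_eq_mul]
    field_simp
  rw [key]
  apply Units.ext
  ext i j
  simp [Matrix.GeneralLinearGroup.scalar, Matrix.mul_apply, Fin.sum_univ_two]
  fin_cases i <;> fin_cases j <;> simp [mul_comm]

theorem psl_ct {F : Type} [Field F] [Fintype F] {f : ℕ} (hf : 1 ≤ f) (hF : Fintype.card F = 2 ^ f) :
    CfsgLib.CTGroup.CT (Matrix.ProjectiveSpecialLinearGroup (Fin 2) F) := by
  haveI := CfsgLib.CTGroup.charTwo hf hF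
  intro a b c ha hb hc hab hbc
  obtain ⟨A, rfl⟩ := QuotientGroup.mk_surjective a
  obtain ⟨B, rfl⟩ := QuotientGroup.mk_surjective b
  obtain ⟨C, rfl⟩ := QuotientGroup.mk_surjective c
  have key := CfsgLib.CTGroup.center_sl_two (F := F)
  have lift : ∀ X Y : Matrix.SpecialLinearGroup (Fin 2) F,
      Commute (X : Matrix.ProjectiveSpecialLinearGroup (Fin 2) F) Y → X * Y = Y * X := by
    intro X Y h
    have h' := QuotientGroup.eq.1 (show ((X * Y : Matrix.SpecialLinearGroup (Fin 2) F) :
      Matrix.ProjectiveSpecialLinearGroup (Fin 2) F) = ((Y * X : _) : _) from h.eq)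
    rw [key, Subgroup.mem_bot, inv_mul_eq_one] at h'
    exact h'
  have hB : B ∉ Subgroup.center (Matrix.SpecialLinearGroup (Fin 2) F) := fun h =>
    hb ((QuotientGroup.eq_one_iff _).2 h)
  rw [key, Subgroup.mem_bot] at hB
  have h := CfsgLib.CTGroup.sl_two_trans hB (lift _ _ hab) (lift _ _ hbc)
  show (A : Matrix.ProjectiveSpecialLinearGroup (Fin 2) F) * C = C * A
  rw [← QuotientGroup.mk_mul, h]
  rfl

/-- A finite non-abelian simple group in which commuting is a transitive relation on the non-identity elements (equivalently, every non-identity element has abelian centraliser) is isomorphic to PSL₂ over a field with 2^f elements for some f ≥ 2; conversely these groups have that property. -/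
theorem result {G : Type*} [Group G] [Finite G] [IsSimpleGroup G] (hG : ¬ IsMulCommutative G) :
    (∀ a b c : G, a ≠ 1 → b ≠ 1 → c ≠ 1 → Commute a b → Commute b c → Commute a c) ↔
    ∃ (F : Type) (_ : Field F) (_ : Fintype F) (f : ℕ), 2 ≤ f ∧ Fintype.card F = 2 ^ f ∧ Nonempty (G ≃* Matrix.ProjectiveSpecialLinearGroup (Fin 2) F) := by
  constructor
  · intro hCT
    obtain ⟨t, ht⟩ := CfsgLib.CTGroup.even_card hG hCT
    obtain ⟨F, iF, iFt, f, hf, hF, ⟨e⟩⟩ :=
      (CfsgLib.CTGroup.Data.mk inferInstance hG hCT t ht).exists_iso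
    exact ⟨F, iF, iFt, f, hf, hF,
      ⟨e.trans (MulEquiv.ofBijective _ (toPGL_bijective (by omega) hF)).symm⟩⟩
  · rintro ⟨F, iF, iFt, f, hf, hF, ⟨e⟩⟩ a b c ha hb hc hab hbc
    have h := psl_ct (f := f) (by omega) hF (e a) (e b) (e c)
      (by simpa using ha) (by simpa using hb) (by simpa using hc) (hab.map e.toMonoidHom) (hbc.map e.toMonoidHom)
    have h' := h.map e.symm.toMonoidHom
    simpa using h'

end Cfsg.Agent.S5748
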