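import Cfsg.Statements.S5754
import Cfsg.Agent.Lib.ClassicalWitt

set_option autoImplicit false
open Cfsg

namespace Cfsg.Agent.S5754

/-- Let V be a finite-dimensional vector space over a finite field F carrying an anisotropic quadratic form Q (Q(v) = 0 only for v = 0). Then the group of all maps v ↦ φ(v) + c, with φ an isometry of Q and c ∈ V, acts on V as a binary permutation group: given n ≥ 2 and two n-tuples u, u' of vectors such that every pair of corresponding entries of u is carried to that of u' by such a map, one such map carries u to u'. -/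
theorem result {F V : Type*} [Field F] [Finite F] [AddCommGroup V] [Module F V] [Module.Finite F V]
    (Q : QuadraticForm F V) (hQ : Q.Anisotropic) (n : ℕ) (hn : 2 ≤ n) (u u' : Fin n → V)
    (h2 : ∀ i j : Fin n, i ≠ j → ∃ (φ : Q.IsometryEquiv Q) (c : V), φ (u i) + c = u' i ∧ φ (u j) + c = u' j) :
    ∃ (φ : Q.IsometryEquiv Q) (c : V), ∀ i, φ (u i) + c = u' i := by
  classical
  obtain ⟨i₀⟩ : Nonempty (Fin n) := ⟨⟨0, by omega⟩⟩
  set d : Fin n → V := fun i => u i - u i₀ with hd
  set d' : Fin n → V := fun i => u' i - u' i₀ with hd'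
  have hQij : ∀ i j, Q (d i - d j) = Q (d' i - d' j) := fun i j => by
    by_cases hij : i = j
    · simp [hij]
    obtain ⟨φ, c, h1, h2⟩ := h2 i j hij
    simp only [hd, hd', sub_sub_sub_cancel_right]
    rw [← h1, ← h2, add_sub_add_right_eq_sub, ← map_sub, φ.map_app]
  have hd0 : d i₀ = 0 := sub_self _
  have hd0' : d' i₀ = 0 := sub_self _
  have hQi : ∀ i, Q (d i) = Q (d' i) := fun i => by simpa [hd0, hd0'] using hQij i i₀
  have hpol : ∀ i j, QuadraticMap.polar Q (d i) (d j) = QuadraticMap.polar Q (d' i) (d' j) := fun i j => by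
    have key : ∀ x y : V, QuadraticMap.polar Q x y = Q x + Q y - Q (x - y) := fun x y => by
      have h := QuadraticMap.polar_neg_right Q x y
      simp only [QuadraticMap.polar, ← sub_eq_add_neg, QuadraticMap.map_neg] at h ⊢
      linear_combination h
    rw [key, key, hQi, hQi, hQij]
  set L := Fintype.linearCombination F d with hL
  set L' := Fintype.linearCombination F d' with hL'
  have hQL : ∀ c, Q (L c) = Q (L' c) := by
    intro c
    rw [hL, hL', Fintype.linearCombination_apply, Fintype.linearCombination_apply]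
    suffices h : ∀ s : Finset (Fin n), Q (∑ i ∈ s, c i • d i) = Q (∑ i ∈ s, c i • d' i) ∧
        ∀ j, QuadraticMap.polar Q (∑ i ∈ s, c i • d i) (d j) = QuadraticMap.polar Q (∑ i ∈ s, c i • d' i) (d' j) from
      (h Finset.univ).1
    intro s
    induction s using Finset.induction with
    | empty => simp
    | insert a s ha ih =>
      refine ⟨?_, fun j => ?_⟩
      · rw [Finset.sum_insert ha, Finset.sum_insert ha, QuadraticMap.map_add Q, QuadraticMap.map_add Q,
          QuadraticMap.map_smul, QuadraticMap.map_smul, QuadraticMap.polar_smul_left,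
          QuadraticMap.polar_smul_left, QuadraticMap.polar_comm _ (d a), QuadraticMap.polar_comm _ (d' a),
          ih.1, ih.2 a, hQi a]
      · rw [Finset.sum_insert ha, Finset.sum_insert ha, QuadraticMap.polar_add_left,
          QuadraticMap.polar_add_left, QuadraticMap.polar_smul_left, QuadraticMap.polar_smul_left,
          ih.2 j, hpol a j]
  suffices hphi : ∃ φ : Q.IsometryEquiv Q, ∀ i, φ (d i) = d' i by
    obtain ⟨φ, hφ⟩ := hphi
    refine ⟨φ, u' i₀ - φ (u i₀), fun i => ?_⟩
    have := hφ i
    simp only [hd, hd', map_sub] at this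
    rw [← sub_eq_zero] at this ⊢
    rw [← this]; abel
  by_cases hnd : (QuadraticMap.polarBilin Q).Nondegenerate
  · have hker : LinearMap.ker L ≤ LinearMap.ker L' := fun c hc => by
      rw [LinearMap.mem_ker] at hc ⊢
      exact hQ _ (by rw [← hQL, hc, QuadraticMap.map_zero])
    obtain ⟨ψ, hψ⟩ := LinearMap.exists_extend
      (((LinearMap.ker L).liftQ L' hker) ∘ₗ L.quotKerEquivRange.symm.toLinearMap)
    have hψL : ∀ c, ψ (L c) = L' c := fun c => by
      have := LinearMap.congr_fun hψ ⟨L c, LinearMap.mem_range_self L c⟩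
      simp only [LinearMap.comp_apply, Submodule.subtype_apply, LinearEquiv.coe_coe] at this
      rw [this, show (⟨L c, LinearMap.mem_range_self L c⟩ : LinearMap.range L) =
        L.quotKerEquivRange (Submodule.Quotient.mk c) from rfl, LinearEquiv.symm_apply_apply]
      rfl
    obtain ⟨g, hg, hgψ⟩ := CfsgLib.Classical.Witt.extend (fun v _ => Q v)
      (CfsgLib.Classical.Witt.step_quad Q hnd) (LinearMap.range L) ψ (by
        rintro _ ⟨c, rfl⟩ h
        exact hQ _ (by rw [hQL, ← hψL, h, QuadraticMap.map_zero]))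
      (by rintro _ ⟨c, rfl⟩ _ -; show Q (ψ (L c)) = Q (L c); rw [hψL, hQL])
    refine ⟨⟨g, fun v => hg v v⟩, fun i => ?_⟩
    show g (d i) = d' i
    have hdi : L (Pi.single i 1) = d i := by simp [hL]
    rw [← hdi, hgψ _ (LinearMap.mem_range_self L _), hψL]
    simp [hL']
  · obtain ⟨r, hr, hr0⟩ : ∃ r : V, (∀ v, QuadraticMap.polar Q r v = 0) ∧ r ≠ 0 := by
      by_contra! hcon
      exact hnd ⟨fun x hx => hcon x hx, fun x hx => hcon x fun v => (QuadraticMap.polar_comm _ x v).trans (hx v)⟩
    have hQr : Q r ≠ 0 := fun h => hr0 (hQ r h)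
    have h2' : (2 : F) = 0 := by
      have := hr r
      rw [QuadraticMap.polar_self, two_smul, ← two_mul] at this
      exact (mul_eq_zero.mp this).resolve_right hQr
    haveI : CharP F 2 := CharTwo.of_one_ne_zero_of_two_eq_zero one_ne_zero h2'
    haveI := Fintype.ofFinite F
    have hline : ∀ v : V, ∃ s : F, v = s • r := by
      intro v
      obtain ⟨s, hs⟩ := FiniteField.isSquare_of_char_two (ringChar.eq F 2) (Q v / Q r)
      refine ⟨s, sub_eq_zero.mp (hQ _ ?_)⟩
      rw [div_eq_iff hQr] at hs
      rw [sub_eq_add_neg, QuadraticMap.map_add Q, QuadraticMap.map_neg, QuadraticMap.map_smul,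
        QuadraticMap.polar_neg_right, QuadraticMap.polar_smul_right, QuadraticMap.polar_comm _ v r, hr]
      simp only [smul_eq_mul, mul_zero, neg_zero, add_zero]
      linear_combination hs + (s * s * Q r) * h2'
    refine ⟨QuadraticMap.IsometryEquiv.refl Q, fun i => ?_⟩
    show d i = d' i
    obtain ⟨s, hs⟩ := hline (d i)
    obtain ⟨t, ht⟩ := hline (d' i)
    have := hQi i
    rw [hs, ht, QuadraticMap.map_smul, QuadraticMap.map_smul, smul_eq_mul, smul_eq_mul] at this
    have hst := mul_right_cancel₀ hQr this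
    have : (s - t) * (s - t) = 0 := by linear_combination hst + (t * t - s * t) * h2'
    rw [hs, ht, sub_eq_zero.mp (mul_self_eq_zero.mp this)]

end Cfsg.Agent.S5754
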