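import Cfsg.Statements.S5763


set_option autoImplicit false
open Cfsg

namespace Cfsg.Agent.S5763

namespace CfsgS5763

def e1 : Fin 8 → Fin 8 := ![1,0,3,2,5,4,7,6]
def e2 : Fin 8 → Fin 8 := ![2,3,0,1,6,7,4,5]

lemma e1_inv : Function.Involutive e1 := by unfold Function.Involutive; decide
lemma e1_ne : ∀ i, e1 i ≠ i := by decide
lemma e2_ne : ∀ i, e2 i ≠ i ∧ e2 i ≠ e1 i := by decide
lemma e21 : ∀ i, e2 (e1 i) = e1 (e2 i) := by decide

def t1 : Equiv.Perm (Fin 8) := e1_inv.toPerm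

def Good (h : Equiv.Perm (Fin 8)) : Prop :=
  ∀ i, h (e1 i) = e1 (h i) ∧ (h (e2 i) = e2 (h i) ∨ h (e2 i) = e1 (e2 (h i)))

instance (h : Equiv.Perm (Fin 8)) : Decidable (Good h) := by unfold Good; infer_instance

def H0 : Subgroup (Equiv.Perm (Fin 8)) where
  carrier := {h | Good h}
  one_mem' := fun i => ⟨rfl, Or.inl rfl⟩
  mul_mem' := by
    intro a b ha hb i
    simp only [Equiv.Perm.mul_apply]
    refine ⟨by rw [(hb i).1, (ha _).1], ?_⟩
    rcases (hb i).2 with h | h <;> rw [h]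
    · exact (ha _).2
    · rw [(ha _).1]
      rcases (ha (b i)).2 with h' | h' <;> rw [h']
      · exact Or.inr rfl
      · exact Or.inl (e1_inv _)
  inv_mem' := by
    intro h hh i
    obtain ⟨j, rfl⟩ := h.surjective i
    refine ⟨?_, ?_⟩
    · rw [← (hh j).1]; simp
    · rcases (hh j).2 with h' | h'
      · left; rw [← h']; simp
      · right
        have h'' : e2 (h j) = h (e1 (e2 j)) := by rw [(hh _).1, h', e1_inv]
        rw [h'']; simp

lemma mem_H0 {h} : h ∈ H0 ↔ Good h := Iff.rfl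

/-- parameters of a lower-bound family -/
def fa : Fin 8 → Fin 8 → Fin 8 :=
  ![![0,1,2,3,4,5,6,7],![1,0,3,2,5,4,7,6],![2,3,0,1,6,7,4,5],![3,2,1,0,7,6,5,4],
    ![4,5,6,7,0,1,2,3],![5,4,7,6,1,0,3,2],![6,7,4,5,2,3,0,1],![7,6,5,4,3,2,1,0]]
lemma fa_inv : ∀ a, Function.Involutive (fa a) := by unfold Function.Involutive; decide
def fb : Fin 4 → Fin 8 → Fin 8 :=
  ![![0,1,2,3,4,5,6,7],![0,1,2,3,5,4,7,6],![0,1,2,3,6,7,4,5],![0,1,2,3,7,6,5,4]]
lemma fb_inv : ∀ a, Function.Involutive (fb a) := by unfold Function.Involutive; decide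
def fc : Fin 2 → Fin 8 → Fin 8 := ![![0,1,2,3,4,5,6,7],![0,1,3,2,4,5,6,7]]
lemma fc_inv : ∀ a, Function.Involutive (fc a) := by unfold Function.Involutive; decide
def fd : Fin 2 → Fin 8 → Fin 8 := ![![0,1,2,3,4,5,6,7],![0,1,2,3,4,5,7,6]]
lemma fd_inv : ∀ a, Function.Involutive (fd a) := by unfold Function.Involutive; decide

def G0 (p : Fin 8 × Fin 4 × Fin 2 × Fin 2) : Equiv.Perm (Fin 8) :=
  (fa_inv p.1).toPerm * (fb_inv p.2.1).toPerm * (fc_inv p.2.2.1).toPerm * (fd_inv p.2.2.2).toPerm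

lemma G0_mem (p) : G0 p ∈ H0 := by
  have ha : ∀ a, (fa_inv a).toPerm ∈ H0 := by
    intro a; rw [mem_H0]; unfold Good; simp only [Function.Involutive.coe_toPerm]; revert a; decide
  have hb : ∀ a, (fb_inv a).toPerm ∈ H0 := by
    intro a; rw [mem_H0]; unfold Good; simp only [Function.Involutive.coe_toPerm]; revert a; decide
  have hc : ∀ a, (fc_inv a).toPerm ∈ H0 := by
    intro a; rw [mem_H0]; unfold Good; simp only [Function.Involutive.coe_toPerm]; revert a; decide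
  have hd : ∀ a, (fd_inv a).toPerm ∈ H0 := by
    intro a; rw [mem_H0]; unfold Good; simp only [Function.Involutive.coe_toPerm]; revert a; decide
  exact H0.mul_mem (H0.mul_mem (H0.mul_mem (ha _) (hb _)) (hc _)) (hd _)

def dec (g : Fin 8 → Fin 8) : Fin 8 × Fin 8 × Fin 8 × Fin 8 := (g 0, g 2, g 4, g 6)

lemma dec_G0 (a : Fin 8) (b : Fin 4) (c d : Fin 2) :
    dec (G0 (a, b, c, d)) = dec (fun i => fa a (fb b (fc c (fd d i)))) := rfl

lemma G0_injective : Function.Injective G0 := by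
  have key : ∀ (a : Fin 8) (b : Fin 4) (c d : Fin 2),
      let t := dec (fun i => fa a (fb b (fc c (fd d i))))
      t.1 = a ∧ (fa a t.2.2.1).val = 4 + b.val ∧ (fa a t.2.1).val = 2 + c.val ∧
        (fb b (fa a t.2.2.2)).val = 6 + d.val := by decide +kernel
  rintro ⟨a, b, c, d⟩ ⟨a', b', c', d'⟩ h
  have h1 := dec_G0 a b c d
  rw [h, dec_G0] at h1
  obtain ⟨k1, k2, k3, k4⟩ := key a b c d
  obtain ⟨k1', k2', k3', k4'⟩ := key a' b' c' d'
  rw [h1] at k1' k2' k3' k4'
  obtain rfl : a = a' := k1.symm.trans k1'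
  obtain rfl : b = b' := Fin.ext (by omega)
  obtain rfl : c = c' := Fin.ext (by omega)
  obtain rfl : d = d' := Fin.ext (by omega)
  rfl

lemma card_H0 : Nat.card H0 = 128 := by
  apply le_antisymm
  · let f : H0 → {t : Fin 8 × Fin 8 × Fin 8 × Fin 8 //
        (t.2.1 = e2 t.1 ∨ t.2.1 = e1 (e2 t.1)) ∧ (t.2.2.2 = e2 t.2.2.1 ∨ t.2.2.2 = e1 (e2 t.2.2.1)) ∧
        t.2.2.1 ≠ t.1 ∧ t.2.2.1 ≠ e1 t.1 ∧ t.2.2.1 ≠ e2 t.1 ∧ t.2.2.1 ≠ e1 (e2 t.1)} :=
      fun h => ⟨dec h.1, (h.2 0).2, (h.2 4).2, by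
        have hh := h.2 0
        have i1 : h.1 1 = e1 (h.1 0) := hh.1
        have i3 : h.1 3 = e1 (h.1 2) := (h.2 2).1
        have n0 : h.1 4 ≠ h.1 0 := fun e => by simpa using h.1.injective e
        have n1 : h.1 4 ≠ h.1 1 := fun e => by simpa using h.1.injective e
        have n2 : h.1 4 ≠ h.1 2 := fun e => by simpa using h.1.injective e
        have n3 : h.1 4 ≠ h.1 3 := fun e => by simpa using h.1.injective e
        rw [i1] at n1; rw [i3] at n3
        change h.1 4 ≠ h.1 0 ∧ h.1 4 ≠ e1 (h.1 0) ∧ h.1 4 ≠ e2 (h.1 0) ∧ h.1 4 ≠ e1 (e2 (h.1 0))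
        refine ⟨n0, n1, ?_⟩
        rcases hh.2 with e | e <;> (replace e : h.1 2 = _ := e; rw [e] at n2 n3)
        · exact ⟨n2, n3⟩
        · rw [e1_inv] at n3; exact ⟨n3, n2⟩⟩
    have hf : Function.Injective f := by
      intro h k e
      have e' : dec h.1 = dec k.1 := congrArg Subtype.val e
      simp only [dec, Prod.mk.injEq] at e'
      obtain ⟨e0, e2', e4, e6⟩ := e'
      apply Subtype.ext; apply Equiv.ext
      intro i
      fin_cases i
      · exact e0
      · exact ((h.2 0).1).trans (((congrArg e1 e0)).trans ((k.2 0).1).symm)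
      · exact e2'
      · exact ((h.2 2).1).trans (((congrArg e1 e2')).trans ((k.2 2).1).symm)
      · exact e4
      · exact ((h.2 4).1).trans (((congrArg e1 e4)).trans ((k.2 4).1).symm)
      · exact e6
      · exact ((h.2 6).1).trans (((congrArg e1 e6)).trans ((k.2 6).1).symm)
    refine (Nat.card_le_card_of_injective f hf).trans ?_
    rw [Nat.card_eq_fintype_card, Fintype.card_subtype]
    decide +kernel
  · have h := Nat.card_le_card_of_injective (fun p => (⟨G0 p, G0_mem p⟩ : H0))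
      (fun p q e => G0_injective (congrArg Subtype.val e))
    simpa [Nat.card_eq_fintype_card] using h

set_option synthInstance.maxSize 8000 in
set_option synthInstance.maxHeartbeats 400000 in
lemma good_of_fpf (z : Equiv.Perm (Fin 8)) (hz : ∀ i, z (z i) = i) (hc : ∀ i, z (e1 i) = e1 (z i))
    (hn : ∀ i, z i ≠ i ∧ z i ≠ e1 i) : z ∈ H0 := by
  intro i
  refine ⟨hc i, ?_⟩
  have key : ∀ i j k : Fin 8, j ≠ i → j ≠ e1 i → k ≠ e2 i → k ≠ e1 (e2 i) → k ≠ j → k ≠ e1 j →
      (k = i → j = e2 i) → (k = e1 i → j = e1 (e2 i)) → (j = e2 i → k = i) → (j = e1 (e2 i) → k = e1 i) →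
      (k = e2 j ∨ k = e1 (e2 j)) := by decide +kernel
  have a1 : z (e2 i) = e1 i → z i = e1 (e2 i) := fun e => by
    have := congrArg z e; rw [hz, hc] at this; rw [this, e1_inv]
  have a2 : z i = e1 (e2 i) → z (e2 i) = e1 i := fun e => by
    have := congrArg z e; rw [hz, hc] at this; conv_rhs => rw [this, e1_inv]
  refine key i (z i) (z (e2 i)) (hn i).1 (hn i).2 (hn _).1 (hn _).2 ?_ ?_
    (fun e => by conv_lhs => rw [← e, hz]) a1 (fun e => by rw [← e, hz]) a2
  · intro e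
    exact (e2_ne i).1 (z.injective e)
  · intro e
    rw [← hc] at e
    exact (e2_ne i).2 (z.injective e)

/-- node predicate for the enumeration of fixed-point-free involutions -/
def ok (k v : Fin 8) : Prop := v ≠ k ∧ v ≠ e1 k

instance (k v : Fin 8) : Decidable (ok k v) := by unfold ok; infer_instance

set_option synthInstance.maxSize 8000 in
set_option synthInstance.maxHeartbeats 400000 in
set_option maxRecDepth 4000 in
lemma enum : ∀ a, ok 0 a → ∀ b, ok 1 b → b ≠ a → (b = 0 ↔ a = 1) →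
    ∀ c, ok 2 c → c ≠ a → c ≠ b → (c = 0 ↔ a = 2) → (c = 1 ↔ b = 2) →
    ∀ d, ok 3 d → d ≠ a → d ≠ b → d ≠ c → (d = 0 ↔ a = 3) → (d = 1 ↔ b = 3) → (d = 2 ↔ c = 3) →
    ∀ e, ok 4 e → e ≠ a → e ≠ b → e ≠ c → e ≠ d → (e = 0 ↔ a = 4) → (e = 1 ↔ b = 4) → (e = 2 ↔ c = 4) →
      (e = 3 ↔ d = 4) →
    ∀ f, ok 5 f → f ≠ a → f ≠ b → f ≠ c → f ≠ d → f ≠ e → (f = 0 ↔ a = 5) → (f = 1 ↔ b = 5) →
      (f = 2 ↔ c = 5) → (f = 3 ↔ d = 5) → (f = 4 ↔ e = 5) →
    ∀ g, ok 6 g → g ≠ a → g ≠ b → g ≠ c → g ≠ d → g ≠ e → g ≠ f → (g = 0 ↔ a = 6) → (g = 1 ↔ b = 6) →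
      (g = 2 ↔ c = 6) → (g = 3 ↔ d = 6) → (g = 4 ↔ e = 6) → (g = 5 ↔ f = 6) →
    ∀ h, ok 7 h → h ≠ a → h ≠ b → h ≠ c → h ≠ d → h ≠ e → h ≠ f → h ≠ g →
      (∀ i, ![a,b,c,d,e,f,g,h] (![a,b,c,d,e,f,g,h] i) = i) →
    let s := ![a,b,c,d,e,f,g,h]
    (∀ i, s (e1 i) = e1 (s i)) ∨
      ∀ i, let z := fun j => s (e1 (s (e1 j)))
        z (z i) = i ∧ z i ≠ i ∧ z i ≠ e1 i ∧ z i ≠ s i := by
  decide +kernel

lemma enum' (s : Fin 8 → Fin 8) (hs : Function.Involutive s) (hn : ∀ i, ok i (s i)) :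
    (∀ i, s (e1 i) = e1 (s i)) ∨
      ∀ i, let z := fun j => s (e1 (s (e1 j)))
        z (z i) = i ∧ z i ≠ i ∧ z i ≠ e1 i ∧ z i ≠ s i := by
  have he : ![s 0, s 1, s 2, s 3, s 4, s 5, s 6, s 7] = s := by funext i; fin_cases i <;> rfl
  have hne : ∀ i j : Fin 8, i ≠ j → s i ≠ s j := fun i j h e => h (hs.injective e)
  have hiff : ∀ i j : Fin 8, s i = j ↔ s j = i := fun i j =>
    ⟨fun e => by rw [← e, hs], fun e => by rw [← e, hs]⟩
  have key := enum (s 0) (hn 0) (s 1) (hn 1) (hne _ _ (by decide)) (hiff _ _)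
    (s 2) (hn 2) (hne _ _ (by decide)) (hne _ _ (by decide)) (hiff _ _) (hiff _ _)
    (s 3) (hn 3) (hne _ _ (by decide)) (hne _ _ (by decide)) (hne _ _ (by decide))
      (hiff _ _) (hiff _ _) (hiff _ _)
    (s 4) (hn 4) (hne _ _ (by decide)) (hne _ _ (by decide)) (hne _ _ (by decide)) (hne _ _ (by decide))
      (hiff _ _) (hiff _ _) (hiff _ _) (hiff _ _)
    (s 5) (hn 5) (hne _ _ (by decide)) (hne _ _ (by decide)) (hne _ _ (by decide)) (hne _ _ (by decide))
      (hne _ _ (by decide)) (hiff _ _) (hiff _ _) (hiff _ _) (hiff _ _) (hiff _ _)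
    (s 6) (hn 6) (hne _ _ (by decide)) (hne _ _ (by decide)) (hne _ _ (by decide)) (hne _ _ (by decide))
      (hne _ _ (by decide)) (hne _ _ (by decide))
      (hiff _ _) (hiff _ _) (hiff _ _) (hiff _ _) (hiff _ _) (hiff _ _)
    (s 7) (hn 7) (hne _ _ (by decide)) (hne _ _ (by decide)) (hne _ _ (by decide)) (hne _ _ (by decide))
      (hne _ _ (by decide)) (hne _ _ (by decide)) (hne _ _ (by decide))
      (by rw [he]; exact hs)
  simp only [he] at key
  exact key

lemma core (x : Equiv.Perm (Fin 8)) : ∃ w, w ≠ 1 ∧ w ∈ H0 ∧ x⁻¹ * w * x ∈ H0 := by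
  let s : Equiv.Perm (Fin 8) := x * t1 * x⁻¹
  have hsv : ∀ i, s i = x (e1 (x⁻¹ i)) := fun i => rfl
  have hs : Function.Involutive s := fun i => by simp [hsv, e1_inv _]
  have hsfix : ∀ i, s i ≠ i := fun i e => e1_ne (x⁻¹ i) (x.injective (by rw [← hsv, e]; simp))
  by_cases hshare : ∃ i, s i = e1 i
  · obtain ⟨i, hi⟩ := hshare
    have hsw : ∀ i, Equiv.swap i (e1 i) ∈ H0 := by
      intro i; rw [mem_H0]; revert i; decide +kernel
    refine ⟨Equiv.swap i (e1 i), fun e => e1_ne i (Equiv.swap_eq_one_iff.mp e).symm, hsw i, ?_⟩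
    have hc : x⁻¹ * Equiv.swap i (e1 i) * x = Equiv.swap (x⁻¹ i) (e1 (x⁻¹ i)) := by
      have h2 : x⁻¹ (e1 i) = e1 (x⁻¹ i) := by rw [← hi, hsv]; simp
      rw [← h2, Equiv.swap_apply_apply, inv_inv]
    rw [hc]; exact hsw _
  · push Not at hshare
    rcases enum' s hs (fun i => ⟨hsfix i, hshare i⟩) with hcom | hord
    · refine ⟨t1, fun e => e1_ne 0 (Equiv.ext_iff.mp e 0), ?_, ?_⟩
      · rw [mem_H0]; unfold Good; decide
      · have hv : ∀ i, (x⁻¹ * t1 * x) i = x⁻¹ (e1 (x i)) := fun i => rfl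
        refine good_of_fpf _ (fun i => by simp [hv, e1_inv _]) (fun i => ?_) (fun i => ⟨?_, ?_⟩)
        · simp only [hv]
          apply x.injective
          have h := hcom (x i)
          rw [hsv, hsv] at h
          simp only [Equiv.Perm.inv_def, Equiv.symm_apply_apply, Equiv.apply_symm_apply] at h ⊢
          exact h.symm
        · intro e; exact e1_ne (x i) (by have := congrArg x e; simpa [hv] using this)
        · intro e
          apply hshare (x i)
          rw [hsv]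
          have := congrArg x e
          simpa [hv] using this.symm
    · let w : Equiv.Perm (Fin 8) := s * t1 * s * t1
      have hwv : ∀ i, w i = s (e1 (s (e1 i))) := fun i => rfl
      have h4 : ∀ i, w (w i) = i := fun i => (hord i).1
      have hwt : ∀ i, w (e1 i) = e1 (w i) := by
        intro i
        apply w.injective
        rw [h4]
        simp only [hwv, e1_inv _, hs _]
      have hws : ∀ i, w (s i) = s (w i) := by
        intro i
        have h1 := h4 (s i)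
        apply w.injective
        rw [h1]
        simp only [hwv]
        simp only [hs _, e1_inv _]
      refine ⟨w, fun e => (hord 0).2.1 (Equiv.ext_iff.mp e 0), good_of_fpf w h4 hwt
        (fun i => ⟨(hord i).2.1, (hord i).2.2.1⟩), ?_⟩
      have hv : ∀ i, (x⁻¹ * w * x) i = x⁻¹ (w (x i)) := fun i => rfl
      refine good_of_fpf _ (fun i => by simp [hv, h4]) (fun i => ?_) (fun i => ⟨?_, ?_⟩)
      · have h := hws (x i)
        rw [hsv, hsv] at h
        rw [hv, hv]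
        simp only [Equiv.Perm.inv_def, Equiv.symm_apply_apply] at h ⊢
        rw [h, Equiv.symm_apply_apply]
      · intro e
        apply (hord (x i)).2.1
        show w (x i) = x i
        rw [hv] at e
        have := congrArg x e
        simpa only [Equiv.Perm.inv_def, Equiv.apply_symm_apply] using this
      · intro e
        apply (hord (x i)).2.2.2
        show w (x i) = s (x i)
        rw [hv] at e
        have := congrArg x e
        simp only [Equiv.Perm.inv_def, Equiv.apply_symm_apply] at this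
        rw [this, hsv]; simp

end CfsgS5763

/-- In the symmetric group on 8 letters any two Sylow 2-subgroups have non-trivial intersection: for a Sylow 2-subgroup H and every element x, H ∩ xHx⁻¹ ≠ 1. -/
theorem result (H : Sylow 2 (Equiv.Perm (Fin 8))) (x : Equiv.Perm (Fin 8)) :
    (H : Subgroup (Equiv.Perm (Fin 8))) ⊓ (H : Subgroup (Equiv.Perm (Fin 8))).map (MulAut.conj x).toMonoidHom ≠ ⊥ := by
  open CfsgS5763 in
  have : Fact (Nat.Prime 2) := ⟨Nat.prime_two⟩
  let P : Sylow 2 (Equiv.Perm (Fin 8)) := Sylow.ofCard CfsgS5763.H0 (by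
    rw [CfsgS5763.card_H0, Nat.card_perm, Nat.card_eq_fintype_card, Fintype.card_fin]
    have h : (Nat.factorization (Nat.factorial 8)) 2 = 7 := by
      rw [show Nat.factorial 8 = 2 ^ 7 * 315 by decide, Nat.factorization_mul (by norm_num) (by norm_num),
        Nat.Prime.factorization_pow Nat.prime_two]
      simp [Nat.factorization_eq_zero_of_not_dvd]
    rw [h]; rfl)
  obtain ⟨g, hg⟩ := MulAction.exists_smul_eq (Equiv.Perm (Fin 8)) P H
  obtain ⟨w, hw1, hw, hw'⟩ := CfsgS5763.core (g⁻¹ * x * g)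
  have hH : ∀ k, k ∈ (H : Subgroup (Equiv.Perm (Fin 8))) ↔ g⁻¹ * k * g ∈ CfsgS5763.H0 := by
    intro k
    rw [← hg, Sylow.coe_subgroup_smul, Subgroup.mem_pointwise_smul_iff_inv_smul_mem]
    show (MulAut.conj g)⁻¹ k ∈ (P : Subgroup _) ↔ _
    rw [MulAut.conj_inv_apply]
    rfl
  intro hbot
  have hk : g * w * g⁻¹ ∈ (H : Subgroup (Equiv.Perm (Fin 8))) ⊓
      (H : Subgroup (Equiv.Perm (Fin 8))).map (MulAut.conj x).toMonoidHom := by
    refine ⟨(hH _).mpr (by simpa [mul_assoc] using hw),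
      ⟨x⁻¹ * (g * w * g⁻¹) * x, (hH _).mpr ?_, ?_⟩⟩
    · convert hw' using 1; group
    · simp [MulAut.conj_apply, mul_assoc]
  rw [hbot, Subgroup.mem_bot, conj_eq_one_iff] at hk
  exact hw1 hk

end Cfsg.Agent.S5763
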