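import Cfsg.Statements.S5885
-- import your own Cfsg.Agent.* helpers here

set_option autoImplicit false
open Cfsg

namespace Cfsg.Agent.S5885

open scoped Pointwise

/-- Every three-cycle of the cosets of a maximal subgroup is induced, if only giants are primitive. -/
theorem exists_threeCycle {G : Type*} [Group G] [Finite G] (n : ℕ)
    (hA : ∀ P : Subgroup (Equiv.Perm (Fin n)), MulAction.IsPreprimitive P (Fin n) → alternatingGroup (Fin n) ≤ P)
    (M : Subgroup G) (hM : IsCoatom M) (hn : M.index = n) {x y z : G ⧸ M} (hxy : x ≠ y) (hxz : x ≠ z) (hyz : y ≠ z) :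
    ∃ g : G, g • x = y ∧ g • y = z ∧ g • z = x ∧ ∀ w, w ≠ x → w ≠ y → w ≠ z → g • w = w := by
  classical
  haveI : Fintype (G ⧸ M) := Fintype.ofFinite _
  haveI : Nontrivial (G ⧸ M) := ⟨x, y, hxy⟩
  haveI hprim : MulAction.IsPreprimitive G (G ⧸ M) :=
    (MulAction.isCoatom_stabilizer_iff_preprimitive G ((1 : G) : G ⧸ M)).1
      (by rw [MulAction.stabilizer_quotient]; exact hM)
  obtain ⟨e⟩ : Nonempty (G ⧸ M ≃ Fin n) :=
    ⟨(Fintype.equivFinOfCardEq (by rw [← Nat.card_eq_fintype_card]; exact hn))⟩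
  let φ : G →* Equiv.Perm (Fin n) := e.permCongrHom.toMonoidHom.comp (MulAction.toPermHom G (G ⧸ M))
  have hφ : ∀ (g : G) (w : G ⧸ M), φ g (e w) = e (g • w) := by
    intro g w
    simp [φ, Equiv.permCongr_apply]
  have hP : MulAction.IsPreprimitive φ.range (Fin n) := by
    let f : (G ⧸ M) →ₑ[φ.rangeRestrict] Fin n :=
      { toFun := e, map_smul' := fun g w => (hφ g w).symm }
    exact MulAction.IsPreprimitive.of_surjective (f := f) e.surjective
  have hσ : Equiv.swap (e x) (e y) * Equiv.swap (e y) (e z) ∈ φ.range :=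
    hA _ hP (Equiv.Perm.mem_alternatingGroup.2 (by
      simp [Equiv.Perm.sign_swap, hxy, hyz]))
  obtain ⟨g, hg⟩ := hσ
  have key : ∀ w, e (g • w) = (Equiv.swap (e x) (e y) * Equiv.swap (e y) (e z)) (e w) := by
    intro w; rw [← hφ, hg]
  refine ⟨g, e.injective ?_, e.injective ?_, e.injective ?_, fun w h1 h2 h3 => e.injective ?_⟩
  · rw [key, Equiv.Perm.mul_apply,
      Equiv.swap_apply_of_ne_of_ne (e.injective.ne hxy) (e.injective.ne hxz), Equiv.swap_apply_left]
  · rw [key, Equiv.Perm.mul_apply, Equiv.swap_apply_left,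
      Equiv.swap_apply_of_ne_of_ne (e.injective.ne hxz.symm) (e.injective.ne hyz.symm)]
  · rw [key, Equiv.Perm.mul_apply, Equiv.swap_apply_right, Equiv.swap_apply_right]
  · rw [key, Equiv.Perm.mul_apply,
      Equiv.swap_apply_of_ne_of_ne (e.injective.ne h2) (e.injective.ne h3),
      Equiv.swap_apply_of_ne_of_ne (e.injective.ne h1) (e.injective.ne h2)]

/-- Let n be an odd positive integer such that every primitive permutation group of degree n contains the alternating group (so the symmetric and alternating groups are the only primitive groups of degree n). Let G be a finite group, M a maximal subgroup of G of index n, and H a maximal subgroup of M. Then H is a second maximal subgroup of G: H is maximal in every maximal subgroup K of G containing H. -/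
theorem result {G : Type*} [Group G]
    [Finite G] (n : ℕ) (hodd : Odd n)
    (hA : ∀ P : Subgroup (Equiv.Perm (Fin n)), MulAction.IsPreprimitive P (Fin n) → alternatingGroup (Fin n) ≤ P)
    (M : Subgroup G) (hM : IsCoatom M) (hn : M.index = n) (H : Subgroup G) (hHM : H ≤ M)
    (hmax : IsCoatom (H.subgroupOf M)) (K : Subgroup G) (hK : IsCoatom K) (hHK : H ≤ K) :
    IsCoatom (H.subgroupOf K) := by
  classical
  haveI : Fintype (G ⧸ M) := Fintype.ofFinite _
  by_cases hKM : K = M
  · subst hKM; exact hmax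
  have hnot : ¬ M ≤ K := by
    intro h
    rcases eq_or_lt_of_le h with e | e
    · exact hKM e.symm
    · exact hK.1 (hM.2 K e)
  -- `K ⊓ M = H`
  have hsub : ∀ S : Subgroup G, H ≤ S → S ≤ M → S = H ∨ S = M := by
    intro S h1 h2
    by_cases hS : S = H
    · exact Or.inl hS
    · refine Or.inr (le_antisymm h2 ?_)
      have hlt : H.subgroupOf M < S.subgroupOf M := by
        refine lt_of_le_of_ne (fun m hm => h1 hm) (fun hh => hS ?_)
        exact le_antisymm (fun s hs => by
          have : (⟨s, h2 hs⟩ : M) ∈ S.subgroupOf M := hs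
          rw [← hh] at this; exact this) h1
      exact Subgroup.subgroupOf_eq_top.1 (hmax.2 _ hlt)
  have hKH : K ⊓ M = H := by
    rcases hsub (K ⊓ M) (le_inf hHK hHM) inf_le_right with h | h
    · exact h
    · exact absurd (h.symm.le.trans inf_le_left) hnot
  have hne : H.subgroupOf K ≠ ⊤ := by
    rw [Ne, Subgroup.subgroupOf_eq_top]
    intro h
    rcases eq_or_lt_of_le (h.trans hHM) with e | e
    · exact hKM e
    · exact hM.1 (hK.2 M e)
  refine ⟨hne, fun L hL => ?_⟩
  by_contra hLtop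
  set a : G ⧸ M := ((1 : G) : G ⧸ M) with ha
  have hst : ∀ g : G, g • a = a ↔ g ∈ M := by
    intro g
    rw [← MulAction.mem_stabilizer_iff, ha, MulAction.stabilizer_quotient]
  let L' : Subgroup G := L.map K.subtype
  have hL'K : L' ≤ K := Subgroup.map_subtype_le L
  have hHL' : H ≤ L' := fun h hh => ⟨⟨h, hHK hh⟩, hL.le hh, rfl⟩
  have hL'mem : ∀ k : K, (k : G) ∈ L' → k ∈ L := fun k hk =>
    (Subgroup.mem_map_iff_mem K.subtype_injective).1 hk
  obtain ⟨⟨l, hlK⟩, hlL, hlH⟩ := SetLike.exists_of_lt hL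
  have hl' : l ∈ L' := ⟨⟨l, hlK⟩, hlL, rfl⟩
  obtain ⟨k₀, hk₀K, hk₀L⟩ : ∃ k, k ∈ K ∧ k ∉ L' := by
    by_contra hc
    simp only [not_exists, not_and, not_not] at hc
    exact hLtop ((Subgroup.eq_top_iff' L).2 fun k => hL'mem k (hc k k.2))
  let B : Set (G ⧸ M) := MulAction.orbit L' a
  let T : Set (G ⧸ M) := MulAction.orbit K a
  have hBmem : ∀ l ∈ L', l • a ∈ B := fun l hl => ⟨⟨l, hl⟩, rfl⟩
  have hTmem : ∀ k ∈ K, k • a ∈ T := fun k hk => ⟨⟨k, hk⟩, rfl⟩
  have hBdest : ∀ w ∈ B, ∃ l ∈ L', l • a = w := by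
    rintro w ⟨⟨l, hl⟩, rfl⟩; exact ⟨l, hl, rfl⟩
  have hBT : B ⊆ T := by
    intro w hw; obtain ⟨l, hl, rfl⟩ := hBdest w hw; exact hTmem l (hL'K hl)
  have haB : a ∈ B := MulAction.mem_orbit_self a
  -- `B` is a block for `K`
  have hblock : ∀ k ∈ K, ∀ b ∈ B, k • b ∈ B → k ∈ L' := by
    intro k hk b hb hkb
    obtain ⟨l₁, hl₁, rfl⟩ := hBdest b hb
    obtain ⟨l₂, hl₂, h2⟩ := hBdest _ hkb
    have h3 : l₂⁻¹ * k * l₁ ∈ H := by
      rw [← hKH]
      refine ⟨mul_mem (mul_mem (K.inv_mem (hL'K hl₂)) hk) (hL'K hl₁), (hst _).1 ?_⟩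
      rw [mul_smul, mul_smul, ← h2, inv_smul_smul]
    have h4 := mul_mem (mul_mem hl₂ (hHL' h3)) (inv_mem hl₁)
    have h5 : l₂ * (l₂⁻¹ * k * l₁) * l₁⁻¹ = k := by group
    rwa [h5] at h4
  have hu : l • a ≠ a := fun h => hlH (show l ∈ H by rw [← hKH]; exact ⟨hlK, (hst l).1 h⟩)
  have hwB : k₀ • a ∉ B := fun h => hk₀L (hblock k₀ hk₀K a haB h)
  have hwa : k₀ • a ≠ a := fun h => hwB (by rw [h]; exact haB)
  have hwu : k₀ • a ≠ l • a := fun h => hwB (by rw [h]; exact hBmem l hl')
  -- orbit sizes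
  have hcard : ∀ S : Subgroup G, H ≤ S → S ≤ K →
      (MulAction.orbit S a).ncard * Nat.card H = Nat.card S := by
    intro S h1 h2
    have hs : MulAction.stabilizer S a = H.subgroupOf S := by
      ext g
      rw [MulAction.mem_stabilizer_iff, Subgroup.mem_subgroupOf]
      show (g : G) • a = a ↔ _
      rw [hst, ← hKH]
      exact ⟨fun h => ⟨h2 g.2, h⟩, fun h => h.2⟩
    rw [← Nat.card_congr (Subgroup.subgroupOfEquivOfLe h1).toEquiv, ← hs,
      ← MulAction.index_stabilizer, mul_comm, Subgroup.card_mul_index]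
  have hdvd : B.ncard ∣ T.ncard := by
    have h := Subgroup.card_dvd_of_le hL'K
    rw [← hcard L' hHL' hL'K, ← hcard K hHK le_rfl] at h
    exact (Nat.mul_dvd_mul_iff_right Nat.card_pos).1 h
  have hB2 : 2 ≤ B.ncard := by
    rw [← Set.ncard_pair hu.symm]
    exact Set.ncard_le_ncard (Set.insert_subset haB (Set.singleton_subset_iff.2 (hBmem l hl')))
  have hBlt : B.ncard < T.ncard :=
    Set.ncard_lt_ncard (Set.ssubset_iff_subset_ne.2 ⟨hBT, fun e => hwB (e ▸ hTmem k₀ hk₀K)⟩)
  obtain ⟨c, hc⟩ := hdvd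
  have hT4 : 4 ≤ T.ncard := by
    have : 2 ≤ c := by
      rcases c with _ | _ | c <;> simp_all
    nlinarith
  have h3 : ∀ (S : Set (G ⧸ M)) (p q r : G ⧸ M), 4 ≤ S.ncard → ∃ y ∈ S, y ≠ p ∧ y ≠ q ∧ y ≠ r := by
    intro S p q r hS
    by_contra hc
    have hss : S ⊆ {p, q, r} := fun y hy => by
      by_contra h
      simp only [Set.mem_insert_iff, Set.mem_singleton_iff, not_or] at h
      exact hc ⟨y, hy, h.1, h.2.1, h.2.2⟩
    have h1 := Set.ncard_le_ncard hss
    have h2 := Set.ncard_insert_le p ({q, r} : Set (G ⧸ M))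
    have h3 := Set.ncard_insert_le q ({r} : Set (G ⧸ M))
    simp only [Set.ncard_singleton] at h3
    omega
  obtain ⟨y, hyT, hya, hyu, hyw⟩ := h3 T a (l • a) (k₀ • a) hT4
  obtain ⟨g, hg1, hg2, hg3, hg4⟩ := exists_threeCycle n hA M hM hn hwu.symm hyu.symm hyw.symm
  have hgM : g ∈ M := (hst g).1 (hg4 a hu.symm hwa.symm hya.symm)
  have hgB : g ∉ MulAction.stabilizer G B := by
    intro h
    rw [MulAction.mem_stabilizer_set] at h
    exact hwB (hg1 ▸ (h (l • a)).2 (hBmem l hl'))
  by_cases hTu : T = Set.univ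
  · have hodd3 : 3 * B.ncard ≤ n := by
      have hTn : T.ncard = n := by rw [hTu, Set.ncard_univ]; exact hn
      rcases c with _ | _ | _ | c
      · omega
      · omega
      · exact absurd hodd (by rw [Nat.not_odd_iff_even, ← hTn, hc]; exact ⟨B.ncard, by ring⟩)
      · rw [← hTn, hc]; nlinarith
    let C : Set (G ⧸ M) := k₀ • B
    obtain ⟨z, hz⟩ : ∃ z, z ∉ B ∪ C := by
      by_contra hc
      simp only [not_exists, not_not] at hc
      have h1 : (B ∪ C).ncard = n := by
        rw [Set.eq_univ_of_forall hc, Set.ncard_univ]; exact hn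
      have h2 := Set.ncard_union_le B C
      have h3 : C.ncard = B.ncard := Set.ncard_smul_set k₀ B
      omega
    rw [Set.mem_union, not_or] at hz
    have hdisj : ∀ w ∈ C, w ∉ B := by
      rintro _ ⟨b, hb, rfl⟩ h
      exact hk₀L (hblock k₀ hk₀K b hb h)
    have hx : k₀ • a ∈ C := Set.smul_mem_smul_set haB
    have hy : k₀ • (l • a) ∈ C := Set.smul_mem_smul_set (hBmem l hl')
    have hxy : k₀ • a ≠ k₀ • (l • a) := fun h => hu (smul_left_cancel k₀ h).symm
    obtain ⟨f, hf1, hf2, -, hf4⟩ := exists_threeCycle n hA M hM hn (z := z) hxy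
      (fun h => hz.2 (h ▸ hx)) (fun h => hz.2 (h ▸ hy))
    have hfB : ∀ b ∈ B, f • b = b := fun b hb =>
      hf4 b (fun h => hdisj _ hx (h ▸ hb)) (fun h => hdisj _ hy (h ▸ hb)) (fun h => hz.1 (h ▸ hb))
    have hS : M ⊓ MulAction.stabilizer G B = H := by
      refine (hsub _ (le_inf hHM fun h hh => ?_) inf_le_left).resolve_right fun e => ?_
      · rw [MulAction.mem_stabilizer_set]
        intro b
        constructor
        · intro hb
          obtain ⟨l₁, hl₁, h1⟩ := hBdest _ hb
          have : b = (h⁻¹ * l₁) • a := by rw [mul_smul, h1, inv_smul_smul]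
          exact this ▸ hBmem _ (mul_mem (inv_mem (hHL' hh)) hl₁)
        · intro hb
          obtain ⟨l₁, hl₁, rfl⟩ := hBdest _ hb
          rw [← mul_smul]
          exact hBmem _ (mul_mem (hHL' hh) hl₁)
      · exact hgB ((e.ge hgM).2)
    have hfH : f ∈ H := by
      rw [← hS]
      refine ⟨(hst f).1 (hfB a haB), MulAction.mem_stabilizer_iff.2 ?_⟩
      ext b
      refine ⟨?_, fun hb => ⟨b, hb, hfB b hb⟩⟩
      rintro ⟨b', hb', rfl⟩
      show f • b' ∈ B
      rw [hfB b' hb']; exact hb'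
    have hconj : k₀⁻¹ * f * k₀ ∈ L' := by
      refine hblock _ (mul_mem (mul_mem (inv_mem hk₀K) (hHK hfH)) hk₀K) a haB ?_
      rw [mul_smul, mul_smul, hf1, inv_smul_smul]
      exact hBmem l hl'
    apply hz.2
    rw [← hf2]
    refine ⟨(k₀⁻¹ * f * k₀) • (l • a), ?_, ?_⟩
    · rw [← mul_smul (k₀⁻¹ * f * k₀) l a]; exact hBmem _ (mul_mem hconj hl')
    · show k₀ • (k₀⁻¹ * f * k₀) • l • a = f • k₀ • l • a
      simp only [smul_smul]; congr 1; group
  · -- intransitive: `K` is the stabiliser of `T`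
    have hKT : K = MulAction.stabilizer G T := by
      have hle : K ≤ MulAction.stabilizer G T := fun k hk =>
        MulAction.mem_stabilizer_iff.2 (MulAction.smul_orbit (⟨k, hk⟩ : K) a)
      rcases eq_or_lt_of_le hle with e | e
      · exact e
      · exfalso
        apply hTu
        have htop := hK.2 _ e
        refine Set.eq_univ_of_forall fun w => ?_
        obtain ⟨t, rfl⟩ := MulAction.exists_smul_eq G a w
        have ht : t ∈ MulAction.stabilizer G T := htop ▸ Subgroup.mem_top t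
        rw [MulAction.mem_stabilizer_set] at ht
        exact (ht a).2 (hBT haB)
    have hT' : ∀ w, w ∈ T → g • w ∈ T := by
      intro w hw
      by_cases h1 : w = l • a
      · rw [h1, hg1]; exact hTmem k₀ hk₀K
      by_cases h2 : w = k₀ • a
      · rw [h2, hg2]; exact hyT
      by_cases h3 : w = y
      · rw [h3, hg3]; exact hTmem l hlK
      rw [hg4 w h1 h2 h3]; exact hw
    have hgK : g ∈ K := by
      rw [hKT, MulAction.mem_stabilizer_iff]
      refine Set.eq_of_subset_of_ncard_le ?_ (by rw [Set.ncard_smul_set])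
      rintro _ ⟨w, hw, rfl⟩
      exact hT' w hw
    have hgH : g ∈ H := hKH ▸ (⟨hgK, hgM⟩ : g ∈ K ⊓ M)
    apply hwB
    rw [← hg1, ← mul_smul]
    exact hBmem _ (mul_mem (hHL' hgH) hl')

end Cfsg.Agent.S5885
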