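import Cfsg.Statements.S5887


set_option autoImplicit false
open Cfsg

namespace Cfsg.Agent.S5887

open Matrix

variable {F : Type*} [Field F] {n : ℕ}

theorem field_of {r : ℕ} {A : Subalgebra F (Matrix (Fin n) (Fin n) F)} (hn : 0 < n)
    (hA : Cfsg.Geo.IsFieldSubalgebra r A) : IsField A where
  exists_pair_ne := by
    haveI : Nonempty (Fin n) := ⟨⟨0, hn⟩⟩
    exact ⟨0, 1, fun h => zero_ne_one (α := Matrix (Fin n) (Fin n) F) (congrArg Subtype.val h)⟩
  mul_comm := fun a b => Subtype.ext (hA.comm a a.2 b b.2)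
  mul_inv_cancel := by
    intro a ha
    obtain ⟨y, hy, e⟩ := hA.inv a a.2 (fun h => ha (Subtype.ext h))
    exact ⟨⟨y, hy⟩, Subtype.ext e⟩

theorem det_one_add_of_sq_zero [Fintype F] (u : Matrix (Fin n) (Fin n) F) (hu : u * u = 0) :
    (1 + u).det = 1 := by
  obtain ⟨p, hchar⟩ := CharP.exists F
  obtain ⟨a, hp, -⟩ := FiniteField.card F p
  haveI := Fact.mk hp
  rcases Nat.eq_zero_or_pos n with rfl | hn
  · exact Matrix.det_isEmpty
  haveI : Nonempty (Fin n) := ⟨⟨0, hn⟩⟩
  have h1 : (1 + u) ^ p = 1 := by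
    have hu2 : u ^ 2 = 0 := by rw [pow_two]; exact hu
    have hup : u ^ p = 0 := by
      rw [← Nat.sub_add_cancel hp.two_le, pow_add, hu2, mul_zero]
    rw [add_pow_char_of_commute p (Commute.one_left u), one_pow, hup, add_zero]
  have h2 := congrArg Matrix.det h1
  rw [Matrix.det_pow, Matrix.det_one] at h2
  exact (frobenius_inj F p) (by rw [frobenius_def, frobenius_def, one_pow]; exact h2)

theorem exists_witness [Fintype F] {s : ℕ} {B : Subalgebra F (Matrix (Fin n) (Fin n) F)}
    (hB : Cfsg.Geo.IsFieldSubalgebra s B) {A : Type*} [Field A] [Algebra F A] [Module.Finite F A]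
    (ι : A →ₐ[F] Matrix (Fin n) (Fin n) F) (hl : 2 * Module.finrank F A < n)
    {k : Matrix (Fin n) (Fin n) F} (hkB : k ∈ B) (hkA : k ∉ ι.range) (hk : ∀ a : A, k * ι a = ι a * k) :
    ∃ g : GL (Fin n) F, g ∈ Cfsg.Geo.specialLinear (Fin n) F ∧ g ∈ Cfsg.Geo.subalgebraNormalizer ι.range ∧
      g ∉ Cfsg.Geo.subalgebraNormalizer B := by
  classical
  have hn : 0 < n := by omega
  haveI : Nonempty (Fin n) := ⟨⟨0, hn⟩⟩
  letI : Module A (Fin n → F) :=
    Module.compHom (Fin n → F) ((Matrix.toLinAlgEquiv' (R := F) (n := Fin n)).toAlgHom.toRingHom.comp ι.toRingHom)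
  have hsmul : ∀ (a : A) (x : Fin n → F), a • x = ι a *ᵥ x := fun a x => rfl
  obtain ⟨v, hv⟩ : ∃ v : Fin n → F, k *ᵥ v ∉ Submodule.span A {v} := by
    by_contra! hall
    let L : (Fin n → F) →ₗ[A] (Fin n → F) :=
      { toFun := fun x => k *ᵥ x
        map_add' := fun x y => Matrix.mulVec_add k x y
        map_smul' := fun a x => by
          rw [RingHom.id_apply, hsmul, hsmul, Matrix.mulVec_mulVec, Matrix.mulVec_mulVec, hk a] }
    obtain ⟨c, hc⟩ : ∃ c : A, ∀ x, L x = c • x := by
      by_cases h0 : ∀ x : Fin n → F, x = 0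
      · exact ⟨0, fun x => by rw [h0 (L x), h0 x, smul_zero]⟩
      push Not at h0
      obtain ⟨x₀, hx₀⟩ := h0
      obtain ⟨c, hc⟩ := Submodule.mem_span_singleton.1 (hall x₀)
      refine ⟨c, fun x => ?_⟩
      obtain ⟨d, hd⟩ := Submodule.mem_span_singleton.1 (hall x)
      by_cases hli : ∃ e : A, e • x₀ = x
      · obtain ⟨e, rfl⟩ := hli
        rw [map_smul, show L x₀ = c • x₀ from hc.symm, smul_comm]
      · obtain ⟨d', hd'⟩ := Submodule.mem_span_singleton.1 (hall (x₀ + x))
        have h1 : (d' - c) • x₀ + (d' - d) • x = 0 := by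
          have e1 : d' • (x₀ + x) = c • x₀ + d • x := by
            rw [hd', hc, hd]; exact Matrix.mulVec_add k x₀ x
          rw [sub_smul, sub_smul, show d' • x₀ - c • x₀ + (d' • x - d • x) = d' • (x₀ + x) - (c • x₀ + d • x) by rw [smul_add]; abel, e1, sub_self]
        have h2 : d' - d = 0 := by
          by_contra hne
          refine hli ⟨-((d' - d)⁻¹ * (d' - c)), ?_⟩
          rw [neg_smul, mul_smul, eq_neg_of_add_eq_zero_left h1, smul_neg, neg_neg, inv_smul_smul₀ hne]
        rw [h2, zero_smul, add_zero] at h1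
        rcases smul_eq_zero.1 h1 with h3 | h3
        · rw [show L x = d • x from hd.symm, show d = c by linear_combination h3 - h2]
        · exact absurd h3 hx₀
    refine hkA ⟨c, ?_⟩
    refine Matrix.ext_of_mulVec_single fun i => ?_
    have h3 := hc (Pi.single i 1)
    rw [hsmul] at h3
    exact h3.symm
  obtain ⟨Φ, hΦk, hΦ⟩ := Submodule.exists_dual_map_eq_bot_of_notMem hv inferInstance
  have hΦv : Φ v = 0 := by
    have hm := Submodule.mem_map_of_mem (f := Φ) (Submodule.mem_span_singleton_self v)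
    rw [hΦ] at hm
    exact hm
  let U : (Fin n → F) →ₗ[F] (Fin n → F) :=
    { toFun := fun x => Φ x • v
      map_add' := fun x y => by rw [map_add, add_smul]
      map_smul' := fun c x => by
        have e : c • x = (algebraMap F A c) • x := by
          rw [hsmul]
          simp [Algebra.algebraMap_eq_smul_one, Matrix.smul_mulVec]
        rw [e, map_smul, smul_eq_mul, mul_smul, RingHom.id_apply, hsmul (algebraMap F A c)]
        simp [Algebra.algebraMap_eq_smul_one, Matrix.smul_mulVec] }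
  set u := LinearMap.toMatrix' U with hu
  have huv : ∀ x, u *ᵥ x = Φ x • v := fun x => by rw [hu, ← Matrix.toLin'_apply, Matrix.toLin'_toMatrix']; rfl
  have hu2 : u * u = 0 := Matrix.ext_of_mulVec_single fun i => by
    rw [← Matrix.mulVec_mulVec, huv, huv, map_smul, hΦv, smul_zero, zero_smul, Matrix.zero_mulVec]
  have hua : ∀ x ∈ ι.range, u * x = x * u := by
    rintro _ ⟨a, rfl⟩
    refine Matrix.ext_of_mulVec_single fun i => ?_
    show (u * ι a) *ᵥ Pi.single i 1 = (ι a * u) *ᵥ Pi.single i 1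
    rw [← Matrix.mulVec_mulVec, ← Matrix.mulVec_mulVec, huv, huv, ← hsmul a, map_smul, smul_eq_mul, mul_smul]
    exact hsmul a _
  let g : GL (Fin n) F := ⟨1 + u, 1 - u, by rw [add_mul, mul_sub, mul_sub, hu2]; simp,
    by rw [sub_mul, mul_add, mul_add, hu2]; simp⟩
  refine ⟨g, Units.ext (det_one_add_of_sq_zero u hu2), fun x => ?_, fun hg => ?_⟩
  · have hc : ∀ x ∈ ι.range, (g : Matrix (Fin n) (Fin n) F) * x * ((g⁻¹ : GL (Fin n) F) : Matrix (Fin n) (Fin n) F) = x :=
      fun x hx => by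
        show (1 + u) * x * (1 - u) = x
        rw [show (1 + u) * x = x * (1 + u) by rw [add_mul, mul_add, hua x hx, one_mul, mul_one], mul_assoc,
          show (1 + u) * (1 - u) = 1 from g.val_inv, mul_one]
    refine ⟨fun hx => by rw [hc x hx]; exact hx, fun hx => ?_⟩
    have h := hc _ hx
    have key : x = (g : Matrix (Fin n) (Fin n) F) * x * ((g⁻¹ : GL (Fin n) F) : Matrix (Fin n) (Fin n) F) := by
      have h' := congrArg (fun y => ((g⁻¹ : GL (Fin n) F) : Matrix (Fin n) (Fin n) F) * y * (g : Matrix (Fin n) (Fin n) F)) h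
      simp only [mul_assoc, Units.inv_mul_cancel_left, Units.inv_mul, mul_one] at h'
      rw [mul_assoc]; exact h'.symm
    rwa [key]
  · set D := (1 + u) * k * (1 - u) - k with hD
    have hDB : D ∈ B := B.sub_mem ((hg k).1 hkB) hkB
    have hDeq : D = u * (k - k * u) - k * u := by rw [hD]; noncomm_ring
    have hDv : D *ᵥ v = Φ (k *ᵥ v) • v := by
      rw [hDeq, Matrix.sub_mulVec, ← Matrix.mulVec_mulVec, Matrix.sub_mulVec, ← Matrix.mulVec_mulVec v k u, huv v, hΦv,
        zero_smul, Matrix.mulVec_zero, sub_zero, sub_zero, huv]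
    have hv0 : v ≠ 0 := fun e => hΦk (by rw [e, Matrix.mulVec_zero, map_zero])
    have hD0 : D ≠ 0 := fun e => smul_ne_zero hΦk hv0 (by rw [← hDv, e, Matrix.zero_mulVec])
    obtain ⟨y, -, hy⟩ := hB.inv D hDB hD0
    let ρ : A →ₗ[F] (Fin n → F) :=
      { toFun := fun a => ι a *ᵥ v
        map_add' := fun a b => by simp [Matrix.add_mulVec]
        map_smul' := fun c a => by simp [Matrix.smul_mulVec] }
    have hr : LinearMap.range ρ ⊔ (LinearMap.range ρ).map (Matrix.toLin' k) = ⊤ := by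
      refine eq_top_iff.2 fun x _ => ?_
      have hx : x = D *ᵥ (y *ᵥ x) := by rw [Matrix.mulVec_mulVec, hy, Matrix.one_mulVec]
      rw [hx, hDeq, Matrix.sub_mulVec, ← Matrix.mulVec_mulVec _ u, ← Matrix.mulVec_mulVec _ k u, huv, huv]
      refine Submodule.sub_mem _ (Submodule.mem_sup_left ⟨_, rfl⟩) (Submodule.mem_sup_right ⟨_, ⟨Φ (y *ᵥ x), rfl⟩, ?_⟩)
      rw [Matrix.toLin'_apply]; rfl
    have h1 := Submodule.finrank_add_le_finrank_add_finrank (LinearMap.range ρ) ((LinearMap.range ρ).map (Matrix.toLin' k))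
    rw [hr, finrank_top, Module.finrank_fin_fun] at h1
    have h2 := LinearMap.finrank_range_le ρ
    have h3 := Submodule.finrank_map_le (Matrix.toLin' k) (LinearMap.range ρ)
    omega

/-- Let F be a finite field, n a positive integer and r a composite number (r > 1, not prime) that divides n with r < n. Let K be a subalgebra of the algebra of n × n matrices over F which is a field of degree r over F (commutative, every non-zero element invertible, of dimension r over F). Then the normaliser N of K in GL_n(F) (a group of type ΓL_{n/r}(F_{q^r})) is not a maximal subgroup of GL_n(F), and N ∩ SL_n(F) is not a maximal subgroup of SL_n(F): both lie properly inside the normaliser of an intermediate subfield of prime degree over F. -/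
theorem result {F : Type*} [Field F]
    [Fintype F] (n r : ℕ) (hr1 : 1 < r) (hrp : ¬ r.Prime) (hrn : r ∣ n) (hlt : r < n)
    (K : Subalgebra F (Matrix (Fin n) (Fin n) F)) (hK : Cfsg.Geo.IsFieldSubalgebra r K) :
    ¬ IsCoatom (Cfsg.Geo.subalgebraNormalizer K) ∧
      ¬ Cfsg.Geo.IsMaximalIn (Cfsg.Geo.specialLinear (Fin n) F)
        (Cfsg.Geo.subalgebraNormalizer K ⊓ Cfsg.Geo.specialLinear (Fin n) F) := by
  classical
  obtain ⟨c, hc⟩ := hrn
  have hc2 : 2 ≤ c := by
    rcases c with _ | _ | c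
    · omega
    · omega
    · omega
  have hn4 : 2 * r ≤ n := by rw [hc, mul_comm]; exact Nat.mul_le_mul_left _ hc2
  have hn : 0 < n := by omega
  haveI : Nonempty (Fin n) := ⟨⟨0, hn⟩⟩
  obtain ⟨l, ⟨d, hd⟩, hl2, hlr⟩ := Nat.exists_dvd_of_not_prime2 hr1 hrp
  have hl4 : 2 * l ≤ r := by
    rcases d with _ | _ | d
    · omega
    · omega
    · rw [hd, mul_comm 2 l]; exact Nat.mul_le_mul_left _ (by omega)
  letI : Field K := (field_of hn hK).toField
  haveI : FiniteDimensional F K := FiniteDimensional.finiteDimensional_submodule (Subalgebra.toSubmodule K)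
  haveI : Finite K := Finite.of_injective (fun x : K => (x : Matrix (Fin n) (Fin n) F)) Subtype.val_injective
  haveI := Fintype.ofFinite K
  set φ := FiniteField.frobeniusAlgEquivOfAlgebraic F K with hφ
  have hφo : orderOf φ = r := by
    rw [hφ, FiniteField.orderOf_frobeniusAlgEquivOfAlgebraic]; exact hK.finrank_eq
  set H := Subgroup.zpowers (φ ^ l) with hH
  have hHc : Nat.card H = d := by
    rw [hH, Nat.card_zpowers, orderOf_pow' φ (by omega), hφo, Nat.gcd_eq_right ⟨d, hd⟩, hd,
      Nat.mul_div_cancel_left _ (by omega)]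
  set L := IntermediateField.fixedField H with hL
  have hLl : Module.finrank F L = l := by
    have h := Module.finrank_mul_finrank F L K
    rw [hL, IntermediateField.finrank_fixedField_eq_card H, hHc, hK.finrank_eq, hd] at h
    exact Nat.eq_of_mul_eq_mul_right (by rcases d with _ | d <;> simp_all) h
  set ι := (K.val : K →ₐ[F] Matrix (Fin n) (Fin n) F).comp L.val with hιdef
  set A := ι.range with hAdef
  have hA : Cfsg.Geo.IsFieldSubalgebra l A := by
    refine ⟨?_, ?_, ?_⟩
    · rintro _ ⟨x, rfl⟩ _ ⟨y, rfl⟩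
      exact hK.comm _ x.1.2 _ y.1.2
    · rintro _ ⟨x, rfl⟩ hne
      refine ⟨ι x⁻¹, ⟨x⁻¹, rfl⟩, ?_⟩
      have hx0 : x ≠ 0 := fun e => hne (by subst e; exact map_zero ι)
      exact (map_mul ι x x⁻¹).symm.trans ((congrArg ι (mul_inv_cancel₀ hx0)).trans (map_one ι))
    · rw [← hLl]
      exact (AlgEquiv.ofInjective ι (RingHom.injective ι.toRingHom)).toLinearEquiv.finrank_eq.symm
  have hAK : A ≤ K := by rintro _ ⟨x, rfl⟩; exact x.1.2
  have hstab : Cfsg.Geo.subalgebraNormalizer K ≤ Cfsg.Geo.subalgebraNormalizer A := by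
    have step : ∀ g ∈ Cfsg.Geo.subalgebraNormalizer K, ∀ k ∈ A,
        (g : Matrix (Fin n) (Fin n) F) * k * ((g⁻¹ : GL (Fin n) F) : Matrix (Fin n) (Fin n) F) ∈ A := by
      rintro g hg _ ⟨⟨x, hx⟩, rfl⟩
      let σ₀ : K →ₐ[F] K :=
        { toFun := fun y => ⟨(g : Matrix (Fin n) (Fin n) F) * y.1 * ((g⁻¹ : GL (Fin n) F) : Matrix (Fin n) (Fin n) F), (hg _).1 y.2⟩
          map_one' := Subtype.ext (by simp)
          map_mul' := fun y z => Subtype.ext (by simp [mul_assoc])
          map_zero' := Subtype.ext (by simp)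
          map_add' := fun y z => Subtype.ext (by simp [mul_add, add_mul])
          commutes' := fun a => Subtype.ext (by
            show (g : Matrix (Fin n) (Fin n) F) * algebraMap F _ a * _ = algebraMap F _ a
            rw [← Algebra.commutes, mul_assoc, Units.mul_inv, mul_one]) }
      let σ : Gal(K/F) := AlgEquiv.ofBijective σ₀ ⟨RingHom.injective σ₀.toRingHom,
        Finite.surjective_of_injective (RingHom.injective σ₀.toRingHom)⟩
      refine ⟨⟨σ x, ?_⟩, rfl⟩
      intro h
      obtain ⟨a, ha⟩ := (FiniteField.bijective_frobeniusAlgEquivOfAlgebraic_pow F K).2 σ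
      obtain ⟨j, hj⟩ := Subgroup.mem_zpowers_iff.1 h.2
      have hcom : (h : Gal(K/F)) * σ = σ * h := by
        rw [← hj, ← ha]
        exact (((Commute.refl φ).pow_pow l a.1).zpow_left j).eq
      have h' := congrArg (fun e : Gal(K/F) => e x) hcom
      simp only [AlgEquiv.mul_apply] at h'
      exact h'.trans (congrArg σ (hx h))
    intro g hg k
    refine ⟨step g hg k, fun h => ?_⟩
    have h' := step g⁻¹ (inv_mem hg) _ h
    simpa [mul_assoc] using h'
  obtain ⟨k, hkK, hkA⟩ : ∃ k ∈ K, k ∉ A := by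
    by_contra! hall
    have h : K = A := le_antisymm hall hAK
    have := hA.finrank_eq
    rw [← h, hK.finrank_eq] at this
    omega
  obtain ⟨g, hgS, hgA, hgK⟩ := exists_witness hK ι (by rw [hLl]; omega) hkK hkA
    (fun a => hK.comm _ hkK _ (hAK ⟨a, rfl⟩))
  have hbot : Cfsg.Geo.IsFieldSubalgebra 1 (⊥ : Subalgebra F (Matrix (Fin n) (Fin n) F)) := by
    haveI : Nonempty (Fin n) := ⟨⟨0, hn⟩⟩
    refine ⟨?_, ?_, Subalgebra.finrank_bot⟩
    · rintro _ hx _ hy
      obtain ⟨a, rfl⟩ := Algebra.mem_bot.1 hx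
      exact Algebra.commutes a _
    · intro x hx hne
      obtain ⟨a, rfl⟩ := Algebra.mem_bot.1 hx
      have ha : a ≠ 0 := fun e => hne (by rw [e, map_zero])
      exact ⟨algebraMap F _ a⁻¹, Algebra.mem_bot.2 ⟨_, rfl⟩, by rw [← map_mul, mul_inv_cancel₀ ha, map_one]⟩
  obtain ⟨k', hk'A, hk'⟩ : ∃ k ∈ A, k ∉ (⊥ : Subalgebra F (Matrix (Fin n) (Fin n) F)) := by
    by_contra! hall
    have h : A = ⊥ := le_bot_iff.1 hall
    have := hA.finrank_eq
    rw [h, hbot.finrank_eq] at this
    omega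
  obtain ⟨g', hg'S, -, hg'A⟩ := exists_witness hA (Algebra.ofId F (Matrix (Fin n) (Fin n) F))
    (by rw [Module.finrank_self]; omega) hk'A (fun h => hk' (by obtain ⟨c, hc'⟩ := h; exact Algebra.mem_bot.2 ⟨c, hc'⟩))
    (fun a => (Algebra.commutes a _).symm)
  constructor
  · intro hmax
    exact hg'A ((hmax.2 _ (lt_of_le_of_ne hstab fun e => hgK (e ▸ hgA))) ▸ Subgroup.mem_top g')
  · rintro ⟨-, hmax⟩
    rcases hmax (Cfsg.Geo.subalgebraNormalizer A ⊓ Cfsg.Geo.specialLinear (Fin n) F)
      (inf_le_inf_right _ hstab) inf_le_right with e | e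
    · exact hgK ((e ▸ (⟨hgA, hgS⟩ : g ∈ Cfsg.Geo.subalgebraNormalizer A ⊓ Cfsg.Geo.specialLinear (Fin n) F) : g ∈ _ ⊓ Cfsg.Geo.specialLinear (Fin n) F)).1
    · exact hg'A ((e.symm ▸ hg'S : g' ∈ Cfsg.Geo.subalgebraNormalizer A ⊓ Cfsg.Geo.specialLinear (Fin n) F)).1

end Cfsg.Agent.S5887
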