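import Cfsg.Statements.S5892
import Cfsg.Agent.Lib.DicksonMaxSmall
import Cfsg.Agent.S0803
import Cfsg.Agent.S0804

set_option autoImplicit false
open Cfsg

namespace Cfsg.Agent.S5892

open CfsgLib.Dickson

theorem perm_four_exists {F : Type*} [Field F] [Fintype F] (h : Fintype.card F ^ 2 % 16 = 1) :
    ∃ H : Subgroup (Matrix.ProjectiveSpecialLinearGroup (Fin 2) F), Nonempty (H ≃* Equiv.Perm (Fin 4)) :=
  (Cfsg.Agent.S0803.result rfl).2 h

/-- Let F be a finite field of odd order q ≥ 5 and characteristic p, and let M be a maximal subgroup of PSL₂(F). Then one of the following holds: |M| = q(q − 1)/2 (the stabiliser of a point of the projective line); q ≥ 13 and M is dihedral of order q − 1; q ∉ {7, 9} and M is dihedral of order q + 1; q = q₀² and M ≅ PGL₂(F₀) with |F₀| = q₀; q = q₀^r for an odd prime r and M ≅ PSL₂(F₀) with |F₀| = q₀; q ≡ ±1 (mod 10) with q = p or q = p², p ≡ ±3 (mod 10), and M ≅ A₅; q = p ≡ ±3 (mod 8), q ≢ ±1 (mod 10), and M ≅ A₄; or q = p ≡ ±1 (mod 8) and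 M ≅ S₄. -/
theorem result {F : Type*} [Field F] [Fintype F] (p : ℕ)
    [Fact p.Prime] [CharP F p] (hodd : Odd (Fintype.card F)) (h5 : 5 ≤ Fintype.card F)
    (M : Subgroup (Matrix.ProjectiveSpecialLinearGroup (Fin 2) F)) (hM : IsCoatom M) :
    2 * Nat.card M = Fintype.card F * (Fintype.card F - 1) ∨
    (13 ≤ Fintype.card F ∧ (∃ k : ℕ, 2 * k = Fintype.card F - 1 ∧ Nonempty (M ≃* DihedralGroup k))) ∨
    (Fintype.card F ≠ 7 ∧ Fintype.card F ≠ 9 ∧ (∃ k : ℕ, 2 * k = Fintype.card F + 1 ∧ Nonempty (M ≃* DihedralGroup k))) ∨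
    (∃ (F₀ : Type) (_ : Field F₀) (_ : Fintype F₀), Fintype.card F = Fintype.card F₀ ^ 2 ∧
        Nonempty (M ≃* Matrix.ProjGenLinGroup (Fin 2) F₀)) ∨
    (∃ (F₀ : Type) (_ : Field F₀) (_ : Fintype F₀) (r : ℕ), r.Prime ∧ Odd r ∧ Fintype.card F = Fintype.card F₀ ^ r ∧
        Nonempty (M ≃* Matrix.ProjectiveSpecialLinearGroup (Fin 2) F₀)) ∨
    ((Fintype.card F % 10 = 1 ∨ Fintype.card F % 10 = 9) ∧
        (Fintype.card F = p ∨ (Fintype.card F = p ^ 2 ∧ (p % 10 = 3 ∨ p % 10 = 7))) ∧
        Nonempty (M ≃* alternatingGroup (Fin 5))) ∨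
    (Fintype.card F = p ∧ (p % 8 = 3 ∨ p % 8 = 5) ∧ ¬ (p % 10 = 1 ∨ p % 10 = 9) ∧
        Nonempty (M ≃* alternatingGroup (Fin 4))) ∨
    (Fintype.card F = p ∧ (p % 8 = 1 ∨ p % 8 = 7) ∧ Nonempty (M ≃* Equiv.Perm (Fin 4))) := by
  set q := Fintype.card F with hF
  have hp := (Fact.out : p.Prime)
  obtain ⟨b, hb, hq⟩ := exists_exponent (F := F) p
  rw [← hF] at hq
  have hq2 : q % 2 = 1 := Nat.odd_iff.1 hodd
  have hp2 : p ≠ 2 := by
    rintro rfl
    rw [hq, Nat.pow_mod, Nat.mod_self, zero_pow hb] at hq2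
    simp at hq2
  have hpodd : p % 2 = 1 := Nat.odd_iff.1 (hp.odd_of_ne_two hp2)
  have hd : Nat.gcd 2 (q - 1) = 2 := Nat.gcd_eq_left (by omega)
  have hG := card_psl hF.symm (p := p)
  rw [hd] at hG
  have h4 : 4 ≤ q := by omega
  have hpq : p ∣ q := by rw [hq]; exact dvd_pow_self p hb
  have hq1 : ∀ {s : ℕ}, q = p ^ s → s = b := fun h => Nat.pow_right_injective hp.two_le (h.symm.trans hq)
  have h12 : Nat.card (alternatingGroup (Fin 4)) = 12 := by
    rw [nat_card_alternatingGroup, Nat.card_fin]; rfl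
  have h24 : Nat.card (Equiv.Perm (Fin 4)) = 24 := by rw [Nat.card_perm, Nat.card_fin]; rfl
  have h60 : Nat.card (alternatingGroup (Fin 5)) = 60 := by
    rw [nat_card_alternatingGroup, Nat.card_fin]; rfl
  rcases maximal_cases (p := p) hF.symm h4 hM with ⟨n, hn, ⟨e⟩⟩ | h | ⟨h, ⟨e⟩⟩ | ⟨h, ⟨e⟩⟩ | ⟨h, ⟨e⟩⟩ |
      ⟨K, hK, hKf, m, φ, f, hm, hmp, hf, -, hover, hiso⟩
  · rw [hd] at hn
    have hMc : Nat.card M = 2 * n := by rw [Nat.card_congr e.toEquiv, DihedralGroup.nat_card]
    rcases hn with hn | hn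
    · refine Or.inr (Or.inl ⟨?_, n, hn, ⟨e⟩⟩)
      by_contra hlt
      obtain h | h | h | h : q = 5 ∨ q = 7 ∨ q = 9 ∨ q = 11 := by omega
      · obtain rfl : n = 2 := by omega
        obtain ⟨H, hH, ⟨eH⟩⟩ := CfsgLib.Classical.exists_alt_four_of_odd (F := F) hodd
        exact klein_exclude h4 hp2 hM e eH (MonoidHom.id _) Function.injective_id dihedral_two_pair klein_alt_four
          (hMc.trans_le (by omega)) (hMc.trans_lt (by omega)) (by rw [h] at hG; norm_num at hG; omega)
      · obtain rfl : n = 3 := by omega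
        obtain ⟨H, ⟨eH⟩⟩ := perm_four_exists (F := F) (by rw [← hF, h]; norm_num)
        exact cyclic_exclude h4 (Or.inl rfl) hM e eH perm_four_three (by omega)
          (by rw [h] at hG; norm_num at hG; omega)
      · obtain rfl : n = 4 := by omega
        obtain ⟨H, ⟨eH⟩⟩ := perm_four_exists (F := F) (by rw [← hF, h]; norm_num)
        obtain ⟨u, v, _, _, hr⟩ := klein_sign_four
        exact klein_exclude h4 hp2 hM e eH (MonoidHom.id _) Function.injective_id dihedral_four_pair ⟨u, v, hr⟩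
          (hMc.trans_le (by omega)) (hMc.trans_lt (by omega)) (by rw [h] at hG; norm_num at hG; omega)
      · obtain rfl : n = 5 := by omega
        obtain ⟨H, ⟨eH⟩⟩ := (Cfsg.Agent.S0804.result hF.symm).2 (by rw [h]; norm_num)
        exact cyclic_exclude h4 (Or.inr rfl) hM e eH alt_five_five (by omega)
          (by rw [h] at hG; norm_num at hG; omega)
    · refine Or.inr (Or.inr (Or.inl ⟨fun h => ?_, fun h => ?_, n, hn, ⟨e⟩⟩))
      · obtain rfl : n = 4 := by omega
        obtain ⟨H, ⟨eH⟩⟩ := perm_four_exists (F := F) (by rw [← hF, h]; norm_num)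
        obtain ⟨u, v, _, _, hr⟩ := klein_sign_four
        exact klein_exclude h4 hp2 hM e eH (MonoidHom.id _) Function.injective_id dihedral_four_pair ⟨u, v, hr⟩
          (hMc.trans_le (by omega)) (hMc.trans_lt (by omega)) (by rw [h] at hG; norm_num at hG; omega)
      · obtain rfl : n = 5 := by omega
        obtain ⟨H, ⟨eH⟩⟩ := (Cfsg.Agent.S0804.result hF.symm).2 (by rw [h]; norm_num)
        exact cyclic_exclude h4 (Or.inr rfl) hM e eH alt_five_five (by omega)
          (by rw [h] at hG; norm_num at hG; omega)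
  · left
    rw [hd] at h
    rw [mul_comm]; exact h
  · have hMc : Nat.card M = 12 := (Nat.card_congr e.toEquiv).trans h12
    have hp5 : 5 ≤ p := by
      rw [hMc] at h
      by_contra hlt
      have := hp.two_le
      interval_cases p
      · omega
      · exact h (by norm_num)
      · exact absurd hp (by norm_num)
    have hqp : q = p := by
      rcases eq_or_ne b 1 with rfl | hb1
      · rw [hq, pow_one]
      exfalso
      obtain ⟨f, hf, hfM⟩ := alt_four_over hp2 (fixField (F := F) p 1) e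
      refine not_isCoatom_of_fix (p := p) (a := 1) (s := b) one_ne_zero (by omega)
        (by rw [pow_one, ← hF, hq]) f hf hfM ?_ hM
      rw [pow_one, hMc]
      calc 2 * 12 < 5 * 4 * 6 := by norm_num
        _ ≤ p * (p - 1) * (p + 1) := Nat.mul_le_mul (Nat.mul_le_mul hp5 (by omega)) (by omega)
    have hp8 : p % 8 = 3 ∨ p % 8 = 5 := by
      by_contra hne
      have h16 : q ^ 2 % 16 = 1 := by
        rw [hqp, Nat.pow_mod]
        have h8 : p % 8 = p % 16 % 8 := by omega
        have := Nat.mod_lt p (show 16 > 0 by norm_num)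
        have h2' : p % 2 = p % 16 % 2 := by omega
        rw [h8] at hne
        rw [h2'] at hpodd
        generalize p % 16 = r at hne this hpodd ⊢
        interval_cases r <;> first | omega | norm_num
      obtain ⟨H, ⟨eH⟩⟩ := perm_four_exists (F := F) (by rw [← hF]; exact h16)
      obtain ⟨u, v, _, _, hr⟩ := klein_sign_four
      have h7 : 7 ≤ q := by omega
      have := Nat.mul_le_mul (Nat.mul_le_mul h7 (show 6 ≤ q - 1 by omega)) (show 8 ≤ q + 1 by omega)
      exact klein_exclude h4 hp2 hM e eH (MonoidHom.id _) Function.injective_id klein_alt_four ⟨u, v, hr⟩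
        (hMc.trans_le (by omega)) (hMc.trans_lt (by omega)) (by omega)
    refine Or.inr (Or.inr (Or.inr (Or.inr (Or.inr (Or.inr (Or.inl ⟨hqp, hp8, ?_, ⟨e⟩⟩))))))
    intro h10
    have h5 : 5 ∣ q * (q ^ 2 - 1) := by
      rw [hqp]; exact (five_dvd_iff p hp).2 (by omega)
    obtain ⟨H, ⟨eH⟩⟩ := (Cfsg.Agent.S0804.result hF.symm).2 h5
    obtain ⟨T, ⟨t⟩⟩ := CfsgLib.Classical.exists_alt_four_in_alt_five
    have h7 : 11 ≤ q := by omega
    have := Nat.mul_le_mul (Nat.mul_le_mul h7 (show 10 ≤ q - 1 by omega)) (show 12 ≤ q + 1 by omega)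
    exact klein_exclude h4 hp2 hM e eH (T.subtype.comp t.symm.toMonoidHom)
      (Subtype.val_injective.comp t.symm.injective) klein_alt_four klein_alt_four
      (hMc.trans_le (by omega)) (hMc.trans_lt (by omega)) (by omega)
  · have hMc : Nat.card M = 24 := (Nat.card_congr e.toEquiv).trans h24
    have hp5 : 5 ≤ p := by
      rw [hMc] at h
      by_contra hlt
      have := hp.two_le
      interval_cases p
      · omega
      · exact h (by norm_num)
      · exact absurd hp (by norm_num)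
    have hqp : q = p := by
      rcases eq_or_ne b 1 with rfl | hb1
      · rw [hq, pow_one]
      exfalso
      obtain ⟨f, hf, hfM⟩ := perm_four_over hp2 (fixField (F := F) p 1) e
      refine not_isCoatom_of_fix (p := p) (a := 1) (s := b) one_ne_zero (by omega)
        (by rw [pow_one, ← hF, hq]) f hf hfM ?_ hM
      rw [pow_one, hMc]
      calc 2 * 24 < 5 * 4 * 6 := by norm_num
        _ ≤ p * (p - 1) * (p + 1) := Nat.mul_le_mul (Nat.mul_le_mul hp5 (by omega)) (by omega)
    refine Or.inr (Or.inr (Or.inr (Or.inr (Or.inr (Or.inr (Or.inr ⟨hqp, ?_, ⟨e⟩⟩))))))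
    by_contra hne
    exact sq_mod_sixteen p (by omega) (hqp ▸ (Cfsg.Agent.S0803.result hF.symm).1 ⟨M, ⟨e⟩⟩)
  · have hMc : Nat.card M = 60 := (Nat.card_congr e.toEquiv).trans h60
    have hpne : p ≠ 5 := by
      rintro rfl
      rcases h with h | h
      · exact h (by rw [hMc]; norm_num)
      · omega
    have h5 : 5 ∣ q * (q ^ 2 - 1) := (Cfsg.Agent.S0804.result hF.symm).1 ⟨M, ⟨e⟩⟩
    have hp5 : p % 5 ≠ 0 := fun h0 => hpne ((Nat.prime_dvd_prime_iff_eq Nat.prime_five hp).1
      (Nat.dvd_of_mod_eq_zero h0)).symm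
    have hp3 : 3 ≤ p := by have := hp.two_le; omega
    refine Or.inr (Or.inr (Or.inr (Or.inr (Or.inr (Or.inl ?_)))))
    by_cases h14 : p % 5 = 1 ∨ p % 5 = 4
    · have hqp : q = p := by
        rcases eq_or_ne b 1 with rfl | hb1
        · rw [hq, pow_one]
        exfalso
        obtain ⟨f, hf, hfM⟩ := alt_five_over hp2 (fixField (F := F) p 1) (fun s hs =>
          root_mem_fixField (p := p) (a := 1) (s := b) one_ne_zero (by rw [pow_one, ← hF, hq]) (by
            rw [pow_one, mul_assoc, show (p - 1) * (p + 1) = p ^ 2 - 1 ^ 2 by rw [Nat.sq_sub_sq]; ring, one_pow]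
            exact (five_dvd_iff p hp).2 (Or.inr h14)) s hs) e
        refine not_isCoatom_of_fix (p := p) (a := 1) (s := b) one_ne_zero (by omega)
          (by rw [pow_one, ← hF, hq]) f hf hfM ?_ hM
        have h11 : 11 ≤ p := by
          by_contra hlt
          interval_cases p <;> first | omega | exact absurd hp (by norm_num)
        rw [pow_one, hMc]
        calc 2 * 60 < 11 * 10 * 12 := by norm_num
          _ ≤ p * (p - 1) * (p + 1) := Nat.mul_le_mul (Nat.mul_le_mul h11 (by omega)) (by omega)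
      exact ⟨by omega, Or.inl hqp, ⟨e⟩⟩
    · have h4m : p ^ 2 % 5 = 4 := by
        rw [Nat.pow_mod]
        have : p % 5 = 2 ∨ p % 5 = 3 := by omega
        rcases this with h | h <;> rw [h]
      obtain ⟨c, hc⟩ : Even b := by
        by_contra hne
        obtain ⟨i, rfl⟩ := Nat.not_even_iff_odd.1 hne
        have e4 : q ^ 2 % 5 = 4 := by
          rw [hq, ← pow_mul, mul_comm, pow_mul, Nat.pow_mod, h4m, pow_succ, pow_mul, Nat.mul_mod, Nat.pow_mod]
          norm_num
        rcases Nat.prime_five.dvd_mul.1 h5 with h | h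
        · rw [hq] at h
          exact hpne ((Nat.prime_dvd_prime_iff_eq Nat.prime_five hp).1 (Nat.prime_five.dvd_of_dvd_pow h)).symm
        · omega
      have hb2 : b = 2 := by
        by_contra hb2
        obtain ⟨f, hf, hfM⟩ := alt_five_over hp2 (fixField (F := F) p 2) (fun s hs =>
          root_mem_fixField (p := p) (a := 2) (s := c) two_ne_zero (by rw [← hF, hq, hc, ← pow_mul, two_mul]) (by
            have h5' : 5 ∣ p ^ 2 + 1 := Nat.dvd_of_mod_eq_zero (by omega)
            exact h5'.mul_left _) s hs) e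
        refine not_isCoatom_of_fix (p := p) (a := 2) (s := c) two_ne_zero (by omega)
          (by rw [← hF, hq, hc, ← pow_mul, two_mul]) f hf hfM ?_ hM
        have h9 : 9 ≤ p ^ 2 := Nat.pow_le_pow_left hp3 2
        generalize p ^ 2 = r at h9 ⊢
        rw [hMc]
        calc 2 * 60 < 9 * 8 * 10 := by norm_num
          _ ≤ r * (r - 1) * (r + 1) := Nat.mul_le_mul (Nat.mul_le_mul h9 (by omega)) (by omega)
      subst hb2
      exact ⟨by omega, Or.inr ⟨hq, by omega⟩, ⟨e⟩⟩
  haveI : CharP K p := char_eq_of_pow (F := F) rfl hm.symm hmp.ne_zero p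
  obtain ⟨a, ha, hka⟩ := exists_exponent (F := K) p
  have hkodd : Odd (Fintype.card K) := hka ▸ (hp.odd_of_ne_two hp2).pow
  rcases hmp.eq_two_or_odd' with rfl | hmo
  · rcases hiso with ⟨⟨e⟩⟩ | h
    swap
    · exact Or.inr (Or.inr (Or.inr (Or.inl ⟨K, hK, hKf, hm.symm, h⟩)))
    exfalso
    obtain ⟨ν, hν⟩ := FiniteField.exists_nonsquare (F := K) (fun h2 =>
      hp2 ((ringChar.eq K p).symm.trans h2))
    obtain ⟨r, hr⟩ := isSquare_of_even (F := F) (K := K) rfl hm.symm even_two hkodd φ ν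
    have hk3 : 2 < Fintype.card K := by
      have := Fintype.one_lt_card (α := K)
      obtain ⟨j, hj⟩ := hkodd
      omega
    refine not_isCoatom_of_over (p := p) (E := fixField (F := F) p a) (fixField_ne_top ha ?_) f hf
      (fun g hg => ?_) ?_ hM
    · rw [← hka, ← hF, ← hm, pow_two]
      calc Fintype.card K = Fintype.card K * 1 := (mul_one _).symm
        _ < Fintype.card K * Fintype.card K := Nat.mul_lt_mul_of_pos_left (by omega) (by omega)
    · obtain ⟨A, r', hr'⟩ := hover g hg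
      have hr0 : r' ≠ 0 := fun e => by
        have := (f g).2
        rw [hr', e, zero_smul, Matrix.det_zero] at this
        exact zero_ne_one this
      refine ⟨r'⁻¹, inv_ne_zero hr0, fun i j => ?_⟩
      rw [hr', Matrix.smul_apply, smul_eq_mul, ← mul_assoc, inv_mul_cancel₀ hr0, one_mul]
      exact map_mem_fixField φ (j := 1) (by rw [pow_one, hka]) _
    · refine lt_of_lt_of_le ?_ (card_overSub_ge_two φ
        (fun x => map_mem_fixField φ (j := 1) (by rw [pow_one, hka]) x) hν hr.symm)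
      have h1 := card_psl (F := K) rfl (p := p)
      rw [show Nat.gcd 2 (Fintype.card K - 1) = 2 from Nat.gcd_eq_left (by
        obtain ⟨j, hj⟩ := hkodd; omega)] at h1
      rw [CfsgLib.Classical.Two.card_sl_two, Nat.card_congr e.toEquiv, mul_comm 2 (Nat.card _), h1]
      have : 0 < Fintype.card K * (Fintype.card K - 1) * (Fintype.card K + 1) :=
        Nat.mul_pos (Nat.mul_pos (by omega) (by omega)) (by omega)
      omega
  · rcases hiso with h | ⟨⟨e⟩⟩
    · exact Or.inr (Or.inr (Or.inr (Or.inr (Or.inl ⟨K, hK, hKf, m, hmp, hmo, hm.symm, h⟩))))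
    · exact (no_pgl_of_odd (F := F) (K := K) rfl hm.symm hmo hkodd M e).elim

end Cfsg.Agent.S5892
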