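import Cfsg.Statements.S5893
import Cfsg.Agent.Lib.DicksonMaxCases

set_option autoImplicit false
open Cfsg

namespace Cfsg.Agent.S5893

open CfsgLib.Dickson

/-- Let F be a finite field of even order q ≥ 4 and let M be a maximal subgroup of PSL₂(F) (= SL₂(F) = PGL₂(F)). Then one of the following holds: |M| = q(q − 1) (the stabiliser of a point of the projective line, elementary abelian of order q extended by a cyclic group of order q − 1); M is dihedral of order 2(q − 1); M is dihedral of order 2(q + 1); or q = q₀^r for a prime r with q₀ ≠ 2 and M ≅ PSL₂(F₀) with |F₀| = q₀. -/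
theorem result {F : Type*} [Field F] [Fintype F]
    (heven : Even (Fintype.card F)) (h4 : 4 ≤ Fintype.card F) (M : Subgroup (Matrix.ProjectiveSpecialLinearGroup (Fin 2) F)) (hM : IsCoatom M) :
    Nat.card M = Fintype.card F * (Fintype.card F - 1) ∨
    Nonempty (M ≃* DihedralGroup (Fintype.card F - 1)) ∨
    Nonempty (M ≃* DihedralGroup (Fintype.card F + 1)) ∨
    (∃ (F₀ : Type) (_ : Field F₀) (_ : Fintype F₀) (r : ℕ), r.Prime ∧ Fintype.card F₀ ≠ 2 ∧
        Fintype.card F = Fintype.card F₀ ^ r ∧ Nonempty (M ≃* Matrix.ProjectiveSpecialLinearGroup (Fin 2) F₀)) := by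
  obtain ⟨p, hchar⟩ := CharP.exists F
  obtain ⟨n, hp, hn⟩ := FiniteField.card F p
  haveI := Fact.mk hp
  have hp2 : p = 2 := by
    by_contra h
    exact Nat.not_odd_iff_even.2 heven (hn ▸ (hp.odd_of_ne_two h).pow)
  subst hp2
  set q := Fintype.card F with hF
  have hd : Nat.gcd 2 (q - 1) = 1 := Nat.coprime_two_left.2 (show Odd (q - 1) by
    obtain ⟨c, hc⟩ := heven
    rw [Nat.odd_iff]; omega)
  have hdih : (∃ k : ℕ, (Nat.gcd 2 (q - 1) * k = q - 1 ∨ Nat.gcd 2 (q - 1) * k = q + 1) ∧
      Nonempty (M ≃* DihedralGroup k)) → Nonempty (M ≃* DihedralGroup (q - 1)) ∨ Nonempty (M ≃* DihedralGroup (q + 1)) := by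
    rintro ⟨k, hk, h⟩
    rw [hd, one_mul] at hk
    rcases hk with rfl | rfl
    · exact Or.inl h
    · exact Or.inr h
  rcases maximal_cases (p := 2) hF.symm h4 hM with h | h | ⟨h, ⟨e⟩⟩ | ⟨h, ⟨e⟩⟩ | ⟨h, ⟨e⟩⟩ |
      ⟨K, hK, hKf, m, φ, f, hm, hmp, -, -, -, hiso⟩
  · exact Or.inr ((hdih h).elim Or.inl fun h => Or.inr (Or.inl h))
  · exact Or.inl (by rw [hd, mul_one] at h; exact h)
  · exact absurd (by rw [Nat.card_congr e.toEquiv, nat_card_alternatingGroup, Nat.card_fin]; decide) h
  · exact absurd (by rw [Nat.card_congr e.toEquiv, Nat.card_perm, Nat.card_fin]; decide) h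
  · exact absurd (by rw [Nat.card_congr e.toEquiv, nat_card_alternatingGroup, Nat.card_fin]; decide)
      (h.resolve_right (by norm_num))
  haveI : CharP K 2 := char_eq_of_pow (F := F) rfl hm.symm hmp.ne_zero 2
  have hKeven : Nat.gcd 2 (Fintype.card K - 1) = 1 := Nat.coprime_two_left.2 (show Odd (Fintype.card K - 1) by
    obtain ⟨a, -, ha⟩ := FiniteField.card K 2
    have := Fintype.one_lt_card (α := K)
    have : Fintype.card K % 2 = 0 := by rw [ha, Nat.pow_mod]; simp
    rw [Nat.odd_iff]; omega)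
  have hcard : Nat.card (PSL K) = Nat.card (Matrix.ProjGenLinGroup (Fin 2) K) := by
    have h := card_psl (F := K) rfl (p := 2)
    rw [hKeven, mul_one] at h
    rw [h, card_pgl_two]
  haveI : Finite (Matrix.ProjGenLinGroup (Fin 2) K) :=
    Finite.of_surjective _ (fun x => Quotient.exists_rep x)
  have hiso' : Nonempty (M ≃* Matrix.ProjectiveSpecialLinearGroup (Fin 2) K) := by
    rcases hiso with h | ⟨⟨e⟩⟩
    · exact h
    · exact ⟨e.trans (MulEquiv.ofBijective _ ((Nat.bijective_iff_injective_and_card _).2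
        ⟨Matrix.ProjectiveSpecialLinearGroup.toPGL_injective, hcard⟩)).symm⟩
  by_cases hk : Fintype.card K = 2
  · right
    refine (hdih ?_).elim Or.inl fun h => Or.inr (Or.inl h)
    obtain ⟨e⟩ := hiso'
    have h6 : Nat.card M = 6 := by
      rw [Nat.card_congr e.toEquiv]
      have h := card_psl (F := K) rfl (p := 2)
      rw [hKeven, mul_one, hk] at h
      exact h
    obtain ⟨c, hc⟩ := exists_prime_orderOf_dvd_card' (G := M) 3 (by rw [h6]; norm_num)
    have hnorm : (Subgroup.zpowers c).Normal := Subgroup.normal_of_index_eq_two (by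
      have := (Subgroup.zpowers c).index_mul_card
      rw [Nat.card_zpowers, hc, h6] at this
      omega)
    refine coatom_normalising (p := 2) hF.symm h4 hM (c := (c : PSL F))
      (by rw [Subgroup.orderOf_coe, hc]; norm_num) (by rw [Subgroup.orderOf_coe, hc]; norm_num) fun x hx => ?_
    obtain ⟨i, hi⟩ := Subgroup.mem_zpowers_iff.1 (hnorm.conj_mem c (Subgroup.mem_zpowers c) ⟨x, hx⟩)
    exact ⟨i, by simpa using congrArg Subtype.val hi⟩
  · exact Or.inr (Or.inr (Or.inr ⟨K, hK, hKf, m, hmp, hk, hm.symm, hiso'⟩))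

end Cfsg.Agent.S5893
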