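import Cfsg.Statements.S5894


set_option autoImplicit false
open Cfsg

namespace Cfsg.Agent.S5894

open MulAction
open scoped Pointwise

theorem smul_set_eq_iff {α : Type*} [Finite α] (g : Equiv.Perm α) (s : Set α) : g • s = s ↔ ∀ a ∈ s, g a ∈ s := by
  constructor
  · intro h a ha
    exact h ▸ Set.smul_mem_smul_set ha
  · intro h
    refine Set.eq_of_subset_of_ncard_le (by rintro _ ⟨a, ha, rfl⟩; exact h a ha) ?_ (Set.toFinite _)
    exact le_of_eq (Set.ncard_image_of_injective s g.injective).symm

/-- For every m ≥ 2 the symmetric group on 2m letters has a maximal subgroup M of index 2m together with a maximal subgroup H of M that is not second maximal: some maximal subgroup K of the symmetric group contains H without H being maximal in K. (One may take M the stabiliser of a letter, H ≅ S_m × S_{m−1} inside it, and K ≅ S_m ≀ S₂ the stabiliser of a partition into two m-sets, with H < S_m × S_m < K.) So the prime-index hypothesis in the second-maximality criterion cannot be relaxed to any even index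 ≥ 4. -/
theorem result (m : ℕ) (hm : 2 ≤ m) :
    ∃ M H K : Subgroup (Equiv.Perm (Fin (2 * m))), IsCoatom M ∧ M.index = 2 * m ∧ H ≤ M ∧ IsCoatom (H.subgroupOf M) ∧
      IsCoatom K ∧ H ≤ K ∧ ¬ IsCoatom (H.subgroupOf K) := by
  classical
  let x : Fin (2 * m) := ⟨2 * m - 1, by omega⟩
  let A : Set (Fin (2 * m)) := {i | i.1 < m}
  have hxA : x ∉ A := by show ¬ (2 * m - 1 < m); omega
  let M : Subgroup (Equiv.Perm (Fin (2 * m))) := stabilizer _ x
  let W : Subgroup (Equiv.Perm (Fin (2 * m))) :=
    { carrier := {g | g • A = A ∨ g • A = Aᶜ}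
      one_mem' := Or.inl (one_smul _ _)
      mul_mem' := by
        rintro g h (hg | hg) (hh | hh) <;> simp only [Set.mem_setOf_eq, mul_smul, hh, Set.smul_set_compl, hg, compl_compl] <;> simp
      inv_mem' := by
        rintro g (hg | hg)
        · exact Or.inl (inv_smul_eq_iff.2 hg.symm)
        · right
          rw [inv_smul_eq_iff, Set.smul_set_compl, hg, compl_compl] }
  let a : Fin (2 * m) := ⟨0, by omega⟩
  let a' : Fin (2 * m) := ⟨1, by omega⟩
  let b : Fin (2 * m) := ⟨m, by omega⟩
  have ha : a ∈ A := by show 0 < m; omega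
  have ha' : a' ∈ A := by show 1 < m; omega
  have hb : b ∉ A := by show ¬ m < m; omega
  have hsw : Equiv.swap a b ∉ W := by
    rintro (h | h)
    · have := h ▸ Set.smul_mem_smul_set (a := Equiv.swap a b) ha
      simp at this; exact hb this
    · have := h ▸ Set.smul_mem_smul_set (a := Equiv.swap a b) ha'
      rw [Equiv.Perm.smul_def, Equiv.swap_apply_of_ne_of_ne (by simp [a, a', Fin.ext_iff]) (by simp [a', b, Fin.ext_iff]; omega)] at this
      exact this ha'
  have hWtop : W ≠ ⊤ := fun h => hsw (h ▸ Subgroup.mem_top _)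
  obtain ⟨K, hK, hWK⟩ := (eq_top_or_exists_le_coatom W).resolve_left hWtop
  let S : Subgroup (Equiv.Perm (Fin (2 * m))) := stabilizer _ A
  have hSW : S ≤ W := fun g hg => Or.inl hg
  refine ⟨M, M ⊓ S, K, ?_, ?_, inf_le_left, ?_, hK, inf_le_right.trans (hSW.trans hWK), fun hco => ?_⟩
  · have h := Equiv.Perm.isCoatom_stabilizer (s := ({x} : Set (Fin (2 * m)))) (Set.singleton_nonempty x)
      ⟨a, fun h => hxA (by rw [← Set.mem_singleton_iff.1 h]; exact ha)⟩
      (by rw [Nat.card_fin, Set.ncard_singleton]; omega)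
    rwa [stabilizer_singleton] at h
  · rw [index_stabilizer_of_transitive, Nat.card_fin]
  · let β := {i : Fin (2 * m) // i ≠ x}
    let B : Set β := {i | i.1 ∈ A}
    have hmem : ∀ σ : Equiv.Perm β, Equiv.Perm.ofSubtype σ ∈ M := fun σ => by
      show Equiv.Perm.ofSubtype σ x = x
      exact Equiv.Perm.ofSubtype_apply_of_not_mem σ (fun h => h rfl)
    let ι : Equiv.Perm β →* M := Equiv.Perm.ofSubtype.codRestrict M hmem
    have hbij : Function.Bijective ι := by
      refine ⟨fun σ τ h => Equiv.Perm.ofSubtype_injective (congrArg Subtype.val h), fun g => ?_⟩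
      refine ⟨g.1.subtypePerm (fun i => ?_), Subtype.ext ?_⟩
      · exact ⟨fun h e => h (by rw [e]; exact g.2), fun h e => h (g.1.injective (e.trans g.2.symm))⟩
      · exact Equiv.Perm.ofSubtype_subtypePerm _ (fun i hi e => hi (by rw [e]; exact g.2))
    let e := MulEquiv.ofBijective ι hbij
    have hmap : ((M ⊓ S).subgroupOf M) = e.mapSubgroup (stabilizer (Equiv.Perm β) B) := by
      ext g
      obtain ⟨σ, rfl⟩ := e.surjective g
      rw [MulEquiv.mapSubgroup_apply]
      show _ ↔ e σ ∈ (stabilizer (Equiv.Perm β) B).map e.toMonoidHom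
      rw [show e σ = e.toMonoidHom σ from rfl, Subgroup.mem_map_iff_mem (show Function.Injective e.toMonoidHom from e.injective), Subgroup.mem_subgroupOf, mem_stabilizer_iff]
      have hv : ((e.toMonoidHom σ : M) : Equiv.Perm (Fin (2 * m))) = Equiv.Perm.ofSubtype σ := rfl
      rw [hv]
      constructor
      · intro h
        rw [smul_set_eq_iff]
        intro i hi
        have := (smul_set_eq_iff _ _).1 h.2 i.1 hi
        rwa [Equiv.Perm.ofSubtype_apply_coe] at this
      · intro h
        refine ⟨hmem σ, (smul_set_eq_iff _ _).2 fun i hi => ?_⟩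
        have := (smul_set_eq_iff _ _).1 h ⟨i, fun e => hxA (e ▸ hi)⟩ hi
        show Equiv.Perm.ofSubtype σ (⟨i, fun e => hxA (e ▸ hi)⟩ : β).1 ∈ A
        rw [Equiv.Perm.ofSubtype_apply_coe]
        exact this
    rw [hmap, OrderIso.isCoatom_iff]
    have hcB : B.ncard = m := by
      rw [← Set.ncard_image_of_injective B Subtype.val_injective,
        show Subtype.val '' B = A from Set.ext fun i => ⟨fun ⟨j, hj, e⟩ => e ▸ hj, fun hi => ⟨⟨i, fun e => hxA (e ▸ hi)⟩, hi, rfl⟩⟩]
      have hA : A = Set.range (fun i : Fin m => (⟨i.1, by omega⟩ : Fin (2 * m))) := by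
        ext i
        exact ⟨fun h => ⟨⟨i.1, h⟩, rfl⟩, fun ⟨j, e⟩ => e ▸ j.2⟩
      rw [hA, Set.ncard_range_of_injective (fun i j h => by simpa [Fin.ext_iff] using h), Nat.card_fin]
    refine Equiv.Perm.isCoatom_stabilizer ⟨⟨a, fun e => hxA (e ▸ ha)⟩, ha⟩ ⟨⟨b, ?_⟩, hb⟩ ?_
    · simp [b, x, Fin.ext_iff]; omega
    · rw [hcB, Nat.card_eq_fintype_card, Fintype.card_subtype_compl, Fintype.card_fin, Fintype.card_subtype_eq]
      omega
  · have hbx : b ≠ x := by simp [b, x, Fin.ext_iff]; omega
    have h1 : (M ⊓ S).subgroupOf K < S.subgroupOf K := by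
      have hs : Equiv.swap b x ∈ S := by
        rw [mem_stabilizer_iff, smul_set_eq_iff]
        intro i hi
        rwa [Equiv.swap_apply_of_ne_of_ne (fun e : i = b => hb (e ▸ hi)) (fun e : i = x => hxA (e ▸ hi))]
      refine lt_of_le_of_ne (Subgroup.subgroupOf_mono K inf_le_right) fun e => ?_
      have hm' : (⟨Equiv.swap b x, hWK (hSW hs)⟩ : K) ∈ (M ⊓ S).subgroupOf K := e.symm ▸ hs
      have h2 : Equiv.swap b x x = x := hm'.1
      rw [Equiv.swap_apply_right] at h2
      exact hbx h2
    have h2 := hco.2 _ h1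
    let τ : Equiv.Perm (Fin (2 * m)) := Fin.revPerm
    have hτ : τ • A = Aᶜ := by
      ext i
      constructor
      · rintro ⟨j, hj, rfl⟩
        show ¬ ((Fin.revPerm j).1 < m)
        have hj' : j.1 < m := hj
        simp [Fin.val_rev]; omega
      · intro hi
        refine ⟨Fin.rev i, ?_, by show Fin.revPerm (Fin.rev i) = i; simp⟩
        have hi' : ¬ i.1 < m := hi
        show (Fin.rev i).1 < m
        rw [Fin.val_rev]; omega
    have hmem : (⟨τ, hWK (Or.inr hτ)⟩ : K) ∈ S.subgroupOf K := h2 ▸ Subgroup.mem_top _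
    have : A = Aᶜ := (show τ • A = A from hmem).symm.trans hτ
    exact (this ▸ ha : a ∈ Aᶜ) ha

end Cfsg.Agent.S5894
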