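import Cfsg.Statements.S5895


set_option autoImplicit false
open Cfsg

namespace Cfsg.Agent.S5895

/-- A linear equivalence fixing `e` and moving `v` to `v'`. -/
theorem exists_equiv_pair {k V : Type*} [Field k] [AddCommGroup V] [Module k V] [Finite V]
    {e v v' : V} (h : v ∉ Submodule.span k {e}) (h' : v' ∉ Submodule.span k {e}) :
    ∃ g : V ≃ₗ[k] V, g e = e ∧ g v = v' := by
  have key : ∀ w ∉ Submodule.span k {e}, ∃ f : V →ₗ[k] k, f e = 0 ∧ f w ≠ 0 := fun w hw => by
    obtain ⟨f, hf, hfe⟩ := Submodule.exists_dual_map_eq_bot_of_notMem hw inferInstance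
    refine ⟨f, ?_, hf⟩
    have hm := Submodule.mem_map_of_mem (f := f) (Submodule.mem_span_singleton_self e)
    rw [hfe] at hm
    exact hm
  obtain ⟨f, fe, fv, fv'⟩ : ∃ f : V →ₗ[k] k, f e = 0 ∧ f v ≠ 0 ∧ f v' ≠ 0 := by
    obtain ⟨f1, e1, g1⟩ := key v h
    obtain ⟨f2, e2, g2⟩ := key v' h'
    by_cases h1 : f1 v' = 0
    · by_cases h2 : f2 v = 0
      · exact ⟨f1 + f2, by simp [e1, e2], by simpa [h2] using g1, by simpa [h1] using g2⟩
      · exact ⟨f2, e2, h2, g2⟩
    · exact ⟨f1, e1, g1, h1⟩
  let g : V →ₗ[k] V := LinearMap.id + ((f v)⁻¹ • f).smulRight (v' - v)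
  have hinj : Function.Injective g := by
    rw [injective_iff_map_eq_zero]
    intro x hx
    have h1 : x + ((f v)⁻¹ * f x) • (v' - v) = 0 := by simpa [g] using hx
    have h2 := congrArg f h1
    simp at h2
    have h3 : f x * f v' = 0 := by
      field_simp at h2
      linear_combination h2
    have hfx := (mul_eq_zero.1 h3).resolve_right fv'
    simpa [hfx] using h1
  refine ⟨LinearEquiv.ofBijective g ⟨hinj, Finite.surjective_of_injective hinj⟩, ?_, ?_⟩
  · show g e = e
    simp [g, fe]
  · show g v = v'
    simp [g, fv]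

/-- For every prime p and every d ≥ 2 there is a finite group G with a maximal subgroup M of index p^d and a maximal subgroup H of M that is not second maximal in G: some maximal subgroup K of G contains H without H being maximal in K. (One may take G the affine group V ⋊ GL(V) of V = 𝔽_p^d, M = GL(V), H the stabiliser in M of a line W of V, and K = V ⋊ H, with H < W ⋊ H < K.) So the prime-index hypothesis in the second-maximality criterion cannot be relaxed to prime-power index. -/
theorem result (p d : ℕ) (hp : p.Prime)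
    (hd : 2 ≤ d) :
    ∃ (G : Type) (_ : Group G) (_ : Finite G) (M H K : Subgroup G), IsCoatom M ∧ M.index = p ^ d ∧ H ≤ M ∧
      IsCoatom (H.subgroupOf M) ∧ IsCoatom K ∧ H ≤ K ∧ ¬ IsCoatom (H.subgroupOf K) := by
  haveI := Fact.mk hp
  classical
  let V := Fin d → ZMod p
  let L := V ≃ₗ[ZMod p] V
  let φ : L →* MulAut (Multiplicative V) :=
    { toFun := fun g => AddEquiv.toMultiplicative g.toAddEquiv
      map_one' := by ext x; rfl
      map_mul' := fun g h => by ext x; rfl }
  haveI : Finite L := Finite.of_injective (fun g : L => (g : V → V)) DFunLike.coe_injective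
  let G := SemidirectProduct (Multiplicative V) L φ
  haveI : Finite G := Finite.of_equiv _ SemidirectProduct.equivProd.symm
  let e0 : V := Pi.single ⟨0, by omega⟩ 1
  let e1 : V := Pi.single ⟨1, by omega⟩ 1
  have he0 : e0 ≠ 0 := fun h => by
    exact one_ne_zero (Pi.single_eq_zero_iff.1 h)
  let W : Submodule (ZMod p) V := Submodule.span (ZMod p) {e0}
  have he1W : e1 ∉ W := fun h => by
    obtain ⟨c, hc⟩ := Submodule.mem_span_singleton.1 h
    have hc' : c • (Pi.single ⟨0, by omega⟩ 1 : Fin d → ZMod p) = Pi.single ⟨1, by omega⟩ 1 := hc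
    have := congrFun hc' ⟨1, by omega⟩
    simp [Pi.smul_apply] at this
  have hbot : ∀ v : V, v ≠ 0 → v ∉ Submodule.span (ZMod p) ({0} : Set V) := fun v hv => by simpa using hv
  let P : Subgroup L :=
    { carrier := {g | W.map g.toLinearMap = W}
      one_mem' := Submodule.map_id W
      mul_mem' := fun {g h} hg hh => by
        show W.map (g.toLinearMap ∘ₗ h.toLinearMap) = W
        rw [Submodule.map_comp, hh, hg]
      inv_mem' := fun {g} hg => by
        show W.map g.symm.toLinearMap = W
        conv_lhs => rw [← hg]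
        rw [← Submodule.map_comp]
        convert Submodule.map_id W
        ext x
        simp }
  have hPmem : ∀ g : L, g ∈ P ↔ g e0 ∈ W := by
    intro g
    refine ⟨fun h => h ▸ Submodule.mem_map_of_mem (Submodule.mem_span_singleton_self e0), fun h => ?_⟩
    show W.map g.toLinearMap = W
    refine Submodule.eq_of_le_of_finrank_le ?_ (le_of_eq (LinearEquiv.finrank_map_eq g W).symm)
    rw [Submodule.map_le_iff_le_comap, Submodule.span_singleton_le_iff_mem]
    exact h
  -- the stabiliser of a line is maximal
  have hP : IsCoatom P := by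
    constructor
    · intro htop
      obtain ⟨g, hg⟩ : ∃ g : L, g e0 ∉ W := by
        obtain ⟨g, -, hg⟩ := exists_equiv_pair (hbot _ he0) (hbot e1 fun h => he1W (h ▸ W.zero_mem))
        exact ⟨g, hg.symm ▸ he1W⟩
      exact hg ((hPmem g).1 (htop ▸ Subgroup.mem_top g))
    · intro T hT
      obtain ⟨t, htT, htP⟩ := SetLike.exists_of_lt hT
      rw [hPmem] at htP
      refine eq_top_iff.2 fun g _ => ?_
      by_cases hg : g e0 ∈ W
      · exact hT.le ((hPmem g).2 hg)
      obtain ⟨s, hs0, hs1⟩ := exists_equiv_pair htP hg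
      have hsP : s ∈ P := (hPmem s).2 (hs0.symm ▸ Submodule.mem_span_singleton_self e0)
      have hrest : (s * t)⁻¹ * g ∈ P := (hPmem _).2 (by
        show (s * t).symm (g e0) ∈ W
        rw [show g e0 = (s * t) e0 from hs1.symm, LinearEquiv.symm_apply_apply]
        exact Submodule.mem_span_singleton_self e0)
      have := T.mul_mem (T.mul_mem (hT.le hsP) htT) (hT.le hrest)
      rwa [mul_inv_cancel_left] at this
  let M : Subgroup G := (SemidirectProduct.inr : L →* G).range
  have hinr : Function.Injective (SemidirectProduct.inr : L →* G) := SemidirectProduct.inr_injective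
  refine ⟨G, inferInstance, inferInstance, M, P.map SemidirectProduct.inr, P.comap SemidirectProduct.rightHom, ?_, ?_, ?_, ?_, ?_, ?_, ?_⟩
  · constructor
    · intro htop
      have : (SemidirectProduct.inl (Multiplicative.ofAdd e0) : G) ∈ M := htop ▸ Subgroup.mem_top _
      obtain ⟨g, hg⟩ := this
      exact he0 (congrArg (fun z : G => Multiplicative.toAdd z.left) hg).symm
    · intro T hT
      obtain ⟨t, htT, htM⟩ := SetLike.exists_of_lt hT
      set v : V := Multiplicative.toAdd t.left
      have hv : (SemidirectProduct.inl t.left : G) ∈ T := by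
        have := T.mul_mem htT (T.inv_mem (hT.le ⟨t.right, rfl⟩))
        convert this using 1
        rw [eq_mul_inv_iff_mul_eq, SemidirectProduct.inl_left_mul_inr_right]
      have hv0 : v ≠ 0 := fun h => htM ⟨t.right, by
        conv_rhs => rw [← SemidirectProduct.inl_left_mul_inr_right t]
        rw [show t.left = 1 from h, map_one, one_mul]⟩
      refine eq_top_iff.2 fun x _ => ?_
      rw [← SemidirectProduct.inl_left_mul_inr_right x]
      refine T.mul_mem ?_ (hT.le ⟨x.right, rfl⟩)
      by_cases hx : x.left = 1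
      · rw [hx, map_one]; exact T.one_mem
      obtain ⟨g, -, hg⟩ := exists_equiv_pair (hbot v hv0) (hbot (Multiplicative.toAdd x.left) hx)
      have hconj := T.mul_mem (T.mul_mem (hT.le ⟨g, rfl⟩) hv) (T.inv_mem (hT.le ⟨g, rfl⟩))
      rw [← map_inv, ← SemidirectProduct.inl_aut] at hconj
      convert hconj using 2
      exact hg.symm
  · have h := M.index_mul_card
    rw [SemidirectProduct.card, show Nat.card M = Nat.card L from
      Nat.card_congr (MonoidHom.ofInjective hinr).symm.toEquiv] at h
    refine Nat.eq_of_mul_eq_mul_right (Nat.card_pos (α := L)) (h.trans ?_)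
    rw [Nat.card_congr (Multiplicative.toAdd (α := V)), Nat.card_fun, Nat.card_zmod, Nat.card_fin]
  · exact fun _ ⟨g, _, e⟩ => ⟨g, e⟩
  · let e : L ≃* M := MonoidHom.ofInjective hinr
    have hmap : (P.map SemidirectProduct.inr).subgroupOf M = e.mapSubgroup P := by
      ext g
      obtain ⟨σ, rfl⟩ := e.surjective g
      rw [MulEquiv.mapSubgroup_apply]
      show _ ↔ e.toMonoidHom σ ∈ P.map e.toMonoidHom
      rw [Subgroup.mem_map_iff_mem (show Function.Injective e.toMonoidHom from e.injective), Subgroup.mem_subgroupOf]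
      exact Subgroup.mem_map_iff_mem hinr
    rw [hmap, OrderIso.isCoatom_iff]
    exact hP
  · exact Subgroup.isCoatom_comap_of_surjective (fun g => ⟨SemidirectProduct.inr g, rfl⟩) hP
  · rintro _ ⟨g, hg, rfl⟩
    exact hg
  · intro hco
    set K := P.comap (SemidirectProduct.rightHom : G →* L) with hK
    let Y : Subgroup G :=
      { carrier := {x | x.right ∈ P ∧ Multiplicative.toAdd x.left ∈ W}
        one_mem' := ⟨P.one_mem, W.zero_mem⟩
        mul_mem' := fun {x y} hx hy => by
          refine ⟨P.mul_mem hx.1 hy.1, ?_⟩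
          show Multiplicative.toAdd x.left + x.right (Multiplicative.toAdd y.left) ∈ W
          exact W.add_mem hx.2 (by
            have := Submodule.mem_map_of_mem (f := x.right.toLinearMap) hy.2
            rwa [hx.1] at this)
        inv_mem' := fun {x} hx => by
          refine ⟨P.inv_mem hx.1, ?_⟩
          show (x.right⁻¹ : L) (-(Multiplicative.toAdd x.left)) ∈ W
          have := Submodule.mem_map_of_mem (f := (x.right⁻¹ : L).toLinearMap) (W.neg_mem hx.2)
          rwa [P.inv_mem hx.1] at this }
    have hYK : Y ≤ K := fun x hx => hx.1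
    have hlt : (P.map SemidirectProduct.inr).subgroupOf K < Y.subgroupOf K := by
      refine lt_of_le_of_ne (Subgroup.subgroupOf_mono K (by
        rintro _ ⟨g, hg, rfl⟩; exact ⟨hg, W.zero_mem⟩)) fun e => ?_
      have hy : (SemidirectProduct.inl (Multiplicative.ofAdd e0) : G) ∈ Y :=
        ⟨P.one_mem, Submodule.mem_span_singleton_self e0⟩
      have : (⟨_, hYK hy⟩ : K) ∈ (P.map SemidirectProduct.inr).subgroupOf K := e.symm ▸ hy
      obtain ⟨g, -, hg⟩ := this
      exact he0 (congrArg (fun z : G => Multiplicative.toAdd z.left) hg).symm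
    have htop := hco.2 _ hlt
    have hm : (SemidirectProduct.inl (Multiplicative.ofAdd e1) : G) ∈ K := P.one_mem
    have : (⟨_, hm⟩ : K) ∈ Y.subgroupOf K := htop ▸ Subgroup.mem_top _
    exact he1W this.2

end Cfsg.Agent.S5895
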