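import Cfsg.Statements.S5896
import Mathlib

set_option autoImplicit false
open Cfsg

namespace Cfsg.Agent.S5896

set_option maxHeartbeats 1000000

open Matrix

abbrev GG (k : ℕ) : Type := SpecialLinearGroup (Fin 2) (ZMod (5 ^ k))

theorem two_isUnit (k : ℕ) : IsUnit (2 : ZMod (5 ^ k)) := by
  have h : IsUnit ((2 : ℕ) : ZMod (5 ^ k)) := (ZMod.isUnit_iff_coprime 2 (5 ^ k)).2 (Nat.Coprime.pow_right _ (by norm_num))
  exact_mod_cast h

theorem three_isUnit (k : ℕ) : IsUnit (3 : ZMod (5 ^ k)) := by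
  have h : IsUnit ((3 : ℕ) : ZMod (5 ^ k)) := (ZMod.isUnit_iff_coprime 3 (5 ^ k)).2 (Nat.Coprime.pow_right _ (by norm_num))
  exact_mod_cast h

variable {R : Type} [CommRing R]

/-- upper unitriangular -/
def xU (a : R) : SpecialLinearGroup (Fin 2) R := ⟨!![1, a; 0, 1], by simp [Matrix.det_fin_two]⟩

/-- lower unitriangular -/
def yL (a : R) : SpecialLinearGroup (Fin 2) R := ⟨!![1, 0; a, 1], by simp [Matrix.det_fin_two]⟩

/-- diagonal -/
def hD (u : Rˣ) : SpecialLinearGroup (Fin 2) R := ⟨!![(u : R), 0; 0, ((u⁻¹ : Rˣ) : R)], by simp [Matrix.det_fin_two]⟩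

theorem xU_val (a : R) : (xU a).1 = !![1, a; 0, 1] := rfl

theorem yL_val (a : R) : (yL a).1 = !![1, 0; a, 1] := rfl

theorem hD_val (u : Rˣ) : (hD u).1 = !![(u : R), 0; 0, ((u⁻¹ : Rˣ) : R)] := rfl

theorem ext2 {g h : SpecialLinearGroup (Fin 2) R} (h00 : g.1 0 0 = h.1 0 0) (h01 : g.1 0 1 = h.1 0 1)
    (h10 : g.1 1 0 = h.1 1 0) (h11 : g.1 1 1 = h.1 1 1) : g = h := by
  apply Subtype.ext
  ext i j
  fin_cases i <;> fin_cases j <;> assumption

theorem mul_ent (g h : SpecialLinearGroup (Fin 2) R) (i j : Fin 2) :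
    (g * h).1 i j = g.1 i 0 * h.1 0 j + g.1 i 1 * h.1 1 j := by
  show (g.1 * h.1) i j = _
  rw [Matrix.mul_apply, Fin.sum_univ_two]

theorem inv_ent00 (g : SpecialLinearGroup (Fin 2) R) : (g⁻¹).1 0 0 = g.1 1 1 := by
  show (Matrix.adjugate g.1) _ _ = _
  rw [Matrix.adjugate_fin_two]; rfl

theorem inv_ent01 (g : SpecialLinearGroup (Fin 2) R) : (g⁻¹).1 0 1 = -g.1 0 1 := by
  show (Matrix.adjugate g.1) _ _ = _
  rw [Matrix.adjugate_fin_two]; rfl

theorem inv_ent10 (g : SpecialLinearGroup (Fin 2) R) : (g⁻¹).1 1 0 = -g.1 1 0 := by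
  show (Matrix.adjugate g.1) _ _ = _
  rw [Matrix.adjugate_fin_two]; rfl

theorem inv_ent11 (g : SpecialLinearGroup (Fin 2) R) : (g⁻¹).1 1 1 = g.1 0 0 := by
  show (Matrix.adjugate g.1) _ _ = _
  rw [Matrix.adjugate_fin_two]; rfl

theorem one_ent (i j : Fin 2) : (1 : SpecialLinearGroup (Fin 2) R).1 i j = if i = j then 1 else 0 := by
  show (1 : Matrix (Fin 2) (Fin 2) R) i j = _
  rw [Matrix.one_apply]

theorem map_ent {S : Type} [CommRing S] (φ : R →+* S) (g : SpecialLinearGroup (Fin 2) R) (i j : Fin 2) :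
    (SpecialLinearGroup.map φ g).1 i j = φ (g.1 i j) := rfl

theorem coe_inv_mul_self (g : SpecialLinearGroup (Fin 2) R) : g.1 * (g⁻¹).1 = 1 :=
  congrArg Subtype.val (mul_inv_cancel g)

theorem det2 (g : SpecialLinearGroup (Fin 2) R) : g.1 0 0 * g.1 1 1 - g.1 0 1 * g.1 1 0 = 1 :=
  (Matrix.det_fin_two g.1).symm.trans g.2

/-- Bruhat normal form -/
theorem normal_form (g : SpecialLinearGroup (Fin 2) R) (u : Rˣ) (hu : (u : R) = g.1 1 0) :
    g = xU ((g.1 0 0 - 1) * (u⁻¹ : Rˣ)) * yL (g.1 1 0) * xU ((g.1 1 1 - 1) * (u⁻¹ : Rˣ)) := by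
  have hi : (u : R) * ((u⁻¹ : Rˣ) : R) = 1 := u.mul_inv
  have hd := det2 g
  rw [hu] at hi
  refine ext2 ?_ ?_ ?_ ?_ <;>
    simp [xU_val, yL_val, mul_ent]
  · linear_combination -(g.1 0 0 - 1) * hi
  · linear_combination -((u⁻¹ : Rˣ) : R) * hd - g.1 0 1 * hi
      - (g.1 0 0 - 1) * (g.1 1 1 - 1) * ((u⁻¹ : Rˣ) : R) * hi
  · linear_combination -(g.1 1 1 - 1) * hi

theorem mem_of_elementary (hloc : ∀ a : R, IsUnit a ∨ ∀ b : R, ¬ IsUnit b → ¬ IsUnit (a + b))
    {S : Subgroup (SpecialLinearGroup (Fin 2) R)} (hx : ∀ a, xU a ∈ S) (hy : ∀ a, yL a ∈ S)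
    (g : SpecialLinearGroup (Fin 2) R) (hg : IsUnit (g.1 1 0) ∨ IsUnit (g.1 1 0 + g.1 0 0)) : g ∈ S := by
  have key : ∀ k : SpecialLinearGroup (Fin 2) R, IsUnit (k.1 1 0) → k ∈ S := fun k hk => by
    rw [normal_form k hk.unit rfl]
    exact mul_mem (mul_mem (hx _) (hy _)) (hx _)
  rcases hg with h | h
  · exact key g h
  · have hm := key (yL 1 * g) (by
      simp [yL_val, mul_ent]
      rwa [add_comm])
    have := mul_mem (inv_mem (hy 1)) hm
    rwa [inv_mul_cancel_left] at this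

theorem bracket_comm {n : Type} [Fintype n] [DecidableEq n] {t : R} {A B g g' h h' : Matrix n n R}
    (hg : g = 1 + t • A) (hh : h = 1 + t • B) (hgg : g * g' = 1) (hhh : h * h' = 1) :
    g * h * g' * h' = 1 + (t * t) • ((A * B - B * A) * g' * h') := by
  have h1 : g * h = h * g + (t * t) • (A * B - B * A) := by
    rw [hg, hh]
    simp only [mul_add, add_mul, one_mul, mul_one, Matrix.smul_mul, Matrix.mul_smul, smul_smul, smul_sub]
    abel
  rw [h1, add_mul, add_mul, mul_assoc (h * g) g' h', mul_assoc h g, ← mul_assoc g g' h', hgg, one_mul, hhh,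
    Matrix.smul_mul, Matrix.smul_mul]

theorem unitri_pow {n : ℕ} (g : SpecialLinearGroup (Fin 2) (ZMod n)) (π : Matrix (Fin 2) (Fin 2) (ZMod n))
    (hg : g.1 = 1 + (5 : ZMod n) • π) : ∀ i : ℕ, ∃ A, (g.1 ^ 5 ^ i) = 1 + (5 : ZMod n) ^ (i + 1) • A
  | 0 => ⟨π, by rw [pow_zero, pow_one, pow_one, hg]⟩
  | i + 1 => by
    obtain ⟨A, hA⟩ := unitri_pow g π hg i
    set s := (5 : ZMod n) ^ (i + 1) with hs
    obtain ⟨c, hc⟩ : ∃ c : ZMod n, s = 5 * c := ⟨5 ^ i, by rw [hs, pow_succ']⟩
    refine ⟨A + (2 * s) • (A * A) + (2 * s * s) • (A * A * A) + (s * s * s) • (A * A * A * A) +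
      (c * (s * s * s)) • (A * A * A * A * A), ?_⟩
    rw [pow_succ 5 i, pow_mul, hA, pow_succ (5 : ZMod n) (i + 1), ← hs]
    simp only [pow_succ, pow_zero, one_mul, mul_add, add_mul, mul_one, Matrix.smul_mul, Matrix.mul_smul,
      smul_smul, smul_add, mul_assoc]
    rw [hc]
    module

theorem two_ne5 : (2 : ZMod 5) ≠ 0 ∧ (-2 : ZMod 5) ≠ 0 := by decide

theorem brk_he : (!![1, 0; 0, -1] : Matrix (Fin 2) (Fin 2) (ZMod 5)) * !![0, 1; 0, 0] - !![0, 1; 0, 0] * !![1, 0; 0, -1]
    = (2 : ZMod 5) • !![0, 1; 0, 0] := by decide +kernel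

theorem brk_hf : (!![1, 0; 0, -1] : Matrix (Fin 2) (Fin 2) (ZMod 5)) * !![0, 0; 1, 0] - !![0, 0; 1, 0] * !![1, 0; 0, -1]
    = (-2 : ZMod 5) • !![0, 0; 1, 0] := by decide +kernel

theorem brk_ef : (!![0, 1; 0, 0] : Matrix (Fin 2) (Fin 2) (ZMod 5)) * !![0, 0; 1, 0] - !![0, 0; 1, 0] * !![0, 1; 0, 0]
    = (1 : ZMod 5) • !![1, 0; 0, -1] := by decide +kernel

open scoped commutatorElement

/-- Finite perfect groups have solvable maximal subgroups of unbounded derived length: for every d there is a finite perfect group G (equal to its commutator subgroup) with a solvable maximal subgroup H whose derived length exceeds d, i.e. the d-th term of the derived series of H is non-trivial. (Take the derived subgroup of a wreath product S ≀ A₅ with S solvable of large derived length, and H the preimage of a maximal subgroup of A₅.) -/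
theorem result (d : ℕ) :
    ∃ (G : Type) (_ : Group G) (_ : Finite G) (H : Subgroup G), commutator G = ⊤ ∧ IsCoatom H ∧ Group.IsSolvable H ∧
      derivedSeries H d ≠ ⊥ := by
  classical
  haveI : Fact (Nat.Prime 5) := ⟨Nat.prime_five⟩
  set k : ℕ := 2 ^ d + 1 with hk
  have hk0 : k ≠ 0 := by simp [hk]
  
  let ρ : ZMod (5 ^ k) →+* ZMod 5 := ZMod.castHom (dvd_pow_self 5 hk0) _
  let π : (GG k) →* SpecialLinearGroup (Fin 2) (ZMod 5) := SpecialLinearGroup.map ρ
  let B : Subgroup (SpecialLinearGroup (Fin 2) (ZMod 5)) :=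
    { carrier := {g | g.1 1 0 = 0}
      one_mem' := by simp
      mul_mem' := fun {a b} ha hb => by
        simp only [Set.mem_setOf_eq] at ha hb ⊢
        simp [mul_ent, ha, hb]
      inv_mem' := fun {a} ha => by
        simp only [Set.mem_setOf_eq] at ha ⊢
        simp [inv_ent10, ha] }
  have hunit : ∀ a : ZMod (5 ^ k), IsUnit a ↔ ρ a ≠ 0 := by
    intro a
    rw [← ZMod.natCast_zmod_val a, map_natCast, ZMod.isUnit_iff_coprime,
      Nat.coprime_pow_right_iff (Nat.pos_of_ne_zero hk0), Ne, ZMod.natCast_eq_zero_iff, Nat.coprime_comm, Nat.prime_five.coprime_iff_not_dvd]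
  have hloc : ∀ a : ZMod (5 ^ k), IsUnit a ∨ ∀ b, ¬ IsUnit b → ¬ IsUnit (a + b) := fun a => by
    by_cases h : IsUnit a
    · exact Or.inl h
    · refine Or.inr fun b hb => ?_
      rw [hunit, not_not] at h hb ⊢
      rw [map_add, h, hb, add_zero]
  have hgen : ∀ S : Subgroup (GG k), (∀ a, xU a ∈ S) → (∀ a, yL a ∈ S) → S = ⊤ := by
    intro S hx hy
    refine eq_top_iff.2 fun g _ => mem_of_elementary hloc hx hy g ?_
    by_contra h
    push Not at h
    obtain ⟨h1, h2⟩ := h
    rw [hunit, not_not] at h1 h2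
    rw [map_add, h1, zero_add] at h2
    have := congrArg ρ (det2 g)
    rw [map_sub, map_mul, map_mul, h1, h2, map_one] at this
    simp at this
  have hperf : commutator (GG k) = ⊤ := by
    refine hgen _ (fun a => ?_) (fun a => ?_)
    · obtain ⟨w, hw⟩ := (three_isUnit k).exists_right_inv
      have h := Subgroup.commutator_mem_commutator (Subgroup.mem_top (hD (two_isUnit k).unit))
        (Subgroup.mem_top (xU (w * a)))
      rw [← commutator_def] at h
      convert h using 1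
      have hu : ((two_isUnit k).unit : ZMod (5 ^ k)) = 2 := rfl
      have hi : (2 : ZMod (5 ^ k)) * ((two_isUnit k).unit⁻¹ : (ZMod (5 ^ k))ˣ) = 1 := (two_isUnit k).mul_val_inv
      rw [commutatorElement_def]
      refine ext2 ?_ ?_ ?_ ?_ <;>
        simp [xU_val, hD_val, mul_ent, inv_ent00, inv_ent01, inv_ent10, inv_ent11]
      linear_combination -a * hw
    · obtain ⟨w, hw⟩ := (three_isUnit k).exists_right_inv
      have h := Subgroup.commutator_mem_commutator (Subgroup.mem_top (hD (two_isUnit k).unit⁻¹))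
        (Subgroup.mem_top (yL (w * a)))
      rw [← commutator_def] at h
      convert h using 1
      have hu : ((two_isUnit k).unit : ZMod (5 ^ k)) = 2 := rfl
      have hi : (2 : ZMod (5 ^ k)) * ((two_isUnit k).unit⁻¹ : (ZMod (5 ^ k))ˣ) = 1 := (two_isUnit k).mul_val_inv
      rw [commutatorElement_def]
      refine ext2 ?_ ?_ ?_ ?_ <;>
        simp [yL_val, hD_val, mul_ent, inv_ent00, inv_ent01, inv_ent10, inv_ent11]
      linear_combination -a * hw
  have hsurj : Function.Surjective π := by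
    rw [← MonoidHom.range_eq_top, eq_top_iff]
    intro g _
    refine mem_of_elementary (fun a => ?_) (fun a => ?_) (fun a => ?_) g ?_
    · by_cases h : a = 0
      · exact Or.inr fun b hb => by rw [h, zero_add]; exact hb
      · exact Or.inl (Ne.isUnit h)
    · obtain ⟨a', rfl⟩ := ZMod.castHom_surjective (dvd_pow_self 5 hk0) a
      exact ⟨xU a', ext2 (by simp [π, xU_val, map_ent]) rfl (by simp [π, xU_val, map_ent]) (by simp [π, xU_val, map_ent])⟩
    · obtain ⟨a', rfl⟩ := ZMod.castHom_surjective (dvd_pow_self 5 hk0) a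
      exact ⟨yL a', ext2 (by simp [π, yL_val, map_ent]) (by simp [π, yL_val, map_ent]) rfl (by simp [π, yL_val, map_ent])⟩
    · by_cases h : g.1 1 0 = 0
      · refine Or.inr (Ne.isUnit ?_)
        rw [h, zero_add]
        intro h0
        have := det2 g
        rw [h, h0] at this
        simp at this
      · exact Or.inl (Ne.isUnit h)
  have hB : IsCoatom B := by
    constructor
    · intro h
      have : (yL (1 : ZMod 5)).1 1 0 = 0 := (h.symm ▸ Subgroup.mem_top _ : yL (1 : ZMod 5) ∈ B)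
      simp [yL_val] at this
    · intro T hT
      obtain ⟨t, htT, htB⟩ := SetLike.exists_of_lt hT
      have hx : ∀ a, xU a ∈ T := fun a => hT.le (show (xU a).1 1 0 = 0 by simp [xU_val])
      have hc : (t.1 1 0 : ZMod 5) ≠ 0 := htB
      have hyc : yL (t.1 1 0) ∈ T := by
        have := mul_mem (mul_mem (inv_mem (hx ((t.1 0 0 - 1) * ((Units.mk0 _ hc)⁻¹ : (ZMod 5)ˣ)))) htT)
          (inv_mem (hx ((t.1 1 1 - 1) * ((Units.mk0 _ hc)⁻¹ : (ZMod 5)ˣ))))
        convert this using 1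
        rw [eq_mul_inv_iff_mul_eq, eq_inv_mul_iff_mul_eq, ← mul_assoc]
        exact (normal_form t (Units.mk0 _ hc) rfl).symm
      have hy : ∀ a, yL a ∈ T := by
        intro a
        obtain ⟨j, rfl⟩ : ∃ j : ℕ, (j : ZMod 5) * t.1 1 0 = a :=
          ⟨(a * (t.1 1 0)⁻¹).val, by rw [ZMod.natCast_zmod_val, mul_assoc, inv_mul_cancel₀ hc, mul_one]⟩
        induction j with
        | zero =>
          convert T.one_mem using 1
          exact ext2 (by simp [yL_val]) (by simp [yL_val]) (by simp [yL_val]) (by simp [yL_val])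
        | succ j ih =>
          convert mul_mem ih hyc using 1
          refine ext2 ?_ ?_ ?_ ?_ <;> simp [yL_val, mul_ent, add_mul]
      refine eq_top_iff.2 fun g _ => mem_of_elementary (fun a => ?_) hx hy g ?_
      · by_cases h : a = 0
        · exact Or.inr fun b hb => by rw [h, zero_add]; exact hb
        · exact Or.inl (Ne.isUnit h)
      · by_cases h : g.1 1 0 = 0
        · refine Or.inr (Ne.isUnit ?_)
          rw [h, zero_add]
          intro h0
          have := det2 g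
          rw [h, h0] at this
          simp at this
        · exact Or.inl (Ne.isUnit h)
  set H := B.comap π with hH
  let ρM : Matrix (Fin 2) (Fin 2) (ZMod (5 ^ k)) →+* Matrix (Fin 2) (Fin 2) (ZMod 5) := RingHom.mapMatrix ρ
  have hmod : ∀ g : (GG k), π g = 1 → ∃ A, g.1 = 1 + (5 : ZMod (5 ^ k)) • A := by
    intro g hg
    have h5 : ∀ a : ZMod (5 ^ k), ρ a = 0 → ∃ b, a = 5 * b := by
      intro a ha
      rw [← ZMod.natCast_zmod_val a, map_natCast, ZMod.natCast_eq_zero_iff] at ha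
      obtain ⟨b, hb⟩ := ha
      exact ⟨b, by rw [← ZMod.natCast_zmod_val a, hb]; push_cast; ring⟩
    have hij : ∀ i j, ∃ b, g.1 i j - (1 : Matrix (Fin 2) (Fin 2) (ZMod (5 ^ k))) i j = 5 * b := fun i j => h5 _ (by
      have := congrArg (fun z : SpecialLinearGroup (Fin 2) (ZMod 5) => z.1 i j) hg
      simp only [π, map_ent, one_ent] at this
      rw [map_sub, this]
      fin_cases i <;> fin_cases j <;> simp)
    choose b hb using hij
    refine ⟨Matrix.of b, ?_⟩
    ext i j
    rw [Matrix.add_apply, Matrix.smul_apply, Matrix.of_apply, smul_eq_mul]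
    linear_combination hb i j
  haveI : Group.IsSolvable π.ker := by
    have hp : IsPGroup 5 π.ker := fun g => by
      obtain ⟨A, hA⟩ := hmod g.1 g.2
      obtain ⟨A', hA'⟩ := unitri_pow g.1 A hA k
      refine ⟨k, Subtype.ext (Subtype.ext ?_)⟩
      show g.1.1 ^ 5 ^ k = 1
      rw [hA', pow_succ (5 : ZMod (5 ^ k)) k]
      have h0 : ((5 : ZMod (5 ^ k))) ^ k = 0 := by
        have := ZMod.natCast_self (5 ^ k)
        exact_mod_cast this
      rw [h0, zero_mul, zero_smul, add_zero]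
    haveI := hp.isNilpotent
    infer_instance
  haveI : Group.IsSolvable B := by
    let f : B →* (ZMod 5)ˣ :=
      { toFun := fun g => Units.mk0 (g.1.1 0 0) (fun h => by
          have := det2 g.1
          rw [h, show g.1.1 1 0 = 0 from g.2] at this
          simp at this)
        map_one' := Units.ext (by simp)
        map_mul' := fun a b => Units.ext (by
          simp only [Subgroup.coe_mul, Units.val_mk0, Units.val_mul]
          simp [mul_ent, show b.1.1 1 0 = 0 from b.2]) }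
    haveI : Group.IsSolvable (ZMod 5)ˣ := Group.isSolvable_of_comm mul_comm
    haveI : Group.IsSolvable f.ker := Group.isSolvable_of_comm fun a b => Subtype.ext (Subtype.ext (by
      have ha : (a : B).1.1 0 0 = 1 := congrArg Units.val (show f a = 1 from a.2)
      have hb : (b : B).1.1 0 0 = 1 := congrArg Units.val (show f b = 1 from b.2)
      have ha' : (a : B).1.1 1 0 = 0 := a.1.2
      have hb' : (b : B).1.1 1 0 = 0 := b.1.2
      have ha11 : (a : B).1.1 1 1 = 1 := by have := det2 (a : B).1; rw [ha, ha'] at this; simpa using this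
      have hb11 : (b : B).1.1 1 1 = 1 := by have := det2 (b : B).1; rw [hb, hb'] at this; simpa using this
      refine ext2 ?_ ?_ ?_ ?_ <;>
        simp [mul_ent, ha, hb, ha', hb', ha11, hb11, add_comm]))
    exact Group.isSolvable_of_ker_le_range f.ker.subtype f (le_of_eq (Subgroup.range_subtype _).symm)
  have hHsolv : Group.IsSolvable H := by
    let f : H →* B := (π.comp H.subtype).codRestrict B fun g => g.2
    haveI : Group.IsSolvable f.ker := Group.isSolvable_of_isSolvable_injective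
      (f := (H.subtype.comp f.ker.subtype).codRestrict π.ker fun g => congrArg Subtype.val (show f g.1 = 1 from g.2))
      (fun a b h => Subtype.ext (Subtype.ext (congrArg (fun z : π.ker => (z : (GG k))) h)))
    exact Group.isSolvable_of_ker_le_range f.ker.subtype f (le_of_eq (Subgroup.range_subtype _).symm)
  refine ⟨GG k, inferInstance, inferInstance, H, hperf, Subgroup.isCoatom_comap_of_surjective hsurj hB, hHsolv, ?_⟩
  let e : Matrix (Fin 2) (Fin 2) (ZMod 5) := !![0, 1; 0, 0]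
  let f : Matrix (Fin 2) (Fin 2) (ZMod 5) := !![0, 0; 1, 0]
  let h : Matrix (Fin 2) (Fin 2) (ZMod 5) := !![1, 0; 0, -1]
  have step : ∀ j, ∀ X ∈ ({e, f, h} : Set (Matrix (Fin 2) (Fin 2) (ZMod 5))), ∃ g ∈ derivedSeries H j,
      ∃ (c : ZMod 5) (A : Matrix (Fin 2) (Fin 2) (ZMod (5 ^ k))),
        c ≠ 0 ∧ ρM A = c • X ∧ (g.1.1 : Matrix (Fin 2) (Fin 2) (ZMod (5 ^ k))) = 1 + (5 : ZMod (5 ^ k)) ^ 2 ^ j • A := by
    intro j
    induction j with
    | zero =>
      have hker : ∀ g : (GG k), π g = 1 → g ∈ H := fun g hg => by rw [hH, Subgroup.mem_comap, hg]; exact one_mem B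
      have h50 : ρ 5 = 0 := by rw [show (5 : ZMod (5 ^ k)) = ((5 : ℕ) : ZMod (5 ^ k)) by simp, map_natCast]; rfl
      have h6 : IsUnit (6 : ZMod (5 ^ k)) := by
        have h : IsUnit ((6 : ℕ) : ZMod (5 ^ k)) := (ZMod.isUnit_iff_coprime 6 (5 ^ k)).2 (Nat.Coprime.pow_right _ (by norm_num))
        exact_mod_cast h
      intro X hX
      rcases hX with rfl | rfl | rfl
      · refine ⟨⟨xU 5, hker _ (ext2 (by simp [π, xU_val, map_ent]) (by simp [π, xU_val, h50]) (by simp [π, xU_val, map_ent]) (by simp [π, xU_val, map_ent]))⟩,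
          by simp, 1, !![0, 1; 0, 0], one_ne_zero, ?_, ?_⟩
        · rw [one_smul]; ext i l; fin_cases i <;> fin_cases l <;> simp [ρM, e]
        · ext i l; fin_cases i <;> fin_cases l <;> simp [xU_val]
      · refine ⟨⟨yL 5, hker _ (ext2 (by simp [π, yL_val, map_ent]) (by simp [π, yL_val, map_ent]) (by simp [π, yL_val, h50]) (by simp [π, yL_val, map_ent]))⟩,
          by simp, 1, !![0, 0; 1, 0], one_ne_zero, ?_, ?_⟩
        · rw [one_smul]; ext i l; fin_cases i <;> fin_cases l <;> simp [ρM, f]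
        · ext i l; fin_cases i <;> fin_cases l <;> simp [yL_val]
      · have hu : (h6.unit : ZMod (5 ^ k)) = 6 := rfl
        have hi : (6 : ZMod (5 ^ k)) * ((h6.unit⁻¹ : (ZMod (5 ^ k))ˣ) : ZMod (5 ^ k)) = 1 := by
          exact h6.mul_val_inv
        have h61 : ρ 6 = 1 := by
          rw [show (6 : ZMod (5 ^ k)) = 5 + 1 by norm_num, map_add, h50, map_one, zero_add]
        have hρi : ρ ((h6.unit⁻¹ : (ZMod (5 ^ k))ˣ) : ZMod (5 ^ k)) = 1 := by
          have := congrArg ρ hi
          rw [map_mul, map_one, h61, one_mul] at this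
          exact this
        refine ⟨⟨hD h6.unit, hker _ (ext2 (by simp [π, hD_val, hu, show (6 : ZMod (5 ^ k)) = 5 + 1 by norm_num, h50])
          (by simp [π, hD_val]) (by simp [π, hD_val]) (by simp only [π, hD_val, SpecialLinearGroup.map_apply_coe]; simp [hρi]))⟩,
          by simp, 1, !![1, 0; 0, -((h6.unit⁻¹ : (ZMod (5 ^ k))ˣ) : ZMod (5 ^ k))], one_ne_zero, ?_, ?_⟩
        · rw [one_smul]; ext i l; fin_cases i <;> fin_cases l <;> simp [ρM, h, hρi]
        · ext i l
          fin_cases i <;> fin_cases l <;> simp [hD_val, hu]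
          · norm_num
          · linear_combination hi
    | succ j ih =>
      have comm : ∀ X Y : Matrix (Fin 2) (Fin 2) (ZMod 5), (∃ g ∈ derivedSeries H j,
          ∃ (c : ZMod 5) (A : Matrix (Fin 2) (Fin 2) (ZMod (5 ^ k))),
          c ≠ 0 ∧ ρM A = c • X ∧ (g.1.1 : Matrix (Fin 2) (Fin 2) (ZMod (5 ^ k))) = 1 + (5 : ZMod (5 ^ k)) ^ 2 ^ j • A) →
          (∃ g ∈ derivedSeries H j, ∃ (c : ZMod 5) (A : Matrix (Fin 2) (Fin 2) (ZMod (5 ^ k))),
          c ≠ 0 ∧ ρM A = c • Y ∧ (g.1.1 : Matrix (Fin 2) (Fin 2) (ZMod (5 ^ k))) = 1 + (5 : ZMod (5 ^ k)) ^ 2 ^ j • A) →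
          ∃ g ∈ derivedSeries H (j + 1), ∃ (c : ZMod 5) (A : Matrix (Fin 2) (Fin 2) (ZMod (5 ^ k))),
          c ≠ 0 ∧ ρM A = c • (X * Y - Y * X) ∧ (g.1.1 : Matrix (Fin 2) (Fin 2) (ZMod (5 ^ k))) = 1 + (5 : ZMod (5 ^ k)) ^ 2 ^ (j + 1) • A := by
        rintro X Y ⟨g, hg, c, A, hc, hA, eg⟩ ⟨g', hg', c', A', hc', hA', eg'⟩
        refine ⟨⁅g, g'⁆, by rw [derivedSeries_succ]; exact Subgroup.commutator_mem_commutator hg hg', c * c',
          (A * A' - A' * A) * (g⁻¹).1.1 * (g'⁻¹).1.1, mul_ne_zero hc hc', ?_, ?_⟩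
        · have e1 : ∀ x : H, (∃ A, (x.1.1 : Matrix (Fin 2) (Fin 2) (ZMod (5 ^ k))) = 1 + (5 : ZMod (5 ^ k)) ^ 2 ^ j • A) →
              ρM (x⁻¹).1.1 = 1 := by
            rintro x ⟨A, hx⟩
            have h1 : ρM x.1.1 = 1 := by
              rw [hx, map_add, map_one, add_eq_left]
              ext i l
              simp only [ρM, RingHom.mapMatrix_apply, Matrix.map_apply, Matrix.smul_apply, smul_eq_mul, map_mul, map_pow, Matrix.zero_apply]
              rw [show ρ 5 = 0 by rw [show (5 : ZMod (5 ^ k)) = ((5 : ℕ) : ZMod (5 ^ k)) by simp, map_natCast]; rfl,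
                zero_pow (by positivity), zero_mul]
            have h2 : x.1.1 * (x⁻¹).1.1 = 1 := congrArg (fun z : H => z.1.1) (mul_inv_cancel x)
            have := congrArg ρM h2
            rwa [map_mul, h1, one_mul, map_one] at this
          rw [map_mul, map_mul, e1 g ⟨A, eg⟩, e1 g' ⟨A', eg'⟩, mul_one, mul_one, map_sub, map_mul, map_mul, hA, hA',
            Matrix.smul_mul, Matrix.smul_mul, Matrix.mul_smul, Matrix.mul_smul, smul_smul, smul_smul, mul_comm c' c, smul_sub]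
        · rw [show (5 : ZMod (5 ^ k)) ^ 2 ^ (j + 1) = (5 : ZMod (5 ^ k)) ^ 2 ^ j * (5 : ZMod (5 ^ k)) ^ 2 ^ j from by
            rw [← pow_add, pow_succ 2 j, mul_two]]
          show g.1.1 * g'.1.1 * (g⁻¹).1.1 * (g'⁻¹).1.1 = _
          exact bracket_comm eg eg'
            (congrArg (fun z : H => z.1.1) (mul_inv_cancel g))
            (congrArg (fun z : H => z.1.1) (mul_inv_cancel g'))
      have fix : ∀ (Z X : Matrix (Fin 2) (Fin 2) (ZMod 5)) (a : ZMod 5), a ≠ 0 → Z = a • X →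
          (∃ g ∈ derivedSeries H (j + 1), ∃ (c : ZMod 5) (A : Matrix (Fin 2) (Fin 2) (ZMod (5 ^ k))),
          c ≠ 0 ∧ ρM A = c • Z ∧ (g.1.1 : Matrix (Fin 2) (Fin 2) (ZMod (5 ^ k))) = 1 + (5 : ZMod (5 ^ k)) ^ 2 ^ (j + 1) • A) →
          ∃ g ∈ derivedSeries H (j + 1), ∃ (c : ZMod 5) (A : Matrix (Fin 2) (Fin 2) (ZMod (5 ^ k))),
          c ≠ 0 ∧ ρM A = c • X ∧ (g.1.1 : Matrix (Fin 2) (Fin 2) (ZMod (5 ^ k))) = 1 + (5 : ZMod (5 ^ k)) ^ 2 ^ (j + 1) • A := by
        rintro Z X a ha rfl ⟨g, hg, c, A, hc, hA, eg⟩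
        exact ⟨g, hg, c * a, A, mul_ne_zero hc ha, by rw [hA, smul_smul], eg⟩
      intro X hX
      rcases hX with rfl | rfl | rfl
      · exact fix _ e 2 two_ne5.1 brk_he (comm h e (ih h (by simp)) (ih e (by simp)))
      · exact fix _ f (-2) two_ne5.2 brk_hf (comm h f (ih h (by simp)) (ih f (by simp)))
      · exact fix _ h 1 one_ne_zero brk_ef (comm e f (ih e (by simp)) (ih f (by simp)))
  intro hbot
  obtain ⟨g, hg, c, A, hc, hA, eg⟩ := step d e (by simp)
  rw [hbot, Subgroup.mem_bot] at hg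
  rw [hg] at eg
  change (1 : Matrix (Fin 2) (Fin 2) (ZMod (5 ^ k))) = _ at eg
  have h01 := congrFun (congrFun eg 0) 1
  have hA01 := congrFun (congrFun hA 0) 1
  simp [ρM, e] at h01 hA01
  have hu : IsUnit (A 0 1) := (hunit _).2 (by rw [hA01]; exact hc)
  have hm : ((5 ^ 2 ^ d : ℕ) : ZMod (5 ^ k)) = 0 := by
    push_cast
    exact hu.mul_left_eq_zero.1 h01.symm
  rw [ZMod.natCast_eq_zero_iff, Nat.pow_dvd_pow_iff_le_right (by norm_num)] at hm
  omega

end Cfsg.Agent.S5896
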