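import Cfsg.Statements.S5904
import Mathlib

set_option autoImplicit false
open scoped Pointwise
open Cfsg

namespace Cfsg.Agent.S5904

/-- Let Ω be a finite set with more than two elements and O ⊆ Ω a subset with exactly as many elements as its complement. Then the setwise stabilizer of O in the symmetric group on Ω is not a maximal subgroup (it is properly contained in the stabilizer of the partition {O, Ω ∖ O}, which is proper). -/
theorem result {Ω : Type*} [Fintype Ω] [DecidableEq Ω] (hΩ : 2 < Fintype.card Ω)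
    (O : Set Ω) (hO : Nat.card O = Nat.card ↥Oᶜ) :
    ¬ IsCoatom (MulAction.stabilizer (Equiv.Perm Ω) O) := by
  classical
  have h2 : 1 < Nat.card O := by
    have h := Nat.card_congr (Equiv.Set.sumCompl O)
    rw [Nat.card_sum, ← hO, Nat.card_eq_fintype_card (α := Ω)] at h
    omega
  obtain ⟨⟨a, ha⟩, ⟨b, hb⟩, hab⟩ := (Finite.one_lt_card_iff_nontrivial.mp h2).exists_pair_ne
  have hne : Nonempty ↥Oᶜ := (Nat.card_pos_iff.mp (by omega : 0 < Nat.card ↥Oᶜ)).1
  obtain ⟨⟨c, hc⟩⟩ := hne
  intro hmax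
  let K : Subgroup (Equiv.Perm Ω) :=
    { carrier := {g | g • O = O ∨ g • O = Oᶜ}
      one_mem' := Or.inl (one_smul _ O)
      mul_mem' := fun {g h} hg hh => by
        have hcompl : ∀ σ : Equiv.Perm Ω, σ • Oᶜ = (σ • O)ᶜ := fun σ => Set.smul_set_compl
        show (g * h) • O = O ∨ (g * h) • O = Oᶜ
        rw [mul_smul]
        rcases hh with hh | hh <;> rcases hg with hg | hg <;> simp [hh, hg, hcompl]
      inv_mem' := fun {g} hg => by
        show g⁻¹ • O = O ∨ g⁻¹ • O = Oᶜ
        rcases hg with hg | hg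
        · left; conv_lhs => rw [← hg, inv_smul_smul]
        · right
          have h1 : g • Oᶜ = O := by rw [Set.smul_set_compl, hg, compl_compl]
          conv_lhs => rw [← h1, inv_smul_smul] }
  have hle : MulAction.stabilizer (Equiv.Perm Ω) O ≤ K := fun g hg => Or.inl hg
  let e : {x // x ∈ O} ≃ {x // x ∉ O} :=
    Classical.choice (Finite.card_eq.mp hO)
  let σ : Equiv.Perm Ω :=
    (Equiv.sumCompl (fun x => x ∈ O)).symm.trans
      ((Equiv.sumComm _ _).trans ((Equiv.sumCongr e.symm e).trans (Equiv.sumCompl (fun x => x ∈ O))))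
  have hσ1 : ∀ x, x ∈ O → σ x ∉ O := fun x hx => by
    simp only [σ, Equiv.trans_apply, Equiv.sumCompl_symm_apply_of_pos hx]
    exact (e ⟨x, hx⟩).2
  have hσ2 : ∀ x, x ∉ O → σ x ∈ O := fun x hx => by
    simp only [σ, Equiv.trans_apply, Equiv.sumCompl_symm_apply_of_neg hx]
    exact (e.symm ⟨x, hx⟩).2
  have hσK : σ • O = Oᶜ := by
    ext y
    obtain ⟨x, rfl⟩ := σ.surjective y
    rw [show σ x = σ • x from rfl, Set.smul_mem_smul_set_iff, Set.mem_compl_iff]
    exact ⟨fun hx => hσ1 x hx, fun hy => by_contra fun hx => hy (hσ2 x hx)⟩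
  have hσn : σ ∉ MulAction.stabilizer (Equiv.Perm Ω) O := fun h => by
    have hm : σ a ∈ σ • O := Set.smul_mem_smul_set ha
    rw [MulAction.mem_stabilizer_iff.mp h] at hm
    exact hσ1 a ha hm
  have htop : K = ⊤ := hmax.2 K (lt_of_le_not_ge hle fun h => hσn (h (Or.inr hσK)))
  have hmem : Equiv.swap a c ∈ K := htop ▸ Subgroup.mem_top _
  have h1 : c ∈ Equiv.swap a c • O := ⟨a, ha, Equiv.swap_apply_left a c⟩
  have h2' : b ∈ Equiv.swap a c • O := ⟨b, hb, Equiv.swap_apply_of_ne_of_ne
    (fun h => hab (Subtype.ext h.symm)) (fun h => hc (h ▸ hb))⟩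
  rcases hmem with h | h
  · exact hc (h ▸ h1)
  · exact (h ▸ h2' : b ∈ Oᶜ) hb

end Cfsg.Agent.S5904
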