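import Cfsg.Statements.S5905


set_option autoImplicit false
open Cfsg

namespace Cfsg.Agent.S5905

/-- Let Ω be a finite set and f : Ω → Fin b a map onto b ≥ 2 labels whose fibres all have the same size a ≥ 2 (a partition of Ω into b blocks of size a, so |Ω| = ab). Then the stabilizer of this partition in the symmetric group on Ω — the permutations g such that x and y lie in the same block exactly when g x and g y do, a group isomorphic to the imprimitive wreath product S_a ≀ S_b — is a maximal subgroup of the symmetric group. -/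
theorem result {Ω : Type*} [Fintype Ω] [DecidableEq Ω] (a b : ℕ) (ha : 2 ≤ a) (hb : 2 ≤ b)
    (f : Ω → Fin b) (hf : ∀ i : Fin b, Nat.card {x : Ω // f x = i} = a) :
    IsCoatom (Subgroup.closure {g : Equiv.Perm Ω | ∀ x y : Ω, f x = f y ↔ f (g x) = f (g y)}) := by
  let W : Subgroup (Equiv.Perm Ω) :=
    { carrier := {g | ∀ x y : Ω, f x = f y ↔ f (g x) = f (g y)}
      one_mem' := fun x y => Iff.rfl
      mul_mem' := fun {g h} hg hh x y => (hh x y).trans (hg (h x) (h y))
      inv_mem' := fun {g} hg x y => by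
        have := (hg (g⁻¹ x) (g⁻¹ y)).symm
        simpa using this }
  have hW : Subgroup.closure {g : Equiv.Perm Ω | ∀ x y : Ω, f x = f y ↔ f (g x) = f (g y)} = W := W.closure_eq
  rw [hW]
  classical
  have hfib : ∀ i : Fin b, ∃ x y : Ω, f x = i ∧ f y = i ∧ x ≠ y := by
    intro i
    have h1 : 1 < Nat.card {x : Ω // f x = i} := by rw [hf i]; omega
    rw [Nat.card_eq_fintype_card, Fintype.one_lt_card_iff] at h1
    obtain ⟨x, y, hxy⟩ := h1
    exact ⟨x, y, x.2, y.2, fun h => hxy (Subtype.ext h)⟩
  have hswap : ∀ x y : Ω, f x = f y → Equiv.swap x y ∈ W := by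
    intro x y h u v
    have key : ∀ w, f (Equiv.swap x y w) = f w := fun w => by
      rcases eq_or_ne w x with rfl | h1
      · rw [Equiv.swap_apply_left, h]
      rcases eq_or_ne w y with rfl | h2
      · rw [Equiv.swap_apply_right, h]
      rw [Equiv.swap_apply_of_ne_of_ne h1 h2]
    rw [key, key]
  constructor
  · intro htop
    obtain ⟨x, x', hx, hx', hxx⟩ := hfib ⟨0, by omega⟩
    obtain ⟨y, -, hy, -, -⟩ := hfib ⟨1, by omega⟩
    have hxy : f x ≠ f y := by rw [hx, hy]; simp
    have hm : Equiv.swap x y ∈ W := htop ▸ Subgroup.mem_top _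
    have h := (hm x x').1 (hx.trans hx'.symm)
    rw [Equiv.swap_apply_left, Equiv.swap_apply_of_ne_of_ne hxx.symm (fun e => hxy (by rw [hx, ← e, hx']))] at h
    exact hxy (hx.trans (hx'.symm.trans h.symm))
  · intro G hG
    obtain ⟨g, hg, hgW⟩ := SetLike.exists_of_lt hG
    obtain ⟨x, y, hxy, hne⟩ : ∃ x y : Ω, Equiv.swap x y ∈ G ∧ f x ≠ f y := by
      obtain ⟨u, v, huv⟩ : ∃ u v : Ω, ¬ (f u = f v ↔ f (g u) = f (g v)) := by
        by_contra! h
        exact hgW h
      by_cases h : f u = f v
      · refine ⟨g u, g v, ?_, fun h' => huv (iff_of_true h h')⟩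
        rw [Equiv.swap_apply_apply]
        exact G.mul_mem (G.mul_mem hg (hG.le (hswap u v h))) (G.inv_mem hg)
      · have h' : f (g u) = f (g v) := by by_contra h'; exact huv (iff_of_false h h')
        refine ⟨u, v, ?_, h⟩
        have e : Equiv.swap u v = g⁻¹ * Equiv.swap (g u) (g v) * g := by
          rw [Equiv.swap_apply_apply]; group
        rw [e]
        exact G.mul_mem (G.mul_mem (G.inv_mem hg) (hG.le (hswap _ _ h'))) hg
    -- transport to an arbitrary pair of points in different blocks
    have hequiv : ∀ i j : Fin b, ∃ e : {x : Ω // f x = i} ≃ {x : Ω // f x = j}, True := fun i j =>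
      ⟨Fintype.equivOfCardEq (by rw [← Nat.card_eq_fintype_card, ← Nat.card_eq_fintype_card, hf, hf]), trivial⟩
    choose e _ using hequiv
    have hblock : ∀ σ : Equiv.Perm (Fin b), ∃ w ∈ W, ∀ z, f (w z) = σ (f z) := by
      intro σ
      let fn : Ω → Ω := fun z => (e (f z) (σ (f z)) ⟨z, rfl⟩).1
      have hfn : ∀ z, f (fn z) = σ (f z) := fun z => (e (f z) (σ (f z)) ⟨z, rfl⟩).2
      have key : ∀ (i : Fin b) (z : {x : Ω // f x = i}), fn z.1 = (e i (σ i) z).1 := by
        rintro i ⟨z, rfl⟩
        rfl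
      have hinj : Function.Injective fn := by
        intro z z' h
        have hf' : f z = f z' := σ.injective (by rw [← hfn, ← hfn, h])
        rw [key (f z) ⟨z, rfl⟩, key (f z) ⟨z', hf'.symm⟩] at h
        exact congrArg Subtype.val ((e _ _).injective (Subtype.ext h))
      refine ⟨Equiv.ofBijective fn ⟨hinj, Finite.surjective_of_injective hinj⟩, fun z z' => ?_, hfn⟩
      show f z = f z' ↔ f (fn z) = f (fn z')
      rw [hfn, hfn, σ.injective.eq_iff]
    have hall : ∀ u v : Ω, Equiv.swap u v ∈ G := by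
      intro u v
      by_cases h : f u = f v
      · exact hG.le (hswap u v h)
      obtain ⟨σ, hσ1, hσ2⟩ : ∃ σ : Equiv.Perm (Fin b), σ (f x) = f u ∧ σ (f y) = f v := by
        refine ⟨Equiv.swap (Equiv.swap (f x) (f u) (f y)) (f v) * Equiv.swap (f x) (f u), ?_, ?_⟩
        · rw [Equiv.Perm.mul_apply, Equiv.swap_apply_left, Equiv.swap_apply_of_ne_of_ne _ h]
          intro e'
          exact hne ((Equiv.swap (f x) (f u)).injective ((Equiv.swap_apply_left _ _).trans e'))
        · rw [Equiv.Perm.mul_apply, Equiv.swap_apply_left]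
      obtain ⟨w, hw, hwf⟩ := hblock σ
      have h1 : f (w x) = f u := (hwf x).trans hσ1
      have h2 : f (w y) = f v := (hwf y).trans hσ2
      set s := Equiv.swap (w y) v * (Equiv.swap (w x) u * w) with hs
      have hsG : s ∈ G := G.mul_mem (hG.le (hswap _ _ h2)) (G.mul_mem (hG.le (hswap _ _ h1)) (hG.le hw))
      have hsx : s x = u := by
        rw [hs, Equiv.Perm.mul_apply, Equiv.Perm.mul_apply, Equiv.swap_apply_left,
          Equiv.swap_apply_of_ne_of_ne (fun e' => h (by rw [e', h2])) (fun e' => h (by rw [e']))]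
      have hsy : s y = v := by
        have h3 : Equiv.swap (w x) u (w y) = w y := Equiv.swap_apply_of_ne_of_ne
          (fun e' => h (by rw [← h1, ← h2, e'])) (fun e' => h (by rw [← h2, e']))
        rw [hs, Equiv.Perm.mul_apply, Equiv.Perm.mul_apply, h3, Equiv.swap_apply_left]
      rw [← hsx, ← hsy, Equiv.swap_apply_apply]
      exact G.mul_mem (G.mul_mem hsG hxy) (G.inv_mem hsG)
    rw [eq_top_iff, ← Equiv.Perm.closure_isSwap, Subgroup.closure_le]
    rintro s ⟨u, v, -, rfl⟩
    exact hall u v

end Cfsg.Agent.S5905
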