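import Cfsg.Statements.S5908
import Cfsg.Agent.Lib.ClassicalPSUThreeTwo

set_option autoImplicit false
open Cfsg

namespace Cfsg.Agent.S5908

/-- The subgroup lattice of PSU₃(2) (the solvable group of order 72, realised over the field with 4 elements) is not complemented: some subgroup H has no subgroup X with H ⊔ X = ⊤ and H ⊓ X = ⊥. -/
theorem result {F : Type*} [Field F] [Fintype F] (hF : Fintype.card F = 4) :
    ¬ ComplementedLattice (Subgroup (Cfsg.PSU 3 F 2)) := by
  obtain ⟨hc, N, hN, h9, h3, -, ⟨e⟩⟩ := CfsgLib.Classical.PSUThreeTwo.structure_psu F hF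
  intro hC
  let π : Cfsg.PSU 3 F 2 →* QuaternionGroup 2 := e.toMonoidHom.comp (QuotientGroup.mk' N)
  have hπ : Function.Surjective π := e.surjective.comp (QuotientGroup.mk'_surjective N)
  let H := (Subgroup.zpowers (QuaternionGroup.a 2 : QuaternionGroup 2)).comap π
  have htwo : ∀ y : QuaternionGroup 2, y * y = 1 → y = 1 ∨ y = QuaternionGroup.a 2 := by decide
  obtain ⟨X, hX⟩ := exists_isCompl H
  have hX1 : X = ⊥ := by
    by_contra hne
    have hcX : 1 < Nat.card X := (Subgroup.one_lt_card_iff_ne_bot X).2 hne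
    obtain ⟨p, hp, hpd⟩ := Nat.exists_prime_and_dvd (Nat.ne_of_gt hcX)
    haveI : Fact p.Prime := ⟨hp⟩
    obtain ⟨x, hx⟩ := exists_prime_orderOf_dvd_card' p hpd
    have hp72 : p ∣ 72 := hc ▸ hpd.trans (Subgroup.card_subgroup_dvd_card X)
    have hp23 : p = 2 ∨ p = 3 := by
      have hle := Nat.le_of_dvd (by norm_num) hp72
      rcases hp.eq_two_or_odd' with h | h
      · exact Or.inl h
      · right
        have h9' : p ∣ 3 ^ 2 := by
          refine (Nat.Coprime.dvd_of_dvd_mul_left ?_ (show p ∣ 2 ^ 3 * 3 ^ 2 from hp72))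
          exact Nat.Coprime.pow_right _ (Nat.coprime_two_right.2 h)
        exact (Nat.prime_dvd_prime_iff_eq hp Nat.prime_three).1 (hp.dvd_of_dvd_pow h9')
    have hxp : (x : Cfsg.PSU 3 F 2) ^ p = 1 := by
      rw [← Subgroup.coe_pow, ← hx, pow_orderOf_eq_one, Subgroup.coe_one]
    have hπx : π x ^ p = 1 := by rw [← map_pow, hxp, map_one]
    have hmem : (x : Cfsg.PSU 3 F 2) ∈ H := by
      show π x ∈ Subgroup.zpowers _
      rcases hp23 with rfl | rfl
      · rw [pow_two] at hπx
        rcases htwo _ hπx with h | h <;> rw [h]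
        · exact one_mem _
        · exact Subgroup.mem_zpowers _
      · have h8 : orderOf (π x) ∣ 8 := by
          have := orderOf_dvd_natCard (π x)
          rwa [Nat.card_eq_fintype_card, QuaternionGroup.card] at this
        have h1 := Nat.dvd_gcd h8 (orderOf_dvd_of_pow_eq_one hπx)
        rw [show Nat.gcd 8 3 = 1 by rfl, Nat.dvd_one, orderOf_eq_one_iff] at h1
        rw [h1]; exact one_mem _
    have h1 : (x : Cfsg.PSU 3 F 2) = 1 := Subgroup.mem_bot.1 (hX.inf_eq_bot ▸ ⟨hmem, x.2⟩)
    rw [show x = 1 from Subtype.ext h1, orderOf_one] at hx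
    exact hp.one_lt.ne hx
  have htop := hX.sup_eq_top
  rw [hX1, sup_bot_eq] at htop
  obtain ⟨g, hg⟩ := hπ (QuaternionGroup.a 1)
  have : g ∈ H := htop ▸ Subgroup.mem_top g
  have h4 : π g ∈ Subgroup.zpowers (QuaternionGroup.a 2 : QuaternionGroup 2) := this
  rw [hg, Subgroup.mem_zpowers_iff] at h4
  obtain ⟨k, hk⟩ := h4
  have hsq := congrArg (fun y : QuaternionGroup 2 => y * y) hk
  change _ * _ = _ * _ at hsq
  rw [← zpow_add, ← two_mul, zpow_mul, show (QuaternionGroup.a 2 : QuaternionGroup 2) ^ (2 : ℤ) = 1 by decide, one_zpow] at hsq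
  exact absurd hsq (by decide)

end Cfsg.Agent.S5908
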