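import Cfsg.Statements.S5910
import Cfsg.Agent.Lib.ClassicalImprimitiveAlt

set_option autoImplicit false
open Cfsg

namespace Cfsg.Agent.S5910

namespace CfsgS5910

open Equiv Equiv.Perm

/-- addition in `F_2^3` on three-bit numbers -/
def X (i j : Fin 8) : Fin 8 := ⟨(i.val ^^^ j.val) % 8, Nat.mod_lt _ (by norm_num)⟩

/-- affine maps of `F_2^3` -/
def K : Subgroup (Equiv.Perm (Fin 8)) where
  carrier := {g | ∀ a b c, g (X (X a b) c) = X (X (g a) (g b)) (g c)}
  one_mem' := fun a b c => rfl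
  mul_mem' := fun {g h} hg hh a b c => by simp only [Perm.mul_apply]; rw [hh, hg]
  inv_mem' := fun {g} hg a b c => by
    apply g.injective
    rw [hg]
    simp

/-- inversion parity of a function -/
def par (f : Fin 8 → Fin 8) : ℤˣ :=
  ∏ x ∈ Equiv.Perm.finPairsLT 8, if f x.1 ≤ f x.2 then -1 else 1

lemma sign_eq_par (g : Equiv.Perm (Fin 8)) : Equiv.Perm.sign g = par g := by
  show Equiv.Perm.sign g = Equiv.Perm.signAux g
  refine Equiv.Perm.swap_induction_on g ?_ fun f x y hxy ih => ?_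
  · rw [Equiv.Perm.sign_one, signAux_one]
  · rw [Equiv.Perm.sign_mul, signAux_mul, sign_swap hxy, signAux_swap hxy, ih]

lemma key : ∀ a b, b ≠ a → b ≠ X a 1 → ∀ c, c ≠ a → c ≠ X a 1 → c ≠ b → c ≠ X b 1 →
    ∀ d, d ≠ a → d ≠ X a 1 → d ≠ b → d ≠ X b 1 → d ≠ c → d ≠ X c 1 →
    par ![a, X a 1, b, X b 1, c, X c 1, d, X d 1] = 1 → X (X a b) c = d := by
  decide +kernel

lemma affine_of : ∀ a b c, let d := X (X a b) c
    let f := ![a, X a 1, b, X b 1, c, X c 1, d, X d 1]
    ∀ i j k, f (X (X i j) k) = X (X (f i) (f j)) (f k) := by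
  decide +kernel

lemma mem_K_of (g : Equiv.Perm (Fin 8)) (hW : ∀ i j : Fin 8, (i.val / 2 = j.val / 2) → (g i).val / 2 = (g j).val / 2)
    (hs : Equiv.Perm.sign g = 1) : g ∈ K := by
  have hpair : ∀ i j : Fin 8, i ≠ j → i.val / 2 = j.val / 2 → j = X i 1 := by decide
  have h1 : ∀ i, g (X i 1) = X (g i) 1 := fun i => by
    have hx : ∀ i : Fin 8, i ≠ X i 1 ∧ i.val / 2 = (X i 1).val / 2 := by decide
    exact hpair _ _ (fun e => (hx i).1 (g.injective e)) (hW _ _ (hx i).2)
  have hne : ∀ i j : Fin 8, j.val / 2 ≠ i.val / 2 → g j ≠ g i ∧ g j ≠ X (g i) 1 := fun i j h => by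
    refine ⟨fun e => h (by rw [g.injective e]), fun e => h ?_⟩
    rw [← h1] at e
    rw [g.injective e]
    exact (show ∀ i : Fin 8, (X i 1).val / 2 = i.val / 2 by decide) i
  have he : ⇑g = ![g 0, X (g 0) 1, g 2, X (g 2) 1, g 4, X (g 4) 1, g 6, X (g 6) 1] := by
    funext i; fin_cases i
    all_goals first | rfl | exact h1 0 | exact h1 2 | exact h1 4 | exact h1 6
  obtain ⟨n1, n2⟩ := hne 0 2 (by decide)
  obtain ⟨n3, n4⟩ := hne 0 4 (by decide)
  obtain ⟨n5, n6⟩ := hne 2 4 (by decide)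
  obtain ⟨n7, n8⟩ := hne 0 6 (by decide)
  obtain ⟨n9, n10⟩ := hne 2 6 (by decide)
  obtain ⟨n11, n12⟩ := hne 4 6 (by decide)
  have hd := key (g 0) (g 2) n1 n2 (g 4) n3 n4 n5 n6 (g 6) n7 n8 n9 n10 n11 n12
    (by rw [← he, ← sign_eq_par]; exact hs)
  rw [← hd] at he
  intro i j k
  rw [he]
  exact affine_of (g 0) (g 2) (g 4) i j k

end CfsgS5910

/-- Let Ω be a set with 8 elements and f : Ω → Fin 4 a labelling whose four fibres all have size 2 (a partition of the 8 points into 4 pairs). Then the group of even permutations preserving this partition, (S₂ ≀ S₄) ∩ A₈, is not a maximal subgroup of the alternating group A₈ (it lies in a subgroup isomorphic to the affine group AGL₃(2)). -/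
theorem result {Ω : Type*} [Fintype Ω] [DecidableEq Ω] (h8 : Fintype.card Ω = 8)
    (f : Ω → Fin 4) (hf : ∀ i : Fin 4, Nat.card {x : Ω // f x = i} = 2) :
    ¬ IsCoatom ((Subgroup.closure {g : Equiv.Perm Ω | ∀ x y : Ω, f x = f y ↔ f (g x) = f (g y)} ⊓ alternatingGroup Ω).subgroupOf (alternatingGroup Ω)) := by
  rw [CfsgLib.ImprimAlt.closure_eq]
  have hfib : ∀ i : Fin 4, Nonempty (Fin 2 ≃ {x : Ω // f x = i}) := fun i =>
    ⟨Fintype.equivOfCardEq (by rw [Fintype.card_fin, ← Nat.card_eq_fintype_card, hf])⟩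
  let e : Ω ≃ Fin 8 := (Equiv.sigmaFiberEquiv f).symm.trans
    ((Equiv.sigmaCongrRight fun i => (Classical.choice (hfib i)).symm).trans
      ((Equiv.sigmaEquivProd (Fin 4) (Fin 2)).trans finProdFinEquiv))
  have he : ∀ x, (e x).val / 2 = (f x).val := fun x => by
    simp only [e, Equiv.trans_apply, finProdFinEquiv_apply_val]
    have hlt : ∀ t : Fin 2, (t : ℕ) < 2 := fun t => t.2
    show (((Classical.choice (hfib _)).symm _ : Fin 2).val + 2 * (f x).val) / 2 = _
    have := hlt ((Classical.choice (hfib (f x))).symm ⟨x, rfl⟩)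
    omega
  have hff : ∀ x y, f x = f y ↔ (e x).val / 2 = (e y).val / 2 := fun x y => by rw [he, he, Fin.ext_iff]
  intro hco
  let S : Subgroup (alternatingGroup Ω) :=
    (CfsgS5910.K.comap e.permCongrHom.toMonoidHom).subgroupOf (alternatingGroup Ω)
  have hle : (CfsgLib.ImprimAlt.W f ⊓ alternatingGroup Ω).subgroupOf (alternatingGroup Ω) ≤ S := by
    intro g hg
    have hg' : g.1 ∈ CfsgLib.ImprimAlt.W f := hg.1
    refine CfsgS5910.mem_K_of _ (fun i j h => ?_) ?_
    · have h' := (hff (e.symm i) (e.symm j)).mpr (by simpa using h)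
      exact (hff _ _).mp ((hg' _ _).mp h')
    · show Equiv.Perm.sign (e.permCongr g.1) = 1
      rw [Equiv.Perm.sign_permCongr]; exact Equiv.Perm.mem_alternatingGroup.mp g.2
  let t : Equiv.Perm (Fin 8) := Equiv.swap 1 4 * Equiv.swap 3 6
  let g₀ : Equiv.Perm Ω := e.symm.permCongr t
  have hg₀ : g₀ ∈ alternatingGroup Ω := Equiv.Perm.mem_alternatingGroup.mpr (by
    rw [Equiv.Perm.sign_permCongr, Equiv.Perm.sign_mul, Equiv.Perm.sign_swap (by decide),
      Equiv.Perm.sign_swap (by decide)]; rfl)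
  have hconj : ∀ s : Equiv.Perm (Fin 8), e.permCongr (e.symm.permCongr s) = s := fun s => by
    ext x; simp [Equiv.permCongr_apply]
  have hlt : (CfsgLib.ImprimAlt.W f ⊓ alternatingGroup Ω).subgroupOf (alternatingGroup Ω) < S := by
    refine lt_of_le_of_ne hle fun heq => ?_
    have hS : (⟨g₀, hg₀⟩ : alternatingGroup Ω) ∈ S := by
      show e.permCongr g₀ ∈ CfsgS5910.K
      rw [hconj]
      show ∀ a b c, t _ = _
      decide +kernel
    rw [← heq] at hS
    have hW : g₀ ∈ CfsgLib.ImprimAlt.W f := hS.1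
    have h' := (hW (e.symm 0) (e.symm 1)).mp ((hff _ _).mpr (by simp))
    rw [hff] at h'
    simp only [g₀, Equiv.permCongr_apply, Equiv.symm_symm, Equiv.apply_symm_apply] at h'
    revert h'
    decide
  have htop := hco.2 S hlt
  let c : Equiv.Perm (Fin 8) := Equiv.swap 0 1 * Equiv.swap 0 2
  have hc : e.symm.permCongr c ∈ alternatingGroup Ω := Equiv.Perm.mem_alternatingGroup.mpr (by
    rw [Equiv.Perm.sign_permCongr, Equiv.Perm.sign_mul, Equiv.Perm.sign_swap (by decide),
      Equiv.Perm.sign_swap (by decide)]; rfl)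
  have hcK : c ∈ CfsgS5910.K := by
    have := (htop ▸ Subgroup.mem_top _ : (⟨_, hc⟩ : alternatingGroup Ω) ∈ S)
    rw [← hconj c]; exact this
  exact absurd (hcK 1 2 4) (by decide +kernel)

end Cfsg.Agent.S5910
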