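import Cfsg.Statements.S5912
import Cfsg.Agent.Lib.ClassicalSymSix

set_option autoImplicit false
open Cfsg

namespace Cfsg.Agent.S5912

/-- The symmetric group on a 6-element set Ω has exactly two conjugacy classes of subgroups of index 6: there are two non-conjugate subgroups of index 6 (a point stabilizer and a transitive subgroup isomorphic to S₅), and every subgroup of index 6 is conjugate to one of them. -/
theorem result {Ω : Type*} [Fintype Ω] [DecidableEq Ω] (h6 : Fintype.card Ω = 6) :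
    ∃ H₁ H₂ : Subgroup (Equiv.Perm Ω), H₁.index = 6 ∧ H₂.index = 6 ∧
      (¬ ∃ g : Equiv.Perm Ω, Subgroup.map (MulAut.conj g).toMonoidHom H₁ = H₂) ∧
      ∀ H : Subgroup (Equiv.Perm Ω), H.index = 6 →
        ∃ g : Equiv.Perm Ω, Subgroup.map (MulAut.conj g).toMonoidHom H₁ = H ∨ Subgroup.map (MulAut.conj g).toMonoidHom H₂ = H := by
  classical
  obtain ⟨φ, hne, hall⟩ := CfsgLib.Classical.index_six_dichotomy h6
  obtain ⟨a⟩ : Nonempty Ω := Fintype.card_pos_iff.mp (by omega)
  have hconj : ∀ (g : Equiv.Perm Ω), (MulAction.stabilizer (Equiv.Perm Ω) a).map (MulAut.conj g).toMonoidHom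
      = MulAction.stabilizer (Equiv.Perm Ω) (g a) := fun g =>
    (MulAction.stabilizer_smul_eq_stabilizer_map_conj g a).symm
  have hidx : (MulAction.stabilizer (Equiv.Perm Ω) a).index = 6 := by
    rw [MulAction.index_stabilizer_of_transitive, Nat.card_eq_fintype_card, h6]
  refine ⟨MulAction.stabilizer (Equiv.Perm Ω) a, (MulAction.stabilizer (Equiv.Perm Ω) a).comap φ.toMonoidHom,
    hidx, by rw [Subgroup.index_comap_of_surjective _ φ.surjective, hidx], ?_, fun H hH => ?_⟩
  · rintro ⟨g, hg⟩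
    rw [hconj] at hg
    exact hne _ _ hg
  rcases hall H hH with ⟨x, rfl⟩ | ⟨y, rfl⟩
  · obtain ⟨g, rfl⟩ := MulAction.exists_smul_eq (Equiv.Perm Ω) a x
    exact ⟨g, Or.inl (hconj g)⟩
  · obtain ⟨g, rfl⟩ := MulAction.exists_smul_eq (Equiv.Perm Ω) a y
    refine ⟨φ.symm g, Or.inr ?_⟩
    rw [show (g • a) = g a from rfl, ← hconj g]
    ext x
    simp only [Subgroup.mem_map, Subgroup.mem_comap, MulAction.mem_stabilizer_iff, MulEquiv.coe_toMonoidHom, MulAut.conj_apply]
    constructor
    · rintro ⟨z, hz, rfl⟩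
      exact ⟨φ z, hz, by simp⟩
    · rintro ⟨z, hz, he⟩
      refine ⟨φ.symm z, by rwa [MulEquiv.apply_symm_apply], φ.injective ?_⟩
      simpa using he

end Cfsg.Agent.S5912
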