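import Cfsg.Statements.S5913
import Mathlib

set_option autoImplicit false
open Cfsg

namespace Cfsg.Agent.S5913

/-- Let S be a non-abelian simple group and n a natural number. Every normal subgroup N of the direct power S^n (functions Fin n → S) is a subproduct: there is a set T of coordinates such that N consists exactly of the elements whose coordinates outside T are trivial. In particular the minimal normal subgroups of S^n are its n factors. -/
theorem result {S : Type*} [Group S] [IsSimpleGroup S] (hS : ¬ IsMulCommutative S) (n : ℕ)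
    (N : Subgroup (Fin n → S)) [N.Normal] :
    ∃ T : Finset (Fin n), ∀ x : Fin n → S, x ∈ N ↔ ∀ i, i ∉ T → x i = 1 := by
  classical
  refine ⟨Finset.univ.filter fun i => ∃ x ∈ N, x i ≠ 1, fun x => ⟨fun hx i hi => ?_, fun hx => ?_⟩⟩
  · by_contra h
    exact hi (Finset.mem_filter.mpr ⟨Finset.mem_univ _, x, hx, h⟩)
  · refine N.pi_mem_of_mulSingle_mem x fun i => ?_
    by_cases hi : ∃ y ∈ N, y i ≠ 1
    · obtain ⟨y, hy, hyi⟩ := hi
      obtain ⟨s, hs⟩ : ∃ s, y i * s ≠ s * y i := by
        by_contra! hcomm
        have hmem : y i ∈ Subgroup.center S := Subgroup.mem_center_iff.mpr fun s => (hcomm s).symm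
        rcases (inferInstance : (Subgroup.center S).Normal).eq_bot_or_eq_top with hb | ht
        · rw [hb] at hmem; exact hyi hmem
        · exact hS ⟨⟨fun u v => Subgroup.mem_center_iff.mp (ht ▸ Subgroup.mem_top v) u⟩⟩
      haveI : (N.comap (MonoidHom.mulSingle (fun _ : Fin n => S) i)).Normal :=
        Subgroup.Normal.comap inferInstance _
      have hc : y i * s * (y i)⁻¹ * s⁻¹ ∈ N.comap (MonoidHom.mulSingle (fun _ : Fin n => S) i) := by
        have h : y * Pi.mulSingle i s * y⁻¹ * (Pi.mulSingle i s)⁻¹ ∈ N := by
          rw [mul_assoc, mul_assoc]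
          refine N.mul_mem hy ?_
          rw [← mul_assoc]
          exact (inferInstance : N.Normal).conj_mem _ (N.inv_mem hy) _
        have he : y * Pi.mulSingle i s * y⁻¹ * (Pi.mulSingle i s)⁻¹ =
            Pi.mulSingle i (y i * s * (y i)⁻¹ * s⁻¹) := by
          ext j
          by_cases hj : j = i
          · subst hj; simp
          · simp [Pi.mulSingle_eq_of_ne hj]
        rw [Subgroup.mem_comap]
        rw [he] at h
        exact h
      rcases (inferInstance : (N.comap (MonoidHom.mulSingle (fun _ : Fin n => S) i)).Normal).eq_bot_or_eq_top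
        with hb | ht
      · rw [hb, Subgroup.mem_bot] at hc
        exact absurd (by rwa [mul_inv_eq_one, mul_inv_eq_iff_eq_mul] at hc) hs
      · exact Subgroup.mem_comap.mp (ht ▸ Subgroup.mem_top (x i))
    · rw [hx i (fun h => hi (Finset.mem_filter.mp h).2), Pi.mulSingle_one]
      exact N.one_mem

end Cfsg.Agent.S5913
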