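import Cfsg.Statements.S5939
import Cfsg.Agent.Lib.DicksonPolyMax

set_option autoImplicit false
open Cfsg

namespace Cfsg.Agent.S5939

/-- Let p be a prime and F a finite field of characteristic p such that either F has p elements and p ≡ ±1 (mod 10), or F has p² elements and p ≡ ±3 (mod 10). Then PSL_2(F) has a maximal subgroup isomorphic to the alternating group A_5. -/
theorem result {F : Type*} [Field F] [Fintype F] (p : ℕ) [Fact p.Prime] [CharP F p] (h : (Fintype.card F = p ∧ (p % 10 = 1 ∨ p % 10 = 9)) ∨ (Fintype.card F = p ^ 2 ∧ (p % 10 = 3 ∨ p % 10 = 7))) : ∃ H : Subgroup (Matrix.ProjectiveSpecialLinearGroup (Fin 2) F), IsCoatom H ∧ Nonempty (H ≃* alternatingGroup (Fin 5)) := by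
  have hp := (Fact.out : p.Prime)
  have hp2 : p ≠ 2 := by
    rcases h with ⟨-, h⟩ | ⟨-, h⟩ <;> omega
  have hpodd : p % 2 = 1 := Nat.odd_iff.mp (hp.odd_of_ne_two hp2)
  have hp1 : 7 ≤ p ∨ p = 3 := by
    have := hp.two_le
    by_contra hc
    push Not at hc
    rcases h with ⟨-, h⟩ | ⟨-, h⟩ <;> omega
  have hdvd : 5 ∣ Fintype.card F * (Fintype.card F ^ 2 - 1) := by
    rcases h with ⟨hq, h⟩ | ⟨hq, h⟩
    · rw [hq, CfsgLib.Dickson.five_dvd_iff p hp]
      omega
    · have h1 : 1 ≤ (Fintype.card F) ^ 2 := Nat.one_le_pow _ _ Fintype.card_pos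
      have h2 : (Fintype.card F) ^ 2 % 5 = 1 := by
        rw [hq, ← pow_mul, Nat.pow_mod]
        rcases h with h | h
        · rw [show p % 5 = 3 by omega]
        · rw [show p % 5 = 2 by omega]
      exact Dvd.dvd.mul_left (Nat.dvd_of_mod_eq_zero (by omega)) _
  obtain ⟨H, ⟨e⟩⟩ := (Cfsg.Agent.S0804.result rfl).mpr hdvd
  have hH : Nat.card H = 60 := by
    rw [Nat.card_congr e.toEquiv, nat_card_alternatingGroup, Nat.card_fin]; rfl
  have hpair : CfsgLib.Dickson.HasPair H :=
    CfsgLib.Dickson.hasPair_map e.symm.toMonoidHom e.symm.injective CfsgLib.Dickson.hasPair_alt_five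
  have hq9 : 9 ≤ Fintype.card F := by
    rcases h with ⟨hq, h'⟩ | ⟨hq, h'⟩
    · omega
    · rw [hq, pow_two]; have := Nat.mul_le_mul (show 3 ≤ p by omega) (show 3 ≤ p by omega); omega
  refine ⟨H, ⟨fun h' => ?_, fun M hM => ?_⟩, ⟨e⟩⟩
  · have hG := CfsgLib.Dickson.card_psl (F := F) rfl (p := p)
    rw [show Nat.card (CfsgLib.Dickson.PSL F) = 60 by rw [← hH, h', Subgroup.card_top]] at hG
    have hd : Nat.gcd 2 (Fintype.card F - 1) ≤ 2 := Nat.le_of_dvd two_pos (Nat.gcd_dvd_left 2 _)
    have : 9 * 8 * 10 ≤ Fintype.card F * (Fintype.card F - 1) * (Fintype.card F + 1) :=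
      Nat.mul_le_mul (Nat.mul_le_mul hq9 (by omega)) (by omega)
    omega
  · by_contra hMtop
    have hlt : Nat.card H < Nat.card M := lt_of_le_of_ne (Subgroup.card_le_of_le hM.le)
      fun h => hM.ne (Subgroup.eq_of_le_of_card_ge hM.le h.ge)
    have hdvd' := Subgroup.card_dvd_of_le hM.le
    rw [hH] at hlt hdvd'
    rcases CfsgLib.Dickson.overgroup_cases (p := p) rfl hp2 hpair hM.le with ⟨⟨f⟩⟩ | ⟨⟨f⟩⟩ | ⟨⟨f⟩⟩ | ⟨K, hK, hKf, m, hm, hiso⟩
    · rw [Nat.card_congr f.toEquiv, nat_card_alternatingGroup, Nat.card_fin, show (4 : ℕ).factorial / 2 = 12 from rfl] at hlt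
      omega
    · rw [Nat.card_congr f.toEquiv, Nat.card_perm, Nat.card_fin, show (4 : ℕ).factorial = 24 from rfl] at hlt
      omega
    · rw [Nat.card_congr f.toEquiv, nat_card_alternatingGroup, Nat.card_fin, show (5 : ℕ).factorial / 2 = 60 from rfl] at hlt
      omega
    · by_cases hKq : Fintype.card K = Fintype.card F
      · exact hMtop (CfsgLib.Dickson.eq_top_of_subfield (p := p) rfl hKq hiso)
      -- the only proper subfield is the prime field of a quadratic extension
      have hm0 : m ≠ 0 := fun e => by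
        rw [e, pow_zero] at hm
        have := Fintype.one_lt_card (α := F)
        omega
      obtain ⟨hq, hp10, hKp⟩ : Fintype.card F = p ^ 2 ∧ (p % 10 = 3 ∨ p % 10 = 7) ∧ Fintype.card K = p := by
        rcases h with ⟨hq, h'⟩ | ⟨hq, h'⟩
        · exfalso
          rw [hq] at hm hKq
          rcases m with _ | _ | m
          · exact hm0 rfl
          · exact hKq (by simpa using hm)
          · exact absurd (hm.symm ▸ hp) (Nat.Prime.not_prime_pow (by omega))
        · refine ⟨hq, h', ?_⟩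
          rw [hq] at hm hKq
          obtain ⟨j, hj, hjK⟩ := (Nat.dvd_prime_pow hp).mp (hm ▸ dvd_pow_self (Fintype.card K) hm0)
          rcases j with _ | _ | j
          · rw [pow_zero] at hjK
            have := Fintype.one_lt_card (α := K)
            omega
          · simpa using hjK
          · exact absurd (by rw [hjK, show j + 1 + 1 = 2 by omega]) hKq
      have hMp : Nat.card M ∣ p * (p ^ 2 - 1) := by
        have hfac : p * (p - 1) * (p + 1) = p * (p ^ 2 - 1) := by
          rw [show p ^ 2 - 1 = p ^ 2 - 1 ^ 2 by rw [one_pow], Nat.sq_sub_sq, mul_assoc, mul_comm (p + 1)]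
        rw [← hfac]
        obtain ⟨p', hchar⟩ := CharP.exists K
        obtain ⟨i, hp', -⟩ := FiniteField.card K p'
        haveI := Fact.mk hp'
        rcases hiso with ⟨⟨f⟩⟩ | ⟨⟨f⟩⟩
        · rw [Nat.card_congr f.toEquiv, ← CfsgLib.Dickson.card_psl hKp (p := p')]
          exact dvd_mul_right _ _
        · rw [Nat.card_congr f.toEquiv, CfsgLib.Dickson.card_pgl_two, hKp]
      have := (CfsgLib.Dickson.five_dvd_iff p hp).mp ((dvd_trans (by norm_num : 5 ∣ 60) hdvd').trans hMp)
      omega

end Cfsg.Agent.S5939
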