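import Cfsg.Statements.S5940
import Cfsg.Agent.Lib.DicksonPolyMax

set_option autoImplicit false
open Cfsg

namespace Cfsg.Agent.S5940

/-- Let p ≥ 5 be a prime with p ≡ ±3 (mod 8) and p ≢ ±1 (mod 10), and F a field with p elements. Then PSL_2(F) has a maximal subgroup isomorphic to the alternating group A_4. -/
theorem result {F : Type*} [Field F] [Fintype F] (p : ℕ) [Fact p.Prime] (hF : Fintype.card F = p) (h5 : 5 ≤ p) (h8 : p % 8 = 3 ∨ p % 8 = 5) (h10 : p % 10 ≠ 1 ∧ p % 10 ≠ 9) : ∃ H : Subgroup (Matrix.ProjectiveSpecialLinearGroup (Fin 2) F), IsCoatom H ∧ Nonempty (H ≃* alternatingGroup (Fin 4)) := by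
  haveI : CharP F p := charP_of_card_eq_prime_pow (f := 1) (by rw [hF, pow_one])
  have hp := (Fact.out : p.Prime)
  have hp2 : p ≠ 2 := by omega
  obtain ⟨H, hH, ⟨e⟩⟩ := CfsgLib.Classical.exists_alt_four_of_odd (F := F) (hF ▸ hp.odd_of_ne_two hp2)
  have hpair : CfsgLib.Dickson.HasPair H :=
    CfsgLib.Dickson.hasPair_map e.symm.toMonoidHom e.symm.injective CfsgLib.Dickson.hasPair_alt_four
  refine ⟨H, ⟨fun h => ?_, fun M hM => ?_⟩, ⟨e⟩⟩
  · have hG := CfsgLib.Dickson.card_psl hF (p := p)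
    rw [show Nat.card (CfsgLib.Dickson.PSL F) = 12 by rw [← hH, h, Subgroup.card_top]] at hG
    have hd : Nat.gcd 2 (p - 1) ≤ 2 := Nat.le_of_dvd two_pos (Nat.gcd_dvd_left 2 (p - 1))
    have : 5 * 4 * 6 ≤ p * (p - 1) * (p + 1) := Nat.mul_le_mul (Nat.mul_le_mul h5 (by omega)) (by omega)
    omega
  · by_contra hMtop
    have hlt : Nat.card H < Nat.card M := lt_of_le_of_ne (Subgroup.card_le_of_le hM.le)
      fun h => hM.ne (Subgroup.eq_of_le_of_card_ge hM.le h.ge)
    rw [hH] at hlt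
    rcases CfsgLib.Dickson.overgroup_cases (p := p) hF hp2 hpair hM.le with ⟨⟨f⟩⟩ | ⟨⟨f⟩⟩ | ⟨⟨f⟩⟩ | ⟨K, hK, hKf, m, hm, hiso⟩
    · rw [Nat.card_congr f.toEquiv, nat_card_alternatingGroup, Nat.card_fin, show (4 : ℕ).factorial / 2 = 12 from rfl] at hlt
      omega
    · exact CfsgLib.Dickson.sq_mod_sixteen p h8 ((Cfsg.Agent.S0803.result hF).mp ⟨M, ⟨f⟩⟩)
    · have h5' := (CfsgLib.Dickson.five_dvd_iff p hp).mp ((Cfsg.Agent.S0804.result hF).mp ⟨M, ⟨f⟩⟩)
      have hpodd : p % 2 = 1 := Nat.odd_iff.mp (hp.odd_of_ne_two hp2)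
      rcases h5' with h | h | h
      · refine hMtop (Subgroup.eq_top_of_card_eq _ ?_)
        rw [Nat.card_congr f.toEquiv, nat_card_alternatingGroup, Nat.card_fin, CfsgLib.Dickson.card_top_of_five p hF h]
        rfl
      · omega
      · omega
    · refine hMtop (CfsgLib.Dickson.eq_top_of_subfield (p := p) hF ?_ hiso)
      rcases m with _ | _ | m
      · rw [pow_zero] at hm
        exact absurd hm.symm (Fact.out : p.Prime).ne_one
      · simpa using hm
      · exact absurd (hm.symm ▸ (Fact.out : p.Prime)) (Nat.Prime.not_prime_pow (by omega))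

end Cfsg.Agent.S5940
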