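import Cfsg.Statements.S5946
import Mathlib

set_option autoImplicit false
open Cfsg

namespace Cfsg.Agent.S5946

/-- Let F ⊆ K be finite fields with [K : F] = n ≥ 2 and regard K as an n-dimensional F-vector space. The Singer group M ≤ GL_F(K) of multiplications by the non-zero elements of K is self-centralizing: every F-linear automorphism of K commuting with all of M lies in M. -/
theorem result {F K : Type*} [Field F] [Fintype F] [Field K] [Fintype K] [Algebra F K] (n : ℕ) (hn : 2 ≤ n) (hdim : Module.finrank F K = n) :
    Subgroup.centralizer (((Units.map ((Algebra.lmul F K : K →ₐ[F] Module.End F K) : K →* Module.End F K)).range : Subgroup (Module.End F K)ˣ) : Set (Module.End F K)ˣ) = (Units.map ((Algebra.lmul F K : K →ₐ[F] Module.End F K) : K →* Module.End F K)).range := by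
  classical
  refine le_antisymm (fun g hg => ?_) ?_
  · have h1 : (g : Module.End F K) 1 ≠ 0 := fun h => by
      have hi : ((g⁻¹ : (Module.End F K)ˣ) : Module.End F K) ((g : Module.End F K) 1) = 1 := by
        rw [← Module.End.mul_apply, ← Units.val_mul, inv_mul_cancel]; rfl
      rw [h, map_zero] at hi
      exact zero_ne_one hi
    refine ⟨Units.mk0 _ h1, Units.ext (LinearMap.ext fun c => ?_)⟩
    show (g : Module.End F K) 1 * c = (g : Module.End F K) c
    by_cases hc : c = 0
    · simp [hc]
    have h := Subgroup.mem_centralizer_iff.mp hg _ ⟨Units.mk0 c hc, rfl⟩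
    have h' := LinearMap.congr_fun (congrArg Units.val h) 1
    change c * (g : Module.End F K) 1 = (g : Module.End F K) (c * 1) at h'
    rw [mul_one] at h'
    rw [← h', mul_comm]
  · rintro _ ⟨c, rfl⟩
    rw [Subgroup.mem_centralizer_iff]
    rintro _ ⟨d, rfl⟩
    rw [← map_mul, ← map_mul, mul_comm]

end Cfsg.Agent.S5946
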