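import Cfsg.Statements.S5947
import Cfsg.Agent.Lib.ClassicalSinger

set_option autoImplicit false
open Cfsg

namespace Cfsg.Agent.S5947

/-- Let F ⊆ K be finite fields with |F| = q and [K : F] = n ≥ 2, regard K as an n-dimensional F-vector space, and let M ≤ GL_F(K) be the Singer group of multiplications by non-zero elements of K (cyclic of order q^n − 1). Assume (n, q) ≠ (6, 2), and that it is not the case that n = 2 with q a prime such that q + 1 is a power of 2. Then every abelian subgroup of GL_F(K) of order q^n − 1 is conjugate to M. -/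
theorem result {F K : Type*} [Field F] [Fintype F] [Field K] [Fintype K] [Algebra F K] (n : ℕ) (hn : 2 ≤ n) (hdim : Module.finrank F K = n)
    (hex1 : ¬ (n = 6 ∧ Fintype.card F = 2))
    (hex2 : ¬ (n = 2 ∧ (Fintype.card F).Prime ∧ ∃ a : ℕ, Fintype.card F + 1 = 2 ^ a))
    (U : Subgroup (Module.End F K)ˣ) (hU : IsMulCommutative U) (hcard : Nat.card U = Fintype.card K - 1) :
    ∃ g : (Module.End F K)ˣ, U.map (MulAut.conj g).toMonoidHom = (Units.map ((Algebra.lmul F K : K →ₐ[F] Module.End F K) : K →* Module.End F K)).range := by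
  obtain ⟨p, hp⟩ := CharP.exists F
  haveI := hp
  haveI : Fact p.Prime := ⟨CharP.char_is_prime F p⟩
  have hq : 1 < Fintype.card F := Fintype.one_lt_card
  have h2 : ¬ (n = 2 ∧ ∃ m : ℕ, Fintype.card F + 1 = 2 ^ m) := by
    rintro ⟨h, m, hm⟩
    exact hex2 ⟨h, CfsgLib.Singer.prime_of_succ_eq_two_pow F m hm, m, hm⟩
  obtain ⟨r, hr, hrd, hrp⟩ := CfsgLib.Local.zsigmondy (Fintype.card F) n hq (by omega)
    (fun h => hex1 ⟨h.2, h.1⟩) h2
  haveI := Fact.mk hr
  haveI : FiniteDimensional F K := Module.Finite.of_finite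
  have hcK : Fintype.card K = Fintype.card F ^ n := by
    rw [Module.card_eq_pow_finrank (K := F) (V := K), hdim]
  obtain ⟨f, hf, ι, hfin, hU'⟩ :=
    CfsgLib.Singer.exists_field n hdim r hrd hrp U hU (by rw [hcard, hcK])
  haveI := hf
  exact CfsgLib.Singer.conj_range n (by omega) p hdim ι hfin U hU'

end Cfsg.Agent.S5947
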